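import Cfsg.Agent.H8.Delta
import Cfsg.Agent.H8.BaseChange
import Cfsg.Agent.H7.FldAut

set_option autoImplicit false

namespace CfsgH8

open QuadraticMap Module

/-- base change data -/
structure BC {F₀ V₀ F V : Type*} [Field F₀] [AddCommGroup V₀] [Module F₀ V₀] [Field F]
    [AddCommGroup V] [Module F V] (Q₀ : QuadraticForm F₀ V₀) (Q : QuadraticForm F V) where
  φ : F₀ →+* F
  j : V₀ →+ V
  c : Fˣ
  smul : ∀ a x, j (a • x) = φ a • j x
  mapQ : ∀ x, Q (j x) = c * φ (Q₀ x)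
  span : Submodule.span F (Set.range j) = ⊤
  rank : finrank F V = finrank F₀ V₀

variable {F₀ V₀ F V : Type*} [Field F₀] [AddCommGroup V₀] [Module F₀ V₀] [Field F]
  [AddCommGroup V] [Module F V] {Q₀ : QuadraticForm F₀ V₀} {Q : QuadraticForm F V}

namespace BC

variable (B : BC Q₀ Q)

lemma polar (x y : V₀) :
    QuadraticMap.polar Q (B.j x) (B.j y) = B.c * B.φ (QuadraticMap.polar Q₀ x y) := by
  simp only [QuadraticMap.polar, ← map_add, B.mapQ, map_sub]; ring

lemma induction {P : V → Prop} (h1 : ∀ a : F, ∀ x, P (a • B.j x)) (h2 : ∀ x y, P x → P y → P (x + y))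
    (v : V) : P v := by
  have hv : v ∈ Submodule.span F (Set.range B.j) := B.span ▸ trivial
  suffices ∀ a : F, P (a • v) by simpa using this 1
  induction hv using Submodule.span_induction with
  | mem y hy => obtain ⟨x, rfl⟩ := hy; exact fun a => h1 a x
  | zero => intro a; simpa using h1 0 0
  | add y z _ _ hy hz => intro a; rw [smul_add]; exact h2 _ _ (hy a) (hz a)
  | smul b y _ hy => intro a; rw [smul_smul]; exact hy _

lemma lin_ext {W : Type*} [AddCommGroup W] [Module F W] {f g : V →ₗ[F] W}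
    (h : ∀ x, f (B.j x) = g (B.j x)) : f = g :=
  LinearMap.ext_on B.span (by rintro _ ⟨x, rfl⟩; exact h x)

lemma gam_ext {V' : Type*} [AddCommGroup V'] [Module F V'] {Q' : QuadraticForm F V'}
    {γ δ : SIso Q Q'} (h0 : γ.σ = δ.σ) (h : ∀ x, γ.T (B.j x) = δ.T (B.j x)) (v : V) :
    γ.T v = δ.T v :=
  B.induction (P := fun v => γ.T v = δ.T v) (fun a x => by simp only [SIso.smul, h0, h])
    (fun x y hx hy => by simp only [map_add, hx, hy]) v

lemma quad_ext {Q' Q'' : QuadraticForm F V} (h : ∀ x, Q' (B.j x) = Q'' (B.j x)) (v : V) :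
    Q' v = Q'' v := by
  refine quad_ext_span (s := Set.range B.j) ?_ ?_ (B.span ▸ trivial)
  · rintro _ ⟨x, rfl⟩; exact h x
  · rintro _ ⟨x, rfl⟩ _ ⟨y, rfl⟩
    simp only [QuadraticMap.polar, ← map_add, h]

lemma j_sum {ι : Type*} [Fintype ι] (b : Basis ι F₀ V₀) (x : V₀) :
    B.j x = ∑ i, B.φ (b.repr x i) • B.j (b i) := by
  conv_lhs => rw [← b.sum_repr x, map_sum]
  simp only [B.smul]

/-- the basis obtained by base change -/
noncomputable def basis {ι : Type*} [Fintype ι] (b : Basis ι F₀ V₀) : Basis ι F V :=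
  basisOfTopLeSpanOfCardEqFinrank (fun i => B.j (b i)) (by
    rw [← B.span, Submodule.span_le]
    rintro _ ⟨x, rfl⟩
    rw [B.j_sum b]
    exact Submodule.sum_mem _ fun i _ => Submodule.smul_mem _ _ (Submodule.subset_span ⟨i, rfl⟩))
    (by rw [B.rank, finrank_eq_card_basis b])

@[simp] lemma basis_apply {ι : Type*} [Fintype ι] (b : Basis ι F₀ V₀) (i : ι) :
    B.basis b i = B.j (b i) := by simp [basis]

lemma basis_repr {ι : Type*} [Fintype ι] (b : Basis ι F₀ V₀) (x : V₀) (i : ι) :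
    (B.basis b).repr (B.j x) i = B.φ (b.repr x i) := by
  rw [B.j_sum b]
  simp only [← B.basis_apply b]
  rw [Basis.repr_sum_self]

/-- composition with a semisimilarity on the right -/
def comp {F₁ V₁ : Type*} [Field F₁] [AddCommGroup V₁] [Module F₁ V₁] {Q₁ : QuadraticForm F₁ V₁}
    (e : SIso Q₁ Q₀) : BC Q₁ Q where
  φ := B.φ.comp e.σ.toRingHom
  j := B.j.comp e.T.toAddMonoidHom
  c := B.c * Units.map B.φ.toMonoidHom e.c
  smul a x := by simp [e.smul, B.smul]
  mapQ x := by simp [e.mapQ, B.mapQ, mul_assoc]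
  span := by
    rw [← B.span]
    congr 1
    exact e.T.surjective.range_comp B.j
  rank := by rw [B.rank, e.finrank_eq]

/-- composition with a semisimilarity on the left -/
def postcomp {F₁ V₁ : Type*} [Field F₁] [AddCommGroup V₁] [Module F₁ V₁] {Q₁ : QuadraticForm F₁ V₁}
    (e : SIso Q Q₁) : BC Q₀ Q₁ where
  φ := e.σ.toRingHom.comp B.φ
  j := e.T.toAddMonoidHom.comp B.j
  c := e.c * Units.map e.σ.toMonoidHom B.c
  smul a x := by simp [e.smul, B.smul]
  mapQ x := by simp [e.mapQ, B.mapQ, mul_assoc]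
  span := by
    rw [eq_top_iff]
    rintro v -
    obtain ⟨v, rfl⟩ := e.T.surjective v
    induction v using B.induction with
    | h1 a x => rw [e.smul]; exact Submodule.smul_mem _ _ (Submodule.subset_span ⟨x, rfl⟩)
    | h2 x y hx hy => rw [map_add]; exact Submodule.add_mem _ hx hy
  rank := by rw [e.finrank_eq, B.rank]

variable [FiniteDimensional F₀ V₀]

include B in
lemma finiteDimensional : FiniteDimensional F V :=
  Module.Finite.of_basis (B.basis (Module.finBasis F₀ V₀))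

lemma j_injective : Function.Injective B.j := by
  rw [injective_iff_map_eq_zero]
  intro x hx
  let b := Module.finBasis F₀ V₀
  refine b.ext_elem fun i => B.φ.injective ?_
  rw [← B.basis_repr, hx]; simp

include B in
lemma nd (h : ND Q₀) : ND Q := by
  let b := Module.finBasis F₀ V₀
  refine nd_of_det_gram_ne (B.basis b) ?_
  have : gram Q (B.basis b) = (B.c : F) • (gram Q₀ b).map B.φ := by
    ext i j; simp [gram, B.polar]
  rw [this, Matrix.det_smul, ← RingHom.mapMatrix_apply, ← RingHom.map_det]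
  simpa using h.det_gram_ne b

omit [FiniteDimensional F₀ V₀] in
include B in
lemma nd₀ [FiniteDimensional F₀ V₀] (h : ND Q) : ND Q₀ :=
  ND.of_forall fun x hx => B.j_injective (by
    rw [map_zero]
    refine h.eq_zero fun v => ?_
    induction v using B.induction with
    | h1 a y => rw [polar_sr, B.polar, hx]; simp
    | h2 y z hy hz => rw [polar_add_right, hy, hz, add_zero])

/-- the linear map between two base changes -/
noncomputable def lift {W : Type*} [AddCommGroup W] [Module F W] (f : V₀ → W) : V →ₗ[F] W :=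
  (B.basis (Module.finBasis F₀ V₀)).constr F fun i => f (Module.finBasis F₀ V₀ i)

lemma lift_j {W : Type*} [AddCommGroup W] [Module F W] (f : V₀ →+ W)
    (hf : ∀ a x, f (a • x) = B.φ a • f x) (x : V₀) : B.lift f (B.j x) = f x := by
  let b := Module.finBasis F₀ V₀
  conv_lhs => rw [B.j_sum b, map_sum]
  conv_rhs => rw [← b.sum_repr x, map_sum]
  refine Finset.sum_congr rfl fun i _ => ?_
  rw [map_smul, hf, ← B.basis_apply, lift, Basis.constr_basis]

/-- two base changes along the same embedding are similar -/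
lemma exists_siso {V' : Type*} [AddCommGroup V'] [Module F V'] {Q' : QuadraticForm F V'}
    (B' : BC Q₀ Q') (h : B'.φ = B.φ) :
    ∃ e : SIso Q Q', e.σ = RingEquiv.refl F ∧ e.c = B'.c * B.c⁻¹ ∧ ∀ x, e.T (B.j x) = B'.j x := by
  have h1 := B.lift_j B'.j (by rw [← h]; exact B'.smul)
  have h2 := B'.lift_j B.j (by rw [h]; exact B.smul)
  refine ⟨SIso.ofSim (LinearEquiv.ofLinearMap (B.lift B'.j) (B'.lift B.j)
    (B'.lin_ext fun x => by simp [h1, h2]) (B.lin_ext fun x => by simp [h1, h2]))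
    (B'.c * B.c⁻¹).ne_zero fun v => ?_, rfl, Units.ext rfl, h1⟩
  refine B.quad_ext (Q' := Q'.comp (B.lift B'.j)) (Q'' := ((B'.c * B.c⁻¹ : Fˣ) : F) • Q)
    (fun x => ?_) v
  have := B.c.ne_zero
  simp [h1, B'.mapQ, B.mapQ, h]
  field_simp

/-- extension of linear maps -/
noncomputable def extL (g : V₀ →ₗ[F₀] V₀) : V →ₗ[F] V := B.lift (B.j.comp g.toAddMonoidHom)

@[simp] lemma extL_j (g : V₀ →ₗ[F₀] V₀) (x : V₀) : B.extL g (B.j x) = B.j (g x) :=
  B.lift_j (B.j.comp g.toAddMonoidHom) (fun a x => by simp [B.smul]) x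

lemma det_extL (g : V₀ →ₗ[F₀] V₀) : LinearMap.det (B.extL g) = B.φ (LinearMap.det g) := by
  let b := Module.finBasis F₀ V₀
  rw [← LinearMap.det_toMatrix (B.basis b), ← LinearMap.det_toMatrix b, RingHom.map_det]
  congr 1
  ext i j
  simp [LinearMap.toMatrix_apply, B.basis_repr]

/-- extension of linear automorphisms -/
noncomputable def extE (g : V₀ ≃ₗ[F₀] V₀) : V ≃ₗ[F] V :=
  LinearEquiv.ofLinearMap (B.extL g) (B.extL g.symm) (B.lin_ext fun x => by simp)
    (B.lin_ext fun x => by simp)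

@[simp] lemma extE_j (g : V₀ ≃ₗ[F₀] V₀) (x : V₀) : B.extE g (B.j x) = B.j (g x) := B.extL_j _ x

lemma Q_extE (g : V₀ ≃ₗ[F₀] V₀) {c : F₀} (h : ∀ x, Q₀ (g x) = c * Q₀ x) (v : V) :
    Q (B.extE g v) = B.φ c * Q v :=
  B.quad_ext (Q' := Q.comp (B.extE g).toLinearMap) (Q'' := B.φ c • Q)
    (fun x => by simp [B.mapQ, h]; ring) v

/-- extension of isometries -/
noncomputable def extO : OG Q₀ →* OG Q where
  toFun g := ⟨B.extE g.1, fun v => by simpa using B.Q_extE g.1 (c := 1) (by simp) v⟩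
  map_one' := Subtype.ext (LinearEquiv.toLinearMap_injective (B.lin_ext fun x => by simp))
  map_mul' g h := Subtype.ext (LinearEquiv.toLinearMap_injective (B.lin_ext fun x => by simp))

@[simp] lemma extO_j (g : OG Q₀) (x : V₀) : (B.extO g).1 (B.j x) = B.j (g.1 x) := B.extE_j _ x

/-- extension of similarities -/
noncomputable def extF (γ : GO Q₀) : Gam Q :=
  SIso.ofSim (B.extE (γ.1.lin γ.2)) (c := B.φ γ.1.c) (by simp) (B.Q_extE _ (Gam.mapQ_of_lin γ.2))

lemma extF_j (γ : GO Q₀) (x : V₀) : (B.extF γ).T (B.j x) = B.j (γ.1.T x) := B.extE_j _ x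
lemma extF_σ (γ : GO Q₀) : (B.extF γ).σ = 1 := rfl
lemma extF_c (γ : GO Q₀) : ((B.extF γ).c : F) = B.φ γ.1.c := rfl

/-- extension of similarities -/
noncomputable def ext : GO Q₀ →* Gam Q where
  toFun := B.extF
  map_one' := SIso.ext' (B.gam_ext rfl fun x => by rw [extF_j]; rfl) rfl
    (Units.ext (by rw [extF_c]; simp))
  map_mul' γ δ := SIso.ext' (B.gam_ext rfl fun x => by
    rw [Gam.mul_T, extF_j, extF_j, extF_j]; rfl) rfl (Units.ext (by
    rw [Gam.mul_c_of_lin (B.extF_σ γ), Units.val_mul, extF_c, extF_c, extF_c, Subgroup.coe_mul,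
      Gam.mul_c_of_lin γ.2, Units.val_mul, _root_.map_mul]))

@[simp] lemma ext_j (γ : GO Q₀) (x : V₀) : (B.ext γ).T (B.j x) = B.j (γ.1.T x) := B.extE_j _ x
@[simp] lemma ext_σ (γ : GO Q₀) : (B.ext γ).σ = 1 := rfl
lemma ext_c (γ : GO Q₀) : ((B.ext γ).c : F) = B.φ γ.1.c := rfl

lemma ext_injective : Function.Injective B.ext := fun γ δ h =>
  Subtype.ext (SIso.ext' (fun x => B.j_injective (by rw [← B.ext_j, h, B.ext_j]))
    (γ.2.trans δ.2.symm) (Units.ext (B.φ.injective (by rw [← B.ext_c, h, B.ext_c]))))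

lemma ext_ofOG (g : OG Q₀) : B.ext ⟨ofOG Q₀ g, rfl⟩ = ofOG Q (B.extO g) :=
  SIso.ext' (B.gam_ext rfl fun x => by simp) rfl (Units.ext (by simp [ext_c]))

lemma ext_scal (a : F₀ˣ) : B.ext ⟨scal Q₀ a, rfl⟩ = scal Q (Units.map B.φ.toMonoidHom a) :=
  SIso.ext' (B.gam_ext rfl fun x => by simp [B.smul]) rfl (Units.ext (by simp [ext_c]))

lemma ext_scal_mul (a : F₀ˣ) (g : OG Q₀) : B.ext ⟨scal Q₀ a * ofOG Q₀ g, rfl⟩ =
    scal Q (Units.map B.φ.toMonoidHom a) * ofOG Q (B.extO g) := by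
  rw [← ext_scal, ← ext_ofOG, ← _root_.map_mul]; rfl

lemma gdet_ext (γ : GO Q₀) : gdet (B.ext γ) = B.φ (gdet γ.1) := by
  rw [gdet_eq γ.2 (g := (γ.1.lin γ.2).toLinearMap) (fun _ => rfl), ← B.det_extL]
  exact gdet_eq rfl fun _ => rfl

lemma extO_refl (v : V₀) : B.extO (refl Q₀ v) = refl Q (B.j v) :=
  Subtype.ext (LinearEquiv.toLinearMap_injective (B.lin_ext fun x => by
    change (B.extO _).1 _ = (refl Q _).1 _
    rw [extO_j, refl_apply, refl_apply, map_sub, B.smul, B.mapQ, B.polar]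
    congr 2
    simp only [_root_.map_mul, map_inv₀]
    have := B.c.ne_zero
    by_cases h : B.φ (Q₀ v) = 0
    · simp [h]
    · field_simp))

lemma extO_list (vs : List V₀) :
    B.extO (vs.map (refl Q₀)).prod = ((vs.map B.j).map (refl Q)).prod := by
  rw [map_list_prod, List.map_map, List.map_map]
  congr 1
  exact List.map_congr_left fun v _ => B.extO_refl v

omit [FiniteDimensional F₀ V₀] in
lemma list_ne {vs : List V₀} (hvs : ∀ v ∈ vs, Q₀ v ≠ 0) : ∀ v ∈ vs.map B.j, Q v ≠ 0 := by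
  intro v hv
  obtain ⟨w, hw, rfl⟩ := List.mem_map.1 hv
  simpa [B.mapQ] using hvs w hw

omit [FiniteDimensional F₀ V₀] in
lemma prod_list (vs : List V₀) :
    ((vs.map B.j).map Q).prod = (B.c : F) ^ vs.length * B.φ (vs.map Q₀).prod := by
  induction vs with
  | nil => simp
  | cons v vs ih =>
    simp only [List.map_cons, List.prod_cons, ih, B.mapQ, List.length_cons, _root_.map_mul]
    ring

lemma dickF_extO (hQ : ND Q₀) (hG : Good Q₀) (g : OG Q₀) : dickF (B.extO g) = dickF g := by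
  have := B.finiteDimensional
  obtain ⟨vs, hvs, rfl⟩ := exists_list hQ hG g
  rw [extO_list, dickF_list (B.nd hQ) _ (B.list_ne hvs), dickF_list hQ _ hvs, List.length_map]

lemma spinF_extO [Finite F₀] [Finite F] (hQ : ND Q₀) (hG : Good Q₀) {g : OG Q₀} (hg : dickF g = 1) :
    ∃ a : F₀, a ≠ 0 ∧ spinF g = chi a ∧ spinF (B.extO g) = chi (B.φ a) := by
  have := B.finiteDimensional
  obtain ⟨vs, hvs, rfl⟩ := exists_list hQ hG g
  refine ⟨_, list_prod_ne_zero hvs, spinF_list hQ _ hvs, ?_⟩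
  rw [dickF_eq_one_iff, even_movS_list hQ _ hvs] at hg
  obtain ⟨k, hk⟩ := hg
  rw [extO_list, spinF_list (B.nd hQ) _ (B.list_ne hvs), B.prod_list, hk, ← two_mul, mul_comm 2,
    pow_mul, chi_sq_mul (pow_ne_zero _ B.c.ne_zero)]

lemma delta_ext [Finite F₀] (hQ : ND Q₀) (hG : Good Q₀) (hn : Even (finrank F₀ V₀)) (γ : GO Q₀) :
    delta (B.ext γ) = delta γ.1 := by
  have := B.finiteDimensional
  have hn' : Even (finrank F V) := by rwa [B.rank]
  obtain ⟨γ, h⟩ := γ
  by_cases h2 : (2 : F₀) = 0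
  · obtain ⟨a, g, rfl⟩ := exists_scal_mul_ofOG h (isSquare_of_two_eq_zero h2 _)
    rw [ext_scal_mul, delta_scal_mul_ofOG hQ hn, delta_scal_mul_ofOG (B.nd hQ) hn',
      B.dickF_extO hQ hG]
  · obtain ⟨k, hk⟩ := hn
    have h2' : (2 : F) ≠ 0 := fun h => h2 (B.φ.injective (by rw [map_ofNat, h, map_zero]))
    refine delta_eq_of_gdet (B.nd hQ) h2' (k := k) (by rw [B.rank]; omega) rfl ?_
    rw [gdet_ext, delta_cast hQ h2 (k := k) (by omega) h, ext_c]
    simp

lemma exists_ext [Nontrivial V₀] (hQ : ND Q₀) {γ : Gam Q} (h : γ.σ = 1)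
    (hγ : ∀ x, ∃ y, γ.T (B.j x) = B.j y) : ∃ γ₀ : GO Q₀, B.ext γ₀ = γ := by
  choose f hf using hγ
  let g : V₀ →ₗ[F₀] V₀ :=
    { toFun := f
      map_add' := fun x y => B.j_injective (by rw [map_add, ← hf, ← hf, ← hf, map_add, map_add])
      map_smul' := fun a x => B.j_injective (by
        rw [← hf, B.smul, B.smul, Gam.smul_of_lin h, hf]; rfl) }
  have hg : Function.Injective g := fun x y e => B.j_injective (γ.T.injective (by
    rw [hf, hf]; exact congrArg B.j e))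
  have key : ∀ x, B.φ (Q₀ (f x)) = γ.c * B.φ (Q₀ x) := fun x => by
    apply mul_left_cancel₀ B.c.ne_zero
    rw [← B.mapQ, ← hf, Gam.mapQ_of_lin h, B.mapQ]; ring
  obtain ⟨x₀, hx₀⟩ := hQ.exists_nonsing
  have hc : B.φ (Q₀ (f x₀) / Q₀ x₀) = γ.c := by
    rw [map_div₀, key, mul_div_cancel_right₀ _ (by simpa using hx₀)]
  refine ⟨⟨SIso.ofSim (LinearEquiv.ofInjectiveEndo g hg) (c := Q₀ (f x₀) / Q₀ x₀)
    (fun h0 => γ.c.ne_zero (by rw [← hc, h0, map_zero]))
    (fun x => B.φ.injective (by rw [_root_.map_mul, hc]; exact key x)), rfl⟩, ?_⟩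
  exact SIso.ext' (B.gam_ext h.symm fun x => by rw [ext_j, hf]; rfl) h.symm (Units.ext hc)

end BC

/-- `B` is a descent datum for `T`. -/
structure IsDesc (B : BC Q₀ Q) (T : Gam Q) : Prop where
  fix : ∀ x, T.σ x = x ↔ ∃ y, B.φ y = x
  fixj : ∀ x, T.T (B.j x) = B.j x

namespace IsDesc

variable {B : BC Q₀ Q} {T : Gam Q}

lemma comp (h : IsDesc B T) {V₁ : Type*} [AddCommGroup V₁] [Module F₀ V₁]
    {Q₁ : QuadraticForm F₀ V₁} (e : SIso Q₁ Q₀) : IsDesc (B.comp e) T :=
  ⟨fun x => (h.fix x).trans ⟨fun ⟨y, hy⟩ => ⟨e.σ.symm y, by simpa [BC.comp] using hy⟩,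
    fun ⟨y, hy⟩ => ⟨e.σ y, hy⟩⟩, fun _ => h.fixj _⟩

lemma postcomp (h : IsDesc B T) {V₁ : Type*} [AddCommGroup V₁] [Module F V₁]
    {Q₁ : QuadraticForm F V₁} (e : SIso Q Q₁) : IsDesc (B.postcomp e) (e.gam T) :=
  ⟨fun x => by
    rw [e.gam_σ_apply, ← RingEquiv.eq_symm_apply, h.fix]
    exact exists_congr fun y => by
      change _ ↔ e.σ (B.φ y) = x
      rw [RingEquiv.eq_symm_apply],
   fun x => by
    change e.T (T.T (e.symm.T (e.T (B.j x)))) = e.T (B.j x)
    rw [SIso.symm_T_T, h.fixj]⟩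

lemma pow_eq_one (h : IsDesc B T) (hQ : ND Q) [Nontrivial V] : T ^ orderOf T.σ = 1 :=
  Gam.ext hQ (B.gam_ext (by rw [Gam.pow_σ, pow_orderOf_eq_one]; rfl) fun x => by
    rw [Gam.pow_T, Function.iterate_fixed (h.fixj x)]; rfl)

variable [FiniteDimensional F₀ V₀]

lemma exists_j (h : IsDesc B T) {v : V} (hv : T.T v = v) : ∃ x, B.j x = v := by
  let b := Module.finBasis F₀ V₀
  have e1 : T.T v = ∑ i, T.σ ((B.basis b).repr v i) • B.basis b i := by
    conv_lhs => rw [← (B.basis b).sum_repr v, map_sum]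
    simp only [T.smul, B.basis_apply, h.fixj]
  have e2 : ∀ i, ∃ y, B.φ y = (B.basis b).repr v i := fun i => (h.fix _).1 (by
    conv_rhs => rw [← hv, e1, Basis.repr_sum_self])
  choose y hy using e2
  refine ⟨∑ i, y i • b i, ?_⟩
  conv_rhs => rw [← (B.basis b).sum_repr v]
  simp only [map_sum, B.smul, hy, B.basis_apply]

lemma comm_ext (h : IsDesc B T) (hQ : ND Q) [Nontrivial V] (γ : GO Q₀) :
    T * B.ext γ = B.ext γ * T :=
  Gam.ext hQ (B.gam_ext (by simp) fun x => by simp [h.fixj])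

lemma exists_ext (h : IsDesc B T) [Nontrivial V₀] (hQ : ND Q₀) {γ : Gam Q} (h1 : γ.σ = 1)
    (h2 : T * γ = γ * T) : ∃ γ₀ : GO Q₀, B.ext γ₀ = γ :=
  B.exists_ext hQ h1 fun x => by
    obtain ⟨y, hy⟩ := h.exists_j (v := γ.T (B.j x)) (by rw [← Gam.mul_T, h2, Gam.mul_T, h.fixj])
    exact ⟨y, hy.symm⟩

lemma exists_conj (h : IsDesc B T) (hQ : ND Q) [Nontrivial V] {B' : BC Q₀ Q} {T' : Gam Q}
    (h' : IsDesc B' T') (h1 : B'.φ = B.φ) (h2 : T'.σ = T.σ) :
    ∃ g : Gam Q, g.σ = 1 ∧ g * T * g⁻¹ = T' := by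
  obtain ⟨e, e1, -, e2⟩ := B.exists_siso B' h1
  have e1' : SIso.σ e = 1 := e1
  refine ⟨e, e1, ?_⟩
  rw [mul_inv_eq_iff_eq_mul]
  exact Gam.ext hQ (B.gam_ext (by simp [e1', h2]) fun x => by simp [h.fixj, e2, h'.fixj])

end IsDesc

/-- Galois descent for quadratic forms. -/
theorem exists_desc [Finite F] [FiniteDimensional F V] (hQ : ND Q) {T : Gam Q}
    (hT : T ^ orderOf T.σ = 1) (φ : F₀ →+* F) (hφ : ∀ x, T.σ x = x ↔ ∃ y, φ y = x) :
    ∃ (Q₀ : QuadraticForm F₀ (Fin (finrank F V) → F₀)) (B : BC Q₀ Q), B.φ = φ ∧ IsDesc B T := by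
  obtain ⟨x, hx0, hx⟩ := CfsgH7.hilbert90_field T.σ (c := T.c) (by rw [← Gam.pow_c, hT]; simp)
  have hsp := CfsgH7.span_fixed_eq_top T.σ T.T.toAddMonoidHom T.smul (fun v => by
    have := Gam.pow_T T (orderOf T.σ) v
    rw [hT] at this
    exact this.symm)
  obtain ⟨s, hs, hspan, hli⟩ := exists_linearIndependent F {v | T.T.toAddMonoidHom v = v}
  let b0 : Basis s F V := Basis.mk hli (by rw [Subtype.range_coe_subtype, ← hsp, ← hspan]; rfl)
  let b := b0.reindex (b0.indexEquiv (Module.finBasis F V))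
  have hb : ∀ i, T.T (b i) = b i := fun i => by
    simp only [b, Basis.reindex_apply, b0, Basis.mk_apply]
    exact hs (Subtype.prop _)
  let j : (Fin (finrank F V) → F₀) →+ V :=
    { toFun := fun v => ∑ i, φ (v i) • b i
      map_zero' := by simp
      map_add' := fun v w => by simp [add_smul, Finset.sum_add_distrib] }
  have hj : ∀ v, j v = ∑ i, φ (v i) • b i := fun _ => rfl
  have hjs : ∀ a v, j (a • v) = φ a • j v := fun a v => by
    simp [hj, Finset.smul_sum, mul_smul]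
  have hjT : ∀ v, T.T (j v) = j v := fun v => by
    simp only [hj, map_sum, T.smul, hb, (hφ _).2 ⟨_, rfl⟩]
  have : ∀ v, ∃ y, φ y = x⁻¹ * Q (j v) := fun v => (hφ _).1 (by
    have h1 := T.mapQ (j v)
    rw [hjT] at h1
    have h2 : T.σ x ≠ 0 := by simpa using hx0
    rw [_root_.map_mul, map_inv₀]
    conv_rhs => rw [h1, ← hx]
    have := T.c.ne_zero
    field_simp)
  choose q hq using this
  have hp : ∀ v w, φ (polar q v w) = x⁻¹ * polar Q (j v) (j w) := fun v w => by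
    simp only [polar, map_sub, hq, map_add]; ring
  let Q₀ : QuadraticForm F₀ (Fin (finrank F V) → F₀) := QuadraticMap.ofPolar q
    (fun a v => φ.injective (by simp [hq, hjs, Q_smul]; ring))
    (fun v v' w => φ.injective (by simp [hp, mul_add]))
    (fun a v w => φ.injective (by simp [hp, hjs]; ring))
  refine ⟨Q₀, ⟨φ, j, Units.mk0 x hx0, hjs, fun v => ?_, ?_, by simp⟩, rfl, hφ, hjT⟩
  · change _ = x * φ (q v)
    rw [hq, mul_inv_cancel_left₀ hx0]
  · rw [eq_top_iff, ← b.span_eq]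
    refine Submodule.span_mono ?_
    rintro _ ⟨i, rfl⟩
    exact ⟨Pi.single i 1, by simp [hj, Pi.single_apply]⟩

/-- rescaling a semisimilarity of projective order `r` to have order `r` -/
lemma exists_scal_pow_eq_one [Finite F] [Nontrivial V] {T : Gam Q} {a : Fˣ}
    (hT : T ^ orderOf T.σ = scal Q a) : ∃ b : Fˣ, (scal Q b * T) ^ orderOf T.σ = 1 := by
  have h1 : T.σ a = a := by
    obtain ⟨x, hx⟩ := exists_ne (0 : V)
    have : T * scal Q a = scal Q a * T := by rw [← hT, ← pow_succ, ← pow_succ']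
    have := congrArg (fun γ : Gam Q => γ.T x) this
    simp only [Gam.mul_T, scal_T, T.smul] at this
    exact smul_left_injective F (by simpa [SIso.T_eq_zero] using hx) this
  obtain ⟨y, hy⟩ := CfsgH7.exists_norm_eq T.σ (c := (a : F)⁻¹) (by rw [map_inv₀, h1])
  have hy0 : y ≠ 0 := by
    rintro rfl
    rw [Finset.prod_eq_zero (Finset.mem_range.2 (CfsgH7.ringAut_orderOf_pos T.σ)) (by simp)] at hy
    exact inv_ne_zero a.ne_zero hy.symm
  refine ⟨Units.mk0 y hy0, ?_⟩
  have key : ∀ k, ∃ u : Fˣ, (u : F) = ∏ i ∈ Finset.range k, (T.σ ^ i) y ∧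
      (scal Q (Units.mk0 y hy0) * T) ^ k = scal Q u * T ^ k := fun k => by
    induction k with
    | zero => exact ⟨1, by simp, by simp⟩
    | succ k ih =>
      obtain ⟨u, hu, e⟩ := ih
      refine ⟨u * Units.map (T ^ k).σ.toMonoidHom (Units.mk0 y hy0), ?_, ?_⟩
      · simp [Finset.prod_range_succ, hu, Gam.pow_σ]
      · rw [pow_succ, e, mul_assoc, ← mul_assoc (T ^ k), mul_scal, _root_.map_mul, pow_succ]
        simp only [mul_assoc]
  obtain ⟨u, hu, e⟩ := key (orderOf T.σ)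
  rw [e, hT, ← _root_.map_mul, show u * a = 1 from Units.ext (by rw [Units.val_mul, hu, hy]; simp), _root_.map_one]

/-- the standard base change in coordinates -/
def stdBC {ι : Type} [Fintype ι] [DecidableEq ι] (φ : F₀ →+* F) {Q₀ : QuadraticForm F₀ (ι → F₀)}
    {Q : QuadraticForm F (ι → F)} (h : ∀ v, Q (φ ∘ v) = φ (Q₀ v)) : BC Q₀ Q where
  φ := φ
  j := φ.toAddMonoidHom.compLeft ι
  c := 1
  smul a x := by ext; simp
  mapQ x := (h x).trans (by simp)
  span := span_range_comp φ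
  rank := by simp

/-- the standard field automorphism in coordinates -/
def fldG {ι : Type*} (σ : F ≃+* F) {Q : QuadraticForm F (ι → F)}
    (h : ∀ v, Q (σ ∘ v) = σ (Q v)) : Gam Q where
  T := AddEquiv.piCongrRight fun _ => σ.toAddEquiv
  σ := σ
  c := 1
  smul a x := by ext; simp
  mapQ x := (h x).trans (by simp)

@[simp] lemma fldG_T {ι : Type*} (σ : F ≃+* F) {Q : QuadraticForm F (ι → F)}
    (h : ∀ v, Q (σ ∘ v) = σ (Q v)) (x : ι → F) (i : ι) : (fldG σ h).T x i = σ (x i) := rfl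

@[simp] lemma fldG_σ {ι : Type*} (σ : F ≃+* F) {Q : QuadraticForm F (ι → F)}
    (h : ∀ v, Q (σ ∘ v) = σ (Q v)) : (fldG σ h).σ = σ := rfl

@[simp] lemma fldG_c {ι : Type*} (σ : F ≃+* F) {Q : QuadraticForm F (ι → F)}
    (h : ∀ v, Q (σ ∘ v) = σ (Q v)) : (fldG σ h).c = 1 := rfl

lemma isDesc_std {ι : Type} [Fintype ι] [DecidableEq ι] (φ : F₀ →+* F)
    {Q₀ : QuadraticForm F₀ (ι → F₀)} {Q : QuadraticForm F (ι → F)} (h : ∀ v, Q (φ ∘ v) = φ (Q₀ v))
    (σ : F ≃+* F) (h' : ∀ v, Q (σ ∘ v) = σ (Q v)) (hφ : ∀ x, σ x = x ↔ ∃ y, φ y = x) :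
    IsDesc (stdBC φ h) (fldG σ h') :=
  ⟨hφ, fun x => funext fun i => (hφ _).2 ⟨x i, rfl⟩⟩

end CfsgH8
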