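import Cfsg.Agent.H8.MatAut
import Cfsg.Agent.H8.Desc
import Cfsg.Agent.H7.AutAbs2

set_option autoImplicit false

namespace CfsgH8

open QuadraticMap Module Matrix

universe u

variable {F : Type u} [Field F] {ι : Type} [Fintype ι] [DecidableEq ι]
  {Q : QuadraticForm F (ι → F)} {q : (ι → F) → F}

lemma Rep.mulVec {γ : Gam Q} {g : GL ι F} (h : Rep γ g (RingEquiv.refl F)) (v : ι → F) :
    γ.T v = (g : Matrix ι ι F) *ᵥ v := h v

lemma exists_rep_lin {γ : Gam Q} (h : γ.σ = 1) : ∃ g : GL ι F, Rep γ g (RingEquiv.refl F) := by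
  obtain ⟨g, hg⟩ := exists_rep γ
  rw [h] at hg
  exact ⟨g, hg⟩

lemma sim_aut_eq (h : ⇑Q = q) (K : Subgroup (Gam Q)) (hK : K ≤ GO Q) (P : GL ι F → Prop)
    (hP : ∀ γ g, γ.σ = 1 → Rep γ g (RingEquiv.refl F) → (P g ↔ γ ∈ K)) :
    Cfsg.autSubgroupOf (fun β => ∃ g : GL ι F, g ∈ Cfsg.Geo.quadSimilarityGroup (F := F) q ∧ P g ∧
      Cfsg.IsInducedBySemilinearPOmega q g (RingEquiv.refl F) β) = K.map (PhiM h) := by
  refine autSubgroupOf_eq _ _ fun β => ⟨?_, ?_⟩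
  · rintro ⟨g, ⟨c, hc⟩, hg, hβ⟩
    subst h
    have hr := rep_gamOf g (RingEquiv.refl F) c hc
    exact ⟨_, (hP _ _ rfl hr).1 hg, (isInduced_iff rfl hr).1 hβ⟩
  · rintro ⟨γ, hγ, rfl⟩
    obtain ⟨g, hg⟩ := exists_rep_lin (hK hγ)
    refine ⟨g, ⟨γ.c, fun v => ?_⟩, (hP _ _ (hK hγ) hg).2 hγ, (isInduced_iff h hg).2 rfl⟩
    rw [← h, ← hg.mulVec, Gam.mapQ_of_lin (hK hγ)]

theorem pgoAut_eq (h : ⇑Q = q) : Cfsg.pgoAut F q = (GO Q).map (PhiM h) := by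
  rw [← sim_aut_eq h (GO Q) le_rfl (fun _ => True) (fun γ g h1 _ => by simp [mem_GO, h1])]
  simp only [Cfsg.pgoAut, Cfsg.IsSimilarityInducedAutPOmega, true_and]

lemma map_ZS (h : ⇑Q = q) (S : Subgroup (OG Q)) :
    (ZS S).map (PhiM h) = (S.map (ofOG Q)).map (PhiM h) := by
  refine le_antisymm ?_ (Subgroup.map_mono ?_)
  · rintro _ ⟨_, ⟨a, g, hg, rfl⟩, rfl⟩
    exact ⟨_, ⟨g, hg, rfl⟩, by simp [PhiM_scal]⟩
  · rintro _ ⟨g, hg, rfl⟩
    exact ofOG_mem_ZS hg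

lemma rep_toOG (h : ⇑Q = q) (g : Cfsg.isometryGroup F q) :
    Rep (ofOG Q (toOG h g)) g (RingEquiv.refl F) := fun _ => rfl

theorem poAut_eq (h : ⇑Q = q) : Cfsg.poAut F q = (ZS ⊤).map (PhiM h) := by
  rw [map_ZS]
  refine autSubgroupOf_eq _ _ fun β => ⟨?_, ?_⟩
  · rintro ⟨g, hg, hβ⟩
    exact ⟨_, ⟨_, trivial, rfl⟩, (isInduced_iff h (rep_toOG h ⟨g, hg⟩)).1 hβ⟩
  · rintro ⟨_, ⟨g, -, rfl⟩, rfl⟩
    obtain ⟨g, rfl⟩ := (toOG h).surjective g
    exact ⟨g, g.2, (isInduced_iff h (rep_toOG h g)).2 rfl⟩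

theorem psoAut_eq (h : ⇑Q = q) (hQ : ND Q) (hG : Good Q) (h2 : (2 : F) ≠ 0) :
    Cfsg.psoAut F q = (ZS (dick hQ hG).ker).map (PhiM h) := by
  rw [map_ZS]
  have key : ∀ g : Cfsg.isometryGroup F q,
      (g : GL ι F) ∈ Cfsg.Geo.specialLinear ι F ↔ toOG h g ∈ (dick hQ hG).ker := fun g => by
    change _ ↔ dickF _ = 1
    rw [dickF_eq_one_iff_det hQ h2, det_toOG, Cfsg.Geo.specialLinear, MonoidHom.mem_ker,
      ← Units.val_eq_one]
    rfl
  refine autSubgroupOf_eq _ _ fun β => ⟨?_, ?_⟩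
  · rintro ⟨g, hg, hβ⟩
    exact ⟨_, ⟨_, (key ⟨g, hg.1⟩).1 hg.2, rfl⟩, (isInduced_iff h (rep_toOG h ⟨g, hg.1⟩)).1 hβ⟩
  · rintro ⟨_, ⟨g, hg, rfl⟩, rfl⟩
    obtain ⟨g, rfl⟩ := (toOG h).surjective g
    exact ⟨g, ⟨g.2, (key g).2 hg⟩, (isInduced_iff h (rep_toOG h g)).2 rfl⟩

theorem Inn_eq (h : ⇑Q = q) : Cfsg.Inn (Cfsg.POmega F q) = (ZS (Om Q)).map (PhiM h) := by
  rw [map_ZS]
  ext β
  constructor
  · rintro ⟨x, rfl⟩
    obtain ⟨g, hg⟩ := QuotientGroup.mk'_surjective _ (pomE h x)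
    exact ⟨_, ⟨g, g.2, rfl⟩, by rw [PhiM_ofOG, hg, MulEquiv.symm_apply_apply]⟩
  · rintro ⟨_, ⟨g, hg, rfl⟩, rfl⟩
    exact ⟨_, (PhiM_ofOG h ⟨g, hg⟩).symm⟩

lemma PhiM_eq_iff [Finite F] [Big Q] (h : ⇑Q = q) {γ δ : Gam Q} :
    PhiM h γ = PhiM h δ ↔ ∃ a : Fˣ, γ = scal Q a * δ := by
  rw [← mul_inv_eq_one, ← map_inv, ← _root_.map_mul, PhiM_eq_one_iff]
  simp only [mul_inv_eq_iff_eq_mul]

lemma PhiM_mem_map_iff [Finite F] [Big Q] (h : ⇑Q = q) {K : Subgroup (Gam Q)}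
    (hK : ∀ a, scal Q a ∈ K) {γ : Gam Q} : PhiM h γ ∈ K.map (PhiM h) ↔ γ ∈ K := by
  refine ⟨?_, fun h => ⟨γ, h, rfl⟩⟩
  rintro ⟨δ, hδ, e⟩
  obtain ⟨a, rfl⟩ := (PhiM_eq_iff h).1 e.symm
  exact mul_mem (hK a) hδ

lemma PhiM_mem_Inn_iff [Finite F] [Big Q] (h : ⇑Q = q) {γ : Gam Q} :
    PhiM h γ ∈ Cfsg.Inn (Cfsg.POmega F q) ↔ γ ∈ ZS (Om Q) := by
  rw [Inn_eq h, PhiM_mem_map_iff h (scal_mem_ZS _)]

lemma isFieldAut_iff (h : ⇑Q = q) (σ : F ≃+* F) (hσ : ∀ v, Q (σ ∘ v) = σ (Q v))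
    {β : MulAut (Cfsg.POmega F q)} : Cfsg.IsFieldAutPOmegaOf q σ β ↔ β = PhiM h (fldG σ hσ) := by
  rw [← isInduced_iff h (g := 1) (σ := σ) (fun v => by ext; simp)]
  simp [Cfsg.IsFieldAutPOmegaOf, Cfsg.IsInducedBySemilinearPOmega]

lemma rep_refl (h : ⇑Q = q) {v : ι → F} {r : GL ι F}
    (hr : (r : Matrix ι ι F) = Cfsg.reflectionMatrix q v) :
    Rep (ofOG Q (refl Q v)) r (RingEquiv.refl F) := fun x => by
  rw [hr]; exact (reflectionMatrix_mulVec h v x).symm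

omit [DecidableEq ι] in
lemma isMax_iff (h : ⇑Q = q) (hQ : ND Q) {E : Submodule F (ι → F)} (hE : MTS Q E)
    {U : Submodule F (ι → F)} : Cfsg.IsMaxTotallySingular q U ↔ MTS Q U := by
  subst h
  constructor
  · rintro ⟨h1, h2⟩
    have h3 := hE.1.finrank_le_of_max hQ h1 fun x hx hx0 => by
      rw [← h2 (U ⊔ F ∙ x) (TS.sup h1 (TS.span_singleton hx0)
        (le_perp_comm.1 ((Submodule.span_singleton_le_iff_mem _ _).2 hx))) le_sup_left]
      exact Submodule.mem_sup_right (Submodule.mem_span_singleton_self x)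
    have h4 := two_mul_finrank_le hQ (TS.le_perp h1)
    have h5 := hE.2
    exact ⟨h1, by omega⟩
  · intro hU
    exact ⟨hU.1, fun W hW hle => le_antisymm
      ((TS.le_perp hW).trans ((perp_anti hle).trans (hU.perp_eq hQ).le)) hle⟩

lemma preserves_iff [Finite F] (h : ⇑Q = q) (hQ : ND Q) (hG : Good Q) {E : Submodule F (ι → F)}
    (hE : MTS Q E) {γ : Gam Q} (h1 : γ.σ = 1) {M : Matrix ι ι F} (hM : ∀ v, γ.T v = M *ᵥ v) :
    Cfsg.PreservesSingularClasses q M ↔ delta γ = 1 := by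
  have key : ∀ U, Cfsg.imageSubmodule M U = γ.mapS U := fun U => by
    ext y
    obtain ⟨x, rfl⟩ := γ.T.surjective y
    rw [SIso.T_mem_mapS]
    constructor
    · rintro ⟨z, hz, e⟩
      rw [Matrix.toLin'_apply, ← hM] at e
      rwa [← γ.T.injective e]
    · intro hx
      exact ⟨x, hx, (hM x).symm⟩
  simp only [Cfsg.PreservesSingularClasses, isMax_iff h hQ hE, Cfsg.SameParityClass]
  exact ⟨fun H => (hE.even_iff_delta hQ hG h1).1 (key E ▸ H E hE),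
    fun H U hU => key U ▸ (hU.even_iff_delta hQ hG h1).2 H⟩

lemma even_QP (m : ℕ) : Even (finrank F (Fin m ⊕ Fin m → F)) := by simp

lemma even_QM (m : ℕ) : Even (finrank F ((Fin m ⊕ Fin m) ⊕ Fin 2 → F)) := ⟨m + 1, by simp; ring⟩

theorem inndiagPlus_eq [Finite F] {m : ℕ} (hG : Good (QP m F)) :
    Cfsg.inndiagPOmegaPlus m F = (GOp ND_QH hG (even_QP m)).map (PhiM (QP_coe m F)) :=
  sim_aut_eq (QP_coe m F) _ (fun _ h => (mem_GOp.1 h).1) _ fun γ g h1 h2 => by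
    rw [preserves_iff (QP_coe m F) ND_QH hG MTS_stdE h1 h2.mulVec, mem_GOp]
    simp [h1]

lemma stdBC_ext_mulVec {K : Type*} [Field K] (φ : F →+* K) {Q' : QuadraticForm K (ι → K)}
    (h : ∀ v, Q' (φ ∘ v) = φ (Q v)) (γ : GO Q) {M : Matrix ι ι F} (hM : ∀ v, γ.1.T v = M *ᵥ v)
    (w : ι → K) : ((stdBC φ h).ext γ).T w = M.map φ *ᵥ w := by
  have := (stdBC φ h).lin_ext (f := (((stdBC φ h).ext γ).lin rfl).toLinearMap)
    (g := Matrix.mulVecLin (M.map φ)) fun x => by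
      change ((stdBC φ h).ext γ).T _ = M.map φ *ᵥ (φ ∘ x)
      rw [BC.ext_j, hM, map_mulVec_comp]; rfl
  exact LinearMap.congr_fun this w

lemma exists_quad_ext (F : Type u) [Field F] [Finite F] :
    ∃ (K : Type u) (_ : Field K) (_ : Algebra F K), finrank F K = 2 := by
  obtain ⟨p, hp, _⟩ := exists_prime_char F
  have := Fact.mk hp
  exact ⟨ULift.{u} (FiniteField.Extension F p 2), inferInstance, inferInstance, by
    rw [ULift.moduleEquiv.finrank_eq, FiniteField.finrank_extension]⟩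

lemma preservesMinus_iff [Finite F] {m : ℕ} (hm : 2 ≤ m) {a b : F} (hab : Aniso a b)
    {γ : Gam (QM m F a b)} (h1 : γ.σ = 1) {M : Matrix _ _ F} (hM : ∀ v, γ.T v = M *ᵥ v) :
    Cfsg.PreservesSingularClassesMinus m a b M ↔ delta γ = 1 := by
  have := big_QM hm hab
  have key : ∀ (K : Type u) [Field K] [Algebra F K], finrank F K = 2 →
      (Cfsg.PreservesSingularClasses (Cfsg.quadFormMinus m K (algebraMap F K a) (algebraMap F K b))
        (M.map (algebraMap F K)) ↔ delta γ = 1) := by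
    intro K _ _ hK
    have : Module.Finite F K := Module.finite_of_finrank_pos (by omega)
    have : Finite K := Module.finite_of_finite F
    obtain ⟨e, he⟩ := iso_QM_QP_ext hK m hab
    let E1 : SIso (QP (m + 1) K) (QM m K (algebraMap F K a) (algebraMap F K b)) :=
      SIso.ofSim e one_ne_zero (by simpa using he)
    rw [preserves_iff (QM_coe m K _ _) (E1.nd ND_QH) (good_of_finrank (by simp; omega))
      (E1.mapS_MTS MTS_stdE) rfl
      (stdBC_ext_mulVec (algebraMap F K) (QM_comp _ m a b) ⟨γ, h1⟩ hM),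
      BC.delta_ext _ (ND_QM hab) Big.good (even_QM m)]
  constructor
  · rintro ⟨K, _, _, hK, H⟩
    exact (key K hK).1 H
  · intro H
    obtain ⟨K, _, _, hK⟩ := exists_quad_ext F
    exact ⟨K, _, _, hK, (key K hK).2 H⟩

theorem inndiagMinus_eq [Finite F] {m : ℕ} (hm : 2 ≤ m) {a b : F} (hab : Aniso a b)
    (hG : Good (QM m F a b)) : Cfsg.inndiagPOmegaMinus m F a b =
      (GOp (ND_QM hab) hG (even_QM m)).map (PhiM (QM_coe m F a b)) :=
  sim_aut_eq (QM_coe m F a b) _ (fun _ h => (mem_GOp.1 h).1) _ fun γ g h1 h2 => by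
    rw [preservesMinus_iff hm hab h1 h2.mulVec, mem_GOp]
    simp [h1]

theorem inndiagOdd_eq (m : ℕ) :
    Cfsg.inndiagPOmegaOdd m F = (GO (QO m F)).map (PhiM (QO_coe m F)) := pgoAut_eq (QO_coe m F)

/-! ### abstract lemmas -/

lemma exists_hom_map {Γ A C : Type*} [Group Γ] [Group A] [Group C] (Φ : Γ →* A) (K : Subgroup Γ)
    (π : K →* C) (hπ : Function.Surjective π) (L : Subgroup A) (h : ∀ γ : K, π γ = 1 ↔ Φ γ ∈ L) :
    ∃ φ : K.map Φ →* C, Function.Surjective φ ∧ φ.ker = L.subgroupOf (K.map Φ) := by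
  have hs := Φ.subgroupMap_surjective K
  let φ := (Φ.subgroupMap K).liftOfRightInverse _ (Function.rightInverse_surjInv hs)
    ⟨π, fun γ hγ => (h γ).2 (by
      have : Φ γ = 1 := congrArg Subtype.val hγ
      rw [this]; exact L.one_mem)⟩
  have hφ : ∀ γ, φ (Φ.subgroupMap K γ) = π γ := fun γ =>
    MonoidHom.liftOfRightInverse_comp_apply _ _ _ _ _
  refine ⟨φ, fun c => ?_, ?_⟩
  · obtain ⟨γ, rfl⟩ := hπ c
    exact ⟨_, hφ γ⟩
  · ext x
    obtain ⟨γ, rfl⟩ := hs x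
    rw [MonoidHom.mem_ker, hφ, h, Subgroup.mem_subgroupOf]
    rfl

/-- the quotient by the inner part -/
abbrev rho {V : Type*} [AddCommGroup V] [Module F V] (Q : QuadraticForm F V) :
    Gam Q →* Gam Q ⧸ ZS (Om Q) := QuotientGroup.mk' _

lemma exists_hom_of_equiv [Finite F] [Big Q] (h : ⇑Q = q) (K : Subgroup (Gam Q)) {C : Type*}
    [Group C] (e : Nonempty (K.map (rho Q) ≃* C)) :
    ∃ φ : K.map (PhiM h) →* C, Function.Surjective φ ∧
      φ.ker = (Cfsg.Inn (Cfsg.POmega F q)).subgroupOf (K.map (PhiM h)) := by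
  obtain ⟨e⟩ := e
  refine exists_hom_map _ K (e.toMonoidHom.comp ((rho Q).subgroupMap K))
    (e.surjective.comp ((rho Q).subgroupMap_surjective K)) _ fun γ => ?_
  rw [PhiM_mem_Inn_iff, ← QuotientGroup.eq_one_iff]
  exact (map_eq_one_iff e e.injective).trans Subtype.ext_iff

lemma out_equiv [Finite F] [Big Q] (h : ⇑Q = q) (hs : Function.Surjective (Phi Q)) :
    Nonempty (Cfsg.Out (Cfsg.POmega F q) ≃* Gam Q ⧸ ZS (Om Q)) := by
  obtain ⟨e⟩ := CfsgH7.nonempty_equiv_quot ((QuotientGroup.mk' (Cfsg.Inn (Cfsg.POmega F q))).comp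
    (PhiM h)) ⊤ (MonoidHom.range_eq_top.2 ((QuotientGroup.mk'_surjective _).comp
      (PhiM_surjective h hs))) (ZS (Om Q)) (by
    ext γ
    rw [MonoidHom.mem_ker, ← PhiM_mem_Inn_iff h, ← QuotientGroup.eq_one_iff]
    rfl)
  exact ⟨Subgroup.topEquiv.symm.trans e⟩

end CfsgH8
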