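/-
Abstract Chevalley groups given by matrices with the Steinberg relations.
-/
import Mathlib

set_option autoImplicit false
set_option linter.unusedSectionVars false

namespace CfsgH8

open Matrix

/-- the data and relations of a Chevalley group acting on a graded module -/
structure Chev (ι R l F : Type*) [Fintype ι] [DecidableEq ι] [Fintype l] [DecidableEq l]
    [Field F] where
  wt : ι → l → ℤ
  rt : R → l → ℤ
  x : R → F → GL ι F
  ent : R → ι → ι → List (ℕ × ℤ)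
  neg : R → R
  p : l → R
  A : l → (l → ℤ) →+ ℤ
  w : l → R → R
  hb : l → ι
  e : R → ι
  co : R → l → ℤ
  f : (l → ℤ) →+ ℤ
  dep : R → ℕ
  rep : l → Prop
  x_ent : ∀ r t i j, (x r t : Matrix ι ι F) i j =
    (1 : Matrix ι ι F) i j + ((ent r i j).map fun km => (km.2 : F) * t ^ km.1).sum
  ent_wt : ∀ r i j, ∀ km ∈ ent r i j, 1 ≤ km.1 ∧ wt i = wt j + km.1 • rt r
  x_add : ∀ r t u, x r (t + u) = x r t * x r u
  rt_neg : ∀ r, rt (neg r) = -rt r
  rt_p : ∀ i, rt (p i) = Pi.single i 1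
  A_p : ∀ i, A i (Pi.single i 1) = 2
  rt_w : ∀ i s, rt (w i s) = rt s - A i (rt s) • Pi.single i 1
  n_wt : ∀ i a b, ((x (p i) 1 * x (neg (p i)) (-1) * x (p i) 1 : GL ι F) : Matrix ι ι F) a b ≠ 0 →
    wt a = wt b - A i (wt b) • Pi.single i 1
  n_x : ∀ i s, ∃ η : F, η * η = 1 ∧ ∀ t, x (p i) 1 * x (neg (p i)) (-1) * x (p i) 1 * x s t =
    x (w i s) (η * t) * (x (p i) 1 * x (neg (p i)) (-1) * x (p i) 1)
  comm : ∀ i, rep i → ∀ s, s ≠ p i → s ≠ neg (p i) → ∀ t u, ∃ L : List (R × F),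
    (∀ kv ∈ L, ∃ a b : ℕ, 1 ≤ a ∧ 1 ≤ b ∧ rt kv.1 = a • rt (p i) + b • rt s) ∧
      x s u * x (p i) t = x (p i) t * x s u * (L.map fun kv => x kv.1 kv.2).prod
  desc : ∀ r, (∃ i, rep i ∧ r = p i) ∨ ∃ i, dep (w i r) < dep r
  f_inj : ∀ r s, f (rt r) = f (rt s) → r = s
  f_pos : ∀ i, 0 < f (Pi.single i 1)
  sgn : ∀ r, 0 ≤ rt r ∨ rt r ≤ 0
  red : ∀ i r, (∀ j, j ≠ i → rt r j = 0) → r = p i ∨ r = neg (p i)
  wt_e : ∀ r, wt (e r) = rt r
  wt_hb : ∀ i, wt (hb i) = 0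
  x_co : ∀ r t i, (x r t : Matrix ι ι F) (hb i) (e (neg r)) = co r i * t
  co_gcd : ∀ r, ∃ b : l → ℤ, ∑ i, b i * co r i = 1

/-- diagonal matrices -/
def dgU {ι F : Type*} [Fintype ι] [DecidableEq ι] [Field F] : (ι → Fˣ) →* GL ι F where
  toFun d := ⟨diagonal fun i => (d i : F), diagonal fun i => ((d i)⁻¹ : Fˣ),
    by simp [diagonal_mul_diagonal], by simp [diagonal_mul_diagonal]⟩
  map_one' := by ext i j; simp
  map_mul' a b := Units.ext (by simp [diagonal_mul_diagonal])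

/-- unitriangular matrices with respect to a grading, raising the degree by at least `c` -/
def UT {ι F : Type*} [Fintype ι] [DecidableEq ι] [Field F] (g : ι → ℤ) (c : ℤ) (hc : 0 < c) :
    Subgroup (GL ι F) where
  carrier := {M | (∀ i j, g i < g j + c → (M : Matrix ι ι F) i j = (1 : Matrix ι ι F) i j) ∧
    ∀ i j, g i < g j + c → ((M⁻¹ : GL ι F) : Matrix ι ι F) i j = (1 : Matrix ι ι F) i j}
  one_mem' := ⟨fun _ _ _ => rfl, fun _ _ _ => by simp⟩
  inv_mem' := fun h => ⟨h.2, by simpa using h.1⟩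
  mul_mem' := by
    have key : ∀ M N : Matrix ι ι F, (∀ i j, g i < g j + c → M i j = (1 : Matrix ι ι F) i j) →
        (∀ i j, g i < g j + c → N i j = (1 : Matrix ι ι F) i j) →
        ∀ i j, g i < g j + c → (M * N) i j = (1 : Matrix ι ι F) i j := by
      intro M N hM hN i j hij
      rw [mul_apply, Finset.sum_eq_single i]
      · rw [hM i i (by omega), hN i j hij]; simp
      · intro k _ hk
        by_cases h : g i < g k + c
        · rw [hM i k h, one_apply_ne hk.symm, zero_mul]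
        · rw [hN k j (by omega), one_apply_ne (by rintro rfl; omega), mul_zero]
      · simp
    intro a b ha hb
    exact ⟨by simpa using key _ _ ha.1 hb.1, by
      rw [_root_.mul_inv_rev, Units.val_mul]; exact key _ _ hb.2 ha.2⟩

namespace Chev

variable {ι R l F : Type*} [Fintype ι] [DecidableEq ι] [Fintype l] [DecidableEq l] [Field F]
  (C : Chev ι R l F)

theorem rt_inj {r s : R} (h : C.rt r = C.rt s) : r = s := C.f_inj r s (by rw [h])

theorem neg_neg' (r : R) : C.neg (C.neg r) = r := C.rt_inj (by simp [C.rt_neg])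

theorem x_zero (r : R) : C.x r 0 = 1 := by
  have := C.x_add r 0 0
  rw [add_zero] at this
  exact (mul_eq_left.1 this.symm)

theorem x_neg (r : R) (t : F) : C.x r (-t) = (C.x r t)⁻¹ := by
  rw [eq_inv_iff_mul_eq_one, ← C.x_add, neg_add_cancel, C.x_zero]

/-- the element `n_p` -/
def n (i : l) : GL ι F := C.x (C.p i) 1 * C.x (C.neg (C.p i)) (-1) * C.x (C.p i) 1

/-- the simple reflection on the root lattice -/
def sr (i : l) : (l → ℤ) →+ (l → ℤ) where
  toFun v := v - C.A i v • Pi.single i 1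
  map_zero' := by simp
  map_add' a b := by simp only [map_add, add_smul]; abel

theorem sr_apply (i : l) (v : l → ℤ) : C.sr i v = v - C.A i v • Pi.single i 1 := rfl

theorem sr_sr (i : l) (v : l → ℤ) : C.sr i (C.sr i v) = v := by
  rw [C.sr_apply i (C.sr i v), sr_apply, map_sub, map_zsmul, C.A_p, smul_eq_mul]
  module

theorem rt_w' (i : l) (s : R) : C.rt (C.w i s) = C.sr i (C.rt s) := C.rt_w i s

theorem w_w (i : l) (s : R) : C.w i (C.w i s) = s := C.rt_inj (by rw [rt_w', rt_w', sr_sr])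

theorem w_neg (i : l) (s : R) : C.w i (C.neg s) = C.neg (C.w i s) :=
  C.rt_inj (by rw [rt_w', C.rt_neg, C.rt_neg, rt_w', map_neg])

theorem w_p (i : l) : C.w i (C.p i) = C.neg (C.p i) := C.rt_inj (by
  rw [rt_w', C.rt_neg, C.rt_p, sr_apply, C.A_p, two_smul]; abel)

theorem w_neg_p (i : l) : C.w i (C.neg (C.p i)) = C.p i := by rw [← w_p, w_w]

theorem n_conj (i : l) (s : R) :
    ∃ η : F, η * η = 1 ∧ ∀ t, C.n i * C.x s t * (C.n i)⁻¹ = C.x (C.w i s) (η * t) := by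
  obtain ⟨η, h1, h2⟩ := C.n_x i s
  exact ⟨η, h1, fun t => by rw [mul_inv_eq_iff_eq_mul]; exact h2 t⟩

theorem n_conj' (i : l) (s : R) :
    ∃ η : F, η * η = 1 ∧ ∀ t, (C.n i)⁻¹ * C.x s t * C.n i = C.x (C.w i s) (η * t) := by
  obtain ⟨η, h1, h2⟩ := C.n_conj i (C.w i s)
  refine ⟨η, h1, fun t => ?_⟩
  have := h2 (η * t)
  rw [w_w, ← mul_assoc η, h1, one_mul] at this
  rw [← this]; group

/-- characters of the root lattice -/
abbrev Ch (l F : Type*) [Field F] := Multiplicative (l → ℤ) →* Fˣ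

/-- value of a character -/
def cv (χ : Ch l F) (v : l → ℤ) : F := (χ (Multiplicative.ofAdd v) : Fˣ)

theorem cv_add (χ : Ch l F) (v v' : l → ℤ) : cv χ (v + v') = cv χ v * cv χ v' := by
  simp [cv, ofAdd_add]

theorem cv_ne (χ : Ch l F) (v : l → ℤ) : cv χ v ≠ 0 := Units.ne_zero _

theorem cv_zero (χ : Ch l F) : cv χ 0 = 1 := by simp [cv]

theorem cv_nsmul (χ : Ch l F) (k : ℕ) (v : l → ℤ) : cv χ (k • v) = cv χ v ^ k := by
  rw [cv, ofAdd_nsmul, map_pow, Units.val_pow_eq_pow_val, cv]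

theorem cv_neg (χ : Ch l F) (v : l → ℤ) : cv χ (-v) = (cv χ v)⁻¹ := by
  simp [cv, ofAdd_neg]

/-- the character `v ↦ c ^ a v` -/
def pw (c : Fˣ) (a : (l → ℤ) →+ ℤ) : Ch l F := (zpowersHom Fˣ c).comp (AddMonoidHom.toMultiplicative a)

theorem cv_pw (c : Fˣ) (a : (l → ℤ) →+ ℤ) (v : l → ℤ) : cv (pw c a) v = (c : F) ^ a v := by
  simp [cv, pw]

/-- the torus -/
def hh : Ch l F →* GL ι F where
  toFun χ := dgU fun i => χ (Multiplicative.ofAdd (C.wt i))
  map_one' := by rw [← _root_.map_one (dgU (ι := ι) (F := F))]; rfl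
  map_mul' a b := by rw [← _root_.map_mul]; rfl

theorem hh_val (χ : Ch l F) : (C.hh χ : Matrix ι ι F) = diagonal fun i => cv χ (C.wt i) := rfl

theorem hh_x (χ : Ch l F) (r : R) (t : F) :
    C.hh χ * C.x r t = C.x r (cv χ (C.rt r) * t) * C.hh χ := by
  ext i j
  simp only [Units.val_mul, hh_val, diagonal_mul, mul_diagonal, C.x_ent, mul_add, add_mul]
  congr 1
  · by_cases h : i = j
    · subst h; simp
    · simp [one_apply_ne h]
  · rw [← List.sum_map_mul_left, ← List.sum_map_mul_right]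
    congr 1
    refine List.map_congr_left fun km hkm => ?_
    rw [(C.ent_wt r i j km hkm).2, cv_add, cv_nsmul, mul_pow]; ring

theorem hh_conj (χ : Ch l F) (r : R) (t : F) :
    C.hh χ * C.x r t * (C.hh χ)⁻¹ = C.x r (cv χ (C.rt r) * t) := by
  rw [hh_x]; group

theorem x_hh (χ : Ch l F) (r : R) (t : F) :
    C.x r t * C.hh χ = C.hh χ * C.x r ((cv χ (C.rt r))⁻¹ * t) := by
  rw [hh_x, ← mul_assoc, mul_inv_cancel₀ (cv_ne _ _), one_mul]

/-- action of a lattice map on characters -/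
def chm (χ : Ch l F) (a : (l → ℤ) →+ (l → ℤ)) : Ch l F := χ.comp (AddMonoidHom.toMultiplicative a)

theorem cv_chm (χ : Ch l F) (a : (l → ℤ) →+ (l → ℤ)) (v : l → ℤ) : cv (chm χ a) v = cv χ (a v) :=
  rfl

theorem n_hh (i : l) (χ : Ch l F) : C.n i * C.hh χ = C.hh (chm χ (C.sr i)) * C.n i := by
  ext a b
  simp only [Units.val_mul, hh_val, diagonal_mul, mul_diagonal]
  by_cases h : (C.n i : Matrix ι ι F) a b = 0
  · simp [h]
  · rw [cv_chm, C.n_wt i a b h, ← sr_apply, sr_sr, mul_comm]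

theorem exists_ch (i : l) (c : F) (hc : c ≠ 0) : ∃ χ : Ch l F, cv χ (C.rt (C.p i)) = c :=
  ⟨pw (Units.mk0 c hc) (Pi.evalAddMonoidHom _ i), by simp [cv_pw, C.rt_p]⟩

/-- subgroup generated by root subgroups -/
def Xs (S : Set R) : Subgroup (GL ι F) := Subgroup.closure {g | ∃ r ∈ S, ∃ t, g = C.x r t}

theorem x_mem {S : Set R} {r : R} (h : r ∈ S) (t : F) : C.x r t ∈ C.Xs S :=
  Subgroup.subset_closure ⟨r, h, t, rfl⟩

theorem Xs_le {S : Set R} {K : Subgroup (GL ι F)} (h : ∀ r ∈ S, ∀ t, C.x r t ∈ K) : C.Xs S ≤ K := by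
  rw [Xs, Subgroup.closure_le]
  rintro _ ⟨r, hr, t, rfl⟩
  exact h r hr t

theorem Xs_mono {S T : Set R} (h : S ⊆ T) : C.Xs S ≤ C.Xs T :=
  C.Xs_le fun _ hr t => C.x_mem (h hr) t

theorem conj_mem {S : Set R} {K : Subgroup (GL ι F)} {a : GL ι F}
    (h : ∀ r ∈ S, ∀ t, a * C.x r t * a⁻¹ ∈ K) {g : GL ι F} (hg : g ∈ C.Xs S) : a * g * a⁻¹ ∈ K :=
  C.Xs_le (K := K.comap (MulAut.conj a).toMonoidHom) h hg

theorem n_conj_mem {S T : Set R} (i : l) (h : ∀ r ∈ S, C.w i r ∈ T) {g : GL ι F}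
    (hg : g ∈ C.Xs S) : C.n i * g * (C.n i)⁻¹ ∈ C.Xs T :=
  C.conj_mem (fun r hr t => by
    obtain ⟨η, -, h2⟩ := C.n_conj i r
    rw [h2]; exact C.x_mem (h r hr) _) hg

theorem hh_conj_mem {S : Set R} (χ : Ch l F) {g : GL ι F}
    (hg : g ∈ C.Xs S) : C.hh χ * g * (C.hh χ)⁻¹ ∈ C.Xs S :=
  C.conj_mem (fun r hr t => by rw [hh_conj]; exact C.x_mem hr _) hg

/-- positive combinations -/
def cs (r s : R) : Set R := {k | ∃ a b : ℕ, 1 ≤ a ∧ 1 ≤ b ∧ C.rt k = a • C.rt r + b • C.rt s}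

theorem comm_all (r s : R) (h1 : s ≠ r) (h2 : s ≠ C.neg r) (t u : F) :
    (C.x s u)⁻¹ * (C.x r t)⁻¹ * C.x s u * C.x r t ∈ C.Xs (C.cs r s) := by
  induction hd : C.dep r using Nat.strong_induction_on generalizing r s t u with
  | _ d ih =>
  rcases C.desc r with ⟨i, hi, rfl⟩ | ⟨i, hi⟩
  · obtain ⟨L, hL, h⟩ := C.comm i hi s h1 h2 t u
    rw [mul_assoc, mul_assoc, h]
    simp only [mul_assoc, inv_mul_cancel_left]
    refine Subgroup.list_prod_mem _ fun g hg => ?_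
    obtain ⟨kv, hkv, rfl⟩ := List.mem_map.1 hg
    exact C.x_mem (hL kv hkv) _
  · obtain ⟨η, e1, e2⟩ := C.n_conj i (C.w i r)
    obtain ⟨η', e1', e2'⟩ := C.n_conj i (C.w i s)
    have := ih _ (hd ▸ hi) (C.w i r) (C.w i s)
      (fun h => h1 (by rw [← C.w_w i s, h, w_w])) (fun h => h2 (by rw [← C.w_w i s, h, w_neg, w_w]))
      (η * t) (η' * u) rfl
    have h3 := C.n_conj_mem (T := C.cs r s) i (by
      rintro k ⟨a, b, ha, hb, hk⟩
      refine ⟨a, b, ha, hb, ?_⟩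
      rw [rt_w', hk, map_add, map_nsmul, map_nsmul, rt_w', rt_w', sr_sr, sr_sr]) this
    have e3 := e2 (η * t)
    have e3' := e2' (η' * u)
    rw [w_w, ← mul_assoc η, e1, one_mul] at e3
    rw [w_w, ← mul_assoc η', e1', one_mul] at e3'
    convert h3 using 1
    rw [← e3, ← e3']; group

/-- the unipotent subgroup attached to a functional -/
def U (g : (l → ℤ) →+ ℤ) (c : ℤ) : Subgroup (GL ι F) := C.Xs {r | c ≤ g (C.rt r)}

theorem x_conj_U {g : (l → ℤ) →+ ℤ} {c : ℤ} (hc : 0 < c) {r : R} (hr : 0 ≤ g (C.rt r)) (t : F)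
    {u : GL ι F} (hu : u ∈ C.U g c) : C.x r t * u * (C.x r t)⁻¹ ∈ C.U g c := by
  refine C.conj_mem (fun s hs v => ?_) hu
  have hs' : c ≤ g (C.rt s) := hs
  by_cases h1 : s = r
  · subst h1
    rw [← C.x_add, add_comm, C.x_add, mul_inv_cancel_right]
    exact C.x_mem hs _
  have h2 : s ≠ C.neg r := by
    rintro rfl
    rw [C.rt_neg, map_neg] at hs'
    omega
  have := C.comm_all r s h1 h2 (-t) v
  rw [x_neg, inv_inv] at this
  have h3 : C.Xs (C.cs r s) ≤ C.U g c := C.Xs_mono (by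
    rintro k ⟨a, b, ha, hb, hk⟩
    change c ≤ g (C.rt k)
    rw [hk, map_add, map_nsmul, map_nsmul, nsmul_eq_mul, nsmul_eq_mul]
    nlinarith)
  have h4 : _ ∈ C.U g c := mul_mem (C.x_mem hs v) (h3 this)
  convert h4 using 1
  simp only [mul_assoc, mul_inv_cancel_left]

theorem U_le_UT (g : (l → ℤ) →+ ℤ) {c : ℤ} (hc : 0 < c) : C.U g c ≤ UT (fun i => g (C.wt i)) c hc := by
  have key : ∀ r, c ≤ g (C.rt r) → ∀ t i j, g (C.wt i) < g (C.wt j) + c →
      (C.x r t : Matrix ι ι F) i j = (1 : Matrix ι ι F) i j := by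
    intro r hr t i j hij
    rw [C.x_ent, add_eq_left]
    refine List.sum_eq_zero fun y hy => ?_
    obtain ⟨km, hkm, rfl⟩ := List.mem_map.1 hy
    obtain ⟨h1, h2⟩ := C.ent_wt r i j km hkm
    rw [h2, map_add, map_nsmul, nsmul_eq_mul] at hij
    have : (1 : ℤ) ≤ km.1 := by exact_mod_cast h1
    nlinarith
  refine C.Xs_le fun r hr t => ⟨key r hr t, ?_⟩
  rw [← x_neg]; exact key r hr _

/-- splitting off one root subgroup -/
theorem split_left {S T : Set R} {r : R} (hS : ∀ s ∈ S, s = r ∨ s ∈ T)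
    (hn : ∀ t, ∀ u ∈ C.Xs T, C.x r t * u * (C.x r t)⁻¹ ∈ C.Xs T) {g : GL ι F} (hg : g ∈ C.Xs S) :
    ∃ t, ∃ u ∈ C.Xs T, g = C.x r t * u := by
  let K : Subgroup (GL ι F) :=
    { carrier := {g | ∃ t, ∃ u ∈ C.Xs T, g = C.x r t * u}
      one_mem' := ⟨0, 1, one_mem _, by simp [x_zero]⟩
      mul_mem' := by
        rintro _ _ ⟨t, u, hu, rfl⟩ ⟨t', u', hu', rfl⟩
        refine ⟨t + t', _, mul_mem (hn (-t') u hu) hu', ?_⟩
        rw [C.x_add, x_neg]; group
      inv_mem' := by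
        rintro _ ⟨t, u, hu, rfl⟩
        refine ⟨-t, _, hn t _ (inv_mem hu), ?_⟩
        rw [x_neg]; group }
  refine C.Xs_le (K := K) (fun s hs t => ?_) hg
  rcases hS s hs with rfl | h
  · exact ⟨t, 1, one_mem _, by simp⟩
  · exact ⟨0, _, C.x_mem h t, by simp [x_zero]⟩

theorem split_right {S T : Set R} {r : R} (hS : ∀ s ∈ S, s = r ∨ s ∈ T)
    (hn : ∀ t, ∀ u ∈ C.Xs T, C.x r t * u * (C.x r t)⁻¹ ∈ C.Xs T) {g : GL ι F} (hg : g ∈ C.Xs S) :
    ∃ t, ∃ u ∈ C.Xs T, g = u * C.x r t := by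
  obtain ⟨t, u, hu, rfl⟩ := C.split_left hS hn hg
  exact ⟨t, _, hn t u hu, by group⟩

/-- the functional `f` with the `i`-th coordinate killed -/
def gf (i : l) : (l → ℤ) →+ ℤ where
  toFun v := C.f (v - v i • Pi.single i 1)
  map_zero' := by simp
  map_add' a b := by rw [← map_add]; congr 1; simp only [Pi.add_apply, add_smul]; abel

theorem gf_apply (i : l) (v : l → ℤ) : C.gf i v = C.f (v - v i • Pi.single i 1) := rfl

theorem f_eq (v : l → ℤ) : C.f v = ∑ j, v j * C.f (Pi.single j 1) := by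
  conv_lhs => rw [← Finset.univ_sum_single v, map_sum]
  refine Finset.sum_congr rfl fun j _ => ?_
  rw [← smul_eq_mul, ← map_zsmul, ← Pi.single_smul, smul_eq_mul, mul_one]

theorem f_nonneg {v : l → ℤ} (h : 0 ≤ v) : 0 ≤ C.f v := by
  rw [f_eq]; exact Finset.sum_nonneg fun j _ => mul_nonneg (h j) (C.f_pos j).le

theorem f_pos' {v : l → ℤ} (h : 0 ≤ v) (h0 : v ≠ 0) : 0 < C.f v := by
  rw [f_eq]
  obtain ⟨j, hj⟩ := Function.ne_iff.1 h0
  exact Finset.sum_pos' (fun j _ => mul_nonneg (h j) (C.f_pos j).le)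
    ⟨j, Finset.mem_univ _, mul_pos (lt_of_le_of_ne (h j) (Ne.symm hj)) (C.f_pos j)⟩

theorem gf_sr (i : l) (v : l → ℤ) : C.gf i (C.sr i v) = C.gf i v := by
  rw [gf_apply, gf_apply, sr_apply]
  congr 1
  simp only [Pi.sub_apply, Pi.smul_apply, Pi.single_eq_same, smul_eq_mul, mul_one, sub_smul]
  abel

theorem gf_p (i : l) : C.gf i (C.rt (C.p i)) = 0 := by simp [gf_apply, C.rt_p]

theorem f_p (i : l) : 0 < C.f (C.rt (C.p i)) := by rw [C.rt_p]; exact C.f_pos i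

theorem kill_nonneg (i : l) {v : l → ℤ} (h : 0 ≤ v) : 0 ≤ v - v i • (Pi.single i 1 : l → ℤ) := by
  intro j
  by_cases hj : j = i
  · subst hj; simp
  · simpa [Pi.single_eq_of_ne hj] using h j

theorem gf_pos_of (i : l) {r : R} (h : 0 < C.f (C.rt r)) : r = C.p i ∨ 1 ≤ C.gf i (C.rt r) := by
  have h1 : 0 ≤ C.rt r := (C.sgn r).resolve_right fun h2 => by
    have := C.f_nonneg (v := -C.rt r) (by simpa using h2)
    rw [map_neg] at this; omega
  by_cases h2 : C.rt r - C.rt r i • (Pi.single i 1 : l → ℤ) = 0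
  · rcases C.red i r (fun j hj => by simpa [Pi.single_eq_of_ne hj] using congrFun h2 j) with h3 | rfl
    · exact .inl h3
    · have := C.f_p i
      rw [C.rt_neg, map_neg] at h; omega
  · exact .inr (C.f_pos' (kill_nonneg i h1) h2)

theorem f_pos_of (i : l) {r : R} (h : 1 ≤ C.gf i (C.rt r)) : 1 ≤ C.f (C.rt r) := by
  rcases C.sgn r with h1 | h1
  · refine C.f_pos' h1 fun h2 => ?_
    rw [h2, map_zero] at h; omega
  · have := C.f_nonneg (kill_nonneg i (v := -C.rt r) (by simpa using h1))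
    rw [← gf_apply, map_neg] at this; omega

theorem U_gf_le (i : l) : C.U (C.gf i) 1 ≤ C.U C.f 1 := C.Xs_mono fun _ h => C.f_pos_of i h

theorem U_gf_le' (i : l) : C.U (-C.gf i) 1 ≤ C.U (-C.f) 1 := C.Xs_mono fun r h => by
  have := C.f_pos_of i (r := C.neg r) (by simpa [C.rt_neg] using h)
  simpa [C.rt_neg] using this

theorem U_split (i : l) {u : GL ι F} (hu : u ∈ C.U C.f 1) :
    ∃ t, ∃ u' ∈ C.U (C.gf i) 1, u = u' * C.x (C.p i) t :=
  C.split_right (fun s hs => C.gf_pos_of i hs)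
    (fun t _ hu => C.x_conj_U one_pos (C.gf_p i).ge t hu) hu

theorem U_split' (i : l) {u : GL ι F} (hu : u ∈ C.U (-C.f) 1) :
    ∃ t, ∃ u' ∈ C.U (-C.gf i) 1, u = C.x (C.neg (C.p i)) t * u' :=
  C.split_left (fun s hs => by
      rcases C.gf_pos_of i (r := C.neg s) (by
        have : 1 ≤ -C.f (C.rt s) := hs
        rw [C.rt_neg, map_neg]; omega) with h | h
      · left; rw [← h, neg_neg']
      · right; simpa [C.rt_neg] using h)
    (fun t _ hu => C.x_conj_U one_pos (by simp [C.rt_neg, gf_p]) t hu) hu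

end Chev

end CfsgH8
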