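/-
Abstract Chevalley groups: the decomposition `G = U H U⁻ N` and fixed points of field automorphisms.
-/
import Cfsg.Agent.H8.Chev1

set_option autoImplicit false
set_option linter.unusedSectionVars false

namespace CfsgH8

open Matrix

namespace Chev

variable {ι R l F : Type*} [Fintype ι] [DecidableEq ι] [Fintype l] [DecidableEq l] [Field F]
  (C : Chev ι R l F)

theorem hh_congr {χ χ' : Ch l F} (h : ∀ v, cv χ v = cv χ' v) : C.hh χ = C.hh χ' := by
  congr 1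
  exact MonoidHom.ext fun v => Units.ext (h v)

theorem cv_mul (χ χ' : Ch l F) (v : l → ℤ) : cv (χ * χ') v = cv χ v * cv χ' v := by simp [cv]

theorem cv_inv (χ : Ch l F) (v : l → ℤ) : cv χ⁻¹ v = (cv χ v)⁻¹ := by simp [cv]

theorem cv_zsmul (χ : Ch l F) (k : ℤ) (v : l → ℤ) : cv χ (k • v) = cv χ v ^ k := by
  rw [cv, ofAdd_zsmul, map_zpow, Units.val_zpow_eq_zpow_val, cv]

theorem hh_n_hh (i : l) (χ : Ch l F) (c : Fˣ) (hc : cv χ (C.rt (C.p i)) = c) :
    C.hh χ * C.n i * (C.hh χ)⁻¹ = C.hh (pw c (C.A i)) * C.n i := by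
  rw [← map_inv, mul_assoc, n_hh, ← mul_assoc, ← _root_.map_mul]
  congr 1
  refine C.hh_congr fun v => ?_
  rw [cv_mul, cv_chm, cv_inv, sr_apply, cv_pw, sub_eq_add_neg, cv_add, cv_neg, cv_zsmul, ← C.rt_p,
    hc]
  have := cv_ne χ v
  field_simp

theorem nn_eq (i : l) (c : Fˣ) :
    C.x (C.p i) c * C.x (C.neg (C.p i)) (-(c : F)⁻¹) * C.x (C.p i) c =
      C.hh (pw c (C.A i)) * C.n i := by
  obtain ⟨χ, hχ⟩ := C.exists_ch i c c.ne_zero
  rw [← C.hh_n_hh i χ c hχ, n]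
  have e1 := C.hh_conj χ (C.p i) 1
  have e2 := C.hh_conj χ (C.neg (C.p i)) (-1)
  rw [hχ, mul_one] at e1
  rw [C.rt_neg, cv_neg, hχ, mul_neg, mul_one] at e2
  rw [← e1, ← e2]; group

theorem n_inv (i : l) : (C.n i)⁻¹ = C.hh (pw (-1) (C.A i)) * C.n i := by
  rw [← nn_eq, n]
  simp only [Units.val_neg, Units.val_one, inv_neg, inv_one, neg_neg, x_neg, _root_.mul_inv_rev,
    inv_inv, mul_assoc]

theorem n_n (i : l) : C.n i * C.n i = C.hh (pw (-1) (C.A i))⁻¹ := by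
  rw [_root_.map_inv C.hh, eq_inv_iff_mul_eq_one, mul_assoc, n_hh, ← mul_assoc, n_hh]
  have : chm (chm (pw (-1 : Fˣ) (C.A i)) (C.sr i)) (C.sr i) = pw (-1) (C.A i) := by
    exact MonoidHom.ext fun v => Units.ext
      (congrArg (fun v => cv (pw (-1 : Fˣ) (C.A i)) v) (C.sr_sr i _))
  rw [this, ← n_inv, inv_mul_cancel]

theorem x_p_eq (i : l) {c : F} (hc : c ≠ 0) : ∃ a b χ,
    C.x (C.p i) c = C.x (C.neg (C.p i)) a * C.hh χ * C.n i * C.x (C.neg (C.p i)) b := by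
  obtain ⟨η, e1, e2⟩ := C.n_conj i (C.p i)
  obtain ⟨η', e1', e2'⟩ := C.n_conj i (C.neg (C.p i))
  rw [w_p] at e2
  rw [w_neg_p] at e2'
  have h1 : C.n i = C.x (C.neg (C.p i)) (η * 1) * C.x (C.p i) (η' * -1) *
      C.x (C.neg (C.p i)) (η * 1) := by
    rw [← e2, ← e2']
    conv_lhs => rw [← mul_inv_cancel_right (C.n i) (C.n i)]
    nth_rewrite 2 [n]
    group
  have hη : η' ≠ 0 := by rintro rfl; simp at e1'
  obtain ⟨χ, hχ⟩ := C.exists_ch i (-(c * η')) (neg_ne_zero.2 (mul_ne_zero hc hη))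
  have h2 := C.hh_n_hh i χ (Units.mk0 _ (neg_ne_zero.2 (mul_ne_zero hc hη))) hχ
  have e3 := C.hh_conj χ (C.p i) (η' * -1)
  have e4 := C.hh_conj χ (C.neg (C.p i)) (η * 1)
  rw [hχ, show -(c * η') * (η' * -1) = c by linear_combination c * e1'] at e3
  refine ⟨-(cv χ (C.rt (C.neg (C.p i))) * (η * 1)), -(cv χ (C.rt (C.neg (C.p i))) * (η * 1)),
    pw (Units.mk0 _ (neg_ne_zero.2 (mul_ne_zero hc hη))) (C.A i), ?_⟩
  rw [mul_assoc _ (C.hh _), ← h2, x_neg, ← e4, ← e3]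
  conv_rhs => rw [h1]
  group

theorem sl2 (i : l) (t a : F) :
    (∃ a' χ b, C.x (C.neg (C.p i)) t * C.x (C.p i) a =
      C.x (C.p i) a' * C.hh χ * C.x (C.neg (C.p i)) b) ∨
    ∃ a' χ, C.x (C.neg (C.p i)) t * C.x (C.p i) a = C.x (C.p i) a' * C.hh χ * C.n i := by
  by_cases ht : t = 0
  · exact .inl ⟨a, 1, 0, by simp [ht, x_zero]⟩
  have h1 := C.nn_eq i (Units.mk0 (-t⁻¹) (by simpa using ht))
  simp only [Units.val_mk0, inv_neg, inv_inv, neg_neg, x_neg] at h1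
  have h2 : C.x (C.neg (C.p i)) t * C.x (C.p i) a =
      C.x (C.p i) t⁻¹ * (C.hh (pw (Units.mk0 (-t⁻¹) (by simpa using ht)) (C.A i)) * C.n i) *
        C.x (C.p i) (t⁻¹ + a) := by
    rw [← h1, C.x_add]; group
  generalize pw (Units.mk0 (-t⁻¹) (by simpa using ht)) (C.A i) = χ₀ at h2
  by_cases hc : t⁻¹ + a = 0
  · exact .inr ⟨t⁻¹, χ₀, by rw [h2, hc, x_zero]; group⟩
  · obtain ⟨a₁, b, χ₁, h3⟩ := C.x_p_eq i hc
    obtain ⟨η, -, e2⟩ := C.n_conj i (C.neg (C.p i))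
    rw [w_neg_p] at e2
    refine .inl ⟨t⁻¹ + cv χ₀ (C.rt (C.p i)) * (η * a₁),
      χ₀ * chm χ₁ (C.sr i) * (pw (-1) (C.A i))⁻¹, b, ?_⟩
    rw [h2, h3, C.x_add, ← hh_conj, ← e2, _root_.map_mul, _root_.map_mul, ← n_n]
    have := C.n_hh i χ₁
    rw [← mul_inv_eq_iff_eq_mul] at this
    rw [← this]; group

/-- the group is generated by the simple root subgroups and their opposites -/
theorem Xs_univ_le {K : Subgroup (GL ι F)} (h1 : ∀ i t, C.x (C.p i) t ∈ K)
    (h2 : ∀ i t, C.x (C.neg (C.p i)) t ∈ K) : C.Xs Set.univ ≤ K := by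
  refine C.Xs_le fun r hr => ?_
  clear hr
  induction hd : C.dep r using Nat.strong_induction_on generalizing r with
  | _ d ih =>
  intro t
  rcases C.desc r with ⟨i, -, rfl⟩ | ⟨i, hi⟩
  · exact h1 i t
  · obtain ⟨η, e1, e2⟩ := C.n_conj i (C.w i r)
    have e3 := e2 (η * t)
    rw [w_w, ← mul_assoc η, e1, one_mul] at e3
    have hn : C.n i ∈ K := mul_mem (mul_mem (h1 _ _) (h2 _ _)) (h1 _ _)
    rw [← e3]
    exact mul_mem (mul_mem hn (ih _ (hd ▸ hi) _ rfl _)) (inv_mem hn)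

/-- a set containing `1` and stable under left multiplication by generators contains the group -/
theorem mem_of_stable {S : Set (GL ι F)} (h0 : (1 : GL ι F) ∈ S)
    (h1 : ∀ i t, ∀ g ∈ S, C.x (C.p i) t * g ∈ S)
    (h2 : ∀ i t, ∀ g ∈ S, C.x (C.neg (C.p i)) t * g ∈ S) {g : GL ι F} (hg : g ∈ C.Xs Set.univ) :
    g ∈ S := by
  let K : Subgroup (GL ι F) :=
    { carrier := {a | (∀ g ∈ S, a * g ∈ S) ∧ ∀ g ∈ S, a⁻¹ * g ∈ S}
      one_mem' := by simp
      inv_mem' := fun h => ⟨h.2, by simpa using h.1⟩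
      mul_mem' := fun ha hb => ⟨fun g hg => by rw [mul_assoc]; exact ha.1 _ (hb.1 g hg),
        fun g hg => by rw [_root_.mul_inv_rev, mul_assoc]; exact hb.2 _ (ha.2 g hg)⟩ }
  have := C.Xs_univ_le (K := K) (fun i t => ⟨h1 i t, by rw [← x_neg]; exact h1 i _⟩)
    (fun i t => ⟨h2 i t, by rw [← x_neg]; exact h2 i _⟩) hg
  simpa using this.1 1 h0

theorem x_p_mem (i : l) (t : F) : C.x (C.p i) t ∈ C.U C.f 1 := C.x_mem (C.f_p i) t

theorem x_np_mem (i : l) (t : F) : C.x (C.neg (C.p i)) t ∈ C.U (-C.f) 1 :=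
  C.x_mem (by have := C.f_p i; simp [C.rt_neg]; omega) t

theorem decomp {G₀ : Subgroup (GL ι F)} (hn : ∀ i, C.n i ∈ G₀) {g : GL ι F}
    (hg : g ∈ C.Xs Set.univ) :
    ∃ u ∈ C.U C.f 1, ∃ χ, ∃ v ∈ C.U (-C.f) 1, ∃ m ∈ G₀, g = u * C.hh χ * v * m := by
  refine C.mem_of_stable
    (S := {g | ∃ u ∈ C.U C.f 1, ∃ χ, ∃ v ∈ C.U (-C.f) 1, ∃ m ∈ G₀, g = u * C.hh χ * v * m})
    ⟨1, one_mem _, 1, 1, one_mem _, 1, one_mem _, by simp⟩ ?_ ?_ hg
  · rintro i t _ ⟨u, hu, χ, v, hv, m, hm, rfl⟩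
    exact ⟨_, mul_mem (C.x_p_mem i t) hu, χ, v, hv, m, hm, by group⟩
  · rintro i t _ ⟨u, hu, χ, v, hv, m, hm, rfl⟩
    obtain ⟨a, u', hu', rfl⟩ := C.U_split i hu
    have hu'' := C.U_gf_le i (C.x_conj_U one_pos (r := C.neg (C.p i)) (by simp [C.rt_neg, gf_p])
      t hu')
    rcases C.sl2 i t a with ⟨a', χ', b, h⟩ | ⟨a', χ', h⟩
    · refine ⟨_, mul_mem hu'' (C.x_p_mem i a'), χ' * χ, _, mul_mem (C.x_np_mem i
        ((cv χ (C.rt (C.neg (C.p i))))⁻¹ * b)) hv, m, hm, ?_⟩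
      have := C.x_hh χ (C.neg (C.p i)) b
      rw [← inv_mul_eq_iff_eq_mul] at this
      rw [← mul_inv_eq_iff_eq_mul] at h
      rw [_root_.map_mul, ← this, mul_assoc _ (C.x (C.p i) a'), ← mul_assoc (C.x (C.p i) a'), ← h]
      group
    · obtain ⟨b, v', hv', rfl⟩ := C.U_split' i hv
      obtain ⟨η, -, e2⟩ := C.n_conj i (C.neg (C.p i))
      rw [w_neg_p] at e2
      have hv'' : C.n i * v' * (C.n i)⁻¹ ∈ C.U (-C.gf i) 1 := C.n_conj_mem i (fun r hr => by
        simpa [rt_w', gf_sr] using hr) hv'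
      refine ⟨_, mul_mem hu'' (mul_mem (C.x_p_mem i a') (C.x_p_mem i
        (cv (χ' * chm χ (C.sr i)) (C.rt (C.p i)) * (η * b)))), χ' * chm χ (C.sr i), _,
        C.U_gf_le' i hv'', _, mul_mem (hn i) hm, ?_⟩
      have := C.n_hh i χ
      rw [← mul_inv_eq_iff_eq_mul] at this
      rw [← mul_inv_eq_iff_eq_mul, ← mul_inv_eq_iff_eq_mul] at h
      rw [← hh_conj, ← e2, _root_.map_mul, ← this, ← h]
      group

theorem udl_unique {u u' v v' : GL ι F} {χ χ' : Ch l F} (hu : u ∈ C.U C.f 1) (hu' : u' ∈ C.U C.f 1)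
    (hv : v ∈ C.U (-C.f) 1) (hv' : v' ∈ C.U (-C.f) 1)
    (h : u * C.hh χ * v = u' * C.hh χ' * v') : u = u' ∧ C.hh χ = C.hh χ' ∧ v = v' := by
  have h1 := (C.U_le_UT C.f one_pos (mul_mem (inv_mem hu') hu)).1
  have h2 := (C.U_le_UT (-C.f) one_pos (mul_mem hv' (inv_mem hv))).1
  have h3 : u'⁻¹ * u * C.hh χ = C.hh χ' * (v' * v⁻¹) := by
    rw [← inv_mul_eq_iff_eq_mul.2 h]; group
  have h4 : u'⁻¹ * u = 1 := by
    ext i j
    by_cases hij : C.f (C.wt i) < C.f (C.wt j) + 1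
    · exact h1 i j hij
    · have e := congrArg (fun g : GL ι F => (g : Matrix ι ι F) i j) h3
      simp only [Units.val_mul _ (C.hh _), Units.val_mul (C.hh _), hh_val, mul_diagonal,
        diagonal_mul] at e
      have hne : i ≠ j := by rintro rfl; omega
      rw [h2 i j (by simp only [AddMonoidHom.neg_apply]; omega), one_apply_ne hne, mul_zero,
        mul_eq_zero] at e
      rw [e.resolve_right (cv_ne _ _), Units.val_one, one_apply_ne hne]
  have h5 : v' * v⁻¹ = 1 := by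
    rw [h4, one_mul] at h3
    ext i j
    by_cases hij : i = j
    · subst hij; exact h2 i i (by omega)
    · have e := congrArg (fun g : GL ι F => (g : Matrix ι ι F) i j) h3
      simp only [Units.val_mul (C.hh _), hh_val, diagonal_mul, diagonal_apply_ne _ hij] at e
      rw [(mul_eq_zero.1 e.symm).resolve_left (cv_ne _ _), Units.val_one, one_apply_ne hij]
  rw [h4, h5, one_mul, mul_one] at h3
  exact ⟨(inv_mul_eq_one.1 h4).symm, h3, (mul_inv_eq_one.1 h5).symm⟩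

theorem entry_peel {g : (l → ℤ) →+ ℤ} {r : R} (hr : 0 < g (C.rt r)) {u : GL ι F}
    (hu : u ∈ C.U g (g (C.rt r) + 1)) (t : F) (i : l) :
    ((C.x r t * u : GL ι F) : Matrix ι ι F) (C.hb i) (C.e (C.neg r)) = C.co r i * t := by
  have h1 := (C.U_le_UT g (by omega) hu).1
  have h2 := (C.U_le_UT g hr (C.x_mem (S := {s | g (C.rt r) ≤ g (C.rt s)}) (r := r)
    (le_refl (g (C.rt r))) t)).1
  beta_reduce at h1 h2
  rw [Units.val_mul, mul_apply, Finset.sum_eq_single (C.e (C.neg r)), h1 _ _ (by omega),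
    one_apply_eq, mul_one, C.x_co]
  · intro k _ hk
    by_cases h : g (C.wt k) ≤ 0
    · rw [h1 _ _ (by rw [C.wt_e, C.rt_neg, map_neg]; omega), one_apply_ne hk, mul_zero]
    · rw [h2 _ _ (by rw [C.wt_hb, map_zero]; omega), one_apply_ne, zero_mul]
      rintro rfl
      rw [C.wt_hb, map_zero] at h; omega
  · simp

section field

variable (σ : F →+* F)

theorem map_x (r : R) (t : F) : GeneralLinearGroup.map σ (C.x r t) = C.x r (σ t) := by
  ext i j
  rw [GeneralLinearGroup.map_apply, C.x_ent, C.x_ent, map_add, map_list_sum, List.map_map]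
  congr 1
  · by_cases h : i = j
    · subst h; simp
    · simp [one_apply_ne h]
  · congr 1
    refine List.map_congr_left fun km _ => by simp

theorem map_mem {S : Set R} {g : GL ι F} (hg : g ∈ C.Xs S) :
    GeneralLinearGroup.map σ g ∈ C.Xs S :=
  C.Xs_le (K := (C.Xs S).comap (GeneralLinearGroup.map σ)) (fun r hr t => by
    rw [Subgroup.mem_comap, map_x]; exact C.x_mem hr _) hg

theorem map_hh (χ : Ch l F) :
    GeneralLinearGroup.map σ (C.hh χ) = C.hh ((Units.map σ.toMonoidHom).comp χ) := by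
  ext i j
  rw [GeneralLinearGroup.map_apply, hh_val, hh_val]
  by_cases h : i = j
  · subst h; simp [cv]
  · simp [diagonal_apply_ne _ h]

/-- the subgroup generated by root elements with fixed parameter -/
def G0 : Subgroup (GL ι F) := Subgroup.closure {g | ∃ r t, σ t = t ∧ g = C.x r t}

theorem x_mem_G0 (r : R) {t : F} (h : σ t = t) : C.x r t ∈ C.G0 σ :=
  Subgroup.subset_closure ⟨r, t, h, rfl⟩

theorem map_G0 {g : GL ι F} (hg : g ∈ C.G0 σ) : GeneralLinearGroup.map σ g = g := by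
  have : C.G0 σ ≤ (GeneralLinearGroup.map σ).eqLocus (MonoidHom.id _) := by
    rw [G0, Subgroup.closure_le]
    rintro _ ⟨r, t, h, rfl⟩
    change GeneralLinearGroup.map σ (C.x r t) = C.x r t
    rw [map_x, h]
  exact this hg

theorem n_mem_G0 (i : l) : C.n i ∈ C.G0 σ :=
  mul_mem (mul_mem (C.x_mem_G0 σ _ (by simp)) (C.x_mem_G0 σ _ (by simp))) (C.x_mem_G0 σ _ (by simp))

theorem peel [Finite R] {g : (l → ℤ) →+ ℤ} (hg : ∀ r s, g (C.rt r) = g (C.rt s) → r = s) {c : ℤ}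
    (hc : 0 < c) {u : GL ι F} (hu : u ∈ C.U g c) (hσ : GeneralLinearGroup.map σ u = u) :
    u ∈ C.G0 σ := by
  obtain ⟨M, hM⟩ := (Set.finite_range fun r => g (C.rt r)).bddAbove
  induction hk : (M + 1 - c).toNat generalizing c u with
  | zero =>
    refine C.Xs_le (fun r hr => ?_) hu
    have : g (C.rt r) ≤ M := hM ⟨r, rfl⟩
    have : c ≤ g (C.rt r) := hr
    omega
  | succ k ih =>
    by_cases h : ∃ r, g (C.rt r) = c
    · obtain ⟨r, rfl⟩ := h
      obtain ⟨t, u', hu', rfl⟩ := C.split_left (r := r) (T := {s | g (C.rt r) + 1 ≤ g (C.rt s)})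
        (fun s hs => by
          have : g (C.rt r) ≤ g (C.rt s) := hs
          rcases this.eq_or_lt with h | h
          exacts [.inl (hg _ _ h.symm), .inr h])
        (fun t _ hu => C.x_conj_U (by omega) hc.le t hu) hu
      have ht : σ t = t := by
        obtain ⟨b, hb⟩ := C.co_gcd r
        have e : ∀ i, σ (C.co r i * t) = C.co r i * t := fun i => by
          rw [← C.entry_peel hc hu' t i, ← GeneralLinearGroup.map_apply, hσ]
        have : t = ∑ i, b i * (C.co r i * t) := by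
          simp only [← mul_assoc, ← Finset.sum_mul, ← Int.cast_mul, ← Int.cast_sum, hb]; simp
        rw [this, map_sum]
        exact Finset.sum_congr rfl fun i _ => by rw [_root_.map_mul, e, map_intCast]
      rw [_root_.map_mul, map_x, ht, mul_right_inj] at hσ
      exact mul_mem (C.x_mem_G0 σ r ht) (ih (by omega) hu' hσ (by omega))
    · refine ih (c := c + 1) (by omega) (C.Xs_mono (fun s hs => ?_) hu) hσ (by omega)
      have : c ≤ g (C.rt s) := hs
      exact lt_of_le_of_ne this fun e => h ⟨s, e.symm⟩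

theorem hh_mem_G0 (hB : ∀ j, ∃ b : l → ℤ, ∀ v, v j = ∑ i, b i * C.A i v) {χ : Ch l F}
    (hχ : GeneralLinearGroup.map σ (C.hh χ) = C.hh χ) : C.hh χ ∈ C.G0 σ := by
  have h1 : ∀ j, σ (cv χ (Pi.single j 1)) = cv χ (Pi.single j 1) := fun j => by
    have e := congrArg (fun g : GL ι F => (g : Matrix ι ι F) (C.e (C.p j)) (C.e (C.p j))) hχ
    simpa only [GeneralLinearGroup.map_apply, hh_val, diagonal_apply_eq, C.wt_e, C.rt_p] using e
  choose b hb using hB
  have h2 : χ = ∏ j, ∏ i, pw (χ (Multiplicative.ofAdd (Pi.single j 1))) (C.A i) ^ b j i := by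
    refine MonoidHom.ext fun v => ?_
    obtain ⟨v, rfl⟩ := Multiplicative.ofAdd.surjective v
    conv_lhs => rw [← Finset.univ_sum_single v, ofAdd_sum, map_prod]
    rw [MonoidHom.finsetProd_apply]
    refine Finset.prod_congr rfl fun j _ => ?_
    rw [MonoidHom.finsetProd_apply]
    have : (Pi.single j (v j) : l → ℤ) = v j • Pi.single j 1 := by
      rw [← Pi.single_smul, smul_eq_mul, mul_one]
    rw [this, ofAdd_zsmul, map_zpow, hb j v]
    simp only [MonoidHom.zpow_apply, pw, MonoidHom.comp_apply, zpowersHom_apply, ← _root_.zpow_mul]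
    have := map_prod (zpowersHom Fˣ (χ (Multiplicative.ofAdd (Pi.single j 1))))
      (fun i => Multiplicative.ofAdd (b j i * C.A i v)) Finset.univ
    rw [← ofAdd_sum] at this
    simp only [zpowersHom_apply, toAdd_ofAdd] at this
    rw [this]
    simp [mul_comm]
  rw [h2]
  refine (C.G0 σ).comap C.hh |>.prod_mem fun j _ => Subgroup.prod_mem _ fun i _ =>
    Subgroup.zpow_mem _ ?_ _
  rw [Subgroup.mem_comap, ← mul_inv_eq_iff_eq_mul.2 (C.nn_eq i _)]
  have := h1 j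
  exact mul_mem (mul_mem (mul_mem (C.x_mem_G0 σ _ this) (C.x_mem_G0 σ _ (by
    rw [map_neg, map_inv₀]; exact congrArg (fun z => -z⁻¹) this))) (C.x_mem_G0 σ _ this))
    (inv_mem (C.n_mem_G0 σ i))

theorem fixed_mem_G0 [Finite R] (hB : ∀ j, ∃ b : l → ℤ, ∀ v, v j = ∑ i, b i * C.A i v)
    {g : GL ι F} (hg : g ∈ C.Xs Set.univ) (hσ : GeneralLinearGroup.map σ g = g) :
    g ∈ C.G0 σ := by
  obtain ⟨u, hu, χ, v, hv, m, hm, rfl⟩ := C.decomp (C.n_mem_G0 σ) hg
  rw [_root_.map_mul, C.map_G0 σ hm, mul_left_inj, _root_.map_mul, _root_.map_mul, map_hh] at hσ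
  obtain ⟨h1, h2, h3⟩ := C.udl_unique (C.map_mem σ hu) hu (C.map_mem σ hv) hv hσ
  rw [← map_hh] at h2
  exact mul_mem (mul_mem (mul_mem (C.peel σ C.f_inj one_pos hu h1) (C.hh_mem_G0 σ hB h2))
    (C.peel σ (fun r s h => C.f_inj r s (neg_injective h)) one_pos hv h3)) hm

end field

end Chev

end CfsgH8
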