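/-
Abstract Chevalley groups: Bruhat decomposition.
-/
import Cfsg.Agent.H8.Chev2

set_option autoImplicit false
set_option linter.unusedSectionVars false

namespace CfsgH8

open Matrix

namespace Chev

variable {ι R l F : Type*} [Fintype ι] [DecidableEq ι] [Fintype l] [DecidableEq l] [Field F]
  (C : Chev ι R l F)

/-- `m` acts monomially, through `a` on the lattice and `π` on roots -/
structure Acts (m : GL ι F) (a : (l → ℤ) →+ (l → ℤ)) (π : R → R) : Prop where
  inj : Function.Injective a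
  rt : ∀ s, C.rt (π s) = a (C.rt s)
  wt : ∀ i j, (m : Matrix ι ι F) i j ≠ 0 → C.wt i = a (C.wt j)
  conj : ∀ s, ∃ η : F, η * η = 1 ∧ (∀ t, m * C.x s t * m⁻¹ = C.x (π s) (η * t)) ∧
    ∀ t, m * C.x (C.neg s) t * m⁻¹ = C.x (C.neg (π s)) (η * t)

variable {C}

theorem Acts.one : C.Acts 1 (AddMonoidHom.id _) id where
  inj := Function.injective_id
  rt _ := rfl
  wt i j h := by
    by_cases e : i = j
    · rw [e]; rfl
    · exact absurd (one_apply_ne e) h
  conj s := ⟨1, by simp, by simp, by simp⟩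

theorem Acts.mul {m m' : GL ι F} {a a' : (l → ℤ) →+ (l → ℤ)} {π π' : R → R} (h : C.Acts m a π)
    (h' : C.Acts m' a' π') : C.Acts (m * m') (a.comp a') (π ∘ π') where
  inj := h.inj.comp h'.inj
  rt s := by simp [h.rt, h'.rt]
  wt i j e := by
    rw [Units.val_mul, mul_apply] at e
    obtain ⟨k, -, hk⟩ := Finset.exists_ne_zero_of_sum_ne_zero e
    rw [h.wt i k (left_ne_zero_of_mul hk), h'.wt k j (right_ne_zero_of_mul hk)]; rfl
  conj s := by
    obtain ⟨η', e1', e2', e3'⟩ := h'.conj s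
    obtain ⟨η, e1, e2, e3⟩ := h.conj (π' s)
    refine ⟨η * η', by linear_combination η' * η' * e1 + e1', fun t => ?_, fun t => ?_⟩
    · rw [mul_assoc η, Function.comp, ← e2, ← e2']; group
    · rw [mul_assoc η, Function.comp, ← e3, ← e3']; group

theorem Acts.pi_inj {m : GL ι F} {a : (l → ℤ) →+ (l → ℤ)} {π : R → R} (h : C.Acts m a π) :
    Function.Injective π := fun r s e => C.rt_inj (h.inj (by rw [← h.rt, ← h.rt, e]))

theorem Acts.pi_neg {m : GL ι F} {a : (l → ℤ) →+ (l → ℤ)} {π : R → R} (h : C.Acts m a π) (s : R) :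
    π (C.neg s) = C.neg (π s) := C.rt_inj (by rw [h.rt, C.rt_neg, C.rt_neg, h.rt, map_neg])

theorem Acts.mul_hh {m : GL ι F} {a : (l → ℤ) →+ (l → ℤ)} {π : R → R} (h : C.Acts m a π)
    (χ : Ch l F) : m * C.hh (chm χ a) = C.hh χ * m := by
  ext i j
  simp only [Units.val_mul, hh_val, diagonal_mul, mul_diagonal]
  by_cases e : (m : Matrix ι ι F) i j = 0
  · simp [e]
  · rw [cv_chm, h.wt i j e, mul_comm]

theorem Acts.conj_mem {m : GL ι F} {a : (l → ℤ) →+ (l → ℤ)} {π : R → R} (h : C.Acts m a π)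
    {S T : Set R} (hS : ∀ r ∈ S, π r ∈ T) {g : GL ι F} (hg : g ∈ C.Xs S) : m * g * m⁻¹ ∈ C.Xs T :=
  C.conj_mem (fun r hr t => by
    obtain ⟨η, -, h2, -⟩ := h.conj r
    rw [h2]; exact C.x_mem (hS r hr) _) hg

theorem Acts.conj_inv {m : GL ι F} {a : (l → ℤ) →+ (l → ℤ)} {π : R → R} (h : C.Acts m a π)
    (s : R) (t : F) : ∃ t', C.x (π s) t * m = m * C.x s t' := by
  obtain ⟨η, e1, e2, -⟩ := h.conj s
  refine ⟨η * t, ?_⟩
  have := e2 (η * t)
  rw [← mul_assoc η, e1, one_mul] at this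
  rw [← this]; group

theorem Acts.conj_mem' {m : GL ι F} {a : (l → ℤ) →+ (l → ℤ)} {π : R → R} (h : C.Acts m a π)
    {S T : Set R} (hS : ∀ r ∈ S, ∃ s ∈ T, π s = r) {g : GL ι F} (hg : g ∈ C.Xs S) :
    m⁻¹ * g * m ∈ C.Xs T := by
  have := C.conj_mem (K := C.Xs T) (a := m⁻¹) (fun r hr t => by
    obtain ⟨s, hs, rfl⟩ := hS r hr
    obtain ⟨t', e⟩ := h.conj_inv s t
    rw [inv_inv, mul_assoc, e, inv_mul_cancel_left]
    exact C.x_mem hs _) hg
  rwa [inv_inv] at this

variable (C)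

theorem x_mem_U {g : (l → ℤ) →+ ℤ} {c : ℤ} {r : R} (h : c ≤ g (C.rt r)) (t : F) :
    C.x r t ∈ C.U g c := C.x_mem (S := {r | c ≤ g (C.rt r)}) h t

/-- extra hypotheses -/
structure Extra : Prop where
  mult : ∀ k s, C.wt k = C.rt s → k = C.e s
  eta : ∀ i s, ∃ η : F, η * η = 1 ∧ (∀ t, C.n i * C.x s t * (C.n i)⁻¹ = C.x (C.w i s) (η * t)) ∧
    ∀ t, C.n i * C.x (C.neg s) t * (C.n i)⁻¹ = C.x (C.neg (C.w i s)) (η * t)

/-- product of a word -/
def nw (L : List l) : GL ι F := (L.map C.n).prod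

/-- action of a word on the lattice -/
def wl : List l → (l → ℤ) →+ (l → ℤ)
  | [] => AddMonoidHom.id _
  | i :: L => (C.sr i).comp (wl L)

/-- action of a word on the roots -/
def wr : List l → R → R
  | [] => id
  | i :: L => C.w i ∘ wr L

theorem nw_cons (i : l) (L : List l) : C.nw (i :: L) = C.n i * C.nw L := rfl

theorem nw_append (L L' : List l) : C.nw (L ++ L') = C.nw L * C.nw L' := by simp [nw]

theorem wr_append (L L' : List l) (s : R) : C.wr (L ++ L') s = C.wr L (C.wr L' s) := by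
  induction L with
  | nil => rfl
  | cons i L ih => exact congrArg (C.w i) ih

theorem nw_hh (L : List l) (χ : Ch l F) : ∃ χ', C.nw L * C.hh χ = C.hh χ' * C.nw L := by
  induction L with
  | nil => exact ⟨χ, by simp [nw]⟩
  | cons i L ih =>
    obtain ⟨χ', e⟩ := ih
    exact ⟨_, by rw [nw_cons, mul_assoc, e, ← mul_assoc, n_hh, mul_assoc]⟩

theorem f_ne (r : R) : C.f (C.rt r) ≠ 0 := fun h => by
  have e : C.neg r = r := C.f_inj _ _ (by rw [C.rt_neg, map_neg, h, neg_zero])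
  have h0 : C.rt r = 0 := by
    have := C.rt_neg r
    rw [e] at this
    funext j
    have := congrFun this j
    simp only [Pi.neg_apply] at this
    simp only [Pi.zero_apply]; omega
  obtain ⟨b, hb⟩ := C.co_gcd r
  obtain ⟨i, -, -⟩ := Finset.exists_ne_zero_of_sum_ne_zero (hb.trans_ne one_ne_zero)
  have := C.f_p i
  rcases C.red i r (fun j _ => by rw [h0]; rfl) with h1 | h1
  · rw [← h1, h] at this; omega
  · rw [← C.neg_neg' (C.p i), ← h1, e, h] at this; omega

theorem f_neg (r : R) : C.f (C.rt (C.neg r)) = -C.f (C.rt r) := by rw [C.rt_neg, map_neg]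

theorem w_pos (i : l) {r : R} (h : 0 < C.f (C.rt r)) (h' : r ≠ C.p i) :
    0 < C.f (C.rt (C.w i r)) :=
  C.f_pos_of i (by rw [rt_w', gf_sr]; exact (C.gf_pos_of i h).resolve_left h')

variable {C} (hE : C.Extra)
include hE

theorem Extra.acts_n (i : l) : C.Acts (C.n i) (C.sr i) (C.w i) where
  inj := Function.LeftInverse.injective (C.sr_sr i)
  rt := C.rt_w' i
  wt := C.n_wt i
  conj := hE.eta i

theorem Extra.acts_nw (L : List l) : C.Acts (C.nw L) (C.wl L) (C.wr L) := by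
  induction L with
  | nil => exact Acts.one
  | cons i L ih => exact (hE.acts_n i).mul ih

theorem Extra.bruhat [Finite R] {g : GL ι F} (hg : g ∈ C.Xs Set.univ) :
    ∃ u ∈ C.U C.f 1, ∃ χ L, ∃ v ∈ C.U C.f 1, g = u * C.hh χ * C.nw L * v := by
  refine C.mem_of_stable
    (S := {g | ∃ u ∈ C.U C.f 1, ∃ χ L, ∃ v ∈ C.U C.f 1, g = u * C.hh χ * C.nw L * v})
    ⟨1, one_mem _, 1, [], 1, one_mem _, by simp [nw]⟩ ?_ ?_ hg
  · rintro i t _ ⟨u, hu, χ, L, v, hv, rfl⟩
    exact ⟨_, mul_mem (C.x_p_mem i t) hu, χ, L, v, hv, by group⟩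
  · rintro i t _ ⟨u, hu, χ, L, v, hv, rfl⟩
    obtain ⟨a, u', hu', rfl⟩ := C.U_split i hu
    have hu'' := C.U_gf_le i (C.x_conj_U one_pos (r := C.neg (C.p i)) (by simp [C.rt_neg, gf_p])
      t hu')
    have hA := hE.acts_nw L
    obtain ⟨s, hs⟩ := Finite.injective_iff_surjective.1 hA.pi_inj (C.neg (C.p i))
    have key : ∀ (u : GL ι F) (hu : u ∈ C.U C.f 1) χ b, ∃ u' ∈ C.U C.f 1, ∃ χ' L',
        ∃ v' ∈ C.U C.f 1, u * C.hh χ * C.x (C.neg (C.p i)) b * C.nw L * v =
          u' * C.hh χ' * C.nw L' * v' := by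
      intro u hu χ b
      rcases (C.f_ne s).lt_or_gt with h | h
      · by_cases hb : b = 0
        · exact ⟨u, hu, χ, L, v, hv, by rw [hb, x_zero, mul_one]⟩
        have h1 := C.nn_eq i (Units.mk0 (-b⁻¹) (by simpa using hb))
        simp only [Units.val_mk0, inv_neg, inv_inv, neg_neg, x_neg] at h1
        obtain ⟨t', e⟩ := hA.conj_inv (C.neg s) b⁻¹
        rw [hA.pi_neg, hs, neg_neg'] at e
        refine ⟨_, mul_mem hu (C.hh_conj_mem χ (C.x_p_mem i b⁻¹)),
          χ * pw (Units.mk0 (-b⁻¹) (by simpa using hb)) (C.A i), i :: L, _,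
          mul_mem (C.x_mem_U (r := C.neg s) (by rw [f_neg]; omega) t') hv, ?_⟩
        rw [_root_.map_mul, nw_cons, ← mul_inv_eq_iff_eq_mul.2 h1,
          ← inv_mul_eq_iff_eq_mul.2 e]
        group
      · obtain ⟨t', e⟩ := hA.conj_inv s b
        rw [hs] at e
        exact ⟨u, hu, χ, L, _, mul_mem (C.x_mem_U (r := s) h t') hv, by
          rw [mul_assoc _ _ (C.nw L), e]; group⟩
    rcases C.sl2 i t a with ⟨a', χ', b, h⟩ | ⟨a', χ', h⟩
    · obtain ⟨u₁, hu₁, χ₁, L₁, v₁, hv₁, e⟩ := key _ (mul_mem hu'' (C.x_p_mem i a')) (χ' * χ)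
        ((cv χ (C.rt (C.neg (C.p i))))⁻¹ * b)
      refine ⟨u₁, hu₁, χ₁, L₁, v₁, hv₁, ?_⟩
      have := C.x_hh χ (C.neg (C.p i)) b
      rw [← inv_mul_eq_iff_eq_mul] at this
      rw [← mul_inv_eq_iff_eq_mul] at h
      rw [← e, _root_.map_mul, ← this, mul_assoc _ (C.x (C.p i) a'), ← mul_assoc (C.x (C.p i) a'),
        ← h]
      group
    · refine ⟨_, mul_mem hu'' (C.x_p_mem i a'), χ' * chm χ (C.sr i), i :: L, v, hv, ?_⟩
      have := C.n_hh i χ
      rw [← mul_inv_eq_iff_eq_mul] at this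
      rw [← mul_inv_eq_iff_eq_mul, ← mul_inv_eq_iff_eq_mul] at h
      rw [nw_cons, _root_.map_mul, ← this, ← h]
      group

theorem Extra.diag_ne {m : GL ι F} {a : (l → ℤ) →+ (l → ℤ)} {π : R → R} (h : C.Acts m a π) (s : R) :
    (m : Matrix ι ι F) (C.e (π s)) (C.e s) ≠ 0 := by
  intro h0
  have : ((m⁻¹ * m : GL ι F) : Matrix ι ι F) (C.e s) (C.e s) = 0 := by
    rw [Units.val_mul, mul_apply]
    refine Finset.sum_eq_zero fun k _ => ?_
    by_cases e : (m : Matrix ι ι F) k (C.e s) = 0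
    · rw [e, mul_zero]
    · have := h.wt _ _ e
      rw [C.wt_e, ← h.rt] at this
      rw [hE.mult _ _ this, h0, mul_zero]
  simp at this

theorem Extra.row {m : GL ι F} {a : (l → ℤ) →+ (l → ℤ)} {π : R → R} (h : C.Acts m a π) (s : R)
    (v : ι → F) : ((m : Matrix ι ι F) *ᵥ v) (C.e (π s)) =
      (m : Matrix ι ι F) (C.e (π s)) (C.e s) * v (C.e s) := by
  rw [mulVec, dotProduct, Finset.sum_eq_single (C.e s)]
  · intro k _ hk
    by_cases e : (m : Matrix ι ι F) (C.e (π s)) k = 0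
    · rw [e, zero_mul]
    · have := h.wt _ _ e
      rw [C.wt_e, h.rt] at this
      exact absurd (hE.mult _ _ (h.inj this).symm) hk
  · simp

theorem Extra.unique [Finite R] {m m' u u' v v' : GL ι F} {a a' : (l → ℤ) →+ (l → ℤ)} {π π' : R → R}
    {χ χ' : Ch l F} (h : C.Acts m a π) (h' : C.Acts m' a' π') (hu : u ∈ C.U C.f 1)
    (hu' : u' ∈ C.U C.f 1) (hv : v ∈ C.U C.f 1) (hv' : v' ∈ C.U C.f 1)
    (e : u * C.hh χ * m * v = u' * C.hh χ' * m' * v') : π = π' := by
  have key : ∀ s, C.f (C.rt (π' s)) ≤ C.f (C.rt (π s)) := by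
    intro s
    have e1 : m * (v * v'⁻¹) = (C.hh χ)⁻¹ * (u⁻¹ * u') * C.hh χ' * m' := by
      rw [← mul_inv_eq_iff_eq_mul, ← mul_inv_eq_iff_eq_mul] at e
      rw [mul_assoc _ (u⁻¹ * u'), mul_assoc u⁻¹, ← e]; group
    have h1 := (C.U_le_UT C.f one_pos (mul_mem hv (inv_mem hv'))).1
    have h2 := (C.U_le_UT C.f one_pos (mul_mem (inv_mem hu) hu')).1
    beta_reduce at h1 h2
    have e2 := congrArg (fun g : GL ι F => (g : Matrix ι ι F) (C.e (π s)) (C.e s)) e1
    have e3 := hE.row h s (((v * v'⁻¹ : GL ι F) : Matrix ι ι F).col (C.e s))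
    rw [col_apply, h1 _ _ (by omega), one_apply_eq, mul_one] at e3
    beta_reduce at e2
    rw [Units.val_mul m, mul_apply] at e2
    have e4 : _ = (m : Matrix ι ι F) (C.e (π s)) (C.e s) := e2.symm.trans e3
    have e5 := hE.diag_ne h s
    rw [← e4, Units.val_mul _ m', mul_apply] at e5
    obtain ⟨k, -, hk⟩ := Finset.exists_ne_zero_of_sum_ne_zero e5
    have := h'.wt _ _ (right_ne_zero_of_mul hk)
    rw [C.wt_e, ← h'.rt] at this
    obtain rfl := hE.mult _ _ this
    have hk' := left_ne_zero_of_mul hk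
    rw [← map_inv, Units.val_mul, Units.val_mul (C.hh _), hh_val, hh_val, mul_diagonal,
      diagonal_mul] at hk'
    by_contra hlt
    rw [h2 _ _ (by rw [C.wt_e, C.wt_e]; omega), one_apply_ne] at hk'
    · simp at hk'
    · intro e6
      have := congrArg (fun k => C.f (C.wt k)) e6
      simp only [C.wt_e] at this
      omega
  haveI := Fintype.ofFinite R
  have s1 : ∀ {π : R → R}, Function.Injective π → ∑ s, C.f (C.rt (π s)) = ∑ s, C.f (C.rt s) :=
    fun hπ => (Equiv.ofBijective _ (Finite.injective_iff_bijective.1 hπ)).sum_comp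
      fun s => C.f (C.rt s)
  have := (Finset.sum_eq_sum_iff_of_le (s := Finset.univ) fun s _ => key s).1
    ((s1 h'.pi_inj).trans (s1 h.pi_inj).symm)
  exact funext fun s => (C.f_inj _ _ (this s (Finset.mem_univ _))).symm

theorem Extra.exchange [Finite R] (L : List l) (i : l) (h : C.f (C.rt (C.wr L (C.p i))) < 0) :
    ∃ L' χ, L'.length + 1 = L.length ∧ C.nw L * C.n i = C.hh χ * C.nw L' ∧
      ∀ s, C.wr L' s = C.wr L (C.w i s) := by
  induction L with
  | nil => have := C.f_p i; exact absurd h (by change ¬C.f (C.rt (C.p i)) < 0; omega)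
  | cons j L ih =>
    rcases (C.f_ne (C.wr L (C.p i))).lt_or_gt with h1 | h1
    · obtain ⟨L', χ, e1, e2, e3⟩ := ih h1
      refine ⟨j :: L', chm χ (C.sr j), by simp [e1], ?_, fun s => congrArg (C.w j) (e3 s)⟩
      rw [nw_cons, mul_assoc, e2, ← mul_assoc, n_hh, nw_cons, mul_assoc]
    · have h2 : C.wr L (C.p i) = C.p j := by
        by_contra h2
        have := C.w_pos j h1 h2
        exact absurd h (by change ¬C.f (C.rt (C.w j _)) < 0; omega)
      have hA := hE.acts_nw L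
      obtain ⟨η, e1, e2, e3⟩ := hA.conj (C.p i)
      rw [h2] at e2 e3
      have hη : η ≠ 0 := by rintro rfl; simp at e1
      have h3 := C.nn_eq j (Units.mk0 η hη)
      have h4 : C.nw L * C.n i * (C.nw L)⁻¹ = C.hh (pw (Units.mk0 η hη) (C.A j)) * C.n j := by
        rw [← h3, Units.val_mk0, ← mul_one η, ← e2, mul_one, inv_eq_of_mul_eq_one_right e1,
          ← mul_neg_one, ← e3, n]
        group
      have h5 : C.nw (j :: L) * C.n i = C.hh (chm (pw (Units.mk0 η hη) (C.A j)) (C.sr j) *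
          (pw (-1) (C.A j))⁻¹) * C.nw L := by
        rw [nw_cons, mul_assoc, mul_inv_eq_iff_eq_mul.1 h4, ← mul_assoc, ← mul_assoc, n_hh,
          _root_.map_mul, ← n_n]
        group
      refine ⟨L, _, rfl, h5, fun s => ?_⟩
      have h6 := hE.unique ((hE.acts_nw (j :: L)).mul (hE.acts_n i)) hA (one_mem _) (one_mem _)
        (one_mem _) (one_mem _) (χ := 1) (χ' := chm (pw (Units.mk0 η hη) (C.A j)) (C.sr j) *
          (pw (-1) (C.A j))⁻¹) (by
          rw [_root_.map_one, mul_one, mul_one, one_mul, h5, one_mul, mul_one])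
      exact (congrFun h6 s).symm

theorem Extra.mem_H [Finite R] (L : List l) (h : ∀ i, 0 < C.f (C.rt (C.wr L (C.p i)))) :
    ∃ χ, C.nw L = C.hh χ := by
  induction hn : L.length using Nat.strong_induction_on generalizing L with
  | _ n ih =>
  rcases List.eq_nil_or_concat L with rfl | ⟨L, i, rfl⟩
  · exact ⟨1, by simp [nw]⟩
  rw [List.concat_eq_append] at h hn ⊢
  have h1 := h i
  rw [wr_append] at h1
  change 0 < C.f (C.rt (C.wr L (C.w i (C.p i)))) at h1
  rw [w_p, (hE.acts_nw L).pi_neg, f_neg] at h1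
  obtain ⟨L', χ, e1, e2, e3⟩ := hE.exchange L i (by omega)
  obtain ⟨χ', e4⟩ := ih L'.length (by simp at hn; omega) L' (fun j => by
    rw [e3]; have := h j; rwa [wr_append] at this) rfl
  exact ⟨χ * χ', by rw [nw_append, _root_.map_mul, ← e4, ← e2]; simp [nw]⟩

end Chev

end CfsgH8
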