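/-
Abstract Chevalley groups: filtrations of the unipotent subgroup.
-/
import Cfsg.Agent.H8.Chev8

set_option autoImplicit false
set_option linter.unusedSectionVars false

namespace CfsgH8

open Matrix

namespace Chev

variable {ι R l F : Type*} [Fintype ι] [DecidableEq ι] [Fintype l] [DecidableEq l] [Field F]
  (C : Chev ι R l F)

theorem level_ind [Finite R] (g : (l → ℤ) →+ ℤ) (c₀ : ℤ) (P : ℤ → Prop)
    (hbig : ∀ c, C.U g c = ⊥ → P c) (hstep : ∀ c, c₀ ≤ c → P (c + 1) → P c) : P c₀ := by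
  obtain ⟨M, hM⟩ := (Set.finite_range fun r => g (C.rt r)).bddAbove
  have key : ∀ k : ℕ, ∀ c, c₀ ≤ c → M + 1 - c ≤ k → P c := by
    intro k
    induction k with
    | zero =>
      intro c _ h
      refine hbig c (eq_bot_iff.2 (C.Xs_le fun r hr => ?_))
      have : g (C.rt r) ≤ M := hM ⟨r, rfl⟩
      have : c ≤ g (C.rt r) := hr
      omega
    | succ k ih => intro c h1 h2; exact hstep c h1 (ih _ (by omega) (by push_cast at h2; omega))
  exact key (M + 1 - c₀).toNat c₀ le_rfl (by omega)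

theorem U_mono (g : (l → ℤ) →+ ℤ) {c c' : ℤ} (h : c ≤ c') : C.U g c' ≤ C.U g c :=
  C.Xs_mono fun _ hr => le_trans h hr

theorem factor [Finite R] (S : Set R) {v : GL ι F} (hv : v ∈ C.U C.f 1) :
    ∃ v₁ ∈ C.Xs {r | 0 < C.f (C.rt r) ∧ r ∈ S}, ∃ v₂ ∈ C.Xs {r | 0 < C.f (C.rt r) ∧ r ∉ S},
      v = v₁ * v₂ := by
  refine C.level_ind C.f 1 (fun c => ∀ v ∈ C.U C.f c, ∃ v₁ ∈ C.Xs {r | 0 < C.f (C.rt r) ∧ r ∈ S},
    ∃ v₂ ∈ C.Xs {r | 0 < C.f (C.rt r) ∧ r ∉ S}, v = v₁ * v₂) ?_ ?_ v hv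
  · intro c h v hv
    rw [h, Subgroup.mem_bot] at hv
    exact ⟨1, one_mem _, 1, one_mem _, by simp [hv]⟩
  · intro c hc ih v hv
    by_cases h : ∃ r, C.f (C.rt r) = c
    · obtain ⟨r, rfl⟩ := h
      have h1 : ∀ s ∈ {s | C.f (C.rt r) ≤ C.f (C.rt s)},
          s = r ∨ s ∈ {s | C.f (C.rt r) + 1 ≤ C.f (C.rt s)} := fun s hs => by
        have : C.f (C.rt r) ≤ C.f (C.rt s) := hs
        rcases this.eq_or_lt with h | h
        exacts [.inl (C.f_inj _ _ h.symm), .inr h]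
      have h2 : ∀ t, ∀ u ∈ C.Xs {s | C.f (C.rt r) + 1 ≤ C.f (C.rt s)},
          C.x r t * u * (C.x r t)⁻¹ ∈ C.Xs {s | C.f (C.rt r) + 1 ≤ C.f (C.rt s)} :=
        fun t _ hu => C.x_conj_U (by omega) (by omega) t hu
      by_cases hS : r ∈ S
      · obtain ⟨t, u, hu, rfl⟩ := C.split_left h1 h2 hv
        obtain ⟨v₁, hv₁, v₂, hv₂, rfl⟩ := ih u hu
        exact ⟨_, mul_mem (C.x_mem (S := {r | 0 < C.f (C.rt r) ∧ r ∈ S}) ⟨hc, hS⟩ t) hv₁, v₂, hv₂,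
          by group⟩
      · obtain ⟨t, u, hu, rfl⟩ := C.split_right h1 h2 hv
        obtain ⟨v₁, hv₁, v₂, hv₂, rfl⟩ := ih u hu
        exact ⟨v₁, hv₁, _, mul_mem hv₂ (C.x_mem (S := {r | 0 < C.f (C.rt r) ∧ r ∉ S}) ⟨hc, hS⟩ t),
          by group⟩
    · refine ih v (C.Xs_mono (fun s hs => ?_) hv)
      have : c ≤ C.f (C.rt s) := hs
      exact lt_of_le_of_ne this fun e => h ⟨s, e.symm⟩

theorem Acts.conj_factor [Finite R] {C : Chev ι R l F} {m : GL ι F} {a : (l → ℤ) →+ (l → ℤ)}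
    {π : R → R} (h : C.Acts m a π) {v : GL ι F} (hv : v ∈ C.U C.f 1) :
    ∃ v₁ ∈ C.U C.f 1, ∃ v₂ ∈ C.U (-C.f) 1, m * v * m⁻¹ = v₁ * v₂ := by
  obtain ⟨v₁, hv₁, v₂, hv₂, rfl⟩ := C.factor {r | 0 < C.f (C.rt (π r))} hv
  refine ⟨_, h.conj_mem (T := {r | 1 ≤ C.f (C.rt r)}) (fun r hr => hr.2) hv₁, _,
    h.conj_mem (T := {r | 1 ≤ (-C.f) (C.rt r)}) (fun r hr => ?_) hv₂, by group⟩
  have h1 : ¬0 < C.f (C.rt (π r)) := hr.2
  have := C.f_ne (π r)
  change 1 ≤ -C.f _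
  omega

theorem x_conj_Xs {g : (l → ℤ) →+ ℤ} {c : ℤ} (hc : 0 < c) {r : R} (hr : c ≤ g (C.rt r))
    {S : Set R} (h1 : ∀ s ∈ S, c ≤ g (C.rt s)) (h2 : ∀ s, c + 1 ≤ g (C.rt s) → s ∈ S) (t : F)
    {u : GL ι F} (hu : u ∈ C.Xs S) : C.x r t * u * (C.x r t)⁻¹ ∈ C.Xs S := by
  refine C.conj_mem (fun s hs v => ?_) hu
  have hs' := h1 s hs
  by_cases e1 : s = r
  · subst e1
    rw [← C.x_add, add_comm, C.x_add, mul_inv_cancel_right]
    exact C.x_mem hs _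
  have e2 : s ≠ C.neg r := by
    rintro rfl
    rw [C.rt_neg, map_neg] at hs'
    omega
  have := C.comm_all r s e1 e2 (-t) v
  rw [x_neg, inv_inv] at this
  have h3 : C.Xs (C.cs r s) ≤ C.Xs S := C.Xs_mono (by
    rintro k ⟨a, b, ha, hb, hk⟩
    refine h2 k ?_
    rw [hk, map_add, map_nsmul, map_nsmul, nsmul_eq_mul, nsmul_eq_mul]
    have ha' : (1 : ℤ) ≤ a := by exact_mod_cast ha
    have hb' : (1 : ℤ) ≤ b := by exact_mod_cast hb
    nlinarith)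
  have h4 := mul_mem (C.x_mem hs v) (h3 this)
  convert h4 using 1
  simp only [mul_assoc, mul_inv_cancel_left]

theorem split_one {g : (l → ℤ) →+ ℤ} {c : ℤ} (hc : 0 < c) {r : R} (hr : g (C.rt r) = c)
    (h : ∀ s, g (C.rt s) = c → s = r) {u : GL ι F} (hu : u ∈ C.U g c) :
    ∃ t, ∃ u' ∈ C.U g (c + 1), u = C.x r t * u' :=
  C.split_left (fun s hs => by
      have : c ≤ g (C.rt s) := hs
      rcases this.eq_or_lt with e | e
      exacts [.inl (h _ e.symm), .inr e])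
    (fun t _ hu => C.x_conj_U (by omega) (by omega) t hu) hu

theorem split_three {g : (l → ℤ) →+ ℤ} {c : ℤ} (hc : 0 < c) {r₁ r₂ r₃ : R} (hr₁ : g (C.rt r₁) = c)
    (hr₂ : g (C.rt r₂) = c) (hr₃ : g (C.rt r₃) = c)
    (h : ∀ s, g (C.rt s) = c → s = r₁ ∨ s = r₂ ∨ s = r₃) {u : GL ι F} (hu : u ∈ C.U g c) :
    ∃ t₁ t₂ t₃, ∃ u' ∈ C.U g (c + 1), u = C.x r₁ t₁ * C.x r₂ t₂ * C.x r₃ t₃ * u' := by
  obtain ⟨t₁, u, hu₁, rfl⟩ := C.split_left (r := r₁)
    (T := {s | s = r₂ ∨ s = r₃ ∨ c + 1 ≤ g (C.rt s)}) (fun s hs => by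
      have : c ≤ g (C.rt s) := hs
      rcases this.eq_or_lt with e | e
      · rcases h _ e.symm with h | h | h
        exacts [.inl h, .inr (.inl h), .inr (.inr (.inl h))]
      · exact .inr (.inr (.inr e)))
    (fun t _ hu => C.x_conj_Xs hc hr₁.ge (by rintro s (rfl | rfl | h) <;> omega)
      (fun s h => .inr (.inr h)) t hu) hu
  obtain ⟨t₂, u, hu₂, rfl⟩ := C.split_left (r := r₂)
    (S := {s | s = r₂ ∨ s = r₃ ∨ c + 1 ≤ g (C.rt s)})
    (T := {s | s = r₃ ∨ c + 1 ≤ g (C.rt s)}) (fun s hs => hs)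
    (fun t _ hu => C.x_conj_Xs hc hr₂.ge (by rintro s (rfl | h) <;> omega)
      (fun s h => .inr h) t hu) hu₁
  obtain ⟨t₃, u, hu₃, rfl⟩ := C.split_left (r := r₃) (S := {s | s = r₃ ∨ c + 1 ≤ g (C.rt s)})
    (T := {s | c + 1 ≤ g (C.rt s)}) (fun s hs => hs)
    (fun t _ hu => C.x_conj_U (by omega) (by omega) t hu) hu₂
  exact ⟨t₁, t₂, t₃, u, hu₃, by group⟩

/-- coordinates -/
def kap (r : R) (i : l) (u : GL ι F) : F := (u : Matrix ι ι F) (C.hb i) (C.e (C.neg r))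

theorem hb_ne_e (i : l) (r : R) : C.hb i ≠ C.e r := fun h => C.f_ne r (by
  rw [← C.wt_e, ← h, C.wt_hb, map_zero])

theorem kap_mul {g : (l → ℤ) →+ ℤ} {r : R} (hr : 0 < g (C.rt r)) (i : l) {u v : GL ι F}
    (hu : u ∈ C.U g (g (C.rt r))) (hv : v ∈ C.U g (g (C.rt r))) :
    C.kap r i (u * v) = C.kap r i u + C.kap r i v := by
  have h1 := (C.U_le_UT g hr hu).1
  have h2 := (C.U_le_UT g hr hv).1
  beta_reduce at h1 h2
  rw [kap, Units.val_mul, mul_apply, Finset.sum_eq_add (C.e (C.neg r)) (C.hb i)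
    (C.hb_ne_e i _).symm, h1 (C.hb i) (C.hb i) (by omega), h2 (C.e _) (C.e _) (by omega)]
  · simp [kap]
  · intro k _ hk
    by_cases h : g (C.wt k) < 0
    · rw [h2 _ _ (by rw [C.wt_e, C.rt_neg, map_neg]; omega), one_apply_ne hk.1, mul_zero]
    · rw [h1 _ _ (by rw [C.wt_hb, map_zero]; omega), one_apply_ne hk.2.symm, zero_mul]
  · simp
  · simp

theorem kap_high {g : (l → ℤ) →+ ℤ} {r : R} (hr : 0 < g (C.rt r)) (i : l) {u : GL ι F}
    (hu : u ∈ C.U g (g (C.rt r) + 1)) : C.kap r i u = 0 := by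
  have h1 := (C.U_le_UT g (by omega) hu).1
  beta_reduce at h1
  rw [kap, h1 _ _ (by rw [C.wt_hb, C.wt_e, C.rt_neg, map_neg, map_zero]; omega),
    one_apply_ne (C.hb_ne_e i _)]

theorem kap_x (r : R) (i : l) (t : F) : C.kap r i (C.x r t) = C.co r i * t := C.x_co r t i

theorem kap_x_ne {g : (l → ℤ) →+ ℤ} {r s : R} (hr : 0 < g (C.rt r)) (hs : g (C.rt s) = g (C.rt r))
    (h : s ≠ r) (i : l) (t : F) : C.kap r i (C.x s t) = 0 := by
  rw [kap, C.x_ent, one_apply_ne (C.hb_ne_e i _), zero_add]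
  refine List.sum_eq_zero fun y hy => ?_
  obtain ⟨km, hkm, rfl⟩ := List.mem_map.1 hy
  obtain ⟨h1, h2⟩ := C.ent_wt _ _ _ km hkm
  rw [C.wt_hb, C.wt_e, C.rt_neg, eq_neg_add_iff_add_eq, add_zero] at h2
  have h3 := congrArg g h2
  rw [map_nsmul, hs, nsmul_eq_mul] at h3
  have h4 : km.1 = 1 := by
    have : (km.1 : ℤ) = 1 := by nlinarith
    exact_mod_cast this
  rw [h4, one_smul] at h2
  exact absurd (C.rt_inj h2).symm h

theorem co_cancel (r : R) {t u : F} (e : ∀ i, (C.co r i * t : F) = C.co r i * u) : t = u := by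
  obtain ⟨b, hb⟩ := C.co_gcd r
  have : ∀ t : F, t = ∑ i, b i * (C.co r i * t) := fun t => by
    simp only [← mul_assoc, ← Finset.sum_mul, ← Int.cast_mul, ← Int.cast_sum, hb]; simp
  rw [this t, this u]
  simp only [e]

theorem kap_three {g : (l → ℤ) →+ ℤ} {r r₁ r₂ r₃ : R} (hr : 0 < g (C.rt r))
    (h₁ : g (C.rt r₁) = g (C.rt r)) (h₂ : g (C.rt r₂) = g (C.rt r)) (h₃ : g (C.rt r₃) = g (C.rt r))
    (i : l) (t₁ t₂ t₃ : F) {u : GL ι F} (hu : u ∈ C.U g (g (C.rt r) + 1)) :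
    C.kap r i (C.x r₁ t₁ * C.x r₂ t₂ * C.x r₃ t₃ * u) =
      C.kap r i (C.x r₁ t₁) + C.kap r i (C.x r₂ t₂) + C.kap r i (C.x r₃ t₃) := by
  have m₁ := C.x_mem_U h₁.ge t₁
  have m₂ := C.x_mem_U h₂.ge t₂
  have m₃ := C.x_mem_U h₃.ge t₃
  rw [C.kap_mul hr i (mul_mem (mul_mem m₁ m₂) m₃) (C.U_mono g (by omega) hu), C.kap_high hr i hu,
    add_zero, C.kap_mul hr i (mul_mem m₁ m₂) m₃, C.kap_mul hr i m₁ m₂]

/-- number of inversions -/
noncomputable def ninv (π : R → R) : ℕ := {r | 0 < C.f (C.rt r) ∧ C.f (C.rt (π r)) < 0}.ncard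

theorem ninv_lt [Finite R] {π : R → R} (hπ : ∀ r, π (C.neg r) = C.neg (π r)) {i : l}
    (h : C.f (C.rt (π (C.p i))) < 0) : C.ninv (π ∘ C.w i) < C.ninv π := by
  rw [ninv, ninv, ← Set.ncard_image_of_injective _ (Function.LeftInverse.injective (C.w_w i))]
  refine Set.ncard_lt_ncard ⟨?_, fun h' => ?_⟩ (Set.toFinite _)
  · rintro _ ⟨r, ⟨h1, h2⟩, rfl⟩
    refine ⟨C.w_pos i h1 ?_, h2⟩
    rintro rfl
    rw [Function.comp, w_p, hπ, f_neg] at h2
    omega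
  · obtain ⟨r, ⟨h1, -⟩, h2⟩ := h' ⟨C.f_p i, h⟩
    rw [← C.w_w i r, h2, w_p, f_neg] at h1
    have := C.f_p i
    omega

theorem ch_ext {χ χ' : Ch l F} (h : ∀ j, cv χ (Pi.single j 1) = cv χ' (Pi.single j 1)) : χ = χ' := by
  refine MonoidHom.ext fun v => Units.ext ?_
  change cv χ v.toAdd = cv χ' v.toAdd
  generalize v.toAdd = v
  rw [← Finset.univ_sum_single v]
  have : ∀ j, (Pi.single j (v j) : l → ℤ) = v j • Pi.single j 1 := fun j => by
    rw [← Pi.single_smul, smul_eq_mul, mul_one]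
  induction (Finset.univ : Finset l) using Finset.induction_on with
  | empty => simp [cv_zero]
  | insert j s hj ih => rw [Finset.sum_insert hj, cv_add, cv_add, ih, this, cv_zsmul, cv_zsmul, h]

theorem ch_mem (hB : ∀ j, ∃ b : l → ℤ, ∀ v, v j = ∑ i, b i * C.A i v) {K : Subgroup (Ch l F)}
    (hK : ∀ c i, pw c (C.A i) ∈ K) (χ : Ch l F) : χ ∈ K := by
  choose b hb using hB
  have h2 : χ = ∏ j, ∏ i, pw (χ (Multiplicative.ofAdd (Pi.single j 1))) (C.A i) ^ b j i := by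
    refine MonoidHom.ext fun v => ?_
    obtain ⟨v, rfl⟩ := Multiplicative.ofAdd.surjective v
    conv_lhs => rw [← Finset.univ_sum_single v, ofAdd_sum, map_prod]
    rw [MonoidHom.finsetProd_apply]
    refine Finset.prod_congr rfl fun j _ => ?_
    rw [MonoidHom.finsetProd_apply]
    have : (Pi.single j (v j) : l → ℤ) = v j • Pi.single j 1 := by
      rw [← Pi.single_smul, smul_eq_mul, mul_one]
    rw [this, ofAdd_zsmul, map_zpow, hb j v]
    simp only [MonoidHom.zpow_apply, pw, MonoidHom.comp_apply, zpowersHom_apply, ← _root_.zpow_mul]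
    have := map_prod (zpowersHom Fˣ (χ (Multiplicative.ofAdd (Pi.single j 1))))
      (fun i => Multiplicative.ofAdd (b j i * C.A i v)) Finset.univ
    rw [← ofAdd_sum] at this
    simp only [zpowersHom_apply, toAdd_ofAdd] at this
    rw [this]
    simp [mul_comm]
  rw [h2]
  exact K.prod_mem fun j _ => K.prod_mem fun i _ => K.zpow_mem (hK _ _) _

end Chev

end CfsgH8
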