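import Cfsg.Agent.H8.AutStep

set_option autoImplicit false

namespace CfsgH8

open QuadraticMap Module

variable {F V : Type*} [Field F] [AddCommGroup V] [Module F V] {Q : QuadraticForm F V}

lemma sieg_not_comm [FiniteDimensional F V] (hQ : ND Q) {W : Submodule F V} (hW : TS Q W)
    (h2 : 2 ≤ finrank F W) {v v' : V} (hv : v ∈ perp Q W) (hv' : v' ∈ perp Q W)
    (h : polar Q v v' ≠ 0) : ∃ w ∈ W, ∃ w' ∈ W,
      sieg Q w v * sieg Q w' v' ≠ sieg Q w' v' * sieg Q w v := by
  obtain ⟨w', hw'⟩ := exists_linearIndependent_of_le_finrank h2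
  let w : Fin 2 → V := fun i => w' i
  have hw : LinearIndependent F w := hw'.map' W.subtype W.ker_subtype
  obtain ⟨f, hf⟩ := hQ.exists_dual_family hw
  refine ⟨w 0, (w' 0).2, w 1, (w' 1).2, fun e => h ?_⟩
  have e1 := congrArg (fun g : OG Q => polar Q (f 1) (g.1 (f 0))) e
  have a0 := hW _ (w' 0).2
  have a1 := hW _ (w' 1).2
  have b0 := hv _ (w' 0).2
  have b1 := hv _ (w' 1).2
  have c0 := hv' _ (w' 0).2
  have c1 := hv' _ (w' 1).2
  have d := hW.polar (w' 0).2 (w' 1).2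
  change polar Q (w 0) _ = 0 at b0 c0 d
  change polar Q (w 1) _ = 0 at b1 c1
  change Q (w 0) = 0 at a0
  change Q (w 1) = 0 at a1
  simp only [OG.mul_apply, sieg_apply a0 b0, sieg_apply a1 c1, polar_add_right, polar_sub_right,
    polar_sr, pcomm (f _) (w _), hf, pcomm v (w _), pcomm v' (w _), b0, b1, c0, c1,
    pcomm (w 1) (w 0), show polar Q (w 0) (w 1) = 0 from d, pcomm v' v] at e1
  simp at e1
  linear_combination e1

section big
variable [Finite F] [hB : Big Q]

theorem aut_BS (hn : 7 ≤ finrank F V) (α : MulAut (POm Q)) {u : V} (hu : Q u = 0) (hu0 : u ≠ 0) :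
    (∃ u', Q u' = 0 ∧ u' ≠ 0 ∧ (BS Q u).map α.toMonoidHom = BS Q u') ∨
      (finrank F V = 8 ∧ ∃ W, MTS Q W ∧ (BS Q u).map α.toMonoidHom = (UR Q W).map (pmk Q)) := by
  have := Big.fd Q
  have := Big.nontrivial Q
  have := finite_OG (Q := Q)
  have hQ := hB.nd
  obtain ⟨p, hp, _⟩ := exists_prime_char F
  have := Fact.mk hp
  have hZ := hZ_Om (Q := Q) p
  obtain ⟨S, hS⟩ := (XS_isPGroup (Q := Q) p u).exists_le_sylow
  obtain ⟨S', hS'⟩ := CfsgH7.sylow_lift α S
  obtain ⟨u', hu', hu0', hXS'⟩ := exists_XS_le_sylow S'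
  set A := (BS Q u).map α.toMonoidHom with hA
  have hAS : A ≤ (S' : Subgroup (Om Q)).map (pmk Q) := by
    rw [← hS']
    exact Subgroup.map_mono (Subgroup.map_mono hS)
  set L := (S' : Subgroup (Om Q)) ⊓ A.comap (pmk Q) with hL
  -- the group `H`
  let P : Om Q → Prop := fun h => ∃ n : Om Q, n.1.1 u = u ∧ pmk Q h = α (pmk Q n)
  have hPinv : ∀ h, P h → P h⁻¹ := by
    rintro h ⟨n, h1, h2⟩
    exact ⟨n⁻¹, OG.inj n.1 (by simp [h1]), by rw [map_inv, map_inv, map_inv, h2]⟩
  have hPS : ∀ h ∈ (S' : Subgroup (Om Q)), P h := fun h hh => by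
    have : pmk Q h ∈ (S' : Subgroup (Om Q)).map (pmk Q) := ⟨h, hh, rfl⟩
    rw [← hS'] at this
    obtain ⟨_, ⟨n, hn, rfl⟩, e⟩ := this
    exact ⟨n, sylow_fix hu hu0 S.isPGroup' hS n hn, e.symm⟩
  have hPL : ∀ h, P h → ∀ g ∈ L, h * g * h⁻¹ ∈ L := by
    rintro h ⟨n, h1, h2⟩ g hg
    refine plift_conj hZ S'.isPGroup' hAS ?_ hg
    rintro _ ⟨a, ha, rfl⟩
    have := conj_mem_BS n ha
    rw [h1] at this
    exact ⟨_, this, by simp [h2]⟩
  let C : Submodule F V :=
    { carrier := {x | ∀ g ∈ L, g.1.1 x = x}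
      zero_mem' := by simp
      add_mem' := fun {a b} ha hb g hg => by rw [map_add, ha g hg, hb g hg]
      smul_mem' := fun c x hx g hg => by rw [map_smul, hx g hg] }
  have hPC : ∀ h, P h → ∀ x ∈ C, h.1.1 x ∈ C := fun h hh x hx g hg => by
    have := hx _ (hPL _ (hPinv h hh) g hg)
    apply OG.inj (h⁻¹).1
    simpa using this
  have hPC' : ∀ h, P h → ∀ x ∈ perp Q C, h.1.1 x ∈ perp Q C := fun h hh x hx y hy => by
    change polar Q y _ = 0
    rw [OG.polar_inv']
    exact hx _ (hPC _ (hPinv h hh) y hy)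
  have hC0 : C ≠ ⊥ := by
    obtain ⟨x, -, hx0, hx⟩ := exists_fixed (Om Q).subtype (S'.isPGroup'.to_inf_left (K := A.comap (pmk Q)))
      (U := ⊤) top_ne_bot (by simp)
    intro h
    have : x ∈ C := hx
    rw [h] at this
    exact hx0 this
  have hA0 : A ≠ ⊥ := by
    rw [hA, Ne, Subgroup.map_eq_bot_iff_of_injective _ α.injective]
    exact BS_ne_bot hu hu0
  have hC1 : perp Q C ≠ ⊥ := by
    intro h
    apply hA0
    rw [← plift_map hAS, eq_bot_iff]
    rintro _ ⟨g, hg, rfl⟩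
    have hC : C = ⊤ := by
      rw [← hQ.perp_perp C, h]
      exact LinearMap.BilinForm.orthogonal_bot
    have : g = 1 := Subtype.ext (OG.ext' fun x => (show x ∈ C from hC ▸ trivial) g hg)
    simp [this]
  have hn5 := hB.five
  have key : ∀ U : Submodule F V, U ≠ ⊥ → (∀ h, P h → ∀ x ∈ U, h.1.1 x ∈ U) → u' ∈ U :=
    fun U hU0 hU => mem_of_sieg_inv hQ (D := ⊥) hu' (by simp; omega) (bot_lt_iff_ne_bot.2 hU0)
      fun v _ hv x hx => hU _ (hPS _ (hXS' (sg_mem_XS hv))) x hx
  let W : Submodule F V :=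
    { carrier := {x | x ∈ C ∧ x ∈ perp Q C ∧ Q x = 0}
      zero_mem' := ⟨C.zero_mem, Submodule.zero_mem _, by simp⟩
      add_mem' := fun {a b} ha hb => ⟨C.add_mem ha.1 hb.1, Submodule.add_mem _ ha.2.1 hb.2.1, by
        rw [Q_add, ha.2.2, hb.2.2, mem_perp.1 hb.2.1 a ha.1]; simp⟩
      smul_mem' := fun c x hx => ⟨C.smul_mem c hx.1, Submodule.smul_mem _ c hx.2.1, by
        rw [Q_smul, hx.2.2, mul_zero]⟩ }
  have hW : TS Q W := fun x hx => hx.2.2
  have huW : u' ∈ W := ⟨key C hC0 hPC, key _ hC1 hPC', hu'⟩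
  have hPW : ∀ h, P h → ∀ x ∈ W, h.1.1 x ∈ W := fun h hh x hx =>
    ⟨hPC h hh x hx.1, hPC' h hh x hx.2.1, by rw [OG.map_Q, hx.2.2]⟩
  have hPU : ∀ h, P h → ∀ g ∈ UR Q W, h * g * h⁻¹ ∈ UR Q W := fun h hh g hg =>
    UR_conj (hPW h hh) (hPW _ (hPinv h hh)) hg
  have hUS : UR Q W ≤ S' := CfsgH7.le_sylow_of_normalizes S' _ (UR_isPGroup p W)
    fun s hs => hPU s (hPS s hs)
  -- pull back
  have hUA : (UR Q W).map (pmk Q) ≤ A := by
    set A' := ((UR Q W).map (pmk Q)).comap α.toMonoidHom with hA'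
    have hA'S : A' ≤ (S : Subgroup (Om Q)).map (pmk Q) := fun a ha => by
      have h1 : α a ∈ (S' : Subgroup (Om Q)).map (pmk Q) := Subgroup.map_mono hUS ha
      rw [← hS'] at h1
      obtain ⟨b, hb, e⟩ := h1
      exact (α.injective e) ▸ hb
    have h1 : (S : Subgroup (Om Q)) ⊓ A'.comap (pmk Q) ≤ XS Q u :=
      le_XS_of_normal hu hu0 S.isPGroup'.to_inf_left
        (fun g hg => by
          rw [sylow_fix hu hu0 S.isPGroup' hS g hg.1]
          exact Submodule.mem_span_singleton_self u)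
        (fun n hn g hg => plift_conj hZ S.isPGroup' hA'S (fun a ha => by
          obtain ⟨h, hh⟩ := QuotientGroup.mk'_surjective _ (α (pmk Q n))
          obtain ⟨b, hb, e⟩ := ha
          refine ⟨_, hPU h ⟨n, hn, hh⟩ b hb, ?_⟩
          simp only [_root_.map_mul, map_inv, hh, e]
          rfl) hg)
    have h2 := Subgroup.map_mono (f := pmk Q) h1
    rw [plift_map hA'S] at h2
    intro x hx
    exact ⟨α.symm x, h2 (by simpa [hA'] using hx), by simp⟩
  have hcA : Nat.card A = Nat.card F ^ (finrank F V - 2) := by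
    rw [hA, Subgroup.card_map_of_injective α.injective, card_BS hu hu0]
  by_cases h2 : 2 ≤ finrank F W
  swap
  · left
    refine ⟨u', hu', hu0', (Subgroup.eq_of_le_of_card_ge ?_ ?_).symm⟩
    · have hWu : W = F ∙ u' := (Submodule.eq_of_le_of_finrank_le
        ((Submodule.span_singleton_le_iff_mem _ _).2 huW)
        (by rw [finrank_span_singleton hu0']; omega)).symm
      refine le_trans (Subgroup.map_mono ?_) hUA
      rintro g ⟨v, hv, e⟩
      rw [show g = sg Q u' v from Subtype.ext e]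
      exact sg_mem_UR hW huW (by rwa [hWu, mem_perp_span_singleton])
    · rw [hcA, card_BS hu' hu0']
  right
  have hWW : perp Q W ≤ W := by
    intro v hv
    by_contra hvW
    obtain ⟨v', hv', h⟩ := hQ.exists_perp_one hvW
    obtain ⟨w, hw, w', hw', e⟩ := sieg_not_comm hQ hW h2 hv hv' (by rw [h]; exact one_ne_zero)
    apply e
    have h1 : Commute (sg Q w v) (sg Q w' v') := by
      refine CfsgH7.commute_of_mk_commute hZ (XS_pow p (sg_mem_XS (hv w hw))) ?_
      obtain ⟨_, ⟨a, ha, rfl⟩, ea⟩ := hUA ⟨_, sg_mem_UR hW hw hv, rfl⟩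
      obtain ⟨_, ⟨b, hb, rfl⟩, eb⟩ := hUA ⟨_, sg_mem_UR hW hw' hv', rfl⟩
      change Commute (pmk Q _) (pmk Q _)
      rw [← ea, ← eb]
      exact Commute.map (Commute.map (XS_comm ha hb) (pmk Q)) α.toMonoidHom
    exact congrArg Subtype.val h1
  have hM : MTS Q W := ⟨hW, by
    have h1 := hQ.finrank_perp W
    rw [le_antisymm hWW hW.le_perp] at h1
    omega⟩
  have hM2 := hM.2
  have hcU : Nat.card ((UR Q W).map (pmk Q)) = Nat.card (UR Q W) := by
    symm
    refine Nat.card_eq_of_bijective (fun g => ⟨pmk Q g, g, g.2, rfl⟩) ⟨fun g h e => ?_, ?_⟩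
    · exact Subtype.ext (CfsgH7.eq_of_mk_eq_of_pow hZ (UR_pow p g.2) (UR_pow p h.2)
        (congrArg Subtype.val e))
    · rintro ⟨_, g, hg, rfl⟩
      exact ⟨⟨g, hg⟩, rfl⟩
  have h3 := card_UR_ge hW (by omega)
  have h4 := Subgroup.card_le_of_le hUA
  rw [hcU, hcA] at h4
  have h5 := (Nat.pow_le_pow_iff_right Finite.one_lt_card).1 (h3.trans h4)
  have h8 : finrank F V = 8 := by omega
  refine ⟨h8, W, hM, (Subgroup.eq_of_le_of_card_ge hUA ?_).symm⟩
  rw [hcU, hcA]
  refine le_trans (le_of_eq ?_) h3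
  congr 1
  omega

end big

/-! ### The geometric lemma -/

lemma exists_smul_of_sing [Finite F] [hB : Big Q] (Q' : QuadraticForm F V)
    (h : ∀ x, Q x = 0 → Q' x = 0) : ∃ c, ∀ x, Q' x = c * Q x := by
  have := Big.fd Q
  have hn := hB.five
  have hQ := hB.nd
  obtain ⟨e, f, he, hf, hef⟩ := exists_hyp hQ (by omega)
  have key : ∀ u, Q u = 0 → ∀ y : perp2 Q e f, polar Q u y = 0 → (∀ z : perp2 Q e f,
      polar Q u z = 0) → polar Q' u y = 0 := fun u hu y _ hz =>
    sing_induction' (P := fun y : perp2 Q e f => polar Q' u y = 0) (nd_perp2 hQ he hf hef)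
      (by have := finrank_perp2 hQ he hef; omega)
      (fun y hy => by
        have := h (u + y) (by rw [Q_add, hu, hz, show Q y = 0 from hy]; simp)
        rwa [Q_add, h u hu, h y hy, zero_add, zero_add] at this)
      (fun x y hx hy => by rw [Submodule.coe_add, polar_add_right, hx, hy, add_zero]) y
  refine ⟨polar Q' e f, fun x => ?_⟩
  have hy := proj_mem_perp2 he hf hef x
  set y := x - polar Q f x • e - polar Q e x • f with hy'
  obtain ⟨y1, y2⟩ := mem_perp2.1 hy
  have k1 := key e he ⟨y, hy⟩ y1 fun z => (mem_perp2.1 z.2).1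
  have k2 := key f hf ⟨y, hy⟩ y2 fun z => (mem_perp2.1 z.2).2
  have k3 := h (e + y - Q y • f) (by
    rw [Q_sub, Q_add, Q_smul, polar_sr, polar_add_left, hef, pcomm y f, y1, y2, he, hf]; ring)
  simp only at k1 k2
  rw [Q_sub, Q_add, Q_smul, polar_sr, polar_add_left, pcomm y f, k1, k2, h e he, h f hf] at k3
  have e1 : x = y + (polar Q f x • e + polar Q e x • f) := by rw [hy']; abel
  generalize polar Q f x = a, polar Q e x = b at e1
  rw [e1]
  simp only [Q_add, Q_smul, polar_add_right, polar_sr, polar_sl, pcomm y e, pcomm y f, k1, k2, y1,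
    y2, h e he, h f hf, he, hf, hef]
  linear_combination k3

theorem exists_gam_of_add [Finite F] [hB : Big Q] (T : V ≃+ V) (h1 : ∀ v, Q (T v) = 0 ↔ Q v = 0)
    (h2 : ∀ v, Q v = 0 → ∀ a : F, T (a • v) ∈ F ∙ T v)
    (h3 : ∀ v w, Q v = 0 → Q w = 0 → w ≠ 0 → T w ∈ F ∙ T v → w ∈ F ∙ v) :
    ∃ γ : Gam Q, γ.T = T := by
  have := Big.fd Q
  have hn := hB.five
  have hQ := hB.nd
  have hs : ∀ v, ∃ s : F → F, Q v = 0 → ∀ a, T (a • v) = s a • T v := fun v => by
    by_cases hv : Q v = 0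
    · choose s hs using fun a => Submodule.mem_span_singleton.1 (h2 v hv a)
      exact ⟨s, fun _ a => (hs a).symm⟩
    · exact ⟨id, fun h => absurd h hv⟩
  choose s hs using hs
  have adj : ∀ v w, Q v = 0 → Q w = 0 → v ≠ 0 → polar Q v w = 0 → w ∉ F ∙ v → s v = s w := by
    intro v w hv hw hv0 hvw hwv
    have hw0 : w ≠ 0 := by rintro rfl; simp at hwv
    funext a
    have e1 := hs (v + w) (by rw [Q_add, hv, hw, hvw]; simp) a
    rw [smul_add, map_add, map_add, hs v hv, hs w hw] at e1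
    have e2 : (s w a - s (v + w) a) • T w = (s (v + w) a - s v a) • T v := by
      linear_combination (norm := module) e1
    have e3 : s w a - s (v + w) a = 0 := by
      by_contra h
      refine hwv (h3 v w hv hw hw0 (Submodule.mem_span_singleton.2
        ⟨(s w a - s (v + w) a)⁻¹ * (s (v + w) a - s v a), ?_⟩))
      rw [mul_smul, ← e2, smul_smul, inv_mul_cancel₀ h, one_smul]
    rw [e3, zero_smul, eq_comm, smul_eq_zero] at e2
    have e4 := e2.resolve_right (by simpa using hv0)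
    linear_combination -e3 - e4
  have nonp : ∀ v w, Q v = 0 → Q w = 0 → polar Q v w ≠ 0 → s v = s w := by
    intro v w hv hw hvw
    have hvw' : polar Q v ((polar Q v w)⁻¹ • w) = 1 := by rw [polar_sr, inv_mul_cancel₀ hvw]
    obtain ⟨⟨z, hz⟩, hz0, hz1⟩ := exists_sing (Q := res Q (perp2 Q v ((polar Q v w)⁻¹ • w)))
      (by have := finrank_perp2 hQ hv hvw'; omega)
    obtain ⟨z1, z2⟩ := mem_perp2.1 hz
    rw [polar_sl, mul_eq_zero, or_iff_right (inv_ne_zero hvw)] at z2
    have hz0' : z ≠ 0 := fun h => hz0 (Subtype.ext h)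
    rw [← adj z v hz1 hv hz0' (by rw [pcomm, z1]), adj z w hz1 hw hz0' (by rw [pcomm, z2])]
    · intro h
      obtain ⟨a, rfl⟩ := Submodule.mem_span_singleton.1 h
      rw [polar_sr, z1, mul_zero] at hvw
      exact hvw rfl
    · intro h
      obtain ⟨a, rfl⟩ := Submodule.mem_span_singleton.1 h
      rw [polar_sl, pcomm, z2, mul_zero] at hvw
      exact hvw rfl
  obtain ⟨e, he0, he⟩ := exists_sing (Q := Q) (by omega)
  have all : ∀ w, Q w = 0 → w ≠ 0 → s w = s e := by
    intro w hw hw0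
    by_cases h : polar Q e w = 0
    · by_cases h' : w ∈ F ∙ e
      · obtain ⟨f, hf, hef⟩ := hQ.exists_partner' he he0
        obtain ⟨a, rfl⟩ := Submodule.mem_span_singleton.1 h'
        rw [nonp e f he hf (by rw [hef]; exact one_ne_zero), nonp _ f hw hf (by
          rw [polar_sl, hef, mul_one]; rintro rfl; simp at hw0)]
      · exact (adj e w he hw he0 h h').symm
    · exact (nonp e w he hw h).symm
  have hsm : ∀ a x, T (a • x) = s e a • T x := fun a =>
    sing_induction' hQ (by omega)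
      (fun x hx => by
        by_cases h : x = 0
        · simp [h]
        · rw [hs x hx, all x hx h])
      (fun x y hx hy => by rw [smul_add, map_add, map_add, hx, hy, smul_add])
  have hTe : T e ≠ 0 := by simpa using he0
  have inj := smul_left_injective F hTe
  let σ0 : F →+* F :=
    { toFun := s e
      map_one' := inj (by simp only [← hsm, one_smul])
      map_mul' := fun a b => inj (by simp only [mul_smul, ← hsm])
      map_zero' := inj (by simp only [← hsm, zero_smul, map_zero])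
      map_add' := fun a b => inj (by simp only [add_smul, ← hsm, map_add]) }
  let σ : F ≃+* F := RingEquiv.ofBijective σ0
    (Finite.injective_iff_bijective.1 σ0.injective)
  have hσ : ∀ a x, T (a • x) = σ a • T x := hsm
  let Q' : QuadraticForm F V := QuadraticMap.ofPolar (fun x => σ.symm (Q (T x)))
    (fun a x => by rw [hσ, Q_smul, _root_.map_mul, map_pow]; simp [pow_two])
    (fun x x' y => by
      have : ∀ x y, polar (fun x => σ.symm (Q (T x))) x y = σ.symm (polar Q (T x) (T y)) :=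
        fun x y => by simp [polar]
      simp [this])
    (fun a x y => by
      have : ∀ x y, polar (fun x => σ.symm (Q (T x))) x y = σ.symm (polar Q (T x) (T y)) :=
        fun x y => by simp [polar]
      simp [this, hσ])
  obtain ⟨c, hc⟩ := exists_smul_of_sing (Q := Q) Q' fun x hx => by
    change σ.symm (Q (T x)) = 0
    rw [(h1 x).2 hx, map_zero]
  have hc' : ∀ x, Q (T x) = σ c * σ (Q x) := fun x => by
    rw [← _root_.map_mul, ← hc]
    exact (σ.apply_symm_apply _).symm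
  have := Big.nontrivial Q
  obtain ⟨x, hx⟩ := hQ.exists_nonsing
  have hc0 : σ c ≠ 0 := fun h => hx ((h1 x).1 (by rw [hc', h, zero_mul]))
  exact ⟨⟨T, σ, Units.mk0 _ hc0, hσ, hc'⟩, rfl⟩

/-- extension of a semisimilarity from the complement of a hyperbolic pair -/
lemma exists_ext_perp2 {e f : V} (he : Q e = 0) (hf : Q f = 0) (hef : polar Q e f = 1)
    (γ : Gam (res Q (perp2 Q e f))) :
    ∃ δ : Gam Q, δ.T e = (γ.c : F) • e ∧ δ.T f = f ∧ δ.c = γ.c ∧ δ.σ = γ.σ ∧
      ∀ v : perp2 Q e f, δ.T v = γ.T v := by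
  let π : V → perp2 Q e f := fun x => ⟨_, proj_mem_perp2 he hf hef x⟩
  have hee : polar Q e e = 0 := by rw [polar_self', he, mul_zero]
  have hff : polar Q f f = 0 := by rw [polar_self', hf, mul_zero]
  have hfe : polar Q f e = 1 := by rw [pcomm, hef]
  have p1 : ∀ v : perp2 Q e f, polar Q e v = 0 := fun v => (mem_perp2.1 v.2).1
  have p2 : ∀ v : perp2 Q e f, polar Q f v = 0 := fun v => (mem_perp2.1 v.2).2
  have hπ : ∀ (a b : F) (v : perp2 Q e f), π (a • e + b • f + v) = v := fun a b v =>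
    Subtype.ext (by simp [π, hee, hff, hef, hfe, p1, p2]; abel)
  have dec : ∀ x, ∃ (a b : F) (v : perp2 Q e f), x = a • e + b • f + v := fun x =>
    ⟨polar Q f x, polar Q e x, π x, by simp [π]⟩
  let t : Gam (res Q (perp2 Q e f)) → V → V := fun γ x =>
    ((γ.c : F) * γ.σ (polar Q f x)) • e + γ.σ (polar Q e x) • f + γ.T (π x)
  have ht : ∀ γ (a b : F) (v : perp2 Q e f),
      t γ (a • e + b • f + v) = ((γ.c : F) * γ.σ a) • e + γ.σ b • f + γ.T v := fun γ a b v => by
    simp only [t, hπ]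
    simp [hee, hff, hef, hfe, p1, p2]
  clear_value t
  have hinv : ∀ γ x, t γ⁻¹ (t γ x) = x := fun γ x => by
    obtain ⟨a, b, v, rfl⟩ := dec x
    rw [ht, ht, Gam.inv_c, Gam.inv_σ, ← _root_.map_mul, inv_mul_cancel_left₀ γ.c.ne_zero,
      Gam.inv_T_T]
    simp
  have hQ : ∀ (a b : F) (v : perp2 Q e f), Q (a • e + b • f + v) = a * b + Q v := fun a b v => by
    simp [Q_add, Q_smul, he, hf, hef, p1, p2, mul_comm]
  refine ⟨⟨⟨⟨t γ, t γ⁻¹, hinv γ, fun x => by simpa using hinv γ⁻¹ x⟩, fun x y => ?_⟩, γ.σ, γ.c,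
    fun r x => ?_, fun x => ?_⟩, ?_, ?_, rfl, rfl, fun v => ?_⟩
  · obtain ⟨a, b, v, rfl⟩ := dec x
    obtain ⟨a', b', v', rfl⟩ := dec y
    have : a • e + b • f + v + (a' • e + b' • f + v') = (a + a') • e + (b + b') • f + (v + v' :) := by
      simp only [Submodule.coe_add]; module
    change t γ _ = t γ _ + t γ _
    rw [this, ht, ht, ht]
    simp only [map_add, Submodule.coe_add]; module
  · obtain ⟨a, b, v, rfl⟩ := dec x
    have : r • (a • e + b • f + v) = (r * a) • e + (r * b) • f + (r • v :) := by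
      simp only [Submodule.coe_smul]; module
    change t γ _ = _ • t γ _
    rw [this, ht, ht]
    simp only [_root_.map_mul, γ.smul, Submodule.coe_smul]; module
  · obtain ⟨a, b, v, rfl⟩ := dec x
    change Q (t γ _) = _
    have := γ.mapQ v
    simp only [res_apply] at this
    rw [ht, hQ, hQ, this, map_add, _root_.map_mul]; ring
  · simpa using ht γ 1 0 0
  · simpa using ht γ 0 1 0
  · simpa using ht γ 0 0 v

section big
variable [Finite F] [hB : Big Q]

lemma BS_map_all {α : MulAut (POm Q)} {u u' : V} (hu : Q u = 0) (hu0 : u ≠ 0) (hu' : Q u' = 0)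
    (hu0' : u' ≠ 0) (h : (BS Q u).map α.toMonoidHom = BS Q u') {w : V} (hw : Q w = 0)
    (hw0 : w ≠ 0) : ∃ w', Q w' = 0 ∧ w' ≠ 0 ∧ (BS Q w).map α.toMonoidHom = BS Q w' := by
  obtain ⟨g, a, ha, e⟩ := exists_Om_map hu hu0 hw hw0
  obtain ⟨k, hk⟩ := QuotientGroup.mk'_surjective _ (α (pmk Q g))
  refine ⟨k.1.1 u', by simp [hu'], by simpa [OG.eq_zero_iff] using hu0', ?_⟩
  rw [← BS_smul hw ha, ← e, ← map_conj_BS, ← map_conj_BS, ← h, Subgroup.map_map, Subgroup.map_map,
    hk]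
  congr 1
  ext x
  simp

lemma eq_one_of_fix_BS {α : MulAut (POm Q)}
    (h : ∀ u, Q u = 0 → u ≠ 0 → (BS Q u).map α.toMonoidHom = BS Q u) : α = 1 := by
  have := Big.fd Q
  have hn := hB.five
  refine mulEquiv_quot_ext fun g => ?_
  obtain ⟨k, hk⟩ := QuotientGroup.mk'_surjective _ (α (pmk Q g))
  obtain ⟨a, ha⟩ := eq_scal_of_fix hB.nd (by omega) (ofOG Q (k⁻¹ * g : Om Q)) fun u hu => by
    by_cases hu0 : u = 0
    · simp [hu0]
    have e1 : BS Q (k.1.1 u) = BS Q (g.1.1 u) := by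
      rw [← h (g.1.1 u) (by simp [hu]) (by simpa [OG.eq_zero_iff] using hu0), ← map_conj_BS,
        ← map_conj_BS, Subgroup.map_map, hk]
      conv_lhs => rw [← h u hu hu0, Subgroup.map_map]
      congr 1
      ext x
      simp
    obtain ⟨b, hb⟩ := Submodule.mem_span_singleton.1 (mem_span_of_BS_le (by simp [hu])
      (by simpa [OG.eq_zero_iff] using hu0) (by simp [hu]) e1.le)
    refine Submodule.mem_span_singleton.2 ⟨b, ?_⟩
    change _ = (k.1⁻¹).1 (g.1.1 u)
    rw [← hb, map_smul, OG.inv_apply_self]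
  exact hk.symm.trans (QuotientGroup.eq.2 (mem_center_of_scal ha))

/-- the singular vector attached to a root element -/
lemma BS_map_perp2 {α : MulAut (POm Q)}
    (hall : ∀ w, Q w = 0 → w ≠ 0 → ∃ w', Q w' = 0 ∧ w' ≠ 0 ∧ (BS Q w).map α.toMonoidHom = BS Q w')
    {e f : V} (he : Q e = 0) (hf : Q f = 0) (hef : polar Q e f = 1)
    (h1 : (BS Q e).map α.toMonoidHom = BS Q e) (h2 : (BS Q f).map α.toMonoidHom = BS Q f)
    {v t : V} (hv : v ∈ perp2 Q e f) (ht : t ∈ perp2 Q e f) (hv0 : v ≠ 0) (hv1 : Q v = 0)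
    (h : α (pmk Q (sg Q e v)) = pmk Q (sg Q e t)) :
    Q t = 0 ∧ (BS Q v).map α.toMonoidHom = BS Q t := by
  have := Big.fd Q
  have hQ := hB.nd
  have he0 : e ≠ 0 := by rintro rfl; simp at hef
  have hf0 : f ≠ 0 := by rintro rfl; simp at hef
  obtain ⟨v1, v2⟩ := mem_perp2.1 hv
  obtain ⟨t1, t2⟩ := mem_perp2.1 ht
  obtain ⟨w, hw, hw0, e1⟩ := hall v hv1 hv0
  have key : ∀ u, Q u = 0 → u ≠ 0 → (BS Q u).map α.toMonoidHom = BS Q u → polar Q u v = 0 →
      polar Q u w = 0 := fun u hu hu0 h1 h2 => by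
    by_contra h3
    have := (BS_inf_eq_bot_iff hu hu0 hw hw0).2 h3
    rw [← h1, ← e1, ← Subgroup.map_inf _ _ _ α.injective,
      Subgroup.map_eq_bot_iff_of_injective _ α.injective, BS_inf_eq_bot_iff hu hu0 hv1 hv0] at this
    exact this h2
  have w1 := key e he he0 h1 v1
  have w2 := key f hf hf0 h2 v2
  have hm : pmk Q (sg Q e t) ∈ BS Q w := by
    rw [← h, ← e1]
    exact ⟨_, ⟨_, ⟨-e, by simp [pcomm v e, v1], by
      rw [sg_coe, sieg_swap hv1 he (by rw [pcomm, v1])]⟩, rfl⟩, rfl⟩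
  obtain ⟨g, hg, e2⟩ := hm
  obtain rfl := eq_of_pmk_eq hg (sg_mem_XS t1) e2
  obtain ⟨z, hz, e3⟩ := hg
  have e4 := congrArg (fun g : OG Q => g.1 f) e3
  simp only [sg_coe] at e4
  rw [sieg_apply he t1, sieg_apply_of_perp hw hz (by rw [pcomm, w2]), pcomm t f, t2, hef] at e4
  have e5 := congrArg (polar Q f) e4
  simp only [polar_add_right, polar_sub_right, polar_sr, t2, w2, pcomm f e, hef] at e5
  have hQt : Q t = 0 := by linear_combination -e5
  have e6 : t = (-polar Q z f) • w := by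
    rw [hQt] at e4
    linear_combination (norm := module) -e4
  refine ⟨hQt, ?_⟩
  rw [e1, e6, BS_smul hw]
  intro h0
  rw [h0, zero_smul] at e6
  rw [e6, show sg Q e 0 = 1 from Subtype.ext (sieg_zero e), _root_.map_one,
    map_eq_one_iff _ α.injective, pmk_sg_eq_one_iff he he0 v1] at h
  obtain ⟨a, rfl⟩ := Submodule.mem_span_singleton.1 h
  rw [polar_sr, pcomm, hef, mul_one] at v2
  simp [v2] at hv0

lemma eq_one_of_fix_pair {α : MulAut (POm Q)}
    (hall : ∀ w, Q w = 0 → w ≠ 0 → ∃ w', Q w' = 0 ∧ w' ≠ 0 ∧ (BS Q w).map α.toMonoidHom = BS Q w')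
    {e f : V} (he : Q e = 0) (hf : Q f = 0) (hef : polar Q e f = 1)
    (h1 : ∀ v ∈ perp2 Q e f, α (pmk Q (sg Q e v)) = pmk Q (sg Q e v))
    (h2 : (BS Q f).map α.toMonoidHom = BS Q f) : α = 1 := by
  have hQ := hB.nd
  have h3 : (BS Q e).map α.toMonoidHom = BS Q e := by
    ext x
    constructor
    · rintro ⟨y, hy, rfl⟩
      obtain ⟨v, hv⟩ := (bs_bijective he hf hef).2 ⟨y, hy⟩
      obtain rfl : pmk Q (sg Q e v) = y := congrArg Subtype.val hv
      exact (h1 v v.2).symm ▸ hy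
    · intro hx
      obtain ⟨v, hv⟩ := (bs_bijective he hf hef).2 ⟨x, hx⟩
      obtain rfl : pmk Q (sg Q e v) = x := congrArg Subtype.val hv
      exact ⟨_, hx, h1 v v.2⟩
  have key : ∀ v ∈ perp2 Q e f, ∀ u, (BS Q u).map α.toMonoidHom = BS Q u →
      (BS Q ((sieg Q e v).1 u)).map α.toMonoidHom = BS Q ((sieg Q e v).1 u) := fun v hv u hu => by
    rw [← sg_coe, ← map_conj_BS, Subgroup.map_map]
    conv_rhs => rw [← hu, Subgroup.map_map]
    congr 1
    ext x
    simp only [MonoidHom.comp_apply, MulEquiv.coe_toMonoidHom, MulAut.conj_apply, _root_.map_mul,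
      map_inv, h1 v hv]
  refine eq_one_of_fix_BS fun u hu hu0 => ?_
  have hy := proj_mem_perp2 he hf hef u
  set y := u - polar Q f u • e - polar Q e u • f with hy'
  obtain ⟨y1, y2⟩ := mem_perp2.1 hy
  have e1 : u = y + (polar Q f u • e + polar Q e u • f) := by rw [hy']; abel
  clear_value y
  generalize polar Q f u = a, polar Q e u = b at e1
  have e2 : Q y + a * b = 0 := by
    rw [← hu, e1]
    simp [Q_add, Q_smul, he, hf, hef, pcomm y e, pcomm y f, y1, y2, mul_comm]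
  by_cases hb : b = 0
  · subst hb
    rw [zero_smul, add_zero] at e1
    rw [mul_zero, add_zero] at e2
    by_cases hy0 : y = 0
    · rw [hy0, zero_add] at e1
      rw [e1, BS_smul he (by rintro rfl; simp [e1] at hu0), h3]
    · obtain ⟨z, hz, hyz⟩ : ∃ z ∈ perp2 Q e f, polar Q y z ≠ 0 := by
        by_contra hc
        push Not at hc
        exact hy0 (eq_zero_of_perp2 hQ he hf hef hy hc)
      have hz' := Submodule.smul_mem _ (a * (polar Q y z)⁻¹) hz
      have := key _ hz' y (BS_map_perp2 hall he hf hef h3 h2 hy hy hy0 e2 (h1 y hy)).2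
      rwa [sieg_apply_of_perp he (mem_perp2.1 hz').1 y1, polar_sl, pcomm z y, mul_assoc,
        inv_mul_cancel₀ hyz, mul_one, ← e1] at this
  · have hz' := Submodule.smul_mem _ (-b⁻¹) hy
    have h4 := key _ hz' f h2
    have e3 : u = b • (sieg Q e (-b⁻¹ • y)).1 f := by
      rw [sieg_apply he (mem_perp2.1 hz').1, hef, polar_sl, pcomm y f, y2, Q_smul, e1]
      have : Q y = -(a * b) := by linear_combination e2
      rw [this]
      match_scalars <;> field_simp <;> ring
    rw [e3, BS_smul (by simp [hf]) hb, h4]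

theorem exists_Phi_of_BS (hn : 7 ≤ finrank F V) {α : MulAut (POm Q)} {u u' : V} (hu : Q u = 0)
    (hu0 : u ≠ 0) (hu' : Q u' = 0) (hu0' : u' ≠ 0) (h : (BS Q u).map α.toMonoidHom = BS Q u') :
    ∃ γ : Gam Q, Phi Q γ = α := by
  have := Big.fd Q
  have hQ := hB.nd
  have hall := @BS_map_all _ _ _ _ _ Q _ _ α u u' hu hu0 hu' hu0' h
  obtain ⟨f, hf, huf⟩ := hQ.exists_partner' hu hu0
  have hf0 : f ≠ 0 := by rintro rfl; simp at huf
  obtain ⟨f', hf', hf0', h'⟩ := hall hf hf0
  have hne : polar Q u' f' ≠ 0 := by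
    rw [← BS_inf_eq_bot_iff hu' hu0' hf' hf0', ← h, ← h', ← Subgroup.map_inf _ _ _ α.injective,
      Subgroup.map_eq_bot_iff_of_injective _ α.injective, BS_inf_eq_bot_iff hu hu0 hf hf0, huf]
    exact one_ne_zero
  obtain ⟨g, hg1, hg2⟩ := witt_pair hQ hu' hu (w := (polar Q u' f')⁻¹ • f') (w' := f)
    (by rw [Q_smul, hf', hf, mul_zero]) (by rw [polar_sr, inv_mul_cancel₀ hne, huf])
    (by rw [polar_sr, inv_mul_cancel₀ hne]; exact one_ne_zero)
  -- normalise
  suffices H : ∀ α : MulAut (POm Q), (BS Q u).map α.toMonoidHom = BS Q u →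
      (BS Q f).map α.toMonoidHom = BS Q f → ∃ γ : Gam Q, Phi Q γ = α by
    obtain ⟨γ, hγ⟩ := H (Phi Q (ofOG Q g) * α)
      (by
        conv_rhs => rw [← hg1, ← ofOG_T, ← map_BS, ← h, Subgroup.map_map]
        rfl)
      (by
        conv_rhs => rw [← hg2, ← ofOG_T, ← map_BS, BS_smul hf' (inv_ne_zero hne), ← h',
          Subgroup.map_map]
        rfl)
    exact ⟨(ofOG Q g)⁻¹ * γ, by rw [_root_.map_mul, hγ]; simp⟩
  clear h hall h' hg1 hg2 hne α
  intro α h1 h2
  have hall := @BS_map_all _ _ _ _ _ Q _ _ α u u hu hu0 hu hu0 h1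
  have h1' : (BS Q u).map α.symm.toMonoidHom = BS Q u := by
    conv_lhs => rw [← h1, Subgroup.map_map]
    simp
  have h2' : (BS Q f).map α.symm.toMonoidHom = BS Q f := by
    conv_lhs => rw [← h2, Subgroup.map_map]
    simp
  have hall' := @BS_map_all _ _ _ _ _ Q _ _ α.symm u u hu hu0 hu hu0 h1'
  let b := Equiv.ofBijective _ (bs_bijective hu hf huf)
  let a := (α.subgroupMap (BS Q u)).trans (MulEquiv.subgroupCongr h1)
  let T : perp2 Q u f ≃+ perp2 Q u f :=
    { (b.trans a.toEquiv).trans b.symm with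
      map_add' := fun v w => b.injective (by
        change b (b.symm (a (bs Q u f (v + w)))) = bs Q u f (b.symm (a (b v)) + b.symm (a (b w)))
        rw [bs_add hu, bs_add hu, Equiv.apply_symm_apply, _root_.map_mul]
        congr 1
        · exact (b.apply_symm_apply _).symm
        · exact (b.apply_symm_apply _).symm) }
  have hT : ∀ v : perp2 Q u f, α (pmk Q (sg Q u v)) = pmk Q (sg Q u (T v)) := fun v =>
    (congrArg Subtype.val (b.apply_symm_apply (a (b v)))).symm
  have hT1 : ∀ v : perp2 Q u f, v ≠ 0 → Q v = 0 →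
      Q (T v) = 0 ∧ (BS Q v).map α.toMonoidHom = BS Q (T v) := fun v hv0 hv =>
    BS_map_perp2 (fun w => hall) hu hf huf h1 h2 v.2 (T v).2 (by simpa using hv0) hv (hT v)
  have hB' : Big (res Q (perp2 Q u f)) :=
    ⟨nd_perp2 hQ hu hf huf, by have := finrank_perp2 hQ hu huf; omega⟩
  have hsp : ∀ v w : perp2 Q u f, (w : V) ∈ F ∙ (v : V) → w ∈ F ∙ v := fun v w h => by
    obtain ⟨c, hc⟩ := Submodule.mem_span_singleton.1 h
    exact Submodule.mem_span_singleton.2 ⟨c, Subtype.ext hc⟩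
  obtain ⟨γ, hγ⟩ := exists_gam_of_add (Q := res Q (perp2 Q u f)) T
    (fun v => by
      by_cases hv0 : v = 0
      · simp [hv0]
      refine ⟨fun hv => ?_, fun hv => (hT1 v hv0 hv).1⟩
      exact (BS_map_perp2 (fun w => hall') hu hf huf h1' h2' (T v).2 v.2 (by simpa using hv0) hv
        (by rw [← hT]; simp)).1)
    (fun v hv c => by
      by_cases hc : c • v = 0
      · simp [hc]
      have hc' := smul_ne_zero_iff.1 hc
      obtain ⟨e1, e2⟩ := hT1 v hc'.2 hv
      obtain ⟨e3, e4⟩ := hT1 _ hc (by rw [Submodule.coe_smul, Q_smul, show Q v = 0 from hv, mul_zero])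
      rw [Submodule.coe_smul, BS_smul (show Q v = 0 from hv) hc'.1, e2] at e4
      exact hsp _ _ (mem_span_of_BS_le e1 (by simpa using hc'.2) e3 e4.le))
    (fun v w hv hw hw0 h => by
      obtain ⟨c, hc⟩ := Submodule.mem_span_singleton.1 h
      have h0 : c • T v ≠ 0 := by rw [hc]; simpa using hw0
      have hc' := smul_ne_zero_iff.1 h0
      have hv0 : v ≠ 0 := by simpa using hc'.2
      obtain ⟨e1, e2⟩ := hT1 v hv0 hv
      obtain ⟨e3, e4⟩ := hT1 w hw0 hw
      rw [← hc, Submodule.coe_smul, BS_smul e1 hc'.1, ← e2] at e4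
      exact hsp _ _ (mem_span_of_BS_le hv (by simpa using hv0) hw
        (Subgroup.map_injective α.injective e4).ge))
  obtain ⟨δ, d1, d2, d3, -, d4⟩ := exists_ext_perp2 hu hf huf γ
  refine ⟨δ, ?_⟩
  rw [← inv_mul_eq_one]
  have hcomp : ∀ w, (BS Q w).map ((Phi Q δ)⁻¹ * α).toMonoidHom =
      ((BS Q w).map α.toMonoidHom).map (Phi Q δ⁻¹).toMonoidHom := fun w => by
    rw [Subgroup.map_map, map_inv]; rfl
  refine eq_one_of_fix_pair (fun w hw hw0 => ?_) hu hf huf (fun v hv => ?_) ?_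
  · obtain ⟨w', a1, a2, a3⟩ := hall hw hw0
    exact ⟨(δ⁻¹).T w', (δ⁻¹).Q_eq_zero.2 a1, by simpa [SIso.T_eq_zero] using a2,
      by rw [hcomp, a3, map_BS]⟩
  · rw [MulAut.mul_apply, MulAut.inv_apply, MulEquiv.symm_apply_eq, Phi_sg, hT ⟨v, hv⟩, d1, d3,
      d4 ⟨v, hv⟩, hγ]
    congr 1
    apply Subtype.ext
    rw [sg_coe, sg_coe, sieg_smul_left hu (by rw [polar_sr, (mem_perp2.1 (T _).2).1, mul_zero]),
      smul_smul, mul_inv_cancel₀ γ.c.ne_zero, one_smul]
  · rw [hcomp, h2, map_BS]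
    conv_lhs => rw [← d2, Gam.inv_T_T]

/-- The automorphism theorem. -/
theorem Phi_surjective (hn : 7 ≤ finrank F V) (h8 : finrank F V = 8 → ∀ W, ¬ MTS Q W) :
    Function.Surjective (Phi Q) := fun α => by
  have := Big.fd Q
  obtain ⟨u, hu0, hu⟩ := exists_sing (Q := Q) (by omega)
  rcases aut_BS hn α hu hu0 with ⟨u', a1, a2, a3⟩ | ⟨a1, W, a2, -⟩
  · exact exists_Phi_of_BS hn hu hu0 a1 a2 a3
  · exact absurd a2 (h8 a1 W)

end big

end CfsgH8
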