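import Cfsg.Agent.H8.Root

set_option autoImplicit false

namespace CfsgH8

open QuadraticMap Module

variable {F V : Type*} [Field F] [AddCommGroup V] [Module F V] {Q : QuadraticForm F V}

/-- A `p`-group of isometries has a fixed vector on every nonzero invariant section. -/
lemma exists_fixed_mod [Finite F] [FiniteDimensional F V] {p : ℕ} [Fact p.Prime] [CharP F p]
    {G : Type*} [Group G] (ρ : G →* OG Q) {R : Subgroup G} (hR : IsPGroup p R) {D U : Submodule F V}
    (hDU : D < U) (hD : ∀ g ∈ R, ∀ x ∈ D, (ρ g).1 x ∈ D) (hU : ∀ g ∈ R, ∀ x ∈ U, (ρ g).1 x ∈ U) :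
    ∃ x ∈ U, x ∉ D ∧ ∀ g ∈ R, (ρ g).1 x - x ∈ D := by
  let W := U.map D.mkQ
  let act : R → (V ⧸ D) →ₗ[F] (V ⧸ D) := fun g => D.mapQ D (ρ g).1.toLinearMap (hD g g.2)
  let : MulAction R W :=
    { smul := fun g w => ⟨act g w, by
        obtain ⟨_, x, hx, rfl⟩ := w
        exact ⟨_, hU g g.2 x hx, rfl⟩⟩
      one_smul := fun w => Subtype.ext (by
        obtain ⟨_, x, hx, rfl⟩ := w
        change D.mkQ ((ρ (1 : R)).1 x) = D.mkQ x
        simp)
      mul_smul := fun s t w => Subtype.ext (by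
        obtain ⟨_, x, hx, rfl⟩ := w
        change D.mkQ ((ρ (s * t : R)).1 x) = D.mkQ ((ρ s).1 ((ρ t).1 x))
        simp) }
  have : Finite W := Module.finite_of_finite F
  have hcard : p ∣ Nat.card W := by
    have := Fintype.ofFinite F
    obtain ⟨k, _, hk⟩ := FiniteField.card F p
    rw [Module.natCard_eq_pow_finrank (K := F), Nat.card_eq_fintype_card, hk]
    apply dvd_pow (dvd_pow_self p k.ne_zero)
    intro h
    obtain ⟨x, hx, hxD⟩ := SetLike.exists_of_lt hDU
    have h0 : D.mkQ x ∈ W := ⟨x, hx, rfl⟩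
    rw [Submodule.finrank_eq_zero.1 h] at h0
    exact hxD ((Submodule.Quotient.mk_eq_zero D).1 h0)
  have h0 : (0 : W) ∈ MulAction.fixedPoints R W := fun s => Subtype.ext (map_zero (act s))
  obtain ⟨⟨_, x, hx, rfl⟩, he, he0⟩ :=
    hR.exists_fixed_point_of_prime_dvd_card_of_fixed_point W hcard h0
  refine ⟨x, hx, fun h => he0 (Subtype.ext ((Submodule.Quotient.mk_eq_zero D).2 h).symm),
    fun g hg => ?_⟩
  exact (Submodule.Quotient.eq D).1 (congrArg Subtype.val (he ⟨g, hg⟩))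

lemma exists_fixed [Finite F] [FiniteDimensional F V] {p : ℕ} [Fact p.Prime] [CharP F p]
    {G : Type*} [Group G] (ρ : G →* OG Q) {R : Subgroup G} (hR : IsPGroup p R) {U : Submodule F V}
    (hU0 : U ≠ ⊥) (hU : ∀ g ∈ R, ∀ x ∈ U, (ρ g).1 x ∈ U) :
    ∃ x ∈ U, x ≠ 0 ∧ ∀ g ∈ R, (ρ g).1 x = x := by
  obtain ⟨x, hx, h1, h2⟩ := exists_fixed_mod ρ hR (D := ⊥) (bot_lt_iff_ne_bot.2 hU0)
    (by simp) hU
  exact ⟨x, hx, by simpa using h1, by simpa [sub_eq_zero] using h2⟩

section plift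
variable {G : Type*} [Group G] {p : ℕ}

lemma plift_conj (hZ : ∀ z ∈ Subgroup.center G, z ^ p = 1 → z = 1) {S : Subgroup G}
    (hS : IsPGroup p S) {A : Subgroup (G ⧸ Subgroup.center G)}
    (hA : A ≤ S.map (QuotientGroup.mk' _)) {h : G}
    (hh : ∀ a ∈ A, QuotientGroup.mk' _ h * a * (QuotientGroup.mk' _ h)⁻¹ ∈ A) {g : G}
    (hg : g ∈ S ⊓ A.comap (QuotientGroup.mk' _)) :
    h * g * h⁻¹ ∈ S ⊓ A.comap (QuotientGroup.mk' _) := by
  have h1 : QuotientGroup.mk' _ (h * g * h⁻¹) ∈ A := by simpa using hh _ hg.2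
  obtain ⟨s, hs, e⟩ := hA h1
  obtain ⟨k, hk⟩ := hS ⟨g, hg.1⟩
  obtain ⟨l, hl⟩ := hS ⟨s, hs⟩
  have e1 : g ^ p ^ k = 1 := congrArg Subtype.val hk
  have e2 : s ^ p ^ l = 1 := congrArg Subtype.val hl
  have := CfsgH7.eq_of_mk_eq_of_pow hZ (k := k + l) (a := s) (b := h * g * h⁻¹)
    (by rw [pow_add, mul_comm, pow_mul, e2, one_pow])
    (by rw [conj_pow, pow_add, pow_mul, e1]; simp) e
  exact ⟨this ▸ hs, h1⟩

lemma plift_map {S : Subgroup G} {N : Subgroup G} [N.Normal] {A : Subgroup (G ⧸ N)}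
    (hA : A ≤ S.map (QuotientGroup.mk' _)) :
    (S ⊓ A.comap (QuotientGroup.mk' _)).map (QuotientGroup.mk' _) = A := by
  refine le_antisymm ?_ fun a ha => ?_
  · rintro _ ⟨g, hg, rfl⟩
    exact hg.2
  · obtain ⟨s, hs, rfl⟩ := hA ha
    exact ⟨s, ⟨hs, ha⟩, rfl⟩

end plift

/-- the unipotent radical of the stabiliser of a totally singular subspace -/
def UR (Q : QuadraticForm F V) (W : Submodule F V) : Subgroup (Om Q) where
  carrier := {g | (∀ x ∈ W, g.1.1 x = x) ∧ ∀ x ∈ perp Q W, g.1.1 x - x ∈ W}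
  one_mem' := ⟨fun _ _ => rfl, fun x _ => by simp⟩
  mul_mem' := by
    rintro a b ⟨a1, a2⟩ ⟨b1, b2⟩
    refine ⟨fun x hx => by simp [a1 x hx, b1 x hx], fun x hx => ?_⟩
    have := W.add_mem (a2 (b.1.1 x) fun w hw => by
      change polar Q w _ = 0
      rw [← b1 w hw, OG.map_polar]; exact hx w hw) (b2 x hx)
    simpa using this
  inv_mem' := by
    rintro a ⟨a1, a2⟩
    refine ⟨fun x hx => OG.inj a.1 (by simp [a1 x hx]), fun x hx => ?_⟩
    have := W.neg_mem (a2 ((a.1⁻¹).1 x) fun w hw => by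
      change polar Q w _ = 0
      rw [← OG.polar_inv, a1 w hw]; exact hx w hw)
    simpa using this

lemma mem_UR {W : Submodule F V} {g : Om Q} :
    g ∈ UR Q W ↔ (∀ x ∈ W, g.1.1 x = x) ∧ ∀ x ∈ perp Q W, g.1.1 x - x ∈ W := Iff.rfl

lemma UR_pow [Nontrivial V] (p : ℕ) [Fact p.Prime] [CharP F p] {W : Submodule F V} {g : Om Q}
    (hg : g ∈ UR Q W) : g ^ p ^ 2 = 1 := by
  let a : Module.End F V := g.1.1.toLinearMap
  have : CharP (Module.End F V) p := charP_of_injective_algebraMap (algebraMap F _).injective p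
  have h3 : (a - 1) ^ 3 = 0 := LinearMap.ext fun x => by
    have h1 : g.1.1 x - x ∈ perp Q W := fun w hw => by
      change polar Q w _ = 0
      rw [polar_sub_right]
      conv_lhs => rw [← hg.1 w hw, OG.map_polar, hg.1 w hw]
      rw [sub_self]
    have h2 := hg.1 _ (hg.2 _ h1)
    change g.1.1 (g.1.1 (g.1.1 x - x) - (g.1.1 x - x)) - (g.1.1 (g.1.1 x - x) - (g.1.1 x - x)) = 0
    rw [h2, sub_self]
  have h4 : 3 ≤ p ^ 2 := by have := (Fact.out : p.Prime).two_le; nlinarith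
  have h5 := sub_pow_char_pow_of_commute (p := p) 2 (Commute.one_right a)
  rw [pow_eq_zero_of_le h4 h3, one_pow, eq_comm, sub_eq_zero] at h5
  refine Subtype.ext (OG.ext' fun x => ?_)
  have := LinearMap.congr_fun h5 x
  rw [Module.End.pow_apply] at this
  rw [Subgroup.coe_pow, Subgroup.coe_pow, LinearEquiv.pow_apply]
  exact this

lemma UR_isPGroup [Nontrivial V] (p : ℕ) [Fact p.Prime] [CharP F p] (W : Submodule F V) :
    IsPGroup p (UR Q W) := fun g => ⟨2, Subtype.ext (UR_pow p g.2)⟩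

lemma UR_conj {W : Submodule F V} {h g : Om Q} (h1 : ∀ x ∈ W, h.1.1 x ∈ W)
    (h2 : ∀ x ∈ W, (h⁻¹).1.1 x ∈ W) (hg : g ∈ UR Q W) : h * g * h⁻¹ ∈ UR Q W := by
  refine ⟨fun x hx => ?_, fun x hx => ?_⟩
  · have := hg.1 _ (h2 x hx)
    change h.1.1 (g.1.1 ((h⁻¹).1.1 x)) = x
    rw [this]
    exact OG.apply_inv_self _ _
  · have := h1 _ (hg.2 ((h⁻¹).1.1 x) fun w hw => by
      change polar Q w _ = 0
      rw [Subgroup.coe_inv, ← OG.polar_inv]
      exact hx _ (h1 w hw))
    simpa using this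

lemma sg_mem_UR [Big Q] {W : Submodule F V} (hW : TS Q W) {w v : V} (hw : w ∈ W)
    (hv : v ∈ perp Q W) : sg Q w v ∈ UR Q W := by
  have h1 := hW w hw
  have h2 : polar Q w v = 0 := hv w hw
  refine ⟨fun x hx => ?_, fun x hx => ?_⟩
  · rw [sg_coe, sieg_apply_of_perp h1 h2 (hW.polar hw hx), mem_perp'.1 hv x hx, zero_smul, add_zero]
  · rw [sg_coe, sieg_apply_of_perp h1 h2 (hx w hw), add_sub_cancel_left]
    exact W.smul_mem _ hw

lemma card_UR_ge [Finite F] [hB : Big Q] {W : Submodule F V} (hW : TS Q W)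
    (h3 : 3 ≤ finrank F W) : Nat.card F ^ (3 * finrank F W - 6) ≤ Nat.card (UR Q W) := by
  have := Big.fd Q
  have : Finite V := Module.finite_of_finite F
  have : Finite (V ≃ₗ[F] V) := Finite.of_injective (fun g : V ≃ₗ[F] V => (g : V → V))
    DFunLike.coe_injective
  obtain ⟨w', hw'⟩ := exists_linearIndependent_of_le_finrank h3
  let w : Fin 3 → V := fun i => w' i
  have hw : LinearIndependent F w := hw'.map' W.subtype W.ker_subtype
  obtain ⟨f, hf⟩ := hB.nd.exists_dual_family hw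
  let ij : Fin 6 → Fin 3 × Fin 3 := ![(0, 0), (1, 0), (1, 1), (2, 0), (2, 1), (2, 2)]
  let L : (Fin 3 → W) →ₗ[F] (Fin 6 → F) := LinearMap.pi fun t =>
    polarBilin Q (f (ij t).2) ∘ₗ W.subtype ∘ₗ LinearMap.proj (ij t).1
  have hL : 3 * finrank F W - 6 ≤ finrank F (LinearMap.ker L) := by
    have h1 := LinearMap.finrank_range_add_finrank_ker L
    have h2 := Submodule.finrank_le (LinearMap.range L)
    rw [Module.finrank_pi_fintype] at h1
    simp at h1 h2
    omega
  let g : (Fin 3 → W) → UR Q W := fun v => ⟨sg Q (w 0) (v 0) * sg Q (w 1) (v 1) * sg Q (w 2) (v 2),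
    mul_mem (mul_mem (sg_mem_UR hW (w' 0).2 (hW.le_perp (v 0).2))
      (sg_mem_UR hW (w' 1).2 (hW.le_perp (v 1).2))) (sg_mem_UR hW (w' 2).2 (hW.le_perp (v 2).2))⟩
  have hs : ∀ (a b : W) x, (sieg Q a b).1 x = x + polar Q b x • (a : V) - polar Q a x • (b : V) :=
    fun a b x => by rw [sieg_apply (hW _ a.2) (hW.polar a.2 b.2), hW _ b.2]; simp
  have hp : ∀ a b : W, polar Q (a : V) b = 0 := fun a b => hW.polar a.2 b.2
  have hg : ∀ v x, (g v).1.1.1 x = x + ∑ i, (polar Q (v i) x • w i - polar Q (w i) x • (v i : V)) :=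
    fun v x => by
      change (sieg Q (w' 0) (v 0)).1 ((sieg Q (w' 1) (v 1)).1 ((sieg Q (w' 2) (v 2)).1 x)) = _
      simp only [w, hs, polar_add_right,
        polar_sub_right, polar_sr, hp, Fin.sum_univ_three]
      module
  have hinj : Function.Injective (fun v : LinearMap.ker L => g v) := by
    intro v v' e
    rw [← sub_eq_zero]
    set d := v - v' with hd
    have h1 : ∀ x, ∑ i, (polar Q (d.1 i) x • w i - polar Q (w i) x • (d.1 i : V)) = 0 := fun x => by
      have := congrArg (fun y : UR Q W => y.1.1.1 x) e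
      simp only [hg, add_right_inj] at this
      rw [← sub_eq_zero, ← Finset.sum_sub_distrib] at this
      rw [← this]
      refine Finset.sum_congr rfl fun i _ => ?_
      simp only [hd, Submodule.coe_sub, Pi.sub_apply, polar_sub_left]
      module
    have h2 : ∀ j, (d.1 j : V) = ∑ i, polar Q (d.1 i) (f j) • w i := fun j => by
      have := h1 (f j)
      rw [Finset.sum_sub_distrib, sub_eq_zero] at this
      rw [this]
      simp [hf]
    have h3 : ∀ j l, polar Q (d.1 j) (f l) = polar Q (d.1 l) (f j) := fun j l => by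
      conv_lhs => rw [h2 j]
      fin_cases l <;> simp [Fin.sum_univ_three, polar_add_left, hf]
    have h4 : ∀ t, polar Q (d.1 (ij t).1) (f (ij t).2) = 0 := fun t => by
      rw [pcomm]; exact congrFun d.2 t
    have a0 := h4 0
    have a1 := h4 1
    have a2 := h4 2
    have a3 := h4 3
    have a4 := h4 4
    have a5 := h4 5
    simp only [ij, Matrix.cons_val] at a0 a1 a2 a3 a4 a5
    ext j
    rw [h2 j]
    fin_cases j <;> simp [Fin.sum_univ_three, a0, a1, a2, a3, a4, a5, h3 0 1, h3 0 2, h3 1 2]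
  refine le_trans ?_ (Nat.card_le_card_of_injective _ hinj)
  rw [Module.natCard_eq_pow_finrank (K := F) (V := LinearMap.ker L)]
  exact Nat.pow_le_pow_right Nat.card_pos hL

section big
variable [Finite F] [hB : Big Q]

omit hB in
lemma finite_OG [FiniteDimensional F V] : Finite (OG Q) := by
  have : Finite V := Module.finite_of_finite F
  have : Finite (V ≃ₗ[F] V) := Finite.of_injective (fun g : V ≃ₗ[F] V => (g : V → V))
    DFunLike.coe_injective
  infer_instance

/-- parametrisation of the root group -/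
noncomputable def bs (Q : QuadraticForm F V) [Big Q] (e f : V) (v : perp2 Q e f) : BS Q e :=
  ⟨pmk Q (sg Q e v), _, sg_mem_XS (mem_perp2.1 v.2).1, rfl⟩

omit [Finite F] in
lemma bs_add {e f : V} (he : Q e = 0) (v w : perp2 Q e f) :
    bs Q e f (v + w) = bs Q e f v * bs Q e f w := by
  apply Subtype.ext
  change pmk Q _ = pmk Q _ * pmk Q _
  rw [← _root_.map_mul]
  congr 1
  exact Subtype.ext (sieg_add he (mem_perp2.1 v.2).1 (mem_perp2.1 w.2).1)

lemma bs_bijective {e f : V} (he : Q e = 0) (hf : Q f = 0) (h : polar Q e f = 1) :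
    Function.Bijective (bs Q e f) := by
  have he0 : e ≠ 0 := by rintro rfl; simp at h
  constructor
  · intro v w hvw
    have h1 : bs Q e f (v - w) = 1 := by
      have := bs_add he (v - w) w
      rw [sub_add_cancel, hvw] at this
      simpa using this
    have h2 := (pmk_sg_eq_one_iff he he0 (mem_perp2.1 (v - w).2).1).1 (congrArg Subtype.val h1)
    obtain ⟨a, ha⟩ := Submodule.mem_span_singleton.1 h2
    have h3 := (mem_perp2.1 (v - w).2).2
    rw [← ha, polar_sr, pcomm, h, mul_one] at h3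
    rw [← sub_eq_zero]
    exact Subtype.ext (by rw [← ha, h3, zero_smul]; rfl)
  · rintro ⟨_, g, ⟨v, hv, e1⟩, rfl⟩
    have hm := proj_mem_perp2 he hf h v
    rw [hv, zero_smul, sub_zero] at hm
    refine ⟨⟨_, hm⟩, Subtype.ext (congrArg (pmk Q) (Subtype.ext ?_))⟩
    rw [e1, sg_coe]
    change sieg Q e (v - polar Q f v • e) = _
    rw [sub_eq_add_neg, ← neg_smul, sieg_add he hv (by rw [polar_sr, polar_self', he]; simp),
      sieg_smul_self he, mul_one]

lemma card_BS {u : V} (hu : Q u = 0) (hu0 : u ≠ 0) :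
    Nat.card (BS Q u) = Nat.card F ^ (finrank F V - 2) := by
  have := Big.fd Q
  obtain ⟨f, hf, h⟩ := hB.nd.exists_partner' hu hu0
  rw [← Nat.card_eq_of_bijective _ (bs_bijective hu hf h),
    Module.natCard_eq_pow_finrank (K := F), ← finrank_perp2 hB.nd hu h, Nat.add_sub_cancel]

/-- `O_p` of the stabiliser of a singular point. -/
lemma le_XS_of_normal {p : ℕ} [Fact p.Prime] [CharP F p] {u : V} (hu : Q u = 0) (hu0 : u ≠ 0)
    {L : Subgroup (Om Q)} (hL : IsPGroup p L) (h1 : ∀ g ∈ L, g.1.1 u ∈ F ∙ u)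
    (h2 : ∀ n : Om Q, n.1.1 u = u → ∀ g ∈ L, n * g * n⁻¹ ∈ L) : L ≤ XS Q u := by
  have := Big.fd Q
  have hn := hB.five
  have hQ := hB.nd
  have hfix : ∀ g ∈ L, g.1.1 u = u := by
    obtain ⟨x, hx, hx0, h⟩ := exists_fixed (Om Q).subtype hL (U := F ∙ u) (by simpa using hu0)
      (fun g hg x hx => by
        obtain ⟨a, rfl⟩ := Submodule.mem_span_singleton.1 hx
        rw [map_smul]
        exact Submodule.smul_mem _ _ (h1 g hg))
    obtain ⟨a, rfl⟩ := Submodule.mem_span_singleton.1 hx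
    intro g hg
    have := h g hg
    rw [map_smul] at this
    exact smul_right_injective V (by rintro rfl; simp at hx0) this
  let U : Submodule F V :=
    { carrier := {x | polar Q u x = 0 ∧ ∀ g ∈ L, g.1.1 x - x ∈ F ∙ u}
      zero_mem' := ⟨by simp, by simp⟩
      add_mem' := fun {a b} ha hb => ⟨by simp [ha.1, hb.1], fun g hg => by
        convert Submodule.add_mem _ (ha.2 g hg) (hb.2 g hg) using 1
        rw [map_add]; abel⟩
      smul_mem' := fun c x hx => ⟨by simp [hx.1], fun g hg => by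
        rw [map_smul, ← smul_sub]
        exact Submodule.smul_mem _ _ (hx.2 g hg)⟩ }
  have huU : (F ∙ u) ≤ U := (Submodule.span_singleton_le_iff_mem _ _).2
    ⟨by rw [polar_self', hu, mul_zero], fun g hg => by simp [hfix g hg]⟩
  have hlt : (F ∙ u) < U := by
    obtain ⟨v, hv, hvu⟩ := exists_perp_notMem hQ (U := F ∙ u)
      (by rw [finrank_span_singleton hu0]; omega)
    obtain ⟨x, hx, hx0, h⟩ := exists_fixed_mod (Om Q).subtype hL (D := F ∙ u) (U := perp Q (F ∙ u))
      (lt_of_le_of_ne (TS.span_singleton hu).le_perp fun h => hvu (h ▸ hv))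
      (fun g hg x hx => by
        obtain ⟨a, rfl⟩ := Submodule.mem_span_singleton.1 hx
        rw [map_smul]
        exact Submodule.smul_mem _ _ (h1 g hg))
      (fun g hg x hx => by
        rw [mem_perp_span_singleton] at hx ⊢
        rw [← hfix g hg]
        exact (OG.map_polar _ _ _).trans hx)
    exact lt_of_le_of_ne huU fun e => hx0 (e ▸ ⟨mem_perp_span_singleton.1 hx, h⟩)
  have hsing : ∀ w, Q w = 0 → polar Q u w = 0 → w ∈ U := fun w hw huw => by
    refine mem_of_sieg_inv hQ hw (by rw [finrank_span_singleton hu0]; omega) hlt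
      fun v hv hwv x hx => ?_
    rw [mem_perp_span_singleton] at hv
    have e1 : (sieg Q w v).1 u = u := by
      rw [sieg_apply_of_perp hw hwv (by rw [pcomm, huw]), pcomm, hv, zero_smul, add_zero]
    refine ⟨by rw [← e1, OG.map_polar, hx.1], fun g hg => ?_⟩
    have h3 := hx.2 _ (h2 (sg Q w v)⁻¹ (OG.inj (sieg Q w v) (by simp [e1])) g hg)
    obtain ⟨a, ha⟩ := Submodule.mem_span_singleton.1 h3
    have h4 := congrArg (sieg Q w v).1 ha
    rw [map_smul, e1] at h4
    refine Submodule.mem_span_singleton.2 ⟨a, ?_⟩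
    rw [h4]; simp
  intro g hg
  obtain ⟨f, hf, huf⟩ := hQ.exists_partner' hu hu0
  have hall : ∀ y : perp2 Q u f, (y : V) ∈ U :=
    sing_induction' (nd_perp2 hQ hu hf huf) (by have := finrank_perp2 hQ hu huf; omega)
      (fun y hy => hsing y hy (mem_perp2.1 y.2).1) (fun x y hx hy => U.add_mem hx hy)
  refine eq_sieg_of_triv hQ hu hu0 _ (hfix g hg) fun x hx => ?_
  have h5 := hall ⟨_, proj_mem_perp2 hu hf huf x⟩
  simp only [hx, zero_smul, sub_zero] at h5
  have h6 := U.add_mem h5 (huU (Submodule.smul_mem _ (polar Q f x)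
    (Submodule.mem_span_singleton_self u)))
  rw [sub_add_cancel] at h6
  exact h6.2 g hg

lemma sylow_fix {p : ℕ} [Fact p.Prime] [CharP F p] {u : V} (hu : Q u = 0) (hu0 : u ≠ 0)
    {S : Subgroup (Om Q)} (hS : IsPGroup p S) (h : XS Q u ≤ S) : ∀ g ∈ S, g.1.1 u = u := by
  have := Big.fd Q
  have := Big.nontrivial Q
  have hn := hB.five
  obtain ⟨x, -, hx0, h'⟩ := exists_fixed (Om Q).subtype hS (U := ⊤) top_ne_bot (by simp)
  obtain ⟨a, rfl⟩ := Submodule.mem_span_singleton.1 (mem_span_of_fixed hB.nd (by omega) hu hu0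
    fun v hv => h' _ (h (sg_mem_XS hv)))
  intro g hg
  have := h' g hg
  rw [map_smul] at this
  exact smul_right_injective V (by rintro rfl; simp at hx0) this

lemma exists_XS_le_sylow {p : ℕ} [Fact p.Prime] [CharP F p] (S : Sylow p (Om Q)) :
    ∃ u, Q u = 0 ∧ u ≠ 0 ∧ XS Q u ≤ S := by
  have := Big.fd Q
  have := finite_OG (Q := Q)
  have hn := hB.five
  obtain ⟨u, hu0, hu⟩ := exists_sing (Q := Q) (by omega)
  obtain ⟨S', hS'⟩ := (XS_isPGroup (Q := Q) p u).exists_le_sylow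
  obtain ⟨g, rfl⟩ := MulAction.exists_smul_eq (Om Q) S' S
  refine ⟨g.1.1 u, by simp [hu], by simpa [OG.eq_zero_iff] using hu0, ?_⟩
  rintro x ⟨v, hv, e⟩
  rw [Sylow.coe_subgroup_smul, Subgroup.mem_pointwise_smul_iff_inv_smul_mem]
  refine hS' ⟨(g.1⁻¹).1 v, by rw [← OG.polar_inv, hv], ?_⟩
  change (g.1)⁻¹ * x.1 * g.1 = _
  have := sieg_conj (g.1)⁻¹ (g.1.1 u) v
  rw [inv_inv, OG.inv_apply_self] at this
  rw [e, this]

end big

end CfsgH8
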