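/-
Abstract Chevalley groups: rank one formulas, parabolic matrices, the opposite structure.
-/
import Cfsg.Agent.H7.Tor1

set_option autoImplicit false
set_option linter.unusedSectionVars false

namespace CfsgH8

open Matrix CfsgH7

/-- block triangular matrices with respect to a grading -/
def PT {ι F : Type*} [Fintype ι] [DecidableEq ι] [Field F] (g : ι → ℤ) : Subgroup (GL ι F) where
  carrier := {M | (∀ i j, g i < g j → (M : Matrix ι ι F) i j = 0) ∧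
    ∀ i j, g i < g j → ((M⁻¹ : GL ι F) : Matrix ι ι F) i j = 0}
  one_mem' := ⟨fun i j h => one_apply_ne (by rintro rfl; omega), fun i j h => by
    rw [inv_one]; exact one_apply_ne (by rintro rfl; omega)⟩
  inv_mem' := fun h => ⟨h.2, by simpa using h.1⟩
  mul_mem' := by
    have key : ∀ M N : Matrix ι ι F, (∀ i j, g i < g j → M i j = 0) →
        (∀ i j, g i < g j → N i j = 0) → ∀ i j, g i < g j → (M * N) i j = 0 := by
      intro M N hM hN i j hij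
      rw [mul_apply]
      refine Finset.sum_eq_zero fun k _ => ?_
      by_cases h : g i < g k
      · rw [hM i k h, zero_mul]
      · rw [hN k j (by omega), mul_zero]
    intro a b ha hb
    exact ⟨by simpa using key _ _ ha.1 hb.1, by
      rw [_root_.mul_inv_rev, Units.val_mul]; exact key _ _ hb.2 ha.2⟩

namespace Chev

variable {ι R l F : Type*} [Fintype ι] [DecidableEq ι] [Fintype l] [DecidableEq l] [Field F]
  (C : Chev ι R l F)

theorem pw_mul (c d : Fˣ) (a : (l → ℤ) →+ ℤ) : pw (c * d) a = pw c a * pw d a :=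
  ch_ext fun j => by rw [cv_mul, cv_pw, cv_pw, cv_pw, Units.val_mul, mul_zpow]

theorem pw_one (a : (l → ℤ) →+ ℤ) : pw (1 : Fˣ) a = 1 :=
  ch_ext fun j => by rw [cv_pw, cv_one, Units.val_one, _root_.one_zpow]

theorem pw_neg_inv (a : (l → ℤ) →+ ℤ) : (pw (-1 : Fˣ) a)⁻¹ = pw (-1) a :=
  ch_ext fun j => by
    rw [cv_inv, cv_pw, ← _root_.inv_zpow, Units.val_neg, Units.val_one, inv_neg, inv_one]

theorem cv_A_p (c : Fˣ) (i : l) : cv (pw c (C.A i)) (C.rt (C.p i)) = (c : F) ^ 2 := by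
  rw [cv_pw, C.rt_p, C.A_p]; exact zpow_ofNat _ 2

theorem x_mem_PT {g : (l → ℤ) →+ ℤ} {r : R} (hr : 0 ≤ g (C.rt r)) (t : F) :
    C.x r t ∈ PT fun i => g (C.wt i) := by
  have key : ∀ t i j, g (C.wt i) < g (C.wt j) → (C.x r t : Matrix ι ι F) i j = 0 := by
    intro t i j hij
    rw [C.x_ent, one_apply_ne (by rintro rfl; omega), zero_add]
    refine List.sum_eq_zero fun y hy => ?_
    obtain ⟨km, hkm, rfl⟩ := List.mem_map.1 hy
    obtain ⟨h1, h2⟩ := C.ent_wt r i j km hkm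
    rw [h2, map_add, map_nsmul, nsmul_eq_mul] at hij
    have : (0 : ℤ) ≤ km.1 := by positivity
    nlinarith
  exact ⟨key t, by rw [← x_neg]; exact key _⟩

theorem hh_mem_PT (g : ι → ℤ) (χ : Ch l F) : C.hh χ ∈ PT g := by
  have key : ∀ χ i j, g i < g j → (C.hh χ : Matrix ι ι F) i j = 0 := fun χ i j h => by
    rw [hh_val, diagonal_apply_ne _ (by rintro rfl; omega)]
  exact ⟨key χ, by rw [← hh_inv]; exact key _⟩

theorem eq_one_of_PT {g : (l → ℤ) →+ ℤ} {y : GL ι F} (h1 : y ∈ PT fun i => g (C.wt i))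
    (h2 : y ∈ C.U (-g) 1) : y = 1 := by
  have h3 := (C.U_le_UT (-g) one_pos h2).1
  ext i j
  by_cases h : g (C.wt i) < g (C.wt j)
  · rw [h1.1 i j h, Units.val_one, one_apply_ne (by rintro rfl; omega)]
  · exact h3 i j (by simp only [AddMonoidHom.neg_apply]; omega)

theorem U_le_PT {g : (l → ℤ) →+ ℤ} {S : Set R} (h : ∀ r ∈ S, 0 ≤ g (C.rt r)) :
    C.Xs S ≤ PT fun i => g (C.wt i) := C.Xs_le fun r hr t => C.x_mem_PT (h r hr) t

theorem le_of_mem_U {g : (l → ℤ) →+ ℤ} {c : ℤ} (hc : 0 < c) {r : R} {t : F} (ht : t ≠ 0)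
    (h : C.x r t ∈ C.U g c) : c ≤ g (C.rt r) := by
  by_contra h'
  refine ht (C.co_cancel r fun i => ?_)
  have := (C.U_le_UT g hc h).1 (C.hb i) (C.e (C.neg r)) (by
    simp only [C.wt_hb, C.wt_e, C.rt_neg, map_zero, map_neg]; omega)
  rw [C.x_co, one_apply_ne (C.hb_ne_e _ _)] at this
  rw [this, mul_zero]

theorem x_eq_one {r : R} {t : F} (h : C.x r t = 1) : t = 0 := by
  by_contra ht
  have h1 := C.le_of_mem_U (g := C.f) one_pos ht (h ▸ one_mem _)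
  have h2 := C.le_of_mem_U (g := -C.f) one_pos ht (h ▸ one_mem _)
  simp only [AddMonoidHom.neg_apply] at h2
  omega

theorem root_eq {r s : R} {t u : F} (ht : t ≠ 0) (h : C.x r t = C.x s u) : r = s := by
  have hu : u ≠ 0 := by rintro rfl; rw [x_zero] at h; exact ht (C.x_eq_one h)
  refine C.f_inj _ _ ?_
  rcases (C.f_ne s).lt_or_gt with h0 | h0
  · have h1 := C.le_of_mem_U (g := -C.f) (c := -C.f (C.rt s)) (by omega) ht
      (h ▸ C.x_mem_U le_rfl u)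
    simp only [AddMonoidHom.neg_apply] at h1
    have h2 := C.le_of_mem_U (g := -C.f) (c := -C.f (C.rt r)) (by omega) hu
      (h ▸ C.x_mem_U le_rfl t)
    simp only [AddMonoidHom.neg_apply] at h2
    omega
  · have h1 := C.le_of_mem_U h0 ht (h ▸ C.x_mem_U le_rfl u)
    have h2 := C.le_of_mem_U (c := C.f (C.rt r)) (by omega) hu (h ▸ C.x_mem_U le_rfl t)
    omega

theorem U_norm {g : (l → ℤ) →+ ℤ} {c : ℤ} (hc : 0 < c) {S : Set R} (hS : ∀ r ∈ S, 0 ≤ g (C.rt r))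
    {u : GL ι F} (hu : u ∈ C.Xs S) : u ∈ Subgroup.normalizer (C.U g c : Set (GL ι F)) :=
  C.Xs_le (fun r hr t => Subgroup.mem_normalizer_iff.2 fun v => ⟨C.x_conj_U hc (hS r hr) t,
    fun h => by simpa [x_neg, mul_assoc] using C.x_conj_U hc (hS r hr) (-t) h⟩) hu

theorem rt_nonneg {r : R} (h : 0 < C.f (C.rt r)) : 0 ≤ C.rt r :=
  (C.sgn r).resolve_right fun h2 => by
    have := C.f_nonneg (v := -C.rt r) (by simpa using h2)
    rw [map_neg] at this; omega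

theorem dom_nonneg {g : (l → ℤ) →+ ℤ} (hg : ∀ i, 0 ≤ g (Pi.single i 1)) {v : l → ℤ} (h : 0 ≤ v) :
    0 ≤ g v := by
  rw [← Finset.univ_sum_single v, map_sum]
  refine Finset.sum_nonneg fun j _ => ?_
  rw [show (Pi.single j (v j) : l → ℤ) = v j • Pi.single j 1 by
    rw [← Pi.single_smul, smul_eq_mul, mul_one], map_zsmul]
  exact mul_nonneg (h j) (hg j)

theorem pos_of_dom {g : (l → ℤ) →+ ℤ} (hg : ∀ i, 0 ≤ g (Pi.single i 1)) {r : R}
    (h : 0 < g (C.rt r)) : 0 < C.f (C.rt r) := by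
  rcases (C.f_ne r).lt_or_gt with h0 | h0
  · have := dom_nonneg hg (C.rt_nonneg (r := C.neg r) (by rw [f_neg]; omega))
    rw [C.rt_neg, map_neg] at this; omega
  · exact h0

theorem x_np_eq (i : l) (t : Fˣ) : C.x (C.neg (C.p i)) t =
    C.x (C.p i) (t : F)⁻¹ * (C.hh (pw (-t⁻¹) (C.A i)) * C.n i) * C.x (C.p i) (t : F)⁻¹ := by
  have h1 := C.nn_eq i (-t⁻¹)
  simp only [Units.val_neg, Units.val_inv_eq_inv_val, inv_neg, inv_inv, neg_neg, x_neg] at h1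
  rw [← h1]; group

theorem mem_Xs_list {S : Set R} {g : GL ι F} (hg : g ∈ C.Xs S) :
    ∃ L : List (R × F), (∀ kv ∈ L, kv.1 ∈ S) ∧ g = (L.map fun kv => C.x kv.1 kv.2).prod := by
  induction hg using Subgroup.closure_induction_left with
  | one => exact ⟨[], by simp, by simp⟩
  | mul_left x hx y _ ih =>
    obtain ⟨r, hr, t, rfl⟩ := hx
    obtain ⟨L, h1, rfl⟩ := ih
    exact ⟨(r, t) :: L, by simpa [hr] using h1, by simp⟩
  | inv_mul_cancel x hx y _ ih =>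
    obtain ⟨r, hr, t, rfl⟩ := hx
    obtain ⟨L, h1, rfl⟩ := ih
    exact ⟨(r, -t) :: L, by simpa [hr] using h1, by simp [x_neg]⟩

theorem pow_mem_U [Finite R] (r : ℕ) [CharP F r] {u : GL ι F} (hu : u ∈ C.U C.f 1) :
    ∃ k, u ^ r ^ k = 1 := by
  refine C.level_ind C.f 1 (fun c => ∀ u ∈ C.U C.f c, ∃ k, u ^ r ^ k = 1)
    (fun c e u hu => ⟨0, by rw [e, Subgroup.mem_bot] at hu; simp [hu]⟩) (fun c hc ih u hu => ?_) u hu
  by_cases hr : ∃ s, C.f (C.rt s) = c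
  swap
  · refine ih u (C.Xs_mono (fun s hs => ?_) hu)
    have : c ≤ C.f (C.rt s) := hs
    exact lt_of_le_of_ne this fun e => hr ⟨s, e.symm⟩
  obtain ⟨s, rfl⟩ := hr
  obtain ⟨t, u', hu', rfl⟩ := C.split_one hc rfl (fun s hs => C.f_inj _ _ hs) hu
  have key : ∀ n : ℕ, ∃ v ∈ C.U C.f (C.f (C.rt s) + 1), (C.x s t * u') ^ n = C.x s (n * t) * v := by
    intro n
    induction n with
    | zero => exact ⟨1, one_mem _, by simp [x_zero]⟩
    | succ n ih =>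
      obtain ⟨v, hv, e⟩ := ih
      refine ⟨_, mul_mem (C.x_conj_U (by omega) (r := s) (by omega) (-t) hv) hu', ?_⟩
      rw [pow_succ, e, Nat.cast_succ, add_mul, one_mul, C.x_add, x_neg]; group
  obtain ⟨v, hv, e⟩ := key r
  obtain ⟨k, hk⟩ := ih v hv
  exact ⟨k + 1, by rw [pow_succ', pow_mul, e, CharP.cast_eq_zero, zero_mul, x_zero, one_mul, hk]⟩

variable {C} (hE : C.Extra)
include hE

theorem Extra.n_both (i : l) (t : F) :
    C.n i * C.x (C.p i) t * (C.n i)⁻¹ = C.x (C.neg (C.p i)) (-t) ∧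
      C.n i * C.x (C.neg (C.p i)) t * (C.n i)⁻¹ = C.x (C.p i) (-t) := by
  obtain ⟨η, e1, e2, e3⟩ := hE.eta i (C.p i)
  rw [w_p] at e2 e3
  rw [neg_neg'] at e3
  have hη : η ≠ 0 := by rintro rfl; simp at e1
  have hi : η⁻¹ = η := inv_eq_of_mul_eq_one_right e1
  have h1 : C.n i = C.x (C.neg (C.p i)) (η * 1) * C.x (C.p i) (η * -1) *
      C.x (C.neg (C.p i)) (η * 1) := by
    rw [← e2, ← e3]
    conv_lhs => rw [← mul_inv_cancel_right (C.n i) (C.n i)]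
    nth_rewrite 2 [n]
    group
  have h2 := C.x_np_eq i (Units.mk0 η hη)
  generalize pw (-(Units.mk0 η hη)⁻¹) (C.A i) = χ at h2
  rw [Units.val_mk0, hi] at h2
  rw [mul_one, mul_neg_one, x_neg] at h1
  nth_rewrite 1 [h2] at h1
  have h3 : C.x (C.p i) η * (C.hh χ * C.x (C.p i) (η * η) * (C.hh χ)⁻¹) * C.hh χ * 1 =
      1 * C.hh 1 * 1 := by
    rw [← e3, _root_.map_one, mul_one, mul_one, mul_one, ← mul_left_inj (C.n i), one_mul]
    conv_rhs => rw [h1]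
    group
  have h4 := C.udl_unique (mul_mem (C.x_p_mem i _) (C.hh_conj_mem χ (C.x_p_mem i _))) (one_mem _)
    (one_mem _) (one_mem _) h3
  have h5 := h4.1
  rw [h4.2.1, _root_.map_one, one_mul, inv_one, mul_one, ← C.x_add, e1] at h5
  obtain rfl : η = -1 := eq_neg_of_add_eq_zero_left (C.x_eq_one h5)
  rw [e2, e3, neg_one_mul]
  exact ⟨rfl, rfl⟩

theorem Extra.n_opp (i : l) :
    C.x (C.neg (C.p i)) 1 * C.x (C.p i) (-1) * C.x (C.neg (C.p i)) 1 = (C.n i)⁻¹ := by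
  have h1 := (hE.n_both i (-1)).1
  have h2 := (hE.n_both i 1).2
  rw [neg_neg] at h1
  have : (C.n i)⁻¹ = C.x (C.p i) (-1) * C.x (C.neg (C.p i)) 1 * C.x (C.p i) (-1) := by
    rw [n]; simp [x_neg, mul_assoc]
  calc _ = C.n i * C.x (C.p i) (-1) * (C.n i)⁻¹ * (C.n i * C.x (C.neg (C.p i)) 1 * (C.n i)⁻¹) *
        (C.n i * C.x (C.p i) (-1) * (C.n i)⁻¹) := by rw [h1, h2]
    _ = C.n i * (C.x (C.p i) (-1) * C.x (C.neg (C.p i)) 1 * C.x (C.p i) (-1)) * (C.n i)⁻¹ := by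
        simp only [mul_assoc, inv_mul_cancel_left]
    _ = _ := by rw [← this]; group

theorem Extra.sl2 (i : l) (t a : F) (c : Fˣ) (hc : (1 + t * a) * c = 1) : ∃ a' b',
    C.x (C.neg (C.p i)) t * C.x (C.p i) a =
      C.x (C.p i) a' * C.hh (pw c (C.A i)) * C.x (C.neg (C.p i)) b' := by
  by_cases ht : t = 0
  · obtain rfl : c = 1 := Units.ext (by simpa [ht] using hc)
    exact ⟨a, 0, by simp [ht, x_zero, pw_one]⟩
  obtain ⟨t, rfl⟩ : ∃ s : Fˣ, s = t := ⟨Units.mk0 t ht, rfl⟩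
  have e0 : (t : F)⁻¹ + a = ((c * t)⁻¹ : Fˣ) := by
    rw [Units.val_inv_eq_inv_val, Units.val_mul]
    refine eq_inv_of_mul_eq_one_left ?_
    rw [← hc]; field_simp
  have h1 := C.x_np_eq i t
  have h2 := C.x_np_eq i (-(c * t)⁻¹)
  have h3 := (hE.n_both i ((c * t)⁻¹ : Fˣ)).1
  have h4 := (hE.n_both i ((-(c * t)⁻¹ : Fˣ) : F)⁻¹).1
  have h5 := C.n_n i
  have h6 : pw c (C.A i) = pw (-t⁻¹) (C.A i) * pw (-(-(c * t)⁻¹)⁻¹) (C.A i) * pw (-1) (C.A i) := by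
    rw [← pw_mul, ← pw_mul]; congr 1; simp [mul_comm c t]
  rw [pw_neg_inv] at h5
  rw [← Units.val_neg, h2] at h3
  generalize ((-(c * t)⁻¹ : Fˣ) : F)⁻¹ = d at *
  refine ⟨(t : F)⁻¹ + cv (pw (-t⁻¹) (C.A i)) (C.rt (C.p i)) * d,
    (cv (pw (-1) (C.A i)) (C.rt (C.neg (C.p i))))⁻¹ * -d, ?_⟩
  rw [h6, _root_.map_mul, _root_.map_mul, mul_assoc, mul_assoc _ (C.hh (pw (-1) _)), ← x_hh, ← h5,
    ← h4, h1, mul_assoc, ← C.x_add, e0, C.x_add, ← hh_conj, mul_assoc (C.x _ _), mul_assoc (C.hh _),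
    mul_inv_eq_iff_eq_mul.1 h3]
  simp only [mul_assoc, inv_mul_cancel_left]

theorem Extra.reduce [Finite R] {T : Set R} (hT : ∀ r ∈ T, ∀ i, C.p i ∉ T → C.w i r ∈ T)
    (L : List l) (h : ∀ r ∈ T, 0 < C.f (C.rt (C.wr L r))) :
    ∃ χ L', C.nw L = C.hh χ * C.nw L' ∧ ∀ i ∈ L', C.p i ∉ T := by
  induction hn : L.length using Nat.strong_induction_on generalizing L with
  | _ n ih =>
  by_cases h1 : ∀ i, 0 < C.f (C.rt (C.wr L (C.p i)))
  · obtain ⟨χ, e⟩ := hE.mem_H L h1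
    exact ⟨χ, [], by rw [e]; simp [nw], by simp⟩
  push Not at h1
  obtain ⟨i, hi⟩ := h1
  have hi' : C.p i ∉ T := fun e => absurd (h _ e) (by omega)
  obtain ⟨L', χ, e1, e2, e3⟩ := hE.exchange L i (lt_of_le_of_ne hi (C.f_ne _))
  obtain ⟨χ', L'', e4, e5⟩ := ih L'.length (by omega) L' (fun r hr => by
    rw [e3]; exact h _ (hT r hr i hi')) rfl
  obtain ⟨ψ, e6⟩ := C.nw_hh L'' (pw (-1) (C.A i))
  refine ⟨χ * χ' * ψ, L'' ++ [i], ?_, fun j hj => ?_⟩
  · rw [eq_mul_inv_of_mul_eq e2, e4, n_inv, nw_append, _root_.map_mul, _root_.map_mul,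
      mul_assoc _ (C.hh ψ), ← mul_assoc (C.hh ψ), ← e6]
    simp [nw, mul_assoc]
  · rcases List.mem_append.1 hj with h | h
    exacts [e5 j h, List.mem_singleton.1 h ▸ hi']

omit hE in
theorem nw_mem {S : Set R} {L : List l} (h : ∀ i ∈ L, C.p i ∈ S ∧ C.neg (C.p i) ∈ S) :
    C.nw L ∈ C.Xs S :=
  Subgroup.list_prod_mem _ fun x hx => by
    obtain ⟨i, hi, rfl⟩ := List.mem_map.1 hx
    exact mul_mem (mul_mem (C.x_mem (h i hi).1 _) (C.x_mem (h i hi).2 _)) (C.x_mem (h i hi).1 _)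

theorem Extra.pos_of_mem {m : GL ι F} {a : (l → ℤ) →+ (l → ℤ)} {π : R → R} (h : C.Acts m a π)
    {r : R} (hr : m * C.x r 1 * m⁻¹ ∈ C.U C.f 1) : 0 < C.f (C.rt (π r)) := by
  obtain ⟨η, e1, e2, -⟩ := h.conj r
  rw [e2] at hr
  exact C.le_of_mem_U one_pos (by rintro e; rw [mul_one] at e; simp [e] at e1) hr

theorem Extra.NP [Finite R] {g : (l → ℤ) →+ ℤ} (hg : ∀ i, 0 ≤ g (Pi.single i 1)) {y : GL ι F}
    (hy : y ∈ C.U (-g) 1) (h : ∀ v ∈ C.U g 1, y * v * y⁻¹ ∈ C.U C.f 1) : y = 1 := by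
  obtain ⟨u, hu, χ, L, v, hv, rfl⟩ := hE.bruhat (C.Xs_mono (Set.subset_univ _) hy)
  have hp : ∀ r ∈ {r | 1 ≤ C.f (C.rt r)}, 0 ≤ g (C.rt r) :=
    fun r hr => dom_nonneg hg (C.rt_nonneg hr)
  obtain ⟨χ', L', e1, e2⟩ := hE.reduce (T := {r | 1 ≤ g (C.rt r)}) (fun r hr i hi => by
    have h1 := hg i
    have h2 : ¬1 ≤ g (C.rt (C.p i)) := hi
    rw [C.rt_p] at h2
    change 1 ≤ g _
    rw [C.rt_w, map_sub, map_zsmul, show g (Pi.single i 1) = 0 by omega, smul_zero, sub_zero]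
    exact hr) L (fun r hr => hE.pos_of_mem (hE.acts_nw L) (by
      have h1 := h _ ((Subgroup.mem_normalizer_iff''.1 (C.U_norm one_pos hp hv) _).1
        (C.x_mem_U hr 1))
      have h2 : _ ∈ C.U C.f 1 := C.hh_conj_mem χ⁻¹ (mul_mem (mul_mem (inv_mem hu) h1) hu)
      convert h2 using 1
      rw [hh_inv]; group))
  refine C.eq_one_of_PT (mul_mem (mul_mem (mul_mem (C.U_le_PT hp hu) (C.hh_mem_PT _ _)) ?_)
    (C.U_le_PT hp hv)) hy
  rw [e1]
  refine mul_mem (C.hh_mem_PT _ _) (C.U_le_PT (S := {r | g (C.rt r) = 0}) (fun r hr => hr.ge)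
    (nw_mem fun i hi => ?_))
  have h1 := hg i
  have h2 : ¬1 ≤ g (C.rt (C.p i)) := e2 i hi
  rw [C.rt_p] at h2
  simp only [Set.mem_ofPred_eq, C.rt_neg, C.rt_p, map_neg]
  omega

/-- the opposite structure -/
def Extra.opp : Chev ι R l F where
  wt i := -C.wt i
  rt := C.rt
  x r := C.x (C.neg r)
  ent r := C.ent (C.neg r)
  neg := C.neg
  p := C.p
  A := C.A
  w := C.w
  hb := C.hb
  e r := C.e (C.neg r)
  co r := C.co (C.neg r)
  f := C.f
  dep := C.dep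
  rep := C.rep
  x_ent r := C.x_ent _
  ent_wt r i j km h := ⟨(C.ent_wt _ i j km h).1, by
    rw [(C.ent_wt _ i j km h).2, C.rt_neg, smul_neg]; abel⟩
  x_add r := C.x_add _
  rt_neg := C.rt_neg
  rt_p := C.rt_p
  A_p := C.A_p
  rt_w := C.rt_w
  n_wt i a b h := by
    rw [neg_neg', hE.n_opp, n_inv, Units.val_mul, hh_val, diagonal_mul] at h
    rw [C.n_wt i a b (right_ne_zero_of_mul h), map_neg, neg_smul]; abel
  n_x i s := by
    obtain ⟨η, e1, e2⟩ := C.n_conj' i (C.neg s)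
    refine ⟨η, e1, fun t => ?_⟩
    rw [neg_neg', hE.n_opp, ← w_neg, ← e2]; group
  comm i _ s h1 h2 t u := by
    obtain ⟨L, h3, h4⟩ := C.mem_Xs_list (C.comm_all (C.neg (C.p i)) (C.neg s)
      (fun e => h1 (by rw [← C.neg_neg' s, e, neg_neg']))
      (fun e => h2 (by rw [← C.neg_neg' s, e, neg_neg'])) t u)
    refine ⟨L.map fun kv => (C.neg kv.1, kv.2), fun kv hkv => ?_, ?_⟩
    · obtain ⟨kv, h5, rfl⟩ := List.mem_map.1 hkv
      obtain ⟨a, b, ha, hb, e⟩ := h3 kv h5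
      exact ⟨a, b, ha, hb, by rw [C.rt_neg, e, C.rt_neg, C.rt_neg, smul_neg, smul_neg]; abel⟩
    · simp only [List.map_map, Function.comp_def, neg_neg']
      rw [← h4]; group
  desc := C.desc
  f_inj := C.f_inj
  f_pos := C.f_pos
  sgn := C.sgn
  red := C.red
  wt_e r := by rw [C.wt_e, C.rt_neg, neg_neg]
  wt_hb i := by rw [C.wt_hb, neg_zero]
  x_co r t i := C.x_co _ t i
  co_gcd r := C.co_gcd _

theorem Extra.opp_n (i : l) : hE.opp.n i = (C.n i)⁻¹ := by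
  rw [← hE.n_opp]; exact congrArg (fun r => C.x _ 1 * C.x r (-1) * C.x _ 1) (C.neg_neg' _)

theorem Extra.opp_extra : hE.opp.Extra where
  mult k s h := hE.mult k _ (by rw [C.rt_neg]; exact neg_eq_iff_eq_neg.1 h)
  eta i s := by
    obtain ⟨η, e1, e2, e3⟩ := hE.eta i (C.neg (C.w i s))
    rw [← w_neg, w_w] at e2 e3
    rw [w_neg] at e2
    have key : ∀ a b : F → GL ι F, (∀ t, C.n i * a t * (C.n i)⁻¹ = b (η * t)) →
        ∀ t, (C.n i)⁻¹ * b t * (C.n i)⁻¹⁻¹ = a (η * t) := fun a b h t => by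
      have := h (η * t)
      rw [← mul_assoc η, e1, one_mul] at this
      rw [← this]; group
    rw [hE.opp_n]
    refine ⟨η, e1, key _ _ e2, key _ _ ?_⟩
    rw [w_neg] at e3
    exact e3

theorem Extra.opp_hh (χ : Ch l F) : hE.opp.hh χ = C.hh χ⁻¹ := by
  ext i j
  rw [hh_val, hh_val]
  congr 2
  funext k
  exact (cv_neg _ _).trans (cv_inv _ _).symm

theorem Extra.opp_Xs (S : Set R) : hE.opp.Xs S = C.Xs (C.neg ⁻¹' S) :=
  le_antisymm (hE.opp.Xs_le fun r hr t => C.x_mem (S := C.neg ⁻¹' S) (by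
    rwa [Set.mem_preimage, neg_neg']) t) (C.Xs_le fun r hr t => by
      have := hE.opp.x_mem (S := S) (r := C.neg r) hr t
      rwa [show hE.opp.x (C.neg r) t = C.x r t from congrArg (C.x · t) (C.neg_neg' r)] at this)

theorem Extra.opp_GG : GG hE.opp = GG C := by
  ext g
  constructor
  · rintro ⟨x, hx, χ, rfl⟩
    rw [hE.opp_Xs] at hx
    exact ⟨x, hx, _, by rw [hE.opp_hh]⟩
  · rintro ⟨x, hx, χ, rfl⟩
    exact ⟨x, by rw [hE.opp_Xs]; exact hx, χ⁻¹, by rw [hE.opp_hh, hh_inv, hh_inv, inv_inv]⟩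

end Chev

end CfsgH8
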