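/-
Abstract Chevalley groups inside their automorphism groups.
-/
import Cfsg.Agent.H8.CA1

set_option autoImplicit false
set_option linter.unusedSectionVars false
set_option linter.unusedSimpArgs false

namespace CfsgH8

open CfsgH7 Chev Subgroup

variable {ι R l F : Type*} [Fintype ι] [DecidableEq ι] [Fintype l] [DecidableEq l] [Field F]

/-- an embedding of the inner-diagonal group in a group acting faithfully on the Chevalley group -/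
structure Emb (C : Chev ι R l F) (A : Type*) [Group A] where
  Ψ : GG C →* A
  inj : Function.Injective Ψ
  nrm : ∀ (a : A) (g : GG C), g.1 ∈ C.Xs Set.univ →
    ∃ g' : GG C, g'.1 ∈ C.Xs Set.univ ∧ Ψ g' = a * Ψ g * a⁻¹
  cent : ∀ a : A, (∀ g : GG C, g.1 ∈ C.Xs Set.univ → a * Ψ g * a⁻¹ = Ψ g) → a = 1
  hE : C.Extra

namespace Emb

variable {C : Chev ι R l F} {A : Type*} [Group A] (E : Emb C A)

theorem xG (r : R) (t : F) : C.x r t ∈ GG C := Xs_le_GG C (C.x_mem (Set.mem_univ r) t)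

theorem XsG {S : Set R} {g : GL ι F} (h : g ∈ C.Xs S) : g ∈ GG C :=
  Xs_le_GG C (C.Xs_mono (Set.subset_univ _) h)

/-- root elements -/
def X (r : R) (t : F) : A := E.Ψ ⟨C.x r t, xG r t⟩

/-- the torus -/
def D : Ch l F →* A := E.Ψ.comp (C.hh.codRestrict _ (hh_mem_GG C))

/-- simple reflections -/
def n (i : l) : A := E.X (C.p i) 1 * E.X (C.neg (C.p i)) (-1) * E.X (C.p i) 1

/-- words -/
def nw (L : List l) : A := (L.map E.n).prod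

/-- groups generated by root groups -/
def Xs (S : Set R) : Subgroup A := ((C.Xs S).subgroupOf (GG C)).map E.Ψ

/-- unipotent groups -/
def U (g : (l → ℤ) →+ ℤ) (c : ℤ) : Subgroup A := E.Xs {r | c ≤ g (C.rt r)}

/-- the Chevalley group -/
abbrev K : Subgroup A := E.Xs Set.univ

/-- positive unipotent group -/
abbrev Up : Subgroup A := E.U C.f 1

/-- negative unipotent group -/
abbrev Um : Subgroup A := E.U (-C.f) 1

theorem D_eq (χ : Ch l F) : E.D χ = E.Ψ ⟨C.hh χ, hh_mem_GG C χ⟩ := rfl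

theorem n_eq (i : l) : E.n i = E.Ψ ⟨C.n i, mul_mem (mul_mem (xG _ _) (xG _ _)) (xG _ _)⟩ := by
  rw [n, X, X, ← _root_.map_mul, ← _root_.map_mul]; rfl

theorem nw_nil : E.nw [] = 1 := rfl

theorem nw_cons (i : l) (L : List l) : E.nw (i :: L) = E.n i * E.nw L := rfl

theorem nw_append (L L' : List l) : E.nw (L ++ L') = E.nw L * E.nw L' := by simp [nw]

theorem nw_eq (L : List l) : E.nw L = E.Ψ ⟨C.nw L, nw_mem_GG C L⟩ := by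
  induction L with
  | nil => exact (_root_.map_one E.Ψ).symm
  | cons i L ih => rw [nw_cons, ih, n_eq, ← _root_.map_mul]; rfl

theorem mem_Xs {S : Set R} {g : GG C} : E.Ψ g ∈ E.Xs S ↔ g.1 ∈ C.Xs S :=
  ⟨fun ⟨_, h, e⟩ => E.inj e ▸ h, fun h => ⟨g, h, rfl⟩⟩

theorem mem_U {g : (l → ℤ) →+ ℤ} {c : ℤ} {a : GG C} : E.Ψ a ∈ E.U g c ↔ a.1 ∈ C.U g c := E.mem_Xs

theorem Ψ_eq {a b : GG C} : E.Ψ a = E.Ψ b ↔ a.1 = b.1 := E.inj.eq_iff.trans Subtype.ext_iff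

theorem X_add (r : R) (t u : F) : E.X r (t + u) = E.X r t * E.X r u := by
  simp only [X, D_eq, n_eq, nw_eq, ← _root_.map_mul, ← map_inv, ← map_pow, Ψ_eq, mem_Xs, mem_U]
  exact C.x_add r t u

theorem X_zero (r : R) : E.X r 0 = 1 := by
  have := E.X_add r 0 0
  rw [add_zero] at this
  exact (mul_eq_left.1 this.symm)

theorem X_neg (r : R) (t : F) : E.X r (-t) = (E.X r t)⁻¹ := by
  rw [eq_inv_iff_mul_eq_one, ← E.X_add, neg_add_cancel, E.X_zero]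

theorem X_mem {S : Set R} {r : R} (h : r ∈ S) (t : F) : E.X r t ∈ E.Xs S := by
  simp only [X, D_eq, n_eq, nw_eq, ← _root_.map_mul, ← map_inv, ← map_pow, Ψ_eq, mem_Xs, mem_U]
  exact C.x_mem h t

theorem X_mem_U {g : (l → ℤ) →+ ℤ} {c : ℤ} {r : R} (h : c ≤ g (C.rt r)) (t : F) :
    E.X r t ∈ E.U g c := E.X_mem (S := {r | c ≤ g (C.rt r)}) h t

theorem X_K (r : R) (t : F) : E.X r t ∈ E.K := E.X_mem (Set.mem_univ r) t

theorem Xs_le {S : Set R} {H : Subgroup A} (h : ∀ r ∈ S, ∀ t, E.X r t ∈ H) : E.Xs S ≤ H := by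
  rintro _ ⟨g, hg, rfl⟩
  obtain ⟨g', h1, h2⟩ := C.Xs_le (K := (H.comap E.Ψ).map (GG C).subtype)
    (fun r hr t => ⟨⟨_, xG r t⟩, h r hr t, rfl⟩) hg
  exact (Subtype.ext h2 : g' = g) ▸ h1

theorem K_le {H : Subgroup A} (h1 : ∀ i t, E.X (C.p i) t ∈ H)
    (h2 : ∀ i t, E.X (C.neg (C.p i)) t ∈ H) : E.K ≤ H := by
  rintro _ ⟨g, hg, rfl⟩
  obtain ⟨g', h1, h2⟩ := C.Xs_univ_le (K := (H.comap E.Ψ).map (GG C).subtype)
    (fun i t => ⟨⟨_, xG _ t⟩, h1 i t, rfl⟩) (fun i t => ⟨⟨_, xG _ t⟩, h2 i t, rfl⟩) hg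
  exact (Subtype.ext h2 : g' = g) ▸ h1

theorem Xs_mono {S T : Set R} (h : S ⊆ T) : E.Xs S ≤ E.Xs T :=
  E.Xs_le fun _ hr t => E.X_mem (h hr) t

theorem Xs_K {S : Set R} {a : A} (h : a ∈ E.Xs S) : a ∈ E.K := E.Xs_mono (Set.subset_univ _) h

theorem conj_mem {S : Set R} {H : Subgroup A} {a : A}
    (h : ∀ r ∈ S, ∀ t, a * E.X r t * a⁻¹ ∈ H) {g : A} (hg : g ∈ E.Xs S) : a * g * a⁻¹ ∈ H :=
  E.Xs_le (H := H.comap (MulAut.conj a).toMonoidHom) h hg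

instance normal_K : E.K.Normal := ⟨by
  rintro _ ⟨g, hg, rfl⟩ a
  obtain ⟨g', h1, h2⟩ := E.nrm a g hg
  exact ⟨g', h1, h2⟩⟩

theorem eq_one {a : A} (h1 : ∀ i t, a * E.X (C.p i) t * a⁻¹ = E.X (C.p i) t)
    (h2 : ∀ i t, a * E.X (C.neg (C.p i)) t * a⁻¹ = E.X (C.neg (C.p i)) t) : a = 1 :=
  E.cent a fun g hg => E.K_le (H := (MulAut.conj a).toMonoidHom.eqLocus (MonoidHom.id _)) h1 h2
    ⟨g, hg, rfl⟩

theorem D_conj (χ : Ch l F) (r : R) (t : F) :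
    E.D χ * E.X r t * (E.D χ)⁻¹ = E.X r (cv χ (C.rt r) * t) := by
  simp only [X, D_eq, n_eq, nw_eq, ← _root_.map_mul, ← map_inv, ← map_pow, Ψ_eq, mem_Xs, mem_U]
  exact C.hh_conj χ r t

theorem D_inv (χ : Ch l F) : E.D χ⁻¹ = (E.D χ)⁻¹ := map_inv E.D χ

theorem D_mul (χ ψ : Ch l F) : E.D (χ * ψ) = E.D χ * E.D ψ := _root_.map_mul E.D χ ψ

theorem D_conj_mem {S : Set R} (χ : Ch l F) {g : A} (hg : g ∈ E.Xs S) :
    E.D χ * g * (E.D χ)⁻¹ ∈ E.Xs S :=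
  E.conj_mem (fun r hr t => by rw [D_conj]; exact E.X_mem hr _) hg

theorem n_D (i : l) (χ : Ch l F) : E.n i * E.D χ = E.D (chm χ (C.sr i)) * E.n i := by
  simp only [X, D_eq, n_eq, nw_eq, ← _root_.map_mul, ← map_inv, ← map_pow, Ψ_eq, mem_Xs, mem_U]
  exact C.n_hh i χ

theorem nw_D (L : List l) (χ : Ch l F) : ∃ χ', E.nw L * E.D χ = E.D χ' * E.nw L := by
  simp only [X, D_eq, n_eq, nw_eq, ← _root_.map_mul, ← map_inv, ← map_pow, Ψ_eq, mem_Xs, mem_U]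
  exact C.nw_hh L χ

theorem D_nw (L : List l) (χ : Ch l F) : E.nw L * E.D (chm χ (C.wl L)) = E.D χ * E.nw L := by
  simp only [X, D_eq, n_eq, nw_eq, ← _root_.map_mul, ← map_inv, ← map_pow, Ψ_eq, mem_Xs, mem_U]
  exact (E.hE.acts_nw L).mul_hh χ

theorem nn_eq (i : l) (c : Fˣ) :
    E.X (C.p i) c * E.X (C.neg (C.p i)) (-(c : F)⁻¹) * E.X (C.p i) c =
      E.D (pw c (C.A i)) * E.n i := by
  simp only [X, D_eq, n_eq, nw_eq, ← _root_.map_mul, ← map_inv, ← map_pow, Ψ_eq, mem_Xs, mem_U]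
  exact C.nn_eq i c

theorem n_n (i : l) : E.n i * E.n i = E.D (pw (-1) (C.A i)) := by
  simp only [X, D_eq, n_eq, nw_eq, ← _root_.map_mul, ← map_inv, ← map_pow, Ψ_eq, mem_Xs, mem_U]
  exact (C.n_n i).trans (by rw [pw_neg_inv])

theorem n_p (i : l) (t : F) :
    E.n i * E.X (C.p i) t * (E.n i)⁻¹ = E.X (C.neg (C.p i)) (-t) := by
  simp only [X, D_eq, n_eq, nw_eq, ← _root_.map_mul, ← map_inv, ← map_pow, Ψ_eq, mem_Xs, mem_U]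
  exact (E.hE.n_both i t).1

theorem n_np (i : l) (t : F) :
    E.n i * E.X (C.neg (C.p i)) t * (E.n i)⁻¹ = E.X (C.p i) (-t) := by
  simp only [X, D_eq, n_eq, nw_eq, ← _root_.map_mul, ← map_inv, ← map_pow, Ψ_eq, mem_Xs, mem_U]
  exact (E.hE.n_both i t).2

theorem X_np_eq (i : l) (t : Fˣ) : E.X (C.neg (C.p i)) t =
    E.X (C.p i) (t : F)⁻¹ * (E.D (pw (-t⁻¹) (C.A i)) * E.n i) * E.X (C.p i) (t : F)⁻¹ := by
  simp only [X, D_eq, n_eq, nw_eq, ← _root_.map_mul, ← map_inv, ← map_pow, Ψ_eq, mem_Xs, mem_U]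
  exact C.x_np_eq i t

theorem sl2 (i : l) (t a : F) (c : Fˣ) (hc : (1 + t * a) * c = 1) : ∃ a' b',
    E.X (C.neg (C.p i)) t * E.X (C.p i) a =
      E.X (C.p i) a' * E.D (pw c (C.A i)) * E.X (C.neg (C.p i)) b' := by
  simp only [X, D_eq, n_eq, nw_eq, ← _root_.map_mul, ← map_inv, ← map_pow, Ψ_eq, mem_Xs, mem_U]
  exact E.hE.sl2 i t a c hc

theorem nw_conj (L : List l) (s : R) : ∃ η : F, η * η = 1 ∧
    (∀ t, E.nw L * E.X s t * (E.nw L)⁻¹ = E.X (C.wr L s) (η * t)) ∧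
    ∀ t, E.nw L * E.X (C.neg s) t * (E.nw L)⁻¹ = E.X (C.neg (C.wr L s)) (η * t) := by
  simp only [X, D_eq, n_eq, nw_eq, ← _root_.map_mul, ← map_inv, ← map_pow, Ψ_eq, mem_Xs, mem_U]
  exact (E.hE.acts_nw L).conj s

theorem nw_inv (L : List l) : ∃ χ L', (E.nw L)⁻¹ = E.D χ * E.nw L' := by
  simp only [X, D_eq, n_eq, nw_eq, ← _root_.map_mul, ← map_inv, ← map_pow, Ψ_eq, mem_Xs, mem_U]
  exact CfsgH7.nw_inv C L

theorem n_K (i : l) : E.n i ∈ E.K := mul_mem (mul_mem (E.X_K _ _) (E.X_K _ _)) (E.X_K _ _)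

theorem nw_mem {H : Subgroup A} {L : List l} (h : ∀ i ∈ L, E.n i ∈ H) : E.nw L ∈ H :=
  Subgroup.list_prod_mem _ fun x hx => by
    obtain ⟨i, hi, rfl⟩ := List.mem_map.1 hx
    exact h i hi

theorem nw_K (L : List l) : E.nw L ∈ E.K := E.nw_mem fun i _ => E.n_K i

theorem comm_all (r s : R) (h1 : s ≠ r) (h2 : s ≠ C.neg r) (t u : F) :
    (E.X s u)⁻¹ * (E.X r t)⁻¹ * E.X s u * E.X r t ∈ E.Xs (C.cs r s) := by
  simp only [X, D_eq, n_eq, nw_eq, ← _root_.map_mul, ← map_inv, ← map_pow, Ψ_eq, mem_Xs, mem_U]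
  exact C.comm_all r s h1 h2 t u

theorem commute_of {r s : R} (h1 : s ≠ r) (h2 : s ≠ C.neg r) (h : C.cs r s = ∅) (t u : F) :
    Commute (E.X r t) (E.X s u) := by
  have h3 := E.Xs_le (H := ⊥) (by rw [h]; simp) (E.comm_all r s h1 h2 t u)
  rw [mem_bot, mul_assoc, mul_assoc, inv_mul_eq_one, eq_inv_mul_iff_mul_eq] at h3
  exact h3

theorem U_norm {g : (l → ℤ) →+ ℤ} {c : ℤ} (hc : 0 < c) {S : Set R}
    (hS : ∀ r ∈ S, 0 ≤ g (C.rt r)) {u v : A} (hu : u ∈ E.Xs S) (hv : v ∈ E.U g c) :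
    u * v * u⁻¹ ∈ E.U g c := by
  obtain ⟨u, hu, rfl⟩ := hu
  obtain ⟨v, hv, rfl⟩ := hv
  simp only [X, D_eq, n_eq, nw_eq, ← _root_.map_mul, ← map_inv, ← map_pow, Ψ_eq, mem_Xs, mem_U]
  exact (mem_normalizer_iff.1 (C.U_norm hc hS hu) _).1 hv

theorem U_split (i : l) {u : A} (hu : u ∈ E.Up) :
    ∃ t, ∃ u' ∈ E.U (C.gf i) 1, u = u' * E.X (C.p i) t := by
  obtain ⟨u, hu, rfl⟩ := hu
  obtain ⟨t, u', h1, h2⟩ := C.U_split i hu
  exact ⟨t, E.Ψ ⟨u', XsG h1⟩, E.mem_U.2 h1, by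
    simp only [X, D_eq, n_eq, nw_eq, ← _root_.map_mul, ← map_inv, ← map_pow, Ψ_eq, mem_Xs, mem_U]
    exact h2⟩

theorem U_split' (i : l) {u : A} (hu : u ∈ E.Um) :
    ∃ t, ∃ u' ∈ E.U (-C.gf i) 1, u = E.X (C.neg (C.p i)) t * u' := by
  obtain ⟨u, hu, rfl⟩ := hu
  obtain ⟨t, u', h1, h2⟩ := C.U_split' i hu
  exact ⟨t, E.Ψ ⟨u', XsG h1⟩, E.mem_U.2 h1, by
    simp only [X, D_eq, n_eq, nw_eq, ← _root_.map_mul, ← map_inv, ← map_pow, Ψ_eq, mem_Xs, mem_U]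
    exact h2⟩

theorem X_p_mem (i : l) (t : F) : E.X (C.p i) t ∈ E.Up := E.X_mem_U (C.f_p i) t

theorem X_np_mem (i : l) (t : F) : E.X (C.neg (C.p i)) t ∈ E.Um :=
  E.X_mem_U (by have := C.f_p i; simp [C.rt_neg]; omega) t

theorem X_Um {r : R} (h : C.f (C.rt r) < 0) (t : F) : E.X r t ∈ E.Um :=
  E.X_mem_U (by simp only [AddMonoidHom.neg_apply]; omega) t

theorem udl {u u' v v' : A} {χ χ' : Ch l F} (hu : u ∈ E.Up) (hu' : u' ∈ E.Up)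
    (hv : v ∈ E.Um) (hv' : v' ∈ E.Um) (h : u * E.D χ * v = u' * E.D χ' * v') :
    u = u' ∧ E.D χ = E.D χ' ∧ v = v' := by
  obtain ⟨u, hu, rfl⟩ := hu
  obtain ⟨u', hu', rfl⟩ := hu'
  obtain ⟨v, hv, rfl⟩ := hv
  obtain ⟨v', hv', rfl⟩ := hv'
  revert h
  simp only [X, D_eq, n_eq, nw_eq, ← _root_.map_mul, ← map_inv, ← map_pow, Ψ_eq, mem_Xs, mem_U]
  exact C.udl_unique hu hu' hv hv'

theorem ldu {u u' v v' : A} {χ χ' : Ch l F} (hu : u ∈ E.Up) (hu' : u' ∈ E.Up)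
    (hv : v ∈ E.Um) (hv' : v' ∈ E.Um) (h : v * E.D χ * u = v' * E.D χ' * u') :
    v = v' ∧ E.D χ = E.D χ' ∧ u = u' := by
  have := E.udl (χ := χ⁻¹) (χ' := χ'⁻¹) (inv_mem hu) (inv_mem hu') (inv_mem hv) (inv_mem hv') (by
    have := congrArg Inv.inv h
    simpa only [D_inv, _root_.mul_inv_rev, mul_assoc] using this)
  simp only [D_inv, inv_inj] at this
  exact ⟨this.2.2, this.2.1, this.1⟩

theorem eq_one_of_PT {g : (l → ℤ) →+ ℤ} {S : Set R} (h : ∀ r ∈ S, 0 ≤ g (C.rt r)) {y : A}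
    (h1 : y ∈ E.Xs S) (h2 : y ∈ E.U (-g) 1) : y = 1 := by
  obtain ⟨y, hy, rfl⟩ := h1
  rw [← _root_.map_one E.Ψ, Ψ_eq]
  exact C.eq_one_of_PT (C.U_le_PT h hy) (E.mem_U.1 h2)

theorem UV {g : (l → ℤ) →+ ℤ} {y : A} (h1 : y ∈ E.U g 1) (h2 : y ∈ E.U (-g) 1) : y = 1 :=
  E.eq_one_of_PT (fun r (hr : 1 ≤ g (C.rt r)) => by omega) h1 h2

theorem le_of_mem_U {g : (l → ℤ) →+ ℤ} {c : ℤ} (hc : 0 < c) {r : R} {t : F} (ht : t ≠ 0)
    (h : E.X r t ∈ E.U g c) : c ≤ g (C.rt r) := C.le_of_mem_U hc ht (E.mem_U.1 h)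

theorem root_eq {r s : R} {t u : F} (ht : t ≠ 0) (h : E.X r t = E.X s u) : r = s :=
  C.root_eq ht (E.Ψ_eq.1 h)

theorem X_eq_one {r : R} {t : F} (h : E.X r t = 1) : t = 0 :=
  C.x_eq_one (E.Ψ_eq.1 (h.trans (_root_.map_one E.Ψ).symm))

theorem X_inj {r : R} {t u : F} (h : E.X r t = E.X r u) : t = u :=
  sub_eq_zero.1 (E.X_eq_one (r := r) (by rw [sub_eq_add_neg, X_add, X_neg, h, mul_inv_cancel]))

theorem D_inj : Function.Injective E.D := fun _ _ h => hh_inj C (E.Ψ_eq.1 h)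

theorem p_ne_np (i j : l) : C.neg (C.p j) ≠ C.p i := fun h => by
  have h1 := C.f_p i
  have h2 := C.f_p j
  rw [← h, f_neg] at h1; omega

variable [Finite R]

theorem factor (S : Set R) {v : A} (hv : v ∈ E.Up) :
    ∃ v₁ ∈ E.Xs {r | 0 < C.f (C.rt r) ∧ r ∈ S}, ∃ v₂ ∈ E.Xs {r | 0 < C.f (C.rt r) ∧ r ∉ S},
      v = v₁ * v₂ := by
  obtain ⟨v, hv, rfl⟩ := hv
  obtain ⟨a, h1, b, h2, h3⟩ := C.factor S hv
  exact ⟨E.Ψ ⟨a, XsG h1⟩, E.mem_Xs.2 h1, E.Ψ ⟨b, XsG h2⟩, E.mem_Xs.2 h2, by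
    simp only [X, D_eq, n_eq, nw_eq, ← _root_.map_mul, ← map_inv, ← map_pow, Ψ_eq, mem_Xs, mem_U]
    exact h3⟩

theorem bruhat {g : A} (hg : g ∈ E.K) :
    ∃ u ∈ E.Up, ∃ χ L, ∃ v ∈ E.Up, g = u * E.D χ * E.nw L * v := by
  obtain ⟨g, hg, rfl⟩ := hg
  obtain ⟨a, h1, χ, L, b, h2, h3⟩ := E.hE.bruhat hg
  exact ⟨E.Ψ ⟨a, XsG h1⟩, E.mem_U.2 h1, χ, L, E.Ψ ⟨b, XsG h2⟩, E.mem_U.2 h2, by
    simp only [X, D_eq, n_eq, nw_eq, ← _root_.map_mul, ← map_inv, ← map_pow, Ψ_eq, mem_Xs, mem_U]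
    exact h3⟩

theorem unique {u u' v v' : A} {L L' : List l} {χ χ' : Ch l F} (hu : u ∈ E.Up) (hu' : u' ∈ E.Up)
    (hv : v ∈ E.Up) (hv' : v' ∈ E.Up)
    (h : u * E.D χ * E.nw L * v = u' * E.D χ' * E.nw L' * v') : C.wr L = C.wr L' := by
  obtain ⟨u, hu, rfl⟩ := hu
  obtain ⟨u', hu', rfl⟩ := hu'
  obtain ⟨v, hv, rfl⟩ := hv
  obtain ⟨v', hv', rfl⟩ := hv'
  revert h
  simp only [X, D_eq, n_eq, nw_eq, ← _root_.map_mul, ← map_inv, ← map_pow, Ψ_eq, mem_Xs, mem_U]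
  exact E.hE.unique (E.hE.acts_nw L) (E.hE.acts_nw L') hu hu' hv hv'

theorem mem_H (L : List l) (h : ∀ i, 0 < C.f (C.rt (C.wr L (C.p i)))) : ∃ χ, E.nw L = E.D χ := by
  simp only [X, D_eq, n_eq, nw_eq, ← _root_.map_mul, ← map_inv, ← map_pow, Ψ_eq, mem_Xs, mem_U]
  exact E.hE.mem_H L h

theorem reduce {T : Set R} (hT : ∀ r ∈ T, ∀ i, C.p i ∉ T → C.w i r ∈ T)
    (L : List l) (h : ∀ r ∈ T, 0 < C.f (C.rt (C.wr L r))) :
    ∃ χ L', E.nw L = E.D χ * E.nw L' ∧ ∀ i ∈ L', C.p i ∉ T := by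
  simp only [X, D_eq, n_eq, nw_eq, ← _root_.map_mul, ← map_inv, ← map_pow, Ψ_eq, mem_Xs, mem_U]
  exact E.hE.reduce hT L h

theorem NP {g : (l → ℤ) →+ ℤ} (hg : ∀ i, 0 ≤ g (Pi.single i 1)) {y : A}
    (hy : y ∈ E.U (-g) 1) (h : ∀ v ∈ E.U g 1, y * v * y⁻¹ ∈ E.Up) : y = 1 := by
  obtain ⟨y, hy, rfl⟩ := hy
  rw [← _root_.map_one E.Ψ, Ψ_eq]
  refine E.hE.NP hg hy fun v hv => ?_
  have := h _ ((E.mem_U (a := ⟨v, XsG hv⟩)).2 hv)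
  revert this
  simp only [X, D_eq, n_eq, nw_eq, ← _root_.map_mul, ← map_inv, ← map_pow, Ψ_eq, mem_Xs, mem_U]
  exact id

theorem pow_mem_U (r : ℕ) [CharP F r] {u : A} (hu : u ∈ E.Up) : ∃ k, u ^ r ^ k = 1 := by
  obtain ⟨u, hu, rfl⟩ := hu
  obtain ⟨k, hk⟩ := C.pow_mem_U r hu
  exact ⟨k, by
    rw [← _root_.map_one E.Ψ]
    simp only [X, D_eq, n_eq, nw_eq, ← _root_.map_mul, ← map_inv, ← map_pow, Ψ_eq, mem_Xs, mem_U]
    exact hk⟩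

/-- the opposite embedding -/
def opp : Emb E.hE.opp A where
  Ψ := E.Ψ.comp (MulEquiv.subgroupCongr E.hE.opp_GG).toMonoidHom
  inj := E.inj.comp (MulEquiv.subgroupCongr E.hE.opp_GG).injective
  nrm a g hg := by
    rw [E.hE.opp_Xs] at hg ⊢
    obtain ⟨g', h1, h2⟩ := E.nrm a (MulEquiv.subgroupCongr E.hE.opp_GG g) hg
    exact ⟨(MulEquiv.subgroupCongr E.hE.opp_GG).symm g', h1, h2⟩
  cent a h := E.cent a fun g hg =>
    h ((MulEquiv.subgroupCongr E.hE.opp_GG).symm g) (by rw [E.hE.opp_Xs]; exact hg)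
  hE := E.hE.opp_extra

theorem opp_X (r : R) (t : F) : E.opp.X r t = E.X (C.neg r) t := rfl

theorem opp_X' (r : R) (t : F) : E.opp.X (C.neg r) t = E.X r t := by rw [opp_X, neg_neg']

theorem opp_Xs (S : Set R) : E.opp.Xs S = E.Xs (C.neg ⁻¹' S) :=
  le_antisymm (E.opp.Xs_le fun r hr t => E.X_mem (S := C.neg ⁻¹' S) (by
    rwa [Set.mem_preimage, neg_neg']) t) (E.Xs_le fun r hr t => by
      rw [← opp_X']; exact E.opp.X_mem (S := S) hr t)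

theorem opp_K : E.opp.K = E.K := E.opp_Xs _

theorem opp_U (g : (l → ℤ) →+ ℤ) (c : ℤ) : E.opp.U g c = E.U (-g) c := by
  rw [U, opp_Xs, U]
  congr 1
  ext r
  change c ≤ g (C.rt (C.neg r)) ↔ c ≤ -g (C.rt r)
  rw [C.rt_neg, map_neg]

theorem opp_Up : E.opp.Up = E.Um := E.opp_U _ _

theorem opp_Um : E.opp.Um = E.Up := (E.opp_U _ _).trans (congrArg (E.U · 1) (neg_neg C.f))

theorem NP' {g : (l → ℤ) →+ ℤ} (hg : ∀ i, 0 ≤ g (Pi.single i 1)) {y : A}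
    (hy : y ∈ E.U g 1) (h : ∀ v ∈ E.U (-g) 1, y * v * y⁻¹ ∈ E.Um) : y = 1 :=
  E.opp.NP hg (by rwa [opp_U, neg_neg]) (by rw [opp_U, opp_Up]; exact h)

end Emb

end CfsgH8
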