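/-
Steinberg's theorem on automorphisms of Chevalley groups.
-/
import Cfsg.Agent.H8.CA2
import Cfsg.Agent.H1.Basic
import Cfsg.Agent.H2.Coprime2

set_option autoImplicit false
set_option linter.unusedSectionVars false

namespace CfsgH8

open CfsgH7 Chev Subgroup

theorem exists_ringEquiv {F : Type*} [Field F] [Finite F] (φ : F → F)
    (h1 : ∀ t u, φ (t + u) = φ t + φ u) (h2 : φ 1 = 1) (h3 : ∀ c u, φ (c ^ 2 * u) = φ c ^ 2 * φ u) :
    ∃ σ : F ≃+* F, ∀ t, σ t = φ t := by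
  have h0 : φ 0 = 0 := by simpa using h1 0 0
  have h4 : ∀ c, φ (c ^ 2) = φ c ^ 2 := fun c => by simpa [h2] using h3 c 1
  have h5 : ∀ x y, φ (x * y) = φ x * φ y := by
    intro x y
    by_cases h : ringChar F = 2
    · obtain ⟨c, rfl⟩ := FiniteField.isSquare_of_char_two h x
      rw [← sq, h3, h4]
    · have e := h4 (x + y)
      rw [show (x + y) ^ 2 = x ^ 2 + (x * y + x * y) + y ^ 2 by ring, h1, h1, h1, h1, h4, h4] at e
      exact mul_left_cancel₀ (Ring.two_ne_zero h) (by linear_combination e)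
  let ψ : F →+* F := ⟨⟨⟨φ, h2⟩, h5⟩, h0, h1⟩
  exact ⟨RingEquiv.ofBijective ψ (Finite.injective_iff_bijective.1 ψ.injective), fun _ => rfl⟩

variable {ι R l F : Type*} [Fintype ι] [DecidableEq ι] [Fintype l] [DecidableEq l] [Field F]

namespace Emb

variable {C : Chev ι R l F} {A : Type*} [Group A] (E : Emb C A)

/-- `m` maps the rank one group of `r` to that of `s` -/
def M1 (m : A) (r s : R) : Prop := ∃ (ε : Fˣ) (φ : F ≃+* F),
  (∀ t, m * E.X r t * m⁻¹ = E.X s (ε * φ t)) ∧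
    ∀ t, m * E.X (C.neg r) t * m⁻¹ = E.X (C.neg s) ((ε : F)⁻¹ * φ t)

/-- monomial elements -/
def Mon (m : A) (π : Equiv.Perm R) : Prop := ∀ r, E.M1 m r (π r)

/-- the standard automorphisms -/
def S : Subgroup A := normalizer (E.Up : Set A) ⊓ normalizer (E.Um : Set A)

variable {E}

theorem M1.mul {m m' : A} {r s k : R} (h : E.M1 m s k) (h' : E.M1 m' r s) : E.M1 (m * m') r k := by
  obtain ⟨ε, φ, h1, h2⟩ := h
  obtain ⟨ε', φ', h1', h2'⟩ := h'
  refine ⟨ε * Units.map φ.toMonoidHom ε', φ'.trans φ, fun t => ?_, fun t => ?_⟩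
  · rw [show m * m' * E.X r t * (m * m')⁻¹ = m * (m' * E.X r t * m'⁻¹) * m⁻¹ by group, h1', h1]
    simp [mul_assoc]
  · rw [show m * m' * E.X (C.neg r) t * (m * m')⁻¹ = m * (m' * E.X (C.neg r) t * m'⁻¹) * m⁻¹ by
      group, h2', h2]
    simp [mul_assoc, mul_left_comm]

theorem M1.inv {m : A} {r s : R} (h : E.M1 m r s) : E.M1 m⁻¹ s r := by
  obtain ⟨ε, φ, h1, h2⟩ := h
  refine ⟨Units.map φ.symm.toMonoidHom ε⁻¹, φ.symm, fun t => ?_, fun t => ?_⟩
  · rw [inv_inv, mul_assoc, inv_mul_eq_iff_eq_mul, ← eq_mul_inv_iff_mul_eq, h1]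
    simp
  · rw [inv_inv, mul_assoc, inv_mul_eq_iff_eq_mul, ← eq_mul_inv_iff_mul_eq, h2]
    simp

theorem M1.conj {m : A} {r s : R} (h : E.M1 m r s) (t : F) :
    ∃ t', (t ≠ 0 → t' ≠ 0) ∧ m * E.X r t * m⁻¹ = E.X s t' := by
  obtain ⟨ε, φ, h1, -⟩ := h
  exact ⟨_, fun h => by simpa using h, h1 t⟩

theorem M1.neg {m : A} {r s : R} (h : E.M1 m r s) : E.M1 m (C.neg r) (C.neg s) := by
  obtain ⟨ε, φ, h1, h2⟩ := h
  exact ⟨ε⁻¹, φ, by simpa using h2, by simpa [neg_neg'] using h1⟩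

theorem M1.eq {m : A} {r s s' : R} (h : E.M1 m r s) (h' : E.M1 m r s') : s = s' := by
  obtain ⟨t, h1, h2⟩ := h.conj 1
  obtain ⟨t', -, h2'⟩ := h'.conj 1
  exact E.root_eq (h1 one_ne_zero) (h2.symm.trans h2')

theorem M1.le {m : A} {r s : R} (h : E.M1 m r s) {g : (l → ℤ) →+ ℤ} {c : ℤ} (hc : 0 < c) {t : F}
    (ht : t ≠ 0) (h' : m * E.X r t * m⁻¹ ∈ E.U g c) : c ≤ g (C.rt s) := by
  obtain ⟨t, h1, h2⟩ := h.conj t
  exact E.le_of_mem_U hc (h1 ht) (h2 ▸ h')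

theorem Mon.mul {m m' : A} {π π' : Equiv.Perm R} (h : E.Mon m π) (h' : E.Mon m' π') :
    E.Mon (m * m') (π * π') := fun r => (h _).mul (h' r)

theorem Mon.inv {m : A} {π : Equiv.Perm R} (h : E.Mon m π) : E.Mon m⁻¹ π⁻¹ := fun r => by
  simpa using (h (π⁻¹ r)).inv

theorem Mon.eq {m : A} {π π' : Equiv.Perm R} (h : E.Mon m π) (h' : E.Mon m π') : π = π' :=
  Equiv.ext fun r => (h r).eq (h' r)

theorem Mon.neg {m : A} {π : Equiv.Perm R} (h : E.Mon m π) (r : R) : π (C.neg r) = C.neg (π r) :=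
  (h _).eq (h r).neg

theorem Mon.conj_mem {m : A} {π : Equiv.Perm R} (h : E.Mon m π) {S T : Set R}
    (hS : ∀ r ∈ S, π r ∈ T) {g : A} (hg : g ∈ E.Xs S) : m * g * m⁻¹ ∈ E.Xs T :=
  E.conj_mem (fun r hr t => by
    obtain ⟨t', -, e⟩ := (h r).conj t
    rw [e]; exact E.X_mem (hS r hr) _) hg

variable (E) in
theorem mon_D (χ : Ch l F) : E.Mon (E.D χ) 1 := fun r =>
  ⟨Units.mk0 _ (cv_ne χ (C.rt r)), RingEquiv.refl F, E.D_conj χ r, fun t => by
    rw [D_conj, C.rt_neg, cv_neg]; rfl⟩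

variable (E) in
theorem mon_one : E.Mon 1 1 := by simpa using E.mon_D 1

theorem Mon.pow {m : A} {π : Equiv.Perm R} (h : E.Mon m π) (k : ℕ) : E.Mon (m ^ k) (π ^ k) := by
  induction k with
  | zero => simpa using E.mon_one
  | succ k ih => rw [pow_succ, pow_succ]; exact ih.mul h

theorem Mon.neg_of {m : A} {π : Equiv.Perm R} (h : E.Mon m π)
    (h' : ∀ r, 0 < C.f (C.rt r) → 0 < C.f (C.rt (π r))) {r : R} (hr : C.f (C.rt r) < 0) :
    C.f (C.rt (π r)) < 0 := by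
  have := h' (C.neg r) (by rw [f_neg]; omega)
  rw [h.neg, f_neg] at this
  omega

theorem Mon.pos_inv {m : A} {π : Equiv.Perm R} (h : E.Mon m π)
    (h' : ∀ r, 0 < C.f (C.rt r) → 0 < C.f (C.rt (π r))) (r : R) (hr : 0 < C.f (C.rt r)) :
    0 < C.f (C.rt (π⁻¹ r)) := by
  rcases (C.f_ne (π⁻¹ r)).lt_or_gt with h1 | h1
  · have := h.neg_of h' h1
    rw [show π (π⁻¹ r) = r from π.apply_symm_apply r] at this
    omega
  · exact h1

theorem Mon.mem_S {m : A} {π : Equiv.Perm R} (h : E.Mon m π)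
    (h' : ∀ r, 0 < C.f (C.rt r) → 0 < C.f (C.rt (π r))) : m ∈ E.S := by
  have key : ∀ {m : A} {π : Equiv.Perm R}, E.Mon m π →
      (∀ r, 0 < C.f (C.rt r) → 0 < C.f (C.rt (π r))) →
      (∀ u ∈ E.Up, m * u * m⁻¹ ∈ E.Up) ∧ ∀ u ∈ E.Um, m * u * m⁻¹ ∈ E.Um := fun h h' =>
    ⟨fun u hu => h.conj_mem h' hu, fun u hu => h.conj_mem (fun r hr => by
      have : 1 ≤ -C.f (C.rt r) := hr
      have := h.neg_of h' (r := r) (by omega)
      change 1 ≤ -C.f _
      omega) hu⟩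
  have h1 := key h h'
  have h2 := key h.inv (h.pos_inv h')
  exact ⟨mem_normalizer_iff.2 fun u => ⟨h1.1 u, fun e => by simpa [mul_assoc] using h2.1 _ e⟩,
    mem_normalizer_iff.2 fun u => ⟨h1.2 u, fun e => by simpa [mul_assoc] using h2.2 _ e⟩⟩

theorem S_Up {s u : A} (hs : s ∈ E.S) (hu : u ∈ E.Up) : s * u * s⁻¹ ∈ E.Up :=
  (mem_normalizer_iff.1 hs.1 u).1 hu

theorem S_Um {s u : A} (hs : s ∈ E.S) (hu : u ∈ E.Um) : s * u * s⁻¹ ∈ E.Um :=
  (mem_normalizer_iff.1 hs.2 u).1 hu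

theorem Mon.pos {m : A} {π : Equiv.Perm R} (h : E.Mon m π) (hm : m ∈ E.S) (r : R)
    (hr : 0 < C.f (C.rt r)) : 0 < C.f (C.rt (π r)) :=
  (h r).le one_pos one_ne_zero (S_Up hm (E.X_mem_U hr 1))

variable (E)

theorem D_mem_S (χ : Ch l F) : E.D χ ∈ E.S := (E.mon_D χ).mem_S fun _ h => h

theorem conj_nn {a : A} {i j : l} {c d : Fˣ} (h1 : a * E.X (C.p i) c * a⁻¹ = E.X (C.p j) d)
    (h2 : a * E.X (C.neg (C.p i)) (-(c : F)⁻¹) * a⁻¹ = E.X (C.neg (C.p j)) (-(d : F)⁻¹)) :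
    a * (E.D (pw c (C.A i)) * E.n i) * a⁻¹ = E.D (pw d (C.A j)) * E.n j := by
  rw [← nn_eq, ← nn_eq, ← h1, ← h2]; group

theorem commute_p_np {i j : l} (h : i ≠ j) (t u : F) :
    Commute (E.X (C.p i) t) (E.X (C.neg (C.p j)) u) := by
  refine E.commute_of (p_ne_np (C := C) i j) (fun e => h ?_) ?_ t u
  · have := congrFun (congrArg C.rt e) i
    rw [C.rt_neg, C.rt_neg, C.rt_p, C.rt_p] at this
    by_contra h'
    simp [Pi.single_eq_of_ne h'] at this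
  · rw [Set.eq_empty_iff_forall_notMem]
    rintro k ⟨a, b, ha, hb, e⟩
    have h1 := congrFun e i
    have h2 := congrFun e j
    rw [C.rt_neg, C.rt_p, C.rt_p] at h1 h2
    simp [Pi.single_eq_of_ne h, Pi.single_eq_of_ne h.symm] at h1 h2
    rcases C.sgn k with h3 | h3
    · have := h3 j; simp only [Pi.zero_apply] at this; omega
    · have := h3 i; simp only [Pi.zero_apply] at this; omega

theorem p_inj : Function.Injective C.p := fun i j h => by
  have := congrFun (congrArg C.rt h) i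
  rw [C.rt_p, C.rt_p] at this
  by_contra h'
  simp [Pi.single_eq_of_ne h'] at this

variable [Finite R]

/-- Weyl group elements as permutations -/
noncomputable def wp (L : List l) : Equiv.Perm R :=
  Equiv.ofBijective (C.wr L) (Finite.injective_iff_bijective.1 (E.hE.acts_nw L).pi_inj)

theorem wp_apply (L : List l) (r : R) : E.wp L r = C.wr L r := rfl

theorem mon_nw (L : List l) : E.Mon (E.nw L) (E.wp L) := fun r => by
  obtain ⟨η, e1, e2, e3⟩ := E.nw_conj L r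
  refine ⟨Units.mk0 η (by rintro rfl; simp at e1), RingEquiv.refl F, e2, fun t => ?_⟩
  rw [e3, Units.val_mk0, inv_eq_of_mul_eq_one_right e1]; rfl

theorem mon_n (i : l) : E.Mon (E.n i) (E.wp [i]) := by simpa [nw] using E.mon_nw [i]

theorem M1_n (i : l) (r : R) : E.M1 (E.n i) r (C.w i r) := E.mon_n i r

theorem opp_S : E.opp.S = E.S := by rw [S, opp_Up, opp_Um, inf_comm, S]

theorem borel {k : A} (hk : k ∈ E.K) (h : ∀ u ∈ E.Up, k * u * k⁻¹ ∈ E.Up) :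
    ∃ u ∈ E.Up, ∃ χ, k = u * E.D χ := by
  obtain ⟨u, hu, χ, L, v, hv, rfl⟩ := E.bruhat hk
  obtain ⟨χ', e⟩ := E.mem_H L fun i => (E.mon_nw L (C.p i)).le one_pos one_ne_zero (by
    have h1 := h _ (mul_mem (mul_mem (inv_mem hv) (E.X_p_mem i 1)) hv)
    have h2 : _ ∈ E.Up := E.D_conj_mem χ⁻¹ (mul_mem (mul_mem (inv_mem hu) h1) hu)
    simpa [D_inv, mul_assoc] using h2)
  exact ⟨_, mul_mem hu (E.D_conj_mem (χ * χ') hv), χ * χ', by rw [e, D_mul]; group⟩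

theorem eq_one_of_S {u : A} (hu : u ∈ E.Up) (h : u ∈ E.S) : u = 1 :=
  E.NP' (fun i => (C.f_pos i).le) hu fun _ hv => S_Um h hv

theorem S_K {k : A} (hk : k ∈ E.K) (h : k ∈ E.S) : ∃ χ, k = E.D χ := by
  obtain ⟨u, hu, χ, rfl⟩ := E.borel hk fun _ hu => S_Up h hu
  exact ⟨χ, by rw [E.eq_one_of_S hu ((E.S.mul_mem_cancel_right (E.D_mem_S χ)).1 h), one_mul]⟩

theorem exists_np {Y : Subgroup A} (h1 : E.Up ≤ Y) {y : A} (hy : y ∈ Y) (hk : y ∈ E.K)
    (h : ¬∀ u ∈ E.Up, y * u * y⁻¹ ∈ E.Up) : ∃ j, ∀ t, E.X (C.neg (C.p j)) t ∈ Y := by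
  obtain ⟨u, hu, χ, L, v, hv, rfl⟩ := E.bruhat hk
  have hm := (E.mon_D χ).mul (E.mon_nw L)
  have hY : E.D χ * E.nw L ∈ Y := by
    rwa [Y.mul_mem_cancel_right (h1 hv), mul_assoc, Y.mul_mem_cancel_left (h1 hu)] at hy
  by_cases h2 : ∀ i, 0 < C.f (C.rt (C.wr L (C.p i)))
  · obtain ⟨χ', e⟩ := E.mem_H L h2
    refine absurd (fun w hw => ?_) h
    have : _ ∈ E.Up := E.D_conj_mem (χ * χ') (mul_mem (mul_mem hv hw) (inv_mem hv))
    convert mul_mem (mul_mem hu this) (inv_mem hu) using 1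
    rw [e, D_mul]; group
  push Not at h2
  obtain ⟨j, hj⟩ := h2
  refine ⟨j, fun t => ?_⟩
  obtain ⟨t', -, e⟩ := (hm (C.p j)).neg.conj t
  have := h1 (E.X_mem_U (r := C.neg (C.wr L (C.p j))) (by
    have := C.f_ne (C.wr L (C.p j)); rw [f_neg]; omega) t')
  rwa [← show _ = E.X (C.neg (C.wr L (C.p j))) t' from e, Y.mul_mem_cancel_right (inv_mem hY),
    Y.mul_mem_cancel_left hY] at this

theorem n_ne (j : l) (χ : Ch l F) (t u : F) :
    E.D χ * E.n j * E.X (C.p j) u ≠ E.X (C.neg (C.p j)) t := by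
  intro h
  by_cases ht : t = 0
  · have := E.unique (L := [j]) (L' := []) (χ := χ) (χ' := 1) (one_mem _) (one_mem _)
      (E.X_p_mem j u) (one_mem _) (by simpa [nw, ht, X_zero] using h)
    exact p_ne_np (C := C) j j ((C.w_p j).symm.trans (congrFun this (C.p j)))
  have h1 := E.X_np_eq j (Units.mk0 t ht)
  generalize pw (-(Units.mk0 t ht)⁻¹) (C.A j) = ψ at h1
  rw [Units.val_mk0] at h1
  have h2 := E.ldu (χ := chm χ (C.wl [j])) (χ' := chm ψ (C.wl [j])) (E.X_p_mem j u)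
    (E.X_p_mem j t⁻¹) (one_mem _) (E.X_np_mem j (-t⁻¹)) (by
      have e1 := E.D_nw [j] χ
      have e2 := E.D_nw [j] ψ
      have e3 := E.n_np j (-t⁻¹)
      simp only [nw, List.map_cons, List.map_nil, List.prod_cons, List.prod_nil, mul_one] at e1 e2
      rw [neg_neg] at e3
      rw [← mul_right_inj (E.n j), one_mul, ← mul_assoc, e1, h, h1]
      calc _ = E.n j * E.X (C.neg (C.p j)) (-t⁻¹) * (E.n j)⁻¹ * (E.D ψ * E.n j) *
            E.X (C.p j) t⁻¹ := by rw [e3]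
        _ = _ := by rw [← e2]; group)
  exact inv_ne_zero ht (neg_eq_zero.1 (E.X_eq_one h2.1.symm))

variable [Finite F]

theorem rank_one {a : A} {i j : l} {f g : F → F}
    (hf : ∀ t, a * E.X (C.p i) t * a⁻¹ = E.X (C.p j) (f t))
    (hg : ∀ t, a * E.X (C.neg (C.p i)) t * a⁻¹ = E.X (C.neg (C.p j)) (g t)) :
    E.M1 a (C.p i) (C.p j) := by
  have add : ∀ t u, f (t + u) = f t + f u := fun t u => E.X_inj (r := C.p j) (by
    rw [← hf, X_add, X_add, ← hf, ← hf]; group)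
  have ne : ∀ {r s t t'}, a * E.X r t * a⁻¹ = E.X s t' → t ≠ 0 → t' ≠ 0 := by
    rintro r s t _ h ht rfl
    rw [X_zero, mul_inv_eq_one, mul_eq_left] at h
    exact ht (E.X_eq_one h)
  have inj : Function.Injective f := fun t u h => E.X_inj (r := C.p i) (by
    have := (hf t).trans (h ▸ (hf u).symm)
    simpa using this)
  have key : ∀ c : Fˣ, g (-(c : F)⁻¹) = -(f c)⁻¹ := by
    intro c
    have hb := ne (hg (-(c : F)⁻¹)) (by simp)
    have h1 := E.X_np_eq j (Units.mk0 _ hb)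
    generalize pw (-(Units.mk0 _ hb)⁻¹) (C.A j) = ψ at h1
    rw [Units.val_mk0] at h1
    by_contra h
    have hd : f c + (g (-(c : F)⁻¹))⁻¹ ≠ 0 := fun e => h (by
      rw [eq_neg_of_add_eq_zero_left e, inv_neg, inv_inv, neg_neg])
    have h2 : a * (E.D (pw c (C.A i)) * E.n i) * a⁻¹ = E.X (C.p j) (f c + (g (-(c : F)⁻¹))⁻¹) *
        (E.D ψ * E.n j) * E.X (C.p j) (f c + (g (-(c : F)⁻¹))⁻¹) := by
      nth_rewrite 2 [add_comm]
      rw [← nn_eq, X_add, X_add, ← hf, mul_assoc (a * _ * a⁻¹), mul_assoc (a * _ * a⁻¹),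
        ← mul_assoc _ (E.X _ _), ← h1, ← hg]
      group
    obtain ⟨d, hd'⟩ : ∃ d : Fˣ, d = f c + (g (-(c : F)⁻¹))⁻¹ := ⟨Units.mk0 _ hd, rfl⟩
    rw [← hd'] at h2
    obtain ⟨t, ht⟩ := Finite.injective_iff_surjective.1 inj
      ((cv ψ (C.rt (C.neg (C.p j))))⁻¹ * (d : F)⁻¹)
    have h3 := E.D_conj ψ (C.neg (C.p j)) (-f t)
    rw [ht, mul_neg, mul_inv_cancel_left₀ (cv_ne _ _), ← ht, ← n_p] at h3
    refine E.n_ne j (pw d (C.A j)) (g (cv (pw c (C.A i)) (C.rt (C.neg (C.p i))) * -t)) (-d + -d) ?_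
    have h4 : E.X (C.p j) (f t) = E.X (C.p j) d * E.X (C.p j) (f t) * (E.X (C.p j) d)⁻¹ := by
      rw [← X_add, add_comm, X_add, mul_inv_cancel_right]
    calc _ = E.X (C.p j) d * E.X (C.neg (C.p j)) (-(d : F)⁻¹) * (E.X (C.p j) d)⁻¹ := by
          rw [← nn_eq, X_add, E.X_neg (C.p j)]; group
      _ = (E.X (C.p j) d * (E.D ψ * E.n j) * E.X (C.p j) d) * E.X (C.p j) (f t) *
          (E.X (C.p j) d * (E.D ψ * E.n j) * E.X (C.p j) d)⁻¹ := by
          rw [← h3]; nth_rewrite 1 [h4]; group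
      _ = _ := by rw [← h2, ← hg, ← D_conj, ← n_p, ← hf]; group
  have h1 : f 1 ≠ 0 := ne (hf 1) one_ne_zero
  have h2 : ∀ c : Fˣ, a * (E.D (pw c (C.A i)) * E.n i) * a⁻¹ =
      E.D (pw (Units.mk0 (f c) (ne (hf c) c.ne_zero)) (C.A j)) * E.n j := fun c =>
    E.conj_nn (hf c) (by rw [hg, key, Units.val_mk0])
  obtain ⟨σ, hσ⟩ := exists_ringEquiv (fun t => (f 1)⁻¹ * f t) (fun t u => by rw [add, mul_add])
    (inv_mul_cancel₀ h1) (fun c u => by
      by_cases hc : c = 0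
      · have : f 0 = 0 := by simpa using add 0 0
        simp [hc, this]
      obtain ⟨c, rfl⟩ : ∃ d : Fˣ, d = c := ⟨Units.mk0 c hc, rfl⟩
      have e1 := h2 c
      have e2 := h2 1
      rw [pw_one, _root_.map_one, one_mul] at e2
      have e3 := E.D_conj (pw c (C.A i)) (C.p i) u
      have e4 := E.D_conj (pw (Units.mk0 (f c) (ne (hf c) c.ne_zero)) (C.A j) *
        (pw (Units.mk0 (f (1 : Fˣ)) (ne (hf _) (1 : Fˣ).ne_zero)) (C.A j))⁻¹) (C.p j) (f u)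
      rw [cv_mul, cv_inv, cv_A_p, cv_A_p, D_mul, D_inv, eq_mul_inv_of_mul_eq e1.symm,
        eq_mul_inv_of_mul_eq e2.symm, ← hf] at e4
      rw [cv_A_p] at e3
      have e5 := E.X_inj ((hf _).symm.trans ((by rw [← e3]; group : _ = _).trans e4))
      rw [e5, Units.val_mk0, Units.val_mk0, Units.val_one]
      ring)
  refine ⟨Units.mk0 _ h1, σ, fun t => by rw [hf, hσ, Units.val_mk0, mul_inv_cancel_left₀ h1],
    fun t => ?_⟩
  rw [hg]
  congr 1
  by_cases ht : t = 0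
  · subst ht
    have := hg 0
    rw [X_zero, mul_one, mul_inv_cancel] at this
    simp [E.X_eq_one this.symm]
  · have := key (Units.mk0 (-t⁻¹) (by simpa using ht))
    simp only [Units.val_mk0, inv_neg, inv_inv, neg_neg] at this
    have h3 := hσ (-t⁻¹)
    rw [this, Units.val_mk0, (eq_inv_mul_iff_mul_eq₀ h1).1 h3 |>.symm]
    simp [mul_comm]

theorem neg_simple {s : A} (hs : s ∈ E.S) (i : l) :
    ∃ j, ∀ t, ∃ t', s * E.X (C.neg (C.p i)) t * s⁻¹ = E.X (C.neg (C.p j)) t' := by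
  let P := E.Xs {r | 0 < C.f (C.rt r) ∨ r = C.neg (C.p i)}
  obtain ⟨j, hj⟩ := E.exists_np (Y := P.comap (MulAut.conj s⁻¹).toMonoidHom)
    (fun u hu => E.Xs_mono (fun r hr => .inl hr) (S_Up (inv_mem hs) hu))
    (y := s * E.X (C.neg (C.p i)) 1 * s⁻¹) (by
      simpa [mul_assoc] using E.X_mem (S := {r | 0 < C.f (C.rt r) ∨ r = C.neg (C.p i)}) (.inr rfl) 1)
    (E.normal_K.conj_mem _ (E.X_K _ _) _) (fun h => by
      have := E.NP (fun i => (C.f_pos i).le) (S_Um hs (E.X_np_mem i 1)) h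
      rw [mul_inv_eq_one, mul_eq_left] at this
      exact one_ne_zero (E.X_eq_one this))
  have h1 : ∀ t, ∃ t', s⁻¹ * E.X (C.neg (C.p j)) t * s⁻¹⁻¹ = E.X (C.neg (C.p i)) t' := fun t => by
    obtain ⟨t', v, hv, e⟩ := E.U_split' i (S_Um (inv_mem hs) (E.X_np_mem j t))
    have h2 : s⁻¹ * E.X (C.neg (C.p j)) t * s⁻¹⁻¹ ∈ P := hj t
    rw [e, P.mul_mem_cancel_left (E.X_mem (.inr rfl) _)] at h2
    refine ⟨t', e.trans (mul_eq_left.2 (E.eq_one_of_PT (g := C.gf i) ?_ h2 hv))⟩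
    rintro r (hr | rfl)
    · rcases C.gf_pos_of i hr with rfl | h
      exacts [(C.gf_p i).ge, by omega]
    · rw [C.rt_neg, map_neg, gf_p, neg_zero]
  choose g hg using h1
  have inj : Function.Injective g := fun t u h => E.X_inj (r := C.neg (C.p j)) (by
    have := (hg t).trans (h ▸ (hg u).symm)
    simpa using this)
  refine ⟨j, fun t => ?_⟩
  obtain ⟨t', rfl⟩ := Finite.injective_iff_surjective.1 inj t
  exact ⟨t', by rw [← hg]; group⟩

theorem M1_simple {s : A} (hs : s ∈ E.S) (i : l) : ∃ j, E.M1 s (C.p i) (C.p j) := by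
  obtain ⟨j, h1⟩ := E.neg_simple hs i
  obtain ⟨k, h2⟩ := E.opp.neg_simple (E.opp_S.symm ▸ hs) i
  choose g hg using h1
  choose f hf using h2
  replace hf : ∀ t, s * E.X (C.p i) t * s⁻¹ = E.X (C.p k) (f t) := fun t => by
    rw [← E.opp_X', ← E.opp_X' (C.p k)]; exact hf t
  obtain rfl : k = j := by
    by_contra h
    have h3 : ∀ t u, Commute (E.X (C.p i) t) (E.X (C.neg (C.p i)) u) := fun t u => by
      have := (E.commute_p_np h (f t) (g u)).conj s⁻¹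
      rw [← hf, ← hg] at this
      simpa [mul_assoc] using this
    have h4 : ∀ t u, Commute (E.X (C.p i) t) (E.X (C.p i) u) := fun t u => by
      rw [Commute, SemiconjBy, ← X_add, ← X_add, add_comm]
    have h5 := E.n_p i 1
    have h6 : Commute (E.X (C.p i) 1) (E.n i) := ((h4 1 1).mul_right (h3 1 _)).mul_right (h4 1 1)
    rw [← h6.eq, mul_inv_cancel_right] at h5
    exact p_ne_np (C := C) i i (E.root_eq one_ne_zero h5).symm
  exact ⟨k, E.rank_one hf hg⟩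

end Emb

end CfsgH8
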