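/-
Steinberg's theorem on automorphisms of Chevalley groups: the Bruhat decomposition of the
automorphism group.
-/
import Cfsg.Agent.H8.CA3

set_option autoImplicit false
set_option linter.unusedSectionVars false

namespace CfsgH8

open CfsgH7 Chev Subgroup

variable {ι R l F : Type*} [Fintype ι] [DecidableEq ι] [Fintype l] [DecidableEq l] [Field F]

theorem Chev.root_ind (C : Chev ι R l F) {P : R → Prop} (h1 : ∀ i, P (C.p i))
    (h2 : ∀ i r, P r → P (C.w i r)) (r : R) : P r := by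
  induction hn : C.dep r using Nat.strong_induction_on generalizing r with
  | _ n ih =>
    rcases C.desc r with ⟨i, -, rfl⟩ | ⟨i, hi⟩
    · exact h1 i
    · rw [← C.w_w i r]
      exact h2 i _ (ih _ (hn ▸ hi) _ rfl)

namespace Emb

variable {C : Chev ι R l F} {A : Type*} [Group A] (E : Emb C A)

/-- explicit form of `M1` -/
def ME (m : A) (r s : R) (ε : Fˣ) (φ : F ≃+* F) : Prop :=
  (∀ t, m * E.X r t * m⁻¹ = E.X s (ε * φ t)) ∧
    ∀ t, m * E.X (C.neg r) t * m⁻¹ = E.X (C.neg s) ((ε : F)⁻¹ * φ t)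

variable {E}

theorem M1.me {m : A} {r s : R} (h : E.M1 m r s) : ∃ ε φ, E.ME m r s ε φ := h

theorem ME.conj_nn {a : A} {i j : l} {ε : Fˣ} {φ : F ≃+* F} (h : E.ME a (C.p i) (C.p j) ε φ)
    (c : Fˣ) : a * (E.D (pw c (C.A i)) * E.n i) * a⁻¹ =
      E.D (pw (ε * Units.map φ.toMonoidHom c) (C.A j)) * E.n j :=
  E.conj_nn (by rw [h.1]; simp) (by rw [h.2]; simp [mul_comm])

theorem ME.conj_n {a : A} {i j : l} {ε : Fˣ} {φ : F ≃+* F} (h : E.ME a (C.p i) (C.p j) ε φ) :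
    a * E.n i * a⁻¹ = E.D (pw ε (C.A j)) * E.n j := by
  simpa [pw_one] using h.conj_nn 1

theorem ME.conj_D {a : A} {i j : l} {ε : Fˣ} {φ : F ≃+* F} (h : E.ME a (C.p i) (C.p j) ε φ)
    (c : Fˣ) : a * E.D (pw c (C.A i)) * a⁻¹ = E.D (pw (Units.map φ.toMonoidHom c) (C.A j)) := by
  have h1 := h.conj_nn c
  rw [mul_comm ε, pw_mul, D_mul, mul_assoc (E.D _), ← h.conj_n] at h1
  rw [← mul_left_inj (a * E.n i * a⁻¹), ← h1]; group

theorem ME.rel {a : A} {i j : l} {r s : R} {ε ε' : Fˣ} {φ φ' : F ≃+* F}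
    (h : E.ME a (C.p i) (C.p j) ε φ) (h' : E.ME a r s ε' φ') (c : Fˣ) :
    φ' c ^ C.A i (C.rt r) = φ c ^ C.A j (C.rt s) := by
  have e1 := E.D_conj (pw c (C.A i)) r 1
  have e2 := E.D_conj (pw (Units.map φ.toMonoidHom c) (C.A j)) s (ε' * φ' 1)
  rw [← h.conj_D, ← h'.1, show ∀ x y : A, a * x * a⁻¹ * (a * y * a⁻¹) * (a * x * a⁻¹)⁻¹ =
    a * (x * y * x⁻¹) * a⁻¹ from fun x y => by group, e1, h'.1] at e2
  have := E.X_inj e2
  rw [cv_pw, cv_pw, mul_one, _root_.map_one, mul_one, mul_comm, map_zpow₀] at this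
  exact mul_right_cancel₀ ε'.ne_zero this

variable [Finite R]

theorem Mon.w {m : A} {π : Equiv.Perm R} (h : E.Mon m π) {i j : l} (e : π (C.p i) = C.p j)
    (r : R) : π (C.w i r) = C.w j (π r) := by
  obtain ⟨ε, φ, h1⟩ := (e ▸ h (C.p i)).me
  have h2 := (h.mul (E.mon_n i)).eq (π' := 1 * E.wp [j] * π) (by
    rw [mul_inv_eq_iff_eq_mul.1 h1.conj_n]
    exact ((E.mon_D _).mul (E.mon_n j)).mul h)
  exact congrArg (fun θ : Equiv.Perm R => θ r) h2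

theorem Mon.w' {m : A} {π : Equiv.Perm R} (h : E.Mon m π) {i j : l}
    (e : π (C.p i) = C.neg (C.p j)) (r : R) : π (C.w i r) = C.w j (π r) := by
  have := ((E.mon_n j).mul h).w (i := i) (j := j) (by
    change C.w j (π _) = _
    rw [e, w_neg_p]) r
  change C.w j (π _) = C.w j (C.w j (π _)) at this
  rw [← C.w_w j (π _), this, w_w]

theorem Mon.eq_one {m : A} {π : Equiv.Perm R} (h : E.Mon m π) (e : ∀ i, π (C.p i) = C.p i) :
    π = 1 :=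
  Equiv.ext (C.root_ind e fun i r hr => by rw [h.w (e i), hr]; rfl)

theorem Mon.adj {m : A} {π : Equiv.Perm R} (h : E.Mon m π) {i j i' j' : l}
    (e : π (C.p i) = C.p i') (e' : π (C.p j) = C.p j') :
    C.A i (Pi.single j 1) = 0 ↔ C.A i' (Pi.single j' 1) = 0 := by
  have key : ∀ i j, C.A i (Pi.single j 1) = 0 ↔ C.w i (C.p j) = C.p j := fun i j =>
    ⟨fun e => C.rt_inj (by rw [C.rt_w, C.rt_p, e, zero_smul, sub_zero]), fun e => by
      have := congrFun (C.rt_w i (C.p j)) i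
      rw [e, C.rt_p, Pi.sub_apply, eq_comm, sub_eq_self] at this
      simpa using this⟩
  rw [key, key, ← e', ← h.w e, π.injective.eq_iff]

theorem Mon.lin {m : A} {π : Equiv.Perm R} (h : E.Mon m π) {ρ : Equiv.Perm l}
    (e : ∀ i, π (C.p i) = C.p (ρ i))
    (hA : ∀ i j, C.A (ρ i) (Pi.single (ρ j) 1) = C.A i (Pi.single j 1)) (r : R) :
    C.rt (π r) ∘ ρ = C.rt r := by
  have h1 : ∀ j, (Pi.single (ρ j) 1 : l → ℤ) ∘ ρ = Pi.single j 1 := fun j => by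
    ext k; simp [Pi.single_apply]
  have h2 : ∀ i v, C.A (ρ i) v = C.A i (v ∘ ρ) := fun i v => by
    induction v using Pi.single_induction with
    | zero => exact (map_zero _).trans (map_zero _).symm
    | add a b ha hb => rw [map_add, ha, hb, ← map_add]; rfl
    | single j c =>
      obtain ⟨j, rfl⟩ := ρ.surjective j
      have : ∀ k : l, (Pi.single k c : l → ℤ) = c • Pi.single k 1 := fun k => by
        ext a; simp [Pi.single_apply]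
      rw [this, map_zsmul, hA, ← h1, ← map_zsmul]; rfl
  refine C.root_ind (P := fun r => C.rt (π r) ∘ ρ = C.rt r) (fun i => ?_) (fun i r hr => ?_) r
  · rw [e, C.rt_p, C.rt_p, h1]
  · rw [h.w (e i), C.rt_w, C.rt_w, h2, ← hr, ← h1 i]; rfl

variable [Finite F]

theorem exists_mon {s : A} (hs : s ∈ E.S) : ∃ θ, E.Mon s θ := by
  have key : ∀ r, ∀ s ∈ E.S, ∃ r', E.M1 s r r' := by
    refine C.root_ind (fun i s hs => ?_) fun i r hr s hs => ?_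
    · obtain ⟨j, h⟩ := E.M1_simple hs i
      exact ⟨_, h⟩
    · obtain ⟨j, ε, φ, h⟩ := E.M1_simple hs i
      obtain ⟨r', h'⟩ := hr s hs
      have := (((E.mon_D (pw ε (C.A j))) _).mul (E.M1_n j r')).mul (h'.mul (E.M1_n i r).inv)
      rw [← ME.conj_n h] at this
      exact ⟨_, by simpa [mul_assoc] using this⟩
  choose θ hθ using fun r => key r s hs
  exact ⟨Equiv.ofBijective θ (Finite.injective_iff_bijective.1 fun a b e =>
    (hθ a).inv.eq (e ▸ (hθ b).inv)), hθ⟩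

theorem Mon.perm {s : A} {θ : Equiv.Perm R} (h : E.Mon s θ) (hs : s ∈ E.S) :
    ∃ ρ : Equiv.Perm l, ∀ i, θ (C.p i) = C.p (ρ i) := by
  choose ρ hρ using E.M1_simple hs
  have := fun i => (h _).eq (hρ i)
  exact ⟨Equiv.ofBijective ρ (Finite.injective_iff_bijective.1 fun a b e =>
    p_inj (C := C) (θ.injective (by rw [this, this, e]))), this⟩

theorem Mon.sgn {s : A} {θ : Equiv.Perm R} (h : E.Mon s θ) (hs : s ∈ E.S) (r : R) :
    0 < C.f (C.rt (θ r)) ↔ 0 < C.f (C.rt r) :=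
  ⟨fun e => by simpa using h.inv.pos (inv_mem hs) _ e, h.pos hs r⟩

theorem S_nw {s : A} (hs : s ∈ E.S) (L : List l) :
    ∃ χ L', s * E.nw L * s⁻¹ = E.D χ * E.nw L' := by
  induction L with
  | nil => exact ⟨1, [], by simp [nw_nil]⟩
  | cons i L ih =>
    obtain ⟨χ, L', e⟩ := ih
    obtain ⟨j, ε, φ, h⟩ := E.M1_simple hs i
    refine ⟨pw ε (C.A j) * chm χ (C.sr j), j :: L', ?_⟩
    rw [nw_cons, nw_cons, D_mul, mul_assoc (E.D _), ← mul_assoc (E.D (chm _ _)), ← n_D,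
      mul_assoc (E.n j), ← e, ← mul_assoc (E.D _), ← ME.conj_n h]
    group

variable (E) in
/-- the monomial automorphisms -/
def NS : Subgroup A where
  carrier := {m | ∃ s ∈ E.S, ∃ L, m = s * E.nw L}
  one_mem' := ⟨1, one_mem _, [], by simp [nw_nil]⟩
  mul_mem' := by
    rintro _ _ ⟨s, hs, L, rfl⟩ ⟨s', hs', L', rfl⟩
    obtain ⟨χ, L₁, e⟩ := S_nw (inv_mem hs') L
    exact ⟨s * s' * E.D χ, mul_mem (mul_mem hs hs') (E.D_mem_S χ), L₁ ++ L', by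
      rw [nw_append, mul_assoc _ (E.D χ), ← mul_assoc (E.D χ), ← e]; group⟩
  inv_mem' := by
    rintro _ ⟨s, hs, L, rfl⟩
    obtain ⟨χ, L', e⟩ := E.nw_inv L
    obtain ⟨χ', L₁, e'⟩ := S_nw hs L'
    exact ⟨E.D χ * s⁻¹ * E.D χ', mul_mem (mul_mem (E.D_mem_S χ) (inv_mem hs)) (E.D_mem_S χ'),
      L₁, by rw [mul_assoc _ (E.D χ'), ← e', _root_.mul_inv_rev, e]; group⟩

theorem S_NS {s : A} (hs : s ∈ E.S) : s ∈ E.NS := ⟨s, hs, [], by simp [nw_nil]⟩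

variable (E) in
theorem nw_NS (L : List l) : E.nw L ∈ E.NS := ⟨1, one_mem _, L, by simp⟩

variable (E) in
theorem n_NS (i : l) : E.n i ∈ E.NS := by simpa [nw] using E.nw_NS [i]

theorem NS_mon {m : A} (hm : m ∈ E.NS) : ∃ π, E.Mon m π := by
  obtain ⟨s, hs, L, rfl⟩ := hm
  obtain ⟨θ, h⟩ := exists_mon hs
  exact ⟨_, h.mul (E.mon_nw L)⟩

theorem Mon.form {m : A} {π : Equiv.Perm R} (h : E.Mon m π) (hm : m ∈ E.NS) :
    ∃ s ∈ E.S, ∃ L, m = s * E.nw L ∧ ∀ r, 0 < C.f (C.rt (π r)) ↔ 0 < C.f (C.rt (C.wr L r)) := by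
  obtain ⟨s, hs, L, rfl⟩ := hm
  obtain ⟨θ, h'⟩ := exists_mon hs
  exact ⟨s, hs, L, rfl, fun r => by rw [h.eq (h'.mul (E.mon_nw L))]; exact h'.sgn hs _⟩

theorem Mon.reduce {m : A} {π : Equiv.Perm R} (h : E.Mon m π) (hm : m ∈ E.NS) {T : Set R}
    (hT : ∀ r ∈ T, ∀ i, C.p i ∉ T → C.w i r ∈ T) (h' : ∀ r ∈ T, 0 < C.f (C.rt (π r))) :
    ∃ s ∈ E.S, ∃ L, m = s * E.nw L ∧ ∀ i ∈ L, C.p i ∉ T := by
  obtain ⟨s, hs, L, rfl, h1⟩ := h.form hm
  obtain ⟨χ, L', e, h2⟩ := E.reduce hT L fun r hr => (h1 r).1 (h' r hr)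
  exact ⟨_, mul_mem hs (E.D_mem_S χ), L', by rw [e, mul_assoc], h2⟩

theorem Mon.S_of {m : A} {π : Equiv.Perm R} (h : E.Mon m π) (hm : m ∈ E.NS)
    (h' : ∀ i, 0 < C.f (C.rt (π (C.p i)))) : m ∈ E.S := by
  obtain ⟨s, hs, L, rfl, h1⟩ := h.form hm
  obtain ⟨χ, e⟩ := E.mem_H L fun i => (h1 _).1 (h' i)
  exact mul_mem hs (e ▸ E.D_mem_S χ)

theorem normal_form {u m v : A} (hu : u ∈ E.Up) (hm : m ∈ E.NS) (hv : v ∈ E.Up) :
    ∃ v₁ ∈ E.Up, ∃ v₂ ∈ E.Up, v = v₁ * v₂ ∧ m * v₁ * m⁻¹ ∈ E.Up ∧ m * v₂ * m⁻¹ ∈ E.Um ∧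
      u * m * v = u * (m * v₁ * m⁻¹) * m * v₂ := by
  obtain ⟨π, h⟩ := NS_mon hm
  obtain ⟨v₁, h1, v₂, h2, rfl⟩ := E.factor {r | 0 < C.f (C.rt (π r))} hv
  refine ⟨v₁, E.Xs_mono (fun r hr => hr.1) h1, v₂, E.Xs_mono (fun r hr => hr.1) h2, rfl,
    h.conj_mem (fun r hr => hr.2) h1, h.conj_mem (fun r hr => ?_) h2, by group⟩
  have h3 : ¬ 0 < C.f (C.rt (π r)) := hr.2
  have := C.f_ne (π r)
  change 1 ≤ -C.f _
  omega

theorem uniq {u u' m m' v v' : A} (hu : u ∈ E.Up) (hu' : u' ∈ E.Up) (hm : m ∈ E.NS)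
    (hm' : m' ∈ E.NS) (hv : v ∈ E.Up) (hv' : v' ∈ E.Up) (h1 : m * v * m⁻¹ ∈ E.Um)
    (h1' : m' * v' * m'⁻¹ ∈ E.Um) (h : u * m * v = u' * m' * v') : u = u' ∧ m = m' ∧ v = v' := by
  have hK : m' * m⁻¹ ∈ E.K := by
    rw [show m' * m⁻¹ = u'⁻¹ * u * (m * (v * v'⁻¹) * m⁻¹) by
      rw [show m' = u'⁻¹ * (u * m * v) * v'⁻¹ by rw [h]; group]; group]
    exact mul_mem (E.Xs_K (mul_mem (inv_mem hu') hu))
      (E.normal_K.conj_mem _ (E.Xs_K (mul_mem hv (inv_mem hv'))) _)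
  obtain ⟨ψ, e⟩ : ∃ ψ, m' * m⁻¹ = E.D ψ := by
    refine E.S_K hK ?_
    obtain ⟨s, hs, L, rfl⟩ := hm
    obtain ⟨s', hs', L', rfl⟩ := hm'
    obtain ⟨χ, e⟩ := E.S_K (k := s⁻¹ * s') (by
      rw [show s⁻¹ * s' = s⁻¹ * (s' * E.nw L' * (s * E.nw L)⁻¹) * s⁻¹⁻¹ * E.nw L * (E.nw L')⁻¹ by
        group]
      exact mul_mem (mul_mem (E.normal_K.conj_mem _ hK _) (E.nw_K _)) (inv_mem (E.nw_K _)))
      (mul_mem (inv_mem hs) hs')
    have h2 := E.unique (L := L) (L' := L') (χ := 1) (χ' := χ) (S_Up (inv_mem hs) hu)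
      (S_Up (inv_mem hs) hu') hv hv' (by
        rw [← e, _root_.map_one, ← mul_right_inj s]
        simpa only [mul_assoc, inv_inv, mul_inv_cancel_left, one_mul] using h)
    have h3 : E.wp L' = E.wp L := Equiv.ext fun r => (congrFun h2 r).symm
    have h4 := (E.mon_nw L').mul (E.mon_nw L).inv
    rw [h3, mul_inv_cancel] at h4
    convert mul_mem (mul_mem hs' (h4.mem_S fun _ h => h)) (inv_mem hs) using 1
    group
  obtain rfl : m' = E.D ψ * m := by rw [← e, inv_mul_cancel_right]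
  have h2 := E.udl (χ := 1) (χ' := ψ) hu hu' h1 (v' := m * v' * m⁻¹) (by
    have : _ ∈ E.Um := E.D_conj_mem ψ⁻¹ h1'
    simpa [D_inv, mul_assoc] using this) (by
    rw [_root_.map_one, mul_one, ← mul_assoc, ← mul_assoc, h]; group)
  exact ⟨h2.1, by rw [← h2.2.1, _root_.map_one, one_mul], by simpa using h2.2.2⟩

variable [Finite A] (r : ℕ) [Fact r.Prime] [CharP F r]

variable (E) in
theorem sylow : CfsgH1.IsSylowIn r E.Up E.K := by
  refine CfsgH1.isSylowIn_of_maximal (CfsgH1.isPGroup_iff_forall.2 fun u hu => E.pow_mem_U r hu)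
    (fun _ => E.Xs_K) fun Q hQ h1 h2 => CfsgH1.le_of_inf_normalizer_le hQ h1 fun k hk => ?_
  obtain ⟨u, hu, χ, rfl⟩ := E.borel (h2 hk.1) fun u => (mem_normalizer_iff.1 hk.2 u).1
  obtain ⟨a, ha⟩ := CfsgH1.isPGroup_iff_forall.1 hQ _ ((Q.mul_mem_cancel_left (h1 hu)).1 hk.1)
  rw [← map_pow, ← E.D.map_one] at ha
  have : χ = 1 := ch_ext fun j => by
    have := congrArg (cv · (Pi.single j 1)) (E.D_inj ha)
    simp only [cv_pow, cv_one] at this ⊢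
    rw [← sub_eq_zero, ← pow_eq_zero_iff (pow_ne_zero a (Fact.out : r.Prime).ne_zero),
      sub_pow_char_pow, this, one_pow, sub_self]
  simpa [this] using hu

include r in
/-- Steinberg's theorem -/
theorem bruhatA (a : A) : ∃ u ∈ E.Up, ∃ m ∈ E.NS, ∃ v ∈ E.Up, m * v * m⁻¹ ∈ E.Um ∧
    a = u * m * v := by
  have hN : ∀ a : A, a ∈ normalizer (E.K : Set A) := fun a => by
    rw [normalizer_eq_top]; trivial
  suffices ∃ s ∈ E.S, ∃ k ∈ E.K, a = s * k by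
    obtain ⟨s, hs, k, hk, rfl⟩ := this
    obtain ⟨u, hu, χ, L, v, hv, rfl⟩ := E.bruhat hk
    have hm : s * E.D χ * E.nw L ∈ E.NS := ⟨_, mul_mem hs (E.D_mem_S χ), L, rfl⟩
    obtain ⟨v₁, -, v₂, h2, -, h3, h4, e⟩ := normal_form (S_Up hs hu) hm hv
    exact ⟨_, mul_mem (S_Up hs hu) h3, _, hm, v₂, h2, h4, by rw [← e]; group⟩
  obtain ⟨b, hb, k, hk, rfl⟩ := (E.sylow r).frattini' (hN a)
  have hV := E.opp.sylow r
  rw [opp_Up, opp_K] at hV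
  obtain ⟨g, hg, e⟩ := (E.sylow r).exists_cj_eq (hV.cj_of_mem_normalizer (hN b))
  obtain ⟨u, hu, χ, L, v, hv, rfl⟩ := E.bruhat hg
  have hm := (E.mon_D χ).mul (E.mon_nw L)
  rw [mul_assoc u, ← CfsgH1.cj_cj, CfsgH1.cj_eq_of_mem hv, ← CfsgH1.cj_cj,
    CfsgH1.cj_eq_iff_eq_cj_inv, CfsgH1.cj_cj] at e
  have h1 : u⁻¹ * b ∈ normalizer (E.Up : Set A) := mul_mem (le_normalizer (inv_mem hu)) hb
  refine ⟨u⁻¹ * b, ⟨h1, CfsgH1.mem_normalizer_of_cj_le ?_⟩, b⁻¹ * u * b⁻¹⁻¹ * k,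
    mul_mem (E.normal_K.conj_mem _ (E.Xs_K hu) _) hk, by group⟩
  rw [← e, CfsgH1.cj_le_iff]
  refine fun x hx => hm.conj_mem (fun r hr => ?_) hx
  obtain ⟨t, h2, h3⟩ := (hm r).conj 1
  have h4 := CfsgH1.conj_mem_cj (E.D χ * E.nw L) (E.X_mem_U (g := C.f) (c := 1) hr 1)
  rw [e, h3, CfsgH1.mem_cj] at h4
  by_contra h5
  have h6 := C.f_ne ((1 * E.wp L) r)
  have h7 := (mem_normalizer_iff.1 (inv_mem h1) _).1 (E.X_mem_U (g := C.f) (c := 1)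
    (r := (1 * E.wp L) r) (by change ¬ 1 ≤ -C.f _ at h5; omega) t)
  rw [inv_inv] at h7
  have := E.UV h7 h4
  rw [mul_assoc, inv_mul_eq_one, eq_comm, mul_eq_right] at this
  exact h2 one_ne_zero (E.X_eq_one this)

include r in
theorem exists_S (a : A) : ∃ k ∈ E.K, ∃ s ∈ E.S, a = k * s := by
  obtain ⟨u, hu, _, ⟨s, hs, L, rfl⟩, v, hv, -, rfl⟩ := bruhatA (E := E) r a
  exact ⟨u * (s * (E.nw L * v) * s⁻¹), mul_mem (E.Xs_K hu) (E.normal_K.conj_mem _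
    (mul_mem (E.nw_K L) (E.Xs_K hv)) _), s, hs, by group⟩

include r in
theorem bruhatC {β a : A} (hβ : β ∈ E.S) (h : β * a * β⁻¹ = a) :
    ∃ u ∈ E.Up, ∃ m ∈ E.NS, ∃ v ∈ E.Up, a = u * m * v ∧ β * u * β⁻¹ = u ∧ β * m * β⁻¹ = m ∧
      β * v * β⁻¹ = v := by
  obtain ⟨u, hu, m, hm, v, hv, h1, rfl⟩ := bruhatA (E := E) r a
  refine ⟨u, hu, m, hm, v, hv, rfl, uniq (S_Up hβ hu) hu
    (mul_mem (mul_mem (S_NS hβ) hm) (inv_mem (S_NS hβ))) hm (S_Up hβ hv) hv ?_ h1 ?_⟩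
  · convert S_Um hβ h1 using 1; group
  · rw [← h]; group

include r in
/-- an involution is conjugate to the monomial part of its Bruhat decomposition -/
theorem invol (hr : r ≠ 2) {u m v : A} (hu : u ∈ E.Up) (hm : m ∈ E.NS) (hv : v ∈ E.Up)
    (h : (u * m * v) ^ 2 = 1) : ∃ k ∈ E.K, k * (u * m * v) * k⁻¹ = m := by
  obtain ⟨v₁, h1, v₂, h2, e, h3, h4, e'⟩ := normal_form (one_mem _) hm (mul_mem hv hu)
  have h5 := uniq (mul_mem (one_mem _) h3) (inv_mem (mul_mem hv hu)) hm (inv_mem hm) h2 (one_mem _)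
    h4 (by simpa using one_mem _) (by
      rw [← e', mul_one, one_mul, ← _root_.mul_inv_rev, eq_inv_iff_mul_eq_one, ← mul_right_inj u,
        ← mul_left_inj u⁻¹, mul_one, mul_inv_cancel, ← h, sq]
      group)
  obtain ⟨h6, -, rfl⟩ := h5
  rw [mul_one] at e
  rw [one_mul, e] at h6
  obtain ⟨a, ha⟩ := E.pow_mem_U r h1
  obtain ⟨b, hb⟩ := ((Fact.out : r.Prime).odd_of_ne_two hr).pow (n := a)
  have h7 : m * v₁ ^ (b + 1) * m⁻¹ = (v₁ ^ (b + 1))⁻¹ := by rw [← conj_pow, h6, inv_pow]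
  have h8 : v₁ ^ (b + 1) * v₁ ^ (b + 1) = v₁ := by
    rw [← pow_add, show b + 1 + (b + 1) = 2 * b + 1 + 1 by ring, ← hb, pow_succ, ha, one_mul]
  refine ⟨v₁ ^ (b + 1) * u⁻¹, E.Xs_K (mul_mem (pow_mem h1 _) (inv_mem hu)), ?_⟩
  generalize v₁ ^ (b + 1) = w at h7 h8
  calc _ = w * m * (v * u) * w⁻¹ := by group
    _ = w * (m * w * m⁻¹) * m := by rw [e, ← h8]; group
    _ = m := by rw [h7]; group

end Emb

end CfsgH8
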