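/-
Local balance for standard automorphisms of Chevalley groups: field automorphisms, polarities.
-/
import Cfsg.Agent.H8.CA4
import Cfsg.Agent.H7.Bal4

set_option autoImplicit false
set_option linter.unusedSectionVars false

namespace CfsgH8

open CfsgH7 Chev Subgroup

theorem sqrt_inv {A : Type*} [Group A] {c β : A} {n : ℕ} (hn : Odd n) (h : c ^ n = 1)
    (h' : β * c * β⁻¹ = c⁻¹) : ∃ k : ℕ, c ^ k * c ^ k = c ∧ β * c ^ k * β⁻¹ = (c ^ k)⁻¹ := by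
  obtain ⟨b, rfl⟩ := hn
  exact ⟨b + 1, by
    rw [← pow_add, show b + 1 + (b + 1) = 2 * b + 1 + 1 by ring, pow_succ, h, one_mul],
    by rw [← conj_pow, h', inv_pow]⟩

theorem conj_inv_eq {A : Type*} [Group A] (a b : A) : a * b⁻¹ * a⁻¹ = (a * b * a⁻¹)⁻¹ := by group

theorem mul_pow_norm {A : Type*} [Group A] {H : Subgroup A} {h d : A} (hh : h ∈ H)
    (hd : ∀ x ∈ H, d * x * d⁻¹ ∈ H) (n : ℕ) : ∃ h' ∈ H, (h * d) ^ n = h' * d ^ n := by
  induction n with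
  | zero => exact ⟨1, one_mem _, by simp⟩
  | succ n ih =>
    obtain ⟨h', h1, e⟩ := ih
    exact ⟨h * (d * h' * d⁻¹), mul_mem hh (hd _ h1), by rw [pow_succ', e, pow_succ']; group⟩

theorem fixed_aux {A : Type*} [Group A] {W : Subgroup A} {β a : A} (h2 : β * β = 1)
    (ha : a ∈ normalizer (W : Set A)) (hb : β * a * β⁻¹ ∈ W) (hW : ∀ w ∈ W, ∃ n, Odd n ∧ w ^ n = 1) :
    ∃ u ∈ W, β * (u * a) * β⁻¹ = u * a := by
  have hβ2 : β * (β * a * β⁻¹) * β⁻¹ = a := by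
    rw [show β * (β * a * β⁻¹) * β⁻¹ = β * β * a * (β * β)⁻¹ by group, h2]; simp
  obtain ⟨b, hb'⟩ : ∃ b, β * a * β⁻¹ = b := ⟨_, rfl⟩
  rw [hb'] at hb hβ2
  have hc : b * (a * b⁻¹ * a⁻¹) ∈ W := mul_mem hb ((mem_normalizer_iff.1 ha _).1 (inv_mem hb))
  obtain ⟨k, h1, hk⟩ := hW _ hc
  obtain ⟨n, e1, e2⟩ := sqrt_inv (β := β) h1 hk
    (by rw [← conj_mul, ← conj_mul, ← conj_mul, conj_inv_eq β a, conj_inv_eq β b, hβ2, hb']
        group)
  refine ⟨_ * (a * b * a⁻¹), mul_mem (pow_mem hc n) ((mem_normalizer_iff.1 ha _).1 hb), ?_⟩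
  rw [mul_assoc _ _ a, inv_mul_cancel_right, ← conj_mul, e2, ← conj_mul, hb',
    hβ2, inv_mul_eq_iff_eq_mul, ← mul_assoc _ _ (a * b), e1]
  group

theorem perm_eq_one {R : Type*} {θ : Equiv.Perm R} {n : ℕ} (hn : n.Coprime 2) (h : θ ^ n = 1)
    (h2 : θ * θ = 1) : θ = 1 := by
  obtain ⟨b, rfl⟩ := Nat.coprime_two_right.1 hn
  rwa [pow_succ, pow_mul, sq, h2, one_pow, one_mul] at h

variable {ι R l F : Type*} [Fintype ι] [DecidableEq ι] [Fintype l] [DecidableEq l] [Field F]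

/-- coordinate functional -/
def cd (i : l) : (l → ℤ) →+ ℤ := Pi.evalAddMonoidHom (fun _ => ℤ) i

theorem cd_apply (i : l) (v : l → ℤ) : cd i v = v i := rfl

namespace Emb

variable {C : Chev ι R l F} {A : Type*} [Group A] (E : Emb C A)

/-- local balance -/
def BalA (p : ℕ) (β : A) : Prop := ∀ N : Subgroup A, (∀ y ∈ N, β * y * β⁻¹ = y) →
  (Nat.card N).Coprime p → (∀ k ∈ E.K, β * k * β⁻¹ = k → ∀ y ∈ N, k * y * k⁻¹ ∈ N) → N = ⊥

/-- the setting for local balance -/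
structure Ctx (r p : ℕ) (β : A) (N H : Subgroup A) : Prop where
  hβ : β ∈ E.S
  nrm : ∀ k ∈ E.K, β * k * β⁻¹ = k → ∀ y ∈ N, k * y * k⁻¹ ∈ N
  NH : N ≤ H
  UH : ∀ u ∈ E.Up, β * u * β⁻¹ = u → u ∈ H
  dec : ∀ h ∈ H, ∃ y ∈ N, ∃ u ∈ E.Up, β * u * β⁻¹ = u ∧ h = y * u
  fix : ∀ h ∈ H, β * h * β⁻¹ = h
  cop : ∀ h ∈ H, (orderOf h).Coprime p

theorem Xs_norm {g : (l → ℤ) →+ ℤ} {S : Set R} (hS : ∀ r ∈ S, 0 ≤ g (C.rt r)) :
    E.Xs S ≤ normalizer (E.U g 1 : Set A) := fun u hu =>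
  mem_normalizer_iff.2 fun v => ⟨E.U_norm one_pos hS hu, fun h => by
    simpa [mul_assoc] using E.U_norm one_pos hS (inv_mem hu) h⟩

theorem Up_norm {g : (l → ℤ) →+ ℤ} (hg : ∀ i, 0 ≤ g (Pi.single i 1)) :
    E.Up ≤ normalizer (E.U g 1 : Set A) :=
  E.Xs_norm fun _ hr => dom_nonneg hg (C.rt_nonneg hr)

theorem U_le {g : (l → ℤ) →+ ℤ} (hg : ∀ i, 0 ≤ g (Pi.single i 1)) : E.U g 1 ≤ E.Up :=
  E.Xs_mono fun _ hr => C.pos_of_dom hg hr

theorem U_le' {g : (l → ℤ) →+ ℤ} (hg : ∀ i, 0 ≤ g (Pi.single i 1)) : E.U (-g) 1 ≤ E.Um :=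
  E.Xs_mono fun r hr => by
    have := C.pos_of_dom hg (r := C.neg r) (by rw [C.rt_neg, map_neg]; exact hr)
    rwa [f_neg] at this

theorem nw_Xs {S : Set R} {L : List l} (h : ∀ i ∈ L, C.p i ∈ S ∧ C.neg (C.p i) ∈ S) :
    E.nw L ∈ E.Xs S :=
  E.nw_mem fun i hi => mul_mem (mul_mem (E.X_mem (h i hi).1 _) (E.X_mem (h i hi).2 _))
    (E.X_mem (h i hi).1 _)

theorem U_gf (i : l) : E.U (C.gf i) 1 ≤ E.Up := E.Xs_mono fun _ hr => C.f_pos_of i hr

theorem D_pow (χ : Ch l F) (k : ℕ) : E.D (χ ^ k) = E.D χ ^ k := _root_.map_pow E.D χ k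

variable {E}

theorem Mon.opp {m : A} {π : Equiv.Perm R} (h : E.Mon m π) : E.opp.Mon m π := fun r => (h r).neg

theorem Mon.norm {s : A} (h : E.Mon s 1) (S : Set R) : s ∈ normalizer (E.Xs S : Set A) :=
  mem_normalizer_iff.2 fun _ => ⟨h.conj_mem fun _ h => h, fun e => by
    simpa [mul_assoc] using h.inv.conj_mem (fun _ h => h) e⟩

theorem M1.even {m : A} {r : R} (h : E.M1 m r (C.neg r)) (hc : (orderOf m).Coprime 2) :
    False := by
  obtain ⟨b, hb⟩ := Nat.coprime_two_right.1 hc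
  have h1 : E.M1 (m * m) r r := by simpa [neg_neg'] using h.neg.mul h
  have h2 : ∀ k : ℕ, E.M1 ((m * m) ^ k) r r := fun k => by
    induction k with
    | zero => simpa using E.mon_one r
    | succ k ih => rw [pow_succ]; exact ih.mul h1
  have h3 := h.mul (h2 b)
  rw [← sq, ← pow_mul, ← pow_succ', ← hb, pow_orderOf_eq_one] at h3
  have h4 := congrArg (fun r => C.f (C.rt r)) (h3.eq (E.mon_one r))
  have := C.f_ne r
  simp only [f_neg, Equiv.Perm.one_apply] at h4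
  omega

theorem Mon.comm {β m : A} {θ π : Equiv.Perm R} (h : E.Mon β θ) (h' : E.Mon m π)
    (e : β * m * β⁻¹ = m) (r : R) : θ (π r) = π (θ r) :=
  congrArg (fun θ : Equiv.Perm R => θ r) ((h.mul h').eq (π' := π * θ) (by
    rw [mul_inv_eq_iff_eq_mul.1 e]; exact h'.mul h))

theorem split_eq {i : l} {u u' : A} {a b : F} (hu : u ∈ E.U (C.gf i) 1) (hu' : u' ∈ E.U (C.gf i) 1)
    (h : u * E.X (C.p i) a = u' * E.X (C.p i) b) : a = b := by
  by_contra h1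
  have := E.le_of_mem_U one_pos (sub_ne_zero.2 h1) (g := C.gf i) (r := C.p i) (by
    rw [sub_eq_add_neg, X_add, X_neg, show E.X (C.p i) a = u⁻¹ * (u' * E.X (C.p i) b) by
      rw [← h, inv_mul_cancel_left], mul_assoc, mul_inv_cancel_right]
    exact mul_mem (inv_mem hu) hu')
  rw [gf_p] at this
  omega

variable [Finite R] [Finite F] [Finite A] {r p : ℕ} [Fact r.Prime] [CharP F r] {β : A}
  {N H : Subgroup A}

theorem exists_ctx [Fact p.Prime] (hpr : p ≠ r) (hβ : β ∈ E.S) (h1 : ∀ y ∈ N, β * y * β⁻¹ = y)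
    (h2 : (Nat.card N).Coprime p)
    (h3 : ∀ k ∈ E.K, β * k * β⁻¹ = k → ∀ y ∈ N, k * y * k⁻¹ ∈ N) : ∃ H, E.Ctx r p β N H := by
  have hc : ∀ u, u ∈ E.Up ⊓ centralizer {β} ↔ u ∈ E.Up ∧ β * u * β⁻¹ = u := fun u => by
    rw [mem_inf, mem_centralizer_singleton_iff, mul_inv_eq_iff_eq_mul, eq_comm]
  have hn : E.Up ⊓ centralizer {β} ≤ normalizer (N : Set A) := fun u hu =>
    CfsgH1.mem_normalizer_of_cj_le (CfsgH1.cj_le_iff.2 (h3 u (E.Xs_K hu.1) ((hc u).1 hu).2))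
  have hd : ∀ h ∈ N ⊔ E.Up ⊓ centralizer {β},
      ∃ y ∈ N, ∃ u ∈ E.Up, β * u * β⁻¹ = u ∧ h = y * u := fun h hh => by
    obtain ⟨y, hy, u, hu, rfl⟩ := (CfsgH1.mem_sup_of_le_normalizer' hn).1 hh
    exact ⟨y, hy, u, hu.1, ((hc u).1 hu).2, rfl⟩
  refine ⟨N ⊔ E.Up ⊓ centralizer {β}, hβ, h3, le_sup_left,
    fun u hu e => mem_sup_right ((hc u).2 ⟨hu, e⟩), hd, fun h hh => ?_, fun h hh => ?_⟩
  · obtain ⟨y, hy, u, -, e, rfl⟩ := hd h hh
    rw [← conj_mul, e, h1 y hy]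
  · obtain ⟨y, hy, u, hu, e, rfl⟩ := hd h hh
    obtain ⟨a, ha⟩ := E.pow_mem_U r hu
    obtain ⟨y', hy', e'⟩ := mul_pow_norm hy (h3 u (E.Xs_K hu) e) (r ^ a)
    rw [ha, mul_one] at e'
    have : orderOf (y * u) ∣ r ^ a * Nat.card N := orderOf_dvd_of_pow_eq_one (by
      rw [pow_mul, e']
      exact congrArg Subtype.val (pow_card_eq_one' (x := (⟨y', hy'⟩ : N))))
    exact (Nat.Coprime.mul_left (Nat.Coprime.pow_left a
      ((Nat.coprime_primes Fact.out Fact.out).2 hpr.symm)) h2).coprime_dvd_left this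

namespace Ctx

variable (c : E.Ctx r p β N H)
include c

theorem bruhat {y : A} (hy : y ∈ H) :
    ∃ u ∈ E.Up, ∃ m ∈ E.NS, ∃ v ∈ E.Up, y = u * m * v ∧ m ∈ H := by
  obtain ⟨u, hu, m, hm, v, hv, rfl, h1, -, h2⟩ := bruhatC r c.hβ (c.fix y hy)
  exact ⟨u, hu, m, hm, v, hv, rfl, by
    rwa [H.mul_mem_cancel_right (c.UH v hv h2), H.mul_mem_cancel_left (c.UH u hu h1)] at hy⟩

theorem normH {k : A} (hk : k ∈ E.K) (hS : k ∈ E.S) (h : β * k * β⁻¹ = k) {x : A} (hx : x ∈ H) :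
    k * x * k⁻¹ ∈ H := by
  obtain ⟨y, hy, u, hu, e, rfl⟩ := c.dec x hx
  rw [← conj_mul]
  refine mul_mem (c.NH (c.nrm k hk h y hy)) (c.UH _ (S_Up hS hu) ?_)
  rw [← conj_mul, ← conj_mul, h, e, conj_inv_eq β k, h]

theorem cent {g : (l → ℤ) →+ ℤ} (hg : ∀ i, 0 ≤ g (Pi.single i 1))
    (h1 : N ≤ normalizer (E.U g 1 : Set A)) (h2 : N ≤ normalizer (E.U (-g) 1 : Set A))
    {y : A} (hy : y ∈ N) {x : A} (hx : x ∈ E.U g 1 ∨ x ∈ E.U (-g) 1) (h : β * x * β⁻¹ = x) :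
    y * x * y⁻¹ = x := by
  have h3 : x⁻¹ * (y * x * y⁻¹) ∈ N := by
    have := c.nrm x⁻¹ (inv_mem (hx.elim E.Xs_K E.Xs_K)) (by rw [conj_inv_eq, h]) y hy
    simpa [mul_assoc] using mul_mem this (inv_mem hy)
  rw [eq_comm, ← inv_mul_eq_one]
  rcases hx with hx | hx
  · exact E.NP' hg (mul_mem (inv_mem hx) ((mem_normalizer_iff.1 (h1 hy) x).1 hx))
      fun v hv => E.U_le' hg ((mem_normalizer_iff.1 (h2 h3) v).1 hv)
  · exact E.NP hg (mul_mem (inv_mem hx) ((mem_normalizer_iff.1 (h2 hy) x).1 hx))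
      fun v hv => E.U_le hg ((mem_normalizer_iff.1 (h1 h3) v).1 hv)

theorem field_np {σ : F ≃+* F} (hσ : ∀ r t, β * E.X r t * β⁻¹ = E.X r (σ t)) {m : A}
    {π : Equiv.Perm R} (hm : m ∈ H) (h : E.Mon m π) {s : R}
    (h' : ∀ t, σ t = t → E.X (C.neg (π s)) t ∈ H) (t : F) (ht : σ t = t) :
    E.X (C.neg s) t ∈ H := by
  obtain ⟨t', -, e⟩ := (h s).neg.conj t
  have := h' t' (E.X_inj (by
    rw [← hσ, ← e, ← conj_mul, ← conj_mul, conj_inv_eq β m, c.fix m hm, hσ, ht]))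
  rwa [← e, H.mul_mem_cancel_right (inv_mem hm), H.mul_mem_cancel_left hm] at this

theorem field_norm [Fact p.Prime] {σ : F ≃+* F} (hσ : ∀ r t, β * E.X r t * β⁻¹ = E.X r (σ t))
    (hconn : ∀ J : Set l, J.Nonempty → (∀ i j, j ∈ J → C.A i (Pi.single j 1) ≠ 0 → i ∈ J) →
      ∀ i, i ∈ J)
    {x : A} (hx : x ∈ E.K) (hx' : β * x * β⁻¹ = x) (ho : orderOf x = p) :
    N ≤ normalizer (E.Up : Set A) := by
  let T : Set R := {r | ¬∀ t, σ t = t → E.X (C.neg r) t ∈ H}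
  have hU : ∀ r t, 0 < C.f (C.rt r) → σ t = t → E.X r t ∈ H := fun r t hr ht =>
    c.UH _ (E.X_mem_U hr t) (by rw [hσ, ht])
  have hp : ∀ i, 0 < C.f (C.rt (C.p i)) := C.f_p
  have hn : ∀ i, C.p i ∉ T → E.n i ∈ H := fun i hi =>
    mul_mem (mul_mem (hU _ _ (hp i) (_root_.map_one σ)) (not_not.1 hi _ (by simp)))
      (hU _ _ (hp i) (_root_.map_one σ))
  have hβn : ∀ i, β * E.n i * β⁻¹ = E.n i := fun i => by
    rw [n, ← conj_mul, ← conj_mul, hσ, hσ]; simp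
  have hred : ∀ y ∈ H, ∃ u ∈ E.Up, ∃ s ∈ E.S, ∃ L, ∃ v ∈ E.Up, y = u * (s * E.nw L) * v ∧
      ∀ i ∈ L, C.p i ∉ T := fun y hy => by
    obtain ⟨u, hu, m, hm, v, hv, rfl, hH⟩ := c.bruhat hy
    obtain ⟨π, h⟩ := NS_mon hm
    obtain ⟨s, hs, L, rfl, h1⟩ := h.reduce hm (T := T)
      (fun r hr i hi h => hr (c.field_np hσ (hn i hi) (E.mon_n i) h)) fun r hr => by
        by_contra h1
        refine hr (c.field_np hσ hH h fun t => hU _ t ?_)
        have := C.f_ne (π r)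
        rw [f_neg]; omega
    exact ⟨u, hu, s, hs, L, v, hv, rfl, h1⟩
  by_cases hJ : Set.Nonempty {i | C.p i ∉ T}
  swap
  · intro y hy
    obtain ⟨u, hu, s, hs, L, v, hv, rfl, h1⟩ := hred y (c.NH hy)
    obtain rfl : L = [] := List.eq_nil_iff_forall_not_mem.2 fun i hi => hJ ⟨i, h1 i hi⟩
    exact mul_mem (mul_mem (le_normalizer hu) (mul_mem hs.1 (one_mem _))) (le_normalizer hv)
  have hall := hconn _ hJ fun i j hj hA => by
    by_contra hi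
    have hij : j ≠ i := by rintro rfl; exact hi hj
    obtain ⟨y, hy, u, hu, e1, e2⟩ := c.dec _ (not_not.1 hj 1 (_root_.map_one σ))
    obtain ⟨a, u', hu', rfl⟩ := E.U_split i hu
    have hθ : E.Mon β 1 := fun r => ⟨1, σ, by simpa using hσ r, by simpa using hσ _⟩
    have ha : σ a = a := split_eq (hθ.conj_mem (fun _ h => h) hu') hu' (by
      rw [← hσ, conj_mul, e1])
    rw [← conj_mul, hσ, ha, mul_left_inj] at e1
    obtain ⟨η, h1, h2⟩ := (E.M1_n i (C.p j)).neg.conj 1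
    have h3 : E.n i * u' * (E.n i)⁻¹ ∈ E.U (C.gf i) 1 := (E.mon_n i).conj_mem (fun r hr => by
      change 1 ≤ C.gf i (C.rt (C.w i r))
      rwa [rt_w', gf_sr]) hu'
    have h4 : E.X (C.neg (C.w i (C.p j))) η * E.X (C.neg (C.p i)) a ∈ H := by
      rw [← h2, e2, ← conj_mul, ← conj_mul, n_p, mul_assoc _ _ (E.X _ a), mul_assoc _ _ (E.X _ a),
        ← X_add, neg_add_cancel, X_zero, mul_one]
      refine mul_mem (c.NH (c.nrm _ (E.n_K i) (hβn i) y hy)) (c.UH _ (E.U_gf i h3) ?_)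
      rw [← conj_mul, ← conj_mul, conj_inv_eq β (E.n i), hβn, e1]
    obtain ⟨u, hu, s, hs, L, v, hv, e, h5⟩ := hred _ h4
    have hg : ∀ k, 0 ≤ cd i (Pi.single k 1 : l → ℤ) := fun k => by
      rw [cd_apply, Pi.single_apply]; split_ifs <;> simp
    obtain ⟨χ, rfl⟩ := E.S_K (k := s) (by
      rw [show s = u⁻¹ * (u * (s * E.nw L) * v) * v⁻¹ * (E.nw L)⁻¹ by group, ← e]
      exact mul_mem (mul_mem (mul_mem (inv_mem (E.Xs_K hu)) (mul_mem (E.X_K _ _) (E.X_K _ _)))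
        (inv_mem (E.Xs_K hv))) (inv_mem (E.nw_K L))) hs
    have h6 := E.NP hg (y := E.X (C.neg (C.w i (C.p j))) η * E.X (C.neg (C.p i)) a)
      (mul_mem (E.X_mem_U (by
        have h7 := C.rt_nonneg (C.w_pos i (hp j) fun e => hij (p_inj (C := C) e)) i
        rw [C.rt_neg, map_neg, AddMonoidHom.neg_apply, neg_neg, cd_apply]
        rw [C.rt_w, C.rt_p] at h7 ⊢
        simp [Pi.single_eq_of_ne hij.symm] at h7 ⊢
        omega) _) (E.X_mem_U (by simp [C.rt_neg, C.rt_p, cd_apply]) _)) fun w hw => by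
      refine E.U_le hg ((mem_normalizer_iff.1 ?_ w).1 hw)
      rw [e]
      refine mul_mem (mul_mem (E.Up_norm hg hu) (mul_mem ((E.mon_D χ).norm _) (E.Xs_norm
        (S := {r | C.rt r i = 0}) (fun r hr => Eq.ge (a := C.rt r i) hr) (E.nw_Xs fun k hk => ?_)))) (E.Up_norm hg hv)
      have : i ≠ k := by rintro rfl; exact hi (h5 i hk)
      simp [C.rt_neg, C.rt_p, Pi.single_eq_of_ne this]
    rw [mul_eq_one_iff_eq_inv, ← X_neg] at h6
    have h7 := congrArg (fun r => C.w i (C.neg r)) (E.root_eq (h1 one_ne_zero) h6)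
    simp only [neg_neg', w_w, w_p] at h7
    exact p_ne_np (C := C) j i h7.symm
  exfalso
  obtain ⟨i₀, -⟩ := hJ
  have hp2 : p ≠ 2 := by
    rintro rfl
    exact (C.w_p i₀ ▸ E.M1_n i₀ (C.p i₀)).even (c.cop _ (hn i₀ (hall i₀)))
  obtain ⟨u, hu, _, ⟨s, hs, L, rfl⟩, v, hv, rfl, h1, h2, h3⟩ := bruhatC r c.hβ hx'
  have hL : E.nw L ∈ H := E.nw_mem fun i _ => hn i (hall i)
  obtain ⟨χ, rfl⟩ := E.S_K (k := s) (by
    rwa [E.K.mul_mem_cancel_right (E.Xs_K hv), E.K.mul_mem_cancel_left (E.Xs_K hu),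
      E.K.mul_mem_cancel_right (E.nw_K L)] at hx) hs
  have hK : E.D χ ∈ E.K := by
    rwa [E.K.mul_mem_cancel_right (E.Xs_K hv), E.K.mul_mem_cancel_left (E.Xs_K hu),
      E.K.mul_mem_cancel_right (E.nw_K L)] at hx
  rw [← conj_mul, c.fix _ hL, mul_left_inj] at h2
  have hD := fun x => c.normH (x := x) hK hs h2
  have h4 : u * (E.D χ * (E.nw L * v) * (E.D χ)⁻¹) ∈ H :=
    mul_mem (c.UH u hu h1) (hD _ (mul_mem hL (c.UH v hv h3)))
  obtain ⟨h', h5, e⟩ := mul_pow_norm h4 hD p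
  rw [show u * (E.D χ * (E.nw L * v) * (E.D χ)⁻¹) * E.D χ = u * (E.D χ * E.nw L) * v by group,
    ← ho, pow_orderOf_eq_one, ho, eq_comm, mul_eq_one_iff_inv_eq] at e
  by_cases hd : p ∣ orderOf (E.D χ)
  · obtain ⟨k, hk⟩ := hd
    have h6 : orderOf (E.D χ ^ k) = p := by
      have := orderOf_pos (E.D χ)
      rw [orderOf_pow' _ (by rintro rfl; omega), hk, Nat.gcd_mul_left_left,
        Nat.mul_div_cancel _ (by rcases k with _ | k <;> omega)]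
    have h7 : β * E.D (χ ^ k) * β⁻¹ = E.D (χ ^ k) := by rw [D_pow, ← conj_pow, h2]
    rw [← D_pow] at h6
    generalize χ ^ k = ψ at h6 h7
    obtain ⟨i, hi⟩ : ∃ i, cv ψ (C.rt (C.p i)) ≠ 1 := by
      by_contra h
      push Not at h
      rw [ch_ext' C (χ := ψ) (χ' := 1) (by simpa [cv_one] using h), _root_.map_one,
        orderOf_one] at h6
      exact (Fact.out : p.Prime).ne_one h6.symm
    obtain ⟨ζ, hζ⟩ : ∃ ζ : Fˣ, ζ = cv ψ (C.rt (C.p i)) := ⟨Units.mk0 _ (cv_ne _ _), rfl⟩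
    have h8 : ζ ^ p = 1 := Units.ext (by
      rw [Units.val_pow_eq_pow_val, hζ, ← cv_pow, E.D_inj (a₁ := ψ ^ p) (a₂ := 1) (by
        rw [D_pow, ← h6, pow_orderOf_eq_one, _root_.map_one]), cv_one, Units.val_one])
    have h9 : σ ζ = ζ := E.X_inj (r := C.p i) (by
      rw [← hσ, hζ, ← mul_one (cv ψ _), ← D_conj, ← conj_mul, ← conj_mul, conj_inv_eq β (E.D ψ),
        h7, hσ, _root_.map_one])
    have h10 : E.D (pw ζ (C.A i)) ∈ H := by
      rw [← H.mul_mem_cancel_right (hn i (hall i)), ← nn_eq]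
      exact mul_mem (mul_mem (hU _ _ (hp i) h9) (not_not.1 (hall i) _ (by simp [h9])))
        (hU _ _ (hp i) h9)
    have h11 := E.D_inj ((eq_one_of_pow_coprime (c.cop _ h10) (by
      rw [← D_pow, show pw ζ (C.A i) ^ p = 1 from ch_ext fun j => by
        rw [cv_pow, cv_pw, cv_one, ← zpow_natCast, ← zpow_mul, mul_comm, zpow_mul, zpow_natCast,
          ← Units.val_pow_eq_pow_val, h8, Units.val_one, one_zpow], _root_.map_one])).trans
      E.D.map_one.symm)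
    have h12 := C.cv_A_p ζ i
    rw [h11, cv_one, ← Units.val_pow_eq_pow_val, eq_comm, Units.val_eq_one] at h12
    have := pow_gcd_eq_one.2 ⟨h8, h12⟩
    rw [(Nat.coprime_primes Fact.out Nat.prime_two).2 hp2, pow_one] at this
    exact hi (by rw [← hζ, this, Units.val_one])
  · obtain ⟨k, hk⟩ := exists_pow_eq_self_of_coprime (x := E.D χ)
      (((Fact.out : p.Prime).coprime_iff_not_dvd).2 hd)
    have h6 := c.cop _ (mul_mem h4 (hk ▸ e ▸ pow_mem (inv_mem h5) k : E.D χ ∈ H))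
    rw [show u * (E.D χ * (E.nw L * v) * (E.D χ)⁻¹) * E.D χ = u * (E.D χ * E.nw L) * v by group,
      ho, Nat.coprime_self] at h6
    exact (Fact.out : p.Prime).ne_one h6

omit c in
theorem pol_norm (c : E.Ctx r 2 β N H) {θ : Equiv.Perm R} (hθ : E.Mon β θ)
    (h : ∀ i j, j = i ∨ θ (C.p i) = C.p j) : N ≤ normalizer (E.Up : Set A) := by
  intro y hy
  obtain ⟨u, hu, m, hm, v, hv, rfl, hH⟩ := c.bruhat (c.NH hy)
  obtain ⟨π, hπ⟩ := NS_mon hm
  refine mul_mem (mul_mem (le_normalizer hu) (hπ.S_of hm fun i => ?_).1) (le_normalizer hv)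
  by_contra h1
  have h2 : ∀ j, ¬ 0 < C.f (C.rt (π (C.p j))) := fun j => by
    rcases h i j with rfl | e
    · exact h1
    · rwa [← e, ← hθ.comm hπ (c.fix m hH), hθ.sgn c.hβ]
  have h3 : ∀ r, 0 < C.f (C.rt r) → C.f (C.rt (π r)) < 0 := fun r hr => by
    obtain ⟨s, hs, L, -, h4⟩ := hπ.form hm
    have h5 := dom_nonneg (g := -C.f.comp (C.wl L)) (fun j => by
      have := mt (h4 _).2 (h2 j)
      rw [(E.hE.acts_nw L).rt, C.rt_p] at this
      simpa using this) (C.rt_nonneg hr)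
    have h6 := h4 r
    have := C.f_ne (π r)
    rw [(E.hE.acts_nw L).rt] at h6
    simp only [AddMonoidHom.neg_apply, AddMonoidHom.comp_apply] at h5
    omega
  have h4 : ∀ r, 0 < C.f (C.rt r) → 0 < C.f (C.rt (π (π r))) := fun r hr => by
    have := h3 (C.neg (π r)) (by have := h3 r hr; rw [f_neg]; omega)
    rw [hπ.neg, f_neg] at this
    omega
  have h5 : ∀ k : ℕ, 0 < C.f (C.rt (((π * π) ^ k) (C.p i))) := fun k => by
    induction k with
    | zero => exact C.f_p i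
    | succ k ih => rw [pow_succ']; exact h4 _ ih
  obtain ⟨b, hb⟩ := Nat.coprime_two_right.1 (c.cop m hH)
  have h6 := (hπ.pow (2 * b + 1)).eq (by rw [← hb, pow_orderOf_eq_one]; exact E.mon_one)
  have := h3 _ (h5 b)
  rw [← Equiv.Perm.mul_apply, ← sq, ← pow_mul, ← pow_succ', h6] at this
  exact absurd (C.f_p i) (not_lt.2 this.le)

end Ctx

theorem bal_field [Fact p.Prime] (hpr : p ≠ r) {σ : F ≃+* F} (hp : σ ^ p = 1)
    (hσ : ∀ r t, β * E.X r t * β⁻¹ = E.X r (σ t))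
    (hconn : ∀ J : Set l, J.Nonempty → (∀ i j, j ∈ J → C.A i (Pi.single j 1) ≠ 0 → i ∈ J) →
      ∀ i, i ∈ J)
    {x : A} (hx : x ∈ E.K) (hx' : β * x * β⁻¹ = x) (ho : orderOf x = p) : E.BalA p β := by
  intro N h1 h2 h3
  have hθ : E.Mon β 1 := fun r => ⟨1, σ, by simpa using hσ r, by simpa using hσ _⟩
  have hβ := hθ.mem_S fun _ h => h
  obtain ⟨H, c⟩ := exists_ctx hpr hβ h1 h2 h3
  obtain ⟨H', c'⟩ := exists_ctx (E := E.opp) hpr (E.opp_S.symm ▸ hβ) h1 h2 (E.opp_K.symm ▸ h3)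
  have h4 := c.field_norm hσ hconn hx hx' ho
  have h5 := c'.field_norm (fun r => hσ _) hconn (E.opp_K.symm ▸ hx) hx' ho
  rw [opp_Up] at h5
  refine eq_bot_iff.2 fun y hy => eq_one_of_pow_coprime (c.cop y (c.NH hy)) ?_
  have key : ∀ i, ∃ φ : F ≃+* F, φ ^ p = 1 ∧ E.ME y (C.p i) (C.p i) 1 φ := fun i => by
    obtain ⟨j, ε, φ, h⟩ := E.M1_simple (s := y) ⟨h4 hy, h5 hy⟩ i
    have h6 := fun t (ht : σ t = t) => (h.1 t).symm.trans (c.cent (fun i => (C.f_pos i).le) h4 h5 hy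
      (.inl (E.X_p_mem i t)) (by rw [hσ, ht]))
    have h7 := h6 1 (_root_.map_one σ)
    rw [_root_.map_one, mul_one] at h7
    obtain rfl := p_inj (C := C) (E.root_eq ε.ne_zero h7)
    obtain rfl : ε = 1 := Units.ext (E.X_inj h7)
    obtain ⟨k, hk⟩ := mem_zpowers_of_fix (τ := σ) (σ := φ) fun t ht => by
      simpa using E.X_inj (h6 t ht)
    exact ⟨φ, by rw [← hk, ← zpow_natCast, ← zpow_mul, mul_comm, zpow_mul, zpow_natCast, hp,
      one_zpow], h⟩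
  have key2 : ∀ {r} {φ : F ≃+* F}, (∀ t, y * E.X r t * y⁻¹ = E.X r (φ t)) →
      ∀ (k : ℕ) t, y ^ k * E.X r t * (y ^ k)⁻¹ = E.X r ((φ ^ k) t) := by
    intro r φ h k
    induction k with
    | zero => simp
    | succ k ih =>
      intro t
      rw [pow_succ' φ, RingAut.mul_apply, ← h, ← ih, pow_succ']; group
  refine E.eq_one (fun i t => ?_) fun i t => ?_ <;> obtain ⟨φ, h6, h7⟩ := key i
  · rw [key2 (φ := φ) (by simpa using h7.1), h6]; rfl
  · rw [key2 (φ := φ) (by simpa using h7.2), h6]; rfl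

theorem exists_fixed (hr : 2 ≠ r) (hβ : β ∈ E.S) (h2 : β * β = 1) {θ : Equiv.Perm R}
    (hθ : E.Mon β θ) {i : l} (h' : θ (C.p i) ≠ C.p i) (t : F) : ∃ u ∈ E.U (C.gf i) 1,
      β * (u * E.X (C.p i) t) * β⁻¹ = u * E.X (C.p i) t := by
  obtain ⟨ρ', hρ'⟩ := hθ.perm hβ
  obtain ⟨t', -, e⟩ := (hθ (C.p i)).conj t
  have hb : β * E.X (C.p i) t * β⁻¹ ∈ E.U (C.gf i) 1 := by
    have h1 : 0 < C.f (C.rt (θ (C.p i))) := by rw [hρ']; exact C.f_p _
    rw [e]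
    exact E.X_mem_U ((C.gf_pos_of i h1).resolve_left h') _
  refine fixed_aux h2 (E.Xs_norm (S := {r | r = C.p i}) (fun r hr => ?_) 
    (E.X_mem (S := {r | r = C.p i}) (r := C.p i) rfl t)) hb fun w hw => ?_
  · rw [show r = C.p i from hr, gf_p]
  · obtain ⟨k, hk⟩ := E.pow_mem_U r (E.U_gf i hw)
    exact ⟨_, ((Fact.out : r.Prime).odd_of_ne_two hr.symm).pow, hk⟩

theorem bal_pol (hr : 2 ≠ r) (hβ : β ∈ E.S) (h2 : β * β = 1) {θ : Equiv.Perm R} (hθ : E.Mon β θ)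
    (h : ∀ i j, j = i ∨ θ (C.p i) = C.p j) (h' : ∀ i, θ (C.p i) ≠ C.p i) : E.BalA 2 β := by
  intro N h1 h3 h4
  obtain ⟨H, c⟩ := exists_ctx hr hβ h1 h3 h4
  obtain ⟨H', c'⟩ := exists_ctx (E := E.opp) hr (E.opp_S.symm ▸ hβ) h1 h3 (E.opp_K.symm ▸ h4)
  have h5 := c.pol_norm hθ h
  have h6 := c'.pol_norm hθ.opp h
  rw [opp_Up] at h6
  refine eq_bot_iff.2 fun y hy => ?_
  have hy' : y ∈ E.S := ⟨h5 hy, h6 hy⟩
  obtain ⟨π, hπ⟩ := exists_mon hy'
  obtain ⟨ρ, hρ⟩ := hπ.perm hy'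
  obtain rfl : π = 1 := perm_eq_one (c.cop y (c.NH hy)) ((hπ.pow _).eq (by
      rw [pow_orderOf_eq_one]; exact E.mon_one)) ((hπ.mul hπ).eq_one fun i => by
    rw [Equiv.Perm.mul_apply, hρ, hρ]
    rcases h i (ρ i) with e | e
    · rw [e, e]
    rcases h i (ρ (ρ i)) with e' | e'
    · rw [e']
    have := ρ.injective (p_inj (C := C) (e'.symm.trans e))
    rw [this, this])
  have key : ∀ i, E.ME y (C.p i) (C.p i) 1 (RingEquiv.refl F) := fun i => by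
    obtain ⟨ε, φ, h7⟩ := hπ (C.p i)
    have h8 : ∀ t, ε * φ t = t := fun t => by
      obtain ⟨u, hu, e⟩ := exists_fixed hr hβ h2 hθ (h' i) t
      have h9 := c.cent (fun i => (C.f_pos i).le) h5 h6 hy (.inl (mul_mem
        (E.U_gf i hu) (E.X_p_mem i t))) e
      rw [← conj_mul, h7.1] at h9
      exact split_eq (hπ.conj_mem (fun _ h => h) hu) hu h9
    have h9 := h8 1
    rw [_root_.map_one, mul_one, Units.val_eq_one] at h9
    subst h9
    obtain rfl : φ = RingEquiv.refl F := RingEquiv.ext (by simpa using h8)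
    exact h7
  exact E.eq_one (fun i t => by simpa using (key i).1 t) fun i t => by simpa using (key i).2 t

end Emb

end CfsgH8
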