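/-
Local balance for graph and graph-field automorphisms of order two of Chevalley groups.
-/
import Cfsg.Agent.H8.CA5

set_option autoImplicit false
set_option linter.unusedSectionVars false

namespace CfsgH8

open CfsgH7 Chev Subgroup

variable {ι R l F : Type*} [Fintype ι] [DecidableEq ι] [Fintype l] [DecidableEq l] [Field F]

/-- the invariant form -/
def Chev.Bf (C : Chev ι R l F) (v w : l → ℤ) : ℤ := ∑ i, v i * C.A i w

/-- the properties of a diagram symmetry of order two -/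
structure Chev.Dg (C : Chev ι R l F) (ρ : l → l) : Prop where
  sl : ∀ i j, i ≠ j → C.A i (Pi.single j 1) = 0 ∨ C.A i (Pi.single j 1) = -1
  B2 : ∀ k, C.Bf (C.rt k) (C.rt k) = 2
  orth : ∀ r s, C.rt s ∘ ρ = C.rt r → s ≠ r → C.Bf (C.rt r) (C.rt s) = 0
  cen : ∀ τ : Equiv.Perm l, (∀ i j, C.A (τ i) (Pi.single (τ j) 1) = C.A i (Pi.single j 1)) →
    (∀ i, τ (ρ i) = ρ (τ i)) → ∀ i, τ (τ i) = i
  gen : ∀ j, (∃ i, ρ i ≠ i ∧ C.A i (Pi.single j 1) ≠ 0) ∨ ∃ i k, ρ i ≠ i ∧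
    C.A i (Pi.single k 1) ≠ 0 ∧
      C.A i (Pi.single j 1) - C.A k (Pi.single j 1) * C.A i (Pi.single k 1) ≠ 0

namespace Emb

variable {C : Chev ι R l F} {A : Type*} [Group A] {E : Emb C A}

theorem commute_B (h : ∀ k, C.Bf (C.rt k) (C.rt k) = 2) {r s : R}
    (h1 : C.Bf (C.rt r) (C.rt s) = 0) (h2 : C.Bf (C.rt s) (C.rt r) = 0) (t u : F) :
    Commute (E.X r t) (E.X s u) := by
  refine E.commute_of ?_ ?_ ?_ t u
  · rintro rfl; simp [h] at h1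
  · rintro rfl
    have := h r
    simp only [Bf, C.rt_neg, map_neg, mul_neg, Finset.sum_neg_distrib] at h1 this
    omega
  · rw [Set.eq_empty_iff_forall_notMem]
    rintro k ⟨a, b, ha, hb, e⟩
    have h3 : C.Bf (C.rt k) (C.rt k) = a * a * C.Bf (C.rt r) (C.rt r) + a * b * C.Bf (C.rt r) (C.rt s)
        + a * b * C.Bf (C.rt s) (C.rt r) + b * b * C.Bf (C.rt s) (C.rt s) := by
      simp only [Bf, e, Finset.mul_sum, ← Finset.sum_add_distrib]
      exact Finset.sum_congr rfl fun i _ => by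
        rw [map_add, map_nsmul, map_nsmul, Pi.add_apply, Pi.smul_apply, Pi.smul_apply]; ring
    rw [h, h, h, h1, h2] at h3
    nlinarith [show (1 : ℤ) ≤ a by exact_mod_cast ha, show (1 : ℤ) ≤ b by exact_mod_cast hb]

theorem Mon.invol {m : A} {π : Equiv.Perm R} (h : E.Mon m π) (h2 : m * m = 1) (r : R) :
    π (π r) = r :=
  congrArg (fun π : Equiv.Perm R => π r) ((h.mul h).eq (π' := 1) (h2 ▸ E.mon_one))

variable [Finite R]

theorem Mon.cartan {m : A} {π : Equiv.Perm R} (h : E.Mon m π) {ρ : Equiv.Perm l}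
    (e : ∀ i, π (C.p i) = C.p (ρ i))
    (sl : ∀ i j, i ≠ j → C.A i (Pi.single j 1) = 0 ∨ C.A i (Pi.single j 1) = -1) (i j : l) :
    C.A (ρ i) (Pi.single (ρ j) 1) = C.A i (Pi.single j 1) := by
  by_cases hij : i = j
  · rw [hij, C.A_p, C.A_p]
  have h1 := h.adj (e i) (e j)
  have h2 := sl i j hij
  have h3 := sl _ _ (ρ.injective.ne hij)
  omega

variable (E) in
theorem exists_nu (s : R) : ∃ a b, E.M1 (E.X s a * E.X (C.neg s) b * E.X s a) s (C.neg s) := by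
  refine C.root_ind (P := fun s => ∃ a b, E.M1 (E.X s a * E.X (C.neg s) b * E.X s a) s (C.neg s))
    (fun i => ⟨1, -1, by have := E.M1_n i (C.p i); rwa [w_p] at this⟩) (fun i r ⟨a, b, h⟩ => ?_) s
  obtain ⟨a', -, e1⟩ := (E.M1_n i r).conj a
  obtain ⟨b', -, e2⟩ := (E.M1_n i r).neg.conj b
  refine ⟨a', b', ?_⟩
  have := (E.M1_n i r).neg.mul (h.mul (E.M1_n i r).inv)
  rwa [← mul_assoc, ← conj_mul, ← conj_mul, e1, e2] at this

variable [Finite F]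

theorem Mon.one_of_K {s : A} {π : Equiv.Perm R} (h : E.Mon s π) (hs : s ∈ E.S) (hK : s ∈ E.K) :
    π = 1 := by
  obtain ⟨χ, rfl⟩ := E.S_K hK hs
  exact h.eq (E.mon_D χ)

theorem Mon.eq_of_K {s s' : A} {π π' : Equiv.Perm R} (h : E.Mon s π) (h' : E.Mon s' π')
    (hs : s ∈ E.S) (hs' : s' ∈ E.S) (hK : s * s'⁻¹ ∈ E.K) : π = π' :=
  mul_inv_eq_one.1 ((h.mul h'.inv).one_of_K (mul_mem hs (inv_mem hs')) hK)

variable [Finite A] {r : ℕ} [Fact r.Prime] [CharP F r] {β : A} {N H : Subgroup A}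
  {θ : Equiv.Perm R} {ρ : Equiv.Perm l}

section

variable (h2 : β * β = 1) (hθ : E.Mon β θ) (hρ : ∀ i, θ (C.p i) = C.p (ρ i)) (hD : C.Dg ρ)
include h2 hθ hρ hD

theorem gr_comm {s : R} (hs : θ s ≠ s) {a b : R} (ha : a = s ∨ a = C.neg s)
    (hb : b = s ∨ b = C.neg s) (t u : F) : Commute (E.X a t) (β * E.X b u * β⁻¹) := by
  have h1 := hθ.lin hρ (hθ.cartan hρ hD.sl)
  have h3 : θ (θ s) = s := hθ.invol h2 s
  have h4 := hD.orth s (θ s) (h1 s) hs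
  have h5 := hD.orth (θ s) s (by rw [← h1 (θ s), h3]) hs.symm
  obtain ⟨u', -, e⟩ := (hθ b).conj u
  rw [e]
  refine commute_B hD.B2 ?_ ?_ _ _ <;> rcases ha with rfl | rfl <;> rcases hb with rfl | rfl <;>
    simpa [hθ.neg, C.rt_neg, Bf] using (by assumption)

theorem gr_fix {s : R} (hs : θ s ≠ s) (t : F) :
    β * (E.X s t * (β * E.X s t * β⁻¹)) * β⁻¹ = E.X s t * (β * E.X s t * β⁻¹) := by
  rw [← conj_mul, (gr_comm h2 hθ hρ hD hs (.inl rfl) (.inl rfl) t t).eq,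
    show ∀ x, β * (β * x * β⁻¹) * β⁻¹ = β * β * x * (β * β)⁻¹ from fun x => by group, h2]
  simp

theorem Ctx.gr_pos (c : E.Ctx r 2 β N H) {m : A} {π : Equiv.Perm R} (hm : m ∈ H) (hπ : E.Mon m π)
    {k : R} (h3 : 0 < C.f (C.rt k)) (h4 : θ k ≠ k) : 0 < C.f (C.rt (π k)) := by
  have hz : ∀ k t, 0 < C.f (C.rt k) → θ k ≠ k → E.X k t * (β * E.X k t * β⁻¹) ∈ H :=
    fun k t h h' => c.UH _ (mul_mem (E.X_mem_U h t) (S_Up c.hβ (E.X_mem_U h t)))
      (gr_fix h2 hθ hρ hD h' t)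
  have hs : θ (π k) ≠ π k := by rwa [hθ.comm hπ (c.fix m hm), π.injective.ne_iff]
  have h5 : ∀ t, E.X (π k) t * (β * E.X (π k) t * β⁻¹) ∈ H := fun t => by
    obtain ⟨t', -, e⟩ := (hπ k).inv.conj t
    have := mul_mem (mul_mem hm (hz k t' h3 h4)) (inv_mem hm)
    rw [← e, ← conj_mul, show m * (β * (m⁻¹ * E.X (π k) t * m⁻¹⁻¹) * β⁻¹) * m⁻¹ =
      m * (β * m * β⁻¹)⁻¹ * (β * E.X (π k) t * β⁻¹) * (β * m * β⁻¹) * m⁻¹ by group,
      c.fix m hm] at this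
    simpa [mul_assoc] using this
  by_contra h6
  generalize π k = s at hs h5 h6
  have h7 := fun t => hz (C.neg s) t (by have := C.f_ne s; rw [f_neg]; omega) (by
    rw [hθ.neg]; exact fun e => hs (by simpa [neg_neg'] using congrArg C.neg e))
  obtain ⟨a, b, hν⟩ := E.exists_nu s
  have h8 := fun a b ha hb => gr_comm h2 hθ hρ hD hs (a := a) (b := b) ha hb
  have h9 : ∀ k, k = s ∨ k = C.neg s → ∀ t, β * (E.X s a * E.X (C.neg s) b * E.X s a) * β⁻¹ *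
      E.X k t * (β * (E.X s a * E.X (C.neg s) b * E.X s a) * β⁻¹)⁻¹ = E.X k t := fun k hk t => by
    rw [← conj_mul, ← conj_mul, ← (((h8 k _ hk (.inl rfl) t a).mul_right
      (h8 k _ hk (.inr rfl) t b)).mul_right (h8 k _ hk (.inl rfl) t a)).eq, mul_inv_cancel_right]
  refine (hν.mul (m' := β * (E.X s a * E.X (C.neg s) b * E.X s a) * β⁻¹) ⟨1, RingEquiv.refl F,
    by simpa using h9 s (.inl rfl), by simpa using h9 _ (.inr rfl)⟩).even (c.cop _ ?_)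
  convert mul_mem (mul_mem (h5 a) (h7 b)) (h5 a) using 1
  have e1 := (h8 _ _ (.inr rfl) (.inl rfl) b a).symm
  have e2 := (h8 _ _ (.inl rfl) (.inr rfl) a b).symm
  have e3 := (h8 _ _ (.inl rfl) (.inl rfl) a a).symm
  rw [← conj_mul, ← conj_mul]
  generalize β * E.X s a * β⁻¹ = y₁ at e1 e3
  generalize β * E.X (C.neg s) b * β⁻¹ = y₂ at e2
  simp only [mul_assoc]
  rw [e1.left_comm, e2.left_comm, e3.left_comm]

theorem Ctx.gr_form (c : E.Ctx r 2 β N H) {y : A} (hy : y ∈ H) : ∃ u ∈ E.Up, ∃ s, E.Mon s 1 ∧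
    ∃ L, (∀ i ∈ L, ρ i = i) ∧ ∃ v ∈ E.Up, y = u * (s * E.nw L) * v := by
  obtain ⟨u, hu, m, hm, v, hv, rfl, hH⟩ := c.bruhat hy
  obtain ⟨π, hπ⟩ := NS_mon hm
  obtain ⟨s, hs, L, rfl, h3⟩ := hπ.reduce hm (T := {k | 0 < C.f (C.rt k) ∧ θ k ≠ k})
    (fun k hk i hi => by
      have : θ (C.p i) = C.p i := by_contra fun h => hi ⟨C.f_p i, h⟩
      refine ⟨C.w_pos i hk.1 (by rintro rfl; exact hi hk), fun e => hk.2 ?_⟩
      rw [hθ.w this] at e
      rw [← C.w_w i (θ k), e, w_w])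
    fun k hk => c.gr_pos h2 hθ hρ hD hH hπ hk.1 hk.2
  obtain ⟨τ, hτ⟩ := exists_mon hs
  obtain ⟨σ, hσ⟩ := hτ.perm hs
  obtain rfl : τ = 1 := by
    refine perm_eq_one (c.cop _ hH) ((hτ.pow _).one_of_K (pow_mem hs _) ?_)
      ((hτ.mul hτ).eq_one fun i => ?_)
    · obtain ⟨k, hk, e⟩ := mul_pow_norm (d := s) (E.normal_K.conj_mem _ (E.nw_K L) s)
        (fun x hx => E.normal_K.conj_mem _ hx s) (orderOf (s * E.nw L))
      rw [inv_mul_cancel_right, pow_orderOf_eq_one, eq_comm, mul_eq_one_iff_inv_eq] at e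
      exact e ▸ inv_mem hk
    have h4 := ((hθ.mul hτ).mul hθ.inv).eq_of_K hτ (mul_mem (mul_mem c.hβ hs) (inv_mem c.hβ)) hs (by
      rw [show β * s * β⁻¹ * s⁻¹ = β * (s * E.nw L) * β⁻¹ * (β * (E.nw L)⁻¹ * β⁻¹) * s⁻¹ by group,
        c.fix _ hH, mul_assoc s]
      exact E.normal_K.conj_mem _ (mul_mem (E.nw_K L)
        (E.normal_K.conj_mem _ (inv_mem (E.nw_K L)) _)) _)
    rw [Equiv.Perm.mul_apply, hσ, hσ, hD.cen σ (hτ.cartan hσ hD.sl) fun j => p_inj (C := C) (by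
      rw [← hσ, ← hρ, ← hρ, ← hσ, ← Equiv.Perm.mul_apply, ← mul_inv_eq_iff_eq_mul.1 h4,
        Equiv.Perm.mul_apply])]
  exact ⟨u, hu, s, hτ, L, fun i hi => p_inj (C := C) (by
    rw [← hρ]; exact by_contra fun h => h3 i hi ⟨C.f_p i, h⟩), v, hv, rfl⟩

end

/-- the grading by the nodes which are moved -/
def gm (ρ : l → l) : (l → ℤ) →+ ℤ := ∑ i, if ρ i = i then 0 else cd i

theorem gm_apply (ρ : l → l) (v : l → ℤ) : gm ρ v = ∑ i, if ρ i = i then 0 else v i := by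
  rw [gm, AddMonoidHom.finsetSum_apply]
  exact Finset.sum_congr rfl fun i _ => by split_ifs <;> rfl

theorem gm_nonneg (ρ : l → l) (j : l) : 0 ≤ gm ρ (Pi.single j 1) := by
  rw [gm_apply]
  exact Finset.sum_nonneg fun i _ => by rw [Pi.single_apply]; split_ifs <;> simp

theorem gm_pos {ρ : l → l} {v : l → ℤ} (h : 0 ≤ v) {i : l} (hi : ρ i ≠ i) (h' : v i ≠ 0) :
    1 ≤ gm ρ v := by
  have := Finset.single_le_sum (f := fun i => if ρ i = i then 0 else v i) (s := Finset.univ)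
    (fun j _ => by split_ifs; exacts [le_rfl, h j]) (Finset.mem_univ i)
  have h1 : 0 ≤ v i := h i
  rw [gm_apply]
  simp only [hi, if_false] at this
  omega

theorem Ctx.gr_dec (h2 : β * β = 1) (hθ : E.Mon β θ) (hρ : ∀ i, θ (C.p i) = C.p (ρ i))
    (hD : C.Dg ρ) (c : E.Ctx r 2 β N H) {y : A} (hy : y ∈ H) : ∃ q ∈ E.U (gm ρ) 1, ∃ a,
      (∀ g : (l → ℤ) →+ ℤ, (∀ v, (∀ i, ρ i ≠ i → v i = 0) → g v = 0) →
        a ∈ normalizer (E.U g 1 : Set A)) ∧ y = q * a := by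
  obtain ⟨u, hu, s, hs, L, hL, v, hv, rfl⟩ := c.gr_form h2 hθ hρ hD hy
  obtain ⟨u₁, h3, u₂, h4, rfl⟩ := E.factor {k | 1 ≤ gm ρ (C.rt k)} hu
  obtain ⟨v₁, h5, v₂, h6, rfl⟩ := E.factor {k | 1 ≤ gm ρ (C.rt k)} hv
  have h7 : ∀ g : (l → ℤ) →+ ℤ, (∀ v, (∀ i, ρ i ≠ i → v i = 0) → g v = 0) →
      E.Xs {k | 0 < C.f (C.rt k) ∧ k ∉ {k | 1 ≤ gm ρ (C.rt k)}} ≤ normalizer (E.U g 1 : Set A) :=
    fun g hg => E.Xs_norm fun k hk => (hg _ fun i hi => by_contra fun h =>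
      hk.2 (gm_pos (C.rt_nonneg hk.1) hi h)).ge
  have h8 : ∀ g : (l → ℤ) →+ ℤ, (∀ v, (∀ i, ρ i ≠ i → v i = 0) → g v = 0) →
      u₂ * (s * E.nw L) ∈ normalizer (E.U g 1 : Set A) := fun g hg =>
    mul_mem (h7 g hg h4) (mul_mem (hs.norm _) (E.Xs_norm (S := {k | g (C.rt k) = 0})
      (fun k hk => Eq.ge (a := g (C.rt k)) hk) (E.nw_Xs fun j hj => by
        have : g (Pi.single j 1) = 0 := hg _ fun i hi =>
          Pi.single_eq_of_ne (by rintro rfl; exact hi (hL i hj)) _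
        simp [C.rt_neg, C.rt_p, this])))
  refine ⟨_, mul_mem (E.Xs_mono (fun k hk => hk.2) h3) ((mem_normalizer_iff.1 (h8 (gm ρ)
    fun v hv => ?_) v₁).1 (E.Xs_mono (fun k hk => hk.2) h5)), u₂ * (s * E.nw L) * v₂,
    fun g hg => mul_mem (h8 g hg) (h7 g hg h6), by group⟩
  rw [gm_apply]
  exact Finset.sum_eq_zero fun i _ => by split_ifs with h; exacts [rfl, hv i h]

theorem Chev.Dg.opp {ρ : l → l} (h : C.Dg ρ) : E.hE.opp.Dg ρ := ⟨h.1, h.2, h.3, h.4, h.5⟩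

theorem bal_graph (hr : 2 ≠ r) (hβ : β ∈ E.S) (h2 : β * β = 1) (hθ : E.Mon β θ)
    (hρ : ∀ i, θ (C.p i) = C.p (ρ i)) (hD : C.Dg ρ) : E.BalA 2 β := by
  intro N h1 h3 h4
  obtain ⟨H, c⟩ := exists_ctx hr hβ h1 h3 h4
  obtain ⟨H', c'⟩ := exists_ctx (E := E.opp) hr (E.opp_S.symm ▸ hβ) h1 h3 (E.opp_K.symm ▸ h4)
  have hg : ∀ v, (∀ i, ρ i ≠ i → v i = 0) → gm ρ v = 0 := fun v hv => by
    rw [gm_apply]
    exact Finset.sum_eq_zero fun i _ => by split_ifs with h; exacts [rfl, hv i h]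
  have h5 : N ≤ normalizer (E.U (gm ρ) 1 : Set A) := fun y hy => by
    obtain ⟨q, hq, a, ha, rfl⟩ := c.gr_dec h2 hθ hρ hD (c.NH hy)
    exact mul_mem (le_normalizer hq) (ha _ hg)
  have h6 : N ≤ normalizer (E.U (-gm ρ) 1 : Set A) := fun y hy => by
    obtain ⟨q, hq, a, ha, rfl⟩ := c'.gr_dec h2 hθ.opp hρ (Chev.Dg.opp (E := E) hD) (c'.NH hy)
    rw [← opp_U]
    exact mul_mem (le_normalizer hq) (ha _ hg)
  refine eq_bot_iff.2 fun y hy => ?_
  obtain ⟨q, hq, a, ha, e⟩ := c.gr_dec h2 hθ hρ hD (c.NH hy)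
  obtain rfl : q = 1 := E.NP' (gm_nonneg ρ) hq fun v hv => E.U_le' (gm_nonneg ρ)
    ((mem_normalizer_iff.1 (by
      rw [eq_mul_inv_of_mul_eq e.symm]
      exact mul_mem (h6 hy) (inv_mem (ha _ fun v hv => by simp [hg v hv]))) v).1 hv)
  rw [one_mul] at e
  subst e
  have hl := fun k i => congrFun (hθ.lin hρ (hθ.cartan hρ hD.sl) k) i
  have hθ2 : ∀ k, θ (θ k) = k := hθ.invol h2
  have hρ2 : ∀ i, ρ (ρ i) = i := fun i => p_inj (C := C) (by rw [← hρ, ← hρ, hθ2])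
  have h7 : ∀ k, θ k ≠ k → ∃ i, C.rt k (ρ i) < C.rt k i := fun k hk => by
    by_contra h
    push Not at h
    refine hk (C.rt_inj (funext fun i => ?_))
    have e1 := hl k (ρ i)
    have e2 := h i
    have e3 := h (ρ i)
    rw [Function.comp, hρ2] at e1
    rw [hρ2] at e3
    omega
  have h8 : ∀ k, θ k ≠ k → 0 < C.f (C.rt k) → 1 ≤ gm ρ (C.rt k) := fun k hk h => by
    obtain ⟨i, hi⟩ := h7 k hk
    have : 0 ≤ C.rt k (ρ i) := C.rt_nonneg h _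
    exact gm_pos (C.rt_nonneg h) (i := i) (fun e => by rw [e] at hi; omega) (by omega)
  have h9 : ∀ k, θ k ≠ k → ∀ t, y * E.X k t * y⁻¹ = E.X k t := fun k hk t => by
    obtain ⟨t', -, e⟩ := (hθ k).conj t
    have hk' : θ (θ k) ≠ θ k := θ.injective.ne hk
    have hn : ∀ k, θ k ≠ k → θ (C.neg k) ≠ C.neg k := fun k hk e => hk (by
      simpa [hθ.neg, neg_neg'] using congrArg C.neg e)
    have h10 := c.cent (gm_nonneg ρ) h5 h6 hy (by
      rw [e]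
      rcases (C.f_ne k).lt_or_gt with h | h
      · have e1 := h8 _ (hn k hk) (by rw [f_neg]; omega)
        have e2 := h8 _ (hn _ hk') (by
          have := hθ.neg_of (hθ.pos hβ) h; rw [f_neg]; omega)
        rw [C.rt_neg, map_neg] at e1 e2
        exact .inr (mul_mem (E.X_mem_U e1 _) (E.X_mem_U e2 _))
      · exact .inl (mul_mem (E.X_mem_U (h8 k hk h) _) (E.X_mem_U (h8 _ hk' (hθ.pos hβ k h)) _)))
      (gr_fix h2 hθ hρ hD hk t)
    obtain ⟨i, hi⟩ := h7 k hk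
    have hi' : ρ i ≠ i := fun e => by rw [e] at hi; omega
    have hd : ∀ v : l → ℤ, (∀ i, ρ i ≠ i → v i = 0) → (cd i - cd (ρ i)) v = 0 := fun v hv => by
      rw [AddMonoidHom.sub_apply, cd_apply, cd_apply, hv i hi', hv _ (ρ.injective.ne hi'), sub_zero]
    have e1 : E.X k t ∈ E.U (cd i - cd (ρ i)) 1 := E.X_mem_U (by
      rw [AddMonoidHom.sub_apply, cd_apply, cd_apply]; omega) t
    have e2 : E.X (θ k) t' ∈ E.U (-(cd i - cd (ρ i))) 1 := E.X_mem_U (by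
      have e3 := hl k i
      have e4 := hl k (ρ i)
      rw [Function.comp, hρ2] at e4
      rw [Function.comp] at e3
      rw [AddMonoidHom.neg_apply, AddMonoidHom.sub_apply, cd_apply, cd_apply]; omega) t'
    rw [e, ← conj_mul] at h10
    rw [eq_comm, ← inv_mul_eq_one]
    refine E.UV (mul_mem (inv_mem e1) ((mem_normalizer_iff.1 (ha _ hd) _).1 e1)) ?_
    rw [inv_mul_eq_iff_eq_mul.2 ((eq_mul_inv_of_mul_eq h10).trans (mul_assoc _ _ _))]
    exact mul_mem e2 (inv_mem ((mem_normalizer_iff.1 (ha _ fun v hv => by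
      rw [AddMonoidHom.neg_apply, hd v hv, neg_zero]) _).1 e2))
  have h10 : ∀ i k, (∀ t, y * E.X (C.p i) t * y⁻¹ = E.X (C.p i) t) →
      (∀ t, y * E.X (C.neg (C.p i)) t * y⁻¹ = E.X (C.neg (C.p i)) t) →
      (∀ t, y * E.X (C.w i k) t * y⁻¹ = E.X (C.w i k) t) → ∀ t, y * E.X k t * y⁻¹ = E.X k t := by
    intro i k e1 e2 e3 t
    obtain ⟨t', -, e⟩ := (E.M1_n i k).conj t
    have : y * E.n i * y⁻¹ = E.n i := by rw [n, ← conj_mul, ← conj_mul, e1, e2]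
    rw [show E.X k t = (E.n i)⁻¹ * E.X (C.w i k) t' * E.n i by rw [← e]; group, ← conj_mul,
      ← conj_mul, conj_inv_eq, this, e3]
  have h11 : ∀ i k, ρ i ≠ i → C.A i (C.rt k) ≠ 0 → ∀ t, y * E.X k t * y⁻¹ = E.X k t := by
    intro i k hi hk
    by_cases h : θ k = k
    swap; · exact h9 k h
    have e0 : θ (C.p i) ≠ C.p i := by rw [hρ]; exact (p_inj (C := C)).ne hi
    refine h10 i k (h9 _ e0) (h9 _ fun e => e0 (by
      simpa [hθ.neg, neg_neg'] using congrArg C.neg e)) (h9 _ fun e => hk ?_)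
    have := congrFun (congrArg C.rt e) i
    rw [hθ.w (hρ i), h, C.rt_w, C.rt_w] at this
    simpa [Pi.single_eq_of_ne hi.symm] using this.symm
  have h12 : ∀ j, (∀ t, y * E.X (C.p j) t * y⁻¹ = E.X (C.p j) t) ∧
      ∀ t, y * E.X (C.neg (C.p j)) t * y⁻¹ = E.X (C.neg (C.p j)) t := fun j => by
    rcases hD.gen j with ⟨i, hi, h⟩ | ⟨i, k, hi, h, h'⟩
    · exact ⟨h11 i _ hi (by rwa [C.rt_p]), h11 i _ hi (by simpa [C.rt_neg, C.rt_p] using h)⟩
    have e1 := h11 i (C.p k) hi (by rwa [C.rt_p])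
    have e2 := h11 i (C.neg (C.p k)) hi (by simpa [C.rt_neg, C.rt_p] using h)
    exact ⟨h10 k _ e1 e2 (h11 i _ hi (by rwa [C.rt_w, C.rt_p, map_sub, map_zsmul])),
      h10 k _ e1 e2 (h11 i _ hi (by
        rwa [w_neg, C.rt_neg, map_neg, neg_ne_zero, C.rt_w, C.rt_p, map_sub, map_zsmul]))⟩
  exact E.eq_one (fun i => (h12 i).1) fun i => (h12 i).2

end Emb

end CfsgH8
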