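/-
Involutory automorphisms of Chevalley groups inducing a diagram symmetry normalize a Borel subgroup.
-/
import Cfsg.Agent.H8.CA6

set_option autoImplicit false
set_option linter.unusedSectionVars false

namespace CfsgH8

open CfsgH7 Chev Subgroup

variable {ι R l F : Type*} [Fintype ι] [DecidableEq ι] [Fintype l] [DecidableEq l] [Field F]

theorem Chev.ninv_inv (C : Chev ι R l F) {π : Equiv.Perm R}
    (hπ : ∀ r, π (C.neg r) = C.neg (π r)) : C.ninv ⇑(π⁻¹) = C.ninv π := by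
  rw [ninv, ninv, eq_comm, ← Set.ncard_image_of_injective _ (f := fun r => π (C.neg r))
    (π.injective.comp (Function.LeftInverse.injective C.neg_neg'))]
  congr 1
  ext r
  constructor
  · rintro ⟨s, ⟨h1, h2⟩, rfl⟩
    refine ⟨by dsimp only; rw [hπ, f_neg]; omega, ?_⟩
    rw [show π⁻¹ (π (C.neg s)) = _ from π.symm_apply_apply _, f_neg]
    omega
  · rintro ⟨h1, h2⟩
    have e : π (π⁻¹ r) = r := π.apply_symm_apply r
    exact ⟨C.neg (π⁻¹ r), ⟨by rw [f_neg]; omega, by rw [hπ, e, f_neg]; omega⟩, by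
      dsimp only; rw [neg_neg', e]⟩

theorem exists_quad {F : Type*} [Field F] [Finite F] (h : ringChar F ≠ 2) {x y : F} (hx : x ≠ 0)
    (hy : y ≠ 0) : ∃ a b, x * a ^ 2 + y * b ^ 2 = 1 := by
  haveI := Fintype.ofFinite F
  obtain ⟨a, b, e⟩ := FiniteField.exists_root_sum_quadratic
    (f := Polynomial.C x * Polynomial.X ^ 2) (g := Polynomial.C y * Polynomial.X ^ 2 - 1)
    (Polynomial.degree_C_mul_X_pow 2 hx) (by
      rw [Polynomial.degree_sub_eq_left_of_degree_lt] <;>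
        simp [Polynomial.degree_C_mul_X_pow 2 hy])
    (FiniteField.odd_card_of_char_ne_two h)
  exact ⟨a, b, by simp at e; linear_combination e⟩

namespace Emb

variable {C : Chev ι R l F} {A : Type*} [Group A] {E : Emb C A} [Finite R] [Finite F] [Finite A]
  {r : ℕ} [Fact r.Prime] [CharP F r]

theorem reduce_S (hr : r ≠ 2) {β s₀ : A} (h2 : β * β = 1) (hs₀ : s₀ ∈ E.S) (hK : β * s₀⁻¹ ∈ E.K)
    {θ : Equiv.Perm R} {ρ : l → l} (hθ : E.Mon s₀ θ) (hρ : ∀ i, θ (C.p i) = C.p (ρ i))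
    (hodd : ∀ i j, i ≠ j → C.A j (Pi.single i 1) = 0 ∨ Odd (C.A j (Pi.single i 1)))
    (hfix : ∀ j, ρ j = j → ∃ k, C.A j (Pi.single k 1) = -1 ∧ ρ k = k ∧
      ∀ i, ρ i = i → i = j ∨ i = k) :
    ∃ k ∈ E.K, k * β * k⁻¹ ∈ E.S := by
  have step : ∀ {k u m v : A}, k ∈ E.K → u ∈ E.Up → m ∈ E.NS → v ∈ E.Up →
      k * β * k⁻¹ = u * m * v → ∃ k ∈ E.K, k * β * k⁻¹ = m := by
    intro k u m v hk hu hm hv e
    obtain ⟨k', hk', e'⟩ := invol r hr hu hm hv (by rw [← e, conj_pow, sq, h2]; simp)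
    exact ⟨k' * k, mul_mem hk' hk, by rw [← e', ← e]; group⟩
  suffices ∀ n, ∀ m ∈ E.NS, ∀ π, E.Mon m π → C.ninv π = n → ∀ k ∈ E.K, k * β * k⁻¹ = m →
      ∃ k ∈ E.K, k * β * k⁻¹ ∈ E.S by
    obtain ⟨u, hu, m, hm, v, hv, -, e⟩ := bruhatA (E := E) r β
    obtain ⟨k, hk, e'⟩ := step (one_mem _) hu hm hv (by simpa using e)
    obtain ⟨π, hπ⟩ := NS_mon hm
    exact this _ m hm π hπ rfl k hk e'
  intro n
  induction n using Nat.strong_induction_on with
  | _ n ih =>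
  intro m hm π hπ hn k hk e
  have sq_case : ∀ m ∈ E.NS, E.Mon m π → ∀ k ∈ E.K, k * β * k⁻¹ = m → ∀ i (a : Fˣ),
      m * E.X (C.neg (C.p i)) a * m⁻¹ = E.X (C.p i) (a : F)⁻¹ → ∃ k ∈ E.K, k * β * k⁻¹ ∈ E.S := by
    intro m hm hπ k hk e i a h
    have h1 : π (C.p i) = C.neg (C.p i) := by
      obtain ⟨t, -, h'⟩ := (hπ (C.p i)).neg.conj a
      rw [E.root_eq (inv_ne_zero a.ne_zero) (h.symm.trans h'), neg_neg',
        ← E.root_eq (inv_ne_zero a.ne_zero) (h.symm.trans h')]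
    have h3 := mul_mem (mul_mem (S_NS (E.D_mem_S (pw (-a⁻¹) (C.A i)))) (E.n_NS i)) hm
    obtain ⟨k', hk', e'⟩ := step (mul_mem (E.X_K (C.neg (C.p i)) a) hk) (E.X_p_mem i (a : F)⁻¹) h3
      (one_mem _) (by
        rw [_root_.mul_inv_rev, ← mul_assoc, mul_assoc _ k, mul_assoc _ _ k⁻¹, e, mul_one,
          ← mul_assoc, eq_mul_inv_of_mul_eq (E.X_np_eq i a).symm, ← h]
        group)
    refine ih _ ?_ _ h3 _ (((E.mon_D _).mul (E.mon_n i)).mul hπ) rfl k' hk' e'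
    rw [← hn]
    convert C.ninv_lt hπ.neg (i := i) (by rw [h1, f_neg]; have := C.f_p i; omega) using 2
    exact funext fun r => (hπ.w' h1 r).symm
  have hm2 : m * m = 1 := by rw [← e, conj_mul, h2]; simp
  by_cases h0 : ∀ i, 0 < C.f (C.rt (π (C.p i)))
  · exact ⟨k, hk, e ▸ hπ.S_of hm h0⟩
  by_cases h1 : ∃ i, ¬ 0 < C.f (C.rt (π (C.p i))) ∧ π (C.p i) ≠ C.neg (C.p i)
  · obtain ⟨i, h3, h4⟩ := h1
    have h5 := ((E.mon_n i).mul hπ).mul (E.mon_n i).inv
    have h6 : C.f (C.rt (π (C.p i))) < 0 := by have := C.f_ne (π (C.p i)); omega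
    refine ih _ ?_ _ (mul_mem (mul_mem (E.n_NS i) hm) (inv_mem (E.n_NS i))) _ h5 rfl _
      (mul_mem (E.n_K i) hk) (by rw [← e]; group)
    have e1 := C.ninv_lt ((E.mon_n i).mul hπ).neg (i := i) (by
      have := C.w_pos i (r := C.neg (π (C.p i))) (by rw [f_neg]; omega) fun e =>
        h4 (by rw [← e, neg_neg', e])
      rw [w_neg, f_neg] at this
      exact neg_pos.1 this)
    have e2 := C.ninv_lt hπ.neg h6
    have e3 := C.ninv_inv ((E.mon_n i).mul hπ).neg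
    have e4 : (E.wp [i])⁻¹ = E.wp [i] := inv_eq_of_mul_eq_one_left (Equiv.ext (C.w_w i))
    rw [_root_.mul_inv_rev, e4, inv_eq_of_mul_eq_one_left (Equiv.ext (hπ.invol hm2))] at e3
    rw [e4]
    exact e1.trans ((e3.symm.trans_lt e2).trans_eq hn)
  push Not at h1
  by_contra hcon
  have h3 : ∀ i, C.f (C.rt (π (C.p i))) ≤ 0 → ∃ δ : Fˣ,
      ∀ t, m * E.X (C.neg (C.p i)) t * m⁻¹ = E.X (C.p i) (δ * t) := fun i hi => by
    obtain ⟨δ, φ, e1, e2⟩ := (hπ (C.p i)).neg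
    simp only [h1 i hi, neg_neg'] at e1 e2
    have e3 : ∀ t, (δ : F)⁻¹ * φ (δ * φ t) = t := fun t => E.X_inj (by
      rw [← e2, ← e1, show ∀ x, m * (m * x * m⁻¹) * m⁻¹ = m * m * x * (m * m)⁻¹ from
        fun x => by group, hm2]
      simp)
    have e4 : φ δ = δ := by
      have := e3 1
      rwa [_root_.map_one, mul_one, inv_mul_eq_one₀ δ.ne_zero, eq_comm] at this
    by_cases hφ : φ = 1
    · exact ⟨δ, by simpa [hφ] using e1⟩
    haveI : Fact (Nat.Prime 2) := ⟨Nat.prime_two⟩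
    have e5 : orderOf φ = 2 := orderOf_eq_prime (RingEquiv.ext fun t => by
      have := e3 t
      rwa [_root_.map_mul, e4, inv_mul_cancel_left₀ δ.ne_zero] at this) hφ
    obtain ⟨x, hx⟩ := exists_norm_eq φ (c := (δ : F)⁻¹) (by rw [map_inv₀, e4])
    simp only [e5, Finset.prod_range_succ, Finset.range_zero, Finset.prod_empty, pow_zero, pow_one,
      one_mul, RingAut.one_apply, zero_add] at hx
    have hx0 : x ≠ 0 := by rintro rfl; exact inv_ne_zero δ.ne_zero (by rw [← hx, zero_mul])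
    refine absurd (sq_case m hm hπ k hk e i (Units.mk0 x hx0) ?_) hcon
    rw [e1, Units.val_mk0]
    congr 1
    refine eq_inv_of_mul_eq_one_left ?_
    rw [mul_assoc, mul_comm _ x, hx, mul_inv_cancel₀ δ.ne_zero]
  have h4 : ∀ i (δ : Fˣ), (∀ t, m * E.X (C.neg (C.p i)) t * m⁻¹ = E.X (C.p i) (δ * t)) →
      ∀ a : F, δ * a ^ 2 ≠ 1 := fun i δ h a ha => by
    have ha0 : a ≠ 0 := by rintro rfl; simp at ha
    refine hcon (sq_case m hm hπ k hk e i (Units.mk0 a ha0) ?_)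
    rw [h, Units.val_mk0, eq_inv_of_mul_eq_one_left (show δ * a * a = 1 by rw [← ha]; ring)]
  have h5 : ∀ i j, i ≠ j → C.f (C.rt (π (C.p i))) ≤ 0 → C.f (C.rt (π (C.p j))) ≤ 0 →
      C.A j (Pi.single i 1) = 0 := fun i j hij hi hj => by
    refine (hodd i j hij).resolve_right fun ⟨b, hb⟩ => ?_
    obtain ⟨δ, e1⟩ := h3 i hi
    obtain ⟨δ', e2⟩ := h3 j hj
    obtain ⟨x, y, hxy⟩ := exists_quad (by rwa [ringChar.eq F r]) (inv_ne_zero δ.ne_zero) δ'.ne_zero
    have hx : x ≠ 0 := by rintro rfl; exact h4 j δ' e2 y (by simpa using hxy)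
    obtain ⟨c, hc⟩ : ∃ c : Fˣ, c = δ * (x ^ 2)⁻¹ := ⟨Units.mk0 _ (by simp [hx]), rfl⟩
    obtain ⟨a', b', e3⟩ := E.sl2 j y (δ' * -y) c (by
      rw [hc, show 1 + y * (δ' * -y) = (δ : F)⁻¹ * x ^ 2 by linear_combination -hxy]
      field_simp)
    obtain ⟨t, -, e4⟩ := (hπ (C.p j)).inv.conj b'
    rw [h1 j hj] at e4
    have h6 := mul_mem (S_NS (E.D_mem_S (pw c (C.A j)))) hm
    obtain ⟨k', hk', e'⟩ := step (mul_mem (E.X_K (C.neg (C.p j)) y) hk) (E.X_p_mem j a') h6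
      (E.X_p_mem j t) (by
        rw [_root_.mul_inv_rev, ← mul_assoc, mul_assoc _ k, mul_assoc _ _ k⁻¹, e, ← e4,
          ← mul_assoc (E.X _ a'), eq_mul_inv_of_mul_eq e3.symm, ← e2, X_neg]
        group)
    refine hcon (sq_case _ h6 (by simpa using (E.mon_D _).mul hπ) k' hk' e' i
      (c ^ (b + 1) * Units.mk0 x hx)⁻¹ ?_)
    rw [_root_.mul_inv_rev (E.D _), ← mul_assoc, mul_assoc _ m, mul_assoc _ _ m⁻¹, e1, D_conj, cv_pw,
      C.rt_p, hb, show (δ : F) = c * x ^ 2 by rw [hc]; field_simp]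
    congr 1
    have := c.ne_zero
    simp only [Units.val_inv_eq_inv_val, Units.val_mul, Units.val_zpow_eq_zpow_val, Units.val_mk0,
      zpow_add₀ this, two_mul, zpow_one]
    field_simp
  push Not at h0
  have h6 : ∀ s ∈ E.S, ∀ g ∈ E.K, m = s * g → E.Mon s θ := fun s hs g hg e' => by
    obtain ⟨τ, hτ⟩ := exists_mon hs
    rwa [← hτ.eq_of_K hθ hs hs₀ (by
      rw [show s * s₀⁻¹ = s * g⁻¹ * s⁻¹ * k * (β * s₀⁻¹) * (s₀ * k⁻¹ * s₀⁻¹) by
        rw [eq_mul_inv_of_mul_eq e'.symm, ← e]; group]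
      exact mul_mem (mul_mem (mul_mem (E.normal_K.conj_mem _ (inv_mem hg) _) hk) hK)
        (E.normal_K.conj_mem _ (inv_mem hk) _))]
  have h7 : ∀ j, C.f (C.rt (π (C.p j))) ≤ 0 → ρ j = j := fun j hj => by
    obtain ⟨s, hs, L, e', h8⟩ := hπ.reduce hm (T := {k | 0 < C.f (C.rt k) ∧ 0 < C.f (C.rt (π k))})
      (fun k hk i hi => by
        have h8 := h1 i (not_lt.1 fun h => hi ⟨C.f_p i, h⟩)
        refine ⟨C.w_pos i hk.1 (by rintro rfl; exact hi hk), ?_⟩
        rw [hπ.w' h8]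
        refine C.w_pos i hk.2 fun e => ?_
        have := hk.1
        rw [← hπ.invol hm2 k, e, h8, f_neg] at this
        have := C.f_p i
        omega) fun k hk => hk.2
    have h9 : ∀ L : List l, (∀ i ∈ L, C.f (C.rt (π (C.p i))) ≤ 0) →
        C.wr L (C.p j) = C.p j ∨ C.wr L (C.p j) = C.neg (C.p j) := fun L hL => by
      induction L with
      | nil => exact .inl rfl
      | cons i L ih =>
        have h10 : C.w i (C.p j) = C.p j ∨ C.w i (C.p j) = C.neg (C.p j) := by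
          by_cases hij : j = i
          · exact .inr (hij ▸ C.w_p j)
          · exact .inl (C.rt_inj (by
              rw [C.rt_w, C.rt_p, h5 j i hij hj (hL i List.mem_cons_self), zero_smul, sub_zero]))
        change C.w i (C.wr L _) = _ ∨ C.w i (C.wr L _) = _
        rcases ih fun i hi => hL i (List.mem_cons_of_mem _ hi) with h | h <;> rw [h]
        · exact h10
        · rw [w_neg]
          rcases h10 with h | h <;> simp [h, neg_neg']
    have h10 := h6 s hs _ (E.nw_K L) e'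
    have h11 := h1 j hj
    rw [hπ.eq (e' ▸ h10.mul (E.mon_nw L)), Equiv.Perm.mul_apply, wp_apply] at h11
    rcases h9 L fun i hi => not_lt.1 fun h => h8 i hi ⟨C.f_p i, h⟩ with h | h <;> rw [h] at h11
    · exact absurd (h11.symm.trans (hρ j)) (p_ne_np _ _)
    · rw [h10.neg, hρ] at h11
      exact p_inj (C := C) (by simpa [neg_neg'] using congrArg C.neg h11)
  obtain ⟨j, hj⟩ := h0
  obtain ⟨i, hA, hi, h8⟩ := hfix j (h7 j hj)
  have hij : i ≠ j := by rintro rfl; simp [C.A_p] at hA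
  have hs : m * (E.n j)⁻¹ ∈ E.S := (hπ.mul (E.mon_n j).inv).S_of
    (mul_mem hm (inv_mem (E.n_NS j))) fun i' => by
      rw [inv_eq_of_mul_eq_one_left (Equiv.ext (C.w_w j) : E.wp [j] * E.wp [j] = 1)]
      change 0 < C.f (C.rt (π (C.w j (C.p i'))))
      rw [hπ.w' (h1 j hj)]
      by_cases h : i' = j
      · rw [h, h1 j hj, w_neg_p]; exact C.f_p j
      refine C.w_pos j (not_le.1 fun h' => ?_) fun e => ?_
      · obtain rfl := (h8 i' (h7 i' h')).resolve_left h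
        simp [h5 _ _ hij h' hj] at hA
      · exact p_ne_np _ _ ((h1 j hj).symm.trans ((congrArg π e.symm).trans (hπ.invol hm2 _)))
  have h9 := h6 _ hs _ (E.n_K j) (inv_mul_cancel_right _ _).symm
  obtain ⟨s, rfl⟩ : ∃ s, m = s * E.n j := ⟨_, (inv_mul_cancel_right _ _).symm⟩
  rw [mul_inv_cancel_right] at hs h9
  obtain ⟨δ, e1⟩ := h3 j hj
  obtain ⟨α, φ, e2⟩ := (h9 (C.p j)).me
  obtain ⟨γ, ψ, e3⟩ := (h9 (C.p i)).me
  rw [hρ, h7 j hj] at e2
  rw [hρ, hi] at e3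
  have e4 : ∀ t, α * φ (-t) = δ * t := fun t => E.X_inj (by rw [← e2.1, ← e1, ← n_np]; group)
  have e5 : (α : F) = -δ := by simpa [neg_eq_iff_eq_neg] using e4 1
  have e6 : ∀ c : F, ψ c = c := fun c => by
    by_cases hc : c = 0
    · simp [hc]
    have := e2.rel e3 (Units.mk0 c hc)
    have e7 := e4 c
    rw [e5, map_neg, neg_mul_neg, mul_right_inj' δ.ne_zero] at e7
    simpa [C.rt_p, hA, e7] using this
  have e7 : E.D (chm (pw α (C.A j)) (C.sr j)) * (E.D (pw (-1) (C.A j)) * (s * s)) = 1 := by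
    rw [← n_n, mul_assoc (E.n j), ← mul_assoc (E.D _), ← n_D, mul_assoc (E.n j),
      ← mul_assoc (E.D _), ← e2.conj_n, ← mul_right_inj s, ← mul_left_inj s⁻¹, mul_one,
      mul_inv_cancel, ← hm2]
    group
  have e8 := congrArg (fun x => x * E.X (C.p i) 1 * x⁻¹) e7
  simp only [_root_.mul_inv_rev, one_mul, inv_one, mul_one] at e8
  rw [show ∀ a b x : A, a * (b * (s * s)) * x * (s⁻¹ * s⁻¹ * b⁻¹ * a⁻¹) =
    a * (b * (s * (s * x * s⁻¹) * s⁻¹) * b⁻¹) * a⁻¹ from fun a b x => by group, e3.1, e3.1, D_conj,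
    D_conj, cv_chm, cv_pw, cv_pw, C.rt_p, sr_apply, map_sub, map_zsmul, hA, C.A_p, e6, e6, e5] at e8
  refine h4 j δ e1 γ ?_
  simpa [sq] using E.X_inj e8

end Emb

end CfsgH8
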