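/-
Lang's theorem for Chevalley groups, by comparing generic points.
-/
import Cfsg.Agent.H8.CA1

set_option autoImplicit false
set_option linter.unusedSectionVars false

namespace CfsgH8

open Matrix CfsgH7

section fields

theorem exists_lift {R S M : Type*} [CommRing R] [IsDomain R] [Field S] [Field M] [IsAlgClosed M]
    [Algebra R S] [Algebra.IsAlgebraic R S] (h : Function.Injective (algebraMap R S))
    (g : R →+* M) (hg : Function.Injective g) : ∃ j : S →+* M, ∀ r, j (algebraMap R S r) = g r := by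
  letI := g.toAlgebra
  haveI := (Module.isTorsionFree_iff_algebraMap_injective (R := R) (A := S)).2 h
  haveI := (Module.isTorsionFree_iff_algebraMap_injective (R := R) (A := M)).2 hg
  exact ⟨(IsAlgClosed.lift : S →ₐ[R] M), fun r => (IsAlgClosed.lift : S →ₐ[R] M).commutes r⟩

variable {F K : Type*} [Field F] [Field K] [Algebra F K]

theorem exists_hom_tb {J : Type*} [IsAlgClosed K] {s s' : J → K} (hs : IsTranscendenceBasis F s)
    (hs' : AlgebraicIndependent F s') :
    ∃ j : K →+* K, (∀ a, j (algebraMap F K a) = algebraMap F K a) ∧ ∀ i, j (s i) = s' i := by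
  haveI := hs.isAlgebraic
  obtain ⟨j, hj⟩ := exists_lift (R := Algebra.adjoin F (Set.range s)) (S := K)
    Subtype.val_injective ((MvPolynomial.aeval s').comp hs.1.repr).toRingHom
    ((algebraicIndependent_iff_injective_aeval.1 hs').comp hs.1.aevalEquiv.symm.injective)
  refine ⟨j, fun a => ?_, fun i => ?_⟩
  · simpa using hj (algebraMap F _ a)
  · have := hj (hs.1.aevalEquiv (MvPolynomial.X i))
    rw [AlgebraicIndependent.algebraMap_aevalEquiv] at this
    simpa [AlgebraicIndependent.repr] using this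

theorem isAlgebraic_of_pow {W : Submodule F K} [Module.Finite F W] {q : ℕ} (hq : 1 < q) {z : K}
    (hz : z ∈ W) (h : ∀ w ∈ W, w ^ q ∈ W) : IsAlgebraic F z := by
  by_contra h1
  have h2 : ∀ n : ℕ, z ^ q ^ n ∈ W := fun n => by
    induction n with
    | zero => simpa using hz
    | succ n ih => rw [pow_succ, pow_mul]; exact h _ ih
  have h3 := ((Polynomial.basisMonomials F).linearIndependent.map' (Polynomial.aeval z).toLinearMap
    (LinearMap.ker_eq_bot.2 (transcendental_iff_injective.1 h1))).comp (q ^ ·)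
    (Nat.pow_right_injective hq)
  exact Module.Finite.not_linearIndependent_of_infinite (R := F) (fun n => (⟨_, h2 n⟩ : W))
    (LinearIndependent.of_comp W.subtype (by simpa [Function.comp_def] using h3))

theorem mem_range_of_pow {F K : Type*} [Field F] [Fintype F] [Field K] (ε : F →+* K) {x : K}
    (h : x ^ Fintype.card F = x) : ∃ y, ε y = x := by
  have h1 := FiniteField.X_pow_card_sub_X_ne_zero F (Fintype.one_lt_card (α := F))
  have h2 : (Polynomial.X ^ Fintype.card F - Polynomial.X : Polynomial F).Splits := by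
    rw [Polynomial.splits_iff_card_roots, FiniteField.roots_X_pow_card_sub_X, ← Finset.card_def,
      Finset.card_univ, FiniteField.X_pow_card_sub_X_natDegree_eq _ Fintype.one_lt_card]
  have h3 : x ∈ ((Polynomial.X ^ Fintype.card F - Polynomial.X : Polynomial F).map ε).roots := by
    rw [Polynomial.mem_roots (Polynomial.map_ne_zero h1)]
    simp [h]
  rw [h2.roots_map] at h3
  obtain ⟨y, -, e⟩ := Multiset.mem_map.1 h3
  exact ⟨y, e⟩

end fields

variable {ι R l F : Type*} [Fintype ι] [DecidableEq ι] [Fintype l] [DecidableEq l] [Field F]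

/-- matrices over a subfield -/
def GE (ι : Type*) [Fintype ι] [DecidableEq ι] (S : Subfield F) : Subgroup (GL ι F) where
  carrier := {g | ∀ i j, (g : Matrix ι ι F) i j ∈ S}
  one_mem' i j := by rw [Units.val_one, one_apply]; split_ifs <;> simp
  mul_mem' ha hb i j := by
    rw [Units.val_mul, mul_apply]
    exact sum_mem fun k _ => mul_mem (ha i k) (hb k j)
  inv_mem' {g} hg i j := by
    obtain ⟨M, hM⟩ : ∃ M : Matrix ι ι S, (g : Matrix ι ι F) = S.subtype.mapMatrix M :=
      ⟨fun i j => ⟨_, hg i j⟩, rfl⟩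
    rw [coe_units_inv, inv_def, hM, ← RingHom.map_adjugate, ← RingHom.map_det, Ring.inverse_eq_inv']
    exact mul_mem (inv_mem (Subtype.mem _)) (Subtype.mem _)

theorem ldu_desc {S : Subfield F} {γ : ι → ℤ} {u b : GL ι F} (hu : u ∈ UT γ 1 one_pos)
    (hb : b ∈ PT fun i => -γ i) (h : u * b ∈ GE ι S) : u ∈ GE ι S := by
  obtain ⟨π, hπ⟩ := (Algebra.linearMap S F).exists_leftInverse_of_injective
    (LinearMap.ker_eq_bot.2 Subtype.val_injective)
  have h1 : ∀ a ∈ S, (π a : F) = a := fun a ha =>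
    congrArg Subtype.val (LinearMap.congr_fun hπ ⟨a, ha⟩)
  have h2 : ∀ a, ∀ b ∈ S, (π (a * b) : F) = π a * b := fun a b hb => by
    rw [mul_comm a, show b * a = (⟨b, hb⟩ : S) • a from rfl, map_smul, mul_comm]; rfl
  let M : Matrix ι ι F := (u⁻¹ : GL ι F)
  have h3 : (M.map fun a => (π a : F)) * (u * b : GL ι F) =
      (b : Matrix ι ι F).map fun a => (π a : F) := by
    ext i j
    rw [map_apply, show (b : Matrix ι ι F) = M * (u * b : GL ι F) by
      rw [← Units.val_mul, inv_mul_cancel_left], mul_apply, mul_apply, map_sum,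
      AddSubmonoidClass.coe_finsetSum]
    exact Finset.sum_congr rfl fun k _ => (h2 _ _ (h k j)).symm
  have h4 : (M - M.map fun a => (π a : F)) * u =
      (b - (b : Matrix ι ι F).map fun a => (π a : F)) * (b⁻¹ : GL ι F) := by
    rw [← h3, Matrix.sub_mul, Matrix.sub_mul, Units.val_mul, Matrix.mul_assoc, Matrix.mul_assoc,
      Units.mul_inv, Units.inv_mul, Matrix.mul_one]
  have h5 : (M - M.map fun a => (π a : F)) * u = 0 := by
    ext i j
    rcases lt_or_ge (γ j) (γ i) with hij | hij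
    · rw [h4, mul_apply]
      refine Finset.sum_eq_zero fun k _ => ?_
      by_cases hk : γ k < γ i
      · rw [Matrix.sub_apply, map_apply, hb.1 i k (neg_lt_neg hk)]; simp
      · rw [hb.2 k j (neg_lt_neg (by omega)), mul_zero]
    · rw [mul_apply]
      refine Finset.sum_eq_zero fun k _ => ?_
      by_cases hk : γ k < γ j
      · rw [hu.1 k j (by omega), one_apply_ne (by rintro rfl; omega), mul_zero]
      · rw [Matrix.sub_apply, map_apply, h1, sub_self, zero_mul]
        rw [show M i k = _ from hu.2 i k (by omega)]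
        exact (GE ι S).one_mem i k
  rw [← inv_mem_iff]
  intro i j
  have := congrFun (congrFun (sub_eq_zero.1 ((Units.mul_left_eq_zero u).1 h5)) i) j
  change M i j ∈ S
  rw [this]
  exact Subtype.mem _

namespace Chev

variable (C : Chev ι R l F)

theorem x_GE {S : Subfield F} (r : R) {t : F} (ht : t ∈ S) : C.x r t ∈ GE ι S := fun i j => by
  rw [C.x_ent]
  refine add_mem ((GE ι S).one_mem i j) (list_sum_mem fun y hy => ?_)
  obtain ⟨km, -, rfl⟩ := List.mem_map.1 hy
  exact mul_mem (intCast_mem _ _) (pow_mem ht _)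

theorem cv_prod (χ : Ch l F) (v : l → ℤ) : cv χ v = ∏ i, cv χ (Pi.single i 1) ^ v i := by
  conv_lhs => rw [← Finset.univ_sum_single v]
  induction (Finset.univ : Finset l) using Finset.induction_on with
  | empty => simp [cv_zero]
  | insert j s hj ih =>
    rw [Finset.sum_insert hj, Finset.prod_insert hj, cv_add, ih, ← cv_zsmul, ← Pi.single_smul,
      smul_eq_mul, mul_one]

theorem hh_GE {S : Subfield F} {χ : Ch l F} (h : ∀ i, cv χ (Pi.single i 1) ∈ S) :
    C.hh χ ∈ GE ι S := fun i j => by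
  rw [hh_val, diagonal_apply]
  split_ifs
  · rw [cv_prod]
    exact prod_mem fun k _ => zpow_mem (h k) _
  · exact zero_mem _

theorem nw_GE (S : Subfield F) (L : List l) : C.nw L ∈ GE ι S :=
  list_prod_mem fun y hy => by
    obtain ⟨i, -, rfl⟩ := List.mem_map.1 hy
    exact mul_mem (mul_mem (C.x_GE _ (one_mem _)) (C.x_GE _ (neg_mem (one_mem _))))
      (C.x_GE _ (one_mem _))

theorem exists_ch_eq (a : l → F) (h : ∀ i, a i ≠ 0) : ∃ χ : Ch l F,
    ∀ i, cv χ (Pi.single i 1) = a i := by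
  refine ⟨MonoidHom.mk' (fun v => ∏ i, Units.mk0 (a i) (h i) ^ v.toAdd i) fun v w => by
    simp [_root_.zpow_add, Finset.prod_mul_distrib], fun i => ?_⟩
  simp only [cv, MonoidHom.mk'_apply, toAdd_ofAdd, Units.coe_prod, Units.val_zpow_eq_zpow_val,
    Units.val_mk0]
  rw [Finset.prod_eq_single i (fun j _ h => by simp [Pi.single_eq_of_ne h]) (by simp)]
  simp

theorem map_nw (σ : F →+* F) (L : List l) : GeneralLinearGroup.map σ (C.nw L) = C.nw L :=
  C.map_G0 σ (list_prod_mem fun y hy => by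
    obtain ⟨i, -, rfl⟩ := List.mem_map.1 hy
    exact C.n_mem_G0 σ i)

theorem map_GG (σ : F →+* F) {g : GL ι F} (hg : g ∈ GG C) : GeneralLinearGroup.map σ g ∈ GG C := by
  obtain ⟨x, hx, χ, rfl⟩ := hg
  exact ⟨_, C.map_mem σ hx, _, by rw [_root_.map_mul, map_hh]⟩

/-- ordered products -/
def PL (L : List R) (s : R → F) : GL ι F := (L.map fun r => C.x r (s r)).prod

/-- upward closed sorted lists of positive roots -/
structure GdL (L : List R) : Prop where
  pw : L.Pairwise fun a b => C.f (C.rt a) < C.f (C.rt b)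
  pos : ∀ r ∈ L, 0 < C.f (C.rt r)
  up : ∀ r ∈ L, ∀ k, C.f (C.rt r) < C.f (C.rt k) → k ∈ L

theorem exists_gdL [Finite R] : ∃ L, C.GdL L ∧ ∀ r, 0 < C.f (C.rt r) → r ∈ L := by
  classical
  haveI := Fintype.ofFinite R
  letI : LinearOrder R := LinearOrder.lift' (fun r => C.f (C.rt r)) C.f_inj
  have h : ∀ r, r ∈ (Finset.univ.filter fun r => 0 < C.f (C.rt r)).sort ↔ 0 < C.f (C.rt r) := by
    simp
  exact ⟨_, ⟨(Finset.sortedLT_sort _).pairwise, fun r => (h r).1,
    fun r hr k hk => (h k).2 (((h r).1 hr).trans hk)⟩, fun r => (h r).2⟩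

theorem map_PL (σ : F →+* F) (L : List R) (s : R → F) :
    GeneralLinearGroup.map σ (C.PL L s) = C.PL L (σ ∘ s) := by
  simp only [PL, map_list_prod, List.map_map, Function.comp_def, map_x]

theorem PL_congr {L : List R} {s s' : R → F} (h : ∀ r ∈ L, s r = s' r) : C.PL L s = C.PL L s' :=
  congrArg List.prod (List.map_congr_left fun r hr => by rw [h r hr])

theorem PL_mem {L : List R} {s : R → F} {H : Subgroup (GL ι F)} (h : ∀ r ∈ L, C.x r (s r) ∈ H) :
    C.PL L s ∈ H :=
  list_prod_mem fun y hy => by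
    obtain ⟨r, hr, rfl⟩ := List.mem_map.1 hy
    exact h r hr

variable {C}

theorem GdL.tail {r : R} {L : List R} (h : C.GdL (r :: L)) : C.GdL L :=
  ⟨h.pw.of_cons, fun k hk => h.pos k (List.mem_cons_of_mem _ hk), fun k hk s hs =>
    (List.mem_cons.1 (h.up k (List.mem_cons_of_mem _ hk) s hs)).resolve_left (by
      rintro rfl
      have := List.rel_of_pairwise_cons h.pw hk
      omega)⟩

theorem GdL.peel {L : List R} (h : C.GdL L) {S : Subfield F} {s : R → F}
    (hs : C.PL L s ∈ GE ι S) : ∀ r ∈ L, s r ∈ S := by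
  induction L with
  | nil => simp
  | cons r L ih =>
    have h1 : s r ∈ S := by
      obtain ⟨b, hb⟩ := C.co_gcd r
      have : s r = ∑ i, b i * (C.co r i * s r) := by
        simp only [← mul_assoc, ← Finset.sum_mul, ← Int.cast_mul, ← Int.cast_sum, hb]; simp
      rw [this]
      refine sum_mem fun i _ => mul_mem (intCast_mem _ _) ?_
      rw [← C.entry_peel (h.pos r List.mem_cons_self) (u := C.PL L s) (C.PL_mem fun k hk =>
        C.x_mem_U (List.rel_of_pairwise_cons h.pw hk) _)]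
      exact hs _ _
    rw [List.forall_mem_cons]
    exact ⟨h1, ih h.tail (((GE ι S).mul_mem_cancel_left (C.x_GE r h1)).1 hs)⟩

theorem GdL.param {L : List R} (h : C.GdL L) {g : (l → ℤ) →+ ℤ}
    (hg : ∀ r ∈ L, 0 ≤ g (C.rt r)) {u : GL ι F} (hu : u ∈ C.Xs {r | r ∈ L ∧ 1 ≤ g (C.rt r)}) :
    ∃ s, (∀ r, g (C.rt r) < 1 → s r = 0) ∧ u = C.PL L s := by
  classical
  induction L generalizing u with
  | nil => exact ⟨0, fun _ _ => rfl, C.Xs_le (K := ⊥) (by simp) hu⟩
  | cons r L ih =>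
    replace ih := @ih h.tail fun k hk => hg k (List.mem_cons_of_mem _ hk)
    have hr : r ∉ L := fun hr => lt_irrefl _ (List.rel_of_pairwise_cons h.pw hr)
    by_cases h1 : 1 ≤ g (C.rt r)
    · obtain ⟨t, u', hu', rfl⟩ := C.split_left (r := r) (T := {r | r ∈ L ∧ 1 ≤ g (C.rt r)})
        (fun s hs => (List.mem_cons.1 hs.1).imp_right fun h => ⟨h, hs.2⟩)
        (fun t _ hu => C.conj_mem (fun s hs a => by
          have h2 := List.rel_of_pairwise_cons h.pw hs.1
          have h3 := h.pos r List.mem_cons_self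
          have := C.comm_all r s (by rintro rfl; omega) (by
            rintro rfl; rw [f_neg] at h2; omega) (-t) a
          rw [x_neg, inv_inv] at this
          convert mul_mem (C.x_mem hs a) (C.Xs_mono ?_ this) using 1
          · group
          rintro k ⟨a, b, ha, hb, e⟩
          have h4 := hs.2
          refine ⟨h.tail.up s hs.1 k ?_, ?_⟩ <;>
            rw [e, map_add, map_nsmul, map_nsmul, nsmul_eq_mul, nsmul_eq_mul] <;>
            nlinarith [show (1 : ℤ) ≤ a by exact_mod_cast ha,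
              show (1 : ℤ) ≤ b by exact_mod_cast hb]) hu) hu
      obtain ⟨s, h2, rfl⟩ := ih hu'
      refine ⟨Function.update s r t, fun k hk => ?_, ?_⟩
      · rw [Function.update_of_ne (by rintro rfl; omega), h2 k hk]
      · rw [C.PL_congr (s' := Function.update s r t) fun k hk =>
          (Function.update_of_ne (by rintro rfl; exact hr hk) _ _).symm]
        simp [PL]
    · obtain ⟨s, h2, rfl⟩ := ih (C.Xs_mono (fun k hk => And.intro ((List.mem_cons.1 hk.1).resolve_left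
        (by rintro rfl; exact h1 hk.2)) hk.2) hu)
      exact ⟨s, h2, by simp [PL, h2 r (by omega), x_zero]⟩

theorem wr_reverse (L : List l) (r : R) : C.wr L (C.wr L.reverse r) = r := by
  induction L generalizing r with
  | nil => rfl
  | cons i L ih =>
    rw [List.reverse_cons, wr_append]
    change C.w i (C.wr L (C.wr L.reverse (C.w i r))) = r
    rw [ih, w_w]

theorem Extra.neg_all (hE : C.Extra) {L : List l} (h : ∀ i, C.f (C.rt (C.wr L (C.p i))) < 0) {r : R}
    (hr : 0 < C.f (C.rt r)) : C.f (C.rt (C.wr L r)) < 0 := by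
  have h5 := dom_nonneg (g := -C.f.comp (C.wl L)) (fun j => by
    have := h j
    rw [(hE.acts_nw L).rt, C.rt_p] at this
    simpa using this.le) (C.rt_nonneg hr)
  have := C.f_ne (C.wr L r)
  rw [(hE.acts_nw L).rt] at this ⊢
  simp only [AddMonoidHom.neg_apply, AddMonoidHom.comp_apply] at h5
  omega

theorem Extra.nw_eq [Finite R] (hE : C.Extra) {L L' : List l}
    (h : ∀ i, C.f (C.rt (C.wr L (C.p i))) < 0) (h' : ∀ i, C.f (C.rt (C.wr L' (C.p i))) < 0) :
    ∃ χ, C.nw L' = C.hh χ * C.nw L := by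
  obtain ⟨χ, e⟩ := hE.mem_H (L ++ L.reverse) fun i => by rw [wr_append, wr_reverse]; exact C.f_p i
  obtain ⟨χ', e'⟩ := hE.mem_H (L' ++ L.reverse) fun i => by
    have h1 := mt (hE.neg_all h (r := C.wr L.reverse (C.p i))) (by
      rw [wr_reverse]; exact not_lt.2 (C.f_p i).le)
    have h2 := hE.neg_all h' (r := C.neg (C.wr L.reverse (C.p i))) (by
      have := C.f_ne (C.wr L.reverse (C.p i))
      rw [f_neg]; omega)
    rw [(hE.acts_nw L').pi_neg, f_neg] at h2
    rw [wr_append]; omega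
  rw [nw_append] at e e'
  exact ⟨χ' * χ⁻¹, by rw [_root_.map_mul, hh_inv, ← e, ← e']; group⟩

theorem Extra.desc_GE (hE : C.Extra) {L : List R} (hL : C.GdL L)
    (hL' : ∀ r, 0 < C.f (C.rt r) → r ∈ L) {S : Subfield F} {t : R → F} {χ : Ch l F}
    (h : C.PL L t * (C.hh χ * hE.opp.PL L (t ∘ C.neg)) ∈ GE ι S) :
    (∀ r, t r ∈ S) ∧ ∀ i, cv χ (Pi.single i 1) ∈ S := by
  have h1 : hE.opp.PL L (t ∘ C.neg) ∈ C.U (-C.f) 1 := hE.opp.PL_mem fun r hr =>
    C.x_mem_U (r := C.neg r) (by rw [AddMonoidHom.neg_apply, f_neg, neg_neg]; exact hL.pos r hr) _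
  have h2 := ldu_desc (γ := fun i => C.f (C.wt i))
    (C.U_le_UT C.f one_pos (C.PL_mem fun r hr => C.x_mem_U (hL.pos r hr) _))
    (mul_mem (C.hh_mem_PT _ χ) (C.U_le_PT (g := -C.f) (fun r hr => le_trans zero_le_one hr) h1)) h
  rw [(GE ι S).mul_mem_cancel_left h2] at h
  have h3 : ∀ i, cv χ (Pi.single i 1) ∈ S := fun i => by
    have := h (C.e (C.p i)) (C.e (C.p i))
    rwa [Units.val_mul, hh_val, diagonal_mul, (C.U_le_UT _ one_pos h1).1 _ _ (by omega), one_apply_eq,
      mul_one, C.wt_e, C.rt_p] at this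
  rw [(GE ι S).mul_mem_cancel_left (C.hh_GE h3)] at h
  refine ⟨fun r => ?_, h3⟩
  rcases (C.f_ne r).lt_or_gt with hr | hr
  · have := GdL.peel (C := hE.opp) ⟨hL.1, hL.2, hL.3⟩ h (C.neg r) (hL' _ (by rw [f_neg]; omega))
    rwa [Function.comp, neg_neg'] at this
  · exact hL.peel h2 r (hL' r hr)

theorem Extra.lang_core [Finite R] (hE : C.Extra) {F₀ : Type*} [Field F₀] [Algebra F₀ F]
    [IsAlgClosed F] {t : R ⊕ l → F} (ht : IsTranscendenceBasis F₀ t) {φ : F →+* F} {q : ℕ}
    (hq : 1 < q) (hφ : ∀ x, φ x = x ^ q) {c : GL ι F} (hc : c ∈ GG C)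
    (hc' : ∀ i j, ∃ a, algebraMap F₀ F a = (c : Matrix ι ι F) i j) :
    ∃ x ∈ GG C, c = x * (GeneralLinearGroup.map φ x)⁻¹ := by
  classical
  obtain ⟨Lr, hL, hL'⟩ := C.exists_gdL
  obtain ⟨χt, hχ⟩ := exists_ch_eq (t ∘ .inr) fun i => ht.1.ne_zero _
  obtain ⟨g, hg⟩ : ∃ g, g = C.PL Lr (t ∘ .inl) * (C.hh χt * hE.opp.PL Lr ((t ∘ .inl) ∘ C.neg)) :=
    ⟨_, rfl⟩
  have hx : ∀ r t, C.x r t ∈ GG C := fun r t => Xs_le_GG C (C.x_mem (Set.mem_univ r) t)
  have hgG : g ∈ GG C := hg ▸ mul_mem (C.PL_mem fun _ _ => hx _ _) (mul_mem (hh_mem_GG C _)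
    (hE.opp.PL_mem fun _ _ => hx _ _))
  have gen : ∀ {c : GL ι F}, (∀ i j, ∃ a, algebraMap F₀ F a = (c : Matrix ι ι F) i j) →
      ∀ (s : R ⊕ l → F) χ L, (∀ i, cv χ (Pi.single i 1) = s (.inr i)) →
      g⁻¹ * c * GeneralLinearGroup.map φ g =
        C.PL Lr (s ∘ .inl) * C.hh χ * C.nw L * C.PL Lr ((s ∘ .inl) ∘ C.neg) →
      IsTranscendenceBasis F₀ s := by
    intro c hc s χ L h1 h2
    let E := IntermediateField.adjoin F₀ (Set.range s)
    have hs : ∀ j, s j ∈ E.toSubfield := fun j => IntermediateField.subset_adjoin _ _ ⟨j, rfl⟩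
    have h3 : g⁻¹ * c * GeneralLinearGroup.map φ g ∈ GE ι E.toSubfield :=
      h2 ▸ mul_mem (mul_mem (mul_mem (C.PL_mem fun _ _ => C.x_GE _ (hs _))
        (C.hh_GE fun i => h1 i ▸ hs _)) (C.nw_GE _ _)) (C.PL_mem fun _ _ => C.x_GE _ (hs _))
    have h4 : c⁻¹ ∈ GE ι E.toSubfield := inv_mem fun i j => by
      obtain ⟨a, ha⟩ := hc i j
      exact ha ▸ E.algebraMap_mem a
    let W := Submodule.span E (Set.range fun ij : ι × ι => (g : Matrix ι ι F) ij.1 ij.2)
    haveI : Module.Finite E W := Module.Finite.span_of_finite _ (Set.finite_range _)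
    have h5 : ∀ w ∈ W, w ^ q ∈ W := fun w hw => by
      rw [← hφ]
      induction hw using Submodule.span_induction with
      | mem _ h =>
        obtain ⟨⟨i, j⟩, rfl⟩ := h
        rw [← GeneralLinearGroup.map_apply, show GeneralLinearGroup.map φ g =
          c⁻¹ * g * (g⁻¹ * c * GeneralLinearGroup.map φ g) by group, Units.val_mul, Units.val_mul,
          mul_apply]
        refine sum_mem fun k _ => ?_
        rw [mul_comm, mul_apply]
        exact W.smul_mem (⟨_, h3 k j⟩ : E) (sum_mem fun a _ =>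
          W.smul_mem (⟨_, h4 i a⟩ : E) (Submodule.subset_span ⟨(a, k), rfl⟩))
      | zero => simp
      | add a b _ _ ha hb => rw [map_add]; exact add_mem ha hb
      | smul a b _ hb =>
        rw [show a • b = (a : F) * b from rfl, _root_.map_mul, hφ a]
        exact W.smul_mem (a ^ q) hb
    obtain ⟨h6, h7⟩ := hE.desc_GE hL hL' (S := (algebraicClosure E F).toSubfield)
      (t := t ∘ .inl) (χ := χt) (by
        rw [← hg]
        exact fun i j => mem_algebraicClosure_iff.2 (isAlgebraic_of_pow hq (W := W)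
          (Submodule.subset_span ⟨(i, j), rfl⟩) h5))
    haveI : Algebra.IsAlgebraic (Algebra.adjoin F₀ (Set.range s)) F :=
      IntermediateField.isAlgebraic_adjoin_iff_top.1 (ht.isAlgebraic_iff.2 fun j =>
        mem_algebraicClosure_iff.1 (by
          rcases j with r | i
          exacts [h6 r, by have := h7 i; rwa [hχ] at this]))
    exact Algebra.IsAlgebraic.isTranscendenceBasis_of_lift_le_trdeg_of_finite F₀ s
      ht.lift_cardinalMk_eq_trdeg.le
  have gen2 : ∀ {c : GL ι F}, (∀ i j, ∃ a, algebraMap F₀ F a = (c : Matrix ι ι F) i j) →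
      ∀ u ∈ C.U C.f 1, ∀ χ L (s₃ : R → F), g⁻¹ * c * GeneralLinearGroup.map φ g =
        u * C.hh χ * C.nw L * C.PL Lr s₃ → ∃ s : R ⊕ l → F, IsTranscendenceBasis F₀ s ∧
        (∀ r ∈ Lr, s (.inl (C.neg r)) = s₃ r) ∧ (∀ i, cv χ (Pi.single i 1) = s (.inr i)) ∧
        g⁻¹ * c * GeneralLinearGroup.map φ g =
          C.PL Lr (s ∘ .inl) * C.hh χ * C.nw L * C.PL Lr ((s ∘ .inl) ∘ C.neg) := by
    intro c hc u hu χ L s₃ h
    obtain ⟨s₁, -, rfl⟩ := hL.param (g := C.f) (fun r hr => (hL.pos r hr).le)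
      (C.Xs_mono (fun r hr => And.intro (hL' r hr) hr) hu)
    let s : R ⊕ l → F := Sum.elim (fun r => if 0 < C.f (C.rt r) then s₁ r else s₃ (C.neg r))
      fun i => cv χ (Pi.single i 1)
    have h1 : ∀ r ∈ Lr, s (.inl (C.neg r)) = s₃ r := fun r hr => by
      have := hL.pos r hr
      simp only [s, Sum.elim_inl]
      rw [if_neg (by rw [f_neg]; omega), neg_neg']
    have h2 := h.trans (congrArg₂ (fun a b => a * C.hh χ * C.nw L * b)
      (C.PL_congr (s' := s ∘ .inl) fun r hr => (if_pos (hL.pos r hr)).symm)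
      (C.PL_congr (s' := (s ∘ .inl) ∘ C.neg) fun r hr => (h1 r hr).symm))
    exact ⟨s, gen hc s χ L (fun _ => rfl) h2, h1, fun _ => rfl, h2⟩
  have gen3 : ∀ {c : GL ι F}, (∀ i j, ∃ a, algebraMap F₀ F a = (c : Matrix ι ι F) i j) → c ∈ GG C →
      ∃ u ∈ C.U C.f 1, ∃ χ L s₃, (∀ i, C.f (C.rt (C.wr L (C.p i))) < 0) ∧
        g⁻¹ * c * GeneralLinearGroup.map φ g = u * C.hh χ * C.nw L * C.PL Lr s₃ := by
    intro c hc hcG
    obtain ⟨x, hx, ψ, e⟩ := inv_mem (mul_mem (mul_mem (inv_mem hgG) hcG) (C.map_GG φ hgG))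
    obtain ⟨u, hu, χ, L, v, hv, e'⟩ := hE.bruhat (inv_mem hx)
    replace e : g⁻¹ * c * GeneralLinearGroup.map φ g =
        C.hh ψ⁻¹ * u * (C.hh ψ⁻¹)⁻¹ * C.hh (ψ⁻¹ * χ) * C.nw L * v := by
      rw [← _root_.inv_inj, e, ← inv_inv x, e', _root_.map_mul, hh_inv]; group
    replace hu : _ ∈ C.U C.f 1 := C.hh_conj_mem ψ⁻¹ hu
    generalize C.hh ψ⁻¹ * u * (C.hh ψ⁻¹)⁻¹ = u at e hu
    generalize ψ⁻¹ * χ = χ at e
    obtain ⟨s₃, -, h1⟩ := hL.param (g := C.f) (fun r hr => (hL.pos r hr).le)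
      (C.Xs_mono (fun r hr => And.intro (hL' r hr) hr) hv)
    refine ⟨u, hu, χ, L, s₃, fun i => ?_, h1 ▸ e⟩
    by_contra h2
    obtain ⟨a, v', hv', h3⟩ := C.U_split i (inv_mem hv)
    obtain ⟨s₄, h4, h5⟩ := hL.param (g := C.gf i) (fun r hr => by
        rcases C.gf_pos_of i (hL.pos r hr) with rfl | h
        exacts [(C.gf_p i).ge, by omega])
      (C.Xs_mono (fun r hr => And.intro (hL' r (C.f_pos_of i hr)) hr) (inv_mem hv'))
    obtain ⟨η, -, h6, -⟩ := (hE.acts_nw L).conj (C.p i)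
    obtain ⟨s, h7, h8, -⟩ := gen2 hc _ (mul_mem hu (C.hh_conj_mem χ (C.x_mem_U
      (r := C.wr L (C.p i)) (by have := C.f_ne (C.wr L (C.p i)); omega) (η * -a)))) χ L s₄ (by
        rw [e, ← h5, ← h6, x_neg, ← inv_inv v, h3]; group)
    exact h7.1.ne_zero _ ((h8 _ (hL' _ (C.f_p i))).trans (h4 _ (by rw [gf_p]; omega)))
  have h1 : ∀ i j, ∃ a, algebraMap F₀ F a = ((1 : GL ι F) : Matrix ι ι F) i j := fun i j =>
    (GE ι (algebraMap F₀ F).fieldRange).one_mem i j
  obtain ⟨u₁, hu₁, χ₁, L₁, t₁, n₁, e₁⟩ := gen3 h1 (one_mem _)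
  obtain ⟨u₂, hu₂, χ₂, L₂, t₂, n₂, e₂⟩ := gen3 hc' hc
  obtain ⟨ψ, e⟩ := hE.nw_eq n₁ n₂
  rw [e, ← mul_assoc, mul_assoc u₂, ← _root_.map_mul] at e₂
  obtain ⟨s₁, b₁, -, c₁, d₁⟩ := gen2 h1 _ hu₁ _ _ _ e₁
  obtain ⟨s₂, b₂, -, c₂, d₂⟩ := gen2 hc' _ hu₂ _ _ _ e₂
  obtain ⟨j, -, hj⟩ := exists_hom_tb b₁ b₂.1
  have h2 := congrArg (GeneralLinearGroup.map j) d₁
  have h3 : ∀ x : GL ι F, GeneralLinearGroup.map j (GeneralLinearGroup.map φ x) =
      GeneralLinearGroup.map φ (GeneralLinearGroup.map j x) := fun x => by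
    ext a b
    simp only [GeneralLinearGroup.map_apply, hφ, map_pow]
  simp only [_root_.map_mul, mul_one, map_inv, map_PL, map_hh, map_nw, h3] at h2
  rw [show j ∘ s₁ ∘ .inl = s₂ ∘ .inl from funext fun _ => hj _,
    show j ∘ (s₁ ∘ .inl) ∘ C.neg = (s₂ ∘ .inl) ∘ C.neg from funext fun _ => hj _,
    show (Units.map j.toMonoidHom).comp χ₁ = χ₂ * ψ from ch_ext fun i => by
      rw [c₂, ← hj, ← c₁]; rfl, ← d₂] at h2
  refine ⟨g * (GeneralLinearGroup.map j g)⁻¹, mul_mem hgG (inv_mem (C.map_GG j hgG)), ?_⟩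
  rw [_root_.map_mul, map_inv, _root_.mul_inv_rev, inv_inv, ← mul_assoc, mul_assoc g, h2]
  group

end Chev

end CfsgH8
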