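/-
Sparse polynomial vectors: a reflective checker for identities between products of root elements.
-/
import Cfsg.Agent.H8.Chev2
import Cfsg.Agent.H5.Bits
import Cfsg.Prelude.Def_ChevAutomorphisms

set_option autoImplicit false
set_option linter.unusedSectionVars false

namespace CfsgH8

open Matrix CfsgH5 Cfsg.Lie

noncomputable section

/-- monomial `d t^a u^b e_r` -/
structure En where
  r : ℕ
  a : ℕ
  b : ℕ
  d : ℤ

/-- column entry `m τ^k e_r` -/
structure Ce where
  r : ℕ
  k : ℕ
  m : ℤ

def forceI {α : Type} (x : ℤ) (k : ℤ → α) : α :=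
  Int.rec (motive := fun _ => α) (fun n => force n fun n => k (Int.ofNat n))
    (fun n => force n fun n => k (Int.negSucc n)) x

@[simp] theorem forceI_eq {α : Type} (x : ℤ) (k : ℤ → α) : forceI x k = k x := by
  cases x <;> simp [forceI]

def ibeq (x y : ℤ) : Bool :=
  Int.rec (motive := fun _ => Bool)
    (fun n => Int.rec (motive := fun _ => Bool) (fun m => Nat.beq n m) (fun _ => false) y)
    (fun n => Int.rec (motive := fun _ => Bool) (fun _ => false) (fun m => Nat.beq n m) y) x

theorem ibeq_iff (x y : ℤ) : ibeq x y = true ↔ x = y := by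
  cases x <;> cases y <;> simp [ibeq]

def ipw (c : ℤ) (k : ℕ) : ℤ := Nat.rec (motive := fun _ => ℤ) 1 (fun _ ih => Int.mul ih c) k

theorem ipw_eq (c : ℤ) (k : ℕ) : ipw c k = c ^ k := by
  induction k with
  | zero => rw [pow_zero]; rfl
  | succ k ih => rw [pow_succ, ← ih]; rfl

def forceL {α β : Type} (l : List α) (k : List α → β) : β :=
  List.rec (motive := fun _ => (List α → β) → β) (fun k => k [])
    (fun a _ ih k => ih fun t => k (a :: t)) l k

theorem forceL_eq {α β : Type} (l : List α) (k : List α → β) : forceL l k = k l := by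
  induction l generalizing k with
  | nil => rfl
  | cons a l ih => exact ih _

/-- action of `x(c t^i u^j)` -/
def appX (col : ℕ → List Ce) (c : ℤ) (i j : ℕ) (v : List En) : List En :=
  List.rec (motive := fun _ => List En) []
    (fun e _ ih => e :: List.rec (motive := fun _ => List En) ih
      (fun q _ ih2 => force (Nat.add e.a (Nat.mul q.k i)) fun a =>
        force (Nat.add e.b (Nat.mul q.k j)) fun b =>
          forceI (Int.mul (Int.mul e.d q.m) (ipw c q.k)) fun d => ⟨q.r, a, b, d⟩ :: ih2)
      (col e.r)) v

theorem appX_cons (col : ℕ → List Ce) (c : ℤ) (i j : ℕ) (e : En) (v : List En) :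
    appX col c i j (e :: v) = e :: ((col e.r).map fun q =>
      ⟨q.r, e.a + q.k * i, e.b + q.k * j, e.d * q.m * c ^ q.k⟩) ++ appX col c i j v := by
  change e :: List.rec (motive := fun _ => List En) (appX col c i j v) _ (col e.r) = _
  rw [List.cons_append]
  congr 1
  induction col e.r with
  | nil => rfl
  | cons q l ih => simp only [force_eq, forceI_eq, ipw_eq, List.map_cons, List.cons_append] at ih ⊢
                   rw [← ih]; rfl

/-- action of a constant matrix -/
def appN (col : ℕ → List Ce) (v : List En) : List En :=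
  List.rec (motive := fun _ => List En) []
    (fun e _ ih => List.rec (motive := fun _ => List En) ih
      (fun q _ ih2 => forceI (Int.mul e.d q.m) fun d => ⟨q.r, e.a, e.b, d⟩ :: ih2)
      (col e.r)) v

theorem appN_cons (col : ℕ → List Ce) (e : En) (v : List En) :
    appN col (e :: v) = ((col e.r).map fun q => ⟨q.r, e.a, e.b, e.d * q.m⟩) ++ appN col v := by
  change List.rec (motive := fun _ => List En) (appN col v) _ (col e.r) = _
  induction col e.r with
  | nil => rfl
  | cons q l ih => simp only [forceI_eq, List.map_cons, List.cons_append] at ih ⊢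
                   rw [← ih]; rfl

/-- action of `x(t + u)` -/
def appS (col : ℕ → List Ce) (v : List En) : List En :=
  v.flatMap fun e => e :: (col e.r).flatMap fun q => (List.range (q.k + 1)).map fun a =>
    ⟨q.r, e.a + a, e.b + (q.k - a), Int.mul (Int.mul e.d q.m) (Int.ofNat (q.k.choose a))⟩

def keq (e e' : En) : Bool := band (Nat.beq e.r e'.r) (band (Nat.beq e.a e'.a) (Nat.beq e.b e'.b))

theorem keq_iff (e e' : En) : keq e e' = true ↔ (e.r, e.a, e.b) = (e'.r, e'.a, e'.b) := by
  simp [keq]

def leqE (l : List En) : List En → Bool :=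
  List.rec (motive := fun _ => List En → Bool)
    (fun l' => List.rec (motive := fun _ => Bool) true (fun _ _ _ => false) l')
    (fun e _ ih l' => List.rec (motive := fun _ => Bool) false
      (fun e' t' _ => band (keq e e') (band (ibeq e.d e'.d) (ih t'))) l') l

theorem leqE_eq (l l' : List En) (h : leqE l l' = true) : l = l' := by
  induction l generalizing l' with
  | nil => cases l' with
    | nil => rfl
    | cons _ _ => exact absurd h Bool.false_ne_true
  | cons e l ih => cases l' with
    | nil => exact absurd h Bool.false_ne_true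
    | cons e' l' =>
      change band (keq e e') (band (ibeq e.d e'.d) (leqE l l')) = true at h
      simp only [band_eq, Bool.and_eq_true, keq_iff, ibeq_iff, Prod.mk.injEq] at h
      obtain ⟨⟨h1, h2, h3⟩, h4, h5⟩ := h
      cases e; cases e'
      simp only at h1 h2 h3 h4
      rw [ih l' h5, h1, h2, h3, h4]

def coefE (l : List En) (e : En) : ℤ :=
  List.rec (motive := fun _ => ℤ) 0 (fun e' _ ih => bif' (keq e' e) (Int.add e'.d ih) ih) l

def eqV (l l' : List En) : Bool :=
  forceL l fun l => forceL l' fun l' => bor (leqE l l')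
    (band (allL l fun e => ibeq (coefE l e) (coefE l' e)) (allL l' fun e => ibeq (coefE l e) (coefE l' e)))

section sem

variable {ι F : Type*} [Field F] (code : ι → ℕ) (N : ℕ) (t u : F)

def bas (F : Type*) [Field F] (code : ι → ℕ) (n : ℕ) : ι → F := fun i => if code i = n then 1 else 0

def valL (l : List En) : ι → F := (l.map fun e => ((e.d : F) * t ^ e.a * u ^ e.b) • bas F code e.r).sum

theorem valL_nil : valL code t u [] = 0 := rfl

theorem valL_cons (e : En) (l : List En) : valL code t u (e :: l) =
    ((e.d : F) * t ^ e.a * u ^ e.b) • bas F code e.r + valL code t u l := rfl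

theorem valL_append (l l' : List En) : valL code t u (l ++ l') = valL code t u l + valL code t u l' := by
  simp [valL]

theorem valL_eq_sum (l : List En) (K : Finset (ℕ × ℕ × ℕ)) (h : ∀ e ∈ l, (e.r, e.a, e.b) ∈ K) :
    valL code t u l = ∑ k ∈ K, ((coefE l ⟨k.1, k.2.1, k.2.2, 0⟩ : F) * t ^ k.2.1 * u ^ k.2.2) •
      bas F code k.1 := by
  induction l with
  | nil => simp [valL, coefE]
  | cons e l ih =>
    rw [valL_cons, ih fun e he => h e (List.mem_cons_of_mem _ he)]
    have : ∀ k : ℕ × ℕ × ℕ, coefE (e :: l) ⟨k.1, k.2.1, k.2.2, 0⟩ =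
        (if (e.r, e.a, e.b) = k then e.d else 0) + coefE l ⟨k.1, k.2.1, k.2.2, 0⟩ := fun k => by
      change bif' (keq e _) (Int.add e.d (coefE l _)) (coefE l _) = _
      rw [bif'_eq]
      simp only [keq_iff]
      split_ifs <;> simp
    simp only [this, Int.cast_add, add_mul, add_smul, Finset.sum_add_distrib]
    congr 1
    rw [Finset.sum_eq_single (e.r, e.a, e.b)]
    · simp
    · intro k _ hk
      simp [Ne.symm hk]
    · intro h'; exact absurd (h e List.mem_cons_self) h'

theorem coefE_congr (l : List En) (e : En) : coefE l e = coefE l ⟨e.r, e.a, e.b, 0⟩ := by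
  induction l with
  | nil => rfl
  | cons e' l ih =>
    change bif' (keq e' _) (Int.add e'.d (coefE l _)) (coefE l _) =
      bif' (keq e' _) (Int.add e'.d (coefE l _)) (coefE l _)
    rw [ih]; rfl

theorem valL_of_eqV {l l' : List En} (h : eqV l l' = true) : valL code t u l = valL code t u l' := by
  classical
  simp only [eqV, forceL_eq, bor_eq, band_eq, Bool.or_eq_true, Bool.and_eq_true, allL_iff,
    ibeq_iff] at h
  rcases h with h | ⟨h1, h2⟩
  · rw [leqE_eq _ _ h]
  let K := ((l ++ l').map fun e => (e.r, e.a, e.b)).toFinset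
  rw [valL_eq_sum code t u l K (fun e he => List.mem_toFinset.2
      (List.mem_map_of_mem (List.mem_append_left _ he))),
    valL_eq_sum code t u l' K (fun e he => List.mem_toFinset.2
      (List.mem_map_of_mem (List.mem_append_right _ he)))]
  refine Finset.sum_congr rfl fun k hk => ?_
  simp only [K, List.mem_toFinset, List.mem_map, List.mem_append] at hk
  obtain ⟨e, he, rfl⟩ := hk
  rw [← coefE_congr, ← coefE_congr]
  rcases he with he | he
  exacts [by rw [h1 e he], by rw [h2 e he]]

variable [Fintype ι]

/-- `φ` represents the matrix `M` -/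
def Rp (M : Matrix ι ι F) (φ : List En → List En) : Prop :=
  ∀ v, (∀ e ∈ v, e.r < N) → (∀ e ∈ φ v, e.r < N) ∧ M *ᵥ valL code t u v = valL code t u (φ v)

variable {code N t u}

theorem Rp.mul {M M' : Matrix ι ι F} {φ φ' : List En → List En} (h : Rp code N t u M φ)
    (h' : Rp code N t u M' φ') : Rp code N t u (M * M') fun v => φ (φ' v) := fun v hv =>
  ⟨(h _ (h' v hv).1).1, by rw [← mulVec_mulVec, (h' v hv).2, (h _ (h' v hv).1).2]⟩

theorem Rp.one [DecidableEq ι] : Rp code N t u (1 : Matrix ι ι F) fun v => v := fun v hv =>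
  ⟨hv, one_mulVec _⟩

theorem Rp.eq [DecidableEq ι] (hc : Function.Injective code) (hN : ∀ i, code i < N)
    {M M' : Matrix ι ι F} {φ φ' : List En → List En} (h : Rp code N t u M φ)
    (h' : Rp code N t u M' φ')
    (he : ∀ c < N, eqV (φ [⟨c, 0, 0, 1⟩]) (φ' [⟨c, 0, 0, 1⟩]) = true) : M = M' := by
  ext i j
  have e1 := (h [⟨code j, 0, 0, 1⟩] (by simp [hN])).2
  have e2 := (h' [⟨code j, 0, 0, 1⟩] (by simp [hN])).2
  rw [valL_of_eqV code t u (he _ (hN j)), ← e2] at e1
  have e3 : valL code t u [⟨code j, 0, 0, 1⟩] = Pi.single j 1 := by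
    ext k; simp [valL, bas, hc.eq_iff, Pi.single_apply]
  rw [e3, mulVec_single_one, mulVec_single_one] at e1
  exact congrFun e1 i

theorem rp_of_cons {M : Matrix ι ι F} {φ : List En → List En} (ψ : En → List En) (h0 : φ [] = [])
    (h1 : ∀ e v, φ (e :: v) = ψ e ++ φ v) (h2 : ∀ e, e.r < N → (∀ e' ∈ ψ e, e'.r < N) ∧
      ((e.d : F) * t ^ e.a * u ^ e.b) • M *ᵥ bas F code e.r = valL code t u (ψ e)) :
    Rp code N t u M φ := by
  intro v hv
  induction v with
  | nil => simp [h0, valL]
  | cons e v ih =>
    have := ih fun e he => hv e (List.mem_cons_of_mem _ he)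
    have h3 := h2 e (hv e List.mem_cons_self)
    rw [h1, valL_cons, mulVec_add, mulVec_smul, this.2, valL_append, h3.2]
    exact ⟨fun e' he' => (List.mem_append.1 he').elim (h3.1 e') (this.1 e'), rfl⟩

/-- columns of a root element -/
def ColX (code : ι → ℕ) (N : ℕ) (M : Matrix ι ι F) (col : ℕ → List Ce) (τ : F) : Prop :=
  ∀ n < N, (∀ q ∈ col n, q.r < N) ∧ M *ᵥ bas F code n =
    bas F code n + ((col n).map fun q => ((q.m : F) * τ ^ q.k) • bas F code q.r).sum

theorem ColX.rp {M : Matrix ι ι F} {col : ℕ → List Ce} {c : ℤ} {i j : ℕ}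
    (h : ColX code N M col (c * t ^ i * u ^ j)) : Rp code N t u M (appX col c i j) := by
  refine rp_of_cons _ rfl (appX_cons col c i j) fun e he => ⟨?_, ?_⟩
  · intro e' he'
    rcases List.mem_cons.1 he' with rfl | he'
    · exact he
    · obtain ⟨q, hq, rfl⟩ := List.mem_map.1 he'
      exact (h _ he).1 q hq
  · rw [(h _ he).2, valL_cons, smul_add, List.smul_sum, valL, List.map_map, List.map_map]
    congr 2
    refine List.map_congr_left fun q _ => ?_
    simp only [Function.comp, smul_smul]
    congr 1
    push_cast
    ring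

theorem ColX.rpS {M : Matrix ι ι F} {col : ℕ → List Ce}
    (h : ColX code N M col (t + u)) : Rp code N t u M (appS col) := by
  refine rp_of_cons _ rfl (fun e v => List.flatMap_cons) fun e he => ⟨?_, ?_⟩
  · intro e' he'
    rcases List.mem_cons.1 he' with rfl | he'
    · exact he
    · obtain ⟨q, hq, h2⟩ := List.mem_flatMap.1 he'
      obtain ⟨a, -, rfl⟩ := List.mem_map.1 h2
      exact (h _ he).1 q hq
  · rw [(h _ he).2, valL_cons, smul_add, List.smul_sum, List.map_map]
    congr 1
    induction col e.r with
    | nil => rfl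
    | cons q l ih =>
      rw [List.flatMap_cons, valL_append, ← ih, List.map_cons, List.sum_cons]
      congr 1
      rw [valL, List.map_map, Function.comp, add_pow, Finset.mul_sum, Finset.sum_smul,
        Finset.smul_sum, ← List.sum_toFinset _ List.nodup_range, List.toFinset_range]
      refine Finset.sum_congr rfl fun a _ => ?_
      simp only [Function.comp, smul_smul, Int.mul_def, Int.ofNat_eq_natCast]
      congr 1
      push_cast
      ring

/-- the constant matrix with given columns -/
def NM (F : Type*) [Field F] (code : ι → ℕ) (col : ℕ → List Ce) : Matrix ι ι F :=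
  Matrix.of fun i j => ((col (code j)).map fun q => (q.m : F) • bas F code q.r).sum i

theorem rp_NM [DecidableEq ι] (hc : Function.Injective code) (hs : ∀ n < N, ∃ i, code i = n)
    {col : ℕ → List Ce} (h : ∀ n < N, ∀ q ∈ col n, q.r < N) :
    Rp code N t u (NM F code col) (appN col) := by
  refine rp_of_cons _ rfl (appN_cons col) fun e he => ⟨?_, ?_⟩
  · intro e' he'
    obtain ⟨q, hq, rfl⟩ := List.mem_map.1 he'
    exact h _ he q hq
  · obtain ⟨j, hj⟩ := hs _ he
    have e3 : bas F code (code j) = Pi.single j 1 := by
      ext k; simp [bas, hc.eq_iff, Pi.single_apply]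
    rw [← hj, e3, mulVec_single_one]
    have : (NM F code col).col j = ((col (code j)).map fun q => (q.m : F) • bas F code q.r).sum := rfl
    rw [this, List.smul_sum, valL, List.map_map, List.map_map]
    congr 1
    refine List.map_congr_left fun q _ => ?_
    simp only [Function.comp, smul_smul]
    congr 1
    push_cast
    ring

theorem NM_ne {col : ℕ → List Ce} {i j : ι} (h : NM F code col i j ≠ 0) :
    ∃ q ∈ col (code j), q.r = code i := by
  by_contra h'
  push Not at h'
  apply h
  change ((col (code j)).map fun q => (q.m : F) • bas F code q.r).sum i = 0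
  generalize col (code j) = L at h'
  induction L with
  | nil => rfl
  | cons q L ih =>
    rw [List.map_cons, List.sum_cons, Pi.add_apply, ih fun q hq => h' q (List.mem_cons_of_mem _ hq)]
    simp [bas, (h' q List.mem_cons_self).symm]

end sem

end

end CfsgH8
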