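/-
Columns of the root elements of a Chevalley datum, and tables with their checks.
-/
import Cfsg.Agent.H8.Chev3

set_option autoImplicit false
set_option linter.unusedSectionVars false

namespace CfsgH8

open Matrix CfsgH5 Cfsg.Lie

noncomputable section

variable (D : ChevalleyDatum)

def codeD : D.Idx → ℕ := Sum.elim (fun i => i.val) fun r => D.rank + r.val

theorem codeD_inl (i : Fin D.rank) : codeD D (.inl i) = i := rfl
theorem codeD_inr (r : Fin D.nroots) : codeD D (.inr r) = D.rank + r := rfl

theorem codeD_lt (i : D.Idx) : codeD D i < D.rank + D.nroots := by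
  rcases i with i | r
  · have := i.2; simp only [codeD, Sum.elim_inl]; omega
  · have := r.2; simp only [codeD, Sum.elim_inr]; omega

theorem codeD_inj : Function.Injective (codeD D) := by
  rintro (i | r) (j | s) h <;> simp only [codeD, Sum.elim_inl, Sum.elim_inr] at h
  · rw [Fin.ext h]
  · have := i.2; omega
  · have := j.2; omega
  · rw [Fin.ext (by omega : r.val = s.val)]

theorem codeD_surj (n : ℕ) (h : n < D.rank + D.nroots) : ∃ i, codeD D i = n := by
  by_cases h1 : n < D.rank
  · exact ⟨.inl ⟨n, h1⟩, rfl⟩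
  · exact ⟨.inr ⟨n - D.rank, by omega⟩, by simp only [codeD, Sum.elim_inr]; omega⟩

def coD (r i : ℕ) : ℤ := (D.coroot.getD r #[]).getD i 0

def specD (r : ℕ) : List Ce :=
  ((List.range D.rank).map fun i => ⟨i, 1, coD D r i⟩) ++ [⟨D.rank + r, 2, -1⟩]

def chainK (l : ℕ) (L : List (ℕ × Array (ℕ × ℤ))) (s : ℕ) : List Ce :=
  List.rec (motive := fun _ => List Ce) []
    (fun e _ ih => bif' (Nat.beq e.1 s)
      ((e.2.toList.zipIdx.map fun q => ⟨l + q.1.1, q.2 + 1, q.1.2⟩) ++ ih) ih) L

theorem chainK_eq (l : ℕ) (L : List (ℕ × Array (ℕ × ℤ))) (s : ℕ) : chainK l L s =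
    (L.filter fun e => e.1 = s).flatMap fun e =>
      e.2.toList.zipIdx.map fun q => ⟨l + q.1.1, q.2 + 1, q.1.2⟩ := by
  induction L with
  | nil => rfl
  | cons e L ih =>
    change bif' (Nat.beq e.1 s) (_ ++ chainK l L s) (chainK l L s) = _
    rw [bif'_eq, ih, List.filter_cons]
    simp only [Nat.beq_eq, decide_eq_true_eq]
    split_ifs <;> simp

def colD (r c : ℕ) : List Ce :=
  if c < D.rank then [⟨D.rank + r, 1, -D.cartan c r⟩] else if c - D.rank = r then [] else
    if c - D.rank = D.neg r then specD D r else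
      chainK D.rank (D.chain.getD r #[]).toList (c - D.rank)

def entD (r : ℕ) (i j : D.Idx) : List (ℕ × ℤ) :=
  ((colD D r (codeD D j)).filter fun q => q.r = codeD D i).map fun q => (q.k, q.m)

theorem filter_range_map (l i : ℕ) (hi : i < l) (f : ℕ → ℤ) :
    (((List.range l).map fun i => (⟨i, 1, f i⟩ : Ce)).filter fun q => q.r = i) = [⟨i, 1, f i⟩] := by
  induction l with
  | zero => omega
  | succ l ih =>
    rw [List.range_succ, List.map_append, List.filter_append]
    by_cases h : i = l
    · subst h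
      rw [List.filter_eq_nil_iff.2]
      · simp
      · intro a ha
        obtain ⟨j, hj, rfl⟩ := List.mem_map.1 ha
        have := List.mem_range.1 hj
        simp; omega
    · rw [ih (by omega)]; simp [Ne.symm h]

theorem xMat_ent (F : Type*) [Field F] (r : Fin D.nroots) (t : F) (i j : D.Idx) :
    D.xMat F r t i j = (1 : Matrix D.Idx D.Idx F) i j +
      ((entD D r i j).map fun km => (km.2 : F) * t ^ km.1).sum := by
  rcases j with j | s
  · have hc : colD D r (codeD D (.inl j)) = [⟨D.rank + r, 1, -D.cartan j r⟩] := if_pos j.2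
    rw [entD, hc]
    rcases i with i | u
    · have : D.rank + r ≠ i := by have := i.2; omega
      simp [ChevalleyDatum.xMat, codeD, one_apply, this]
    · by_cases h : u = r
      · subst h; simp [ChevalleyDatum.xMat, codeD, ChevalleyDatum.cartan]
      · have : r.val ≠ u.val := fun e => h (Fin.ext e.symm)
        simp [ChevalleyDatum.xMat, codeD, h, this]
  · have hc : colD D r (codeD D (.inr s)) = if s.val = r then [] else
        if s.val = D.neg r then specD D r else chainK D.rank (D.chain.getD r #[]).toList s := by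
      simp [colD, codeD]
    rw [entD, hc]
    by_cases h1 : s = r
    · subst h1
      rcases i with i | u <;> simp [ChevalleyDatum.xMat, one_apply]
    have h1' : s.val ≠ r.val := fun e => h1 (Fin.ext e)
    by_cases h2 : s.val = D.neg r
    · rw [if_neg h1', if_pos h2]
      have h2' : s.val = D.negIdx.getD r.val 0 := h2
      rcases i with i | u
      · have : D.rank + r ≠ i := by have := i.2; omega
        rw [specD, List.filter_append, codeD_inl, filter_range_map _ _ i.2]
        simp only [ChevalleyDatum.xMat, of_apply, if_neg h1, if_pos h2']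
        simp [this, coD]
      · rw [specD, List.filter_append, List.filter_eq_nil_iff.2 (by
          intro a ha
          obtain ⟨j, hj, rfl⟩ := List.mem_map.1 ha
          have := List.mem_range.1 hj
          rw [codeD_inr, decide_eq_true_eq]; change ¬(j = _); omega)]
        simp only [ChevalleyDatum.xMat, of_apply, if_neg h1, if_pos h2']
        by_cases h3 : u = s
        · subst h3; simp [codeD, h1'.symm]
        · by_cases h4 : u = r
          · subst h4; simp [codeD, h3, one_apply]
          · have : r.val ≠ u.val := fun e => h4 (Fin.ext e.symm)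
            simp [codeD, h3, h4, this, one_apply]
    · rw [if_neg h1', if_neg h2, chainK_eq]
      have h2' : ¬s.val = D.negIdx.getD r.val 0 := h2
      simp only [ChevalleyDatum.xMat, of_apply, if_neg h1, if_neg h2']
      rcases i with i | u
      · rw [List.filter_eq_nil_iff.2]
        · simp
        · intro a ha
          obtain ⟨e, -, he⟩ := List.mem_flatMap.1 ha
          obtain ⟨q, -, rfl⟩ := List.mem_map.1 he
          have := i.2
          rw [codeD_inl, decide_eq_true_eq]; change ¬(D.rank + _ = _); omega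
      · simp only [one_apply, Sum.inr.injEq]
        congr 3
        simp only [ChevalleyDatum.chainCoeff, List.filter_flatMap, List.map_flatMap,
          List.filter_map, List.map_map, codeD, Sum.elim_inr]
        congr 1
        funext e
        congr 1
        · congr 1
          funext q
          simp

theorem colX_xMat (F : Type*) [Field F] (r : Fin D.nroots) (t : F) {col : ℕ → List Ce}
    (h : ∀ c < D.rank + D.nroots, col c = colD D r c)
    (h' : ∀ c < D.rank + D.nroots, ∀ q ∈ col c, q.r < D.rank + D.nroots) :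
    ColX (codeD D) (D.rank + D.nroots) (D.xMat F r t) col t := by
  intro n hn
  refine ⟨h' n hn, ?_⟩
  obtain ⟨j, rfl⟩ := codeD_surj D n hn
  have e3 : bas F (codeD D) (codeD D j) = Pi.single j 1 := by
    ext k; simp [bas, (codeD_inj D).eq_iff, Pi.single_apply]
  rw [h _ hn, e3, mulVec_single_one]
  ext i
  rw [col_apply, xMat_ent, entD, Pi.add_apply]
  congr 1
  · simp [one_apply, Pi.single_apply]
  · induction colD D r (codeD D j) with
    | nil => rfl
    | cons q L ih =>
      rw [List.filter_cons, List.map_cons, List.sum_cons, Pi.add_apply, ← ih]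
      by_cases hq : q.r = codeD D i
      · simp [hq, bas]
      · simp [hq, bas, Ne.symm hq]

/-! ### Tables -/

/-- packed tables for a datum -/
structure Tab where
  l : ℕ
  n : ℕ
  W : ℕ
  Wm : ℕ
  P : List ℕ
  RT : ℕ
  CT : ℕ
  NP : List ℕ
  WT : ℕ
  ET : ℕ
  DEP : ℕ
  REP : ℕ
  SI : ℕ
  FW : List ℕ
  CM : List (List (ℕ × ℤ × ℕ × ℕ))

def dec1 (v k : ℕ) (rest : List Ce) : List Ce :=
  bif' (Nat.beq v 0) [] (force (Nat.sub (Nat.land v 511) 1) fun r =>
    forceI (Int.subNatNat (Nat.land (Nat.shiftRight v 9) 15) 8) fun m => ⟨r, k, m⟩ :: rest)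

def dec (v : ℕ) : List Ce :=
  force v fun v => dec1 v 1 (force (Nat.shiftRight v 13) fun v =>
    dec1 v 2 (force (Nat.shiftRight v 13) fun v => dec1 v 3 []))

def leqC (l : List Ce) : List Ce → Bool :=
  List.rec (motive := fun _ => List Ce → Bool)
    (fun l' => List.rec (motive := fun _ => Bool) true (fun _ _ _ => false) l')
    (fun e _ ih l' => List.rec (motive := fun _ => Bool) false
      (fun e' t' _ => band (Nat.beq e.r e'.r) (band (Nat.beq e.k e'.k)
        (band (ibeq e.m e'.m) (ih t')))) l') l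

theorem leqC_eq (l l' : List Ce) (h : leqC l l' = true) : l = l' := by
  induction l generalizing l' with
  | nil => cases l' with
    | nil => rfl
    | cons _ _ => exact absurd h Bool.false_ne_true
  | cons e l ih => cases l' with
    | nil => exact absurd h Bool.false_ne_true
    | cons e' l' =>
      change band (Nat.beq e.r e'.r) (band (Nat.beq e.k e'.k)
        (band (ibeq e.m e'.m) (leqC l l'))) = true at h
      simp only [band_eq, Bool.and_eq_true, ibeq_iff, Nat.beq_eq] at h
      obtain ⟨h1, h2, h3, h5⟩ := h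
      cases e; cases e'
      simp only at h1 h2 h3
      rw [ih l' h5, h1, h2, h3]

def sumI (l : ℕ) (f : ℕ → ℤ) : ℤ :=
  Nat.rec (motive := fun _ => ℤ) 0 (fun i ih => Int.add ih (f i)) l

theorem sumI_eq (l : ℕ) (f : ℕ → ℤ) : sumI l f = ∑ i : Fin l, f i := by
  rw [← Finset.sum_range]
  induction l with
  | zero => rfl
  | succ l ih => rw [Finset.sum_range_succ, ← ih]; rfl

def nthL {α : Type} (l : List (List α)) : ℕ → List α :=
  List.rec (motive := fun _ => ℕ → List α) (fun _ => [])
    (fun a _ ih i => Nat.rec (motive := fun _ => List α) a (fun j _ => ih j) i) l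

def lin (n : ℕ) (f : ℕ → Bool) : Bool :=
  Nat.rec (motive := fun _ => Bool) true
    (fun i ih => Bool.rec (motive := fun _ => Bool) false ih (f i)) n

theorem lin_iff (n : ℕ) (f : ℕ → Bool) : lin n f = true ↔ ∀ i < n, f i = true := by
  induction n with
  | zero => simp [lin]
  | succ n ih =>
    change band (f n) (lin n f) = true ↔ _
    rw [band_eq, Bool.and_eq_true, ih, Nat.forall_lt_succ_right, and_comm]

def isNil {α : Type} (l : List α) : Bool := List.rec (motive := fun _ => Bool) true (fun _ _ _ => false) l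

theorem isNil_iff {α : Type} (l : List α) : isNil l = true ↔ l = [] := by
  cases l <;> simp [isNil]

/-- walk simultaneously through a sorted chain list and the columns -/
def walk (l : ℕ) (fld : ℕ → List Ce) (k : ℕ) : ℕ → List (ℕ × Array (ℕ × ℤ)) → Bool :=
  Nat.rec (motive := fun _ => ℕ → List (ℕ × Array (ℕ × ℤ)) → Bool) (fun _ L => isNil L)
    (fun _ ih s L => List.rec (motive := fun _ => Bool)
      (band (isNil (fld s)) (force (Nat.succ s) fun s' => ih s' []))
      (fun e L' _ => bif' (Nat.beq e.1 s)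
        (band (leqC (fld s) (e.2.toList.zipIdx.map fun q => ⟨l + q.1.1, q.2 + 1, q.1.2⟩))
          (force (Nat.succ s) fun s' => ih s' L'))
        (band (isNil (fld s)) (force (Nat.succ s) fun s' => ih s' (e :: L')))) L) k

theorem chainK_eq_nil (l : ℕ) (L : List (ℕ × Array (ℕ × ℤ))) (s : ℕ) (h : ∀ e ∈ L, s < e.1) :
    chainK l L s = [] := by
  rw [chainK_eq, List.filter_eq_nil_iff.2, List.flatMap_nil]
  intro e he
  have := h e he
  simp; omega

theorem walk_spec (l : ℕ) (fld : ℕ → List Ce) (k s : ℕ) (L : List (ℕ × Array (ℕ × ℤ)))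
    (h : walk l fld k s L = true) :
    (∀ e ∈ L, s ≤ e.1) ∧ ∀ s', s ≤ s' → s' < s + k → fld s' = chainK l L s' := by
  induction k generalizing s L with
  | zero =>
    obtain rfl := (isNil_iff L).1 h
    exact ⟨by simp, fun _ _ _ => by omega⟩
  | succ k ih =>
    have key : ∀ L, band (isNil (fld s)) (force (Nat.succ s) fun s' => walk l fld k s' L) = true →
        (∀ e ∈ L, s ≤ e.1) ∧ ∀ s', s ≤ s' → s' < s + (k + 1) → fld s' = chainK l L s' := by
      intro L h
      rw [band_eq, Bool.and_eq_true, isNil_iff, force_eq] at h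
      obtain ⟨h1, h2⟩ := ih _ _ h.2
      refine ⟨fun e he => (Nat.le_succ s).trans (h1 e he), fun s' a b => ?_⟩
      rcases a.eq_or_lt with rfl | a
      · rw [h.1, chainK_eq_nil _ _ _ h1]
      · exact h2 s' a (by omega)
    cases L with
    | nil => exact key [] h
    | cons e L =>
      change bif' (Nat.beq e.1 s) (band (leqC (fld s) _)
        (force (Nat.succ s) fun s' => walk l fld k s' L)) (band (isNil (fld s))
          (force (Nat.succ s) fun s' => walk l fld k s' (e :: L))) = true at h
      rw [bif'_eq] at h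
      split_ifs at h with he
      · rw [Nat.beq_eq] at he
        rw [band_eq, Bool.and_eq_true, force_eq] at h
        obtain ⟨h1, h2⟩ := ih _ _ h.2
        refine ⟨fun e' he' => ?_, fun s' a b => ?_⟩
        · rcases List.mem_cons.1 he' with rfl | he'
          exacts [he.ge, (Nat.le_succ s).trans (h1 e' he')]
        · change _ = bif' (Nat.beq e.1 s') (_ ++ chainK l L s') (chainK l L s')
          rw [bif'_eq]
          rcases a.eq_or_lt with rfl | a
          · rw [if_pos (by simpa using he), chainK_eq_nil _ _ _ h1, List.append_nil]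
            exact leqC_eq _ _ h.1
          · rw [if_neg (by simp; omega)]
            exact h2 s' a (by omega)
      · exact key _ h

theorem appX_of_nil {col : ℕ → List Ce} {c : ℤ} {i j : ℕ} {v : List En}
    (h : ∀ e ∈ v, col e.r = []) : appX col c i j v = v := by
  induction v with
  | nil => rfl
  | cons e v ih =>
    rw [appX_cons, h e List.mem_cons_self, ih fun e he => h e (List.mem_cons_of_mem _ he)]; rfl

theorem leqE_refl (l : List En) : leqE l l = true := by
  induction l with
  | nil => rfl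
  | cons e l ih =>
    change band (keq e e) (band (ibeq e.d e.d) (leqE l l)) = true
    simp [keq_iff, ibeq_iff, ih]

theorem eqV_refl (l : List En) : eqV l l = true := by simp [eqV, forceL_eq, leqE_refl]

namespace Tab

variable (T : Tab)

def N : ℕ := Nat.add T.l T.n
def ng (r : ℕ) : ℕ := Nat.sub (Nat.sub T.n 1) r
def rtc (r j : ℕ) : ℤ := Int.subNatNat (ap 4 15 T.RT (Nat.add (Nat.mul T.l r) j)) 8
def wtN (c j : ℕ) : ℤ := bif' (Nat.blt c T.l) 0 (T.rtc (Nat.sub c T.l) j)
def cm (i j : ℕ) : ℤ := Int.subNatNat (ap 4 15 T.CT (Nat.add (Nat.mul T.l i) j)) 8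
def si (i : ℕ) : ℕ := ap 8 255 T.SI i
def wf (i s : ℕ) : ℕ := ap 8 255 T.WT (Nat.add (Nat.mul T.n i) s)
def eta (i s : ℕ) : ℤ := bif' (tb T.ET (Nat.add (Nat.mul T.n i) s)) (-1) 1
def dep (r : ℕ) : ℕ := ap 8 255 T.DEP r
def fw (j : ℕ) : ℕ := nthD T.FW 0 j
def fv (r : ℕ) : ℤ := sumI T.l fun j => Int.mul (T.rtc r j) (Int.ofNat (T.fw j))
def dl (i j : ℕ) : ℤ := bif' (Nat.beq i j) 1 0

def colP (r cn P c : ℕ) : List Ce := bif' (Nat.beq c cn) (specD D r) (dec (ap T.W T.Wm P c))

def colF (r : ℕ) : ℕ → List Ce := T.colP D r (Nat.add T.l (T.ng r)) (nthD T.P 0 r)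

def withCol {α : Type} (r : ℕ) (k : (ℕ → List Ce) → α) : α :=
  force r fun r => force (nthD T.P 0 r) fun P => force (Nat.add T.l (T.ng r)) fun cn =>
    k (T.colP D r cn P)

@[simp] theorem withCol_eq {α : Type} (r : ℕ) (k : (ℕ → List Ce) → α) :
    T.withCol D r k = k (T.colF D r) := by simp [withCol, colF]

def colN (i : ℕ) : ℕ → List Ce := fun c => dec (ap 26 67108863 (nthD T.NP 0 i) c)

def withN {α : Type} (i : ℕ) (k : (ℕ → List Ce) → α) : α :=
  force (nthD T.NP 0 i) fun P => k fun c => dec (ap 26 67108863 P c)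

@[simp] theorem withN_eq {α : Type} (i : ℕ) (k : (ℕ → List Ce) → α) :
    T.withN i k = k (T.colN i) := by simp only [withN, force_eq]; rfl

def wordF (L : List (ℕ × ℤ × ℕ × ℕ)) : List En → List En :=
  List.rec (motive := fun _ => List En → List En) (fun v => v)
    (fun q _ ih v => appX (T.colF D q.1) q.2.1 q.2.2.1 q.2.2.2 (ih v)) L

def withWord {α : Type} (L : List (ℕ × ℤ × ℕ × ℕ)) (k : (List En → List En) → α) : α :=
  List.rec (motive := fun _ => ((List En → List En) → α) → α) (fun k => k fun v => v)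
    (fun q _ ih k => T.withCol D q.1 fun col => ih fun φ =>
      k fun v => appX col q.2.1 q.2.2.1 q.2.2.2 (φ v)) L k

@[simp] theorem withWord_eq {α : Type} (L : List (ℕ × ℤ × ℕ × ℕ)) (k : (List En → List En) → α) :
    T.withWord D L k = k (T.wordF D L) := by
  induction L generalizing k with
  | nil => rfl
  | cons q L ih =>
    change T.withCol D q.1 (fun col => T.withWord D L fun φ =>
      k fun v => appX col q.2.1 q.2.2.1 q.2.2.2 (φ v)) = _
    rw [withCol_eq, ih]; rfl

/-- the packed columns agree with the datum -/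
def c0 (r : ℕ) : Bool :=
  force r fun r => force (nthD T.P 0 r) fun P =>
    band (Nat.beq (D.neg r) (T.ng r)) (band (bnot (Nat.beq (T.ng r) r))
      (band (lin T.l fun c => leqC (dec (ap T.W T.Wm P c)) [⟨T.l + r, 1, -D.cartan c r⟩])
        (band (isNil (dec (ap T.W T.Wm P (Nat.add T.l r))))
          (walk T.l (fun s => dec (ap T.W T.Wm P (Nat.add T.l s))) T.n 0
            (D.chain.getD r #[]).toList))))

/-- homogeneity -/
def c1 (r : ℕ) : Bool :=
  T.withCol D r fun col => lin T.N fun c => allL (col c) fun q =>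
    band (Nat.blt q.r T.N) (band (Nat.ble 1 q.k) (lin T.l fun j =>
      ibeq (T.wtN q.r j) (Int.add (T.wtN c j) (Int.mul (Int.ofNat q.k) (T.rtc r j)))))

/-- additivity -/
def c2 (r : ℕ) : Bool :=
  T.withCol D r fun col => lin T.N fun c =>
    eqV (appS col [⟨c, 0, 0, 1⟩]) (appX col 1 1 0 (appX col 1 0 1 [⟨c, 0, 0, 1⟩]))

/-- the element `n_p` -/
def c3 (i : ℕ) : Bool :=
  T.withCol D (T.si i) fun col => T.withCol D (T.ng (T.si i)) fun col' => T.withN i fun cn =>
    band (lin T.N fun c =>
      eqV (appX col 1 0 0 (appX col' (-1) 0 0 (appX col 1 0 0 [⟨c, 0, 0, 1⟩])))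
        (appN cn [⟨c, 0, 0, 1⟩]))
      (lin T.N fun c => forceI (sumI T.l fun j => Int.mul (T.wtN c j) (T.cm i j)) fun a =>
        allL (cn c) fun q => band (Nat.blt q.r T.N) (lin T.l fun j =>
          ibeq (T.wtN q.r j) (Int.sub (T.wtN c j) (Int.mul a (dl i j)))))

/-- conjugation by `n_p` -/
def c4 (i s : ℕ) : Bool :=
  T.withCol D s fun col => T.withCol D (T.wf i s) fun col' => T.withN i fun cn =>
    forceI (T.eta i s) fun η => lin T.N fun c =>
      bor (band (isNil (col c)) (allL (cn c) fun q => isNil (col' q.r)))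
      (eqV (appN cn (appX col 1 1 0 [⟨c, 0, 0, 1⟩])) (appX col' η 1 0 (appN cn [⟨c, 0, 0, 1⟩])))

/-- commutator relations -/
def c5 (i s : ℕ) : Bool :=
  force (T.si i) fun p => bor (Nat.beq s p) (bor (Nat.beq s (T.ng p))
    (forceL (nthL T.CM (Nat.add (Nat.mul T.n i) s)) fun L =>
      band (allL L fun q => band (Nat.blt q.1 T.n) (band (Nat.ble 1 q.2.2.1) (band (Nat.ble 1 q.2.2.2)
        (lin T.l fun j => ibeq (T.rtc q.1 j) (Int.add (Int.mul (Int.ofNat q.2.2.1) (T.rtc p j))
          (Int.mul (Int.ofNat q.2.2.2) (T.rtc s j)))))))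
      (T.withCol D p fun cp => T.withCol D s fun cs => T.withWord D L fun φ => lin T.N fun c =>
        bor (band (isNil (cp c)) (band (isNil (cs c)) (leqE (φ [⟨c, 0, 0, 1⟩]) [⟨c, 0, 0, 1⟩])))
        (eqV (appX cs 1 0 1 (appX cp 1 1 0 [⟨c, 0, 0, 1⟩]))
          (appX cp 1 1 0 (appX cs 1 0 1 (φ [⟨c, 0, 0, 1⟩])))))))

def gcdL (r : ℕ) : ℕ := Nat.rec (motive := fun _ => ℕ) 0 (fun i ih => Nat.gcd ih (coD D r i).natAbs) T.l

/-- root data -/
def c6 (r : ℕ) : Bool :=
  band (Nat.blt (T.ng r) T.n)
  (band (lin T.l fun j => ibeq (T.rtc (T.ng r) j) (Int.neg (T.rtc r j)))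
  (band (lin T.l fun i => band (Nat.blt (T.wf i r) T.n)
    (forceI (sumI T.l fun j => Int.mul (T.rtc r j) (T.cm i j)) fun a => lin T.l fun j =>
      ibeq (T.rtc (T.wf i r) j) (Int.sub (T.rtc r j) (Int.mul a (dl i j)))))
  (band (anyLt T.l fun i => bor (band (tb T.REP i) (Nat.beq r (T.si i)))
    (Nat.blt (T.dep (T.wf i r)) (T.dep r)))
  (band (bimp (Nat.blt (Nat.succ r) T.n) (decide (T.fv r < T.fv (Nat.succ r))))
  (band (bor (lin T.l fun j => decide (0 ≤ T.rtc r j)) (lin T.l fun j => decide (T.rtc r j ≤ 0)))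
  (band (lin T.l fun i => bimp (lin T.l fun j => bor (Nat.beq j i) (ibeq (T.rtc r j) 0))
    (bor (Nat.beq r (T.si i)) (Nat.beq r (T.ng (T.si i)))))
  (Nat.beq (T.gcdL D r) 1)))))))

/-- simple roots -/
def c7 (i : ℕ) : Bool :=
  band (Nat.blt (T.si i) T.n) (band (Nat.beq (T.si i) (D.simple i))
  (band (lin T.l fun j => ibeq (T.rtc (T.si i) j) (dl i j))
  (band (ibeq (T.cm i i) 2) (Nat.blt 0 (T.fw i)))))

/-- all checks -/
structure Ok : Prop where
  hl : T.l = D.rank
  hn : T.n = D.nroots
  h0 : ∀ r < T.n, T.c0 D r = true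
  h1 : ∀ r < T.n, T.c1 D r = true
  h2 : ∀ i < T.l, T.c2 D (T.si i) = true ∧ T.c2 D (T.ng (T.si i)) = true
  h3 : ∀ i < T.l, T.c3 D i = true
  h4 : ∀ i < T.l, ∀ s < T.n, T.c4 D i s = true
  h5 : ∀ i < T.l, tb T.REP i = true → ∀ s < T.n, T.c5 D i s = true
  h6 : ∀ r < T.n, T.c6 D r = true
  h7 : ∀ i < T.l, T.c7 D i = true

end Tab

end

end CfsgH8
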