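/-
From the table checks to the abstract Chevalley group structure.
-/
import Cfsg.Agent.H8.Chev4

set_option autoImplicit false
set_option linter.unusedSectionVars false

namespace CfsgH8

open Matrix CfsgH5 Cfsg.Lie

noncomputable section

theorem exists_bezout_gcd (c : ℕ → ℤ) (k : ℕ) : ∃ b : ℕ → ℤ, ∑ i ∈ Finset.range k, b i * c i =
    (Nat.rec (motive := fun _ => ℕ) 0 (fun i ih => Nat.gcd ih (c i).natAbs) k : ℕ) := by
  induction k with
  | zero => exact ⟨0, by simp⟩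
  | succ k ih =>
    obtain ⟨b, hb⟩ := ih
    set g : ℕ := Nat.rec (motive := fun _ => ℕ) 0 (fun i ih => Nat.gcd ih (c i).natAbs) k
    refine ⟨fun i => if i = k then Int.gcdB g (c k) else Int.gcdA g (c k) * b i, ?_⟩
    change _ = ((Nat.gcd g (c k).natAbs : ℕ) : ℤ)
    have := Int.gcd_eq_gcd_ab g (c k)
    rw [Int.gcd, Int.natAbs_natCast] at this
    rw [this, Finset.sum_range_succ]
    beta_reduce
    rw [if_pos rfl]
    congr 1
    · conv_rhs => rw [mul_comm, ← hb]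
      rw [Finset.mul_sum]
      refine Finset.sum_congr rfl fun i hi => ?_
      rw [if_neg (Finset.mem_range.1 hi).ne, hb]; ring
    · ring

namespace Tab

variable {D : ChevalleyDatum} {T : Tab}

theorem dl_eq {l : ℕ} (i j : Fin l) : dl i j = (Pi.single i 1 : Fin l → ℤ) j := by
  rw [dl, bif'_eq, Pi.single_apply]
  simp only [Nat.beq_eq, Fin.val_inj]
  simp only [eq_comm]

namespace Ok

variable (h : T.Ok D)
include h

theorem hN : T.N = D.rank + D.nroots := by rw [← h.hl, ← h.hn]; rfl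

theorem c0' {r : ℕ} (hr : r < D.nroots) : D.neg r = T.ng r ∧ T.ng r ≠ r ∧
    ∀ c < D.rank + D.nroots, T.colF D r c = colD D r c := by
  have := h.h0 r (h.hn ▸ hr)
  simp only [c0, force_eq, band_eq, bnot_eq, Bool.and_eq_true, Nat.beq_eq, lin_iff, isNil_iff,
    Bool.not_eq_true', h.hl, h.hn, Nat.add_eq] at this
  obtain ⟨h1, h2, h3, h4, h5⟩ := this
  have h2' : T.ng r ≠ r := fun e => by rw [e] at h2; simp at h2
  refine ⟨h1, h2', fun c hc => ?_⟩
  rw [colF, colP, bif'_eq, colD, h1]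
  simp only [Nat.beq_eq, Nat.add_eq, h.hl]
  by_cases c1 : c < D.rank
  · rw [if_neg (by omega), if_pos c1]; exact leqC_eq _ _ (h3 c c1)
  rw [if_neg c1]
  obtain ⟨s, rfl⟩ : ∃ s, c = D.rank + s := ⟨c - D.rank, by omega⟩
  rw [Nat.add_sub_cancel_left]
  by_cases c2 : s = r
  · rw [if_neg (by omega), if_pos c2, c2, h4]
  rw [if_neg c2]
  by_cases c3 : s = T.ng r
  · rw [if_pos (by omega), if_pos c3]
  · rw [if_neg (by omega), if_neg c3]
    exact (walk_spec _ _ _ _ _ h5).2 s (Nat.zero_le _) (by omega)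

theorem c1' {r : ℕ} (hr : r < D.nroots) {c : ℕ} (hc : c < D.rank + D.nroots) :
    ∀ q ∈ T.colF D r c, q.r < D.rank + D.nroots ∧ 1 ≤ q.k ∧
      ∀ j < D.rank, T.wtN q.r j = T.wtN c j + q.k * T.rtc r j := by
  have := h.h1 r (h.hn ▸ hr)
  simp only [c1, withCol_eq, band_eq, Bool.and_eq_true, lin_iff, allL_iff, h.hN, h.hl, ibeq_iff,
    Nat.blt_eq, Nat.ble_eq] at this
  exact this c hc

variable (F : Type*) [Field F]

theorem colX {r : ℕ} (hr : r < D.nroots) (t : F) :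
    ColX (codeD D) (D.rank + D.nroots) (D.x F r t) (T.colF D r) t := by
  rw [ChevalleyDatum.x, dif_pos hr]
  exact colX_xMat D F ⟨r, hr⟩ t (h.c0' hr).2.2 fun c hc q hq => (h.c1' hr hc q hq).1

theorem rpX {r : ℕ} (hr : r < D.nroots) (t u : F) (c : ℤ) (i j : ℕ) {τ : F}
    (hτ : τ = c * t ^ i * u ^ j) :
    Rp (codeD D) (D.rank + D.nroots) t u (D.x F r τ) (appX (T.colF D r) c i j) :=
  by subst hτ; exact (h.colX F hr _).rp

theorem ent_wt {r : ℕ} (hr : r < D.nroots) (i j : D.Idx) : ∀ km ∈ entD D r i j, 1 ≤ km.1 ∧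
    ∀ a < D.rank, T.wtN (codeD D i) a = T.wtN (codeD D j) a + km.1 * T.rtc r a := by
  intro km hkm
  rw [entD, ← (h.c0' hr).2.2 _ (codeD_lt D j)] at hkm
  obtain ⟨q, hq, rfl⟩ := List.mem_map.1 hkm
  obtain ⟨h1, h2⟩ := List.mem_filter.1 hq
  rw [decide_eq_true_eq] at h2
  rw [← h2]
  exact (h.c1' hr (codeD_lt D j) q h1).2

theorem x_zero {r : ℕ} (hr : r < D.nroots) : D.x F r 0 = 1 := by
  ext i j
  rw [ChevalleyDatum.x, dif_pos hr, xMat_ent, add_eq_left]
  refine List.sum_eq_zero fun y hy => ?_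
  obtain ⟨km, hkm, rfl⟩ := List.mem_map.1 hy
  rw [zero_pow (by have := (h.ent_wt hr i j km hkm).1; omega), mul_zero]

theorem add_of {r : ℕ} (hr : r < D.nroots) (h2 : T.c2 D r = true) (t u : F) :
    D.x F r (t + u) = D.x F r t * D.x F r u := by
  simp only [c2, withCol_eq, lin_iff, h.hN] at h2
  exact Rp.eq (codeD_inj D) (codeD_lt D) (h.colX F hr _).rpS
    ((h.rpX F hr t u 1 1 0 (by simp)).mul (h.rpX F hr t u 1 0 1 (by simp))) h2

theorem c7' {i : ℕ} (hi : i < D.rank) : T.si i < D.nroots ∧ T.si i = D.simple i ∧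
    (∀ j < D.rank, T.rtc (T.si i) j = dl i j) ∧ T.cm i i = 2 ∧ 0 < T.fw i := by
  have := h.h7 i (h.hl ▸ hi)
  simpa only [c7, band_eq, Bool.and_eq_true, lin_iff, h.hn, h.hl, ibeq_iff,
    Nat.blt_eq, Nat.beq_eq] using this

theorem c6' {r : ℕ} (hr : r < D.nroots) : T.ng r < D.nroots ∧
    (∀ j < D.rank, T.rtc (T.ng r) j = -T.rtc r j) ∧
    (∀ i < D.rank, T.wf i r < D.nroots ∧ ∀ j < D.rank, T.rtc (T.wf i r) j =
      T.rtc r j - (∑ j : Fin D.rank, T.rtc r j * T.cm i j) * dl i j) ∧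
    (∃ i, i < D.rank ∧ (tb T.REP i = true ∧ r = T.si i ∨ T.dep (T.wf i r) < T.dep r)) ∧
    (r + 1 < D.nroots → T.fv r < T.fv (r + 1)) ∧
    ((∀ j < D.rank, 0 ≤ T.rtc r j) ∨ ∀ j < D.rank, T.rtc r j ≤ 0) ∧
    (∀ i < D.rank, (∀ j < D.rank, j = i ∨ T.rtc r j = 0) → r = T.si i ∨ r = T.ng (T.si i)) ∧
    T.gcdL D r = 1 := by
  have := h.h6 r (h.hn ▸ hr)
  simp only [c6, band_eq, bor_eq, bimp_eq, Bool.and_eq_true, Bool.or_eq_true, lin_iff, h.hn, h.hl,
    ibeq_iff, Nat.blt_eq, Nat.beq_eq, forceI_eq, anyLt_iff, sumI_eq, decide_eq_true_eq,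
    Bool.not_eq_eq_eq_not, Bool.not_true, ← Bool.not_eq_true, ← imp_iff_not_or] at this
  exact this

theorem c3' {i : ℕ} (hi : i < D.rank) :
    D.x F (T.si i) 1 * D.x F (T.ng (T.si i)) (-1) * D.x F (T.si i) 1 =
      NM F (codeD D) (T.colN i) ∧ ∀ c < D.rank + D.nroots, ∀ q ∈ T.colN i c,
        q.r < D.rank + D.nroots ∧ ∀ j < D.rank, T.wtN q.r j =
          T.wtN c j - (∑ j : Fin D.rank, T.wtN c j * T.cm i j) * dl i j := by
  have := h.h3 i (h.hl ▸ hi)
  simp only [c3, withCol_eq, withN_eq, band_eq, Bool.and_eq_true, lin_iff, h.hN, h.hl, allL_iff,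
    ibeq_iff, Nat.blt_eq, forceI_eq, sumI_eq] at this
  refine ⟨?_, this.2⟩
  have hp := (h.c7' hi).1
  rw [Matrix.mul_assoc]
  exact Rp.eq (t := 1) (u := 1) (codeD_inj D) (codeD_lt D)
    ((h.rpX F hp 1 1 1 0 0 (by simp)).mul ((h.rpX F (h.c6' hp).1 1 1 (-1) 0 0 (by simp)).mul
      (h.rpX F hp 1 1 1 0 0 (by simp))))
    (rp_NM (codeD_inj D) (codeD_surj D) fun c hc q hq => (this.2 c hc q hq).1) this.1

theorem eta_sq (i s : ℕ) : (T.eta i s : F) * T.eta i s = 1 := by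
  rw [eta, bif'_eq]; split_ifs <;> simp

theorem c4' {i : ℕ} (hi : i < D.rank) {s : ℕ} (hs : s < D.nroots) (t : F) :
    NM F (codeD D) (T.colN i) * D.x F s t =
      D.x F (T.wf i s) (T.eta i s * t) * NM F (codeD D) (T.colN i) := by
  have := h.h4 i (h.hl ▸ hi) s (h.hn ▸ hs)
  simp only [c4, withCol_eq, withN_eq, band_eq, bor_eq, Bool.and_eq_true, Bool.or_eq_true, lin_iff,
    h.hN, allL_iff, isNil_iff, forceI_eq] at this
  have hN := rp_NM (t := t) (u := 1) (codeD_inj D) (codeD_surj D)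
    fun c hc q hq => ((h.c3' F hi).2 c hc q hq).1
  refine Rp.eq (codeD_inj D) (codeD_lt D) (hN.mul (h.rpX F hs t 1 1 1 0 (by simp)))
    ((h.rpX F (((h.c6' hs).2.2.1 i hi).1) t 1 (T.eta i s) 1 0 (by simp)).mul hN) fun c hc => ?_
  rcases this c hc with ⟨h1, h2⟩ | h1
  · rw [appX_of_nil (v := [_]) (by simpa using h1), appX_of_nil, eqV_refl]
    intro e he
    rw [appN_cons] at he
    rcases List.mem_append.1 he with he | he
    · obtain ⟨q, hq, rfl⟩ := List.mem_map.1 he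
      exact h2 q hq
    · exact absurd he List.not_mem_nil
  · exact h1

theorem rpW (t u : F) (L : List (ℕ × ℤ × ℕ × ℕ)) (hL : ∀ q ∈ L, q.1 < D.nroots) :
    Rp (codeD D) (D.rank + D.nroots) t u
      (L.map fun q => D.x F q.1 (q.2.1 * t ^ q.2.2.1 * u ^ q.2.2.2)).prod (T.wordF D L) := by
  induction L with
  | nil => exact Rp.one
  | cons q L ih =>
    rw [List.map_cons, List.prod_cons]
    exact (h.rpX F (hL q List.mem_cons_self) t u _ _ _ rfl).mul
      (ih fun q hq => hL q (List.mem_cons_of_mem _ hq))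

theorem c5' {i : ℕ} (hi : i < D.rank) (hr : tb T.REP i = true) {s : ℕ} (hs : s < D.nroots)
    (h1 : s ≠ T.si i) (h2 : s ≠ T.ng (T.si i)) : ∃ L : List (ℕ × ℤ × ℕ × ℕ),
      (∀ q ∈ L, q.1 < D.nroots ∧ 1 ≤ q.2.2.1 ∧ 1 ≤ q.2.2.2 ∧ ∀ j < D.rank,
        T.rtc q.1 j = q.2.2.1 * T.rtc (T.si i) j + q.2.2.2 * T.rtc s j) ∧
      ∀ t u : F, D.x F s u * D.x F (T.si i) t = D.x F (T.si i) t * D.x F s u *
        (L.map fun q => D.x F q.1 (q.2.1 * t ^ q.2.2.1 * u ^ q.2.2.2)).prod := by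
  have := h.h5 i (h.hl ▸ hi) hr s (h.hn ▸ hs)
  simp only [c5, withCol_eq, withWord_eq, band_eq, bor_eq, Bool.and_eq_true, Bool.or_eq_true,
    lin_iff, h.hN, h.hn, h.hl, allL_iff, isNil_iff, force_eq, forceL_eq, Nat.beq_eq, h1, h2,
    false_or, Nat.blt_eq, Nat.ble_eq, ibeq_iff] at this
  refine ⟨_, this.1, fun t u => ?_⟩
  have hp := (h.c7' hi).1
  rw [Matrix.mul_assoc]
  refine Rp.eq (codeD_inj D) (codeD_lt D)
    ((h.rpX F hs t u 1 0 1 (by simp)).mul (h.rpX F hp t u 1 1 0 (by simp)))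
    ((h.rpX F hp t u 1 1 0 (by simp)).mul ((h.rpX F hs t u 1 0 1 (by simp)).mul
      (h.rpW F t u _ fun q hq => (this.1 q hq).1))) fun c hc => ?_
  rcases this.2 c hc with ⟨h3, h4, h5⟩ | h3
  · rw [leqE_eq _ _ h5, appX_of_nil (col := T.colF D (T.si i)) (v := [_]) (by simpa using h3),
      appX_of_nil (col := T.colF D s) (v := [_]) (by simpa using h4),
      appX_of_nil (col := T.colF D (T.si i)) (v := [_]) (by simpa using h3), eqV_refl]
  · exact h3

theorem fv_lt {r s : ℕ} (hs : s < D.nroots) (hrs : r < s) : T.fv r < T.fv s := by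
  induction s, hrs using Nat.le_induction with
  | base => exact (h.c6' (by omega)).2.2.2.2.1 hs
  | succ s hrs ih => exact (ih (by omega)).trans ((h.c6' (by omega)).2.2.2.2.1 hs)

theorem fv_inj {r s : ℕ} (hr : r < D.nroots) (hs : s < D.nroots) (e : T.fv r = T.fv s) : r = s := by
  rcases lt_trichotomy r s with h1 | h1 | h1
  exacts [absurd e (h.fv_lt hs h1).ne, h1, absurd e (h.fv_lt hr h1).ne']

theorem fv_eq (r : ℕ) : T.fv r = ∑ j : Fin D.rank, T.rtc r j * T.fw j := by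
  rw [fv, sumI_eq, ← h.hl]; rfl

theorem wf_wf {i : ℕ} (hi : i < D.rank) {s : ℕ} (hs : s < D.nroots) : T.wf i (T.wf i s) = s := by
  have h1 := (h.c6' hs).2.2.1 i hi
  have h2 := (h.c6' h1.1).2.2.1 i hi
  refine h.fv_inj h2.1 hs ?_
  rw [h.fv_eq, h.fv_eq]
  refine Finset.sum_congr rfl fun j _ => ?_
  congr 1
  rw [h2.2 j j.2, Finset.sum_congr rfl fun k _ => by rw [h1.2 k k.2], h1.2 j j.2]
  simp only [sub_mul, Finset.sum_sub_distrib, mul_assoc, ← Finset.mul_sum]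
  have : ∑ k : Fin D.rank, dl i k * T.cm i k = 2 := by
    rw [Finset.sum_eq_single ⟨i, hi⟩]
    · simp [dl, (h.c7' hi).2.2.2.1]
    · intro k _ hk
      have : Nat.beq i k = false := by
        rw [← Bool.not_eq_true, Nat.beq_eq]; exact fun e => hk (Fin.ext e.symm)
      simp [dl, this]
    · simp
  simp only [← mul_assoc, ← Finset.sum_mul, this]
  ring

theorem x_add {r : ℕ} (hr : r < D.nroots) (t u : F) :
    D.x F r (t + u) = D.x F r t * D.x F r u := by
  induction hd : T.dep r using Nat.strong_induction_on generalizing r t u with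
  | _ d ih =>
  obtain ⟨i, hi, ⟨-, rfl⟩ | h1⟩ := (h.c6' hr).2.2.2.1
  · exact h.add_of F hr (h.h2 i (h.hl ▸ hi)).1 t u
  have hw := ((h.c6' hr).2.2.1 i hi).1
  have hp := (h.c7' hi).1
  have hu : IsUnit (NM F (codeD D) (T.colN i)) := by
    have e1 : ∀ t : F, IsUnit (D.x F (T.si i) t) := fun t => IsUnit.of_mul_eq_one _ (by
      rw [← h.add_of F hp (h.h2 i (h.hl ▸ hi)).1 t (-t), add_neg_cancel, h.x_zero F hp])
    have e2 : ∀ t : F, IsUnit (D.x F (T.ng (T.si i)) t) := fun t => IsUnit.of_mul_eq_one _ (by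
      rw [← h.add_of F (h.c6' hp).1 (h.h2 i (h.hl ▸ hi)).2 t (-t), add_neg_cancel,
        h.x_zero F (h.c6' hp).1])
    rw [← (h.c3' F hi).1]
    exact ((e1 _).mul (e2 _)).mul (e1 _)
  have key : ∀ t : F, D.x F r t * NM F (codeD D) (T.colN i) =
      NM F (codeD D) (T.colN i) * D.x F (T.wf i r) (T.eta i (T.wf i r) * t) := fun t => by
    rw [h.c4' F hi hw, h.wf_wf hi hr, ← mul_assoc (T.eta i _ : F), h.eta_sq, one_mul]
  apply hu.mul_right_cancel
  rw [key, Matrix.mul_assoc, key, ← Matrix.mul_assoc, key, Matrix.mul_assoc, mul_add,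
    ih _ (hd ▸ h1) hw _ _ rfl]

/-- root elements as invertible matrices -/
def xU (r : Fin D.nroots) (t : F) : GL D.Idx F :=
  ⟨D.x F r t, D.x F r (-t), by rw [← h.x_add F r.2, add_neg_cancel, h.x_zero F r.2],
    by rw [← h.x_add F r.2, neg_add_cancel, h.x_zero F r.2]⟩

omit h in
/-- a linear functional -/
def lf {l : ℕ} (a : ℕ → ℤ) : (Fin l → ℤ) →+ ℤ where
  toFun v := ∑ j, v j * a j
  map_zero' := by simp
  map_add' a b := by simp [add_mul, Finset.sum_add_distrib]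

omit h in
theorem lf_single {l : ℕ} (a : ℕ → ℤ) (i : Fin l) : lf a (Pi.single i 1) = a i := by
  change ∑ j : Fin l, (Pi.single i 1 : Fin l → ℤ) j * a j = _
  rw [Finset.sum_eq_single i] <;> simp +contextual [Pi.single_apply]

/-- the Chevalley structure of a checked datum -/
def chev : Chev D.Idx (Fin D.nroots) (Fin D.rank) F where
  wt i j := T.wtN (codeD D i) j
  rt r j := T.rtc r j
  x := h.xU F
  ent r := entD D r
  neg r := ⟨T.ng r, (h.c6' r.2).1⟩
  p i := ⟨T.si i, (h.c7' i.2).1⟩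
  A i := lf (T.cm i)
  w i s := ⟨T.wf i s, ((h.c6' s.2).2.2.1 i i.2).1⟩
  hb := .inl
  e := .inr
  co r i := coD D r i
  f := lf fun j => T.fw j
  dep r := T.dep r
  rep i := tb T.REP i = true
  x_ent r t i j := by
    change D.x F r t i j = _
    rw [ChevalleyDatum.x, dif_pos r.2, xMat_ent]
  ent_wt r i j km hkm := ⟨(h.ent_wt r.2 i j km hkm).1, funext fun a => by
    simpa using (h.ent_wt r.2 i j km hkm).2 a a.2⟩
  x_add r t u := Units.ext (h.x_add F r.2 t u)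
  rt_neg r := funext fun j => (h.c6' r.2).2.1 j j.2
  rt_p i := funext fun j => ((h.c7' i.2).2.2.1 j j.2).trans (dl_eq i j)
  A_p i := (lf_single _ i).trans (h.c7' i.2).2.2.2.1
  rt_w i s := funext fun j => by
    rw [Pi.sub_apply, Pi.smul_apply, ← dl_eq]; exact ((h.c6' s.2).2.2.1 i i.2).2 j j.2
  n_wt i a b hab := by
    have e : _ = NM F (codeD D) (T.colN i) := (h.c3' F i.2).1
    have hab' : NM F (codeD D) (T.colN i) a b ≠ 0 := e ▸ hab
    obtain ⟨q, hq, e⟩ := NM_ne hab'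
    funext j
    rw [Pi.sub_apply, Pi.smul_apply, ← dl_eq, ← e]
    exact ((h.c3' F i.2).2 _ (codeD_lt D b) q hq).2 j j.2
  n_x i s := ⟨T.eta i s, h.eta_sq F _ _, fun t => Units.ext (by
    have := h.c4' F i.2 s.2 t
    rw [← (h.c3' F i.2).1] at this
    exact this)⟩
  comm i hi s h1 h2 t u := by
    obtain ⟨L, hL, e⟩ := h.c5' F i.2 hi s.2 (fun e => h1 (Fin.ext e)) (fun e => h2 (Fin.ext e))
    refine ⟨L.map fun q => (if hq : q.1 < D.nroots then ⟨q.1, hq⟩ else s,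
      q.2.1 * t ^ q.2.2.1 * u ^ q.2.2.2), fun kv hkv => ?_, Units.ext ?_⟩
    · obtain ⟨q, hq, rfl⟩ := List.mem_map.1 hkv
      refine ⟨_, _, (hL q hq).2.1, (hL q hq).2.2.1, funext fun j => ?_⟩
      simpa [dif_pos (hL q hq).1] using (hL q hq).2.2.2 j j.2
    · rw [Units.val_mul, Units.val_mul, Units.val_mul, ← Units.coeHom_apply (List.prod _),
        map_list_prod, List.map_map, List.map_map]
      refine (e t u).trans ?_
      congr 2
      refine List.map_congr_left fun q hq => ?_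
      simp [dif_pos (hL q hq).1, xU]
  desc r := by
    obtain ⟨i, hi, ⟨h1, h2⟩ | h1⟩ := (h.c6' r.2).2.2.2.1
    exacts [.inl ⟨⟨i, hi⟩, h1, Fin.ext h2⟩, .inr ⟨⟨i, hi⟩, h1⟩]
  f_inj r s e := Fin.ext (h.fv_inj r.2 s.2 (by rw [h.fv_eq, h.fv_eq]; exact e))
  f_pos i := by rw [lf_single]; exact_mod_cast (h.c7' i.2).2.2.2.2
  sgn r := ((h.c6' r.2).2.2.2.2.2.1).imp (fun e j => e j j.2) fun e j => e j j.2
  red i r e := ((h.c6' r.2).2.2.2.2.2.2.1 i i.2 fun j hj => by
    by_cases hji : j = i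
    exacts [.inl hji, .inr (e ⟨j, hj⟩ fun e' => hji (congrArg Fin.val e'))]).imp Fin.ext Fin.ext
  wt_e r := funext fun j => by
    change T.wtN (D.rank + r) j = _
    rw [wtN, bif'_eq, if_neg (by simp [h.hl]), h.hl]
    simp
  wt_hb i := funext fun j => by
    change T.wtN i j = _
    rw [wtN, bif'_eq, if_pos (by simp [h.hl])]; rfl
  x_co r t i := by
    change D.x F r t (.inl i) (.inr ⟨T.ng r, _⟩) = _
    rw [ChevalleyDatum.x, dif_pos r.2]
    have h1 := (h.c0' r.2).1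
    have h2 := (h.c0' r.2).2.1
    simp only [ChevalleyDatum.xMat, of_apply]
    rw [if_neg (fun e => h2 (congrArg Fin.val e)), if_pos (show T.ng r = D.negIdx.getD r 0 from h1.symm)]
    rfl
  co_gcd r := by
    obtain ⟨b, hb⟩ := exists_bezout_gcd (coD D r) D.rank
    have := (h.c6' r.2).2.2.2.2.2.2.2
    rw [gcdL, h.hl] at this
    rw [this, Finset.sum_range] at hb
    exact ⟨fun i => b i, hb⟩

theorem chev_x (r : Fin D.nroots) (t : F) :
    ((h.chev F).x r t : Matrix D.Idx D.Idx F) = D.x F r t := rfl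

theorem chev_x' (r : Fin D.nroots) (t : F) :
    ((h.chev F).x r t : Matrix D.Idx D.Idx F) = D.xMat F r t := dif_pos r.2

theorem group_eq : D.group F = (h.chev F).Xs Set.univ := by
  rw [ChevalleyDatum.group, Chev.Xs]
  congr 1
  ext g
  simp only [Set.mem_ofPred_eq, Set.mem_univ, true_and, ← h.chev_x', Units.val_inj]

end Ok

end Tab

end

end CfsgH8
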