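/-
Centralizers of field automorphisms of Chevalley groups with unimodular Cartan matrix.
-/
import Cfsg.Agent.H8.Chev5
import Cfsg.Agent.H7.FldAut

set_option autoImplicit false
set_option linter.unusedSectionVars false

namespace CfsgH8

open Matrix CfsgH5 Cfsg.Lie

theorem Chev.x_inj {ι R l F : Type*} [Fintype ι] [DecidableEq ι] [Fintype l] [DecidableEq l]
    [Field F] (C : Chev ι R l F) (r : R) {t u : F} (h : C.x r t = C.x r u) : t = u := by
  obtain ⟨b, hb⟩ := C.co_gcd r
  have e : ∀ i, (C.co r i * t : F) = C.co r i * u := fun i => by rw [← C.x_co, ← C.x_co, h]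
  have : ∀ t : F, t = ∑ i, b i * (C.co r i * t) := fun t => by
    simp only [← mul_assoc, ← Finset.sum_mul, ← Int.cast_mul, ← Int.cast_sum, hb]; simp
  rw [this t, this u]
  simp only [e]

theorem exists_small_field (K : Type*) [Field K] [Finite K] :
    ∃ (F₀ : Type) (_ : Field F₀) (_ : Fintype F₀), Nonempty (F₀ ≃+* K) := by
  let e := Finite.equivFin K
  letI : Field (Fin (Nat.card K)) := e.symm.field
  exact ⟨Fin (Nat.card K), this, inferInstance, ⟨e.symm.ringEquiv⟩⟩

namespace Tab.Ok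

variable {D : ChevalleyDatum} {T : Tab} (h : T.Ok D)
include h

theorem map_xU {F K : Type*} [Field F] [Field K] (ε : F →+* K) (r : Fin D.nroots) (t : F) :
    GeneralLinearGroup.map ε ((h.chev F).x r t) = (h.chev K).x r (ε t) := by
  ext i j
  rw [GeneralLinearGroup.map_apply, Chev.x_ent, Chev.x_ent, map_add, map_list_sum, List.map_map]
  congr 1
  · by_cases h : i = j
    · subst h; simp
    · simp [one_apply_ne h]
  · congr 1
    refine List.map_congr_left fun km _ => by simp

theorem hB_of (B : ℕ → ℕ → ℤ) (F : Type*) [Field F]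
    (hB : ∀ j k : Fin D.rank, ∑ i : Fin D.rank, B j i * T.cm i k = if j = k then 1 else 0)
    (j : Fin D.rank) : ∃ b : Fin D.rank → ℤ, ∀ v, v j = ∑ i, b i * (h.chev F).A i v := by
  refine ⟨fun i => B j i, fun v => ?_⟩
  change _ = ∑ i : Fin D.rank, B j i * ∑ k : Fin D.rank, v k * T.cm i k
  simp only [Finset.mul_sum]
  rw [Finset.sum_comm]
  simp only [mul_left_comm (B j _), ← Finset.mul_sum, hB]
  simp

theorem field_fixed (B : ℕ → ℕ → ℤ) (hl : 0 < D.rank)
    (hB : ∀ j k : Fin D.rank, ∑ i : Fin D.rank, B j i * T.cm i k = if j = k then 1 else 0)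
    {F : Type*} [Field F] [Fintype F] (φ : MulAut (D.group F)) (hφ : D.IsFieldAut φ) (r : ℕ)
    (ho : orderOf φ = r) :
    ∃ (F₀ : Type) (_ : Field F₀) (_ : Fintype F₀), Fintype.card F = Fintype.card F₀ ^ r ∧
      Nonempty (↥((MulEquiv.toMonoidHom φ).eqLocus (MonoidHom.id ↥(D.group F))) ≃*
        ↥(D.group F₀)) := by
  obtain ⟨σ, hσ⟩ := hφ
  set C := h.chev F with hC
  have hx : ∀ r t, C.x r t ∈ D.group F := fun r t => by
    rw [h.group_eq]; exact C.x_mem (Set.mem_univ _) t
  have h1 : ∀ g : D.group F, (φ g : GL D.Idx F) = GeneralLinearGroup.map σ.toRingHom g := by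
    rintro ⟨g, hg⟩
    induction hg using Subgroup.closure_induction with
    | mem g hg =>
      obtain ⟨r, t, e⟩ := hg
      obtain rfl : g = C.x r t := Units.ext (e.trans (h.chev_x' F r t).symm)
      rw [C.map_x]
      exact Units.ext (hσ _ r t r.2 rfl)
    | one => rw [_root_.map_one]; exact congrArg _ (_root_.map_one φ)
    | mul a b ha hb iha ihb =>
      rw [_root_.map_mul, ← iha, ← ihb]
      exact congrArg _ (_root_.map_mul φ ⟨a, ha⟩ ⟨b, hb⟩)
    | inv a ha iha =>
      rw [map_inv, ← iha]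
      exact congrArg _ (map_inv φ ⟨a, ha⟩)
  have h2 : ∀ (n : ℕ) (g : D.group F), ((φ ^ n) g : GL D.Idx F) =
      GeneralLinearGroup.map (σ ^ n : F ≃+* F).toRingHom g := by
    intro n
    induction n with
    | zero => intro g; ext i j; simp
    | succ n ih =>
      intro g
      rw [pow_succ', MulAut.mul_apply, h1, ih]
      ext i j
      simp [pow_succ']
  have h3 : orderOf σ = orderOf φ := by
    rw [orderOf_eq_orderOf_iff]
    intro n
    constructor
    · intro e
      ext g : 2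
      rw [h2, e]
      ext i j; simp
    · intro e
      ext t
      have := h2 n ⟨_, hx (C.p ⟨0, hl⟩) t⟩
      rw [e, C.map_x] at this
      exact (C.x_inj _ this).symm
  obtain ⟨F₀, i1, i2, ⟨e⟩⟩ := exists_small_field (CfsgH7.fixF σ)
  let ε : F₀ →+* F := (CfsgH7.fixF σ).subtype.comp e.toRingHom
  have hε : ∀ x, σ x = x ↔ ∃ y, ε y = x := fun x => by
    rw [← CfsgH7.mem_fixF]
    exact ⟨fun hx => ⟨e.symm ⟨x, hx⟩, by simp [ε]⟩, by rintro ⟨y, rfl⟩; exact (e y).2⟩
  refine ⟨F₀, i1, i2, ?_, ?_⟩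
  · rw [← Nat.card_eq_fintype_card, ← Nat.card_eq_fintype_card, CfsgH7.card_fixF σ, h3, ho,
      Nat.card_congr e.toEquiv]
  have hinj : Function.Injective (GeneralLinearGroup.map (n := D.Idx) ε) := fun a b e => by
    ext i j
    exact ε.injective (by
      rw [← GeneralLinearGroup.map_apply, ← GeneralLinearGroup.map_apply, e])
  have h4 : (D.group F₀).map (GeneralLinearGroup.map ε) = C.G0 σ.toRingHom := by
    rw [h.group_eq, Chev.Xs, MonoidHom.map_closure, Chev.G0]
    congr 1
    ext g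
    constructor
    · rintro ⟨_, ⟨r, -, t, rfl⟩, rfl⟩
      exact ⟨r, ε t, (hε _).2 ⟨t, rfl⟩, h.map_xU ε r t⟩
    · rintro ⟨r, t, ht, rfl⟩
      obtain ⟨y, rfl⟩ := (hε _).1 ht
      exact ⟨_, ⟨r, Set.mem_univ _, y, rfl⟩, h.map_xU ε r y⟩
  have h5 : ((MulEquiv.toMonoidHom φ).eqLocus (MonoidHom.id ↥(D.group F))).map
      (D.group F).subtype = C.G0 σ.toRingHom := by
    ext g
    constructor
    · rintro ⟨g, hg, rfl⟩
      have hg' : φ g = g := hg
      refine C.fixed_mem_G0 _ (h.hB_of B F hB) (h.group_eq F ▸ g.2) ?_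
      rw [Subgroup.subtype_apply, ← h1, hg']
    · intro hg
      have : C.G0 σ.toRingHom ≤ D.group F := by
        rw [Chev.G0, Subgroup.closure_le]
        rintro _ ⟨r, t, -, rfl⟩
        exact hx r t
      exact ⟨⟨g, this hg⟩, Subtype.ext ((h1 _).trans (C.map_G0 _ hg)), rfl⟩
  exact ⟨(Subgroup.equivMapOfInjective _ _ (Subgroup.subtype_injective _)).trans
    ((MulEquiv.subgroupCongr (h5.trans h4.symm)).trans
      (Subgroup.equivMapOfInjective _ _ hinj).symm)⟩

end Tab.Ok

end CfsgH8
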