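/-
Lang's theorem for the Chevalley groups over finite fields; their automorphism groups.
-/
import Cfsg.Agent.H8.CA7
import Cfsg.Agent.H8.CA8
import Cfsg.Agent.H8.Chev6
import Cfsg.Agent.H7.Tor2

set_option autoImplicit false
set_option linter.unusedSectionVars false

namespace CfsgH8

open Matrix CfsgH7 Cfsg.Lie Chev

/-- the norm -/
def nrm {ι F : Type*} [Fintype ι] [DecidableEq ι] [Field F] (τ : F →+* F) (c : GL ι F) :
    ℕ → GL ι F
  | 0 => 1
  | k + 1 => c * GeneralLinearGroup.map τ (nrm τ c k)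

theorem Chev.Extra.cent {ι R l F : Type*} [Fintype ι] [DecidableEq ι] [Fintype l] [DecidableEq l]
    [Field F] [Finite R] {C : Chev ι R l F} (hE : C.Extra) {g : GL ι F} (hg : g ∈ GG C)
    (h : ∀ x ∈ C.Xs Set.univ, g * x * g⁻¹ = x) : g = 1 := by
  have key : ∀ {C : Chev ι R l F}, C.Extra → g ∈ GG C → (∀ x ∈ C.Xs Set.univ, g * x * g⁻¹ = x) →
      ∃ u ∈ C.U C.f 1, ∃ χ, g = u * C.hh χ := by
    intro C hE hg h
    obtain ⟨L, u, hu, χ, v, hv, rfl⟩ := bru_of hE hg
    obtain ⟨χ', e⟩ := hE.mem_H L fun i => hE.pos_of_mem (hE.acts_nw L) (by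
      have h1 := mul_mem (mul_mem (inv_mem hv) (C.x_p_mem i 1)) hv
      have h2 : _ ∈ C.U C.f 1 := C.hh_conj_mem χ⁻¹ (mul_mem (mul_mem (inv_mem hu) h1) hu)
      rw [← h _ (C.Xs_mono (Set.subset_univ _) h1)] at h2
      simpa [hh_inv, mul_assoc] using h2)
    exact ⟨_, mul_mem hu (C.hh_conj_mem (χ * χ') hv), χ * χ', by rw [e, _root_.map_mul]; group⟩
  obtain ⟨u, hu, χ, e⟩ := key hE hg h
  obtain ⟨v, hv, ψ, e'⟩ := key hE.opp_extra (hE.opp_GG.symm ▸ hg) (by rwa [hE.opp_Xs])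
  have hv' : v ∈ C.U (-C.f) 1 := by
    refine hE.opp.Xs_le (fun r hr t => C.x_mem_U (r := C.neg r) ?_ t) hv
    rw [AddMonoidHom.neg_apply, f_neg, neg_neg]; exact hr
  rw [hE.opp_hh] at e'
  have h1 := (C.udl_unique (χ := χ) (χ' := ψ⁻¹) hu (one_mem _) (one_mem _)
    (C.hh_conj_mem ψ hv') (by rw [mul_one, ← e, e', hh_inv]; group)).1
  rw [h1, one_mul] at e
  rw [e, ch_ext' C (χ := χ) (χ' := 1) fun i => ?_, _root_.map_one]
  have := h _ (C.x_mem (Set.mem_univ (C.p i)) 1)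
  rw [e, hh_conj] at this
  rw [cv_one, ← mul_one (cv _ _), C.x_inj _ this]

namespace Tab.Ok

variable {D : ChevalleyDatum} {T : Tab} (h : T.Ok D)

theorem map_hh' {F K : Type*} [Field F] [Field K] (ε : F →+* K) (χ : Ch (Fin D.rank) F) :
    GeneralLinearGroup.map ε ((h.chev F).hh χ) =
      (h.chev K).hh ((Units.map ε.toMonoidHom).comp χ) := by
  ext i j
  rw [GeneralLinearGroup.map_apply, hh_val, hh_val]
  by_cases h : i = j
  · subst h; simp [cv, chev]
  · simp [diagonal_apply_ne _ h]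

universe u

theorem lang (hE : ∀ (K : Type u) [Field K], (h.chev K).Extra) {F : Type u} [Field F] [Fintype F]
    {r : ℕ} [Fact r.Prime] [CharP F r] {a p : ℕ} (ha : a ≠ 0) (hF : Fintype.card F = r ^ (a * p))
    {τ : F →+* F} (hτ : ∀ x, τ x = x ^ r ^ a) {c : GL D.Idx F} (hc : c ∈ GG (h.chev F))
    (hN : nrm τ c p = 1) : ∃ x ∈ GG (h.chev F), c = x * (GeneralLinearGroup.map τ x)⁻¹ := by
  let J := Fin D.nroots ⊕ Fin D.rank
  let K := AlgebraicClosure (FractionRing (MvPolynomial J F))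
  let ε := algebraMap F K
  haveI : CharP K r := charP_of_injective_algebraMap ε.injective r
  haveI := IsLocalization.isAlgebraic (FractionRing (MvPolynomial J F))
    (nonZeroDivisors (MvPolynomial J F))
  have ht := ((IsTranscendenceBasis.mvPolynomial J F).algebraMap_comp
    (A := FractionRing (MvPolynomial J F))).algebraMap_comp (A := K)
  have hG : ∀ g ∈ GG (h.chev F), GeneralLinearGroup.map ε g ∈ GG (h.chev K) := by
    rintro _ ⟨x, hx, χ, rfl⟩
    rw [_root_.map_mul, map_hh']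
    exact mul_mem (map_mem_GG h ε (h.group_eq F ▸ hx)) (hh_mem_GG _ _)
  obtain ⟨x, hx, e⟩ := (hE K).lang_core ht (φ := iterateFrobenius K r a)
    (Nat.one_lt_pow ha (Fact.out : r.Prime).one_lt) (fun _ => rfl) (hG c hc) fun i j => ⟨_, rfl⟩
  have h1 : ∀ g : GL D.Idx F, GeneralLinearGroup.map ε (GeneralLinearGroup.map τ g) =
      GeneralLinearGroup.map (iterateFrobenius K r a) (GeneralLinearGroup.map ε g) := fun g => by
    ext i j
    simp only [GeneralLinearGroup.map_apply, hτ, map_pow, iterateFrobenius_def]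
  have h2 : ∀ k, GeneralLinearGroup.map ε (nrm τ c k) =
      x * (GeneralLinearGroup.map (iterateFrobenius K r (a * k)) x)⁻¹ := fun k => by
    induction k with
    | zero =>
      rw [nrm, _root_.map_one, eq_comm, mul_inv_eq_one]
      ext i j
      simp
    | succ k ih =>
      rw [nrm, _root_.map_mul, h1, ih, e, _root_.map_mul, map_inv, mul_assoc, inv_mul_cancel_left]
      congr 2
      ext i j
      simp only [GeneralLinearGroup.map_apply, iterateFrobenius_def, ← pow_mul, ← pow_add, mul_add,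
        mul_one]
  have h3 := h2 p
  rw [hN, _root_.map_one, eq_comm, mul_inv_eq_one, eq_comm] at h3
  obtain ⟨ψ, hψ⟩ : ∃ ψ, ψ = iterateFrobenius K r (a * p) := ⟨_, rfl⟩
  rw [← hψ] at h3
  have h4 : ∀ t, ψ t = t → ∃ s, ε s = t := fun t ht => mem_range_of_pow ε (by
    rwa [hF, ← iterateFrobenius_def, ← hψ])
  have h5 : (h.chev K).G0 ψ ≤ (GG (h.chev F)).map (GeneralLinearGroup.map ε) := by
    rw [G0, Subgroup.closure_le]
    rintro _ ⟨r, t, ht, rfl⟩
    obtain ⟨s, rfl⟩ := h4 t ht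
    exact ⟨_, Xs_le_GG _ ((h.chev F).x_mem (Set.mem_univ r) s), h.map_xU ε r s⟩
  obtain ⟨y, hy, rfl⟩ : x ∈ (GG (h.chev F)).map (GeneralLinearGroup.map ε) := by
    obtain ⟨y, hy, χ, rfl⟩ := hx
    obtain ⟨u, hu, χ', v, hv, m, hm, e'⟩ := (h.chev K).decomp ((h.chev K).n_mem_G0 ψ)
      ((h.chev K).hh_conj_mem χ⁻¹ hy)
    replace e' : y * (h.chev K).hh χ = (h.chev K).hh χ * u * ((h.chev K).hh χ)⁻¹ *
        (h.chev K).hh (χ * χ') * v * m := by
      rw [_root_.map_mul, ← mul_right_inj ((h.chev K).hh χ⁻¹), ← mul_assoc, ← inv_inv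
        ((h.chev K).hh χ), ← hh_inv, e', hh_inv]
      group
    replace hu : _ ∈ (h.chev K).U (h.chev K).f 1 := (h.chev K).hh_conj_mem χ hu
    rw [e'] at h3 ⊢
    generalize (h.chev K).hh χ * u * ((h.chev K).hh χ)⁻¹ = u at h3 hu
    generalize χ * χ' = χ at h3
    rw [_root_.map_mul, map_G0 _ _ hm, mul_left_inj, _root_.map_mul, _root_.map_mul, map_hh] at h3
    obtain ⟨h6, h7, h8⟩ := (h.chev K).udl_unique ((h.chev K).map_mem ψ hu) hu
      ((h.chev K).map_mem ψ hv) hv h3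
    refine mul_mem (mul_mem (mul_mem (h5 ((h.chev K).peel ψ (h.chev K).f_inj one_pos hu h6)) ?_)
      (h5 ((h.chev K).peel ψ (fun r s e => (h.chev K).f_inj r s (neg_injective e)) one_pos hv h8)))
      (h5 hm)
    choose b hb using fun i => h4 (cv χ (Pi.single i 1))
      (congrArg (cv · (Pi.single i 1)) (hh_inj _ h7))
    obtain ⟨χ₀, h9⟩ := exists_ch_eq b fun i e => cv_ne χ _ (by rw [← hb i, e, map_zero])
    exact ⟨_, hh_mem_GG _ χ₀, by
      rw [map_hh']; exact congrArg _ (ch_ext fun i => by rw [← hb, ← h9]; rfl)⟩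
  exact ⟨y, hy, map_inj ε (by rw [e, _root_.map_mul, map_inv, h1])⟩

variable (F : Type*) [Field F]

theorem GG_le : GG (h.chev F) ≤ Subgroup.normalizer (D.group F : Set (GL D.Idx F)) := by
  have : ∀ g ∈ GG (h.chev F), ∀ x ∈ D.group F, g * x * g⁻¹ ∈ D.group F := by
    rw [h.group_eq]
    rintro _ ⟨y, hy, χ, rfl⟩ x hx
    have := mul_mem (mul_mem hy ((h.chev F).hh_conj_mem χ hx)) (inv_mem hy)
    simpa [mul_assoc] using this
  exact fun g hg => Subgroup.mem_normalizer_iff.2 fun x => ⟨this g hg x, fun e => by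
    simpa [mul_assoc] using this _ (inv_mem hg) _ e⟩

/-- the action of the inner-diagonal group -/
def Psi : GG (h.chev F) →* MulAut (D.group F) :=
  (D.group F).normalizerMonoidHom.comp (Subgroup.inclusion (h.GG_le F))

theorem Psi_val (g : GG (h.chev F)) (k : D.group F) : (h.Psi F g k).1 = g.1 * k * g.1⁻¹ := rfl

theorem Psi_conj (k : D.group F) (hk : k.1 ∈ GG (h.chev F)) :
    h.Psi F ⟨k, hk⟩ = MulAut.conj k := rfl

theorem mem_Xs' (k : D.group F) : k.1 ∈ (h.chev F).Xs Set.univ := (h.group_eq F).le k.2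

theorem mem_GG (k : D.group F) : k.1 ∈ GG (h.chev F) := Xs_le_GG _ (h.mem_Xs' F k)

variable {F} (hE : (h.chev F).Extra)

include hE in
theorem Psi_inj : Function.Injective (h.Psi F) :=
  (injective_iff_map_eq_one _).2 fun g e => Subtype.ext (hE.cent g.2 fun x hx =>
    congrArg Subtype.val (MulEquiv.congr_fun e ⟨x, h.group_eq F ▸ hx⟩))

include hE in
theorem conj_inj {k k' : D.group F} (e : MulAut.conj k = MulAut.conj k') : k = k' :=
  Subtype.ext (Subtype.ext_iff.1 (h.Psi_inj hE (a₁ := ⟨k, h.mem_GG F _⟩)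
    (a₂ := ⟨k', h.mem_GG F _⟩) e) :)

/-- the embedding into the automorphism group -/
def emb : Emb (h.chev F) (MulAut (D.group F)) where
  Ψ := h.Psi F
  inj := h.Psi_inj hE
  nrm a g hg := ⟨⟨a ⟨g, h.group_eq F ▸ hg⟩, h.mem_GG F _⟩, h.mem_Xs' F _,
    (aut_mul_conj a ⟨g, h.group_eq F ▸ hg⟩).symm⟩
  cent a ha := MulEquiv.ext fun k => h.conj_inj hE
    ((aut_mul_conj a k).symm.trans (ha ⟨k, h.mem_GG F _⟩ (h.mem_Xs' F k)))
  hE := hE

theorem mem_K {a : MulAut (D.group F)} : a ∈ (h.emb hE).K ↔ ∃ k, MulAut.conj k = a :=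
  ⟨fun ⟨g, hg, e⟩ => ⟨⟨g, h.group_eq F ▸ hg⟩, e⟩, fun ⟨k, e⟩ =>
    ⟨⟨k, h.mem_GG F k⟩, h.mem_Xs' F k, e⟩⟩

include h in
theorem map_mem_group (σ : F →+* F) (k : D.group F) : GeneralLinearGroup.map σ k.1 ∈ D.group F :=
  (h.group_eq F).ge ((h.chev F).map_mem σ (h.mem_Xs' F k))

/-- field automorphisms -/
def Phi : (F ≃+* F) →* MulAut (D.group F) where
  toFun σ :=
    { toFun k := ⟨_, h.map_mem_group σ k⟩
      invFun k := ⟨_, h.map_mem_group σ.symm k⟩
      left_inv k := by ext i j; simp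
      right_inv k := by ext i j; simp
      map_mul' a b := Subtype.ext (_root_.map_mul (GeneralLinearGroup.map (σ : F →+* F)) a.1 b.1) }
  map_one' := by ext k i j; rfl
  map_mul' σ τ := by ext k i j; rfl

theorem Phi_Psi (σ : F ≃+* F) (g : GG (h.chev F)) : h.Phi σ * h.Psi F g * (h.Phi σ)⁻¹ =
    h.Psi F ⟨_, (h.chev F).map_GG σ g.2⟩ := by
  rw [mul_inv_eq_iff_eq_mul]
  refine MulEquiv.ext fun k => Subtype.ext ?_
  change GeneralLinearGroup.map _ (g.1 * k.1 * g.1⁻¹) = _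
  rw [_root_.map_mul, _root_.map_mul, map_inv]
  rfl

theorem Phi_X (σ : F ≃+* F) (r : Fin D.nroots) (t : F) :
    h.Phi σ * (h.emb hE).X r t * (h.Phi σ)⁻¹ = (h.emb hE).X r (σ t) :=
  (h.Phi_Psi σ _).trans (congrArg _ (Subtype.ext ((h.chev F).map_x _ r t)))

theorem pow_eq (σ : F ≃+* F) (g : GG (h.chev F)) (k : ℕ) : ∃ hk,
    (h.Psi F g * h.Phi σ) ^ k = h.Psi F ⟨nrm σ g.1 k, hk⟩ * h.Phi (σ ^ k) := by
  induction k with
  | zero => exact ⟨one_mem _, by
      rw [pow_zero, pow_zero, _root_.map_one, mul_one]; exact (h.Psi F).map_one.symm⟩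
  | succ k ih =>
    obtain ⟨hk, e⟩ := ih
    refine ⟨mul_mem g.2 ((h.chev F).map_GG σ hk), ?_⟩
    rw [pow_succ', e, pow_succ', _root_.map_mul, ← mul_assoc, ← mul_assoc, mul_left_inj,
      ← mul_inv_eq_iff_eq_mul, mul_assoc, mul_assoc, ← mul_assoc (h.Phi σ), Phi_Psi,
      ← _root_.map_mul]
    rfl

theorem innerDiag
    (hch : ∀ r < D.nroots, D.chainRoot r r 1 = none ∧ D.chainRoot r (D.neg r) 1 = none)
    (g : GG (h.chev F)) : D.IsInnerDiagonalAutOn (D.group F) (h.Psi F g) := by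
  obtain ⟨_, x, hx, χ, rfl⟩ := g
  let c : ℕ → Fˣ := fun r => χ (Multiplicative.ofAdd fun j => T.rtc r j)
  have h1 : ∀ ψ : Ch (Fin D.rank) F, D.charDiag F (fun r => ψ (Multiplicative.ofAdd
      fun j => T.rtc r j)) = (h.chev F).hh ψ := fun ψ => by
    rw [hh_val, ChevalleyDatum.charDiag]
    congr 1
    funext i
    rcases i with i | r
    · exact ((congrArg _ ((h.chev F).wt_hb i)).trans (cv_zero ψ)).symm
    · exact (congrArg (cv ψ) ((h.chev F).wt_e r)).symm
  refine ⟨x, h.group_eq F ▸ hx, c, ⟨fun r hr => ?_, fun r s k hr hs e => ?_⟩, fun t => ?_⟩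
  · rw [(h.c0' hr).1, ← map_inv, ← ofAdd_neg]
    exact congrArg (fun v => χ (Multiplicative.ofAdd v)) ((h.chev F).rt_neg ⟨r, hr⟩)
  · rw [← _root_.map_mul, ← ofAdd_add]
    refine congrArg (fun v => χ (Multiplicative.ofAdd v)) (funext fun j => ?_)
    have h2 : s ≠ r := by rintro rfl; simp [(hch s hr).1] at e
    have h3 : s ≠ D.neg r := by rintro rfl; simp [(hch r hr).2] at e
    obtain ⟨m, hm⟩ : ∃ m, (⟨D.rank + k, 1, m⟩ : Ce) ∈ colD D r (D.rank + s) := by
      rw [colD, if_neg (by omega), Nat.add_sub_cancel_left, if_neg h2, if_neg h3, chainK_eq]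
      rw [ChevalleyDatum.chainRoot, ChevalleyDatum.chainEntry] at e
      split at e
      · simp at e
      rename_i q hq
      obtain ⟨⟨_, m⟩, e', rfl⟩ := Option.map_eq_some_iff.1 e
      exact ⟨m, List.mem_flatMap.2 ⟨q, List.mem_filter.2 ⟨List.mem_of_find?_eq_some hq,
        by simpa using List.find?_some hq⟩,
        List.mem_map.2 ⟨(_, 0), List.mk_mem_zipIdx_iff_getElem?.2 e', rfl⟩⟩⟩
    rw [← (h.c0' hr).2.2 _ (by omega)] at hm
    have := (h.c1' hr (by omega) _ hm).2.2 j j.2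
    simpa [wtN, CfsgH5.bif'_eq, h.hl, add_comm] using this
  · rw [h1, show (fun r => (c r)⁻¹) = fun r => χ⁻¹ (Multiplicative.ofAdd fun j => T.rtc r j) from
      rfl, h1, hh_inv, Psi_val]
    simp only [Units.val_mul, _root_.mul_inv_rev, Matrix.mul_assoc]

end Tab.Ok

end CfsgH8
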