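/-
Local balance for the automorphisms of Chevalley groups which are not inner-diagonal.
-/
import Cfsg.Agent.H8.CA9

set_option autoImplicit false
set_option linter.unusedSectionVars false

namespace CfsgH8

open Matrix CfsgH7 Cfsg.Lie Chev Subgroup

/-- enumeration of the automorphisms of a graph -/
def bt (n : ℕ) (adj : ℕ → ℕ → Bool) (P : List ℕ → Bool) (k : ℕ) : List ℕ → Bool :=
  Nat.rec (motive := fun _ => List ℕ → Bool) P (fun _ ih acc => (List.range n).all fun a =>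
    !((List.range acc.length).all fun i => acc.getD i 0 != a &&
      (adj (acc.getD i 0) a == adj i acc.length)) || ih (acc ++ [a])) k

theorem bt_spec {n : ℕ} {adj : ℕ → ℕ → Bool} {P : List ℕ → Bool} {ρ : ℕ → ℕ}
    (h1 : ∀ i < n, ρ i < n) (h2 : ∀ i < n, ∀ j < n, ρ i = ρ j → i = j)
    (h3 : ∀ i < n, ∀ j < n, adj (ρ i) (ρ j) = adj i j) (k m : ℕ) (hm : m + k = n)
    (h : bt n adj P k ((List.range m).map ρ) = true) : P ((List.range n).map ρ) = true := by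
  induction k generalizing m with
  | zero => exact hm ▸ h
  | succ k ih =>
    refine ih (m + 1) (by omega) ?_
    have := List.all_eq_true.1 h (ρ m) (List.mem_range.2 (h1 m (by omega)))
    rw [Bool.or_eq_true, Bool.not_eq_true'] at this
    rw [List.range_succ, List.map_append]
    refine this.resolve_left ?_
    simp only [Bool.not_eq_false, List.all_eq_true, List.length_map, List.length_range,
      List.mem_range]
    intro i hi
    have e : ((List.range m).map ρ).getD i 0 = ρ i := by simp [hi]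
    rw [e, h3 i (by omega) m (by omega)]
    simpa using fun e => absurd (h2 i (by omega) m (by omega) e) (by omega)

/-- the map given by a list -/
def toF {n : ℕ} (L : List ℕ) (i : Fin n) : Fin n := ⟨L.getD i 0 % n, Nat.mod_lt _ i.pos⟩

theorem bt_perm {n : ℕ} {M : ℕ → ℕ → ℤ} {Ls : List (List ℕ)}
    (h : bt n (fun i j => M i j == 0) (fun L => decide (L ∈ Ls)) n [] = true) (ρ : Equiv.Perm (Fin n))
    (hρ : ∀ i j : Fin n, M i j = 0 ↔ M (ρ i) (ρ j) = 0) : ∃ L ∈ Ls, ⇑ρ = toF L := by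
  let f : ℕ → ℕ := fun i => if h : i < n then ρ ⟨i, h⟩ else 0
  refine ⟨_, of_decide_eq_true (bt_spec (ρ := f) (fun i hi => by simp [f, hi])
    (fun i hi j hj e => by simpa [f, hi, hj, Fin.val_inj] using e) (fun i hi j hj => by
      simpa [f, hi, hj, Bool.beq_eq_decide_eq] using (hρ ⟨i, hi⟩ ⟨j, hj⟩).symm) n 0 (by simp) h),
    funext fun i => Fin.ext ?_⟩
  simp [toF, f, Nat.mod_eq_of_lt]

theorem conn_of {l : Type*} {M : l → l → ℤ} (o : l → ℕ) (i₀ : l)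
    (h : ∀ i, i = i₀ ∨ ∃ j, o j < o i ∧ M i j ≠ 0 ∧ M j i ≠ 0) (J : Set l) (hJ : J.Nonempty)
    (hc : ∀ i j, j ∈ J → M i j ≠ 0 → i ∈ J) (i : l) : i ∈ J := by
  have key : ∀ i, i ∈ J ↔ i₀ ∈ J := fun i => by
    induction hn : o i using Nat.strong_induction_on generalizing i with
    | _ n ih =>
      rcases h i with rfl | ⟨j, h1, h2, h3⟩
      · rfl
      · rw [← ih _ (hn ▸ h1) j rfl]
        exact ⟨fun e => hc j i e h3, fun e => hc i j e h2⟩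
  obtain ⟨j, hj⟩ := hJ
  exact (key i).2 ((key j).1 hj)

theorem Emb.eq_D {ι R l F : Type*} [Fintype ι] [DecidableEq ι] [Fintype l] [DecidableEq l]
    [Field F] {C : Chev ι R l F} {A : Type*} [Group A] {E : Emb C A} [Nonempty l]
    (Φ : (F ≃+* F) → A) (hΦ : ∀ σ r t, Φ σ * E.X r t * (Φ σ)⁻¹ = E.X r (σ t))
    (hconn : ∀ J : Set l, J.Nonempty → (∀ i j, j ∈ J → C.A i (Pi.single j 1) ≠ 0 → i ∈ J) →
      ∀ i, i ∈ J)
    (hadj : ∀ i j, i ≠ j → C.A i (Pi.single j 1) ≠ 0 →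
      C.A i (Pi.single j 1) = -1 ∨ C.A j (Pi.single i 1) = -1)
    {s : A} (hs : E.Mon s 1) : ∃ χ σ, s = E.D χ * Φ σ := by
  choose ε φ h using fun i => (hs (C.p i)).me
  have h1 : ∀ i j, C.A i (Pi.single j 1) = -1 → φ j = φ i := fun i j e => RingEquiv.ext fun c => by
    by_cases hc : c = 0
    · simp [hc]
    simpa [C.rt_p, e] using (h i).rel (h j) (Units.mk0 c hc)
  obtain ⟨i₀⟩ := ‹Nonempty l›
  have h2 := hconn {i | φ i = φ i₀} ⟨i₀, rfl⟩ fun i j hj e => by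
    by_cases hij : i = j
    · exact hij ▸ hj
    rcases hadj i j hij e with e | e
    exacts [(h1 i j e).symm.trans hj, (h1 j i e).trans hj]
  obtain ⟨χ, hχ⟩ := exists_ch_eq (fun i => (ε i : F)) fun i => (ε i).ne_zero
  refine ⟨χ, φ i₀, ?_⟩
  rw [← inv_mul_eq_one]
  have key : ∀ r t, (E.D χ * Φ (φ i₀)) * E.X r t * (E.D χ * Φ (φ i₀))⁻¹ =
      E.X r (cv χ (C.rt r) * φ i₀ t) := fun r t => by
    rw [← E.D_conj, ← hΦ]; group
  have key2 : ∀ {a x : A}, s * x * s⁻¹ = a * x * a⁻¹ → s⁻¹ * a * x * (s⁻¹ * a)⁻¹ = x := fun e => by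
    rw [_root_.mul_inv_rev, inv_inv, mul_assoc s⁻¹, mul_assoc s⁻¹, ← mul_assoc _ _ s, ← e]; group
  refine E.eq_one (fun i t => key2 ?_) fun i t => key2 ?_
  · rw [key, (h i).1, C.rt_p, hχ, h2 i]; rfl
  · rw [key, (h i).2, C.rt_neg, cv_neg, C.rt_p, hχ, h2 i]; rfl

namespace Tab

variable (T : Tab) (D : ChevalleyDatum)

/-- the data for graph automorphisms -/
abbrev Gr (Ls : List (List ℕ)) (ρ : Fin D.rank → Fin D.rank) : Prop :=
  (∀ i j : Fin D.rank, i ≠ j → T.cm i j = 0 ∨ T.cm i j = -1) ∧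
  (∀ k : Fin D.nroots, ∑ i : Fin D.rank, T.rtc k i * ∑ j : Fin D.rank, T.rtc k j * T.cm i j = 2) ∧
  (∀ r s : Fin D.nroots, (∀ i, T.rtc s (ρ i) = T.rtc r i) → s ≠ r →
    ∑ i : Fin D.rank, T.rtc r i * ∑ j : Fin D.rank, T.rtc s j * T.cm i j = 0) ∧
  (∀ L ∈ Ls, (∀ i, toF L (ρ i) = ρ (toF L i)) → ∀ i : Fin D.rank, toF L (toF L i) = i) ∧
  (∀ j : Fin D.rank, (∃ i, ρ i ≠ i ∧ T.cm i j ≠ 0) ∨ ∃ i, ∃ k : Fin D.rank, ρ i ≠ i ∧
    T.cm i k ≠ 0 ∧ T.cm i j - T.cm k j * T.cm i k ≠ 0) ∧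
  ∀ j, ρ j = j → ∃ k : Fin D.rank, T.cm j k = -1 ∧ ρ k = k ∧ ∀ i, ρ i = i → i = j ∨ i = k

/-- the types of diagram symmetries -/
abbrev Ty (Ls : List (List ℕ)) (b : Bool) (ρ : Fin D.rank → Fin D.rank) : Prop :=
  (∀ i, ρ i = i) ∨ ((∀ i, ρ (ρ i) = i) ∧
    ((∃ i j : Fin D.rank, Odd (T.cm i j) ∧ Even (T.cm (ρ i) (ρ j))) ∨
      (∀ i j : Fin D.rank, i ≠ j → T.cm j i = 0 ∨ Odd (T.cm j i)) ∧
        (((∀ i j, j = i ∨ ρ i = j) ∧ ∀ i, ρ i ≠ i) ∨ T.Gr D Ls ρ))) ∨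
    ((∀ i, ρ (ρ (ρ i)) = i) ∧ b = true)

/-- the finite checks -/
abbrev Ck (Ls : List (List ℕ)) (b : Bool) (o : List ℕ) : Prop :=
  (∀ r < D.nroots, D.chainRoot r r 1 = none ∧ D.chainRoot r (D.neg r) 1 = none) ∧
  (∃ i₀ : Fin D.rank, ∀ i, i = i₀ ∨ ∃ j : Fin D.rank, o.getD j 0 < o.getD i 0 ∧ T.cm i j ≠ 0 ∧
    T.cm j i ≠ 0) ∧
  (∀ i j : Fin D.rank, i ≠ j → T.cm i j ≠ 0 → T.cm i j = -1 ∨ T.cm j i = -1) ∧
  bt D.rank (fun i j => T.cm i j == 0) (fun L => decide (L ∈ Ls)) D.rank [] = true ∧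
  ∀ L ∈ Ls, T.Ty D Ls b (toF L)

end Tab

namespace Tab.Ok

variable {D : ChevalleyDatum} {T : Tab} (h : T.Ok D)

universe u

theorem balG_of {F : Type*} [Field F] [Finite F] (hE : (h.chev F).Extra) {p : ℕ} [Fact p.Prime]
    {β : MulAut (D.group F)} (ho : orderOf β = p)
    (h1 : p ∣ Nat.card (D.group F) ∨ ∃ x ∈ (h.emb hE).K, x ≠ 1 ∧ β * x * β⁻¹ = x)
    (h2 : ∀ x ∈ (h.emb hE).K, β * x * β⁻¹ = x → orderOf x = p → (h.emb hE).BalA p β) :
    BalG p β := by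
  have key : p ∣ Nat.card (D.group F) → ∃ k, β k = k ∧ orderOf k = p := fun hd => by
    obtain ⟨⟨k, hk⟩, e⟩ := exists_prime_orderOf_dvd_card' p
      (((card_fix_modEq ho).dvd_iff dvd_rfl).1 hd)
    exact ⟨k, hk, (Subgroup.orderOf_mk _ _).symm.trans e⟩
  refine ⟨?_, fun hd N h3 h4 h5 => ?_⟩
  · rcases h1 with hd | ⟨x, hx, h3, h4⟩
    · obtain ⟨k, h3, h4⟩ := key hd
      exact ⟨k, by rintro rfl; exact (Fact.out : p.Prime).ne_one (h4 ▸ orderOf_one), h3⟩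
    · obtain ⟨k, rfl⟩ := (h.mem_K hE).1 hx
      exact ⟨k, by rintro rfl; simp at h3, h.conj_inj hE ((aut_mul_conj β k).symm.trans h4)⟩
  · obtain ⟨k, h6, h7⟩ := key hd
    refine h2 _ ((h.mem_K hE).2 ⟨k, rfl⟩) (by rw [aut_mul_conj, h6]) (h7 ▸ orderOf_injective _
      (fun _ _ => h.conj_inj hE) k) N (fun y hy => ?_) h4 fun x hx e y hy => ?_
    · rw [← mem_centralizer_singleton_iff.1 (h3 hy), mul_inv_cancel_right]
    · obtain ⟨k, rfl⟩ := (h.mem_K hE).1 hx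
      exact (mem_normalizer_iff.1 (h5 k (h.conj_inj hE ((aut_mul_conj β k).symm.trans e))) y).1 hy

theorem main (hE : ∀ (K : Type u) [Field K], (h.chev K).Extra) {Ls : List (List ℕ)} {b : Bool}
    {o : List ℕ} (ck : T.Ck D Ls b o) {F : Type u} [Field F] [Fintype F] (r : ℕ) [Fact r.Prime]
    [CharP F r] {p : ℕ} [Fact p.Prime] (hpr : p ≠ r) {β : MulAut (D.group F)}
    (ho : orderOf β = p) (hnot : ¬ D.IsInnerDiagonalAutOn (D.group F) β)
    (htri : b = true → p = 3 → 3 ∣ Nat.card (D.group F) ∧ BalG 3 β) :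
    BalG p β ∧ (¬ p ∣ Nat.card (D.group F) → ∃ γ φ : MulAut (D.group F),
      D.IsInnerDiagonalAutOn (D.group F) γ ∧ IsEntrywiseFieldAutOn (D.group F) φ ∧
        β = φ.trans γ) := by
  obtain ⟨hch, ⟨i₀, hc⟩, hadj, hbt, hty⟩ := ck
  obtain ⟨E, hE'⟩ : ∃ E, E = h.emb (hE F) := ⟨_, rfl⟩
  have hA : ∀ i j, (h.chev F).A i (Pi.single j 1) = T.cm i j := fun i j => lf_single _ j
  have hp : p.Prime := Fact.out
  have hβ : β ^ p = 1 := ho ▸ pow_orderOf_eq_one β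
  obtain ⟨k, hk, s, hs, e⟩ := Emb.exists_S (E := E) r β
  obtain ⟨θ, hθ⟩ := Emb.exists_mon hs
  obtain ⟨ρ, hρ⟩ := hθ.perm hs
  have hρp : ρ ^ p = 1 := by
    obtain ⟨k', hk', e'⟩ := mul_pow_norm (d := s) hk (fun x hx => E.normal_K.conj_mem _ hx s) p
    rw [← e, hβ, eq_comm, mul_eq_one_iff_inv_eq] at e'
    have h1 := (hθ.pow p).one_of_K (pow_mem hs p) (e' ▸ inv_mem hk')
    have h2 : ∀ (n : ℕ) i, (θ ^ n) ((h.chev F).p i) = (h.chev F).p ((ρ ^ n) i) := fun n => by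
      induction n with
      | zero => exact fun _ => rfl
      | succ n ih => intro i; rw [pow_succ', pow_succ', Equiv.Perm.mul_apply, ih, hρ]; rfl
    exact Equiv.ext fun i => Emb.p_inj (C := h.chev F) (by rw [← h2, h1]; rfl)
  have hcls : ∀ {s θ} {ρ : Equiv.Perm (Fin D.rank)}, E.Mon s θ →
      (∀ i, θ ((h.chev F).p i) = (h.chev F).p (ρ i)) → ∃ L ∈ Ls, ⇑ρ = toF L :=
    fun hθ hρ => bt_perm hbt _ fun i j => by rw [← hA, ← hA]; exact hθ.adj (hρ i) (hρ j)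
  have hconn := conn_of (M := fun i j => (h.chev F).A i (Pi.single j 1)) (fun i => o.getD i 0) i₀
    (by simpa only [hA] using hc)
  by_cases h1 : ρ = 1
  · subst h1
    obtain rfl := hθ.eq_one hρ
    haveI : Nonempty (Fin D.rank) := ⟨i₀⟩
    have hΦ : ∀ σ r t, h.Phi σ * E.X r t * (h.Phi σ)⁻¹ = E.X r (σ t) := hE' ▸ h.Phi_X (hE F)
    obtain ⟨χ, σ, rfl⟩ := Emb.eq_D h.Phi hΦ hconn (by simpa only [hA] using hadj) hθ
    obtain ⟨g, rfl⟩ : ∃ g, β = h.Psi F g * h.Phi σ := by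
      subst hE'
      obtain ⟨g, -, rfl⟩ := hk
      exact ⟨g * ⟨_, hh_mem_GG _ χ⟩, by rw [e, _root_.map_mul, mul_assoc]; rfl⟩
    refine ⟨?_, fun _ => ⟨_, h.Phi σ, h.innerDiag hch g, ⟨σ, fun _ => rfl⟩, rfl⟩⟩
    have h2 : σ ≠ 1 := by
      rintro rfl
      exact hnot (by rw [_root_.map_one, mul_one]; exact h.innerDiag hch g)
    have hm : ∀ σ, E.Mon (h.Phi σ) 1 := fun σ r => ⟨1, σ, by simpa using hΦ σ r, by
      simpa using hΦ σ _⟩
    have h3 : σ ^ p = 1 := by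
      obtain ⟨⟨x, hx, ψ, e1⟩, e2⟩ := h.pow_eq σ g p
      rw [hβ, eq_comm, mul_eq_one_iff_eq_inv] at e2
      obtain ⟨ψ', e3⟩ := E.S_K (k := (h.Phi (σ ^ p))⁻¹ * (E.D ψ)⁻¹) (by
        subst hE'
        rw [← e2, Emb.D_eq, ← map_inv]
        exact ⟨_, (by simpa [e1] using hx : _ * _ ∈ (h.chev F).Xs _), _root_.map_mul _ _ _⟩)
        (mul_mem (inv_mem ((hm _).mem_S fun _ h => h)) (inv_mem (E.D_mem_S ψ)))
      rw [mul_inv_eq_iff_eq_mul, ← E.D_mul, inv_eq_iff_eq_inv, ← E.D_inv] at e3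
      have e4 := fun t => E.X_inj ((hΦ (σ ^ p) ((h.chev F).p i₀) t).symm.trans
        (e3 ▸ E.D_conj _ _ t))
      have e5 := e4 1
      rw [_root_.map_one, mul_one] at e5
      exact RingEquiv.ext fun t => by rw [e4, ← e5, one_mul]; rfl
    obtain ⟨f, -, hF⟩ := FiniteField.card F r
    obtain ⟨τ, hτ, h4, h5⟩ := ringAut_structure hF
    obtain ⟨j, rfl⟩ := h5 σ
    rw [← pow_mul, ← orderOf_dvd_iff_pow_eq_one, h4] at h3
    rw [Ne, ← orderOf_dvd_iff_pow_eq_one, h4] at h2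
    obtain ⟨a, ha⟩ : p ∣ f := by_contra fun h =>
      h2 (((hp.coprime_iff_not_dvd.2 h).symm).dvd_of_dvd_mul_right h3)
    have ha0 : a ≠ 0 := by rintro rfl; simp at ha
    rw [ha, mul_comm] at h2 h3 h4 hF
    obtain ⟨j, rfl⟩ := Nat.dvd_of_mul_dvd_mul_right hp.pos h3
    have h6 : orderOf (τ ^ a) = p := by
      rw [orderOf_pow' _ ha0, h4, Nat.gcd_mul_right_left, Nat.mul_div_cancel_left _ (by omega)]
    obtain ⟨i, hi⟩ := exists_pow_eq_self_of_coprime (x := τ ^ a) (n := j) (by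
      rw [h6]; exact (hp.coprime_iff_not_dvd.2 fun h => h2 (Nat.mul_dvd_mul_left a h)).symm)
    obtain ⟨m, hm'⟩ := exists_pow_eq_self_of_coprime (x := h.Psi F g * h.Phi (τ ^ (a * j))) (n := i)
      (by
        rw [ho]
        refine (hp.coprime_iff_not_dvd.2 ?_).symm
        rintro ⟨i, rfl⟩
        rw [← pow_mul, mul_left_comm, pow_mul, ← h6, pow_orderOf_eq_one, one_pow] at hi
        exact hp.ne_one (by rw [← h6, ← hi, orderOf_one]))
    have h9 : (τ ^ a) ^ p = 1 := h6 ▸ pow_orderOf_eq_one _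
    obtain ⟨h7, e1⟩ := h.pow_eq (τ ^ (a * j)) g i
    rw [show (τ ^ (a * j)) ^ i = τ ^ a by rw [pow_mul, hi]] at e1
    obtain ⟨h8, e2⟩ := h.pow_eq (τ ^ a) ⟨_, h7⟩ p
    rw [← e1, ← pow_mul, mul_comm i, pow_mul, hβ, one_pow, h9, _root_.map_one,
      mul_one, eq_comm, ← (h.Psi F).map_one] at e2
    obtain ⟨x, hx, e3⟩ := h.lang hE ha0 hF (τ := (τ ^ a : F ≃+* F)) (fun x => by
      clear * - hτ
      induction a with
      | zero => simp
      | succ a ih =>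
        rw [pow_succ r, pow_mul, ← ih, ← hτ, pow_succ']; rfl) h7
      (congrArg Subtype.val (h.Psi_inj (hE F) e2))
    have e4 : (h.Psi F ⟨x, hx⟩)⁻¹ * (h.Psi F g * h.Phi (τ ^ (a * j))) * (h.Psi F ⟨x, hx⟩)⁻¹⁻¹ =
        h.Phi ((τ ^ a) ^ m) := by
      rw [← hm', ← conj_pow, e1, map_pow _ (τ ^ a) m, show (⟨_, h7⟩ : GG _) = ⟨x, hx⟩ *
        (⟨_, (h.chev F).map_GG (τ ^ a : F ≃+* F) hx⟩ : GG _)⁻¹ from Subtype.ext e3, _root_.map_mul,
        map_inv, ← h.Phi_Psi (τ ^ a) ⟨x, hx⟩]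
      congr 1
      group
    refine BalG.of_conj (h.Psi F ⟨x, hx⟩)⁻¹ ?_
    rw [e4]
    refine h.balG_of (hE F) ?_ (.inr ?_) ?_
    · rw [← e4, ← ho]; exact (MulAut.conj _).orderOf_eq _
    · exact hE' ▸ ⟨_, E.X_K ((h.chev F).p i₀) 1, fun e => one_ne_zero (E.X_eq_one e), by
        rw [hΦ, _root_.map_one]⟩
    · exact hE' ▸ fun x h1 h2 h3 => Emb.bal_field hpr (by
        rw [← pow_mul, mul_comm, pow_mul, h9, one_pow]) (hΦ _) hconn h1 h2 h3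
  obtain ⟨L, hL, eL⟩ := hcls hθ hρ
  rcases eL ▸ hty L hL with h2 | ⟨h2, h3⟩ | ⟨h2, h3⟩
  · exact absurd (Equiv.ext h2) h1
  swap
  · obtain rfl : p = 3 := by_contra fun h4 => h1 (by
      have := pow_gcd_eq_one.2 ⟨hρp, show ρ ^ 3 = 1 from Equiv.ext h2⟩
      rwa [(Nat.coprime_primes hp Nat.prime_three).2 h4, pow_one] at this)
    exact ⟨(htri h3 rfl).2, fun h => absurd (htri h3 rfl).1 h⟩
  obtain rfl : p = 2 := by_contra fun h4 => h1 (perm_eq_one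
    ((Nat.coprime_primes hp Nat.prime_two).2 h4) hρp (Equiv.ext h2))
  have hd : 2 ∣ Nat.card (D.group F) := by
    obtain ⟨k, hk⟩ := (h.mem_K (hE F)).1 (hE' ▸ E.n_K i₀)
    refine (by_contra fun h4 => ?_ : 2 ∣ orderOf k).trans (orderOf_dvd_natCard k)
    have := E.M1_n i₀ ((h.chev F).p i₀)
    rw [w_p] at this
    refine this.even ?_
    rw [hE', ← hk, orderOf_injective _ fun _ _ => h.conj_inj (hE F)]
    exact (hp.coprime_iff_not_dvd.2 h4).symm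
  refine ⟨?_, fun h => absurd hd h⟩
  rcases h3 with ⟨i, j, h3, h4⟩ | ⟨h3, h4⟩
  · obtain ⟨ε, φ, e1⟩ := (hθ ((h.chev F).p i)).me
    obtain ⟨ε', φ', e2⟩ := (hθ ((h.chev F).p j)).me
    rw [hρ] at e1 e2
    have := e1.rel e2 (-1)
    rw [rt_p, rt_p, hA, hA, Units.val_neg, Units.val_one, map_neg, map_neg, _root_.map_one,
      _root_.map_one, h3.neg_one_zpow, h4.neg_one_zpow] at this
    exact absurd (by rw [← ringChar.eq F r, neg_one_eq_one_iff.1 this]) hpr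
  rw [sq] at hβ
  obtain ⟨k', hk', h5⟩ := Emb.reduce_S hpr.symm hβ hs (by rwa [e, mul_inv_cancel_right]) hθ hρ
    (by simpa only [hA] using h3) (by
      rcases h4 with h4 | h4
      · exact fun j e => absurd e (h4.2 j)
      · simpa only [hA] using h4.2.2.2.2.2)
  obtain ⟨θ', hθ'⟩ := Emb.exists_mon h5
  obtain rfl := hθ'.eq_of_K hθ h5 hs (by
    rw [e, show k' * (k * s) * k'⁻¹ * s⁻¹ = k' * k * (s * k'⁻¹ * s⁻¹) by group]
    exact mul_mem (mul_mem hk' hk) (E.normal_K.conj_mem _ (inv_mem hk') _))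
  have h6 : k' * β * k'⁻¹ * (k' * β * k'⁻¹) = 1 := by rw [conj_mul, hβ]; simp
  refine BalG.of_conj k' (h.balG_of (hE F) (ho ▸ (MulAut.conj _).orderOf_eq _) (.inl hd)
    fun _ _ _ _ => hE' ▸ ?_)
  rcases h4 with h4 | ⟨a1, a2, a3, a4, a5, -⟩
  · exact Emb.bal_pol hpr h5 h6 hθ' (fun i j => (h4.1 i j).imp_right fun e => by rw [hρ, e])
      fun i e => h4.2 i (Emb.p_inj (C := h.chev F) ((hρ i).symm.trans e))
  refine Emb.bal_graph hpr h5 h6 hθ' hρ ⟨by simpa only [hA] using a1, a2,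
    fun r s e => a3 r s (congrFun e), fun τ e1 e2 => ?_, by simpa only [hA] using a5⟩
  obtain ⟨L, hL, e3⟩ := bt_perm hbt τ fun i j => by rw [← hA, ← hA, e1]
  exact e3 ▸ a4 L hL (e3 ▸ e2)

end Tab.Ok

end CfsgH8
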