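import Cfsg.Agent.H8.Chev4

set_option autoImplicit false

namespace CfsgH8

open CfsgH5

/-- a chunk of a loop -/
noncomputable def chunk (k a : ℕ) (f : ℕ → Bool) : Bool :=
  lin k fun i => force (Nat.add (Nat.mul k a) i) f

theorem of_chunks (k m : ℕ) (f : ℕ → Bool) (h : ∀ a < m, chunk k a f = true) :
    ∀ r < k * m, f r = true := by
  intro r hr
  have hk : 0 < k := Nat.pos_of_ne_zero (by rintro rfl; simp at hr)
  have := (lin_iff _ _).1 (h (r / k) (Nat.div_lt_of_lt_mul hr)) (r % k) (Nat.mod_lt _ hk)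
  rw [force_eq] at this
  simpa [Nat.div_add_mod] using this

end CfsgH8
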