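import Cfsg.Agent.H8.TabB2
import Cfsg.Agent.H8.Chev7
import Cfsg.Agent.H8.Chev6

set_option autoImplicit false
set_option maxRecDepth 100000

namespace CfsgH8

open CfsgH5 Cfsg.Lie

theorem ckB2_0_0 : chunk 8 0 (tabB2.c0 chevB2) = true := by decide +kernel

theorem ckB2_0 : ∀ r < 8, tabB2.c0 chevB2 r = true :=
  of_chunks 8 1 _ fun a ha => by
    interval_cases a
    exacts [ckB2_0_0]

theorem ckB2_1_0 : chunk 8 0 (tabB2.c1 chevB2) = true := by decide +kernel

theorem ckB2_1 : ∀ r < 8, tabB2.c1 chevB2 r = true :=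
  of_chunks 8 1 _ fun a ha => by
    interval_cases a
    exacts [ckB2_1_0]

theorem ckB2_6_0 : chunk 8 0 (tabB2.c6 chevB2) = true := by decide +kernel

theorem ckB2_6 : ∀ r < 8, tabB2.c6 chevB2 r = true :=
  of_chunks 8 1 _ fun a ha => by
    interval_cases a
    exacts [ckB2_6_0]

theorem ckB2_2_0 : tabB2.c2 chevB2 (tabB2.si 0) = true ∧ tabB2.c2 chevB2 (tabB2.ng (tabB2.si 0)) = true := by
  constructor <;> decide +kernel

theorem ckB2_3_0 : tabB2.c3 chevB2 0 = true := by decide +kernel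

theorem ckB2_7_0 : tabB2.c7 chevB2 0 = true := by decide +kernel

theorem ckB2_2_1 : tabB2.c2 chevB2 (tabB2.si 1) = true ∧ tabB2.c2 chevB2 (tabB2.ng (tabB2.si 1)) = true := by
  constructor <;> decide +kernel

theorem ckB2_3_1 : tabB2.c3 chevB2 1 = true := by decide +kernel

theorem ckB2_7_1 : tabB2.c7 chevB2 1 = true := by decide +kernel

theorem ckB2_4_0_0 : chunk 8 0 (tabB2.c4 chevB2 0) = true := by decide +kernel

theorem ckB2_4_0 : ∀ r < 8, tabB2.c4 chevB2 0 r = true :=
  of_chunks 8 1 _ fun a ha => by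
    interval_cases a
    exacts [ckB2_4_0_0]

theorem ckB2_4_1_0 : chunk 8 0 (tabB2.c4 chevB2 1) = true := by decide +kernel

theorem ckB2_4_1 : ∀ r < 8, tabB2.c4 chevB2 1 r = true :=
  of_chunks 8 1 _ fun a ha => by
    interval_cases a
    exacts [ckB2_4_1_0]

theorem ckB2_5_0_0 : chunk 8 0 (tabB2.c5 chevB2 0) = true := by decide +kernel

theorem ckB2_5_0 : ∀ r < 8, tabB2.c5 chevB2 0 r = true :=
  of_chunks 8 1 _ fun a ha => by
    interval_cases a
    exacts [ckB2_5_0_0]

theorem ckB2_5_1_0 : chunk 8 0 (tabB2.c5 chevB2 1) = true := by decide +kernel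

theorem ckB2_5_1 : ∀ r < 8, tabB2.c5 chevB2 1 r = true :=
  of_chunks 8 1 _ fun a ha => by
    interval_cases a
    exacts [ckB2_5_1_0]

theorem okB2 : tabB2.Ok chevB2 where
  hl := rfl
  hn := rfl
  h0 := ckB2_0
  h1 := ckB2_1
  h2 := fun i hi => by
    change i < 2 at hi
    interval_cases i
    exacts [ckB2_2_0, ckB2_2_1]
  h3 := fun i hi => by
    change i < 2 at hi
    interval_cases i
    exacts [ckB2_3_0, ckB2_3_1]
  h4 := fun i hi => by
    change i < 2 at hi
    interval_cases i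
    exacts [ckB2_4_0, ckB2_4_1]
  h5 := fun i hi => by
    change i < 2 at hi
    interval_cases i
    exacts [fun _ => ckB2_5_0, fun _ => ckB2_5_1]
  h6 := ckB2_6
  h7 := fun i hi => by
    change i < 2 at hi
    interval_cases i
    exacts [ckB2_7_0, ckB2_7_1]

end CfsgH8
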