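import Cfsg.Agent.H8.TabE7
import Cfsg.Agent.H8.Chev7

set_option autoImplicit false
set_option maxRecDepth 100000

namespace CfsgH8

open CfsgH5 Cfsg.Lie

theorem ckE7_6_0 : chunk 14 0 (tabE7.c6 chevE7) = true := by decide +kernel

theorem ckE7_6_1 : chunk 14 1 (tabE7.c6 chevE7) = true := by decide +kernel

theorem ckE7_6_2 : chunk 14 2 (tabE7.c6 chevE7) = true := by decide +kernel

theorem ckE7_6_3 : chunk 14 3 (tabE7.c6 chevE7) = true := by decide +kernel

theorem ckE7_6_4 : chunk 14 4 (tabE7.c6 chevE7) = true := by decide +kernel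

theorem ckE7_6_5 : chunk 14 5 (tabE7.c6 chevE7) = true := by decide +kernel

theorem ckE7_6_6 : chunk 14 6 (tabE7.c6 chevE7) = true := by decide +kernel

theorem ckE7_6_7 : chunk 14 7 (tabE7.c6 chevE7) = true := by decide +kernel

theorem ckE7_6_8 : chunk 14 8 (tabE7.c6 chevE7) = true := by decide +kernel

theorem ckE7_6 : ∀ r < 126, tabE7.c6 chevE7 r = true :=
  of_chunks 14 9 _ fun a ha => by
    interval_cases a
    exacts [ckE7_6_0, ckE7_6_1, ckE7_6_2, ckE7_6_3, ckE7_6_4, ckE7_6_5, ckE7_6_6, ckE7_6_7, ckE7_6_8]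

theorem ckE7_2_0 : tabE7.c2 chevE7 (tabE7.si 0) = true ∧ tabE7.c2 chevE7 (tabE7.ng (tabE7.si 0)) = true := by
  constructor <;> decide +kernel

theorem ckE7_3_0 : tabE7.c3 chevE7 0 = true := by decide +kernel

theorem ckE7_7_0 : tabE7.c7 chevE7 0 = true := by decide +kernel

theorem ckE7_2_1 : tabE7.c2 chevE7 (tabE7.si 1) = true ∧ tabE7.c2 chevE7 (tabE7.ng (tabE7.si 1)) = true := by
  constructor <;> decide +kernel

theorem ckE7_3_1 : tabE7.c3 chevE7 1 = true := by decide +kernel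

theorem ckE7_7_1 : tabE7.c7 chevE7 1 = true := by decide +kernel

theorem ckE7_2_2 : tabE7.c2 chevE7 (tabE7.si 2) = true ∧ tabE7.c2 chevE7 (tabE7.ng (tabE7.si 2)) = true := by
  constructor <;> decide +kernel

theorem ckE7_3_2 : tabE7.c3 chevE7 2 = true := by decide +kernel

theorem ckE7_7_2 : tabE7.c7 chevE7 2 = true := by decide +kernel

theorem ckE7_2_3 : tabE7.c2 chevE7 (tabE7.si 3) = true ∧ tabE7.c2 chevE7 (tabE7.ng (tabE7.si 3)) = true := by
  constructor <;> decide +kernel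

theorem ckE7_3_3 : tabE7.c3 chevE7 3 = true := by decide +kernel

theorem ckE7_7_3 : tabE7.c7 chevE7 3 = true := by decide +kernel

theorem ckE7_2_4 : tabE7.c2 chevE7 (tabE7.si 4) = true ∧ tabE7.c2 chevE7 (tabE7.ng (tabE7.si 4)) = true := by
  constructor <;> decide +kernel

theorem ckE7_3_4 : tabE7.c3 chevE7 4 = true := by decide +kernel

theorem ckE7_7_4 : tabE7.c7 chevE7 4 = true := by decide +kernel

theorem ckE7_2_5 : tabE7.c2 chevE7 (tabE7.si 5) = true ∧ tabE7.c2 chevE7 (tabE7.ng (tabE7.si 5)) = true := by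
  constructor <;> decide +kernel

theorem ckE7_3_5 : tabE7.c3 chevE7 5 = true := by decide +kernel

theorem ckE7_7_5 : tabE7.c7 chevE7 5 = true := by decide +kernel

theorem ckE7_2_6 : tabE7.c2 chevE7 (tabE7.si 6) = true ∧ tabE7.c2 chevE7 (tabE7.ng (tabE7.si 6)) = true := by
  constructor <;> decide +kernel

theorem ckE7_3_6 : tabE7.c3 chevE7 6 = true := by decide +kernel

theorem ckE7_7_6 : tabE7.c7 chevE7 6 = true := by decide +kernel

end CfsgH8
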