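import Cfsg.Agent.H8.TabE7
import Cfsg.Agent.H8.Chev7

set_option autoImplicit false
set_option maxRecDepth 100000

namespace CfsgH8

open CfsgH5 Cfsg.Lie

theorem ckE7_4_5_0 : chunk 14 0 (tabE7.c4 chevE7 5) = true := by decide +kernel

theorem ckE7_4_5_1 : chunk 14 1 (tabE7.c4 chevE7 5) = true := by decide +kernel

theorem ckE7_4_5_2 : chunk 14 2 (tabE7.c4 chevE7 5) = true := by decide +kernel

theorem ckE7_4_5_3 : chunk 14 3 (tabE7.c4 chevE7 5) = true := by decide +kernel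

theorem ckE7_4_5_4 : chunk 14 4 (tabE7.c4 chevE7 5) = true := by decide +kernel

theorem ckE7_4_5_5 : chunk 14 5 (tabE7.c4 chevE7 5) = true := by decide +kernel

theorem ckE7_4_5_6 : chunk 14 6 (tabE7.c4 chevE7 5) = true := by decide +kernel

theorem ckE7_4_5_7 : chunk 14 7 (tabE7.c4 chevE7 5) = true := by decide +kernel

theorem ckE7_4_5_8 : chunk 14 8 (tabE7.c4 chevE7 5) = true := by decide +kernel

theorem ckE7_4_5 : ∀ r < 126, tabE7.c4 chevE7 5 r = true :=
  of_chunks 14 9 _ fun a ha => by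
    interval_cases a
    exacts [ckE7_4_5_0, ckE7_4_5_1, ckE7_4_5_2, ckE7_4_5_3, ckE7_4_5_4, ckE7_4_5_5, ckE7_4_5_6, ckE7_4_5_7, ckE7_4_5_8]

end CfsgH8
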