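import Cfsg.Agent.H8.CkE7p0
import Cfsg.Agent.H8.CkE7p1
import Cfsg.Agent.H8.CkE7p2
import Cfsg.Agent.H8.CkE7p3
import Cfsg.Agent.H8.CkE7p4
import Cfsg.Agent.H8.CkE7p5
import Cfsg.Agent.H8.CkE7p6
import Cfsg.Agent.H8.CkE7p7
import Cfsg.Agent.H8.CkE7p8
import Cfsg.Agent.H8.CkE7p9
import Cfsg.Agent.H8.Chev6

set_option autoImplicit false
set_option maxRecDepth 100000

namespace CfsgH8

open CfsgH5 Cfsg.Lie

theorem okE7 : tabE7.Ok chevE7 where
  hl := rfl
  hn := rfl
  h0 := ckE7_0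
  h1 := ckE7_1
  h2 := fun i hi => by
    change i < 7 at hi
    interval_cases i
    exacts [ckE7_2_0, ckE7_2_1, ckE7_2_2, ckE7_2_3, ckE7_2_4, ckE7_2_5, ckE7_2_6]
  h3 := fun i hi => by
    change i < 7 at hi
    interval_cases i
    exacts [ckE7_3_0, ckE7_3_1, ckE7_3_2, ckE7_3_3, ckE7_3_4, ckE7_3_5, ckE7_3_6]
  h4 := fun i hi => by
    change i < 7 at hi
    interval_cases i
    exacts [ckE7_4_0, ckE7_4_1, ckE7_4_2, ckE7_4_3, ckE7_4_4, ckE7_4_5, ckE7_4_6]
  h5 := fun i hi => by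
    change i < 7 at hi
    interval_cases i
    exacts [fun _ => ckE7_5_0, fun h => absurd h (by decide +kernel), fun h => absurd h (by decide +kernel), fun h => absurd h (by decide +kernel), fun h => absurd h (by decide +kernel), fun h => absurd h (by decide +kernel), fun h => absurd h (by decide +kernel)]
  h6 := ckE7_6
  h7 := fun i hi => by
    change i < 7 at hi
    interval_cases i
    exacts [ckE7_7_0, ckE7_7_1, ckE7_7_2, ckE7_7_3, ckE7_7_4, ckE7_7_5, ckE7_7_6]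

end CfsgH8
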