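import Cfsg.Agent.H8.TabE8
import Cfsg.Agent.H8.Chev7

set_option autoImplicit false
set_option maxRecDepth 100000

namespace CfsgH8

open CfsgH5 Cfsg.Lie

theorem ckE8_4_3_0 : chunk 24 0 (tabE8.c4 chevE8 3) = true := by decide +kernel

theorem ckE8_4_3_1 : chunk 24 1 (tabE8.c4 chevE8 3) = true := by decide +kernel

theorem ckE8_4_3_2 : chunk 24 2 (tabE8.c4 chevE8 3) = true := by decide +kernel

theorem ckE8_4_3_3 : chunk 24 3 (tabE8.c4 chevE8 3) = true := by decide +kernel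

theorem ckE8_4_3_4 : chunk 24 4 (tabE8.c4 chevE8 3) = true := by decide +kernel

theorem ckE8_4_3_5 : chunk 24 5 (tabE8.c4 chevE8 3) = true := by decide +kernel

theorem ckE8_4_3_6 : chunk 24 6 (tabE8.c4 chevE8 3) = true := by decide +kernel

theorem ckE8_4_3_7 : chunk 24 7 (tabE8.c4 chevE8 3) = true := by decide +kernel

theorem ckE8_4_3_8 : chunk 24 8 (tabE8.c4 chevE8 3) = true := by decide +kernel

theorem ckE8_4_3_9 : chunk 24 9 (tabE8.c4 chevE8 3) = true := by decide +kernel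

theorem ckE8_4_3 : ∀ r < 240, tabE8.c4 chevE8 3 r = true :=
  of_chunks 24 10 _ fun a ha => by
    interval_cases a
    exacts [ckE8_4_3_0, ckE8_4_3_1, ckE8_4_3_2, ckE8_4_3_3, ckE8_4_3_4, ckE8_4_3_5, ckE8_4_3_6, ckE8_4_3_7, ckE8_4_3_8, ckE8_4_3_9]

end CfsgH8
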