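import Cfsg.Agent.H8.CkE8p0
import Cfsg.Agent.H8.CkE8p1
import Cfsg.Agent.H8.CkE8p2
import Cfsg.Agent.H8.CkE8p3
import Cfsg.Agent.H8.CkE8p4
import Cfsg.Agent.H8.CkE8p5
import Cfsg.Agent.H8.CkE8p6
import Cfsg.Agent.H8.CkE8p7
import Cfsg.Agent.H8.CkE8p8
import Cfsg.Agent.H8.CkE8p9
import Cfsg.Agent.H8.CkE8p10
import Cfsg.Agent.H8.Chev6

set_option autoImplicit false
set_option maxRecDepth 100000

namespace CfsgH8

open CfsgH5 Cfsg.Lie

theorem okE8 : tabE8.Ok chevE8 where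
  hl := rfl
  hn := rfl
  h0 := ckE8_0
  h1 := ckE8_1
  h2 := fun i hi => by
    change i < 8 at hi
    interval_cases i
    exacts [ckE8_2_0, ckE8_2_1, ckE8_2_2, ckE8_2_3, ckE8_2_4, ckE8_2_5, ckE8_2_6, ckE8_2_7]
  h3 := fun i hi => by
    change i < 8 at hi
    interval_cases i
    exacts [ckE8_3_0, ckE8_3_1, ckE8_3_2, ckE8_3_3, ckE8_3_4, ckE8_3_5, ckE8_3_6, ckE8_3_7]
  h4 := fun i hi => by
    change i < 8 at hi
    interval_cases i
    exacts [ckE8_4_0, ckE8_4_1, ckE8_4_2, ckE8_4_3, ckE8_4_4, ckE8_4_5, ckE8_4_6, ckE8_4_7]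
  h5 := fun i hi => by
    change i < 8 at hi
    interval_cases i
    exacts [fun _ => ckE8_5_0, fun h => absurd h (by decide +kernel), fun h => absurd h (by decide +kernel), fun h => absurd h (by decide +kernel), fun h => absurd h (by decide +kernel), fun h => absurd h (by decide +kernel), fun h => absurd h (by decide +kernel), fun h => absurd h (by decide +kernel)]
  h6 := ckE8_6
  h7 := fun i hi => by
    change i < 8 at hi
    interval_cases i
    exacts [ckE8_7_0, ckE8_7_1, ckE8_7_2, ckE8_7_3, ckE8_7_4, ckE8_7_5, ckE8_7_6, ckE8_7_7]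

/-- inverse Cartan matrix -/
def invE8 (j i : ℕ) : ℤ := (([[4, 5, 7, 10, 8, 6, 4, 2], [5, 8, 10, 15, 12, 9, 6, 3], [7, 10, 14, 20, 16, 12, 8, 4], [10, 15, 20, 30, 24, 18, 12, 6], [8, 12, 16, 24, 20, 15, 10, 5], [6, 9, 12, 18, 15, 12, 8, 4], [4, 6, 8, 12, 10, 8, 6, 3], [2, 3, 4, 6, 5, 4, 3, 2]] : List (List ℤ)).getD j []).getD i 0

theorem invE8_spec : ∀ j k : Fin chevE8.rank, ∑ i : Fin chevE8.rank, invE8 j i * tabE8.cm i k =
    if j = k then 1 else 0 := by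
  change ∀ j k : Fin 8, ∑ i : Fin 8, invE8 j i * tabE8.cm i k = if j = k then 1 else 0
  decide +kernel

end CfsgH8
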