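import Cfsg.Agent.H8.FoldD4
import Cfsg.Agent.H8.CkB2
import Cfsg.Agent.H8.CkF4
import Cfsg.Agent.H8.CkE6
import Cfsg.Agent.H8.CkE7
import Cfsg.Agent.H8.CkE8

/-! The extra hypotheses (`Chev.Extra`) for all the Chevalley data. -/

set_option autoImplicit false
set_option maxRecDepth 100000

namespace CfsgH8

open CfsgH5 Cfsg.Lie

theorem extraB2' (K : Type*) [Field K] : (okB2.chev K).Extra := okB2.extra K (by decide +kernel)
theorem extraG2' (K : Type*) [Field K] : (okG2.chev K).Extra := okG2.extra K (by decide +kernel)
theorem extraD4' (K : Type*) [Field K] : (okD4.chev K).Extra := okD4.extra K (by decide +kernel)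
theorem extraF4' (K : Type*) [Field K] : (okF4.chev K).Extra := okF4.extra K (by decide +kernel)
theorem extraE6 (K : Type*) [Field K] : (okE6.chev K).Extra := okE6.extra K (by decide +kernel)
theorem extraE7 (K : Type*) [Field K] : (okE7.chev K).Extra := okE7.extra K (by decide +kernel)
theorem extraE8 (K : Type*) [Field K] : (okE8.chev K).Extra := okE8.extra K (by decide +kernel)

end CfsgH8
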