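/-
The finite checks for the seven Chevalley data.
-/
import Cfsg.Agent.H8.CA10
import Cfsg.Agent.H8.ExtraE

set_option autoImplicit false
set_option maxRecDepth 100000
set_option synthInstance.maxSize 100000
set_option synthInstance.maxHeartbeats 400000

namespace CfsgH8

open Cfsg.Lie

theorem ckG2' : tabG2.Ck chevG2 [[0,1],[1,0]] false [0,1] :=
  ⟨by decide +kernel, by decide +kernel, by decide +kernel, by decide +kernel, by decide +kernel⟩

theorem ckB2' : tabB2.Ck chevB2 [[0,1],[1,0]] false [0,1] :=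
  ⟨by decide +kernel, by decide +kernel, by decide +kernel, by decide +kernel, by decide +kernel⟩

theorem ckF4' : tabF4.Ck chevF4 [[0,1,2,3],[3,2,1,0]] false [0,1,2,3] :=
  ⟨by decide +kernel, by decide +kernel, by decide +kernel, by decide +kernel, by decide +kernel⟩

theorem ckD4' : tabD4.Ck chevD4 [[0,1,2,3],[0,1,3,2],[2,1,0,3],[3,1,2,0],[2,1,3,0],[3,1,0,2]] true
    [1,0,1,1] :=
  ⟨by decide +kernel, by decide +kernel, by decide +kernel, by decide +kernel, by decide +kernel⟩

theorem ckE6' : tabE6.Ck chevE6 [[0,1,2,3,4,5],[5,1,4,3,2,0]] false [0,3,1,2,4,5] :=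
  ⟨by decide +kernel, by decide +kernel, by decide +kernel, by decide +kernel, by decide +kernel⟩

theorem ckE7' : tabE7.Ck chevE7 [[0,1,2,3,4,5,6]] false [0,3,1,2,4,5,6] :=
  ⟨by decide +kernel, by decide +kernel, by decide +kernel, by decide +kernel, by decide +kernel⟩

theorem ckE8' : tabE8.Ck chevE8 [[0,1,2,3,4,5,6,7]] false [0,3,1,2,4,5,6,7] :=
  ⟨by decide +kernel, by decide +kernel, by decide +kernel, by decide +kernel, by decide +kernel⟩

end CfsgH8
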