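import Cfsg.Agent.H8.Tri6

set_option autoImplicit false
set_option linter.unusedSimpArgs false
set_option linter.unusedSectionVars false

namespace CfsgH8

open QuadraticMap hiding map_add map_sub map_smul map_zero map_neg sq
open Module Subgroup CfsgH7

theorem exists_hyp_perp {F V : Type*} [Field F] [AddCommGroup V] [Module F V]
    [FiniteDimensional F V] {Q : QuadraticForm F V} (hQ : ND Q) {E : Submodule F V} (hE : MTS Q E)
    (h8 : finrank F V = 8) (u : V) {v : V} (hv : Q v ≠ 0) :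
    ∃ x y, Q x = 0 ∧ Q y = 0 ∧ polar Q x y = 1 ∧ polar Q u x = 0 ∧ polar Q v x = 0 ∧
      polar Q u y = 0 ∧ polar Q v y = 0 := by
  have h1 : finrank F (Submodule.span F {u, v}) ≤ 2 := by
    classical
    exact (finrank_span_le_card ({u, v} : Set V)).trans (by
      simpa using Finset.card_le_two (a := u) (b := v))
  have h2 := hQ.finrank_perp (Submodule.span F {u, v})
  have h3 := Submodule.finrank_sup_add_finrank_inf_eq E (perp Q (Submodule.span F {u, v}))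
  have h4 := Submodule.finrank_le (E ⊔ perp Q (Submodule.span F {u, v}))
  have h5 := hE.2
  obtain ⟨x, hx, hx'⟩ := SetLike.not_le_iff_exists.1
    (show ¬ E ⊓ perp Q (Submodule.span F {u, v}) ≤ Submodule.span F {u, v} from fun h => hv (by
      have := Submodule.eq_of_le_of_finrank_le h (by omega)
      exact hE.1 v ((this.ge (Submodule.subset_span (by simp))).1)))
  obtain ⟨y, h6, h7, h9⟩ := hQ.exists_partner (hE.1 x hx.1) hx' (mem_perp.1 hx.2)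
  exact ⟨x, y, hE.1 x hx.1, h6, h9, mem_perp.1 hx.2 u (Submodule.subset_span (by simp)),
    mem_perp.1 hx.2 v (Submodule.subset_span (by simp)), h7 u (Submodule.subset_span (by simp)),
    h7 v (Submodule.subset_span (by simp))⟩

theorem fix_aux {K H : Type*} [Group K] [Group H] (f : H →* MulAut K) {t : MulAut K} {a b r : H}
    (hr : f r * f r = 1) {k : K} (h : (f a * t * f b) k = k) :
    (t * f r) (f (r * b) k) = f a⁻¹ k := by
  conv_rhs => rw [← h]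
  rw [← MulAut.mul_apply, ← MulAut.mul_apply, _root_.map_mul, map_inv, mul_assoc t,
    ← mul_assoc (f r), hr, one_mul, mul_assoc (f a), inv_mul_cancel_left]

/-- the para-octonions as a cyclic composition -/
def paraCC (F : Type*) [Field F] : CC F (V8 F) :=
  ⟨QP 4 F, 1, ci, fun _ => rfl, ND_QH, ci_al, ci_ar, ci_sl, ci_sr, Q_ci, ci_cyc⟩

theorem balG_ofield' {F V : Type*} [Field F] [AddCommGroup V] [Module F V] {Q : QuadraticForm F V}
    [Finite F] [hB : Big Q] (r : ℕ) [Fact r.Prime] [CharP F r] {p : ℕ} [hp : Fact p.Prime]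
    (hpr : p ≠ r) {φ : Gam Q} (hφ : FT φ) (hord : orderOf φ.σ = p)
    (hy : ∀ (y : MulAut (POm Q)) u v, u ≠ 0 → Q u = 0 → polar Q u v = 0 → Q v ≠ 0 →
      y (pmk Q (sg Q u v)) = pmk Q (sg Q u v) → y ∈ (Phi Q).range) : BalG p (Phi Q φ) := by
  haveI := Big.fd Q
  haveI := Big.nontrivial Q
  refine balG_ofield r hpr hφ hord fun y _ h _ => ?_
  obtain ⟨Q₀, ⟨D⟩⟩ := CfsgH7.exists_desc hφ (fixF φ.σ).subtype (fixF_spec φ.σ)
  haveI := D.big
  obtain ⟨u, v, x, h1, h2, h3, h4⟩ := exists_sieg_data (Big.nd (Q := Q₀))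
    (by have := Big.five (Q := Q₀); omega)
  refine hy y (D.j u) ((D.y : F) • D.j v) (fun e => h4 ?_) (by simpa [h1] using (D.hQ u).symm)
    (by rw [polar_sr, ← D.polar_j, h2, map_zero]) (by simpa [Q_smul] using D.Q_ne h3)
    (h _ (fix_of_commute center_POm ?_))
  · simp [D.inj (e.trans (map_zero _).symm)]
  · rw [conj_pmk, ← _root_.map_mul, ← _root_.map_mul]
    exact congrArg _ (D.commute_of_rel Big.nd (D.rel_sieg h1 h2)).symm

universe u

variable {F : Type u} [Field F] [Finite F]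

theorem th_sg_ne {u v u' v' : V8 F} (h0 : u ≠ 0) (hu : QP 4 F u = 0) (huv : polar (QP 4 F) u v = 0)
    (hv : QP 4 F v ≠ 0) (hu' : QP 4 F u' = 0) (huv' : polar (QP 4 F) u' v' = 0)
    (hv' : QP 4 F v' ≠ 0) : th F (pmk _ (sg _ u v)) ≠ pmk _ (sg _ u' v') := fun h => by
  obtain ⟨δ, ε, h1, -, -, h2⟩ := exists_Tr (γ := ofOG _ (sg (QP 4 F) u v).1)
    ((mem_Dg_QH rfl).1 (sc_Om_le_Dg (ofOG_mem_sc (sg (QP 4 F) u v).2)))
  rw [← conj_pmk, aut_conj_conj, h, conj_pmk] at h2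
  obtain ⟨s, rfl⟩ := Phi_eq_iff h2.symm
  have key : ∀ x, QP 4 F x = 0 → polar (QP 4 F) u' x = 0 → polar (QP 4 F) v' x = 0 → ci u x = 0 :=
    fun x q1 q2 q3 => ND_QH.eq_zero fun y => by
      have h3 := h1 x y
      rw [Gam.mul_T, ofOG_T, ofOG_T, sg_coe, sg_coe, sieg_apply hu huv, sieg_apply hu' huv', q2, q3,
        scal_T] at h3
      have h4 : ci x ((s : F) • ε.T y + (-1 : F) • y) =
          (polar (QP 4 F) v (ci x y) - QP 4 F v * polar (QP 4 F) u (ci x y)) • u -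
            polar (QP 4 F) u (ci x y) • v := by
        simp only [zero_smul, mul_zero, add_zero, sub_zero, ci_sl] at h3
        rw [ci_ar, ci_sr, ci_sr, ← h3]
        module
      have h5 := congrArg (QP 4 F) h4
      rw [Q_ci, q1, Q_sub, Q_smul, Q_smul, polar_sl, polar_sr, hu, huv] at h5
      rw [ci_cyc]
      simpa [hv, pcomm u] using h5
  obtain ⟨x, y, q1, q2, q3, q4, q5, q6, q7⟩ := exists_hyp_perp ND_QH MTS_stdE (by simp) u' hv'
  exact one_ne_zero (q3.symm.trans (CC.kerL (C := paraCC F) h0 (key x q1 q4 q5) (key y q2 q6 q7)))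

theorem mem_range_of_fix (y : MulAut (POm (QP 4 F))) (u v : V8 F) (h0 : u ≠ 0) (hu : QP 4 F u = 0)
    (huv : polar (QP 4 F) u v = 0) (hv : QP 4 F v ≠ 0)
    (h : y (pmk _ (sg _ u v)) = pmk _ (sg _ u v)) : y ∈ (Phi _).range := by
  rcases aut_O8 y with ⟨γ, rfl⟩ | ⟨γ, δ, rfl⟩
  · exact ⟨γ, rfl⟩
  replace h : th F (Phi _ (oρ F * δ) _) = _ :=
    fix_aux (Phi _) (inv_eq_iff_mul_eq_one.1 Phi_oρ_inv) h
  rw [Phi_sg, Phi_sg] at h
  refine absurd h (th_sg_ne ?_ ?_ ?_ ?_ ?_ ?_ ?_) <;>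
    simp only [Ne, SIso.T_eq_zero, SIso.Q_eq_zero, polar_sr, SIso.polar_eq_zero, mul_eq_zero,
      Q_smul, h0, hu, huv, hv, or_true, not_false_eq_true, or_false, pow_eq_zero_iff two_ne_zero,
      inv_eq_zero, Units.ne_zero]

theorem balG_Phi {m : ℕ} [Fact (3 ≤ m)] (r : ℕ) [Fact r.Prime] [CharP F r] {p : ℕ}
    [hp : Fact p.Prime] (hpr : p ≠ r)
    (hy : ∀ (y : MulAut (POm (QP m F))) u v, u ≠ 0 → QP m F u = 0 → polar (QP m F) u v = 0 →
      QP m F v ≠ 0 → y (pmk _ (sg _ u v)) = pmk _ (sg _ u v) → y ∈ (Phi _).range)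
    (he : Even m ∨ Function.Surjective (Phi (QP m F))) {γ : Gam (QP m F)} (hD : γ ∉ Dg _)
    (ho : orderOf (Phi _ γ) = p) : BalG p (Phi _ γ) ∧ (p = 2 ∨ ∃ φ : Gam (QP m F), FT φ ∧ φ.σ ≠ 1 ∧
      cls MTS_stdE φ = 1 ∧ Phi _ φ = Phi _ γ) := by
  have hn := MTS_even (MTS_stdE (κ := Fin m) (F := F))
  by_cases hγ : γ.σ = 1
  · obtain rfl := eq_two_of_not_mem_Dg hp.out hγ hD ho
    refine ⟨?_, Or.inl rfl⟩
    rcases inv_cases r hpr.symm hn hγ hD ho with ⟨s, h1, h2, e⟩ | ⟨h1, h2⟩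
    · exact e ▸ balG_iso r hpr.symm hn h1 h2 hy
    rcases he with he | he
    · refine absurd ⟨hγ, fun _ => ⟨fun _ => ?_,
        fun h => absurd h (two_ne_zero_of_char r hpr.symm)⟩⟩ hD
      rw [detG_eq hγ (γ.lin hγ).toLinearMap fun _ => rfl, det_sq_nonsq h2 (k := m)
        (LinearMap.ext fun v => congrArg (fun γ : Gam (QP m F) => γ.T v) h1) (by simp; ring),
        he.neg_pow]
      congr 1
      simp
      omega
    · exact balG_ext r hpr.symm hn hγ h1 h2 he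
  obtain ⟨b, hb⟩ := exists_FT_of_prime _ (fun _ => Phi_eq_one_iff) hγ (ho ▸ hp.out)
  have e : Phi _ (scal _ b * γ) = Phi _ γ := by rw [_root_.map_mul, Phi_scal, one_mul]
  refine ⟨e ▸ balG_ofield' r hpr hb (by
    rw [← orderOf_Phi _ (fun _ => Phi_eq_one_iff) hb, e, ho]) hy, ?_⟩
  refine or_iff_not_imp_left.2 fun h2 => ⟨_, hb, by simpa using hγ, ?_, e⟩
  obtain ⟨a, ha⟩ := Phi_eq_one_iff.1 (show Phi _ (γ ^ p) = 1 by
    rw [map_pow, ← ho, pow_orderOf_eq_one])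
  have := congrArg (cls MTS_stdE) ha
  rw [map_pow, cls_scal, Int.units_pow_eq_pow_mod_two, Nat.odd_iff.1 (hp.out.odd_of_ne_two h2),
    pow_one] at this
  rw [_root_.map_mul, cls_scal, this, one_mul]

theorem S3_cases {G : Type*} [Group G] (π : G →* Equiv.Perm (Fin 3)) {t r x : G}
    (p1 : π t = Equiv.swap 0 1) (p2 : π r = Equiv.swap 1 2) {p : ℕ} (hp : p.Prime)
    (hx : orderOf x = p) : π x = 1 ∨ (p = 2 ∧ ∃ a, π (a * x * a⁻¹ * r) = 1) ∨
      (p = 3 ∧ (π (x * (t * r)⁻¹) = 1 ∨ π (x⁻¹ * (t * r)⁻¹) = 1)) := by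
  have h1 : ∀ k : ℕ, k.Prime → π x ≠ 1 → π x ^ k = 1 → p = k := fun k hk h h' => by
    by_contra hne
    exact h (eq_one_of_pow_coprime (((Nat.coprime_primes hp hk).2 hne).coprime_dvd_left
      (hx ▸ orderOf_map_dvd π x)) h')
  have h2 : ∀ u : Equiv.Perm (Fin 3), u = 1 ∨ (u ≠ 1 ∧ u ^ 2 = 1 ∧ (u * π r = 1 ∨
      π t * π r * u * (π t * π r)⁻¹ * π r = 1 ∨ π t * u * (π t)⁻¹ * π r = 1)) ∨
      (u ≠ 1 ∧ u ^ 3 = 1 ∧ (u * (π t * π r)⁻¹ = 1 ∨ u⁻¹ * (π t * π r)⁻¹ = 1)) := by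
    rw [p1, p2]
    decide
  rcases h2 (π x) with h | ⟨h3, h4, h⟩ | ⟨h3, h4, h⟩
  · exact Or.inl h
  · refine Or.inr (Or.inl ⟨h1 2 Nat.prime_two h3 h4, ?_⟩)
    rcases h with h | h | h
    · exact ⟨1, by simpa using h⟩
    · exact ⟨t * r, by simpa only [_root_.map_mul, map_inv] using h⟩
    · exact ⟨t, by simpa only [_root_.map_mul, map_inv] using h⟩
  · exact Or.inr (Or.inr ⟨h1 3 Nat.prime_three h3 h4, by simpa only [_root_.map_mul, map_inv] using h⟩)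

theorem BalG.of_inv {K : Type*} [Group K] {p : ℕ} {x : MulAut K} (h : BalG p x⁻¹) : BalG p x := by
  have e : ∀ k, x⁻¹ k = k ↔ x k = k := fun k => by
    rw [MulAut.inv_def, MulEquiv.symm_apply_eq, eq_comm]
  obtain ⟨⟨k, h1, h2⟩, h3⟩ := h
  refine ⟨⟨k, h1, (e k).1 h2⟩, fun hd N h4 h5 h6 => h3 hd N (fun y hy => ?_) h5
    fun k hk => h6 k ((e k).1 hk)⟩
  exact mem_centralizer_singleton_iff.2
    (show Commute y x from mem_centralizer_singleton_iff.1 (h4 hy)).inv_right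

theorem balG_plus {m : ℕ} (hm : 4 ≤ m) [Fact (3 ≤ m)] (r : ℕ) [Fact r.Prime] [CharP F r] {p : ℕ}
    [hp : Fact p.Prime] (hpr : p ≠ r) {x : MulAut (POm (QP m F))} (ho : orderOf x = p)
    (hx : ∀ γ ∈ Dg (QP m F), Phi _ γ ≠ x) : BalG p x ∧ (¬ p ∣ Nat.card (POm (QP m F)) →
      ∃ φ : Gam (QP m F), FT φ ∧ φ.σ ≠ 1 ∧ cls MTS_stdE φ = 1 ∧ Phi _ φ = x) := by
  rcases hm.eq_or_lt with rfl | hm
  swap
  · obtain ⟨γ, rfl⟩ := Phi_surj_QP hm x
    obtain ⟨h1, h2⟩ := balG_Phi r hpr (fun y _ _ _ _ _ _ _ => Phi_surj_QP hm y)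
      (Or.inr (Phi_surj_QP hm)) (fun h => hx γ h rfl) ho
    exact ⟨h1, fun h => h2.resolve_left fun e => h (e ▸ two_dvd_POm)⟩
  obtain ⟨π, p1, p2, p3⟩ := exists_S3 (F := F)
  rcases S3_cases π p1 p2 hp.out ho with h | ⟨rfl, a, h⟩ | ⟨rfl, h | h⟩
  · obtain ⟨γ, -, rfl⟩ := (p3 x).1 h
    obtain ⟨h1, h2⟩ := balG_Phi r hpr mem_range_of_fix (Or.inl (by decide)) (fun h => hx γ h rfl) ho
    exact ⟨h1, fun h => h2.resolve_left fun e => h (e ▸ two_dvd_POm)⟩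
  · obtain ⟨γ, h1, h2⟩ := (p3 _).1 h
    have h3 : Phi _ (γ * oρ F) = a * x * a⁻¹ := by
      rw [_root_.map_mul, h2, mul_assoc, inv_eq_iff_mul_eq_one.1 Phi_oρ_inv, mul_one]
    refine ⟨BalG.of_conj a (h3 ▸ (balG_Phi r hpr mem_range_of_fix (Or.inl (by decide))
      (fun h => ?_) ?_).1), fun h => absurd two_dvd_POm h⟩
    · have := (mem_Dg_QH h.1).1 h
      rw [_root_.map_mul, h1, cls_oρ] at this
      exact absurd this (by decide)
    · rw [h3, ← ho]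
      exact (MulAut.conj a).orderOf_eq x
  · obtain ⟨γ, h1, h2⟩ := (p3 _).1 h
    obtain rfl : x = Phi _ γ * th F := mul_inv_eq_iff_eq_mul.1 h2.symm
    obtain ⟨h3, h4⟩ := balG_tri r hpr h1 (ho ▸ pow_orderOf_eq_one _)
    exact ⟨h3, fun h => absurd h4 h⟩
  · obtain ⟨γ, h1, h2⟩ := (p3 _).1 h
    have e : x⁻¹ = Phi _ γ * th F := mul_inv_eq_iff_eq_mul.1 h2.symm
    obtain ⟨h3, h4⟩ := balG_tri r hpr h1 (e ▸ (inv_pow x 3).trans
      (inv_eq_one.2 (ho ▸ pow_orderOf_eq_one x)))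
    exact ⟨BalG.of_inv (e ▸ h3), fun h => absurd h4 h⟩

end CfsgH8
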