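/-
The Chevalley group of type `D₄` is the projective orthogonal group `PΩ₈⁺`.
-/
import Cfsg.Agent.H8.CK11
import Cfsg.Agent.H8.Tri7

set_option autoImplicit false
set_option linter.unusedSectionVars false
set_option maxRecDepth 100000

namespace CfsgH8

open QuadraticMap hiding map_add map_sub map_smul map_zero map_neg sq
open Matrix CfsgH7 Cfsg.Lie Subgroup

section gen

variable {κ : Type} {F : Type*} [Fintype κ] [DecidableEq κ] [Field F]

theorem polar_bas (k : κ ⊕ κ) (c : F) (x : κ ⊕ κ → F) :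
    polar (QH κ F) (Pi.single k c) x = c * x k.swap := by
  rcases k with k | k
  exacts [polar_QH_inl k c x, polar_QH_inr k c x]

theorem Q_bas (k : κ ⊕ κ) (c : F) : QH κ F (Pi.single k c) = 0 := by
  rcases k with k | k
  exacts [QH_inl k c, QH_inr k c]

variable {H : Subgroup (OG (QH κ F))}

theorem sieg_bas (hH : ∀ k l : κ ⊕ κ, l ≠ k → l ≠ k.swap → ∀ t : F,
    sieg (QH κ F) (Pi.single k 1) (Pi.single l t) ∈ H) (k : κ ⊕ κ) (v : κ ⊕ κ → F) :
    sieg (QH κ F) (Pi.single k 1) v ∈ H := by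
  by_cases h : polar (QH κ F) (Pi.single k 1) v = 0
  swap
  · rw [sieg_of_not fun e => h e.2]; exact one_mem _
  rw [← Finset.univ_sum_single v]
  refine (Finset.sum_induction _ (fun w => polar (QH κ F) (Pi.single k 1) w = 0 ∧
    sieg (QH κ F) (Pi.single k 1) w ∈ H) (fun a b ha hb => ⟨by simp [ha.1, hb.1], ?_⟩)
    ⟨by simp, by simp⟩ fun l _ => ?_).2
  · rw [sieg_add (Q_bas k 1) ha.1 hb.1]; exact mul_mem ha.2 hb.2
  rw [polar_bas, one_mul] at h
  by_cases h1 : l = k.swap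
  · simp [h1, h]
  refine ⟨by rw [polar_bas, Pi.single_eq_of_ne (Ne.symm h1), mul_zero], ?_⟩
  by_cases h2 : l = k
  · rw [h2, show (Pi.single k (v k) : κ ⊕ κ → F) = v k • Pi.single k 1 by
      rw [← Pi.single_smul, smul_eq_mul, mul_one], sieg_smul_self (Q_bas k 1)]
    exact one_mem _
  exact hH k l h2 h1 _

theorem sieg_step (hH : ∀ k v, sieg (QH κ F) (Pi.single k 1) v ∈ H) {x : κ ⊕ κ → F} {k l : κ ⊕ κ}
    (h : x l ≠ 0) (h1 : l ≠ k) (h2 : l ≠ k.swap) : ∃ g ∈ H, g.1 x k = 1 := by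
  refine ⟨_, hH k (Pi.single l.swap ((1 - x k) / x l)), ?_⟩
  rw [sieg_apply (Q_bas k 1) (by
    rw [polar_bas, Pi.single_eq_of_ne (fun e => h1 (Sum.swap_leftInverse.injective e).symm), mul_zero])]
  have : k ≠ l.swap := fun e => h2 (by simp [e])
  simp [polar_bas, Q_bas, this, div_mul_cancel₀ _ h]

theorem sieg_trans (hH : ∀ k v, sieg (QH κ F) (Pi.single k 1) v ∈ H) (i : κ)
    (hκ : ∀ l : κ ⊕ κ, ∃ k, l ≠ k ∧ l ≠ k.swap ∧ k ≠ .inl i ∧ k ≠ .inr i) {x : κ ⊕ κ → F}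
    (h : x ≠ 0) : ∃ g ∈ H, g.1 x = Pi.single (.inl i) 1 + QH κ F x • Pi.single (.inr i) 1 := by
  obtain ⟨l, hl⟩ := Function.ne_iff.1 h
  obtain ⟨k, h1, h2, h3, h4⟩ := hκ l
  obtain ⟨g1, m1, e1⟩ := sieg_step hH hl h1 h2
  obtain ⟨g2, m2, e2⟩ := sieg_step hH (e1 ▸ one_ne_zero : g1.1 x k ≠ 0) h3 h4
  obtain ⟨y, hy⟩ : ∃ y, y = (g2 * g1).1 x := ⟨_, rfl⟩
  have e3 : y (.inl i) = 1 := hy ▸ e2
  obtain ⟨c, hc⟩ : ∃ c : F, (sieg (QH κ F) (Pi.single (.inr i) 1)
      (y - Pi.single (Sum.inl i) 1)).1 y = Pi.single (Sum.inl i) 1 + c • Pi.single (Sum.inr i) 1 := by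
    refine ⟨polar (QH κ F) (y - Pi.single (.inl i) 1) y - QH κ F (y - Pi.single (.inl i) 1), ?_⟩
    rw [sieg_apply (Q_bas _ 1) (by rw [polar_bas]; simp [e3]), polar_bas, Sum.swap_inr, e3]
    module
  refine ⟨_ * (g2 * g1), mul_mem (hH (.inr i) (y - Pi.single (.inl i) 1)) (mul_mem m2 m1), ?_⟩
  have e4 := congrArg (QH κ F) hc
  rw [mem_OG.1 (Subtype.prop _), Q_add, Q_smul, polar_sr, polar_bas, Q_bas, Q_bas, hy,
    mem_OG.1 (Subtype.prop _)] at e4
  rw [e4]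
  simpa [hy] using hc

theorem Om_le_of (hG : Good (QH κ F)) (i : κ)
    (hκ : ∀ l : κ ⊕ κ, ∃ k, l ≠ k ∧ l ≠ k.swap ∧ k ≠ .inl i ∧ k ≠ .inr i)
    (hH : ∀ k v, sieg (QH κ F) (Pi.single k 1) v ∈ H) : Om (QH κ F) ≤ H := by
  let S : Subgroup (OG (QH κ F)) := closure {g | ∃ u v, g = sieg (QH κ F) u v}
  have hS : ∀ u v, sieg (QH κ F) u v ∈ S := fun u v => subset_closure ⟨u, v, rfl⟩
  haveI : S.Normal := ⟨fun n hn g => by
    refine (show S ≤ S.comap (MulAut.conj g).toMonoidHom from (closure_le _).2 ?_) hn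
    rintro _ ⟨u, v, rfl⟩
    change g * _ * g⁻¹ ∈ S
    exact (sieg_conj g u v).symm ▸ hS _ _⟩
  refine le_trans (b := S) ?_ ((closure_le _).2 ?_)
  · have key : ∀ g, QuotientGroup.mk' S g ∈ center _ := by
      refine mem_of_refl ND_QH hG ((center _).comap (QuotientGroup.mk' S)) fun v hv => ?_
      have h1 : ∀ w, QH κ F w = QH κ F v → QuotientGroup.mk' S (refl _ w) = QuotientGroup.mk' S
          (refl _ (Pi.single (.inl i) 1 + QH κ F v • Pi.single (.inr i) 1)) := fun w hw => by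
        obtain ⟨g, hg, e⟩ := sieg_trans (fun k v => hS _ v) i hκ (x := w) (by
          rintro rfl; exact hv (by simp [← hw]))
        rw [← hw, ← e, ← refl_conj, _root_.map_mul, _root_.map_mul, map_inv,
          show QuotientGroup.mk' S g = 1 from (QuotientGroup.eq_one_iff g).2 hg]
        simp
      refine mem_center_iff.2 fun g => ?_
      obtain ⟨g, rfl⟩ := QuotientGroup.mk'_surjective S g
      rw [← mul_inv_eq_iff_eq_mul, ← map_inv, ← _root_.map_mul, ← _root_.map_mul, refl_conj,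
        h1 _ (mem_OG.1 g.2 v), h1 v rfl]
    refine commutator_le.2 fun a _ b _ => (QuotientGroup.eq_one_iff _).1 ?_
    change QuotientGroup.mk' S _ = 1
    rw [map_commutatorElement, commutatorElement_eq_one_iff_mul_comm]
    exact mem_center_iff.1 (key b) _
  · rintro _ ⟨u, v, rfl⟩
    by_cases h : QH κ F u = 0 ∧ polar (QH κ F) u v = 0
    swap
    · rw [sieg_of_not h]; exact one_mem _
    by_cases h0 : u = 0
    · rw [show sieg (QH κ F) u v = 1 from OG.ext' fun x => by rw [sieg_apply h.1 h.2]; simp [h0]]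
      exact one_mem _
    obtain ⟨g, hg, e⟩ := sieg_trans hH i hκ h0
    rw [h.1, zero_smul, add_zero] at e
    have := hH (.inl i) (g.1 v)
    rw [← e, ← sieg_conj] at this
    simpa [mul_assoc] using mul_mem (mul_mem (inv_mem hg) this) hg

end gen

section rp

variable {ι F : Type*} [Field F] [Fintype ι] {code : ι → ℕ} {N : ℕ} {t u : F}

theorem Rp.add {M M' : Matrix ι ι F} {φ φ' : List En → List En} (h : Rp code N t u M φ)
    (h' : Rp code N t u M' φ') : Rp code N t u (M + M') fun v => φ v ++ φ' v := fun v hv =>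
  ⟨fun e he => (List.mem_append.1 he).elim ((h v hv).1 e) ((h' v hv).1 e), by
    rw [add_mulVec, valL_append, (h v hv).2, (h' v hv).2]⟩

/-- multiplication by a monomial -/
def shf (m : ℤ) (k : ℕ) (v : List En) : List En := v.map fun e => ⟨e.r, e.a + k, e.b, m * e.d⟩

theorem Rp.smul {M : Matrix ι ι F} {φ : List En → List En} (h : Rp code N t u M φ) (m : ℤ) (k : ℕ) :
    Rp code N t u (((m : F) * t ^ k) • M) fun v => shf m k (φ v) := fun v hv =>
  ⟨fun e he => by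
    obtain ⟨e', he', rfl⟩ := List.mem_map.1 he
    exact (h v hv).1 e' he', by
    simp only [shf]
    rw [smul_mulVec, (h v hv).2, valL, valL, List.smul_sum, List.map_map, List.map_map]
    congr 1
    refine List.map_congr_left fun q _ => ?_
    simp only [Function.comp, smul_smul]
    congr 1
    push_cast
    ring⟩

theorem Rp.sum {M : ℕ → Matrix ι ι F} {φ : ℕ → List En → List En} (L : List Ce)
    (h : ∀ q ∈ L, Rp code N t u (M q.r) (φ q.r)) :
    Rp code N t u (L.map fun q => ((q.m : F) * t ^ q.k) • M q.r).sum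
      fun v => L.flatMap fun q => shf q.m q.k (φ q.r v) := by
  induction L with
  | nil => exact fun v _ => ⟨by simp, by simp [valL]⟩
  | cons q L ih =>
    exact ((h q List.mem_cons_self).smul q.m q.k).add
      (ih fun q hq => h q (List.mem_cons_of_mem _ hq))

end rp

namespace D4

/-- numbering of the natural basis -/
def c8 : Fin 4 ⊕ Fin 4 → ℕ := Sum.elim (fun i => i) fun i => 4 + i
def k8 (n : ℕ) : Fin 4 ⊕ Fin 4 := if n < 4 then .inl (Fin.ofNat 4 n) else .inr (Fin.ofNat 4 n)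
def ra (r : ℕ) : ℕ :=
  [5, 6, 3, 7, 4, 1, 5, 5, 5, 2, 3, 7, 2, 2, 1, 3, 7, 2, 0, 6, 0, 0, 0, 0].getD r 0
def rb (r : ℕ) : ℕ :=
  [4, 4, 4, 4, 2, 4, 6, 3, 7, 5, 6, 6, 3, 7, 6, 1, 1, 1, 5, 0, 3, 7, 2, 1].getD r 0
def hd (n c : ℕ) : ℤ := ([[1, -1, 0, 0, -1, 1, 0, 0], [0, 1, -1, 0, 0, -1, 1, 0],
  [0, 0, 1, -1, 0, 0, -1, 1], [0, 0, 1, 1, 0, 0, -1, -1]].getD n []).getD c 0
def colY (a b c : ℕ) : List Ce :=
  if c = (b + 4) % 8 then [⟨a, 1, 1⟩] else if c = (a + 4) % 8 then [⟨b, 1, -1⟩] else []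
def col8 (n c : ℕ) : List Ce := if n < 4 then [⟨c, 0, hd n c⟩] else colY (ra (n - 4)) (rb (n - 4)) c
noncomputable def ap8 (n : ℕ) : List En → List En := appN (col8 n)
noncomputable def yy (r : ℕ) (v : List En) : List En := v ++ shf 1 1 (ap8 (4 + r) v)

theorem ck8 : ∀ r < 24, ∀ n < 28, ∀ c < 8,
    eqV (ap8 n (yy r [⟨c, 0, 0, 1⟩]) ++ (tabD4.colF chevD4 r n).flatMap fun q =>
      shf q.m q.k (ap8 q.r (yy r [⟨c, 0, 0, 1⟩]))) (yy r (ap8 n [⟨c, 0, 0, 1⟩])) = true := by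
  decide +kernel

theorem c8_inj : Function.Injective c8 := by decide
theorem c8_swap : ∀ k, c8 k.swap = (c8 k + 4) % 8 := by decide
theorem root8 : ∀ r < 24, c8 (k8 (ra r)) = ra r ∧ c8 (k8 (rb r)) = rb r ∧ k8 (rb r) ≠ k8 (ra r) ∧
    k8 (rb r) ≠ (k8 (ra r)).swap := by decide +kernel
theorem root8' : ∀ k l : Fin 4 ⊕ Fin 4, l ≠ k → l ≠ k.swap → ∃ r < 24,
    (k8 (ra r) = k ∧ k8 (rb r) = l) ∨ k8 (ra r) = l ∧ k8 (rb r) = k := by decide +kernel

variable (F : Type*) [Field F]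

/-- the matrices of the natural representation -/
noncomputable def M8 (n : ℕ) : Matrix (Fin 4 ⊕ Fin 4) (Fin 4 ⊕ Fin 4) F := NM F c8 (col8 n)

theorem rp8 (t : F) {n : ℕ} (hn : n < 28) : Rp c8 8 t t (M8 F n) (ap8 n) :=
  rp_NM c8_inj (by decide) ((by decide +kernel : ∀ n < 28, ∀ c < 8, ∀ q ∈ col8 n c, q.r < 8) n hn)

/-- the natural representation of the Lie algebra -/
noncomputable def rho8 : (chevD4.Idx → F) →ₗ[F] Matrix (Fin 4 ⊕ Fin 4) (Fin 4 ⊕ Fin 4) F :=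
  ∑ i, (LinearMap.proj i).smulRight (M8 F (codeD chevD4 i))

theorem rho8_bas {n : ℕ} (hn : n < 28) : rho8 F (bas F (codeD chevD4) n) = M8 F n := by
  obtain ⟨i, rfl⟩ := codeD_surj chevD4 n hn
  simp [rho8, bas, (codeD_inj chevD4).eq_iff, -Fintype.sum_sum_type]

/-- the root elements of the orthogonal group -/
noncomputable def y8 (r : ℕ) (t : F) : Om (QP 4 F) :=
  sg _ (Pi.single (k8 (ra r)) 1) (Pi.single (k8 (rb r)) t)

variable {F}

theorem NM_colY {a b : Fin 4 ⊕ Fin 4} (h : b ≠ a) :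
    NM F c8 (colY (c8 a) (c8 b)) = single a b.swap 1 - single b a.swap 1 := by
  ext i j
  have : b.swap ≠ a.swap := fun e => h (Sum.swap_leftInverse.injective e)
  simp only [NM, colY, ← c8_swap, c8_inj.eq_iff, of_apply, Matrix.sub_apply, single]
  by_cases h1 : j = b.swap
  · simp [h1, bas, c8_inj.eq_iff, this.symm, @eq_comm _ i]
  by_cases h2 : j = a.swap
  · simp [h2, bas, c8_inj.eq_iff, this, this.symm, @eq_comm _ i]
  simp [h1, h2, Ne.symm h1, Ne.symm h2]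

theorem y8_apply {r : ℕ} (hr : r < 24) (t : F) (v : V8 F) :
    (y8 F r t).1.1 v = (1 + t • M8 F (4 + r)) *ᵥ v := by
  obtain ⟨h1, h2, h3, h4⟩ := root8 r hr
  have := NM_colY (F := F) h3
  rw [h1, h2] at this
  rw [y8, sg_coe, sieg_apply (Q_bas _ _) (by rw [polar_bas, Pi.single_eq_of_ne h4.symm, mul_zero]),
    M8, show col8 (4 + r) = colY (ra r) (rb r) from funext fun c => by simp [col8],
    this, polar_bas, polar_bas, Q_bas, add_mulVec, smul_mulVec, sub_mulVec, single_mulVec,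
    single_mulVec]
  ext k
  simp only [Pi.add_apply, Pi.sub_apply, Pi.smul_apply, Pi.single_apply, Function.update_apply,
    one_mulVec, smul_eq_mul, Pi.zero_apply]
  split_ifs <;> ring

theorem x_y8 (r : Fin chevD4.nroots) (t : F) (X : chevD4.Idx → F) (v : V8 F) :
    rho8 F (((okD4.chev F).x r t : Matrix _ _ F) *ᵥ X) *ᵥ (y8 F r t).1.1 v =
      (y8 F r t).1.1 (rho8 F X *ᵥ v) := by
  rw [y8_apply r.2, y8_apply r.2, mulVec_mulVec, mulVec_mulVec]
  congr 1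
  have hy : Rp c8 8 t t (1 + t • M8 F (4 + r)) (yy r) := by
    have := Rp.one.add ((rp8 F t (n := 4 + r) (Nat.add_lt_add_left r.2 4)).smul 1 1)
    rwa [Int.cast_one, one_mul, pow_one] at this
  have key : ∀ i, rho8 F (((okD4.chev F).x r t : Matrix _ _ F) *ᵥ Pi.single i 1) *
      (1 + t • M8 F (4 + r)) = (1 + t • M8 F (4 + r)) * rho8 F (Pi.single i 1) := fun i => by
    have e : Pi.single i 1 = bas F (codeD chevD4) (codeD chevD4 i) := by
      ext k; simp [bas, (codeD_inj chevD4).eq_iff, Pi.single_apply]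
    have hi : codeD chevD4 i < 28 := codeD_lt chevD4 i
    obtain ⟨h1, h2⟩ := okD4.colX F r.2 t _ hi
    rw [e, okD4.chev_x, h2, map_add, map_list_sum, List.map_map, rho8_bas F hi,
      List.map_congr_left (g := fun q => ((q.m : F) * t ^ q.k) • M8 F q.r) fun q hq => by
        rw [Function.comp, map_smul, rho8_bas F (h1 q hq)]]
    exact Rp.eq c8_inj (by decide) (((rp8 F t hi).add
      (Rp.sum _ fun q hq => rp8 F t (h1 q hq))).mul hy) (hy.mul (rp8 F t hi)) (ck8 r r.2 _ hi)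
  rw [← Finset.univ_sum_single X]
  simp only [mulVec_sum, map_sum, Finset.sum_mul, Finset.mul_sum]
  refine Finset.sum_congr rfl fun i _ => ?_
  rw [show Pi.single i (X i) = X i • (Pi.single i 1 : _ → F) by
    rw [← Pi.single_smul, smul_eq_mul, mul_one], mulVec_smul, map_smul, map_smul, smul_mul, key,
    Matrix.mul_smul]

theorem y8_gen {H : Subgroup (Om (QP 4 F))} (h : ∀ r < 24, ∀ t, y8 F r t ∈ H) : H = ⊤ := by
  refine eq_top_iff.2 fun g _ => (mem_map_iff_mem (Om _).subtype_injective).1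
    (Om_le_of Big.good 0 (by decide) (sieg_bas fun k l h1 h2 t => ?_) g.2)
  obtain ⟨r, hr, ⟨rfl, rfl⟩ | ⟨rfl, rfl⟩⟩ := root8' k l h1 h2
  · exact ⟨_, h r hr t, rfl⟩
  refine ⟨_, h r hr (-t), ?_⟩
  have e : ∀ (k : Fin 4 ⊕ Fin 4) (t : F), Pi.single k t = t • (Pi.single k 1 : V8 F) := fun k t => by
    rw [← Pi.single_smul, smul_eq_mul, mul_one]
  have e1 : polar (QP 4 F) (Pi.single (k8 (ra r)) 1) (Pi.single (k8 (rb r)) 1) = 0 := by
    rw [polar_bas, Pi.single_eq_of_ne (root8 r hr).2.2.2.symm, mul_zero]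
  rw [e _ t, ← sieg_smul_left (Q_bas _ _) (by rw [pcomm, e1]), sieg_swap (Q_bas _ _)
    (by rw [← e, Q_bas]) (by rw [polar_sr, e1, mul_zero]), ← neg_smul, ← e]
  rfl

theorem iso8 [Finite F] (hK : IsSimpleGroup (chevD4.group F)) :
    Nonempty (chevD4.group F ≃* POm (QP 4 F)) := by
  let Γ₀ : Subgroup (chevD4.group F × Om (QP 4 F)) :=
    { carrier := {p | ∀ X v, rho8 F ((p.1.1 : Matrix _ _ F) *ᵥ X) *ᵥ p.2.1.1 v =
        p.2.1.1 (rho8 F X *ᵥ v)}
      one_mem' := fun X v => by simp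
      mul_mem' := fun {a b} ha hb X v => by
        have := ha ((b.1.1 : Matrix _ _ F) *ᵥ X) (b.2.1.1 v)
        rw [hb, mulVec_mulVec] at this
        exact this
      inv_mem' := fun {a} ha X v => a.2.1.1.injective (by
        have := ha (((a.1⁻¹).1 : Matrix _ _ F) *ᵥ X) ((a.2⁻¹).1.1 v)
        rw [Prod.fst_inv, Prod.snd_inv, ← this, mulVec_mulVec]
        simp) }
  have hx : ∀ r t, (okD4.chev F).x r t ∈ chevD4.group F := fun r t =>
    (okD4.group_eq F).ge ((okD4.chev F).x_mem (Set.mem_univ r) t)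
  have hΓ : ∀ (r : Fin chevD4.nroots) t, (⟨_, hx r t⟩, y8 F r t) ∈ Γ₀ := fun r t => x_y8 r t
  let π₁ := (MonoidHom.fst _ _).comp Γ₀.subtype
  let π₂ := (pmk _).comp ((MonoidHom.snd _ _).comp Γ₀.subtype)
  have h1 : Function.Surjective π₁ := fun k => by
    obtain ⟨_, ⟨g, rfl⟩, e⟩ := (okD4.chev F).Xs_le (K := π₁.range.map (chevD4.group F).subtype)
      (fun r _ t => ⟨_, ⟨⟨_, hΓ r t⟩, rfl⟩, rfl⟩) (okD4.mem_Xs' F k)
    exact ⟨g, Subtype.ext e⟩
  have h2 : Function.Surjective π₂ := (QuotientGroup.mk'_surjective _).comp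
    (MonoidHom.range_eq_top.1 (y8_gen fun r hr t => ⟨⟨_, hΓ ⟨r, hr⟩ t⟩, rfl⟩))
  have h3 : π₁.ker ≤ π₂.ker := by
    rintro ⟨⟨k, g⟩, hg⟩ (rfl : k = 1)
    refine (QuotientGroup.eq_one_iff g).2 (mem_center_iff.2 fun a => ?_)
    refine mem_centralizer_singleton_iff.1 ((y8_gen (H := centralizer {g}) fun r hr t =>
      mem_centralizer_singleton_iff.2 (Subtype.ext (OG.ext' fun v => ?_))).ge (mem_top a))
    have := hg (bas F (codeD chevD4) (4 + r)) v
    change rho8 F ((1 : Matrix _ _ F) *ᵥ _) *ᵥ g.1.1 v = g.1.1 _ at this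
    rw [one_mulVec, rho8_bas F (by omega)] at this
    change (y8 F r t).1.1 (g.1.1 v) = g.1.1 ((y8 F r t).1.1 v)
    simp [y8_apply hr, add_mulVec, smul_mulVec, this]
  let f := π₁.liftOfSurjective h1 ⟨π₂, h3⟩
  have h4 : Function.Surjective f := fun y => by
    obtain ⟨g, rfl⟩ := h2 y
    exact ⟨π₁ g, π₁.liftOfRightInverse_comp_apply _ _ _ g⟩
  refine ⟨MulEquiv.ofBijective f ⟨(MonoidHom.ker_eq_bot_iff f).1
    (f.normal_ker.eq_bot_or_eq_top.resolve_right fun e => ?_), h4⟩⟩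
  have h5 := two_dvd_POm (Q := QP 4 F)
  rw [Nat.card_eq_one_iff_exists.2 ⟨1, fun y => by
    obtain ⟨k, rfl⟩ := h4 y
    exact e.ge (mem_top k)⟩] at h5
  omega

theorem inner8 [Finite F] {γ : Gam (QP 4 F)} (hγ : γ.σ = 1) : ∃ k, Phi _ γ ^ 4 = MulAut.conj k := by
  obtain ⟨a, g, h1⟩ := exists_scal_mul_ofOG (γ := γ * γ) (by simp [hγ])
    ⟨γ.c, by rw [Gam.mul_c, hγ]; rfl⟩
  have h2 : g * g ∈ Om (QP 4 F) := mem_Om_iff.2
    ⟨by rw [dick_mul, Int.units_mul_self], by rw [spin_mul, Int.units_mul_self]⟩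
  have h3 := congrArg (Phi _) h1
  rw [_root_.map_mul, _root_.map_mul, Phi_scal, one_mul] at h3
  refine ⟨_, Eq.trans ?_ (Phi_ofOG ⟨_, h2⟩)⟩
  rw [_root_.map_mul, _root_.map_mul, ← h3, pow_succ, pow_three, mul_assoc, mul_assoc, mul_assoc]

theorem inner_of {K K' : Type*} [Group K] [Group K'] (e : K ≃* K') {β : MulAut K}
    (ho : orderOf β = 3) {k : K'} (h : MulAut.congr e β ^ 4 = MulAut.conj k) :
    β = MulAut.conj (e.symm k) := by
  rw [← map_pow, pow_succ, ← ho, pow_orderOf_eq_one, one_mul] at h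
  exact MulEquiv.ext fun k => e.injective (by simpa using congrArg (· (e k)) h)

theorem tri8 [Fintype F] (hK : IsSimpleGroup (chevD4.group F)) (r : ℕ) [Fact r.Prime] [CharP F r]
    (hr : 3 ≠ r) {β : MulAut (chevD4.group F)} (ho : orderOf β = 3)
    (hnot : ¬ chevD4.IsInnerDiagonalAutOn (chevD4.group F) β) :
    3 ∣ Nat.card (chevD4.group F) ∧ BalG 3 β := by
  obtain ⟨e⟩ := iso8 hK
  haveI : Fact (Nat.Prime 3) := ⟨Nat.prime_three⟩
  refine ⟨Nat.card_congr e.toEquiv ▸ (balG_tri r hr (g := 1) (_root_.map_one _) (by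
    rw [_root_.map_one, one_mul]; exact tri_braid)).2, BalG.of_congr e (balG_plus le_rfl r hr
    (((MulAut.congr e).orderOf_eq β).trans ho) fun γ hγ h => hnot ?_).1⟩
  obtain ⟨k, hk⟩ := inner8 hγ.1
  rw [inner_of e ho (h ▸ hk), ← okD4.Psi_conj F _ (okD4.mem_GG F _)]
  exact okD4.innerDiag ckD4'.1 _

end D4

end CfsgH8
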