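import Cfsg.Agent.H8.TabE7
import Cfsg.Agent.H8.Chev7

set_option autoImplicit false
set_option maxRecDepth 100000

namespace CfsgH8

open CfsgH5 Cfsg.Lie

theorem ckE7_0_0 : chunk 14 0 (tabE7.c0 chevE7) = true := by decide +kernel

theorem ckE7_0_1 : chunk 14 1 (tabE7.c0 chevE7) = true := by decide +kernel

theorem ckE7_0_2 : chunk 14 2 (tabE7.c0 chevE7) = true := by decide +kernel

theorem ckE7_0_3 : chunk 14 3 (tabE7.c0 chevE7) = true := by decide +kernel

theorem ckE7_0_4 : chunk 14 4 (tabE7.c0 chevE7) = true := by decide +kernel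

theorem ckE7_0_5 : chunk 14 5 (tabE7.c0 chevE7) = true := by decide +kernel

theorem ckE7_0_6 : chunk 14 6 (tabE7.c0 chevE7) = true := by decide +kernel

theorem ckE7_0_7 : chunk 14 7 (tabE7.c0 chevE7) = true := by decide +kernel

theorem ckE7_0_8 : chunk 14 8 (tabE7.c0 chevE7) = true := by decide +kernel

theorem ckE7_0 : ∀ r < 126, tabE7.c0 chevE7 r = true :=
  of_chunks 14 9 _ fun a ha => by
    interval_cases a
    exacts [ckE7_0_0, ckE7_0_1, ckE7_0_2, ckE7_0_3, ckE7_0_4, ckE7_0_5, ckE7_0_6, ckE7_0_7, ckE7_0_8]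

theorem ckE7_1_0 : chunk 14 0 (tabE7.c1 chevE7) = true := by decide +kernel

theorem ckE7_1_1 : chunk 14 1 (tabE7.c1 chevE7) = true := by decide +kernel

theorem ckE7_1_2 : chunk 14 2 (tabE7.c1 chevE7) = true := by decide +kernel

theorem ckE7_1_3 : chunk 14 3 (tabE7.c1 chevE7) = true := by decide +kernel

theorem ckE7_1_4 : chunk 14 4 (tabE7.c1 chevE7) = true := by decide +kernel

theorem ckE7_1_5 : chunk 14 5 (tabE7.c1 chevE7) = true := by decide +kernel

theorem ckE7_1_6 : chunk 14 6 (tabE7.c1 chevE7) = true := by decide +kernel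

theorem ckE7_1_7 : chunk 14 7 (tabE7.c1 chevE7) = true := by decide +kernel

theorem ckE7_1_8 : chunk 14 8 (tabE7.c1 chevE7) = true := by decide +kernel

theorem ckE7_1 : ∀ r < 126, tabE7.c1 chevE7 r = true :=
  of_chunks 14 9 _ fun a ha => by
    interval_cases a
    exacts [ckE7_1_0, ckE7_1_1, ckE7_1_2, ckE7_1_3, ckE7_1_4, ckE7_1_5, ckE7_1_6, ckE7_1_7, ckE7_1_8]

end CfsgH8
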