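import Cfsg.Agent.H8.TabG2
import Cfsg.Agent.H8.Chev7
import Cfsg.Agent.H8.Chev6

set_option autoImplicit false
set_option maxRecDepth 100000

namespace CfsgH8

open CfsgH5 Cfsg.Lie

theorem ckG2_0_0 : chunk 12 0 (tabG2.c0 chevG2) = true := by decide +kernel

theorem ckG2_0 : ∀ r < 12, tabG2.c0 chevG2 r = true :=
  of_chunks 12 1 _ fun a ha => by
    interval_cases a
    exacts [ckG2_0_0]

theorem ckG2_1_0 : chunk 12 0 (tabG2.c1 chevG2) = true := by decide +kernel

theorem ckG2_1 : ∀ r < 12, tabG2.c1 chevG2 r = true :=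
  of_chunks 12 1 _ fun a ha => by
    interval_cases a
    exacts [ckG2_1_0]

theorem ckG2_6_0 : chunk 12 0 (tabG2.c6 chevG2) = true := by decide +kernel

theorem ckG2_6 : ∀ r < 12, tabG2.c6 chevG2 r = true :=
  of_chunks 12 1 _ fun a ha => by
    interval_cases a
    exacts [ckG2_6_0]

theorem ckG2_2_0 : tabG2.c2 chevG2 (tabG2.si 0) = true ∧ tabG2.c2 chevG2 (tabG2.ng (tabG2.si 0)) = true := by
  constructor <;> decide +kernel

theorem ckG2_3_0 : tabG2.c3 chevG2 0 = true := by decide +kernel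

theorem ckG2_7_0 : tabG2.c7 chevG2 0 = true := by decide +kernel

theorem ckG2_2_1 : tabG2.c2 chevG2 (tabG2.si 1) = true ∧ tabG2.c2 chevG2 (tabG2.ng (tabG2.si 1)) = true := by
  constructor <;> decide +kernel

theorem ckG2_3_1 : tabG2.c3 chevG2 1 = true := by decide +kernel

theorem ckG2_7_1 : tabG2.c7 chevG2 1 = true := by decide +kernel

theorem ckG2_4_0_0 : chunk 12 0 (tabG2.c4 chevG2 0) = true := by decide +kernel

theorem ckG2_4_0 : ∀ r < 12, tabG2.c4 chevG2 0 r = true :=
  of_chunks 12 1 _ fun a ha => by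
    interval_cases a
    exacts [ckG2_4_0_0]

theorem ckG2_4_1_0 : chunk 12 0 (tabG2.c4 chevG2 1) = true := by decide +kernel

theorem ckG2_4_1 : ∀ r < 12, tabG2.c4 chevG2 1 r = true :=
  of_chunks 12 1 _ fun a ha => by
    interval_cases a
    exacts [ckG2_4_1_0]

theorem ckG2_5_0_0 : chunk 12 0 (tabG2.c5 chevG2 0) = true := by decide +kernel

theorem ckG2_5_0 : ∀ r < 12, tabG2.c5 chevG2 0 r = true :=
  of_chunks 12 1 _ fun a ha => by
    interval_cases a
    exacts [ckG2_5_0_0]

theorem ckG2_5_1_0 : chunk 12 0 (tabG2.c5 chevG2 1) = true := by decide +kernel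

theorem ckG2_5_1 : ∀ r < 12, tabG2.c5 chevG2 1 r = true :=
  of_chunks 12 1 _ fun a ha => by
    interval_cases a
    exacts [ckG2_5_1_0]

theorem okG2 : tabG2.Ok chevG2 where
  hl := rfl
  hn := rfl
  h0 := ckG2_0
  h1 := ckG2_1
  h2 := fun i hi => by
    change i < 2 at hi
    interval_cases i
    exacts [ckG2_2_0, ckG2_2_1]
  h3 := fun i hi => by
    change i < 2 at hi
    interval_cases i
    exacts [ckG2_3_0, ckG2_3_1]
  h4 := fun i hi => by
    change i < 2 at hi
    interval_cases i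
    exacts [ckG2_4_0, ckG2_4_1]
  h5 := fun i hi => by
    change i < 2 at hi
    interval_cases i
    exacts [fun _ => ckG2_5_0, fun _ => ckG2_5_1]
  h6 := ckG2_6
  h7 := fun i hi => by
    change i < 2 at hi
    interval_cases i
    exacts [ckG2_7_0, ckG2_7_1]

/-- inverse Cartan matrix -/
def invG2 (j i : ℕ) : ℤ := (([[2, 3], [1, 2]] : List (List ℤ)).getD j []).getD i 0

theorem invG2_spec : ∀ j k : Fin chevG2.rank, ∑ i : Fin chevG2.rank, invG2 j i * tabG2.cm i k =
    if j = k then 1 else 0 := by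
  change ∀ j k : Fin 2, ∑ i : Fin 2, invG2 j i * tabG2.cm i k = if j = k then 1 else 0
  decide +kernel

end CfsgH8
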