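import Cfsg.Agent.H8.Num

set_option autoImplicit false
set_option linter.unusedSectionVars false

namespace CfsgH8

open Module QuadraticMap Polynomial

universe u

lemma encard_image_le' {α β γ : Type*} {f : α → β} {f' : α → γ} {A : Set α}
    (h : ∀ a ∈ A, ∀ b ∈ A, f' a = f' b → f a = f b) : (f '' A).encard ≤ (f' '' A).encard := by
  have : ∀ z : f '' A, ∃ z' : f' '' A, ∃ x ∈ A, f x = z ∧ f' x = z' := by
    rintro ⟨_, x, hx, rfl⟩
    exact ⟨⟨_, x, hx, rfl⟩, x, hx, rfl, rfl⟩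
  choose φ hφ using this
  refine Function.Embedding.encard_le ⟨φ, fun z z' hz => ?_⟩
  obtain ⟨x, hx, e1, e2⟩ := hφ z
  obtain ⟨x', hx', e1', e2'⟩ := hφ z'
  exact Subtype.ext (e1 ▸ e1' ▸ h x hx x' hx' (by rw [e2, e2', hz]))

lemma LeC.le_real {α β : Type*} {c : α → β} {S : Set α} {w : α → ℕ} {N q e n k j : ℕ}
    {a : PowerSeries ℕ} {C : ℝ} (h : LeC c S w N a) (hb : Bd q e ((j : PowerSeries ℕ) * a) C)
    (hn : 2 * n + e ≤ N) (hk : (k : ℕ∞) ≤ (c '' {x | x ∈ S ∧ w x = 2 * n + e}).encard) :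
    (j : ℝ) * k ≤ C * q ^ n := by
  refine le_trans ?_ (hb n)
  rw [← nsmul_eq_mul j a, map_nsmul, smul_eq_mul, Nat.cast_mul]
  exact mul_le_mul_of_nonneg_left (Nat.cast_le.2 (Nat.cast_le.1 (hk.trans (h _ hn))))
    (Nat.cast_nonneg _)

namespace Ob

variable {F : Type u} [Field F] {o o' o₁ o₂ : Ob F}

/-- a group realised as the full isometry group of an object -/
structure Mod (G : Type*) [Group G] (o : Ob F) where
  ρ : G →* End F o.V
  inj : Function.Injective ρ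
  mem : ∀ e : o.V ≃ₗ[F] o.V, (∀ x y, o.B (e x) (e y) = o.B x y) → (∀ x, o.Q (e x) = o.Q x) →
    ∃ g, ρ g = e
  hB : ∀ g x y, o.B (ρ g x) (ρ g y) = o.B x y
  hQ : ∀ g x, o.Q (ρ g x) = o.Q x

variable {G : Type*} [Group G] (M : Mod G o)

/-- the object attached to a group element -/
abbrev Mod.ob (g : G) : Ob F := { o with g := M.ρ g }

lemma Mod.cl_iff (g g' : G) :
    cl (M.ob g) = cl (M.ob g') ↔ ConjClasses.mk g = ConjClasses.mk g' := by
  rw [cl_eq, ConjClasses.mk_eq_mk_iff_isConj, isConj_iff]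
  constructor
  · rintro ⟨e, h1, h2, h3⟩
    obtain ⟨k, hk⟩ := M.mem e h1 h3
    refine ⟨k, mul_inv_eq_of_eq_mul (M.inj ?_)⟩
    rw [_root_.map_mul, _root_.map_mul, hk]
    exact LinearMap.ext h2
  · rintro ⟨k, rfl⟩
    refine ⟨LinearEquiv.ofBijective (M.ρ k) ((End.isUnit_iff _).1 ((Group.isUnit k).map M.ρ)),
      M.hB k, fun x => ?_, M.hQ k⟩
    show (M.ρ k * M.ρ g) x = (M.ρ (k * g * k⁻¹) * M.ρ k) x
    rw [← _root_.map_mul, ← _root_.map_mul, inv_mul_cancel_right]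

lemma Mod.encard (A : Set G) :
    (ConjClasses.mk '' A).encard = ((fun g => cl (M.ob g)) '' A).encard :=
  le_antisymm (encard_image_le' fun _ _ _ _ => (M.cl_iff _ _).1)
    (encard_image_le' fun _ _ _ _ => (M.cl_iff _ _).2)

lemma Mod.exists_ob (h : Gd o') (hQ : ∀ x, o'.Q (o'.g x) = o'.Q x) (e : o'.V ≃ₗ[F] o.V)
    (h1 : ∀ x y, o.B (e x) (e y) = o'.B x y) (h2 : ∀ x, o.Q (e x) = o'.Q x) :
    ∃ g, cl (M.ob g) = cl o' := by
  obtain ⟨g, hg⟩ := M.mem (e.symm ≪≫ₗ LinearEquiv.ofBijective _ h.bij ≪≫ₗ e)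
    (fun x y => by simp [h1, h.isom, ← h1 (e.symm x)]) fun x => by simp [h2, hQ, ← h2 (e.symm x)]
  exact ⟨g, (cl_eq (o' := M.ob g).2 ⟨e, h1, fun x => by simp [hg], h2⟩).symm⟩

lemma Mod.card [Finite G] {S : Set (Ob F)} (h1 : ∀ g, M.ob g ∈ S)
    (h2 : ∀ o' ∈ S, ∃ g, cl (M.ob g) = cl o') :
    (Nat.card (ConjClasses G) : ℕ∞) = (cl '' S).encard := by
  rw [← Set.ncard_univ, (Set.toFinite _).cast_ncard_eq,
    ← Set.image_univ_of_surjective ConjClasses.mk_surjective, M.encard]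
  congr 1
  refine Set.Subset.antisymm ?_ ?_
  · rintro _ ⟨g, -, rfl⟩; exact ⟨_, h1 g, rfl⟩
  · rintro _ ⟨o', ho, rfl⟩; exact (h2 o' ho).imp fun g h => ⟨trivial, h⟩

variable {V : Type u} [AddCommGroup V] [Module F V] [FiniteDimensional F V]
  {Q : QuadraticForm F V}

/-- the orthogonal group -/
def modO (Q : QuadraticForm F V) : Mod (OG Q) ⟨V, polarBilin Q, 1, Q⟩ where
  ρ := ⟨⟨fun g => g.1.toLinearMap, rfl⟩, fun _ _ => rfl⟩
  inj _ _ h := OG.ext' (LinearMap.congr_fun h)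
  mem e _ h := ⟨⟨e, h⟩, rfl⟩
  hB := OG.map_polar
  hQ := OG.map_Q

lemma isO_ob (hQ : ND Q) (g : OG Q) : IsO ((modO Q).ob g) := ⟨hQ, rfl, g.2⟩

lemma finite_OG [Finite F] (Q : QuadraticForm F V) : Finite (OG Q) :=
  have : Finite V := Module.finite_of_finite F
  Finite.of_injective (fun (g : OG Q) x => g.1 x) fun _ _ h => OG.ext' (congrFun h)

theorem card_O [Finite F] (hQ : ND Q) : (Nat.card (ConjClasses (OG Q)) : ℕ∞) =
    (cl '' {o : Ob F | o ∈ {o | IsO o ∧ Iso o.Q Q} ∧ o.dim = finrank F V}).encard :=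
  have := finite_OG Q
  (modO Q).card (fun g => ⟨⟨isO_ob hQ g, Iso.refl _⟩, rfl⟩) (by
    rintro o ⟨⟨h, e, he⟩, -⟩
    exact (modO Q).exists_ob h.gd h.isom e
      (fun x y => by rw [h.B_eq]; exact polar_map e.toLinearMap he x y) he)

open Matrix in
/-- the symplectic group -/
noncomputable def modS (n : ℕ) (F : Type u) [Field F] : Mod (symplecticGroup (Fin n) F)
    ⟨Fin n ⊕ Fin n → F, Matrix.toBilin' (J (Fin n) F), 1, 0⟩ where
  ρ := Matrix.toLinAlgEquiv'.toMonoidHom.comp (Submonoid.subtype _)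
  inj := Matrix.toLinAlgEquiv'.injective.comp Subtype.val_injective
  mem e h _ := ⟨⟨LinearMap.toMatrix' e.toLinearMap, by
    rw [SymplecticGroup.mem_iff', ← LinearMap.BilinForm.toMatrix'_toBilin' (J (Fin n) F),
      ← LinearMap.BilinForm.toMatrix'_comp]
    exact congrArg _ (LinearMap.ext₂ h)⟩, Matrix.toLin'_toMatrix' _⟩
  hB g x y := by
    conv_rhs => rw [← SymplecticGroup.mem_iff'.1 g.2, ← Matrix.toBilin'_comp]
    simp
  hQ _ _ := rfl

theorem card_S [Finite F] [CharP F 2] (n : ℕ) :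
    (Nat.card (ConjClasses (Matrix.symplecticGroup (Fin n) F)) : ℕ∞) =
      (cl '' {o : Ob F | o ∈ {o | IsS o} ∧ o.dim = 2 * n}).encard := by
  have h1 : (Matrix.toBilin' (Matrix.J (Fin n) F)).IsAlt := fun x => by
    simp [CfsgH1.toBilin'_J, CfsgH1.sympForm_eq, mul_comm]
  refine (modS n F).card (fun g => ⟨⟨⟨fun x y => ?_, CfsgH7.toBilin'_nondeg CfsgH7.isUnit_J,
    (modS n F).hB g⟩, h1, rfl⟩, by simp [dim, two_mul]⟩) ?_
  · exact (h1.neg_eq y x).symm.trans (CharTwo.neg_eq _)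
  · rintro o ⟨h, hd⟩
    obtain ⟨e, he⟩ := CfsgH1.exists_symp_equiv h.alt h.nd hd
    exact (modS n F).exists_ob h.toGd (fun x => by simp [h.Q_eq]) e.symm
      (fun x y => by simp [← he]) fun x => by simp [h.Q_eq]

/-- the characteristic polynomial of `g + g⁻¹` -/
def Tr (o : Ob F) (p : F[X]) : Prop := ∃ g', o.g * g' = 1 ∧ (o.g + g').charpoly = p

lemma Tr.eq {p p' : F[X]} (h : Tr o p) (h' : Tr o' p') (e : Eqv o o') : p = p' := by
  obtain ⟨a, a1, rfl⟩ := h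
  obtain ⟨b, b1, rfl⟩ := h'
  obtain ⟨e, -, h, -⟩ := e
  rw [← e.charpoly_conj]
  congr 1
  refine LinearMap.ext fun x => ?_
  obtain ⟨x, rfl⟩ := e.surjective x
  obtain ⟨x, rfl⟩ := ((End.isUnit_iff _).1 (IsUnit.of_mul_eq_one _ a1)).2 x
  have h1 : a (o.g x) = x := LinearMap.congr_fun (mul_eq_one_comm.1 a1) x
  have h2 : b (o'.g (e x)) = e x := LinearMap.congr_fun (mul_eq_one_comm.1 b1) _
  rw [LinearEquiv.conj_apply_apply, e.symm_apply_apply]
  simp [h, h1, h2]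

lemma Tr.card_le {S : Set (Ob F)} {ι : Type*} {H : Set ι} (ψ : ι → F[X]) (hψ : Set.InjOn ψ H)
    (h : ∀ i ∈ H, ∃ o ∈ S, Tr o (ψ i)) : H.encard ≤ (cl '' S).encard := by
  have : Nonempty (Ob F) := ⟨⟨PUnit, 0, 0, 0⟩⟩
  choose! f h1 h2 using h
  have := encard_image_le' (f := id) (f' := fun i => cl (f i)) (A := H) fun i hi j hj e =>
    hψ hi hj ((h2 i hi).eq (h2 j hj) (cl_eq.1 e))
  rw [Set.image_id] at this
  exact this.trans (Set.encard_le_encard (by rintro _ ⟨i, hi, rfl⟩; exact ⟨_, h1 i hi, rfl⟩))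

end Ob

end CfsgH8
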