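import Cfsg.Agent.H8.Semi2
import Cfsg.Agent.H8.BaseChange

set_option autoImplicit false
set_option linter.unusedSectionVars false

namespace CfsgH8

open QuadraticMap Module

variable {F V V₁ V₂ : Type*} [Field F] [Fintype F] [AddCommGroup V] [Module F V]
  [AddCommGroup V₁] [Module F V₁] [AddCommGroup V₂] [Module F V₂]
  {Q : QuadraticForm F V} {Q₁ : QuadraticForm F V₁} {Q₂ : QuadraticForm F V₂}

/-- the number of vectors on which a quadratic form takes a given value -/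
noncomputable def cnt (Q : QuadraticForm F V) (c : F) : ℕ := Nat.card {v // Q v = c}

lemma cnt_sim (e : V₁ ≃ₗ[F] V₂) {l : F} (hl : l ≠ 0) (he : ∀ x, Q₂ (e x) = l * Q₁ x) (c : F) :
    cnt Q₂ (l * c) = cnt Q₁ c :=
  (Nat.card_congr (e.toEquiv.subtypeEquiv fun x => by
    rw [LinearEquiv.coe_toEquiv, he, mul_right_inj' hl])).symm

lemma Iso.cnt_eq (h : Iso Q₁ Q₂) (c : F) : cnt Q₁ c = cnt Q₂ c := by
  obtain ⟨e, he⟩ := h
  simpa using (cnt_sim e one_ne_zero (Q₂ := Q₂) (Q₁ := Q₁) (by simpa using he) c).symm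

lemma ODec.cnt_eq [Finite V₁] [Fintype V₂] (D : ODec Q₁ Q₂ Q) (c : F) :
    cnt Q c = ∑ y : V₂, cnt Q₁ (c - Q₂ y) := by
  unfold cnt
  rw [← Nat.card_sigma]
  refine (Nat.card_eq_of_bijective (fun p : (y : V₂) × {x // Q₁ x = c - Q₂ y} =>
    (⟨D.e (p.2.1, p.1), by rw [D.he, p.2.2]; simp⟩ : {v // Q v = c})) ⟨?_, ?_⟩).symm
  · rintro ⟨y, x, hx⟩ ⟨y', x', hx'⟩ h
    obtain ⟨rfl, rfl⟩ := Prod.ext_iff.1 (D.e.injective (congrArg Subtype.val h))
    rfl
  · rintro ⟨v, rfl⟩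
    obtain ⟨x, y, rfl⟩ := D.surj v
    exact ⟨⟨y, x, by simp [D.he]⟩, rfl⟩

lemma cnt_QH (κ : Type) [Fintype κ] [DecidableEq κ] (d : F) [Decidable (d = 0)] :
    Fintype.card F * cnt (QH κ F) d =
      (Fintype.card F ^ Fintype.card κ - 1) * Fintype.card F ^ Fintype.card κ +
        if d = 0 then Fintype.card F ^ (Fintype.card κ + 1) else 0 := by
  classical
  have h1 : cnt (QH κ F) d = ∑ x : κ → F, Nat.card {y : κ → F // x ⬝ᵥ y = d} := by
    unfold cnt
    rw [← Nat.card_sigma]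
    exact (Nat.card_congr ⟨fun p => ⟨Sum.elim p.1 p.2.1, (QH_apply _).trans p.2.2⟩,
      fun v => ⟨v.1 ∘ Sum.inl, v.1 ∘ Sum.inr, (QH_apply _).symm.trans v.2⟩, fun p => rfl,
      fun v => Subtype.ext (Sum.elim_comp_inl_inr _)⟩).symm
  rw [h1, Finset.mul_sum, Fintype.sum_eq_add_sum_subtype_ne _ 0, add_comm]
  congr 1
  · rw [Finset.sum_congr rfl (g := fun _ => Fintype.card F ^ Fintype.card κ) fun x _ => ?_]
    · simp [Fintype.card_subtype_compl]
    · obtain ⟨i, hi⟩ := Function.ne_iff.1 x.2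
      have := CfsgH1.card_fiber_functional (dotProductBilin F F x.1)
        ⟨Pi.single i (x.1 i)⁻¹, by simpa using mul_inv_cancel₀ hi⟩ d
      simpa using this
  · split_ifs with h
    · simp [h, pow_succ']
    · simp [Ne.symm h]

lemma cnt_QP_one (m : ℕ) :
    Fintype.card F * cnt (QP m F) 1 + Fintype.card F ^ m = Fintype.card F ^ (2 * m) := by
  classical
  rw [cnt_QH, if_neg one_ne_zero, Fintype.card_fin, add_zero, two_mul, pow_add]
  have := Nat.one_le_pow m _ (Fintype.card_pos (α := F))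
  zify [this]
  ring

lemma sum_cnt [Finite V] : ∑ c, cnt Q c = Nat.card V := by
  unfold cnt
  rw [← Nat.card_sigma]
  exact Nat.card_congr (Equiv.sigmaFiberEquiv Q)

lemma cnt_even [FiniteDimensional F V] (hQ : ND Q) {k : ℕ} (hk : finrank F V = 2 * k) :
    cnt Q 0 + (Fintype.card F - 1) * cnt Q 1 = Fintype.card F ^ (2 * k) := by
  classical
  have : Finite V := Module.finite_of_finite F
  have h := sum_cnt (Q := Q)
  rw [Fintype.sum_eq_add_sum_subtype_ne _ 0, Module.natCard_eq_pow_finrank (K := F), hk,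
    Nat.card_eq_fintype_card, Finset.sum_congr rfl (g := fun _ => cnt Q 1) fun c _ => ?_] at h
  · simpa [Fintype.card_subtype_compl] using h
  · obtain ⟨γ, h1, h2, -⟩ := exists_sim_gdet hQ hk (Units.mk0 c.1 c.2)
    simpa using cnt_sim (γ.lin h1) c.2 (fun x => by simpa [h2] using Gam.mapQ_of_lin h1 x) 1

lemma cnt_QB_one {a b : F} (h : Aniso a b) : cnt (QB a b) 1 = Fintype.card F + 1 := by
  have h1 := cnt_even (ND_QB_of_disc h.disc_ne) (k := 1) (by simp)
  have h2 : cnt (QB a b) 0 = 1 := by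
    have : Unique {v // QB a b v = 0} := ⟨⟨⟨0, by simp⟩⟩, fun v => Subtype.ext (h.eq_zero v.2)⟩
    exact Nat.card_unique
  have h3 := Fintype.one_lt_card (α := F)
  obtain ⟨n, hn⟩ : ∃ n, Fintype.card F = n + 1 := ⟨_, (Nat.sub_add_cancel h3.le).symm⟩
  rw [h2, hn, Nat.add_sub_cancel] at h1
  rw [hn]
  exact Nat.eq_of_mul_eq_mul_left (show 0 < n by omega) (by rw [mul_one, pow_two] at h1; linarith)

lemma cnt_QM_one (m : ℕ) {a b : F} (h : Aniso a b) :
    Fintype.card F * cnt (QM m F a b) 1 =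
      Fintype.card F ^ (2 * (m + 1)) + Fintype.card F ^ (m + 1) := by
  classical
  have h1 : ∑ y : Fin 2 → F, (if 1 - QB a b y = 0 then Fintype.card F ^ (m + 1) else 0) =
      (Fintype.card F + 1) * Fintype.card F ^ (m + 1) := by
    rw [← cnt_QB_one h, ← Finset.sum_filter, Finset.sum_const, smul_eq_mul, cnt,
      Nat.card_eq_fintype_card, Fintype.card_subtype]
    congr 2
    ext y; simp [sub_eq_zero, eq_comm (a := (1 : F))]
  rw [QM, (sumDec (QP m F) (QB a b)).cnt_eq, Finset.mul_sum]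
  simp only [cnt_QH, Fintype.card_fin, Finset.sum_add_distrib, h1, Finset.sum_const,
    Finset.card_univ, Fintype.card_fun, smul_eq_mul]
  have := Nat.one_le_pow m _ (Fintype.card_pos (α := F))
  zify [this]
  ring

lemma dvd_cnt [Finite V] {A : OG Q} {r : ℕ} [Fact r.Prime] (hA : A ^ r = 1)
    (h : ∀ x, A.1 x = x → x = 0) : r ∣ cnt Q 1 := by
  classical
  have := Fintype.ofFinite V
  let f : Function.End {v // Q v = 1} := fun v => ⟨A.1 v, by rw [OG.map_Q, v.2]⟩
  have hf : ∀ k : ℕ, ∀ v, ((f ^ k) v : V) = (A ^ k).1 v := fun k v => by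
    induction k with
    | zero => rfl
    | succ k ih => rw [pow_succ', pow_succ', OG.mul_apply, ← ih]; rfl
  have h1 := Equiv.Perm.card_fixedPoints_modEq (f := f) (p := r) (n := 1)
    (funext fun v => Subtype.ext (by rw [pow_one, hf, hA]; rfl))
  have h2 : IsEmpty f.fixedPoints := ⟨fun v => by
    have h3 := h v.1.1 (congrArg Subtype.val v.2)
    have h4 := v.1.2
    rw [h3, QuadraticMap.map_zero] at h4
    exact zero_ne_one h4⟩
  rw [Fintype.card_eq_zero (α := f.fixedPoints)] at h1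
  rw [cnt, Nat.card_eq_fintype_card]
  exact (Nat.modEq_zero_iff_dvd).1 h1

lemma pow_eq_one_of_fpf [Finite V] {m : ℕ} (hI : Iso (QP m F) Q) {A : OG Q} {r : ℕ} [Fact r.Prime]
    (hq : (Fintype.card F : ZMod r) ≠ 0) (hA : A ^ r = 1) (h : ∀ x, A.1 x = x → x = 0) :
    (Fintype.card F : ZMod r) ^ m = 1 := by
  have h1 := congrArg (Nat.cast : ℕ → ZMod r) (cnt_QP_one (F := F) m)
  rw [hI.cnt_eq] at h1
  push_cast at h1
  rw [(ZMod.natCast_eq_zero_iff _ r).2 (dvd_cnt hA h), mul_zero, zero_add, two_mul, pow_add] at h1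
  exact mul_left_cancel₀ (pow_ne_zero m hq) (by rw [← h1, mul_one])

lemma pow_eq_neg_one_of_fpf [Finite V] {m : ℕ} {a b : F} (hab : Aniso a b)
    (hI : Iso (QM m F a b) Q) {A : OG Q} {r : ℕ} [Fact r.Prime]
    (hq : (Fintype.card F : ZMod r) ≠ 0) (hA : A ^ r = 1) (h : ∀ x, A.1 x = x → x = 0) :
    (Fintype.card F : ZMod r) ^ (m + 1) = -1 := by
  have h1 := congrArg (Nat.cast : ℕ → ZMod r) (cnt_QM_one (F := F) m hab)
  rw [hI.cnt_eq] at h1
  push_cast at h1
  rw [(ZMod.natCast_eq_zero_iff _ r).2 (dvd_cnt hA h), mul_zero, two_mul, pow_add] at h1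
  exact mul_left_cancel₀ (pow_ne_zero (m + 1) hq) (by linear_combination -h1)

/-- the product of two quadratic spaces -/
def prodDec (Q₁ : QuadraticForm F V₁) (Q₂ : QuadraticForm F V₂) : ODec Q₁ Q₂ (Q₁.prod Q₂) :=
  ⟨LinearEquiv.refl _ _, fun _ _ => rfl⟩

lemma Iso.dec {V' : Type*} [AddCommGroup V'] [Module F V'] {Q' : QuadraticForm F V'}
    (D : ODec Q₁ Q₂ Q) (h : Iso Q Q') : Nonempty (ODec Q₁ Q₂ Q') := by
  obtain ⟨e, he⟩ := h
  exact ⟨D.congr (LinearEquiv.refl _ _) (fun _ => rfl) (LinearEquiv.refl _ _) (fun _ => rfl) e he⟩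

/-- a non-degenerate even dimensional space embeds in any larger non-degenerate space -/
theorem exists_embed [FiniteDimensional F V] [FiniteDimensional F V₁] (hQ : ND Q) (h₁ : ND Q₁)
    (he : Even (finrank F V₁)) (hlt : finrank F V₁ < finrank F V) :
    ∃ φ : V₁ →ₗ[F] V, ∀ x, Q (φ x) = Q₁ x := by
  suffices H : ∃ (n : Type) (Q₂ : QuadraticForm F (n → F)), Nonempty (ODec Q₁ Q₂ Q) by
    obtain ⟨n, Q₂, ⟨D⟩⟩ := H
    exact ⟨D.e.toLinearMap ∘ₗ LinearMap.inl _ _ _, D.Q_left⟩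
  obtain ⟨k, hk⟩ := he
  obtain ⟨ζ, hζ⟩ := exists_aniso (F := F)
  rcases Nat.even_or_odd' (finrank F V) with ⟨m, hm | hm⟩
  · obtain ⟨j, rfl⟩ : ∃ j, m = k + (j + 1) := ⟨m - k - 1, by omega⟩
    have n1 := (prodDec Q₁ (QP (j + 1) F)).nd h₁ ND_QH
    have n2 := (prodDec Q₁ (QM j F 1 ζ)).nd h₁ (ND_QM hζ)
    have c1 := n1.classify_even (m := k + (j + 1)) (by simp; omega) hζ
    have c2 := n2.classify_even (m := k + (j + 1)) (by simp; omega) hζ
    have c3 : ¬ Iso (Q₁.prod (QP (j + 1) F)) (Q₁.prod (QM j F 1 ζ)) := fun h =>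
      not_iso_QP_QM (m := j + 1) (by omega) hζ
        (witt_cancel' n1 (prodDec _ _) (prodDec _ _) h (Iso.refl _))
    rcases hQ.classify_even hm hζ with c | ⟨-, c⟩
    · rcases c1 with c1 | ⟨-, c1⟩
      · exact ⟨_, _, (c1.symm.trans c).dec (prodDec _ _)⟩
      · exact ⟨_, _, (((c2.resolve_right fun h => c3 (c1.symm.trans h.2)).symm).trans c).dec
          (prodDec _ _)⟩
    · rcases c1 with c1 | ⟨-, c1⟩
      · exact ⟨_, _, (((c2.resolve_left fun h => c3 (c1.symm.trans h)).2.symm).trans c).dec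
          (prodDec _ _)⟩
      · exact ⟨_, _, (c1.symm.trans c).dec (prodDec _ _)⟩
  · have h2 : (2 : F) ≠ 0 := fun h2 => by
      have := CfsgH1.even_finrank_of_alt (B := polarBilin Q)
        (fun x => by rw [polarBilin_apply_apply, polar_self', h2, zero_mul]) fun x => hQ.eq_zero
      rw [hm] at this
      exact Nat.not_even_iff_odd.2 (odd_two_mul_add_one m) this
    obtain ⟨c, hc, hc'⟩ : ∃ c : F, c ≠ 0 ∧
        chi (2 * c) = discC Q * discC Q₁ * chi (-1 : F) ^ (m - k) := by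
      rcases Int.units_eq_one_or (discC Q * discC Q₁ * chi (-1 : F) ^ (m - k)) with h | h
      · exact ⟨2, h2, by rw [h, chi_mul_self]⟩
      · obtain ⟨d, hd, hd'⟩ := exists_nonsq h2
        exact ⟨d / 2, div_ne_zero hd h2, by rw [h, mul_div_cancel₀ _ h2, hd']⟩
    have n0 : ND (sumQ (QU F c) (QP (m - k) F)) := (ND_QU h2 hc).sumQ ND_QH
    have n1 := (prodDec Q₁ _).nd h₁ n0
    refine ⟨_, _, (iso_of_discC h2 n1 hQ (by simp; omega) ?_).dec (prodDec _ _)⟩
    rw [(prodDec _ _).discC_eq n1, discC_sumQU h2 hc, hc']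
    generalize discC Q = x, discC Q₁ = y, chi (-1 : F) ^ (m - k) = z
    revert x y z; decide

end CfsgH8
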