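/-
Fixed points of a graph automorphism of order three (folding).
-/
import Cfsg.Agent.H8.Chev9

set_option autoImplicit false
set_option linter.unusedSectionVars false

namespace CfsgH8

open Matrix Chev

variable {ι R l ι' R' l' F : Type*} [Fintype ι] [DecidableEq ι] [Fintype l] [DecidableEq l]
  [Fintype ι'] [DecidableEq ι'] [Fintype l'] [DecidableEq l'] [Field F]

/-- pulling back a character -/
def chp (χ : Ch l' F) (a : (l → ℤ) →+ (l' → ℤ)) : Ch l F := χ.comp (AddMonoidHom.toMultiplicative a)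

theorem cv_chp (χ : Ch l' F) (a : (l → ℤ) →+ (l' → ℤ)) (v : l → ℤ) : cv (chp χ a) v = cv χ (a v) :=
  rfl

/-- folding data -/
structure Fold (C : Chev ι R l F) (C' : Chev ι' R' l' F) where
  T : GL ι F
  a : (l → ℤ) →+ (l → ℤ)
  π : R → R
  eps : R → F
  pr : (l → ℤ) →+ (l' → ℤ)
  so : R → R'
  y : R' → F → GL ι F
  J : l → List l
  jo : l → l'
  P : Matrix ι ι' F
  Lm : Matrix ι' ι F
  extra : C.Extra
  acts : C.Acts T a π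
  T_x : ∀ r t, T * C.x r t * T⁻¹ = C.x (π r) (eps r * t)
  rt_so : ∀ r, C'.rt (so r) = pr (C.rt r)
  so_π : ∀ r, so (π r) = so r
  orb : ∀ s, (∃ r c, c * c = 1 ∧ (∀ r', so r' = s ↔ r' = r) ∧ ∀ t, y s t = C.x r (c * t)) ∨
    ∃ r₁ r₂ r₃ c₁ c₂ c₃, r₁ ≠ r₂ ∧ r₁ ≠ r₃ ∧ r₂ ≠ r₃ ∧ c₁ * c₁ = 1 ∧ π r₁ = r₂ ∧ π r₂ = r₃ ∧
      π r₃ = r₁ ∧ c₂ = eps r₁ * c₁ ∧ c₃ = eps r₂ * c₂ ∧
      (∀ r', so r' = s ↔ r' = r₁ ∨ r' = r₂ ∨ r' = r₃) ∧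
      ∀ t, y s t = C.x r₁ (c₁ * t) * C.x r₂ (c₂ * t) * C.x r₃ (c₃ * t)
  y_T : ∀ s t, T * y s t = y s t * T
  pos : ∀ r, 0 < C.f (C.rt r) ↔ 0 < C'.f (C'.rt (so r))
  J_mem : ∀ i, C.nw (J i) ∈ Subgroup.closure {g | ∃ s t, g = y s t}
  J_π : ∀ i s, π (C.wr (J i) s) = C.wr (J i) (π s)
  J_dec : ∀ L i, (∀ s, π (C.wr L s) = C.wr L (π s)) → C.f (C.rt (C.wr L (C.p i))) < 0 →
    C.ninv (C.wr (L ++ J i)) < C.ninv (C.wr L)
  J_pr : ∀ i v, pr (C.wl (J i) v) = C'.sr (jo i) (pr v)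
  jo_surj : Function.Surjective jo
  tor : ∀ χ : Ch l F, (∀ r, cv χ (C.rt (π r)) = cv χ (C.rt r)) → ∃ χ', χ = chp χ' pr
  hB : ∀ j, ∃ b : l' → ℤ, ∀ v, v j = ∑ i, b i * C'.A i v
  LP : Lm * P = 1
  y_P : ∀ s t, (y s t : Matrix ι ι F) * P = P * (C'.x s t : Matrix ι' ι' F)
  P_wt : ∀ k s, P k (C'.e s) ≠ 0 → pr (C.wt k) = C'.rt s
  P_ne : ∀ r, P (C.e r) (C'.e (so r)) ≠ 0

namespace Fold

variable {C : Chev ι R l F} {C' : Chev ι' R' l' F} (Φ : Fold C C')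

/-- subgroup generated by folded root elements -/
def Ys (S : Set R') : Subgroup (GL ι F) := Subgroup.closure {g | ∃ s ∈ S, ∃ t, g = Φ.y s t}

theorem y_mem {S : Set R'} {s : R'} (h : s ∈ S) (t : F) : Φ.y s t ∈ Φ.Ys S :=
  Subgroup.subset_closure ⟨s, h, t, rfl⟩

theorem Ys_le {S : Set R'} {K : Subgroup (GL ι F)} (h : ∀ r ∈ S, ∀ t, Φ.y r t ∈ K) :
    Φ.Ys S ≤ K := by
  rw [Ys, Subgroup.closure_le]
  rintro _ ⟨r, hr, t, rfl⟩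
  exact h r hr t

theorem Ys_mono {S T : Set R'} (h : S ⊆ T) : Φ.Ys S ≤ Φ.Ys T :=
  Φ.Ys_le fun _ hr t => Φ.y_mem (h hr) t

theorem J_mem' (i : l) : C.nw (Φ.J i) ∈ Φ.Ys Set.univ := by
  simpa [Ys] using Φ.J_mem i

theorem y_mem_Xs {S : Set R} {s : R'} (h : ∀ r, Φ.so r = s → r ∈ S) (t : F) : Φ.y s t ∈ C.Xs S := by
  rcases Φ.orb s with ⟨r, c, -, h1, h2⟩ | ⟨r₁, r₂, r₃, c₁, c₂, c₃, -, -, -, -, -, -, -, -, -, h1, h2⟩
  · rw [h2]; exact C.x_mem (h _ ((h1 _).2 rfl)) _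
  · rw [h2]
    exact mul_mem (mul_mem (C.x_mem (h _ ((h1 _).2 (.inl rfl))) _)
      (C.x_mem (h _ ((h1 _).2 (.inr (.inl rfl)))) _)) (C.x_mem (h _ ((h1 _).2 (.inr (.inr rfl)))) _)

/-- centralizer of `T` -/
def Cz : Subgroup (GL ι F) := Subgroup.centralizer {Φ.T}

theorem mem_Cz {g : GL ι F} : g ∈ Φ.Cz ↔ Φ.T * g * Φ.T⁻¹ = g := by
  rw [Cz, Subgroup.mem_centralizer_singleton_iff, mul_inv_eq_iff_eq_mul, eq_comm]

theorem Ys_le_Cz (S : Set R') : Φ.Ys S ≤ Φ.Cz :=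
  Φ.Ys_le fun s _ t => Φ.mem_Cz.2 (by rw [Φ.y_T]; group)

theorem lev (g : (l' → ℤ) →+ ℤ) (r : R) : (g.comp Φ.pr) (C.rt r) = g (C'.rt (Φ.so r)) := by
  rw [Φ.rt_so]; rfl

theorem T_conj_U (g : (l' → ℤ) →+ ℤ) (c : ℤ) {u : GL ι F} (hu : u ∈ C.U (g.comp Φ.pr) c) :
    Φ.T * u * Φ.T⁻¹ ∈ C.U (g.comp Φ.pr) c :=
  Φ.acts.conj_mem (fun r hr => by
    change c ≤ _ at hr ⊢
    rwa [lev, Φ.so_π, ← lev]) hu

theorem step {g : (l' → ℤ) →+ ℤ} (hg : ∀ r s, g (C'.rt r) = g (C'.rt s) → r = s) {c : ℤ}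
    (hc : 0 < c) {u : GL ι F} (hu : u ∈ C.U (g.comp Φ.pr) c) (hT : u ∈ Φ.Cz) :
    u ∈ C.U (g.comp Φ.pr) (c + 1) ∨ ∃ s t, g (C'.rt s) = c ∧
      ∃ u' ∈ C.U (g.comp Φ.pr) (c + 1), u' ∈ Φ.Cz ∧ u = Φ.y s t * u' := by
  by_cases h : ∃ r, (g.comp Φ.pr) (C.rt r) = c
  swap
  · refine .inl (C.Xs_mono (fun s hs => ?_) hu)
    have : c ≤ (g.comp Φ.pr) (C.rt s) := hs
    exact lt_of_le_of_ne this fun e => h ⟨s, e.symm⟩
  obtain ⟨r₀, hr₀⟩ := h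
  rw [lev] at hr₀
  have key : ∀ r, (g.comp Φ.pr) (C.rt r) = c ↔ Φ.so r = Φ.so r₀ := fun r => by
    rw [lev, ← hr₀]; exact ⟨hg _ _, fun e => by rw [e]⟩
  have fin : ∀ t, ∀ u' ∈ C.U (g.comp Φ.pr) (c + 1), u = Φ.y (Φ.so r₀) t * u' →
      u ∈ C.U (g.comp Φ.pr) (c + 1) ∨ ∃ s t, g (C'.rt s) = c ∧ ∃ u' ∈ C.U (g.comp Φ.pr) (c + 1), u' ∈ Φ.Cz ∧ u = Φ.y s t * u' :=
    fun t u' hu' e => .inr ⟨_, t, hr₀, u', hu', by
      rw [← inv_mul_eq_iff_eq_mul.2 e]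
      exact mul_mem (inv_mem (Φ.Ys_le_Cz _ (Φ.y_mem (Set.mem_univ _) _))) hT, e⟩
  rcases Φ.orb (Φ.so r₀) with ⟨r, c₁, e1, h1, h2⟩ |
    ⟨r₁, r₂, r₃, c₁, c₂, c₃, n12, n13, n23, e1, p1, p2, p3, e2, e3, h1, h2⟩
  · obtain ⟨t, u', hu', e⟩ := C.split_one hc ((key r).2 ((h1 _).2 rfl))
      (fun s hs => (h1 _).1 ((key s).1 hs)) hu
    exact fin (c₁ * t) u' hu' (by rw [h2, ← mul_assoc, e1, one_mul, e])
  · have l₁ := (key r₁).2 ((h1 _).2 (.inl rfl))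
    have l₂ := (key r₂).2 ((h1 _).2 (.inr (.inl rfl)))
    have l₃ := (key r₃).2 ((h1 _).2 (.inr (.inr rfl)))
    obtain ⟨t₁, t₂, t₃, u', hu', e⟩ := C.split_three hc l₁ l₂ l₃
      (fun s hs => (h1 _).1 ((key s).1 hs)) hu
    have e' : C.x r₁ t₁ * C.x r₂ t₂ * C.x r₃ t₃ * u' = C.x r₂ (Φ.eps r₁ * t₁) *
        C.x r₃ (Φ.eps r₂ * t₂) * C.x r₁ (Φ.eps r₃ * t₃) * (Φ.T * u' * Φ.T⁻¹) := by
      have a1 := Φ.T_x r₁ t₁
      have a2 := Φ.T_x r₂ t₂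
      have a3 := Φ.T_x r₃ t₃
      rw [p1] at a1; rw [p2] at a2; rw [p3] at a3
      rw [← a1, ← a2, ← a3]
      rw [← e, ← Φ.mem_Cz.1 hT, e]; group
    have hu'' := Φ.T_conj_U g _ hu'
    have q₂ : t₂ = Φ.eps r₁ * t₁ := C.co_cancel r₂ fun i => by
      have := congrArg (C.kap r₂ i) e'
      have hp : 0 < (g.comp Φ.pr) (C.rt r₂) := by omega
      rw [C.kap_three hp (by omega) rfl (by omega) i _ _ _ (l₂ ▸ hu'),
        C.kap_three hp rfl (by omega) (by omega) i _ _ _ (l₂ ▸ hu''), kap_x, kap_x,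
        C.kap_x_ne hp (by omega) n12, C.kap_x_ne hp (by omega) n23.symm,
        C.kap_x_ne hp (by omega) n12, C.kap_x_ne hp (by omega) n23.symm] at this
      simpa using this
    have q₃ : t₃ = Φ.eps r₂ * t₂ := C.co_cancel r₃ fun i => by
      have := congrArg (C.kap r₃ i) e'
      have hp : 0 < (g.comp Φ.pr) (C.rt r₃) := by omega
      rw [C.kap_three hp (by omega) (by omega) rfl i _ _ _ (l₃ ▸ hu'),
        C.kap_three hp (by omega) rfl (by omega) i _ _ _ (l₃ ▸ hu''), kap_x, kap_x,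
        C.kap_x_ne hp (by omega) n13, C.kap_x_ne hp (by omega) n23,
        C.kap_x_ne hp (by omega) n13, C.kap_x_ne hp (by omega) n23] at this
      simpa using this
    refine fin (c₁ * t₁) u' hu' ?_
    rw [h2, e, q₃, q₂, e3, e2]
    rw [show c₁ * (c₁ * t₁) = t₁ by linear_combination t₁ * e1,
      show Φ.eps r₁ * c₁ * (c₁ * t₁) = Φ.eps r₁ * t₁ by linear_combination (Φ.eps r₁ * t₁) * e1,
      show Φ.eps r₂ * (Φ.eps r₁ * c₁) * (c₁ * t₁) = Φ.eps r₂ * (Φ.eps r₁ * t₁) by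
        linear_combination (Φ.eps r₂ * Φ.eps r₁ * t₁) * e1]

variable [Finite R]

theorem peel {g : (l' → ℤ) →+ ℤ} (hg : ∀ r s, g (C'.rt r) = g (C'.rt s) → r = s) {c : ℤ}
    (hc : 0 < c) {u : GL ι F} (hu : u ∈ C.U (g.comp Φ.pr) c) (hT : u ∈ Φ.Cz) :
    u ∈ Φ.Ys {s | c ≤ g (C'.rt s)} := by
  refine C.level_ind (g.comp Φ.pr) c (fun c => ∀ u ∈ C.U (g.comp Φ.pr) c, u ∈ Φ.Cz →
    u ∈ Φ.Ys {s | c ≤ g (C'.rt s)}) ?_ ?_ u hu hT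
  · intro c h u hu _
    rw [h, Subgroup.mem_bot] at hu
    rw [hu]; exact one_mem _
  · intro c' hc' ih u hu hT
    have hm : Φ.Ys {s | c' + 1 ≤ g (C'.rt s)} ≤ Φ.Ys {s | c' ≤ g (C'.rt s)} :=
      Φ.Ys_mono fun s hs => le_trans (by omega) (show c' + 1 ≤ _ from hs)
    rcases Φ.step hg (by omega) hu hT with h | ⟨s, t, h1, u', h2, h3, rfl⟩
    · exact hm (ih u h hT)
    · exact mul_mem (Φ.y_mem (S := {s | c' ≤ g (C'.rt s)}) h1.ge t) (hm (ih u' h2 h3))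

theorem U_eq : C.U C.f 1 = C.U (C'.f.comp Φ.pr) 1 := by
  unfold Chev.U
  congr 1
  ext r
  exact (Φ.pos r).trans (by rw [← lev]; rfl)

theorem so_neg (r : R) : Φ.so (C.neg r) = C'.neg (Φ.so r) :=
  C'.rt_inj (by rw [Φ.rt_so, C.rt_neg, C'.rt_neg, Φ.rt_so, map_neg])

theorem U_eq' : C.U (-C.f) 1 = C.U ((-C'.f).comp Φ.pr) 1 := by
  unfold Chev.U
  congr 1
  ext r
  have := Φ.pos (C.neg r)
  rw [so_neg, f_neg, f_neg] at this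
  exact this.trans (by rw [Set.mem_ofPred_eq, lev]; rfl)

theorem hh_y (χ : Ch l' F) (s : R') (t : F) : C.hh (chp χ Φ.pr) * Φ.y s t * (C.hh (chp χ Φ.pr))⁻¹ =
    Φ.y s (cv χ (C'.rt s) * t) := by
  have key : ∀ r t, Φ.so r = s → C.hh (chp χ Φ.pr) * C.x r t * (C.hh (chp χ Φ.pr))⁻¹ =
      C.x r (cv χ (C'.rt s) * t) := fun r t h => by rw [hh_conj, cv_chp, ← Φ.rt_so, h]
  rcases Φ.orb s with ⟨r, c, -, h1, h2⟩ | ⟨r₁, r₂, r₃, c₁, c₂, c₃, -, -, -, -, -, -, -, -, -, h1, h2⟩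
  · rw [h2, h2, key _ _ ((h1 _).2 rfl), mul_left_comm]
  · rw [h2, h2, mul_left_comm c₁, mul_left_comm c₂, mul_left_comm c₃,
      ← key _ _ ((h1 _).2 (.inl rfl)), ← key _ _ ((h1 _).2 (.inr (.inl rfl))),
      ← key _ _ ((h1 _).2 (.inr (.inr rfl)))]
    group

theorem hh_mem (χ : Ch l' F) : C.hh (chp χ Φ.pr) ∈ Φ.Ys Set.univ := by
  let φ : Ch l' F →* GL ι F := C.hh.comp
    { toFun := fun χ => chp χ Φ.pr, map_one' := rfl, map_mul' := fun _ _ => rfl }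
  refine C'.ch_mem Φ.hB (K := (Φ.Ys Set.univ).comap φ) (fun c j => ?_) χ
  obtain ⟨i, rfl⟩ := Φ.jo_surj j
  obtain ⟨χ, hχ⟩ := C'.exists_ch (Φ.jo i) c c.ne_zero
  have h1 : C.hh (chp χ Φ.pr) * C.nw (Φ.J i) * (C.hh (chp χ Φ.pr))⁻¹ ∈ Φ.Ys Set.univ :=
    Φ.Ys_le (K := (Φ.Ys Set.univ).comap (MulAut.conj (C.hh (chp χ Φ.pr))).toMonoidHom)
      (fun s _ t => by
        change C.hh (chp χ Φ.pr) * Φ.y s t * (C.hh (chp χ Φ.pr))⁻¹ ∈ Φ.Ys Set.univ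
        rw [hh_y]; exact Φ.y_mem (Set.mem_univ _) _) (Φ.J_mem' i)
  have h2 := (Φ.extra.acts_nw (Φ.J i)).mul_hh (chp (chm χ (C'.sr (Φ.jo i))) Φ.pr)
  have h3 : chm (chp (chm χ (C'.sr (Φ.jo i))) Φ.pr) (C.wl (Φ.J i)) = chp χ Φ.pr :=
    MonoidHom.ext fun v => Units.ext (by
      change cv χ (C'.sr _ (Φ.pr (C.wl _ v.toAdd))) = cv χ (Φ.pr v.toAdd)
      rw [Φ.J_pr, sr_sr])
  rw [h3] at h2
  have h4 : pw c (C'.A (Φ.jo i)) = χ * (chm χ (C'.sr (Φ.jo i)))⁻¹ :=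
    MonoidHom.ext fun v => Units.ext (by
      change cv (pw c _) v.toAdd = cv (χ * _) v.toAdd
      rw [cv_mul, cv_inv, cv_chm, sr_apply, cv_pw, sub_eq_add_neg, cv_add, cv_neg, cv_zsmul,
        ← C'.rt_p, hχ]
      have := cv_ne χ v.toAdd
      field_simp)
  rw [Subgroup.mem_comap, h4, _root_.map_mul, _root_.map_inv φ]
  have h5 := mul_mem h1 (inv_mem (Φ.J_mem' i))
  convert h5 using 1
  change C.hh (chp χ Φ.pr) * (C.hh (chp (chm χ (C'.sr (Φ.jo i))) Φ.pr))⁻¹ = _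
  rw [← mul_inv_eq_iff_eq_mul.2 h2]
  group

theorem nw_mem (L : List l) (h : ∀ s, Φ.π (C.wr L s) = C.wr L (Φ.π s)) :
    ∃ m ∈ Φ.Ys Set.univ, ∃ χ, C.nw L = C.hh χ * m := by
  induction hn : C.ninv (C.wr L) using Nat.strong_induction_on generalizing L with
  | _ n ih =>
  by_cases h1 : ∀ i, 0 < C.f (C.rt (C.wr L (C.p i)))
  · obtain ⟨χ, e⟩ := Φ.extra.mem_H L h1
    exact ⟨1, one_mem _, χ, by rw [e, mul_one]⟩
  push Not at h1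
  obtain ⟨i, hi⟩ := h1
  obtain ⟨m, hm, χ, e⟩ := ih _ (hn ▸ Φ.J_dec L i h (lt_of_le_of_ne hi (C.f_ne _))) (L ++ Φ.J i)
    (fun s => by rw [wr_append, wr_append, h, Φ.J_π]) rfl
  exact ⟨_, mul_mem hm (inv_mem (Φ.J_mem' i)), χ, by rw [← mul_assoc, ← e, nw_append]; group⟩

theorem T_hh (χ : Ch l F) : ∃ χ', Φ.T * C.hh χ * Φ.T⁻¹ = C.hh χ' ∧
    ∀ r, cv χ' (C.rt (Φ.π r)) = cv χ (C.rt r) := by
  have hs := Finite.injective_iff_surjective.1 Φ.acts.pi_inj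
  have h1 : Function.Surjective Φ.a := by
    rw [← AddMonoidHom.range_eq_top, eq_top_iff]
    intro v _
    rw [← Finset.univ_sum_single v]
    refine sum_mem fun j _ => ?_
    obtain ⟨r, hr⟩ := hs (C.p j)
    refine ⟨v j • C.rt r, ?_⟩
    rw [map_zsmul, ← Φ.acts.rt, hr, C.rt_p, ← Pi.single_smul, smul_eq_mul, mul_one]
  let e := AddEquiv.ofBijective Φ.a ⟨Φ.acts.inj, h1⟩
  have h2 : chm (chm χ e.symm.toAddMonoidHom) Φ.a = χ := MonoidHom.ext fun v => Units.ext (by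
    change cv χ (e.symm (e v.toAdd)) = cv χ v.toAdd
    rw [AddEquiv.symm_apply_apply])
  refine ⟨chm χ e.symm.toAddMonoidHom, ?_, fun r => ?_⟩
  · rw [mul_inv_eq_iff_eq_mul, ← Φ.acts.mul_hh, h2]
  · rw [Φ.acts.rt, ← cv_chm, h2]

theorem mem_Ys {g : GL ι F} (hg : g ∈ C.Xs Set.univ) (hT : g ∈ Φ.Cz) : g ∈ Φ.Ys Set.univ := by
  obtain ⟨u, hu, χ, L, v, hv, rfl⟩ := Φ.extra.bruhat hg
  have TU : ∀ u ∈ C.U C.f 1, Φ.T * u * Φ.T⁻¹ ∈ C.U C.f 1 := fun u hu => by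
    rw [Φ.U_eq] at hu ⊢; exact Φ.T_conj_U _ _ hu
  have TU' : ∀ u ∈ C.U (-C.f) 1, Φ.T * u * Φ.T⁻¹ ∈ C.U (-C.f) 1 := fun u hu => by
    rw [Φ.U_eq'] at hu ⊢; exact Φ.T_conj_U _ _ hu
  have hA := Φ.extra.acts_nw L
  obtain ⟨χ₁, e₁, -⟩ := Φ.T_hh χ
  have hv' : Φ.T⁻¹ * v * Φ.T ∈ C.U C.f 1 := Φ.acts.conj_mem' (fun r hr => by
    obtain ⟨s, rfl⟩ := Finite.injective_iff_surjective.1 Φ.acts.pi_inj r
    refine ⟨s, ?_, rfl⟩
    have h1 := Φ.pos s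
    have h2 := Φ.pos (Φ.π s)
    rw [Φ.so_π] at h2
    exact h1.2 (h2.1 hr)) hv
  have h1 := Φ.extra.unique (Φ.acts.mul hA) (hA.mul Φ.acts) (TU u hu) hu hv hv' (χ := χ₁) (χ' := χ)
    (by rw [← e₁]; conv_rhs => rw [← mul_assoc, ← mul_assoc, ← mul_assoc, mul_assoc _ Φ.T,
          mul_inv_cancel, mul_one, ← Φ.mem_Cz.1 hT]
        group)
  obtain ⟨m, hm, χ₂, e₂⟩ := Φ.nw_mem L (congrFun h1)
  obtain ⟨v₁, hv₁, v₂, hv₂, e₃⟩ := hA.conj_factor hv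
  have e₄ : u * C.hh χ * C.nw L * v * m⁻¹ = (u * (C.hh χ * v₁ * (C.hh χ)⁻¹)) * C.hh (χ * χ₂) *
      ((C.hh χ₂)⁻¹ * v₂ * (C.hh χ₂)⁻¹⁻¹) := by
    rw [← inv_mul_eq_iff_eq_mul] at e₂ e₃
    rw [← e₂, ← e₃, _root_.map_mul]; group
  have hu₁ := mul_mem hu (C.hh_conj_mem χ hv₁)
  have hv₃ : _ ∈ C.U (-C.f) 1 := C.hh_conj_mem χ₂⁻¹ hv₂
  rw [_root_.map_inv C.hh] at hv₃
  have h2 := Φ.mem_Cz.1 (mul_mem hT (inv_mem (Φ.Ys_le_Cz _ hm)))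
  rw [e₄] at h2
  obtain ⟨χ₃, e₅, e₆⟩ := Φ.T_hh (χ * χ₂)
  obtain ⟨h3, h4, h5⟩ := C.udl_unique (TU _ hu₁) hu₁ (TU' _ hv₃) hv₃ (χ := χ₃) (χ' := χ * χ₂)
    (by rw [← h2, ← e₅]; group)
  obtain ⟨χ₄, e₇⟩ := Φ.tor (χ * χ₂) (fun r => by
    have := congrArg (fun g : GL ι F => (g : Matrix ι ι F) (C.e (Φ.π r)) (C.e (Φ.π r))) h4
    simp only [hh_val, diagonal_apply_eq, C.wt_e] at this
    rw [← this, e₆])
  rw [mul_inv_eq_iff_eq_mul.1 e₄, e₇]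
  rw [Φ.U_eq] at hu₁
  rw [Φ.U_eq'] at hv₃
  exact mul_mem (mul_mem (mul_mem (Φ.Ys_mono (Set.subset_univ _)
    (Φ.peel C'.f_inj one_pos hu₁ (Φ.mem_Cz.2 h3))) (Φ.hh_mem _)) (Φ.Ys_mono (Set.subset_univ _)
    (Φ.peel (fun r s h => C'.f_inj r s (neg_injective h)) one_pos hv₃ (Φ.mem_Cz.2 h5)))) hm

/-- the graph -/
def Gr : Subgroup (GL ι F × GL ι' F) where
  carrier := {g | (g.1 : Matrix ι ι F) * Φ.P = Φ.P * (g.2 : Matrix ι' ι' F)}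
  one_mem' := by simp
  mul_mem' := fun {a b} ha hb => by
    change (a.1 : Matrix ι ι F) * (b.1 : Matrix ι ι F) * Φ.P =
      Φ.P * ((a.2 : Matrix ι' ι' F) * (b.2 : Matrix ι' ι' F))
    rw [Matrix.mul_assoc, hb, ← Matrix.mul_assoc, ha, Matrix.mul_assoc]
  inv_mem' := fun {a} ha => by
    change ((a.1⁻¹ : GL ι F) : Matrix ι ι F) * Φ.P = Φ.P * ((a.2⁻¹ : GL ι' F) : Matrix ι' ι' F)
    calc _ = ((a.1⁻¹ : GL ι F) : Matrix ι ι F) * (Φ.P * (a.2 : Matrix ι' ι' F)) *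
          ((a.2⁻¹ : GL ι' F) : Matrix ι' ι' F) := by
          rw [Matrix.mul_assoc, Matrix.mul_assoc, Units.mul_inv, Matrix.mul_one]
      _ = _ := by rw [← ha, ← Matrix.mul_assoc, Units.inv_mul, Matrix.one_mul]

theorem exists_Gr {S : Set R'} {g : GL ι F} (hg : g ∈ Φ.Ys S) : ∃ g' ∈ C'.Xs S, (g, g') ∈ Φ.Gr := by
  have := Φ.Ys_le (S := S) (K := (Φ.Gr ⊓ (C'.Xs S).comap (MonoidHom.snd _ _)).map
    (MonoidHom.fst _ _)) (fun s hs t => ⟨(_, C'.x s t), ⟨Φ.y_P s t, C'.x_mem hs t⟩, rfl⟩) hg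
  obtain ⟨⟨_, g'⟩, ⟨h1, h2⟩, rfl⟩ := this
  exact ⟨g', h2, h1⟩

theorem Gr_one {g' : GL ι' F} (h : (1, g') ∈ Φ.Gr) : g' = 1 := by
  have : ((1 : GL ι F) : Matrix ι ι F) * Φ.P = Φ.P * (g' : Matrix ι' ι' F) := h
  have := congrArg (Φ.Lm * ·) this
  simp only [Units.val_one, Matrix.one_mul, ← Matrix.mul_assoc, Φ.LP] at this
  exact Units.ext this.symm

theorem ker_U {u : GL ι F} (hu : u ∈ C.U C.f 1) (hT : u ∈ Φ.Cz) (h : (u, 1) ∈ Φ.Gr) : u = 1 := by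
  rw [Φ.U_eq] at hu
  refine C.level_ind (C'.f.comp Φ.pr) 1 (fun c => 0 < c → ∀ u ∈ C.U (C'.f.comp Φ.pr) c, u ∈ Φ.Cz →
    (u, 1) ∈ Φ.Gr → u = 1) ?_ ?_ one_pos u hu hT h
  · intro c h _ u hu _ _
    rwa [h, Subgroup.mem_bot] at hu
  · intro c _ ih hc u hu hT h
    rcases Φ.step C'.f_inj hc hu hT with h1 | ⟨s, t, h1, u', h2, h3, rfl⟩
    · exact ih (by omega) u h1 hT h
    · obtain ⟨g', h4, h5⟩ := Φ.exists_Gr (Φ.peel C'.f_inj (by omega) h2 h3)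
      have h6 : (Φ.y s t, C'.x s t) ∈ Φ.Gr := Φ.y_P s t
      have h7 := Φ.Gr_one (g' := C'.x s t * g') (by simpa using mul_mem (inv_mem h) (mul_mem h6 h5))
      have h8 : t = 0 := C'.co_cancel s fun i => by
        rw [← C'.entry_peel (g := C'.f) (by omega) (h1 ▸ h4) t i, h7, Units.val_one,
          one_apply_ne (C'.hb_ne_e _ _), mul_zero]
      have h9 : Φ.y s 0 = 1 := by
        rcases Φ.orb s with ⟨r, c, -, h1, h2⟩ |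
          ⟨r₁, r₂, r₃, c₁, c₂, c₃, -, -, -, -, -, -, -, -, -, h1, h2⟩ <;> simp [h2, x_zero]
      rw [h8, h9, one_mul] at h ⊢
      exact ih (by omega) u' h2 h3 h

theorem U_P {u : GL ι F} (hu : u ∈ C.U C.f 1) (r : R) (v : ι → F)
    (hv : ∀ k, v k ≠ 0 → C'.f (C'.rt (Φ.so r)) ≤ C'.f (Φ.pr (C.wt k))) :
    ((u : Matrix ι ι F) *ᵥ v) (C.e r) = v (C.e r) := by
  rw [Φ.U_eq] at hu
  have h1 := (C.U_le_UT _ one_pos hu).1
  rw [mulVec, dotProduct, Finset.sum_eq_single (C.e r), h1 _ _ (by omega)]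
  · simp
  · intro k _ hk
    by_cases e : v k = 0
    · rw [e, mul_zero]
    · have := hv k e
      rw [h1 _ _ (by
        change C'.f (Φ.pr _) < C'.f (Φ.pr _) + 1
        rw [C.wt_e, ← Φ.rt_so]; omega), one_apply_ne hk.symm, zero_mul]
  · simp

theorem ker_eq {g : GL ι F} (hg : g ∈ C.Xs Set.univ) (hT : g ∈ Φ.Cz) (h : (g, 1) ∈ Φ.Gr) :
    g = 1 := by
  obtain ⟨u, hu, χ, L, v, hv, rfl⟩ := Φ.extra.bruhat hg
  have col : ∀ g : GL ι F, (g, 1) ∈ Φ.Gr → ∀ s, (g : Matrix ι ι F) *ᵥ Φ.P.col s = Φ.P.col s :=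
    fun g hg s => by
      have : (g : Matrix ι ι F) * Φ.P = Φ.P * ((1 : GL ι' F) : Matrix ι' ι' F) := hg
      rw [Units.val_one, Matrix.mul_one] at this
      ext k
      conv_rhs => rw [← this]
      rfl
  have hA := Φ.extra.acts_nw L
  obtain ⟨χ', e⟩ := Φ.extra.mem_H L fun i => by
    have h1 := col _ h (C'.e (Φ.so (C.p i)))
    set X := Φ.P.col (C'.e (Φ.so (C.p i))) with hX
    have h2 : ((C.nw L : GL ι F) : Matrix ι ι F) *ᵥ ((v : Matrix ι ι F) *ᵥ X) =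
        (((C.hh χ)⁻¹ * u⁻¹ : GL ι F) : Matrix ι ι F) *ᵥ X := by
      conv_rhs => rw [← h1]
      rw [mulVec_mulVec, mulVec_mulVec, ← Units.val_mul, ← Units.val_mul]
      congr 2; group
    have h3 := congrFun h2 (C.e (C.wr L (C.p i)))
    rw [Φ.extra.row hA, Φ.U_P hv _ _ (fun k hk => by rw [Φ.P_wt k _ hk])] at h3
    have h4 := h3 ▸ mul_ne_zero (Φ.extra.diag_ne hA (C.p i)) (Φ.P_ne (C.p i))
    rw [← map_inv, Units.val_mul, ← mulVec_mulVec, hh_val, mulVec_diagonal] at h4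
    by_contra h5
    have h6 := (Φ.pos _).1 (C.f_p i)
    rw [Φ.pos] at h5
    have h7 := right_ne_zero_of_mul h4
    rw [Φ.U_P (inv_mem hu) _ _ (fun k hk => by rw [Φ.P_wt k _ hk]; omega)] at h7
    have := Φ.P_wt _ _ h7
    rw [C.wt_e, ← Φ.rt_so] at this
    rw [this] at h5
    exact h5 h6
  have e1 : u * C.hh χ * C.nw L * v =
      (u * (C.hh (χ * χ') * v * (C.hh (χ * χ'))⁻¹)) * C.hh (χ * χ') := by
    rw [e, _root_.map_mul]; group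
  have hu₁ := mul_mem hu (C.hh_conj_mem (χ * χ') hv)
  rw [e1] at h hT ⊢
  generalize u * (C.hh (χ * χ') * v * (C.hh (χ * χ'))⁻¹) = u₁ at *
  generalize χ * χ' = χ₁ at *
  have h1 : χ₁ = 1 := ch_ext fun j => by
    have h2 := congrFun (col _ h (C'.e (Φ.so (C.p j)))) (C.e (C.p j))
    rw [Units.val_mul, ← mulVec_mulVec, Φ.U_P hu₁ _ _ (fun k hk => by
      rw [hh_val, mulVec_diagonal] at hk
      rw [Φ.P_wt k _ (right_ne_zero_of_mul hk)]), hh_val, mulVec_diagonal, C.wt_e, C.rt_p] at h2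
    rw [mul_left_eq_self₀.1 h2 |>.resolve_right (Φ.P_ne _)]
    simp [cv]
  rw [h1, _root_.map_one, mul_one] at h hT ⊢
  exact Φ.ker_U hu₁ hT h

theorem iso : Nonempty (↥(C.Xs Set.univ ⊓ Φ.Cz) ≃* C'.Xs Set.univ) := by
  let Γ : Subgroup (GL ι F × GL ι' F) := Subgroup.closure {g | ∃ s t, g = (Φ.y s t, C'.x s t)}
  have hΓ : Γ ≤ Φ.Gr := by
    rw [Subgroup.closure_le]
    rintro _ ⟨s, t, rfl⟩
    exact Φ.y_P s t
  have hY : Φ.Ys Set.univ = C.Xs Set.univ ⊓ Φ.Cz := le_antisymm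
    (le_inf (Φ.Ys_le fun s _ t => Φ.y_mem_Xs (fun _ _ => Set.mem_univ _) t) (Φ.Ys_le_Cz _))
    fun g hg => Φ.mem_Ys hg.1 hg.2
  have r1 : ((MonoidHom.fst _ _).comp Γ.subtype).range = C.Xs Set.univ ⊓ Φ.Cz := by
    rw [MonoidHom.range_comp, Subgroup.range_subtype, MonoidHom.map_closure, ← hY, Ys]
    congr 1
    ext g
    simp [eq_comm]
  have r2 : ((MonoidHom.snd _ _).comp Γ.subtype).range = C'.Xs Set.univ := by
    rw [MonoidHom.range_comp, Subgroup.range_subtype, MonoidHom.map_closure, Xs]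
    congr 1
    ext g
    simp [eq_comm]
  have i1 : Function.Injective ((MonoidHom.fst _ _).comp Γ.subtype) := by
    rw [injective_iff_map_eq_one]
    rintro ⟨⟨g, g'⟩, hg⟩ (rfl : g = 1)
    exact Subtype.ext (Prod.ext rfl (Φ.Gr_one (hΓ hg)))
  have i2 : Function.Injective ((MonoidHom.snd _ _).comp Γ.subtype) := by
    rw [injective_iff_map_eq_one]
    rintro ⟨⟨g, g'⟩, hg⟩ (rfl : g' = 1)
    have : g ∈ C.Xs Set.univ ⊓ Φ.Cz := r1 ▸ ⟨⟨_, hg⟩, rfl⟩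
    exact Subtype.ext (Prod.ext (Φ.ker_eq this.1 this.2 (hΓ hg)) rfl)
  exact ⟨(MulEquiv.subgroupCongr r1.symm).trans ((MonoidHom.ofInjective i1).symm.trans
    ((MonoidHom.ofInjective i2).trans (MulEquiv.subgroupCongr r2)))⟩

end Fold

end CfsgH8
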