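import Mathlib

set_option autoImplicit false

namespace CfsgH8

open PowerSeries

/-- coefficientwise order -/
def PLe (a b : ℕ⟦X⟧) : Prop := ∀ n, coeff n a ≤ coeff n b

lemma PLe.refl (a : ℕ⟦X⟧) : PLe a a := fun _ => le_rfl

lemma PLe.of_eq {a b : ℕ⟦X⟧} (h : a = b) : PLe a b := h ▸ PLe.refl a

lemma PLe.trans {a b c : ℕ⟦X⟧} (h : PLe a b) (h' : PLe b c) : PLe a c :=
  fun n => (h n).trans (h' n)

lemma PLe.add {a b c d : ℕ⟦X⟧} (h : PLe a b) (h' : PLe c d) : PLe (a + c) (b + d) := fun n => by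
  rw [map_add, map_add]; exact add_le_add (h n) (h' n)

lemma PLe.mul {a b c d : ℕ⟦X⟧} (h : PLe a b) (h' : PLe c d) : PLe (a * c) (b * d) := fun n => by
  rw [coeff_mul, coeff_mul]; exact Finset.sum_le_sum fun p _ => Nat.mul_le_mul (h _) (h' _)

lemma PLe.prod {ι : Type*} (s : Finset ι) {a b : ι → ℕ⟦X⟧} (h : ∀ i ∈ s, PLe (a i) (b i)) :
    PLe (∏ i ∈ s, a i) (∏ i ∈ s, b i) := by
  classical
  induction s using Finset.induction_on with
  | empty => exact PLe.refl _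
  | insert i s hi ih =>
    rw [Finset.prod_insert hi, Finset.prod_insert hi]
    exact (h i (by simp)).mul (ih fun j hj => h j (by simp [hj]))

lemma PLe.le_add (a b : ℕ⟦X⟧) : PLe a (a + b) := fun n => by rw [map_add]; omega

/-- the geometric series `1 / (1 - c X ^ j)` -/
noncomputable def ser (c j : ℕ) : ℕ⟦X⟧ := PowerSeries.mk fun n => if j ∣ n then c ^ (n / j) else 0

lemma ser_eq (c : ℕ) {j : ℕ} (hj : 0 < j) : ser c j = 1 + X ^ j * ((c : ℕ⟦X⟧) * ser c j) := by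
  ext n
  rw [map_add, coeff_X_pow_mul', coeff_one, ← nsmul_eq_mul, ser, coeff_mk]
  split_ifs with h1 h2 h3 h4 h5 h6 h7
  · omega
  · simp [h2]
  · rw [map_nsmul, coeff_mk, if_pos ((Nat.dvd_sub_iff_left h4 dvd_rfl).2 h1), zero_add,
      smul_eq_mul, ← pow_succ', ← Nat.div_eq_sub_div hj h4]
  · exact absurd (Nat.le_of_dvd (by omega) h1) h4
  · omega
  · simp [h5] at h1
  · rw [map_nsmul, coeff_mk, if_neg (by rwa [Nat.dvd_sub_iff_left h7 dvd_rfl])]; simp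
  · rfl

lemma geo_eq {j : ℕ} (hj : 0 < j) : ser 1 j = 1 + X ^ j * ser 1 j := by
  simpa using ser_eq 1 hj

lemma PLe.one_geo {j : ℕ} (hj : 0 < j) : PLe 1 (ser 1 j) := by
  rw [geo_eq hj]; exact PLe.le_add _ _

lemma PLe.geo_mul {a b : ℕ⟦X⟧} {j : ℕ} (hj : 0 < j) (h : PLe (a + X ^ j * b) b) :
    PLe (ser 1 j * a) b := fun n => by
  induction n using Nat.strong_induction_on with
  | _ n ih =>
    refine le_trans ?_ (h n)
    rw [geo_eq hj, add_mul, one_mul, mul_assoc, map_add, map_add, coeff_X_pow_mul',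
      coeff_X_pow_mul']
    split_ifs with h1
    · exact Nat.add_le_add_left (ih _ (by omega)) _
    · rfl

lemma PLe.geo_two {j : ℕ} (hj : 0 < j) : PLe (ser 1 j) ((1 + X ^ j) * ser 1 (2 * j)) := by
  rw [← mul_one (ser 1 j)]
  refine PLe.geo_mul hj (PLe.of_eq ?_)
  conv_rhs => rw [add_mul, one_mul]; enter [1]; rw [geo_eq (show 0 < 2 * j by omega)]
  ring

lemma encard_biUnion_le {ι β : Type*} (s : Finset ι) (t : ι → Set β) (m : ι → ℕ)
    (h : ∀ i ∈ s, (t i).encard ≤ m i) : (⋃ i ∈ s, t i).encard ≤ (∑ i ∈ s, m i : ℕ) := by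
  classical
  induction s using Finset.induction_on with
  | empty => simp
  | insert i s hi ih =>
    rw [Finset.set_biUnion_insert, Finset.sum_insert hi, Nat.cast_add]
    exact (Set.encard_union_le _ _).trans
      (add_le_add (h i (by simp)) (ih fun j hj => h j (by simp [hj])))

lemma encard_biUnion_le' {ι β : Type*} {s : Set ι} (t : ι → Set β) {m b : ℕ}
    (hs : s.encard ≤ b) (h : ∀ i ∈ s, (t i).encard ≤ m) : (⋃ i ∈ s, t i).encard ≤ (m * b : ℕ) := by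
  have hf := Set.finite_of_encard_le_coe hs
  have := encard_biUnion_le hf.toFinset t (fun _ => m) fun i hi => h i (hf.mem_toFinset.1 hi)
  simp only [Set.Finite.mem_toFinset, Finset.sum_const, smul_eq_mul] at this
  refine this.trans (Nat.cast_le.2 ?_)
  rw [hf.encard_eq_coe_toFinset_card, Nat.cast_le] at hs
  rw [mul_comm]; exact Nat.mul_le_mul_left _ hs

/-- The generating function of the classes of `S` with weight `w` is bounded by `a`,
up to degree `N`. -/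
def LeC {α β : Type*} (c : α → β) (S : Set α) (w : α → ℕ) (N : ℕ) (a : ℕ⟦X⟧) : Prop :=
  ∀ n ≤ N, (c '' {x | x ∈ S ∧ w x = n}).encard ≤ (coeff n a : ℕ)

variable {α β α' β' : Type*} {c : α → β} {S S' : Set α} {w w₁ : α → ℕ} {N : ℕ} {a b : ℕ⟦X⟧}
  {c' : α' → β'} {T : Set α'} {w' : α' → ℕ}

lemma LeC.mono (h : LeC c S w N a) (h' : PLe a b) : LeC c S w N b :=
  fun n hn => (h n hn).trans (Nat.cast_le.2 (h' n))

lemma LeC.of_rel (h : LeC c' T w' N a) (R : α → α' → Prop)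
    (h1 : ∀ x ∈ S, w x ≤ N → ∃ y ∈ T, R x y ∧ w' y = w x)
    (h2 : ∀ x ∈ S, ∀ x' ∈ S, ∀ y y', w x = w x' → R x y → R x' y' → c' y = c' y' → c x = c x') :
    LeC c S w N a := fun n hn => by
  refine le_trans ?_ (h n hn)
  have : ∀ z : c '' {x | x ∈ S ∧ w x = n}, ∃ z' : c' '' {y | y ∈ T ∧ w' y = n},
      ∃ x ∈ S, ∃ y, w x = n ∧ R x y ∧ c x = z ∧ c' y = z' := by
    rintro ⟨_, x, ⟨hx, rfl⟩, rfl⟩
    obtain ⟨y, hy, h3, h4⟩ := h1 x hx hn
    exact ⟨⟨_, y, ⟨hy, h4⟩, rfl⟩, x, hx, y, rfl, h3, rfl, rfl⟩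
  choose φ hφ using this
  refine Function.Embedding.encard_le ⟨φ, fun z z' hz => ?_⟩
  obtain ⟨x, hx, y, e1, e2, e3, e4⟩ := hφ z
  obtain ⟨x', hx', y', e1', e2', e3', e4'⟩ := hφ z'
  exact Subtype.ext (e3 ▸ e3' ▸ h2 x hx x' hx' y y' (e1.trans e1'.symm) e2 e2'
    (by rw [e4, e4', hz]))

lemma LeC.of_map (h : LeC c' T w' N a) (f : α → α') (h1 : ∀ x ∈ S, f x ∈ T ∧ w' (f x) = w x)
    (h2 : ∀ x ∈ S, ∀ x' ∈ S, w x = w x' → c' (f x) = c' (f x') → c x = c x') : LeC c S w N a :=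
  h.of_rel (fun x y => f x = y) (fun x hx _ => ⟨_, (h1 x hx).1, rfl, (h1 x hx).2⟩)
    (by rintro x hx x' hx' _ _ e rfl rfl; exact h2 x hx x' hx' e)

lemma LeC.subset (h' : LeC c S' w N a) (h : S ⊆ S') : LeC c S w N a :=
  h'.of_map id (fun _ hx => ⟨h hx, rfl⟩) (fun _ _ _ _ _ e => e)

lemma LeC.congr_wt (h' : LeC c S w₁ N a) (h : ∀ x ∈ S, w₁ x = w x) : LeC c S w N a :=
  h'.of_map id (fun x hx => ⟨hx, h x hx⟩) (fun _ _ _ _ _ e => e)

lemma LeC.split (P : α → Prop) (h1 : LeC c {x | x ∈ S ∧ P x} w N a)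
    (h2 : LeC c {x | x ∈ S ∧ ¬ P x} w N b) : LeC c S w N (a + b) := fun n hn => by
  rw [map_add, Nat.cast_add]
  refine le_trans (Set.encard_le_encard ?_) ((Set.encard_union_le _ _).trans
    (add_le_add (h1 n hn) (h2 n hn)))
  rintro _ ⟨x, ⟨hx, hw⟩, rfl⟩
  by_cases h : P x
  · exact Or.inl ⟨x, ⟨⟨hx, h⟩, hw⟩, rfl⟩
  · exact Or.inr ⟨x, ⟨⟨hx, h⟩, hw⟩, rfl⟩

lemma LeC.fib (h₂ : LeC c' T w' N b) (π : α → α') (w₁ : α → ℕ)
    (hT : ∀ x ∈ S, π x ∈ T ∧ w x = w₁ x + w' (π x)) (h₁ : ∀ y, LeC c {x | x ∈ S ∧ c' (π x) = y} w₁ N a) :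
    LeC c S w N (a * b) := fun n hn => by
  rw [coeff_mul]
  refine le_trans (Set.encard_le_encard ?_) (encard_biUnion_le (Finset.HasAntidiagonal.antidiagonal n)
    (fun p => ⋃ y ∈ c' '' {t | t ∈ T ∧ w' t = p.2},
      c '' {x | x ∈ {x | x ∈ S ∧ c' (π x) = y} ∧ w₁ x = p.1}) _ fun p hp => ?_)
  · rintro _ ⟨x, ⟨hx, rfl⟩, rfl⟩
    simp only [Set.mem_iUnion]
    exact ⟨(w₁ x, w' (π x)), by simp [(hT x hx).2], _, ⟨_, ⟨(hT x hx).1, rfl⟩, rfl⟩,
      x, ⟨⟨hx, rfl⟩, rfl⟩, rfl⟩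
  · have := Finset.HasAntidiagonal.mem_antidiagonal.1 hp
    exact encard_biUnion_le' _ (h₂ _ (by omega)) fun y _ => h₁ y _ (by omega)

lemma LeC.pow {i : ℕ} (h1 : ∀ x ∈ S, w x ≤ N → w x = i)
    (h2 : ∀ x ∈ S, ∀ x' ∈ S, w x = i → w x' = i → c x = c x') : LeC c S w N (X ^ i) := fun n hn => by
  rw [coeff_X_pow]
  split_ifs with h
  · refine Set.encard_le_one_iff.2 ?_
    rintro _ _ ⟨x, ⟨hx, e⟩, rfl⟩ ⟨x', ⟨hx', e'⟩, rfl⟩
    exact h2 x hx x' hx' (e.trans h) (e'.trans h)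
  · simp only [Nat.cast_zero, nonpos_iff_eq_zero, Set.encard_eq_zero,
      Set.eq_empty_iff_forall_notMem]
    rintro _ ⟨x, ⟨hx, rfl⟩, -⟩
    exact h (h1 x hx hn)

lemma LeC.zero (h : ∀ x ∈ S, N < w x) : LeC c S w N 0 := fun n hn => by
  simp only [map_zero, Nat.cast_zero, nonpos_iff_eq_zero, Set.encard_eq_zero,
    Set.eq_empty_iff_forall_notMem]
  rintro _ ⟨x, ⟨hx, rfl⟩, -⟩
  exact (h x hx).not_ge hn

lemma LeC.shift (i : ℕ) (w₁ : α → ℕ) (hw : ∀ x ∈ S, w x = w₁ x + i) (h : LeC c S w₁ N a) :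
    LeC c S w N (a * X ^ i) :=
  LeC.fib (c' := id) (T := Set.univ) (w' := fun _ : Unit => i)
    (LeC.pow (fun _ _ _ => rfl) fun _ _ _ _ _ _ => rfl) (fun _ => ()) w₁
    (fun x hx => ⟨trivial, hw x hx⟩) fun _ => h.subset fun _ hx => hx.1

lemma LeC.geo {j : ℕ} (hj : 0 < j) (m : α → ℕ) (w₁ : α → ℕ) (hw : ∀ x ∈ S, w x = w₁ x + j * m x)
    (h : ∀ i, LeC c {x | x ∈ S ∧ m x = i} w₁ N a) : LeC c S w N (a * ser 1 j) :=
  LeC.fib (c' := id) (T := Set.univ) (w' := fun i => j * i) (fun n _ => by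
      rw [ser, coeff_mk]
      split_ifs with h
      · rw [one_pow]
        refine Set.encard_le_one_iff.2 ?_
        rintro _ _ ⟨x, ⟨-, e⟩, rfl⟩ ⟨x', ⟨-, e'⟩, rfl⟩
        exact Nat.eq_of_mul_eq_mul_left hj (e.trans e'.symm)
      · simp only [Nat.cast_zero, nonpos_iff_eq_zero, Set.encard_eq_zero,
          Set.eq_empty_iff_forall_notMem]
        rintro _ ⟨x, ⟨-, rfl⟩, -⟩
        exact h (dvd_mul_right _ _)) m w₁ (fun x hx => ⟨trivial, hw x hx⟩) h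

lemma LeC.pi {P : ℕ → Set α} {v : ℕ → α → ℕ} {a : ℕ → ℕ⟦X⟧} (h : ∀ j, LeC id (P j) (v j) N (a j))
    (J : ℕ) : LeC (fun (f : ℕ → α) (j : Fin J) => f j) {f | ∀ j, f j ∈ P j}
      (fun f => ∑ j ∈ Finset.range J, v j (f j)) N (∏ j ∈ Finset.range J, a j) := by
  induction J with
  | zero =>
    rw [Finset.prod_range_zero, ← pow_zero X]
    exact LeC.pow (fun _ _ _ => rfl) fun _ _ _ _ _ _ => Subsingleton.elim _ _
  | succ J ih =>
    rw [Finset.prod_range_succ]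
    refine (h J).fib (fun f => f J) _ (fun f hf => ⟨hf J, Finset.sum_range_succ _ _⟩)
      fun y => ih.of_map id (fun f hf => ⟨hf.1, rfl⟩) fun f hf f' hf' _ e => funext fun j => ?_
    induction j using Fin.lastCases with
    | last => exact hf.2.trans hf'.2.symm
    | cast j => exact congrFun e j

lemma LeC.ncard (S : Set α) (w : α → ℕ) (h : ∀ n, {x | x ∈ S ∧ w x = n}.Finite) :
    LeC id S w N (PowerSeries.mk fun n => {x | x ∈ S ∧ w x = n}.ncard) := fun n _ => by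
  rw [coeff_mk, Set.image_id, (h n).cast_ncard_eq]

/-- growth bound for the coefficients of index `≡ e (mod 2)` -/
def Bd (q e : ℕ) (a : ℕ⟦X⟧) (C : ℝ) : Prop := ∀ n, (coeff (2 * n + e) a : ℕ) ≤ C * (q : ℝ) ^ n

variable {q e : ℕ} {C D y : ℝ}

lemma Bd.nonneg (h : Bd q e a C) : 0 ≤ C := by
  simpa using (Nat.cast_nonneg _).trans (h 0)

lemma Bd.mono (h : Bd q e a C) (h' : C ≤ D) : Bd q e a D :=
  fun n => (h n).trans (by gcongr)

lemma Bd.of_le (h : Bd q e b C) (h' : PLe a b) : Bd q e a C :=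
  fun n => (Nat.cast_le.2 (h' _)).trans (h n)

lemma Bd.add (h : Bd q e a C) (h' : Bd q e b D) : Bd q e (a + b) (C + D) := fun n => by
  rw [map_add, Nat.cast_add, add_mul]; exact add_le_add (h n) (h' n)

lemma Bd.nsmul (h : Bd q e a C) (k : ℕ) : Bd q e (k * a) (k * C) := fun n => by
  rw [← nsmul_eq_mul, map_nsmul, smul_eq_mul, Nat.cast_mul, mul_assoc]
  exact mul_le_mul_of_nonneg_left (h n) (Nat.cast_nonneg _)

lemma Bd.X_zero (h : Bd q 0 a C) : Bd q 1 (X * a) C := fun n => by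
  rw [coeff_succ_X_mul]; exact h n

lemma Bd.X_one (hy : 1 ≤ y * q) (h : Bd q 1 a C) : Bd q 0 (X * a) (y * C) := fun n => by
  have := h.nonneg
  have hy0 : 0 ≤ y := by
    by_contra h'
    nlinarith [Nat.cast_nonneg (α := ℝ) q]
  cases n with
  | zero => simp; positivity
  | succ n =>
    rw [show 2 * (n + 1) + 0 = 2 * n + 1 + 1 by ring, coeff_succ_X_mul]
    refine (h n).trans ?_
    rw [show y * C * (q : ℝ) ^ (n + 1) = y * q * (C * q ^ n) by ring]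
    exact le_mul_of_one_le_left (by positivity) hy

lemma Bd.X_two (hy : 1 ≤ y * q) (h : Bd q e a C) (he : e ≤ 1) (i : ℕ) :
    Bd q e (X ^ (2 * i) * a) (y ^ i * C) := by
  induction i with
  | zero => simpa using h
  | succ i ih =>
    rw [show X ^ (2 * (i + 1)) * a = X * (X * (X ^ (2 * i) * a)) by ring, pow_succ', mul_assoc]
    obtain rfl | rfl : e = 0 ∨ e = 1 := by omega
    · exact ih.X_zero.X_one hy
    · exact (ih.X_one hy).X_zero

lemma Bd.fix {j : ℕ} (hj : 0 < j) (h : Bd q e a C) (he : e ≤ 1) (hq : 0 < q) {k : ℕ}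
    (hD : C + k / (q : ℝ) ^ j * D ≤ D) (hD0 : 0 ≤ D) : Bd q e (ser k (2 * j) * a) D := fun n => by
  induction n using Nat.strong_induction_on with
  | _ n ih =>
    rw [ser_eq k (show 0 < 2 * j by omega), add_mul, one_mul, map_add, mul_assoc, coeff_X_pow_mul',
      Nat.cast_add]
    refine le_trans (add_le_add (h n) ?_) (by rw [← add_mul]; gcongr)
    split_ifs with h1
    · obtain ⟨m, rfl⟩ : ∃ m, n = m + j := ⟨n - j, by omega⟩
      rw [show 2 * (m + j) + e - 2 * j = 2 * m + e by omega, mul_assoc, ← nsmul_eq_mul, map_nsmul,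
        smul_eq_mul, Nat.cast_mul, show k / (q : ℝ) ^ j * D * q ^ (m + j) = k * (D * q ^ m) by
          field_simp; ring]
      exact mul_le_mul_of_nonneg_left (ih m (by omega)) (Nat.cast_nonneg _)
    · simp; positivity

lemma Bd.ser_zero : Bd q 0 (ser q 2) 1 := fun n => by simp [ser]

lemma Bd.ser_one : Bd q 1 (ser q 2) 0 := fun n => by simp [ser]

end CfsgH8
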