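import Cfsg.Agent.H8.Ptw
import Cfsg.Agent.H8.Gamma
import Cfsg.Agent.H1.Sp3

set_option autoImplicit false
set_option linter.unusedSectionVars false

namespace CfsgH8

open QuadraticMap Module Matrix CfsgH1

variable {F V : Type*} [Field F] [AddCommGroup V] [Module F V] [FiniteDimensional F V]
  {Q : QuadraticForm F V} {κ : Type*} [Fintype κ] [DecidableEq κ]

/-- coordinates for the Wall form of an isometry -/
structure WD (t : OG Q) (β : Matrix κ κ F) where
  φ : (κ → F) →ₗ[F] V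
  inj : Function.Injective φ
  range : LinearMap.range φ = movS t
  form : ∀ y a, t.1 y - y = φ a → ∀ b, a ⬝ᵥ β *ᵥ b = -polar Q y (φ b)
  unit : IsUnit β

lemma exists_WD (hQ : ND Q) (t : OG Q) {s : ℕ} (hs : finrank F (movS t) = s) :
    ∃ β : Matrix (Fin s) (Fin s) F, Nonempty (WD t β) := by
  let b := finBasisOfFinrankEq F _ hs
  refine ⟨(wallB t).toMatrix b, ⟨(movS t).subtype ∘ₗ b.equivFun.symm.toLinearMap,
    Subtype.val_injective.comp b.equivFun.symm.injective, by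
      rw [LinearMap.range_comp, LinearEquiv.range, Submodule.map_subtype_top], fun y a h c => ?_,
    (isUnit_iff_isUnit_det _).2 (det_wallB_ne hQ b).isUnit⟩⟩
  rw [LinearMap.BilinForm.dotProduct_toMatrix_mulVec]
  exact wallB_apply _ _ h

namespace WD

variable {t t' : OG Q} {β : Matrix κ κ F}

lemma mov (D : WD t β) (y : V) : ∃ a, t.1 y - y = D.φ a := by
  obtain ⟨a, ha⟩ : t.1 y - y ∈ LinearMap.range D.φ := D.range ▸ mem_movS.2 ⟨y, rfl⟩
  exact ⟨a, ha.symm⟩

lemma surj (D : WD t β) (a : κ → F) : ∃ y, t.1 y - y = D.φ a :=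
  mem_movS.1 (D.range ▸ LinearMap.mem_range_self _ a)

lemma finrank_eq (D : WD t β) : finrank F (movS t) = Fintype.card κ := by
  rw [← D.range, LinearMap.finrank_range_of_inj D.inj, finrank_fintype_fun_eq_card]

lemma Q_eq (D : WD t β) (a : κ → F) : Q (D.φ a) = a ⬝ᵥ β *ᵥ a := by
  obtain ⟨y, hy⟩ := D.surj a
  have := OG.map_Q t y
  rw [sub_eq_iff_eq_add'.1 hy, Q_add] at this
  rw [D.form y a hy]
  linear_combination this

lemma TS_iff (D : WD t β) : TS Q (movS t) ↔ AltM β := by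
  rw [← D.range]
  exact ⟨fun h a => (D.Q_eq a).symm.trans (h _ ⟨a, rfl⟩), by
    rintro h _ ⟨a, rfl⟩; exact (D.Q_eq a).trans (h a)⟩

/-- change of coordinates -/
def congr (D : WD t β) {P : Matrix κ κ F} (hP : IsUnit P) : WD t (Pᵀ * β * P) where
  φ := D.φ ∘ₗ toLin' P
  inj := D.inj.comp (mulVec_injective_iff_isUnit.2 hP)
  range := by
    rw [LinearMap.range_comp, LinearMap.range_eq_top.2 (mulVec_surjective_iff_isUnit.2 hP),
      Submodule.map_top, D.range]
  form y a h b := by rw [← dot_mul_mul]; exact D.form y _ h _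
  unit := (((isUnit_transpose _).2 hP).mul D.unit).mul hP

lemma left_inj (D : WD t β) {a a' : κ → F} (h : ∀ b, a ⬝ᵥ β *ᵥ b = a' ⬝ᵥ β *ᵥ b) : a = a' := by
  rw [← sub_eq_zero, ← dotProduct_eq_zero_iff]
  intro b
  obtain ⟨b, rfl⟩ := mulVec_surjective_iff_isUnit.2 D.unit b
  rw [sub_dotProduct, h, sub_self]

lemma conj (D : WD t β) (D' : WD t' β) {g : OG Q} (h : ∀ a, g.1 (D.φ a) = D'.φ a) :
    g * t = t' * g := OG.ext' fun y => by
  obtain ⟨a, ha⟩ := D.mov y
  obtain ⟨a', ha'⟩ := D'.mov (g.1 y)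
  obtain rfl : a = a' := D.left_inj fun b => by
    rw [D.form y a ha, D'.form _ _ ha', ← h, OG.map_polar]
  rw [OG.mul_apply, OG.mul_apply, sub_eq_iff_eq_add.1 ha, sub_eq_iff_eq_add.1 ha', map_add, h]

lemma isConj (hQ : ND Q) (D : WD t β) (D' : WD t' β) : IsConj t t' := by
  obtain ⟨g, hg⟩ := witt hQ D.φ D'.φ D.inj D'.inj fun a => by rw [D.Q_eq, D'.Q_eq]
  exact isConj_iff.2 ⟨g, mul_inv_eq_iff_eq_mul.2 (D.conj D' hg)⟩

lemma symm (D : WD t β) (ht : t * t = 1) : βᵀ = β := by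
  have : ∀ a b, a ⬝ᵥ β *ᵥ b = b ⬝ᵥ β *ᵥ a := fun a b => by
    obtain ⟨y, hy⟩ := D.surj a
    obtain ⟨z, hz⟩ := D.surj b
    rw [D.form y a hy, D.form z b hz, ← hy, ← hz, polar_sub_right, polar_sub_right, OG.polar_inv',
      ← eq_inv_of_mul_eq_one_left ht, pcomm z, pcomm z]
  ext i j
  simpa using this (Pi.single j 1) (Pi.single i 1)

theorem card_centralizer [Finite F] (hQ : ND Q) (D : WD t β) :
    Nat.card (Subgroup.centralizer {t}) = Nat.card (IsomG β) * Nat.card (ptw Q (movS t)) := by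
  rw [card_subgroup_eq_orbit (fun (g : OG Q) (ψ : (κ → F) →ₗ[F] V) => g.1.toLinearMap ∘ₗ ψ)
    (fun _ => rfl) (fun _ _ _ => rfl) D.φ _ (fun g hg => Subgroup.mem_centralizer_singleton_iff.2
      (D.conj D (LinearMap.congr_fun hg)))
    (fun ψ => ∃ P : IsomG β, ψ = D.φ ∘ₗ toLin' P.1.1)]
  · congr 1
    · refine (Nat.card_eq_of_bijective (fun P : IsomG β => ⟨_, P, rfl⟩) ⟨fun P P' h => ?_, ?_⟩).symm
      · exact Subtype.ext (Units.ext (toLin'.injective (LinearMap.ext fun a =>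
          D.inj (LinearMap.congr_fun (congrArg Subtype.val h) a))))
      · rintro ⟨_, P, rfl⟩
        exact ⟨P, rfl⟩
    · refine Nat.card_congr (Equiv.subtypeEquivRight fun g => ?_)
      rw [← D.range]
      exact ⟨by rintro h _ ⟨a, rfl⟩; exact LinearMap.congr_fun h a,
        fun h => LinearMap.ext fun a => h _ ⟨a, rfl⟩⟩
  · intro ψ
    constructor
    · rintro ⟨P, rfl⟩
      obtain ⟨g, hg⟩ := witt hQ D.φ (D.congr P.1.isUnit).φ D.inj (D.congr P.1.isUnit).inj fun a => by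
        rw [(D.congr P.1.isUnit).Q_eq, D.Q_eq, mem_IsomG.1 P.2]
      refine ⟨g, Subgroup.mem_centralizer_singleton_iff.2 (D.conj
        ⟨_, (D.congr P.1.isUnit).inj, (D.congr P.1.isUnit).range, fun y a h b => ?_, D.unit⟩ hg),
        LinearMap.ext hg⟩
      rw [← (D.congr P.1.isUnit).form y a h b, mem_IsomG.1 P.2]
    · rintro ⟨g, hg, rfl⟩
      have hg : ∀ y, g.1 (t.1 y) = t.1 (g.1 y) := fun y =>
        congrArg (fun h : OG Q => h.1 y) (Subgroup.mem_centralizer_singleton_iff.1 hg)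
      have h1 : ∀ a, (g.1.toLinearMap ∘ₗ D.φ) a ∈ LinearMap.range D.φ := fun a => by
        obtain ⟨y, hy⟩ := D.surj a
        obtain ⟨a', ha'⟩ := D.mov (g.1 y)
        exact ⟨a', by rw [← ha', ← hg, ← map_sub, hy]; rfl⟩
      let L := (LinearEquiv.ofInjective D.φ D.inj).symm.toLinearMap ∘ₗ
        LinearMap.codRestrict _ _ h1
      have hL : ∀ a, D.φ (L a) = g.1 (D.φ a) := fun a =>
        congrArg Subtype.val ((LinearEquiv.ofInjective D.φ D.inj).apply_symm_apply ⟨_, h1 a⟩)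
      have h2 : (LinearMap.toMatrix' L)ᵀ * β * LinearMap.toMatrix' L = β :=
        isom_toLin'_iff.1 fun a b => by
          obtain ⟨y, hy⟩ := D.surj a
          rw [toLin'_toMatrix', toBilin'_apply', toBilin'_apply', D.form y a hy,
            D.form (g.1 y) (L a) (by rw [hL, ← hy, map_sub, hg]), hL, OG.map_polar]
      exact ⟨⟨(isUnit_of_isom D.unit h2).unit, h2⟩, LinearMap.ext fun a => by simp [hL]⟩

end WD

lemma exists_of_form (hQ : ND Q) {β : Matrix κ κ F} (hβ : IsUnit β) (φ : (κ → F) →ₗ[F] V)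
    (hφ : Function.Injective φ) (h : ∀ a, Q (φ a) = a ⬝ᵥ β *ᵥ a) :
    ∃ t : OG Q, ∃ D : WD t β, D.φ = φ := by
  let ψ : V →ₗ[F] (κ → F) := LinearMap.pi fun i => polarBilin Q (φ (Pi.single i 1))
  have hψ : ∀ y b, ψ y ⬝ᵥ b = polar Q y (φ b) := fun y b => by
    conv_rhs => rw [← Finset.univ_sum_single b, map_sum, pcomm, ← polarBilin_apply_apply, map_sum,
      LinearMap.sum_apply]
    refine Finset.sum_congr rfl fun i _ => ?_
    rw [show Pi.single i (b i) = b i • (Pi.single i 1 : κ → F) by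
      rw [← Pi.single_smul', smul_eq_mul, mul_one], map_smul, map_smul]
    simp [ψ, mul_comm]
  let A : V →ₗ[F] (κ → F) := -(toLin' β⁻¹ᵀ ∘ₗ ψ)
  have hA : ∀ y b, A y ⬝ᵥ β *ᵥ b = -polar Q y (φ b) := fun y b => by
    simp only [A, LinearMap.neg_apply, LinearMap.comp_apply, toLin'_apply, neg_dotProduct]
    rw [mulVec_transpose, ← dotProduct_mulVec, mulVec_mulVec,
      nonsing_inv_mul _ ((isUnit_iff_isUnit_det _).1 hβ), one_mulVec, hψ]
  let T : V →ₗ[F] V := LinearMap.id + φ ∘ₗ A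
  have hT : ∀ y, Q (T y) = Q y := fun y => by
    simp only [T, LinearMap.add_apply, LinearMap.id_apply, LinearMap.comp_apply, Q_add, h, hA]
    ring
  let t : OG Q := ⟨LinearEquiv.ofInjectiveEndo T (inj_of_nd T hT hQ), hT⟩
  have ht : ∀ y, t.1 y - y = φ (A y) := fun y => add_sub_cancel_left y _
  refine ⟨t, ⟨φ, hφ, le_antisymm ?_ ?_, fun y a e b => ?_, hβ⟩, rfl⟩
  · rintro _ ⟨a, rfl⟩
    obtain ⟨f, hf⟩ := hQ.exists_dual_family (e := fun i => φ (Pi.single i 1))
      ((Pi.linearIndependent_single_one κ F).map' φ (LinearMap.ker_eq_bot.2 hφ))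
    refine mem_movS.2 ⟨∑ j, (-(βᵀ *ᵥ a)) j • f j, ?_⟩
    have : ψ (∑ j, (-(βᵀ *ᵥ a)) j • f j) = -(βᵀ *ᵥ a) := by
      ext i
      simp only [map_sum, map_smul, Finset.sum_apply, Pi.smul_apply]
      simp [ψ, hf]
    rw [ht]
    simp only [A, LinearMap.neg_apply, LinearMap.comp_apply, toLin'_apply, this, mulVec_neg,
      neg_neg, mulVec_mulVec, ← transpose_mul,
      mul_nonsing_inv _ ((isUnit_iff_isUnit_det _).1 hβ), transpose_one, one_mulVec]
  · intro x hx
    obtain ⟨y, rfl⟩ := mem_movS.1 hx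
    exact ⟨_, (ht y).symm⟩
  · rw [ht] at e
    rw [← hφ e, hA]

lemma finrank_movS_eq_zero {t : OG Q} : finrank F (movS t) = 0 ↔ t = 1 := by
  rw [Submodule.finrank_eq_zero]
  refine ⟨fun h => OG.ext' fun x => ?_, by rintro rfl; exact movS_one⟩
  have : t.1 x - x ∈ movS t := mem_movS.2 ⟨x, rfl⟩
  rwa [h, Submodule.mem_bot, sub_eq_zero] at this

lemma movS_conj (g t : OG Q) : movS (g * t * g⁻¹) = (movS t).map g.1.toLinearMap := by
  rw [← og_ofOG, SIso.movS_og]
  ext x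
  exact ⟨fun h => ⟨_, h, g.1.apply_symm_apply x⟩, by
    rintro ⟨y, hy, rfl⟩; exact (ofOG Q g).T_mem_mapS.2 hy⟩

lemma refl_comm_of_fix {t : OG Q} {v : V} (h : t.1 v = v) : refl Q v * t = t * refl Q v := by
  rw [eq_comm, ← mul_inv_eq_iff_eq_mul, refl_conj, h]

section two

variable [CharP F 2]

include F in
lemma add_self_two (x : V) : x + x = 0 := by
  rw [← two_smul F, CharTwo.two_eq_zero, zero_smul]

lemma mov_le_fix {t : OG Q} (ht : t * t = 1) : movS t ≤ fixS t := fun x hx => by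
  obtain ⟨y, rfl⟩ := mem_movS.1 hx
  rw [mem_fixS, map_sub, ← OG.mul_apply, ht, OG.one_apply, ← neg_sub, neg_eq_iff_add_eq_zero,
    add_self_two (F := F)]

lemma two_mul_finrank_movS {t : OG Q} (ht : t * t = 1) : 2 * finrank F (movS t) ≤ finrank F V := by
  have := Submodule.finrank_mono (mov_le_fix ht)
  have := finrank_movS_add t
  omega

lemma WD.mul_self (hQ : ND Q) {t : OG Q} {β : Matrix κ κ F} (D : WD t β) (hβ : βᵀ = β) :
    t * t = 1 := OG.ext' fun y => by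
  obtain ⟨a, ha⟩ := D.mov y
  have h1 : D.φ a ∈ fixS t := by
    rw [← perp_movS hQ, ← D.range]
    refine mem_perp.2 ?_
    rintro _ ⟨b, rfl⟩
    have : b ⬝ᵥ β *ᵥ a = a ⬝ᵥ β *ᵥ b := by
      rw [dotProduct_mulVec, ← mulVec_transpose, hβ, dotProduct_comm]
    simp only [polar, ← map_add, D.Q_eq, mulVec_add, add_dotProduct, dotProduct_add, this]
    linear_combination (a ⬝ᵥ β *ᵥ b) * (CharTwo.two_eq_zero (R := F))
  rw [OG.mul_apply, sub_eq_iff_eq_add.1 ha, map_add, mem_fixS.1 h1, sub_eq_iff_eq_add.1 ha,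
    ← add_assoc, add_self_two (F := F), zero_add, OG.one_apply]

lemma exists_WD_one [Finite F] (hQ : ND Q) {t : OG Q} (ht : t * t = 1) (h : ¬ TS Q (movS t)) {s : ℕ}
    (hs : finrank F (movS t) = s) : Nonempty (WD t (1 : Matrix (Fin s) (Fin s) F)) := by
  obtain ⟨β, ⟨D⟩⟩ := exists_WD hQ t hs
  obtain ⟨P, hP⟩ := exists_congr_one (D.symm ht) D.unit fun h' => h (D.TS_iff.2 h')
  exact ⟨hP ▸ D.congr P.isUnit⟩

theorem isConj_invol [Finite F] (hQ : ND Q) {t t' : OG Q} (ht : t * t = 1) (ht' : t' * t' = 1) :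
    IsConj t t' ↔ finrank F (movS t) = finrank F (movS t') ∧ (TS Q (movS t) ↔ TS Q (movS t')) := by
  constructor
  · intro h
    obtain ⟨g, rfl⟩ := isConj_iff.1 h
    rw [movS_conj]
    refine ⟨(LinearEquiv.finrank_map_eq _ _).symm, fun h => h.map g, fun h x hx => ?_⟩
    rw [← OG.map_Q g]; exact h _ ⟨x, hx, rfl⟩
  · rintro ⟨h1, h2⟩
    by_cases h : TS Q (movS t)
    · obtain ⟨β, ⟨D⟩⟩ := exists_WD hQ t rfl
      obtain ⟨β', ⟨D'⟩⟩ := exists_WD hQ t' h1.symm
      obtain ⟨P, hP⟩ := alt_congr_GL D.unit (D.TS_iff.1 h) D'.unit (D'.TS_iff.1 (h2.1 h))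
      exact WD.isConj hQ (hP ▸ D.congr P.isUnit) D'
    · obtain ⟨D⟩ := exists_WD_one hQ ht h rfl
      obtain ⟨D'⟩ := exists_WD_one hQ ht' (fun h' => h (h2.2 h')) h1.symm
      exact D.isConj hQ D'

lemma even_of_TS (hQ : ND Q) {t : OG Q} (h : TS Q (movS t)) : Even (finrank F (movS t)) := by
  obtain ⟨β, ⟨D⟩⟩ := exists_WD hQ t rfl
  simpa using even_card_of_altM D.unit (D.TS_iff.1 h)

lemma exists_invol_TS (hQ : ND Q) {U : Submodule F V} (hU : TS Q U) (he : Even (finrank F U)) :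
    ∃ t : OG Q, t * t = 1 ∧ movS t = U := by
  let b := finBasis F U
  obtain ⟨t, D, hD⟩ := exists_of_form hQ (isUnit_onesM (F := F) (ι := Fin (finrank F U))
    (by simpa using he)) (U.subtype ∘ₗ b.equivFun.symm.toLinearMap)
    (Subtype.val_injective.comp b.equivFun.symm.injective)
    fun a => (hU _ (Subtype.prop _)).trans (altM_onesM a).symm
  exact ⟨t, D.mul_self hQ onesM_transpose, by
    rw [← D.range, hD, LinearMap.range_comp, LinearEquiv.range, Submodule.map_subtype_top]⟩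

lemma dot_self_two (a : κ → F) : a ⬝ᵥ a = (∑ i, a i) ^ 2 := by
  rw [CharTwo.sum_sq]; simp [dotProduct, pow_two]

lemma exists_invol_nonalt (hQ : ND Q) {U : Submodule F V} (hU : TS Q U) {w : V}
    (hw : w ∈ perp Q U) (hw1 : Q w = 1) :
    ∃ t : OG Q, t * t = 1 ∧ finrank F (movS t) = finrank F U + 1 ∧ ¬ TS Q (movS t) := by
  let b := finBasis F U
  let σ : (Option (Fin (finrank F U)) → F) →ₗ[F] F := ∑ i, LinearMap.proj i
  have hσ : ∀ a, σ a = ∑ i, a i := fun a => by simp [σ]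
  let φ : (Option (Fin (finrank F U)) → F) →ₗ[F] V :=
    U.subtype ∘ₗ b.equivFun.symm.toLinearMap ∘ₗ LinearMap.funLeft F F some + σ.smulRight w
  have hφ : ∀ a, Q (φ a) = (∑ i, a i) ^ 2 := fun a => by
    simp only [φ, LinearMap.add_apply, LinearMap.comp_apply, Submodule.subtype_apply,
      LinearMap.smulRight_apply, Q_add, Q_smul, polar_sr, hU _ (Subtype.prop _), hw1,
      mem_perp.1 hw _ (Subtype.prop _), hσ]
    ring
  obtain ⟨t, D, hD⟩ := exists_of_form hQ isUnit_one φ ((injective_iff_map_eq_zero φ).2 fun a ha => by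
    have h1 := hφ a
    rw [ha, QuadraticMap.map_zero, eq_comm, pow_eq_zero_iff two_ne_zero] at h1
    simp only [φ, LinearMap.add_apply, LinearMap.smulRight_apply, hσ, h1, zero_smul, add_zero,
      LinearMap.comp_apply, Submodule.subtype_apply, Submodule.coe_eq_zero, LinearEquiv.coe_coe,
      LinearEquiv.map_eq_zero_iff] at ha
    have h2 : ∀ i, a (some i) = 0 := congrFun ha
    ext i
    cases i
    · simpa [h2] using h1
    · exact h2 _) fun a => by rw [hφ, one_mulVec, dot_self_two]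
  refine ⟨t, D.mul_self hQ transpose_one, by simpa using D.finrank_eq, fun h => ?_⟩
  simpa using (D.TS_iff.1 h).diag none

lemma nonalt_dec [Finite F] (hQ : ND Q) {t : OG Q} (ht : t * t = 1) (h : ¬ TS Q (movS t)) :
    ∃ (U : Submodule F V) (w : V), TS Q U ∧ finrank F U + 1 = finrank F (movS t) ∧
      w ∈ perp Q U ∧ Q w = 1 ∧ movS t = U ⊔ F ∙ w := by
  obtain ⟨s, hs⟩ : ∃ s, finrank F (movS t) = s := ⟨_, rfl⟩
  obtain ⟨D⟩ := exists_WD_one hQ ht h hs
  have h0 : s ≠ 0 := fun h0 => h (by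
    rw [Submodule.finrank_eq_zero.1 (hs.trans h0)]; exact TS.bot)
  let i : Fin s := ⟨0, Nat.pos_of_ne_zero h0⟩
  let σ : (Fin s → F) →ₗ[F] F := ∑ i, LinearMap.proj i
  have hσ : ∀ a, σ a = ∑ i, a i := fun a => by simp [σ]
  have hq : ∀ a, Q (D.φ a) = σ a ^ 2 := fun a => by rw [D.Q_eq, one_mulVec, dot_self_two, hσ]
  have h1 : σ (Pi.single i 1) = 1 := by simp [hσ]
  refine ⟨(LinearMap.ker σ).map D.φ, D.φ (Pi.single i 1), ?_, ?_, mem_perp.2 ?_, by simp [hq, h1], ?_⟩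
  · rintro _ ⟨a, ha, rfl⟩
    rw [hq, LinearMap.mem_ker.1 ha, zero_pow two_ne_zero]
  · have := σ.finrank_range_add_finrank_ker
    rw [LinearMap.range_eq_top.2 fun c => ⟨c • Pi.single i 1, by simp [h1]⟩, finrank_top,
      finrank_self, finrank_fintype_fun_eq_card, Fintype.card_fin] at this
    rw [← (Submodule.equivMapOfInjective _ D.inj _).finrank_eq]
    omega
  · rintro _ ⟨a, -, rfl⟩
    exact polar_mov_fix (D.range ▸ LinearMap.mem_range_self _ _)
      (mov_le_fix ht (D.range ▸ LinearMap.mem_range_self _ _))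
  · rw [← D.range]
    refine le_antisymm ?_ (sup_le (LinearMap.map_le_range)
      ((Submodule.span_singleton_le_iff_mem _ _).2 (LinearMap.mem_range_self _ _)))
    rintro _ ⟨a, rfl⟩
    rw [← sub_add_cancel a (σ a • Pi.single i 1), map_add, map_smul]
    exact Submodule.add_mem_sup ⟨_, by simp [h1], rfl⟩
      (Submodule.smul_mem _ _ (Submodule.mem_span_singleton_self _))

lemma exists_fix_nonsing (hQ : ND Q) {t : OG Q} (ht : t * t = 1) (h : ¬ MTS Q (movS t)) :
    ∃ v, Q v ≠ 0 ∧ t.1 v = v := by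
  by_cases h1 : TS Q (movS t)
  · obtain ⟨v, hv, hv'⟩ := exists_nonsing_perp hQ (U := movS t)
      (lt_of_le_of_ne (two_mul_finrank_movS ht) fun h2 => h ⟨h1, h2⟩)
    exact ⟨v, hv', mem_fixS.1 (perp_movS hQ t ▸ hv)⟩
  · simp only [TS, not_forall] at h1
    obtain ⟨v, hv, hv'⟩ := h1
    exact ⟨v, hv', mem_fixS.1 (mov_le_fix ht hv)⟩

end two

end CfsgH8
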