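import Cfsg.Agent.H8.Inv2

set_option autoImplicit false
set_option linter.unusedSectionVars false

namespace CfsgH8

open QuadraticMap Module Matrix CfsgH1

lemma isConj_equiv_iff {G H : Type*} [Group G] [Group H] (e : G ≃* H) {g h : G} :
    IsConj (e g) (e h) ↔ IsConj g h :=
  ⟨fun hc => by simpa using e.symm.toMonoidHom.map_isConj hc, e.toMonoidHom.map_isConj⟩

lemma card_classes_congr {G H : Type*} [Group G] [Group H] (e : G ≃* H) (n : ℕ) :
    Nat.card {C : ConjClasses G // ∃ g, ConjClasses.mk g = C ∧ orderOf g = n} =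
      Nat.card {C : ConjClasses H // ∃ g, ConjClasses.mk g = C ∧ orderOf g = n} :=
  card_classes_of_inv _ (fun g => ConjClasses.mk (e g)) _
    (fun g hg => ⟨_, rfl, by rwa [MulEquiv.orderOf_eq]⟩)
    (fun g h _ _ => by rw [ConjClasses.mk_eq_mk_iff_isConj, isConj_equiv_iff])
    (by rintro _ ⟨g, rfl, hg⟩; exact ⟨e.symm g, by rwa [MulEquiv.orderOf_eq], by simp⟩)

lemma orderOf_eq_two_iff' {G : Type*} [Group G] {g : G} : orderOf g = 2 ↔ g * g = 1 ∧ g ≠ 1 := by
  rw [orderOf_eq_prime_iff, pow_two]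

lemma card_ker_inf {G : Type*} [Group G] (φ : G →* ℤˣ) (H : Subgroup G) {h : G} (hh : h ∈ H)
    (h1 : φ h = -1) : 2 * Nat.card {g : φ.ker // g.1 ∈ H} = Nat.card H := by
  have e : {g : φ.ker // g.1 ∈ H} ≃ (φ.comp H.subtype).ker :=
    ⟨fun g => ⟨⟨g.1, g.2⟩, g.1.2⟩, fun g => ⟨⟨g.1, g.2⟩, g.1.2⟩, fun _ => rfl, fun _ => rfl⟩
  rw [Nat.card_congr e, ← (φ.comp H.subtype).ker.index_mul_card, Subgroup.index_ker,
    MonoidHom.range_eq_top.2 fun x => ?_]
  · simp
  · rcases Int.units_eq_one_or x with rfl | rfl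
    · exact ⟨1, _root_.map_one _⟩
    · exact ⟨⟨h, hh⟩, h1⟩

variable {F V : Type*} [Field F] [Fintype F] [AddCommGroup V] [Module F V] [FiniteDimensional F V]
  {Q : QuadraticForm F V}

lemma TS.exists_le {E : Submodule F V} (hE : TS Q E) {k : ℕ} (hk : k ≤ finrank F E) :
    ∃ U, TS Q U ∧ finrank F U = k := by
  obtain ⟨v, hv⟩ := exists_linearIndependent_of_le_finrank hk
  refine ⟨Submodule.span F (Set.range (E.subtype ∘ v)), hE.mono (Submodule.span_le.2 ?_), ?_⟩
  · rintro _ ⟨i, rfl⟩; exact (v i).2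
  · rw [finrank_span_eq_card (hv.map' _ E.ker_subtype), Fintype.card_fin]

lemma TS.exists_perp_one (hQ : ND Q) {U : Submodule F V} (hU : TS Q U)
    (h : 2 * finrank F U + 2 ≤ finrank F V) : ∃ w ∈ perp Q U, Q w = 1 := by
  obtain ⟨W, D, -, -, d3⟩ := hU.exists_hypDec hQ rfl
  have := D.finrank_eq
  simp only [finrank_fintype_fun_eq_card, Fintype.card_sum, Fintype.card_fin] at this
  obtain ⟨w, hw⟩ := (D.nd_right hQ).represents (by omega) 1
  exact ⟨w, d3 ▸ Submodule.mem_sup_right w.2, hw⟩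

variable [CharP F 2]

lemma exists_invol (hQ : ND Q) {m : ℕ} (hn : finrank F V = 2 * m) {E : Submodule F V} (hE : TS Q E)
    (hm : m ≤ finrank F E + 1) {s : ℕ} (h1 : 1 ≤ s) (h2 : s ≤ m) :
    ∃ t : OG Q, t * t = 1 ∧ finrank F (movS t) = s ∧ ¬ TS Q (movS t) := by
  obtain ⟨U, hU, hU'⟩ := hE.exists_le (k := s - 1) (by omega)
  obtain ⟨w, hw, hw'⟩ := hU.exists_perp_one hQ (by omega)
  obtain ⟨t, h3, h4, h5⟩ := exists_invol_nonalt hQ hU hw hw'
  exact ⟨t, h3, by omega, h5⟩

theorem card_invol_O (hQ : ND Q) {m w : ℕ} (hn : finrank F V = 2 * m)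
    (hw : ∀ U, TS Q U → finrank F U ≤ w) {E : Submodule F V} (hE : TS Q E) (hEw : finrank F E = w)
    (hm : m ≤ w + 1) :
    Nat.card {C : ConjClasses (OG Q) // ∃ g, ConjClasses.mk g = C ∧ orderOf g = 2} = m + w / 2 := by
  classical
  let T : Finset (ℕ × Bool) := (Finset.range m).image (fun i => (i + 1, false)) ∪
    (Finset.range (w / 2)).image fun i => (2 * (i + 1), true)
  have hT : ∀ s b, (s, b) ∈ T ↔ 1 ≤ s ∧ (b = false → s ≤ m) ∧ (b = true → s ≤ w ∧ Even s) := by
    intro s b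
    cases b
    · simp only [T, Finset.mem_union, Finset.mem_image, Finset.mem_range, Prod.mk.injEq]
      simp only [and_true, Bool.true_eq_false, and_false, exists_false, or_false, true_implies,
        Bool.false_eq_true, false_implies]
      exact ⟨by rintro ⟨i, h, rfl⟩; omega, fun h => ⟨s - 1, by omega⟩⟩
    · simp only [T, Finset.mem_union, Finset.mem_image, Finset.mem_range, Prod.mk.injEq]
      simp only [and_true, Bool.true_eq_false, and_false, exists_false, false_or, true_implies,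
        Bool.false_eq_true, false_implies, true_and, Nat.even_iff]
      exact ⟨by rintro ⟨i, h, rfl⟩; omega, fun h => ⟨s / 2 - 1, by omega⟩⟩
  rw [card_classes_of_inv (fun g : OG Q => orderOf g = 2)
    (fun g => (finrank F (movS g), decide (TS Q (movS g)))) (· ∈ T)]
  · rw [Nat.card_eq_finsetCard, Finset.card_union_of_disjoint (by simp [Finset.disjoint_left]),
      Finset.card_image_of_injective _ fun i j h => by simpa using h,
      Finset.card_image_of_injective _ fun i j h => by simpa using h]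
    simp
  · intro g hg
    obtain ⟨h1, h2⟩ := orderOf_eq_two_iff'.1 hg
    have := two_mul_finrank_movS h1
    exact (hT _ _).2 ⟨Nat.pos_of_ne_zero fun h => h2 (finrank_movS_eq_zero.1 h), fun _ => by omega,
      fun h => ⟨hw _ (of_decide_eq_true h), even_of_TS hQ (of_decide_eq_true h)⟩⟩
  · intro g h hg hh
    rw [Prod.mk.injEq, decide_eq_decide,
      isConj_invol hQ (orderOf_eq_two_iff'.1 hg).1 (orderOf_eq_two_iff'.1 hh).1]
  · rintro ⟨s, b⟩ h
    obtain ⟨h1, h2, h3⟩ := (hT _ _).1 h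
    cases b
    · obtain ⟨t, t1, t2, t3⟩ := exists_invol hQ hn hE (by omega) h1 (h2 rfl)
      exact ⟨t, orderOf_eq_two_iff'.2 ⟨t1, fun h => by
        have := finrank_movS_eq_zero.2 h; omega⟩, by simp [t2, t3]⟩
    · obtain ⟨U, hU, hU'⟩ := hE.exists_le (k := s) (hEw ▸ (h3 rfl).1)
      obtain ⟨t, t1, t2⟩ := exists_invol_TS hQ hU (hU' ▸ (h3 rfl).2)
      subst t2
      exact ⟨t, orderOf_eq_two_iff'.2 ⟨t1, fun h => by
        have := finrank_movS_eq_zero.2 h; omega⟩, by simp [hU, hU']⟩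

open Classical in
/-- the class of a maximal totally singular subspace -/
noncomputable def par (Q : QuadraticForm F V) (E U : Submodule F V) : ℤˣ :=
  if MTS Q U then (-1) ^ finrank F ↥(E ⊓ U) else 1

lemma MTS.map_iff {U : Submodule F V} (g : OG Q) : MTS Q (U.map g.1.toLinearMap) ↔ MTS Q U :=
  ⟨fun h => by
    have := h.map g⁻¹
    rwa [← CfsgH8.map_mul, inv_mul_cancel, show (1 : OG Q).1.toLinearMap = LinearMap.id from rfl,
      Submodule.map_id] at this, fun h => h.map g⟩

lemma par_map (hQ : ND Q) (hG : Good Q) {E : Submodule F V} (hE : ∀ U, MTS Q U → MTS Q E)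
    {U : Submodule F V} (hU : MTS Q U) (g : OG Q) :
    par Q E (U.map g.1.toLinearMap) = dickF g * par Q E U := by
  rw [par, par, if_pos hU, if_pos (hU.map g), (hE U hU).parity_map hQ hG hU]

theorem isConj_invol_Omega (hQ : ND Q) (hG : Good Q) {E : Submodule F V}
    (hE : ∀ U, MTS Q U → MTS Q E) {t t' : commutator (OG Q)} (ht : t * t = 1) (ht' : t' * t' = 1) :
    IsConj t t' ↔ finrank F (movS t.1) = finrank F (movS t'.1) ∧
      (TS Q (movS t.1) ↔ TS Q (movS t'.1)) ∧ par Q E (movS t.1) = par Q E (movS t'.1) := by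
  have h2 : (2 : F) = 0 := CharTwo.two_eq_zero
  have ht1 : t.1 * t.1 = 1 := congrArg Subtype.val ht
  rw [← and_assoc, ← isConj_invol hQ ht1 (congrArg Subtype.val ht')]
  constructor
  · intro h
    refine ⟨(commutator (OG Q)).subtype.map_isConj h, ?_⟩
    obtain ⟨g, rfl⟩ := isConj_iff.1 h
    rw [show (g * t * g⁻¹).1 = g.1 * t.1 * g.1⁻¹ from rfl, movS_conj]
    by_cases h : MTS Q (movS t.1)
    · rw [par_map hQ hG hE h, (mem_commutator_iff_two hQ hG h2 _).1 g.2, one_mul]
    · rw [par, par, if_neg h, if_neg (by rwa [MTS.map_iff])]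
  · rintro ⟨h, h'⟩
    obtain ⟨g, hg⟩ := isConj_iff.1 h
    rcases Int.units_eq_one_or (dickF g) with hd | hd
    · exact isConj_iff.2 ⟨⟨g, (mem_commutator_iff_two hQ hG h2 _).2 hd⟩, Subtype.ext hg⟩
    · by_cases h : MTS Q (movS t.1)
      · rw [← hg, movS_conj, par_map hQ hG hE h, hd, right_eq_mul] at h'
        exact absurd h' (by decide)
      · obtain ⟨v, hv, hv'⟩ := exists_fix_nonsing hQ ht1 h
        refine isConj_iff.2 ⟨⟨g * refl Q v, (mem_commutator_iff_two hQ hG h2 _).2 (by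
          rw [dickF_mul hQ hG, hd, dickF_refl hQ hv]; decide)⟩, Subtype.ext ?_⟩
        show g * refl Q v * t.1 * (g * refl Q v)⁻¹ = t'.1
        rw [mul_assoc g, refl_comm_of_fix hv', ← hg]
        group

theorem card_invol_Omega (hQ : ND Q) (hG : Good Q) {m w : ℕ} (hn : finrank F V = 2 * m)
    (hm1 : 1 ≤ m) (hw : ∀ U, TS Q U → finrank F U ≤ w) {E : Submodule F V} (hE : TS Q E)
    (hEw : finrank F E = w) (hm : m ≤ w + 1) :
    Nat.card {C : ConjClasses (commutator (OG Q)) // ∃ g, ConjClasses.mk g = C ∧ orderOf g = 2} =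
      m / 2 + w / 2 + if w = m ∧ Even m then 1 else 0 := by
  classical
  have h2 : (2 : F) = 0 := CharTwo.two_eq_zero
  have hwm := two_mul_finrank_le hQ hE.le_perp
  have hE' : ∀ U, MTS Q U → MTS Q E := fun U hU => ⟨hE, by
    have := hw U hU.1; have := hU.2; omega⟩
  let T : Finset (ℕ × Bool × ℤˣ) := (Finset.range (m / 2)).image (fun i => (2 * (i + 1), false, 1)) ∪
    (Finset.range (w / 2)).image (fun i => (2 * (i + 1), true, 1)) ∪
    if w = m ∧ Even m then {(m, true, -1)} else ∅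
  have hT : ∀ s b ε, (s, b, ε) ∈ T ↔ 1 ≤ s ∧ s ≤ m ∧ Even s ∧ (b = true → s ≤ w) ∧
      (ε = 1 ∨ (b = true ∧ s = m)) := by
    intro s b ε
    have e1 : ((1 : ℤˣ) = -1) = False := eq_false (by decide)
    have e2 : ((-1 : ℤˣ) = 1) = False := eq_false (by decide)
    have e3 : ∀ (p : Prop) [Decidable p] (x y : ℕ × Bool × ℤˣ),
        (x ∈ if p then ({y} : Finset _) else ∅) ↔ p ∧ x = y := by
      intro p _ x y; split_ifs <;> simp [*]
    simp only [T, Finset.mem_union, Finset.mem_image, Finset.mem_range, Prod.mk.injEq, e3,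
      Nat.even_iff]
    rcases Int.units_eq_one_or ε with rfl | rfl <;> cases b <;>
      simp only [and_true, Bool.true_eq_false, and_false, exists_false, false_or, true_implies,
        Bool.false_eq_true, false_implies, true_and, or_false, e1, e2, true_or, false_and]
    · exact ⟨by rintro ⟨i, h, rfl⟩; omega, fun h => ⟨s / 2 - 1, by omega⟩⟩
    · exact ⟨by rintro ⟨i, h, rfl⟩; omega, fun h => ⟨s / 2 - 1, by omega⟩⟩
    · omega
  have hmem : ∀ {t : OG Q}, Even (finrank F (movS t)) → t ∈ commutator (OG Q) := fun h =>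
    (mem_commutator_iff_two hQ hG h2 _).2 (dickF_eq_one_iff.2 h)
  have hord : ∀ {t : OG Q} (h : t ∈ commutator (OG Q)), t * t = 1 → 1 ≤ finrank F (movS t) →
      orderOf (⟨t, h⟩ : commutator (OG Q)) = 2 := fun h h1 h3 =>
    orderOf_eq_two_iff'.2 ⟨Subtype.ext h1, fun h => by
      have := finrank_movS_eq_zero.2 (congrArg Subtype.val h); simp only at this; omega⟩
  rw [card_classes_of_inv (fun g : commutator (OG Q) => orderOf g = 2)
    (fun g => (finrank F (movS g.1), decide (TS Q (movS g.1)), par Q E (movS g.1))) (· ∈ T)]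
  · rw [Nat.card_eq_finsetCard, Finset.card_union_of_disjoint (by
        split_ifs
        · simp [Finset.disjoint_left]
          rintro _ _ _ _ _ rfl _; decide
        · simp),
      Finset.card_union_of_disjoint (by simp [Finset.disjoint_left]),
      Finset.card_image_of_injective _ fun i j h => by simpa using h,
      Finset.card_image_of_injective _ fun i j h => by simpa using h]
    split_ifs <;> simp
  · intro g hg
    obtain ⟨h1, h3⟩ := orderOf_eq_two_iff'.1 hg
    have := two_mul_finrank_movS (t := g.1) (congrArg Subtype.val h1)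
    refine (hT _ _ _).2 ⟨Nat.pos_of_ne_zero fun h => h3 (Subtype.ext (finrank_movS_eq_zero.1 h)),
      by omega, dickF_eq_one_iff.1 ((mem_commutator_iff_two hQ hG h2 _).1 g.2),
      fun h => hw _ (of_decide_eq_true h), ?_⟩
    by_cases h : MTS Q (movS g.1)
    · exact Or.inr ⟨decide_eq_true h.1, by have := h.2; omega⟩
    · exact Or.inl (if_neg h)
  · intro g h hg hh
    rw [Prod.mk.injEq, Prod.mk.injEq, decide_eq_decide,
      isConj_invol_Omega hQ hG hE' (orderOf_eq_two_iff'.1 hg).1 (orderOf_eq_two_iff'.1 hh).1]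
  · rintro ⟨s, b, ε⟩ h
    obtain ⟨h1, h3, h4, h5, h6⟩ := (hT _ _ _).1 h
    cases b
    · obtain ⟨t, t1, t2, t3⟩ := exists_invol hQ hn hE (by omega) h1 h3
      refine ⟨⟨t, hmem (t2 ▸ h4)⟩, hord _ t1 (t2 ▸ h1), ?_⟩
      simp only [t2, t3, decide_false, par, if_neg fun h : MTS Q (movS t) => t3 h.1,
        h6.resolve_right (by simp)]
    · obtain ⟨U, hU, hU', hε⟩ : ∃ U, TS Q U ∧ finrank F U = s ∧ par Q E U = ε := by
        obtain ⟨U, hU, hU'⟩ := hE.exists_le (k := s) (hEw ▸ h5 rfl)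
        by_cases h7 : s = m
        · have hM : MTS Q U := ⟨hU, by omega⟩
          have : Nontrivial V := Module.nontrivial_of_finrank_pos (R := F) (by omega)
          obtain ⟨v, hv⟩ := hQ.exists_nonsing
          by_cases h8 : par Q E U = ε
          · exact ⟨U, hU, hU', h8⟩
          · refine ⟨_, hU.map (refl Q v), (LinearEquiv.finrank_map_eq _ _).trans hU', ?_⟩
            rw [par_map hQ hG hE' hM, dickF_refl hQ hv]
            exact (by decide : ∀ ε x : ℤˣ, ¬x = ε → -1 * x = ε) ε _ h8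
        · exact ⟨U, hU, hU', by
            rw [par, if_neg fun h => h7 (by have := h.2; omega), h6.resolve_right fun h => h7 h.2]⟩
      obtain ⟨t, t1, t2⟩ := exists_invol_TS hQ hU (hU' ▸ h4)
      subst t2
      exact ⟨⟨t, hmem (hU' ▸ h4)⟩, hord _ t1 (hU' ▸ h1), by simp [hU, hU', hε]⟩

lemma card_cent_Omega (hQ : ND Q) (hG : Good Q) {t : OG Q} (ht : t * t = 1) :
    (¬ MTS Q (movS t) → 2 * Nat.card {g : commutator (OG Q) // g.1 * t = t * g.1} =
      Nat.card (Subgroup.centralizer {t})) ∧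
    (MTS Q (movS t) → Nat.card {g : commutator (OG Q) // g.1 * t = t * g.1} =
      Nat.card (Subgroup.centralizer {t})) := by
  have h2 : (2 : F) = 0 := CharTwo.two_eq_zero
  refine ⟨fun h => ?_, fun h => ?_⟩
  · obtain ⟨v, hv, hv'⟩ := exists_fix_nonsing hQ ht h
    rw [← card_ker_inf (dick hQ hG) _ (Subgroup.mem_centralizer_singleton_iff.2
      (refl_comm_of_fix hv')) (dickF_refl hQ hv),
      show commutator (OG Q) = (dick hQ hG).ker from
        Subgroup.ext (mem_commutator_iff_two hQ hG h2)]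
    simp only [Subgroup.mem_centralizer_singleton_iff]
  · refine Nat.card_congr ⟨fun g => ⟨g.1, Subgroup.mem_centralizer_singleton_iff.2 g.2⟩,
      fun g => ⟨⟨g, (mem_commutator_iff_two hQ hG h2 _).2 ?_⟩,
        Subgroup.mem_centralizer_singleton_iff.1 g.2⟩, fun _ => rfl, fun _ => rfl⟩
    rw [← h.even_iff_dickF hQ hG, ← movS_conj,
      Subgroup.mem_centralizer_singleton_iff.1 g.2, mul_inv_cancel_right, inf_idem, Nat.sub_self]
    exact Even.zero

theorem card_cent_nonalt {m : ℕ} (hI : Iso (QP m F) Q) (hG : Good Q) {t : OG Q} (ht : t * t = 1)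
    (h : ¬ TS Q (movS t)) {s : ℕ} (hs : finrank F (movS t) = s + 1) :
    s + 1 ≤ m ∧ Nat.card {g : commutator (OG Q) // g.1 * t = t * g.1} =
      Nat.card (IsomG (1 : Matrix (Fin (s + 1)) (Fin (s + 1)) F)) *
        (Fintype.card F ^ (2 * m * s - (3 * (s + 1) ^ 2 - 3 * (s + 1)) / 2) *
          ordSp (Fintype.card F) (m - (s + 1))) := by
  have hQ := hI.nd ND_QH
  have h1 := two_mul_finrank_movS ht
  have h2 := hI.finrank_eq
  simp only [finrank_fintype_fun_eq_card, Fintype.card_sum, Fintype.card_fin] at h2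
  obtain ⟨n, rfl⟩ : ∃ n, m = s + (n + 1) := ⟨m - s - 1, by omega⟩
  obtain ⟨D⟩ := exists_WD_one hQ ht h hs
  obtain ⟨U, w, u1, u2, u3, u4, u5⟩ := nonalt_dec hQ ht h
  have h3 := card_ptw_nonsing u1 (k := s) (by omega) hI u3 u4
  have h4 := (card_cent_Omega hQ hG ht).1 fun h' => h h'.1
  rw [D.card_centralizer hQ, u5] at h4
  refine ⟨by omega, Nat.eq_of_mul_eq_mul_left (show 0 < 2 * Fintype.card F ^ s from
    Nat.mul_pos two_pos (pow_pos Fintype.card_pos _)) ?_⟩
  have h5 : 2 * (n + 1) * s + s * (s - 1) / 2 =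
      2 * (s + (n + 1)) * s - (3 * (s + 1) ^ 2 - 3 * (s + 1)) / 2 + s := by
    obtain ⟨a, ha⟩ := Nat.even_mul_pred_self s
    have e1 : s * s = s * (s - 1) + s := by cases s <;> simp [mul_add]
    rw [show 3 * (s + 1) ^ 2 - 3 * (s + 1) = 2 * (3 * a + 3 * s) by
      apply Nat.sub_eq_of_eq_add; nlinarith, ha, Nat.mul_div_cancel_left _ two_pos,
      show 2 * (s + (n + 1)) * s = 2 * (s * s) + 2 * n * s + 2 * s by ring, e1, ha,
      show 2 * (n + 1) * s = 2 * n * s + 2 * s by ring]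
    omega
  rw [h5, pow_add] at h3
  rw [show s + (n + 1) - (s + 1) = n by omega]
  calc _ = Fintype.card F ^ s * (2 * Nat.card {g : commutator (OG Q) // g.1 * t = t * g.1}) := by ring
    _ = Nat.card (IsomG (1 : Matrix (Fin (s + 1)) (Fin (s + 1)) F)) *
      (Nat.card (ptw Q (U ⊔ F ∙ w)) * Fintype.card F ^ s) := by rw [h4]; ring
    _ = _ := by rw [h3]; ring

theorem card_cent_alt {m : ℕ} (hI : Iso (QP m F) Q) {t : OG Q} (ht : t * t = 1)
    (h : TS Q (movS t)) {k : ℕ} (hs : finrank F (movS t) = 2 * k) :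
    2 * k ≤ m ∧ Nat.card (Subgroup.centralizer {t}) = ordSp (Fintype.card F) k *
      (Fintype.card F ^ (2 * m * (2 * k) - (3 * (2 * k) ^ 2 + 2 * k) / 2) *
        Nat.card (OG (QP (m - 2 * k) F))) := by
  have hQ := hI.nd ND_QH
  have h1 := two_mul_finrank_movS ht
  have h2 := hI.finrank_eq
  simp only [finrank_fintype_fun_eq_card, Fintype.card_sum, Fintype.card_fin] at h2
  obtain ⟨n, rfl⟩ : ∃ n, m = 2 * k + n := ⟨m - 2 * k, by omega⟩
  obtain ⟨β, ⟨D⟩⟩ := exists_WD hQ t hs
  rw [D.card_centralizer hQ, card_IsomG_alt D.unit (D.TS_iff.1 h) (Fintype.card_fin _),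
    card_ptw_TS _ n h hs hI, Nat.add_sub_cancel_left]
  refine ⟨by omega, ?_⟩
  congr 3
  have e1 : 2 * k * (2 * k - 1) = 2 * (2 * (k * k) - k) := by
    rw [Nat.mul_sub, Nat.mul_sub]; congr 1 <;> ring
  have e2 : k ≤ k * k := Nat.le_mul_self k
  rw [e1, Nat.mul_div_cancel_left _ two_pos, show 3 * (2 * k) ^ 2 + 2 * k = 2 * (6 * (k * k) + k) by
    ring, Nat.mul_div_cancel_left _ two_pos,
    show 2 * (2 * k + n) * (2 * k) = 8 * (k * k) + 2 * n * (2 * k) by ring]
  omega

lemma card_comm_congr {ι : Type} [Fintype ι] [DecidableEq ι] {Q : QuadraticForm F (ι → F)}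
    {q : (ι → F) → F} (h : ⇑Q = q) (x : Cfsg.isometryGroup F q) :
    Nat.card {g : Cfsg.Omega F q // (g : Cfsg.isometryGroup F q) * x = x * g} =
      Nat.card {g : commutator (OG Q) // g.1 * toOG h x = toOG h x * g.1} :=
  Nat.card_congr ((commCongr (toOG h)).toEquiv.subtypeEquiv fun g => by
    rw [← (toOG h).injective.eq_iff, _root_.map_mul, _root_.map_mul]; rfl)

end CfsgH8
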