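import Cfsg.Agent.H8.ClsT
import Cfsg.Agent.H8.Cnt

set_option autoImplicit false
set_option linter.unusedSectionVars false

namespace CfsgH8

open Module QuadraticMap Polynomial

universe u

lemma ncard_half {α : Type*} {M : Set α} (hM : M.Finite) (P : α → Prop) (φ : α → α)
    (h1 : ∀ x ∈ M, ¬ P x → φ x ∈ M ∧ P (φ x)) (h2 : Function.Injective φ) :
    M.ncard ≤ 2 * {x | x ∈ M ∧ P x}.ncard := by
  have h3 := Set.ncard_le_ncard_of_injOn (s := {x | x ∈ M ∧ ¬ P x}) (t := {x | x ∈ M ∧ P x}) φ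
    (fun x hx => h1 x hx.1 hx.2) h2.injOn (hM.subset fun _ hx => hx.1)
  have h4 := Set.ncard_union_le {x | x ∈ M ∧ P x} {x | x ∈ M ∧ ¬ P x}
  rw [show {x | x ∈ M ∧ P x} ∪ {x | x ∈ M ∧ ¬ P x} = M from Set.ext fun x => by simp; tauto] at h4
  omega

variable {F : Type u} [Field F]

/-- monic polynomials of given degree -/
def Mon (F : Type u) [Field F] (n : ℕ) : Set F[X] := {h | h.Monic ∧ h.natDegree = n}

lemma finite_Mon [Finite F] (n : ℕ) : (Mon F n).Finite :=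
  (finite_deg one_pos {h | h.Monic} n).subset fun _ h => ⟨h.1, (one_mul _).trans h.2⟩

lemma ncard_Mon (n : ℕ) : (Mon F n).ncard = Nat.card F ^ n := by
  rw [← Nat.card_coe_set_eq]
  exact (Nat.card_congr ((monicEquivDegreeLT n).trans (degreeLTEquiv F n).toEquiv)).trans
    (by rw [Nat.card_fun]; simp)

lemma Mon.add {n : ℕ} {h p : F[X]} (H : h ∈ Mon F n) (hp : p.natDegree < n) : h + p ∈ Mon F n :=
  have := H.2 ▸ hp
  ⟨H.1.add_of_left (degree_lt_degree this), (natDegree_add_eq_left_of_natDegree_lt this).trans H.2⟩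

lemma Mon.div {n : ℕ} {h : F[X]} (H : h ∈ Mon F (n + 1)) {c : F} (hc : h.eval c = 0) :
    ∃ h₁ ∈ Mon F n, h = h₁ * (X - C c) := by
  obtain ⟨h₁, rfl⟩ := dvd_iff_isRoot.2 hc
  have h1 := (monic_X_sub_C c).of_mul_monic_left H.1
  have h2 := H.2
  rw [(monic_X_sub_C c).natDegree_mul h1, natDegree_X_sub_C] at h2
  exact ⟨h₁, ⟨h1, by omega⟩, mul_comm _ _⟩

lemma sq_injOn (n : ℕ) : Set.InjOn (· ^ 2) (Mon F n) := fun h H h' H' e => by
  rcases sq_eq_sq_iff_eq_or_eq_neg.1 e with e | e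
  · exact e
  · have h1 := congrArg leadingCoeff e
    rw [leadingCoeff_neg, H.1, H'.1] at h1
    rw [e, ← neg_one_smul F h', ← h1, one_smul]

lemma sum_sym [CharP F 2] {ι : Type*} [Fintype ι] (f : ι → ι → F) (h : ∀ i j, f i j = f j i) :
    ∑ i, ∑ j, f i j = ∑ i, f i i := by
  classical
  rw [← Finset.sum_product', ← Finset.diag_union_offDiag,
    Finset.sum_union (Finset.disjoint_diag_offDiag _), Finset.sum_diag,
    Finset.sum_involution (fun p _ => p.swap) (fun p _ => by simp [h p.1, CharTwo.add_self_eq_zero])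
      (fun p hp _ e => (Finset.mem_offDiag.1 hp).2.2 (congrArg Prod.snd e))
      (fun p hp => by simpa [eq_comm] using hp) (fun _ _ => rfl), add_zero]

lemma wp_add [Finite F] [CharP F 2] {ζ ζ' : F} (h : ¬ ∃ t, t ^ 2 + t = ζ)
    (h' : ¬ ∃ t, t ^ 2 + t = ζ') : ∃ t, t ^ 2 + t = ζ + ζ' := by
  have h2 : (2 : F) = 0 := CharTwo.two_eq_zero
  let φ : F →+ F :=
    { toFun := fun t => t ^ 2 + t
      map_zero' := by simp
      map_add' := fun a b => by linear_combination (a * b) * h2 }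
  have hker : Nat.card φ.ker = 2 := by
    rw [Nat.card_eq_two_iff]
    refine ⟨⟨0, by simp⟩, ⟨1, ?_⟩, fun h => zero_ne_one (congrArg Subtype.val h), ?_⟩
    · change (1 : F) ^ 2 + 1 = 0
      linear_combination h2
    · ext ⟨t, ht⟩
      have ht' : t * (t - 1) = 0 := by
        have : t ^ 2 + t = 0 := ht
        linear_combination this - t * h2
      simpa [sub_eq_zero] using ht'
  have hidx : φ.range.index = 2 := by
    have h3 := φ.range.card_mul_index
    have h4 := φ.ker.card_mul_index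
    rw [AddSubgroup.index_ker, hker] at h4
    have h5 : 0 < Nat.card φ.range := Nat.card_pos
    apply Nat.eq_of_mul_eq_mul_left h5
    omega
  exact (AddSubgroup.add_mem_iff_of_index_two hidx).2 (iff_of_false h h')

section arf

variable {V : Type*} [AddCommGroup V] [Module F V] [FiniteDimensional F V]
  {Q Q₀ Q₁ : QuadraticForm F V}

lemma iso_QP_of_TS (hQ : ND Q) {n : ℕ} (hn : finrank F V = 2 * n) {U : Submodule F V} (hU : TS Q U)
    (h : finrank F U = n) : Iso (QP n F) Q := by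
  obtain ⟨W, D, -⟩ := hU.exists_hypDec hQ h
  have := D.finrank_eq
  simp only [finrank_fintype_fun_eq_card, Fintype.card_sum, Fintype.card_fin] at this
  have : Subsingleton W := (finrank_zero_iff (R := F)).1 (by omega)
  exact D.iso_of_subsingleton

variable [CharP F 2]

lemma iso_transv {z : V} (h : ∀ x, Q x = Q₀ x + polar Q₀ z x ^ 2) (ht : ∃ t, t ^ 2 + t = Q₀ z) :
    Iso Q Q₀ := by
  have h2 : (2 : F) = 0 := CharTwo.two_eq_zero
  obtain ⟨c, hc⟩ : ∃ c : F, c + c ^ 2 * Q₀ z = 1 := by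
    obtain ⟨t, ht⟩ := ht
    by_cases h0 : Q₀ z = 0
    · exact ⟨1, by simp [h0]⟩
    · exact ⟨t / Q₀ z, by field_simp; linear_combination ht⟩
  let T : End F V := 1 + c • (polarBilin Q₀ z).smulRight z
  have hT : ∀ x, T x = x + (c * polar Q₀ z x) • z := fun x => by simp [T, smul_smul]
  refine ⟨LinearEquiv.ofInvolutive T fun x => ?_, fun x => ?_⟩
  · rw [hT, hT, polar_add_right, polar_sr, polar_self', h2, add_assoc, ← add_smul]
    simp [CharTwo.add_self_eq_zero]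
  · show Q₀ (T x) = _
    rw [hT, h, Q_add, Q_smul, polar_sr, pcomm x]
    linear_combination polar Q₀ z x ^ 2 * hc

lemma exists_diff [Finite F] (h0 : ND Q₀) (h : ∀ x y, polar Q x y = polar Q₀ x y) :
    ∃ z, ∀ x, Q x = Q₀ x + polar Q₀ z x ^ 2 := by
  obtain ⟨δ, hδ⟩ := LinearMap.BilinMap.toQuadraticMap_surjective (Q - Q₀)
  obtain ⟨l, hl⟩ := exists_sqrt_form δ fun x y => by
    rw [← LinearMap.BilinMap.polar_toQuadraticMap, hδ]
    have := h x y
    simp only [polar, sub_apply] at this ⊢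
    linear_combination this
  obtain ⟨z, hz⟩ := h0.exists_dual l
  refine ⟨z, fun x => ?_⟩
  have := DFunLike.congr_fun hδ x
  rw [← hz, pow_two, hl]
  exact eq_add_of_sub_eq' this.symm

lemma iso_QM_of_not [Finite F] {n : ℕ} (hn : 1 ≤ n) (h0 : Iso (QP n F) Q₀) {z : V}
    (h : ∀ x, Q x = Q₀ x + polar Q₀ z x ^ 2) (ht : ¬ ∃ t, t ^ 2 + t = Q₀ z) {a b : F}
    (hab : Aniso a b) : Iso (QM (n - 1) F a b) Q := by
  have h2 : (2 : F) = 0 := CharTwo.two_eq_zero
  have n0 := h0.nd ND_QH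
  obtain ⟨e, he⟩ := CfsgH1.exists_alt_equiv (B := polarBilin Q₀) (B' := polarBilin (QM (n - 1) F a b))
    (fun x => by simp [polar_self', h2]) (fun _ => n0.eq_zero) (fun x => by simp [polar_self', h2])
    (fun _ => (ND_QM hab).eq_zero) (by rw [← h0.finrank_eq]; simp; omega)
  have h3 : ∀ x y, polar ((QM (n - 1) F a b).comp e.toLinearMap) x y = polar Q₀ x y := fun x y =>
    (polar_map e.toLinearMap (fun _ => rfl) x y).symm.trans (he x y)
  have h4 : Iso ((QM (n - 1) F a b).comp e.toLinearMap) (QM (n - 1) F a b) := ⟨e, fun _ => rfl⟩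
  obtain ⟨w, hw⟩ := exists_diff n0 h3
  obtain ⟨t, ht⟩ := wp_add ht fun hw' =>
    not_iso_QP_QM hn hab (h0.trans ((iso_transv hw hw').symm.trans h4))
  refine h4.symm.trans (iso_transv (z := z + w) (fun x => ?_) ⟨t + polar Q₀ z w, ?_⟩).symm
  · rw [h3, hw, h, polar_add_left]
    linear_combination (-polar Q₀ w x ^ 2 - polar Q₀ z x * polar Q₀ w x) * h2
  · rw [hw, Q_add, polar_add_right, polar_self', pcomm w z, h2]
    linear_combination ht + t * polar Q₀ z w * h2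

end arf

namespace Ob

variable {o o₁ o₂ : Ob F}

/-- a self-adjoint operator on a symmetric bilinear space -/
structure SD (o : Ob F) : Prop where
  symm : ∀ x y, o.B x y = o.B y x
  nd : ∀ x, (∀ y, o.B x y = 0) → x = 0
  adj : ∀ x y, o.B (o.g x) y = o.B x (o.g y)

lemma exists_sd {h : F[X]} (hm : h.Monic) : ∃ o : Ob F, SD o ∧ o.g.charpoly = h := by
  have := (AdjoinRoot.powerBasis hm.ne_zero).finite
  let l : AdjoinRoot h →ₗ[F] F := lcoeff F (h.natDegree - 1) ∘ₗ AdjoinRoot.modByMonicHom hm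
  refine ⟨⟨AdjoinRoot h, (LinearMap.mul F _).compr₂ l, Algebra.lmul F _ (AdjoinRoot.root h), 0⟩,
    ⟨fun x y => congrArg l (mul_comm _ _), fun x hx => ?_,
      fun x y => congrArg l (by simp only [Algebra.coe_lmul_eq_mul, LinearMap.mul_apply']; ring)⟩, ?_⟩
  · obtain ⟨p, rfl⟩ := AdjoinRoot.mk_surjective x
    by_contra h0
    have h1 : p %ₘ h ≠ 0 := fun h1 => h0 (AdjoinRoot.mk_eq_zero.2 ((modByMonic_eq_zero_iff_dvd hm).1 h1))
    have h2 := natDegree_lt_natDegree h1 (degree_modByMonic_lt p hm)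
    obtain ⟨k, hk⟩ : ∃ k, h.natDegree = (p %ₘ h).natDegree + k + 1 := Nat.exists_eq_add_of_lt h2
    have h3 := hx (AdjoinRoot.mk h (X ^ k))
    rw [← AdjoinRoot.mk_leftInverse hm (AdjoinRoot.mk h p), AdjoinRoot.modByMonicHom_mk] at h3
    replace h3 : l (AdjoinRoot.mk h (p %ₘ h) * AdjoinRoot.mk h (X ^ k)) = 0 := h3
    rw [← _root_.map_mul, LinearMap.comp_apply, AdjoinRoot.modByMonicHom_mk,
      (modByMonic_eq_self_iff hm).2 (degree_lt_degree (by rw [natDegree_mul_X_pow _ h1]; omega)),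
      lcoeff_apply, hk, Nat.add_sub_cancel, coeff_mul_X_pow] at h3
    exact h1 (leadingCoeff_eq_zero.1 h3)
  · exact (LinearMap.charpoly_toMatrix _ (AdjoinRoot.powerBasis hm.ne_zero).basis).symm.trans
      ((charpoly_leftMulMatrix _).trans (AdjoinRoot.minpoly_powerBasis_gen_of_monic hm))

lemma SD.trace [CharP F 2] (h : SD o) {u : o.V} (hu : ∀ a, o.B u a ^ 2 = o.B a a) {N : End F o.V}
    (hN : ∀ x y, o.B (N x) y = o.B x (N y)) : o.B u (N u) = LinearMap.trace F _ N := by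
  have hB : o.B.Nondegenerate := ⟨h.nd, fun x hx => h.nd x fun y => by rw [h.symm, hx]⟩
  let b := finBasis F o.V
  let d := o.B.dualBasis hB b
  have h1 : ∀ x, x = ∑ i, o.B x (b i) • d i := fun x => by
    simpa only [d, LinearMap.BilinForm.dualBasis_repr_apply] using (d.sum_repr x).symm
  have h2 : ∀ i j, o.B (d i) (N (d j)) = o.B (d j) (N (d i)) := fun i j => by rw [← hN, h.symm]
  have h3 : o.B u (N u) = ∑ i, ∑ j, o.B u (b i) * o.B u (b j) * o.B (d i) (N (d j)) := by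
    conv_lhs => rw [h1 u]
    simp only [map_sum, map_smul, LinearMap.sum_apply, LinearMap.smul_apply, smul_eq_mul,
      Finset.mul_sum]
    exact Finset.sum_congr rfl fun i _ => Finset.sum_congr rfl fun j _ => by rw [h2]; ring
  have h4 : LinearMap.trace F _ N = ∑ i, ∑ j, o.B (b i) (b j) * o.B (d i) (N (d j)) := by
    rw [LinearMap.trace_eq_matrix_trace F d, Matrix.trace]
    refine Finset.sum_congr rfl fun i _ => ?_
    rw [Matrix.diag_apply, LinearMap.toMatrix_apply, LinearMap.BilinForm.dualBasis_repr_apply, hN]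
    conv_lhs => rw [h1 (b i)]
    simp only [map_sum, map_smul, smul_eq_mul]
  rw [h3, h4, sum_sym _ fun i j => by rw [h2]; ring, sum_sym _ fun i j => by rw [h2, h.symm]]
  exact Finset.sum_congr rfl fun i _ => by rw [← hu, pow_two]

lemma trace_inv [CharP F 2] {V : Type*} [AddCommGroup V] [Module F V] [FiniteDimensional F V]
    [Nontrivial V] {y N : End F V} (h : y * N = 1) :
    LinearMap.trace F V N = y.charpoly.coeff 1 / y.charpoly.coeff 0 := by
  let b := finBasis F V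
  have hp : 0 < finrank F V := finrank_pos
  have : Nonempty (Fin (finrank F V)) := ⟨⟨0, hp⟩⟩
  have h1 : LinearMap.toMatrix b b y * LinearMap.toMatrix b b N = 1 := by
    rw [← LinearMap.toMatrix_mul, h, LinearMap.toMatrix_one]
  rw [LinearMap.trace_eq_matrix_trace F b, ← Matrix.inv_eq_right_inv h1,
    Matrix.trace_eq_neg_charpoly_coeff, Matrix.charpoly_inv _ (IsUnit.of_mul_eq_one _ h1),
    ← Matrix.reverse_charpoly, Matrix.det_eq_sign_charpoly_coeff, LinearMap.charpoly_toMatrix,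
    ← C_1, ← C_neg, ← C_pow, ← C_mul, coeff_C_mul, coeff_reverse, LinearMap.charpoly_natDegree,
    Fintype.card_fin, revAt_le (by omega), show finrank F V - (finrank F V - 1) = 1 by omega]
  simp [CharTwo.neg_eq, div_eq_inv_mul]

/-- the form on the double -/
def dQ (o : Ob F) : QuadraticForm F (o.V × o.V) := LinearMap.BilinMap.toQuadraticMap
  (o.B.compl₁₂ (LinearMap.fst _ _ _) (LinearMap.fst _ _ _) +
    o.B.compl₁₂ (o.g ∘ₗ LinearMap.fst _ _ _) (LinearMap.snd _ _ _) +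
    o.B.compl₁₂ (LinearMap.snd _ _ _) (LinearMap.snd _ _ _))

lemma dQ_apply (x : o.V × o.V) : dQ o x = o.B x.1 x.1 + o.B (o.g x.1) x.2 + o.B x.2 x.2 := rfl

/-- the isometry with given trace -/
abbrev dbl (o : Ob F) : Ob F := ⟨o.V × o.V, polarBilin (dQ o),
  (-LinearMap.snd _ _ _).prod (LinearMap.fst _ _ _ + o.g ∘ₗ LinearMap.snd _ _ _), dQ o⟩

lemma dbl_dim : (dbl o).dim = 2 * o.g.charpoly.natDegree := by
  simp [dim, two_mul, LinearMap.charpoly_natDegree]

lemma dbl_tr : Tr (dbl o) (o.g.charpoly ^ 2) :=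
  ⟨(o.g ∘ₗ LinearMap.fst _ _ _ + LinearMap.snd _ _ _).prod (-LinearMap.fst _ _ _),
    LinearMap.ext fun x => by simp, by
      rw [pow_two, ← LinearMap.charpoly_prodMap]
      exact congrArg _ (LinearMap.ext fun x => by simp)⟩

lemma inj_of_eval {c : F} (h : o.g.charpoly.eval c ≠ 0) (x : o.V) (hx : o.g x = c • x) : x = 0 := by
  rw [LinearMap.eval_charpoly] at h
  exact isUnit_end_iff.1 ((LinearMap.isUnit_iff_isUnit_det _).2 h.isUnit) x (by simp [hx])

lemma SD.polar (h : SD o) (x y : o.V × o.V) : polar (dQ o) x y =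
    o.B ((2 : F) • x.1 + o.g x.2) y.1 + o.B (o.g x.1 + (2 : F) • x.2) y.2 := by
  simp only [QuadraticMap.polar, dQ_apply, Prod.fst_add, Prod.snd_add, map_add, LinearMap.add_apply,
    map_smul, LinearMap.smul_apply, smul_eq_mul, h.symm y.1 x.1, h.symm y.2 x.2, h.adj y.1 x.2,
    h.symm y.1 (o.g x.2)]
  ring

lemma SD.isO (h : SD o) (h1 : o.g.charpoly.eval 2 ≠ 0) (h2 : o.g.charpoly.eval (-2) ≠ 0) :
    IsO (dbl o) := by
  refine ⟨ND.of_forall fun x hx => ?_, rfl, fun x => ?_⟩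
  · have e1 := h.nd _ fun y => by simpa only [h.polar, map_zero, add_zero] using hx (y, 0)
    have e2 := h.nd _ fun y => by simpa only [h.polar, map_zero, zero_add] using hx (0, y)
    have e3 := inj_of_eval h1 (x.1 - x.2) (by
      rw [map_sub]; linear_combination (norm := module) e2 - e1)
    have e4 := inj_of_eval h2 (x.1 + x.2) (by
      rw [map_add]; linear_combination (norm := module) e2 + e1)
    have e5 := inj_of_eval h2 x.1 (by
      rw [← sub_eq_zero.1 e3] at e1; linear_combination (norm := module) e1)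
    exact Prod.ext e5 (by rwa [e5, zero_add] at e4)
  · simp [dQ_apply, h.symm x.1 (o.g x.2), h.adj x.1 x.2]
    ring

lemma dbl_W (h1 : o.g.charpoly.eval 2 ≠ 0) : ∀ x, x ∈ (dbl o).W :=
  LinearMap.injective_iff_surjective.1 (LinearMap.ker_eq_bot.1 (LinearMap.ker_eq_bot'.2 fun x hx => by
    have e1 : -x.2 - x.1 = 0 := congrArg Prod.fst hx
    have e2 : x.1 + o.g x.2 - x.2 = 0 := congrArg Prod.snd hx
    have e3 := inj_of_eval h1 x.2 (by linear_combination (norm := module) e2 + e1)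
    exact Prod.ext (by simpa [e3] using e1) e3))

lemma SD.disc [Finite F] (h2 : (2 : F) ≠ 0) (h : SD o) (e1 : o.g.charpoly.eval 2 ≠ 0)
    (e2 : o.g.charpoly.eval (-2) ≠ 0) : discC (dQ o) =
      chi ((-4⁻¹) ^ o.g.charpoly.natDegree * (o.g.charpoly.eval 2 * o.g.charpoly.eval (-2))) := by
  have h4 : (4 : F) ≠ 0 := by simpa [show (4 : F) = 2 * 2 by norm_num] using h2
  let s : End F o.V := (-4⁻¹ : F) • ((algebraMap F _ 2 - o.g) * (algebraMap F _ (-2) - o.g))
  have hs : ∀ x, s x = x - (4⁻¹ : F) • o.g (o.g x) := fun x => by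
    simp only [s, LinearMap.smul_apply, End.mul_apply, LinearMap.sub_apply, algebraMap_end_apply,
      map_sub, map_smul]
    match_scalars <;> field_simp <;> ring
  let Q₁ : QuadraticForm F o.V := LinearMap.BilinMap.toQuadraticMap o.B
  let Q₂ : QuadraticForm F o.V := LinearMap.BilinMap.toQuadraticMap (o.B.compl₂ s)
  let e : (o.V × o.V) ≃ₗ[F] o.V × o.V := ((LinearEquiv.refl F o.V).skewProd (LinearEquiv.refl F o.V)
    ((-2⁻¹ : F) • o.g))
  let D : ODec Q₁ Q₂ (dQ o) := ⟨LinearEquiv.prodComm _ _ _ ≪≫ₗ e, fun x y => by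
    simp [e, Q₁, Q₂, dQ_apply, hs, h.adj, h.symm x (o.g y), h.symm x y]
    field_simp
    ring⟩
  have n := (h.isO e1 e2).nd
  have h5 : polarBilin Q₂ = LinearMap.BilinForm.compRight (polarBilin Q₁) s :=
    LinearMap.ext₂ fun x y => by
      have : o.B y (o.g (o.g x)) = o.B x (o.g (o.g y)) := by rw [← h.adj, ← h.adj, h.symm]
      simp [Q₁, Q₂, LinearMap.BilinMap.polar_toQuadraticMap, hs, h.symm y x, this,
        h.symm (o.g (o.g y)) x]
      ring
  have h6 : LinearMap.det s = (-4⁻¹) ^ o.g.charpoly.natDegree *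
      (o.g.charpoly.eval 2 * o.g.charpoly.eval (-2)) := by
    rw [LinearMap.det_smul, _root_.map_mul, LinearMap.eval_charpoly, LinearMap.eval_charpoly,
      LinearMap.charpoly_natDegree]
  have h7 : discC Q₂ = discC Q₁ * chi (LinearMap.det s) := by
    rw [discC, gram_eq_toMatrix, h5, toMatrix_polar_comp, Matrix.det_mul, LinearMap.det_toMatrix,
      chi_mul ((D.nd_left n).det_gram_ne _) (h6 ▸ mul_ne_zero (pow_ne_zero _ (by simpa using h4))
        (mul_ne_zero e1 e2)), chi_gram]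
  rw [D.discC_eq n, h7, ← mul_assoc, Int.units_mul_self, one_mul, h6]

lemma SD.arf [Finite F] [CharP F 2] (h : SD o) (e : o.g.charpoly.coeff 0 ≠ 0) {n : ℕ} (hn : 1 ≤ n)
    (hd : o.g.charpoly.natDegree = n) : Iso (QP n F) (dQ o) ↔
      ∃ t, t ^ 2 + t = o.g.charpoly.coeff 1 / o.g.charpoly.coeff 0 := by
  have h2 : (2 : F) = 0 := CharTwo.two_eq_zero
  rw [LinearMap.charpoly_natDegree] at hd
  have : Nontrivial o.V := nontrivial_of_finrank_pos (R := F) (by omega)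
  have e1 : o.g.charpoly.eval 2 ≠ 0 := by rwa [h2, ← coeff_zero_eq_eval_zero]
  have n1 := (h.isO e1 (by rwa [CharTwo.neg_eq])).nd
  obtain ⟨N, hN⟩ : ∃ N, o.g * N = 1 := (isUnit_end_iff.2 fun x hx =>
    inj_of_eval e1 x (by simp [hx, h2])).exists_right_inv
  have h3 : ∀ x, o.g (N x) = x := LinearMap.congr_fun hN
  let Q₀ : QuadraticForm F (o.V × o.V) := LinearMap.BilinMap.toQuadraticMap
    (o.B.compl₁₂ (o.g ∘ₗ LinearMap.fst _ _ _) (LinearMap.snd _ _ _))
  have h4 : ∀ x y, QuadraticMap.polar Q₀ x y = o.B (o.g x.2) y.1 + o.B (o.g x.1) y.2 := fun x y => by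
    simp [Q₀, LinearMap.BilinMap.polar_toQuadraticMap, h.adj, h.symm y.1, add_comm]
  have n0 : ND Q₀ := ND.of_forall fun x hx => n1.eq_zero fun y => by
    simpa [h.polar, h4, h2] using hx y
  have h5 : Iso (QP n F) Q₀ := iso_QP_of_TS n0 (by simp [hd, two_mul])
    (U := LinearMap.range (LinearMap.inl F _ _)) (by rintro _ ⟨x, rfl⟩; simp [Q₀])
    (by rw [LinearMap.finrank_range_of_inj LinearMap.inl_injective, hd])
  obtain ⟨l, hl⟩ := exists_sqrt_form o.B fun x y => by rw [h.symm, CharTwo.add_self_eq_zero]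
  obtain ⟨u, rfl⟩ := (LinearMap.BilinForm.toDual o.B
    ⟨h.nd, fun x hx => h.nd x fun y => by rw [h.symm, hx]⟩).surjective l
  have h6 : ∀ x, o.B u x ^ 2 = o.B x x := fun x => (pow_two _).trans (hl x)
  have h7 : ∀ x, dQ o x = Q₀ x + QuadraticMap.polar Q₀ (N u, N u) x ^ 2 := fun x => by
    rw [h4, h3, CharTwo.add_sq, h6, h6, dQ_apply]
    simp only [Q₀, LinearMap.BilinMap.toQuadraticMap_apply, LinearMap.compl₁₂_apply]
    simp
    ring
  have h8 : Q₀ (N u, N u) = o.g.charpoly.coeff 1 / o.g.charpoly.coeff 0 := by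
    rw [← trace_inv hN, ← h.trace h6 fun x y => by
      rw [← h3 y, ← h.adj, h3, show N (o.g (N y)) = N y by rw [h3]]]
    simp [Q₀, h3]
  obtain ⟨ζ, hζ⟩ := exists_aniso (F := F)
  rw [← h8]
  exact ⟨fun H => by_contra fun H' => not_iso_QP_QM hn hζ
    (H.trans (iso_QM_of_not hn h5 h7 H' hζ).symm), fun H => h5.trans (iso_transv h7 H).symm⟩

variable [Finite F] {V : Type u} [AddCommGroup V] [Module F V] [FiniteDimensional F V]
  {Q : QuadraticForm F V}

lemma exists_ext (hQ : ND Q) (h₁ : IsO o₁) (he : Even o₁.dim) {m : ℕ}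
    (hm : finrank F V = o₁.dim + (m + 1)) {c : F} (hc : c * c = 1) {p : F[X]} (hp : Tr o₁ p) :
    ∃ o, (IsO o ∧ Iso o.Q Q) ∧ Tr o (p * (X - C (2 * c)) ^ (m + 1)) := by
  have := Fintype.ofFinite F
  obtain ⟨φ, hφ⟩ := exists_embed hQ h₁.nd he (by unfold dim at hm; omega)
  let D := embedDec φ hφ h₁.nd
  have h1 := D.finrank_eq
  obtain ⟨g', h2, rfl⟩ := hp
  refine ⟨⟨_, polarBilin _, o₁.g.prodMap (c • 1), o₁.Q.prod (res Q (perp Q (LinearMap.range φ)))⟩,
    ⟨⟨(prodDec _ _).nd h₁.nd (D.nd_right hQ), rfl, fun x => ?_⟩, D.e, fun x => D.he _ _⟩,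
    g'.prodMap (c • 1), ?_, ?_⟩
  · simp [h₁.isom, Q_smul, pow_two, hc]
  · rw [LinearMap.prodMap_mul, h2, smul_mul_smul, hc, one_mul, one_smul]; rfl
  · show LinearMap.charpoly (o₁.g.prodMap (c • 1) + g'.prodMap (c • 1)) = _
    rw [← LinearMap.prodMap_add, LinearMap.charpoly_prodMap, ← add_smul, ← two_mul,
      ← _root_.neg_neg (2 * c), neg_smul, ← zero_sub, LinearMap.charpoly_sub_smul, LinearMap.charpoly_zero,
      show finrank F (perp Q (LinearMap.range φ)) = m + 1 by unfold dim at hm; omega]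
    simp [sub_eq_add_neg]

lemma exists_root (hQ : ND Q) {n : ℕ} (hn : finrank F V = 2 * (n + 1))
    (ih : ∀ h ∈ Mon F n, ∃ o : Ob F, IsO o ∧ o.dim = 2 * n ∧ Tr o (h ^ 2)) {h : F[X]}
    (H : h ∈ Mon F (n + 1)) (e : h.eval 2 * h.eval (-2) = 0) :
    ∃ o, (IsO o ∧ Iso o.Q Q) ∧ Tr o (h ^ 2) := by
  obtain ⟨c, hc, h1⟩ : ∃ c : F, c * c = 1 ∧ h.eval (2 * c) = 0 := by
    rcases mul_eq_zero.1 e with e | e
    · exact ⟨1, by simp, by simpa using e⟩
    · exact ⟨-1, by simp, by simpa using e⟩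
  obtain ⟨h₁, H₁, rfl⟩ := Mon.div H h1
  obtain ⟨o₁, a1, a2, a3⟩ := ih h₁ H₁
  rw [mul_pow]
  exact exists_ext hQ a1 (a2 ▸ even_two_mul n) (m := 1) (by omega) hc a3

lemma exists_real (n : ℕ) : ∀ h ∈ Mon F n, ∃ o : Ob F, IsO o ∧ o.dim = 2 * n ∧ Tr o (h ^ 2) := by
  have key : ∀ n, ∀ h ∈ Mon F n, h.eval 2 * h.eval (-2) ≠ 0 →
      ∃ o : Ob F, IsO o ∧ o.dim = 2 * n ∧ Tr o (h ^ 2) := fun n h H e => by
    obtain ⟨o, ho, rfl⟩ := exists_sd H.1
    exact ⟨_, ho.isO (left_ne_zero_of_mul e) (right_ne_zero_of_mul e), H.2 ▸ dbl_dim, dbl_tr⟩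
  induction n with
  | zero => exact fun h H => key 0 h H (by simp [eq_one_of_monic_natDegree_zero H.1 H.2])
  | succ n ih =>
    intro h H
    by_cases e : h.eval 2 * h.eval (-2) = 0
    · obtain ⟨o, ⟨a1, a2⟩, a3⟩ := exists_root (ND_QH (κ := Fin (n + 1)) (F := F))
        (by simp [two_mul]) ih H e
      exact ⟨o, a1, a2.finrank_eq.trans (by simp [two_mul]), a3⟩
    · exact key _ h H e

lemma ncard_le {S : Set (Ob F)} {k : ℕ} (hk : (k : ℕ∞) = (cl '' S).encard) {ι : Type*} {H : Set ι}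
    (hH : H.Finite) (ψ : ι → F[X]) (hψ : Set.InjOn ψ H) (h : ∀ i ∈ H, ∃ o ∈ S, Tr o (ψ i)) :
    H.ncard ≤ k := by
  have := Tr.card_le ψ hψ h
  rwa [← hk, ← hH.cast_ncard_eq, Nat.cast_le] at this

theorem low_S [CharP F 2] (n : ℕ) :
    Nat.card F ^ n ≤ Nat.card (ConjClasses (Matrix.symplecticGroup (Fin n) F)) := by
  rw [← ncard_Mon]
  refine ncard_le (card_S n) (finite_Mon n) _ (sq_injOn n) fun h H => ?_
  obtain ⟨o, a1, a2, a3⟩ := exists_real n h H
  exact ⟨fgt o, ⟨a1.fgt, a2⟩, a3⟩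

lemma low_aux (hQ : ND Q) {n : ℕ} (hn : finrank F V = 2 * (n + 1)) (P : F[X] → Prop)
    (hP : ∀ o : Ob F, SD o → o.g.charpoly ∈ Mon F (n + 1) → o.g.charpoly.eval 2 ≠ 0 →
      o.g.charpoly.eval (-2) ≠ 0 → P o.g.charpoly → Iso (dQ o) Q) :
    {h | h ∈ Mon F (n + 1) ∧ (h.eval 2 * h.eval (-2) = 0 ∨ P h)}.ncard ≤
      Nat.card (ConjClasses (OG Q)) := by
  refine ncard_le (card_O hQ) ((finite_Mon _).subset fun _ h => h.1) _
    ((sq_injOn _).mono fun _ h => h.1) fun h H => ?_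
  by_cases e : h.eval 2 * h.eval (-2) = 0
  · obtain ⟨o, a1, a2⟩ := exists_root hQ hn (exists_real n) H.1 e
    exact ⟨o, ⟨a1, a1.2.finrank_eq⟩, a2⟩
  · obtain ⟨o, ho, rfl⟩ := exists_sd H.1.1
    have := hP o ho H.1 (left_ne_zero_of_mul e) (right_ne_zero_of_mul e) (H.2.resolve_left e)
    exact ⟨_, ⟨⟨ho.isO (left_ne_zero_of_mul e) (right_ne_zero_of_mul e), this⟩, this.finrank_eq⟩,
      dbl_tr⟩

theorem low_odd (h2 : (2 : F) ≠ 0) (hQ : ND Q) {n : ℕ} (hn : finrank F V = 2 * (n + 2)) :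
    Nat.card F ^ (n + 2) ≤ 2 * Nat.card (ConjClasses (OG Q)) := by
  have h4 : (4 : F) ≠ 0 := by simpa [show (4 : F) = 2 * 2 by norm_num] using h2
  obtain ⟨c, c0, hc⟩ := exists_nonsq h2
  have h5 : ∀ h : F[X], (h + C ((c - 1) / 4 * h.eval 2) * (X + C 2)).eval 2 = c * h.eval 2 :=
    fun h => by simp; field_simp; ring
  rw [← ncard_Mon]
  refine (ncard_half (finite_Mon _) _ (fun h => h + C ((c - 1) / 4 * h.eval 2) * (X + C 2))
    (fun h H e => ⟨Mon.add H ((natDegree_C_mul_le _ _).trans_lt (by rw [natDegree_X_add_C]; omega)),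
      Or.inr ?_⟩) fun h h' e => ?_).trans (Nat.mul_le_mul_left 2 (low_aux hQ hn
        (fun h => chi ((-4⁻¹) ^ (n + 2) * (h.eval 2 * h.eval (-2))) = discC Q)
        fun o ho H e1 e2 e => iso_of_discC h2 (ho.isO e1 e2).nd hQ ?_ ?_))
  · rw [not_or] at e
    have h6 : (h + C ((c - 1) / 4 * h.eval 2) * (X + C 2)).eval (-2) = h.eval (-2) := by simp
    rw [h5, h6,
      mul_assoc, mul_left_comm, chi_mul c0 (mul_ne_zero (pow_ne_zero _ (by simpa using h4)) e.1), hc]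
    exact (by decide : ∀ a b : ℤˣ, ¬ a = b → -1 * a = b) _ _ e.2
  · have := congrArg (eval 2) e
    simp only [h5] at this
    simpa only [mul_left_cancel₀ c0 this, add_left_inj] using e
  · exact dbl_dim.trans (by rw [H.2, hn])
  · rw [ho.disc h2 e1 e2, H.2, e]

theorem low_odd_dim (h2 : (2 : F) ≠ 0) (hQ : ND Q) {n : ℕ} (hn : finrank F V = 2 * n + 1) :
    2 * Nat.card F ^ n ≤ Nat.card (ConjClasses (OG Q)) := by
  classical
  have h3 : (1 : F) ≠ -1 := fun h => h2 (by linear_combination h)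
  have := ncard_le (card_O hQ) (H := ({1, -1} : Set F) ×ˢ Mon F n)
    ((Set.toFinite _).prod (finite_Mon n)) (fun x => x.2 ^ 2 * (X - C (2 * x.1)) ^ (0 + 1))
    (fun x hx y hy e => ?_) fun x hx => ?_
  · rwa [Set.ncard_prod, Set.ncard_pair h3, ncard_Mon] at this
  · simp only [zero_add, pow_one] at e
    have h4 : x.1 = y.1 := by
      by_contra h4
      have := congrArg (rootMultiplicity (2 * x.1)) e
      rw [rootMultiplicity_mul (mul_ne_zero (pow_ne_zero _ hx.2.1.ne_zero) (X_sub_C_ne_zero _)),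
        rootMultiplicity_mul (mul_ne_zero (pow_ne_zero _ hy.2.1.ne_zero) (X_sub_C_ne_zero _)),
        pow_two, pow_two, rootMultiplicity_mul (mul_ne_zero hx.2.1.ne_zero hx.2.1.ne_zero),
        rootMultiplicity_mul (mul_ne_zero hy.2.1.ne_zero hy.2.1.ne_zero),
        rootMultiplicity_X_sub_C_self, rootMultiplicity_X_sub_C,
        if_neg fun h => h4 (mul_left_cancel₀ h2 h)] at this
      omega
    rw [h4] at e
    exact Prod.ext h4 (sq_injOn n hx.2 hy.2 (mul_right_cancel₀ (X_sub_C_ne_zero _) e))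
  · obtain ⟨o₁, a1, a2, a3⟩ := exists_real n x.2 hx.2
    obtain ⟨o, b1, b2⟩ := exists_ext hQ a1 (a2 ▸ even_two_mul n) (m := 0) (by omega) (c := x.1)
      (by rcases hx.1 with h | h <;> rw [h] <;> simp) a3
    exact ⟨o, ⟨b1, b1.2.finrank_eq⟩, b2⟩

section two

variable [CharP F 2]

/-- the type of the double agrees with the type of `Q` -/
def Ty (n : ℕ) (Q : QuadraticForm F V) (h : F[X]) : Prop :=
  (∃ t, t ^ 2 + t = h.coeff 1 / h.coeff 0) ↔ Iso (QP n F) Q

lemma eval_two (h : F[X]) : h.eval 2 * h.eval (-2) = 0 ↔ h.coeff 0 = 0 := by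
  rw [CharTwo.neg_eq, CharTwo.two_eq_zero, mul_self_eq_zero, coeff_zero_eq_eval_zero]

lemma ty_iff (hQ : ND Q) {n : ℕ} (hn : finrank F V = 2 * (n + 1)) (ho : SD o)
    (H : o.g.charpoly ∈ Mon F (n + 1)) (e : o.g.charpoly.coeff 0 ≠ 0) :
    Ty (n + 1) Q o.g.charpoly ↔ Iso (dQ o) Q := by
  rw [Ty, ← ho.arf e (by omega) H.2]
  refine ⟨fun h => ?_, fun h => ⟨fun h' => h'.trans h, fun h' => h'.trans h.symm⟩⟩
  obtain ⟨ζ, hζ⟩ := exists_aniso (F := F)
  have e' := (eval_two _).not.2 e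
  by_cases h1 : Iso (QP (n + 1) F) Q
  · exact (h.2 h1).symm.trans h1
  · exact (((ho.isO (left_ne_zero_of_mul e') (right_ne_zero_of_mul e')).nd.classify_even
      (dbl_dim.trans (by rw [H.2])) hζ).resolve_left (h.not.2 h1)).2.symm.trans
      ((hQ.classify_even hn hζ).resolve_left h1).2

lemma exists_flip (n : ℕ) (Q : QuadraticForm F V) : ∃ φ : F[X] → F[X], Function.Injective φ ∧
    ∀ h ∈ Mon F (n + 2), h.coeff 0 ≠ 0 → φ h ∈ Mon F (n + 2) ∧ (φ h).coeff 0 ≠ 0 ∧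
      (Ty (n + 2) Q (φ h) ↔ ¬ Ty (n + 2) Q h) := by
  have h2 : (2 : F) = 0 := CharTwo.two_eq_zero
  obtain ⟨ζ, hζ⟩ := exists_aniso (F := F)
  have h1 : ¬ ∃ t, t ^ 2 + t = ζ := by
    rintro ⟨t, ht⟩
    exact aniso_one_iff.1 hζ t (by linear_combination ht + ζ * h2)
  refine ⟨fun h => h + C (ζ * h.coeff 0) * X, fun h h' e => ?_, fun h H e =>
    ⟨Mon.add H ((natDegree_C_mul_le _ _).trans_lt (by rw [natDegree_X]; omega)), by simpa using e, ?_⟩⟩
  · have : h.coeff 0 = h'.coeff 0 := by simpa using congrArg (coeff · 0) e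
    simpa only [this, add_left_inj] using e
  · have h3 : (h + C (ζ * h.coeff 0) * X).coeff 1 / (h + C (ζ * h.coeff 0) * X).coeff 0 =
        h.coeff 1 / h.coeff 0 + ζ := by
      simp only [coeff_add, coeff_C_mul, coeff_X_one, coeff_X_zero]; field_simp; ring
    have h4 : (∃ t, t ^ 2 + t = h.coeff 1 / h.coeff 0 + ζ) ↔
        ¬ ∃ t, t ^ 2 + t = h.coeff 1 / h.coeff 0 := ⟨by
      rintro ⟨t, ht⟩ ⟨s, hs⟩
      exact h1 ⟨t + s, by linear_combination ht + hs + (t * s + h.coeff 1 / h.coeff 0) * h2⟩,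
      fun h => wp_add h h1⟩
    rw [Ty, Ty, h3, h4]
    tauto

theorem low_two (hQ : ND Q) {n : ℕ} (hn : finrank F V = 2 * (n + 2)) :
    Nat.card F ^ (n + 2) ≤ 2 * Nat.card (ConjClasses (OG Q)) := by
  obtain ⟨φ, h1, h2⟩ := exists_flip n Q
  rw [← ncard_Mon]
  refine (ncard_half (finite_Mon _) _ φ (fun h H e => ?_) h1).trans (Nat.mul_le_mul_left 2
    (low_aux hQ hn (Ty (n + 2) Q) fun o ho H e1 e2 e =>
      (ty_iff hQ hn ho H ((eval_two _).not.1 (mul_ne_zero e1 e2))).1 e))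
  rw [not_or, eval_two] at e
  exact ⟨(h2 h H e.1).1, Or.inr ((h2 h H e.1).2.2.2 e.2)⟩

theorem up_two (hQ : ND Q) {n : ℕ} (hn : finrank F V = 2 * (n + 2)) :
    Nat.card (ConjClasses (OG Q)) ≤ 15 * Nat.card F ^ (n + 2) := by
  obtain ⟨φ, h1, h2⟩ := exists_flip n Q
  have a1 := ncard_half (finite_Mon (F := F) (n + 2)) (fun h => h.coeff 0 ≠ 0) (· + 1)
    (fun h H e => ⟨Mon.add H (by simp), by simp [not_not.1 e]⟩) (add_left_injective 1)
  have f1 : {h | h ∈ Mon F (n + 2) ∧ h.coeff 0 ≠ 0}.Finite := (finite_Mon _).subset fun _ h => h.1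
  have a2 := ncard_half f1 (fun h => ¬ Ty (n + 2) Q h) φ (fun h H e =>
    ⟨⟨(h2 h H.1 H.2).1, (h2 h H.1 H.2).2.1⟩, fun h' => e ((h2 h H.1 H.2).2.2.1 h')⟩) h1
  have a3 := Tr.card_le (S := {o | (IsO o ∧ o.dim = 2 * (n + 2)) ∧ (∀ x, x ∈ o.W) ∧ ¬ Iso o.Q Q})
    (H := {h | h ∈ {h | h ∈ Mon F (n + 2) ∧ h.coeff 0 ≠ 0} ∧ ¬ Ty (n + 2) Q h}) (· ^ 2)
    ((sq_injOn _).mono fun _ h => h.1.1) fun h H => by
      obtain ⟨o, ho, rfl⟩ := exists_sd H.1.1.1
      have e := (eval_two _).not.2 H.1.2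
      exact ⟨_, ⟨⟨ho.isO (left_ne_zero_of_mul e) (right_ne_zero_of_mul e),
        dbl_dim.trans (by rw [H.1.1.2])⟩, dbl_W (left_ne_zero_of_mul e),
        (ty_iff hQ hn ho H.1.1 H.1.2).not.1 H.2⟩, dbl_tr⟩
  rw [← (f1.subset fun _ h => h.1).cast_ncard_eq] at a3
  obtain ⟨a, b1, b2⟩ := sp_bound (F := F) (n + 2)
  have b3 := (b1.of_map (c := cl) (w := dim) (S := {o | IsO o ∧ (Iso o.Q Q ∨ ∀ x, x ∈ o.W)}) fgt
    (fun o ho => ⟨ho.1.fgt, rfl⟩) fun o ho o' ho' _ e => ?_).le_real (j := 1) (n := n + 2)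
      (by simpa using b2) le_rfl (k := Nat.card (ConjClasses (OG Q)) +
        {h | h ∈ {h | h ∈ Mon F (n + 2) ∧ h.coeff 0 ≠ 0} ∧ ¬ Ty (n + 2) Q h}.ncard) (by
        rw [Nat.cast_add, card_O hQ]
        refine (add_le_add le_rfl a3).trans ?_
        rw [← Set.encard_union_eq, ← Set.image_union]
        · refine Set.encard_le_encard (Set.image_mono ?_)
          rintro o (ho | ho)
          · exact ⟨⟨ho.1.1, Or.inl ho.1.2⟩, ho.2.trans hn⟩
          · exact ⟨⟨ho.1.1, Or.inr ho.2.1⟩, ho.1.2⟩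
        · rw [Set.disjoint_left]
          rintro _ ⟨o, ho, rfl⟩ ⟨o', ho', e⟩
          exact ho'.2.2 ((cl_eq.1 e).iso.trans ho.1.2))
  · rw [ncard_Mon] at a1
    have := a1.trans (Nat.mul_le_mul_left 2 a2)
    rify at this ⊢
    push_cast at b3
    linarith
  · rcases ho.2 with h | h
    · rcases ho'.2 with h' | h'
      · exact cl_eq.2 (eqv_of_fgt ho.1 ho'.1 (cl_eq.1 e) (Or.inl (h.trans h'.symm)))
      · exact (cl_eq.2 (eqv_of_fgt ho'.1 ho.1 (cl_eq.1 e.symm) (Or.inr h'))).symm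
    · exact cl_eq.2 (eqv_of_fgt ho.1 ho'.1 (cl_eq.1 e) (Or.inr h))

theorem up_S (n : ℕ) :
    5 * Nat.card (ConjClasses (Matrix.symplecticGroup (Fin n) F)) ≤ 76 * Nat.card F ^ n := by
  obtain ⟨a, b1, b2⟩ := sp_bound (F := F) n
  have := b1.le_real (j := 1) (n := n) (by simpa using b2) le_rfl (card_S n).le
  rify
  push_cast at this
  linarith

end two

theorem up_odd (h2 : (2 : F) ≠ 0) (hQ : ND Q) {n : ℕ} (hn : finrank F V = 2 * n) :
    2 * Nat.card (ConjClasses (OG Q)) ≤ 19 * Nat.card F ^ n := by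
  obtain ⟨a, b1, b2, -⟩ := odd_bound h2 Q (2 * n)
  exact_mod_cast b1.le_real (j := 2) (n := n) b2 le_rfl (hn ▸ (card_O hQ).le)

theorem up_odd_dim (h2 : (2 : F) ≠ 0) (hQ : ND Q) {n : ℕ} (hn : finrank F V = 2 * n + 1) :
    4 * Nat.card (ConjClasses (OG Q)) ≤ 59 * Nat.card F ^ n := by
  obtain ⟨a, b1, -, b2⟩ := odd_bound h2 Q (2 * n + 1)
  have := b1.le_real (j := 2) (n := n) b2 le_rfl (hn ▸ (card_O hQ).le)
  rify
  push_cast at this
  linarith

end Ob

lemma card_conj_congr {G H : Type*} [Group G] [Group H] (e : G ≃* H) :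
    Nat.card (ConjClasses G) = Nat.card (ConjClasses H) :=
  Nat.card_congr (Quotient.congr e.toEquiv fun _ _ =>
    ⟨e.toMonoidHom.map_isConj, fun h => isConj_iff.2 (by simpa using e.symm.toMonoidHom.map_isConj h)⟩)

end CfsgH8
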