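import Cfsg.Agent.H8.AutMain
import Cfsg.Agent.H8.BaseChange
import Cfsg.Prelude.Def_LieTypeDatum

set_option autoImplicit false

namespace CfsgH8

open QuadraticMap Module Matrix

variable {F : Type*} [Field F] {ι : Type} [Fintype ι] [DecidableEq ι]
  {Q : QuadraticForm F (ι → F)} {q : (ι → F) → F}

/-- the matrix projective group is the abstract one -/
noncomputable def pomE (h : ⇑Q = q) : Cfsg.POmega F q ≃* POm Q := centCongr (commCongr (toOG h))

/-- the action of semisimilarities on the matrix projective group -/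
noncomputable def PhiM (h : ⇑Q = q) : Gam Q →* MulAut (Cfsg.POmega F q) :=
  (MulAut.congr (pomE h).symm).toMonoidHom.comp (Phi Q)

lemma PhiM_apply (h : ⇑Q = q) (γ : Gam Q) (x : Cfsg.POmega F q) :
    PhiM h γ x = (pomE h).symm (Phi Q γ (pomE h x)) := rfl

lemma pomE_PhiM (h : ⇑Q = q) (γ : Gam Q) (x : Cfsg.POmega F q) :
    pomE h (PhiM h γ x) = Phi Q γ (pomE h x) := by
  rw [PhiM_apply, MulEquiv.apply_symm_apply]

lemma PhiM_surjective (h : ⇑Q = q) (hs : Function.Surjective (Phi Q)) :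
    Function.Surjective (PhiM h) := (MulAut.congr (pomE h).symm).surjective.comp hs

lemma PhiM_eq_one_iff [Finite F] [Big Q] (h : ⇑Q = q) {γ : Gam Q} :
    PhiM h γ = 1 ↔ ∃ a : Fˣ, γ = scal Q a := by
  rw [← Phi_eq_one_iff]
  exact map_eq_one_iff (MulAut.congr (pomE h).symm) (MulEquiv.injective _)

lemma PhiM_scal (h : ⇑Q = q) (a : Fˣ) : PhiM h (scal Q a) = 1 := by
  change MulAut.congr (pomE h).symm (Phi Q _) = 1
  rw [Phi_scal, _root_.map_one]

lemma PhiM_ofOG (h : ⇑Q = q) (g : Om Q) :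
    PhiM h (ofOG Q g) = MulAut.conj ((pomE h).symm (pmk Q g)) := by
  ext x
  rw [PhiM_apply, Phi_ofOG]
  simp

/-- `(g, σ)` represents the semisimilarity `γ`. -/
def Rep (γ : Gam Q) (g : GL ι F) (σ : F ≃+* F) : Prop :=
  ∀ v, γ.T v = (g : Matrix ι ι F) *ᵥ (fun i => σ (v i))

lemma isInduced_iff (h : ⇑Q = q) {γ : Gam Q} {g : GL ι F} {σ : F ≃+* F} (hγ : Rep γ g σ)
    {β : MulAut (Cfsg.POmega F q)} : Cfsg.IsInducedBySemilinearPOmega q g σ β ↔ β = PhiM h γ := by
  have key : ∀ s s' : Cfsg.Omega F q, (((s' : Cfsg.isometryGroup F q) : GL ι F) : Matrix ι ι F) =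
      (g : Matrix ι ι F) * (((s : Cfsg.isometryGroup F q) : GL ι F) : Matrix ι ι F).map σ *
        ((g⁻¹ : GL ι F) : Matrix ι ι F) ↔ toOG h s' = γ.og (toOG h s) := fun s s' => by
    have e1 : ∀ y, ((g : Matrix ι ι F) *
        (((s : Cfsg.isometryGroup F q) : GL ι F) : Matrix ι ι F).map σ *
        ((g⁻¹ : GL ι F) : Matrix ι ι F)) *ᵥ γ.T y = (γ.og (toOG h s)).1 (γ.T y) := fun y => by
      rw [SIso.og_T, hγ y, hγ, Matrix.mulVec_mulVec, mul_assoc, mul_assoc, Units.inv_mul, mul_one,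
        ← Matrix.mulVec_mulVec, toOG_apply]
      congr 1
      exact map_mulVec_comp (σ : F →+* F) _ y
    rw [matrix_eq_iff]
    constructor
    · intro H
      refine OG.ext' fun x => ?_
      obtain ⟨y, rfl⟩ := γ.T.surjective x
      rw [← e1, ← H, toOG_apply]
    · intro H x
      obtain ⟨y, rfl⟩ := γ.T.surjective x
      rw [e1, ← H, toOG_apply]
  constructor
  · intro H
    refine mulEquiv_quot_ext fun s => ?_
    exact H s ((commCongr (toOG h)).symm (commCongr γ.og (commCongr (toOG h) s)))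
      ((key _ _).2 ((toOG h).apply_symm_apply _))
  · rintro rfl s s' H
    apply (pomE h).injective
    rw [pomE_PhiM]
    exact congrArg QuotientGroup.mk (Subtype.ext ((key _ _).1 H).symm)

lemma exists_rep (γ : Gam Q) : ∃ g : GL ι F, Rep γ g γ.σ := by
  let e : (ι → F) ≃ₗ[F] (ι → F) :=
    { toFun := fun v => γ.T fun i => γ.σ.symm (v i)
      invFun := fun v i => γ.σ (γ.T.symm v i)
      left_inv := fun v => by simp
      right_inv := fun v => by simp
      map_add' := fun v w => by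
        rw [← map_add]; congr 1; ext; simp
      map_smul' := fun a v => by
        have : (fun i => γ.σ.symm ((a • v) i)) = γ.σ.symm a • fun i => γ.σ.symm (v i) := by
          ext; simp
        rw [this, γ.smul]; simp }
  refine ⟨(glEquiv ι F).symm e, fun v => ?_⟩
  rw [glEquiv_symm_mulVec]
  simp [e]

/-- the semisimilarity given by a matrix and a field automorphism -/
noncomputable def gamOf (g : GL ι F) (σ : F ≃+* F) (c : Fˣ)
    (hc : ∀ v, Q ((g : Matrix ι ι F) *ᵥ fun i => σ (v i)) = c * σ (Q v)) : Gam Q where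
  T := (AddEquiv.piCongrRight fun _ => σ.toAddEquiv).trans (glEquiv ι F g).toAddEquiv
  σ := σ
  c := c
  smul a x := by
    change (g : Matrix ι ι F) *ᵥ (fun i => σ ((a • x) i)) = σ a • (g : Matrix ι ι F) *ᵥ _
    rw [← Matrix.mulVec_smul]
    congr 1
    ext; simp
  mapQ := hc

lemma rep_gamOf (g : GL ι F) (σ : F ≃+* F) (c : Fˣ)
    (hc : ∀ v, Q ((g : Matrix ι ι F) *ᵥ fun i => σ (v i)) = c * σ (Q v)) :
    Rep (gamOf g σ c hc) g σ := fun _ => rfl

lemma autSubgroupOf_eq {X Γ : Type*} [Group X] [Group Γ] (Φ : Γ →* MulAut X) (K : Subgroup Γ)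
    {P : (X ≃* X) → Prop} (h : ∀ β, P β ↔ ∃ γ ∈ K, β = Φ γ) : Cfsg.autSubgroupOf P = K.map Φ := by
  rw [Cfsg.autSubgroupOf, ← Subgroup.closure_eq (K.map Φ)]
  congr 1
  ext β
  simp only [Set.mem_setOf_eq, h, SetLike.mem_coe, Subgroup.mem_map, eq_comm]

theorem gammaPOmega_eq (h : ⇑Q = q) : Cfsg.gammaPOmega F q = (PhiM h).range := by
  rw [MonoidHom.range_eq_map]
  refine autSubgroupOf_eq _ _ fun β => ⟨?_, ?_⟩
  · rintro ⟨g, σ, ⟨c, hc⟩, hβ⟩
    subst h
    exact ⟨_, trivial, (isInduced_iff rfl (rep_gamOf g σ c hc)).1 hβ⟩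
  · rintro ⟨γ, -, rfl⟩
    obtain ⟨g, hg⟩ := exists_rep γ
    refine ⟨g, γ.σ, ⟨γ.c, fun v => ?_⟩, (isInduced_iff h hg).2 rfl⟩
    rw [← h, ← hg, γ.mapQ]

instance big_QP (m : ℕ) [hm : Fact (3 ≤ m)] : Big (QP m F) :=
  ⟨ND_QH, by have := hm.out; simp; omega⟩

lemma big_QM [Finite F] {m : ℕ} (hm : 2 ≤ m) {a b : F} (h : Aniso a b) : Big (QM m F a b) :=
  ⟨ND_QM h, by simp; omega⟩

lemma big_QO {m : ℕ} (hm : 2 ≤ m) (h2 : (2 : F) ≠ 0) : Big (QO m F) :=
  ⟨ND_QO h2, by simp; omega⟩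

lemma Phi_surj_QO [Finite F] {m : ℕ} (hm : 3 ≤ m) (h2 : (2 : F) ≠ 0) :
    Function.Surjective (Phi (QO m F)) :=
  haveI := big_QO (m := m) (by omega) h2
  Phi_surjective (by simp; omega) (by simp; omega)

lemma Phi_surj_QP [Finite F] {m : ℕ} (hm : 5 ≤ m) : Function.Surjective (Phi (QP m F)) :=
  haveI : Fact (3 ≤ m) := ⟨by omega⟩
  Phi_surjective (by simp; omega) (by simp; omega)

lemma Phi_surj_QM [Finite F] {m : ℕ} (hm : 3 ≤ m) {a b : F} (h : Aniso a b) :
    Function.Surjective (Phi (QM m F a b)) :=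
  haveI := big_QM (m := m) (by omega) h
  Phi_surjective (by simp; omega) (fun _ W hW => by
    have h1 := finrank_TS_QM h hW.1
    have h2 := hW.2
    simp at h2
    omega)

end CfsgH8
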