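import Cfsg.Agent.H8.ObSum

set_option autoImplicit false
set_option linter.unusedSectionVars false

namespace CfsgH8

open PowerSeries Finset

variable {q e : ℕ} {a b : ℕ⟦X⟧} {C D t y : ℝ}

lemma pos_of_y (hy : 1 ≤ y * q) : 0 < q ∧ 0 < y := by
  refine ⟨Nat.pos_of_ne_zero ?_, ?_⟩
  · rintro rfl; norm_num at hy
  · by_contra h
    nlinarith [Nat.cast_nonneg (α := ℝ) q]

lemma Bd.fix' (hy : 1 ≤ y * q) (h : Bd q e a C) (he : e ≤ 1) (j : ℕ) (hD : C + y ^ j * D ≤ D)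
    (hD0 : 0 ≤ D) : Bd q e (ser q (2 * (j + 1)) * a) D := by
  obtain ⟨h1, h2⟩ := pos_of_y hy
  have h3 : (0 : ℝ) < q := Nat.cast_pos.2 h1
  refine h.fix (by omega) he h1 (le_trans ?_ hD) hD0
  gcongr
  rw [pow_succ, div_mul_cancel_right₀ h3.ne', inv_le_iff_one_le_mul₀ (by positivity), ← mul_pow]
  exact one_le_pow₀ hy

lemma Bd.tail (hy : 1 ≤ y * q) {κ : ℝ} (h3 : 0 ≤ κ) (hκ : 1 + κ * y ≤ κ) (he : e ≤ 1) {m : ℕ}
    (h : Bd q e a (D * (1 - κ * y ^ m))) (hD : 0 ≤ D) (hm : κ * y ^ m ≤ 1) (d : ℕ) :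
    Bd q e ((∏ j ∈ range d, ser q (2 * (m + j + 1))) * a) D := by
  obtain ⟨-, h2⟩ := pos_of_y hy
  suffices H : Bd q e ((∏ j ∈ range d, ser q (2 * (m + j + 1))) * a) (D * (1 - κ * y ^ (m + d))) ∧
      κ * y ^ (m + d) ≤ 1 from
    H.1.mono (mul_le_of_le_one_right hD (sub_le_self _ (by positivity)))
  induction d with
  | zero => simpa using ⟨h, hm⟩
  | succ d ih =>
    have h4 := pow_pos h2 (m + d)
    have h5 : κ * y ^ (m + (d + 1)) ≤ 1 := by
      rw [← add_assoc, pow_succ]; nlinarith [ih.2]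
    refine ⟨?_, h5⟩
    rw [prod_range_succ_comm, mul_assoc]
    refine ih.1.fix' hy he _ ?_ (mul_nonneg hD (sub_nonneg.2 h5))
    rw [← add_assoc, pow_succ]
    nlinarith [mul_nonneg (mul_nonneg hD h4.le) (sub_nonneg.2 hκ),
      mul_nonneg (mul_nonneg hD (mul_nonneg h4.le h4.le)) (mul_nonneg h3 h2.le)]

/-- the product bounding the number of semisimple data -/
noncomputable def palS (q m J : ℕ) : ℕ⟦X⟧ := ∏ j ∈ range J, ser q (2 * (m + j + 1))

lemma palS_add (q m i J : ℕ) : palS q m (i + J) = palS q (m + i) J * palS q m i := by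
  simp only [palS, prod_range_add, add_assoc, mul_comm]

lemma palS_two (hq : 2 ≤ q) (J : ℕ) : Bd q 0 (palS q 0 (6 + J)) (2097152 / 605430) := by
  have hy : 1 ≤ (1 / 2 : ℝ) * q := by have : (2 : ℝ) ≤ q := by exact_mod_cast hq
                                      linarith
  rw [palS_add]
  refine Bd.tail hy (κ := 2) (by norm_num) (by norm_num) (by omega) ?_ (by norm_num) (by norm_num) J
  simp only [palS, prod_range_succ_comm, prod_range_zero, zero_add, mul_one]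
  refine (((((Bd.ser_zero.fix' hy (by omega) 1 (D := 2) ?_ ?_).fix' hy (by omega) 2 (D := 8 / 3)
    ?_ ?_).fix' hy (by omega) 3 (D := 64 / 21) ?_ ?_).fix' hy (by omega) 4 (D := 1024 / 315)
    ?_ ?_).fix' hy (by omega) 5 (D := 32768 / 9765) ?_ ?_).mono ?_ <;> norm_num

lemma y_three (hq : 3 ≤ q) : 1 ≤ (1 / 3 : ℝ) * q := by
  have : (3 : ℝ) ≤ q := by exact_mod_cast hq
  linarith

lemma Bd.palS_one (hq : 3 ≤ q) (he : e ≤ 1) (h : Bd q e a C) (J : ℕ) :
    Bd q e (palS q 1 (1 + J) * a) (9 / 5 * C) := by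
  have := h.nonneg
  rw [palS_add, mul_assoc]
  refine Bd.tail (y_three hq) (κ := 3 / 2) (by norm_num) (by norm_num) he ?_ (by positivity) (by norm_num) J
  simp only [palS, prod_range_succ_comm, prod_range_zero, mul_one]
  exact (h.fix' (y_three hq) he 1 (D := 3 / 2 * C) (by linarith) (by positivity)).mono
    (by linarith)

/-- simultaneous bound for the even and odd coefficients -/
def B2 (q : ℕ) (a : ℕ⟦X⟧) (t : ℝ) : Prop := Bd q 0 a t ∧ Bd q 1 a (7 / 4 * t)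

lemma B2.mono (h : B2 q a t) {t' : ℝ} (h' : t ≤ t') : B2 q a t' :=
  ⟨h.1.mono h', h.2.mono (by linarith)⟩

lemma Bd.step (hy : 1 ≤ y * q) (h0 : Bd q 0 a C) (h1 : Bd q 1 a D) (i : ℕ) :
    Bd q 0 ((1 + X ^ (2 * i + 1)) * a) (C + y ^ i * (y * D)) ∧
      Bd q 1 ((1 + X ^ (2 * i + 1)) * a) (D + y ^ i * C) := by
  rw [add_mul, one_mul, pow_succ, mul_assoc]
  exact ⟨h0.add ((h1.X_one hy).X_two hy (by omega) i), h1.add (h0.X_zero.X_two hy le_rfl i)⟩

lemma B2.step (hq : 3 ≤ q) (h : B2 q a t) (i : ℕ) :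
    B2 q ((1 + X ^ (2 * i + 1)) * a) (t * (1 + 7 / 12 * (1 / 3) ^ i)) := by
  have := h.1.nonneg
  have h1 : (0 : ℝ) ≤ (1 / 3) ^ i * t := by positivity
  obtain ⟨h2, h3⟩ := Bd.step (y_three hq) h.1 h.2 i
  exact ⟨h2.mono (by linarith), h3.mono (by linarith)⟩

lemma B2.step4 (hq : 3 ≤ q) (h : B2 q a t) (i : ℕ) :
    B2 q ((1 + X ^ (2 * i + 1)) ^ 4 * a) (t * (1 + 7 / 12 * (1 / 3) ^ i) ^ 4) := by
  convert (((h.step hq i).step hq i).step hq i).step hq i using 1 <;> ring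

/-- the product counting the choices of forms for the odd blocks -/
noncomputable def oddS (m d : ℕ) : ℕ⟦X⟧ := ∏ i ∈ range d, (1 + X ^ (2 * (m + i) + 1)) ^ 4

lemma oddS_add (m i d : ℕ) : oddS m (i + d) = oddS (m + i) d * oddS m i := by
  simp only [oddS, prod_range_add, add_assoc, mul_comm]

lemma B2.tail (hq : 3 ≤ q) (h : B2 q a t) (d : ℕ) : B2 q (oddS 3 d * a) (54 / 47 * t) := by
  have h0 := h.1.nonneg
  suffices H : B2 q (oddS 3 d * a) (54 / 47 * t * (1 - 7 / 2 * (1 / 3) ^ (3 + d))) from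
    H.mono (mul_le_of_le_one_right (by positivity) (sub_le_self _ (by positivity)))
  induction d with
  | zero => simpa [oddS] using h.mono (by norm_num; linarith)
  | succ d ih =>
    rw [oddS, prod_range_succ_comm, mul_assoc]
    refine (ih.step4 hq _).mono ?_
    rw [mul_assoc _ (1 - _), ← add_assoc, pow_succ _ (3 + d)]
    refine mul_le_mul_of_nonneg_left ?_ (by positivity)
    have h1 : (0 : ℝ) ≤ (1 / 3) ^ (3 + d) := by positivity
    generalize (1 / 3 : ℝ) ^ (3 + d) = z at h1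
    nlinarith [pow_nonneg h1 2, pow_nonneg h1 3, pow_nonneg h1 4, pow_nonneg h1 5]

lemma num_main (hq : 3 ≤ q) (d J : ℕ) :
    B2 q (oddS 0 (3 + d) * palS q 0 (2 + J)) (337 / 20) ∧ Bd q 0 (palS q 0 (2 + J)) (9 / 5) ∧
      Bd q 1 (palS q 0 (2 + J)) 0 := by
  have hy := y_three hq
  have h1 : palS q 0 (2 + J) = palS q 1 (1 + J) * ser q 2 := by
    rw [show 2 + J = 1 + (1 + J) by omega, palS_add]; simp [palS]
  have h2 : Bd q 0 (palS q 0 (2 + J)) (9 / 5) := by
    simpa [h1] using Bd.ser_zero.palS_one hq (by omega) J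
  have h3 : Bd q 1 (palS q 0 (2 + J)) 0 := by
    simpa [h1] using Bd.ser_one.palS_one hq le_rfl J
  refine ⟨?_, h2, h3⟩
  obtain ⟨a1, b1⟩ := Bd.step hy h2 h3 0
  obtain ⟨a2, b2⟩ := Bd.step hy a1 b1 0
  obtain ⟨a3, b3⟩ := Bd.step hy a2 b2 0
  obtain ⟨a4, b4⟩ := Bd.step hy a3 b3 0
  have h4 : B2 q _ (28 / 5) := ⟨a4.mono (by norm_num), b4.mono (by norm_num)⟩
  convert (((h4.step4 hq 1).step4 hq 2).tail hq d).mono (t' := 337 / 20) (by norm_num) using 1
  rw [oddS_add]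
  simp only [oddS, prod_range_succ, prod_range_zero]
  ring

/-- a polynomial given by its coefficients -/
noncomputable def ofL : List ℕ → ℕ⟦X⟧
  | [] => 0
  | c :: l => (c : ℕ⟦X⟧) + X * ofL l

lemma coeff_ofL (l : List ℕ) (n : ℕ) : coeff n (ofL l) = l.getD n 0 := by
  induction l generalizing n with
  | nil => simp [ofL]
  | cons c l ih =>
    rw [ofL, ← map_natCast PowerSeries.C]
    rcases n with _ | n
    · simp
    · rw [map_add, coeff_succ_X_mul, ih, coeff_C]; simp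

lemma bd_ofL (hq : 3 ≤ q) (l : List ℕ) (u v : ℕ) (hv : 0 < v)
    (h : ∀ n < l.length, v * l.getD (2 * n + e) 0 ≤ u * 3 ^ n) : Bd q e (ofL l) (u / v) := fun n => by
  rw [coeff_ofL, div_mul_eq_mul_div, le_div_iff₀' (by positivity)]
  rcases lt_or_ge n l.length with h1 | h1
  · exact_mod_cast (h n h1).trans (by gcongr)
  · rw [List.getD_eq_default _ _ (by omega)]; simp only [Nat.cast_zero, mul_zero]; positivity

lemma num_split (hq : 3 ≤ q) (d J : ℕ) :
    Bd q 1 ((1 + 2 * X) ^ 2 * oddS 1 (2 + d) * palS q 1 (1 + J)) (83 / 10) ∧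
      Bd q 1 (palS q 1 (1 + J)) 0 := by
  constructor
  · have h1 : (1 + 2 * X) ^ 2 * oddS 1 2 = ofL [1, 4, 4, 4, 16, 20, 22, 40, 40, 68, 86, 64, 121, 124,
        116, 164, 116, 164, 176, 104, 161, 124, 106, 124, 56, 80, 70, 28, 40, 20, 16, 16, 1, 4, 4] := by
      simp only [oddS, prod_range_succ, prod_range_zero, ofL]
      push_cast
      ring
    have h2 : B2 q (palS q 1 (1 + J) * ((1 + 2 * X) ^ 2 * oddS 1 2)) (144 / 35) := by
      rw [h1]
      exact ⟨((bd_ofL hq _ 16 9 (by omega) (by decide)).palS_one hq (by omega) J).mono (by norm_num),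
        ((bd_ofL hq _ 4 1 (by omega) (by decide)).palS_one hq le_rfl J).mono (by norm_num)⟩
    convert (h2.tail hq d).2.mono (D := 83 / 10) (by norm_num) using 1
    rw [oddS_add]; ring
  · simpa using (show Bd q 1 1 0 from fun n => by simp [coeff_one]).palS_one hq le_rfl J

lemma prod_pair {M : Type*} [CommMonoid M] (f : ℕ → M) (d : ℕ) :
    ∏ j ∈ range (2 * d), f j = ∏ i ∈ range d, (f (2 * i) * f (2 * i + 1)) := by
  induction d with
  | zero => rfl
  | succ d ih => rw [mul_add_one, prod_range_succ, prod_range_succ, prod_range_succ, ih, mul_assoc]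

namespace Ob

universe u

variable {F : Type u} [Field F] [Finite F] {N : ℕ}

lemma wt_zero {S : Set (Ob F)} (h : LeC cl S (wt 0) N a) : LeC cl S dim N a :=
  h.congr_wt fun _ _ => by simp [wt]

section two

variable [CharP F 2]

/-- the recursive bound in characteristic two -/
def TW (F : Type u) [Field F] (q N k : ℕ) (P R : ℕ⟦X⟧) (σ ω : ℝ) : Prop :=
  ∃ s o, LeC cl (US F) (wt k) N (s * R) ∧ LeC cl (UO F) (wt k) N (o * R) ∧
    Bd q 0 (s * P) σ ∧ Bd q 0 (o * P) ω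

lemma TW.step {k : ℕ} {P R : ℕ⟦X⟧} {σ ω σ' ω' : ℝ} (hy : 1 ≤ y * q)
    (h : TW F q N (k + 1) P R σ ω) (h1 : ω + (y ^ (k + 1) + y ^ (2 * k + 2)) * σ ≤ σ')
    (h2 : (1 + y ^ (2 * k + 1)) * ω + 2 * ((y ^ (k + 1) + y ^ (2 * k + 2)) * σ) ≤ ω') :
    TW F q N k P (R * (ser 1 (2 * (2 * k + 1)) * ser 1 (2 * (2 * k + 2)))) σ' ω' := by
  obtain ⟨s, o, a1, a2, a3, a4⟩ := h
  have b1 := (a3.X_two hy (by omega) (k + 1)).add (a3.X_two hy (by omega) (2 * k + 2))
  have b2 := PLe.geo_two (show 0 < 2 * k + 2 by omega)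
  refine ⟨o + (X ^ (2 * (k + 1)) + X ^ (2 * (2 * k + 2))) * s, (1 + X ^ (2 * (2 * k + 1))) * o +
    2 * ((X ^ (2 * (k + 1)) + X ^ (2 * (2 * k + 2))) * s), (s_step a2 a1).mono ?_,
    (o_step a2 a1).mono ?_, ((a4.add b1).mono (by linarith)).of_le (PLe.of_eq (by ring)),
    (((a4.add (a4.X_two hy (by omega) (2 * k + 1))).add (b1.nsmul 2)).mono
      (by push_cast; linarith)).of_le (PLe.of_eq (by push_cast; ring))⟩
  · exact ((PLe.refl _).add (((PLe.refl _).mul b2).mul (PLe.refl _))).trans (PLe.of_eq (by ring))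
  · refine ((PLe.refl _).add (((PLe.refl _).mul b2).mul (PLe.refl _))).trans (PLe.of_eq ?_)
    have := geo_eq (show 0 < 2 * (2 * k + 1) by omega)
    generalize ser 1 (2 * (2 * k + 1)) = u at this ⊢
    generalize (X : ℕ⟦X⟧) ^ (2 * (2 * k + 1)) = x at this ⊢
    have h3 : 1 + 2 * (x * u) = (1 + x) * u := by
      rw [add_mul, one_mul]; nth_rewrite 2 [this]; ring
    have h4 := congrArg (o * R * ser 1 (2 * (2 * k + 2)) * ·) h3
    refine Eq.trans ?_ ((congrArg (· + 2 * (s * R) * u * ((1 + X ^ (2 * k + 2)) *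
      ser 1 (2 * (2 * k + 2))) * X ^ (2 * k + 2)) h4).trans ?_) <;> ring

lemma tw_tail (hy : 1 ≤ (1 / 2 : ℝ) * q) {P : ℕ⟦X⟧} {L : ℝ} (hP : Bd q 0 P L) (d k : ℕ) (hk : 2 ≤ k)
    (hN : N < 2 * (k + d)) :
    TW F q N k P (∏ i ∈ range d, (ser 1 (2 * (2 * (k + i) + 1)) * ser 1 (2 * (2 * (k + i) + 2))))
      (L * (1 + 3 / 2 * (1 / 2) ^ k + 2 * ((1 / 2) ^ k) ^ 2))
      (L * (1 + 2 * (1 / 2) ^ k + 3 * ((1 / 2) ^ k) ^ 2)) := by
  have hL := hP.nonneg
  induction d generalizing k with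
  | zero =>
    refine ⟨1, 1, ?_, ?_, ?_, ?_⟩
    · simpa using base_one (fun o ho => ho.2) hN
    · simpa using base_one (fun o ho => ho.2) hN
    · rw [one_mul]; exact hP.mono (le_mul_of_one_le_right hL (by rw [add_assoc]; simp; positivity))
    · rw [one_mul]; exact hP.mono (le_mul_of_one_le_right hL (by rw [add_assoc]; simp; positivity))
  | succ d ih =>
    simp only [prod_range_succ', add_zero, ← add_assoc, add_right_comm k _ 1]
    have h0 : (0 : ℝ) ≤ (1 / 2) ^ k := by positivity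
    have h1 : ((1 : ℝ) / 2) ^ k ≤ (1 / 2) ^ 2 := pow_le_pow_of_le_one (by norm_num) (by norm_num) hk
    refine (ih (k + 1) (by omega) (by omega)).step hy ?_ ?_
    all_goals
      simp only [pow_succ _ k, pow_add, pow_mul', pow_one]
      generalize (1 / 2 : ℝ) ^ k = z at h0 h1
      have h2 := mul_nonneg (mul_nonneg hL (pow_nonneg h0 2)) (sub_nonneg.2 h1)
      have h3 := mul_nonneg h2 h0
      have h4 := mul_nonneg hL (pow_nonneg h0 2)
      nlinarith

theorem sp_bound (n : ℕ) :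
    ∃ a, LeC cl {o : Ob F | IsS o} dim (2 * n) a ∧ Bd (Nat.card F) 0 a (76 / 5) := by
  have hq : 2 ≤ Nat.card F := Finite.one_lt_card
  have hy : 1 ≤ (1 / 2 : ℝ) * Nat.card F := by
    have : (2 : ℝ) ≤ Nat.card F := by exact_mod_cast hq
    linarith
  have h5 := tw_tail (F := F) (N := 2 * n) hy (palS_two hq (2 * n + 4)) n 5 (by omega) (by omega)
  obtain ⟨s, -, h1, -, h2, -⟩ := ((((h5.step hy le_rfl le_rfl).step hy le_rfl le_rfl).step hy le_rfl
    le_rfl).step hy le_rfl le_rfl).step hy le_rfl le_rfl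
  refine ⟨_, sp_total (wt_zero h1) (base_all (J := 2 * (5 + n)) (by omega)),
    (h2.mono (by norm_num)).of_le ?_⟩
  rw [mul_assoc]
  refine (PLe.refl _).mul (PLe.trans (PLe.of_eq ?_) (PLe.prod _ fun j _ => by
    simpa using gfP_two (F := F) (m := j + 1) (by omega)))
  rw [show 6 + (2 * n + 4) = 2 * (5 + n) by omega, prod_mul_distrib (s := range (2 * (5 + n))),
    prod_pair (fun j => ser 1 (2 * (j + 1))), prod_range_add _ 5]
  simp only [prod_range_succ, prod_range_zero]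
  ring

end two

lemma three_le (h2 : (2 : F) ≠ 0) : 3 ≤ Nat.card F := by
  have h1 : 1 < Nat.card F := Finite.one_lt_card
  by_contra h
  have := Fintype.ofFinite F
  have h3 := FiniteField.cast_card_eq_zero F
  rw [← Nat.card_eq_fintype_card, show Nat.card F = 2 by omega] at h3
  exact h2 (by exact_mod_cast h3)

lemma two_mul_le {c h G A : ℕ⟦X⟧} (H : PLe (c + 2 * h) A) :
    PLe (2 * (c * G * c + h * G * c + h * ((c + 2 * h) * G))) (A * A * G + c * c * G) :=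
  (PLe.of_eq (by ring)).trans (((H.mul H).mul (PLe.refl G)).add (PLe.refl _))

lemma one_le_prod {ι : Type*} (s : Finset ι) {j : ι → ℕ} (h : ∀ i, 0 < j i) :
    PLe 1 (∏ i ∈ s, ser 1 (j i)) := by
  simpa using PLe.prod s (a := fun _ => 1) fun i _ => PLe.one_geo (h i)

lemma pal_le (h2 : (2 : F) ≠ 0) (m J : ℕ) : PLe ((∏ j ∈ range J, ser 1 (2 * (m + j + 1))) ^ 2 *
    ∏ j ∈ range J, gfP (m + j + 1) (Pal₀ F)) (palS (Nat.card F) m J) := by
  rw [← prod_pow, ← prod_mul_distrib]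
  exact PLe.prod _ fun j _ => gfP_odd h2 (by omega)

variable {V : Type*} [AddCommGroup V] [Module F V]

theorem odd_bound (h2 : (2 : F) ≠ 0) (Q : QuadraticForm F V) (N : ℕ) :
    ∃ T, LeC cl {o : Ob F | IsO o ∧ Iso o.Q Q} dim N T ∧ Bd (Nat.card F) 0 (2 * T) 19 ∧
      Bd (Nat.card F) 1 (2 * T) (59 / 2) := by
  obtain ⟨h, h1, h3, h4⟩ := odd_rec (N := N) h2 (3 + N) 0 (by omega)
  obtain ⟨⟨a1, a2⟩, a3, a4⟩ := num_main (three_le h2) N (4 + 2 * N)
  have h5 := pal_le h2 0 (2 * (3 + N))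
  rw [prod_pair, show palS _ 0 (2 * (3 + N)) = palS _ 0 (2 + (4 + 2 * N)) by congr 1; omega] at h5
  have h6 := (two_mul_le (G := ∏ j ∈ range (2 * (3 + N)), gfP (j + 1) (Pal₀ F)) h4).trans
    (PLe.add (b := oddS 0 (3 + N) * palS _ 0 (2 + (4 + 2 * N))) (d := palS _ 0 (2 + (4 + 2 * N)))
      (PLe.trans (PLe.of_eq ?_) ((PLe.refl _).mul h5)) (PLe.trans ?_ h5))
  · exact ⟨_, (odd_total Q (fun _ => True) (fun _ _ _ _ _ _ => trivial) (fun _ _ _ => trivial)
      (fun T hT hm => wt_zero (h1 T (fun o ho => ⟨(hT ho).1.1, (hT ho).2⟩) hm)) (wt_zero h3)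
      ((base_all (by omega)).subset fun _ ho => ho.1)).subset fun _ ho => ⟨ho.1, ho.2, trivial⟩,
      ((a1.add a3).mono (by norm_num)).of_le h6, ((a2.add a4).mono (by norm_num)).of_le h6⟩
  · simp only [oddS, prod_mul_distrib, prod_pow, zero_add, add_assoc, one_add_one_eq_two]
    ring
  · simp only [prod_mul_distrib, zero_add, add_assoc, one_add_one_eq_two]
    rw [pow_two]
    have := (one_le_prod (range (3 + N)) (j := fun i => 2 * (2 * i + 1)) fun _ => by omega).mul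
      (PLe.refl (∏ i ∈ range (3 + N), ser 1 (2 * (2 * i + 2))))
    rw [one_mul] at this
    exact (this.mul this).mul (PLe.refl _)

theorem split_bound (h2 : (2 : F) ≠ 0) (Q : QuadraticForm F V) (N : ℕ) (P : Ob F → Prop)
    (p1 : ∀ o o₁ o₂, IsO o → Sum o o₁ o₂ → P o → P o₁) (p2 : ∀ o, IsO o → P o → P (neg o))
    (p3 : ∀ o o₁, IsO o → P o → DsA o o₁ → mb (o, o₁) ≤ 1)
    (p4 : ∀ o ∈ BO F, P o → ∀ J f, Blk o.g J f → f 0 = 1) :
    ∃ T, LeC cl {o : Ob F | IsO o ∧ Iso o.Q Q ∧ P o} dim N T ∧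
      Bd (Nat.card F) 1 (2 * T) (83 / 10) := by
  obtain ⟨h, h1, h3, h4⟩ := odd_rec (N := N) h2 (2 + N) (0 + 1) (by omega)
  obtain ⟨a1, a2⟩ := num_split (three_le h2) N (4 + 2 * N)
  have h5 := pal_le h2 1 (2 * (2 + N) + 1)
  rw [prod_range_succ', prod_pair,
    show palS _ 1 (2 * (2 + N) + 1) = palS _ 1 (1 + (4 + 2 * N)) by congr 1; omega] at h5
  have h7 := base_count (N := N) (J := 2 * (2 + N) + 1 + 1) (by omega)
    (S := {o | o ∈ BO F ∧ P o}) (fun _ ho => ho.1)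
    (P := fun j => Nat.casesOn j {1} fun _ => Pal₀ F)
    (a := fun j => Nat.casesOn j (X ^ 0) fun j => gfP (1 + j + 1) (Pal₀ F))
    (fun o ho f hf j => by
      cases j
      · exact p4 o ho.1 ho.2 _ f hf
      · exact blk_pal ho.1 hf _)
    fun j => by
      rcases j with _ | j
      · exact LeC.pow (by rintro _ rfl _; simp) (by rintro _ rfl _ rfl _ _; rfl)
      · exact (leC_gfP (m := 1 + j + 1) (by omega) _ _).congr_wt fun _ _ => by rw [add_comm 1 j]
  rw [prod_range_succ'] at h7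
  replace h7 : LeC cl _ dim N (∏ j ∈ range (2 * (2 + N) + 1), gfP (1 + j + 1) (Pal₀ F)) :=
    h7.mono (PLe.of_eq (by simp))
  have h8 := odd_total Q P p1 p2 (fun T hT hm => wt_zero (hb_step h2 h1 (total subset_rfl h1 h3)
    (fun o ho => ⟨(hT ho).1.1, (hT ho).2⟩) hm fun T' hT' h =>
      have h9 : ∀ p ∈ T', mb p - 1 = 0 := fun p hp => Nat.sub_eq_zero_of_le
        (p3 _ _ (hT (hT' p hp).1).1.1.1 (hT (hT' p hp).1).1.2 (hT' p hp).2.1)
      ((h 0).subset fun p hp => ⟨hp, h9 p hp⟩).congr_wt fun p hp => by simp [h9 p hp]))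
    (wt_zero (ev_step h2 h3)) h7
  refine ⟨_, h8, ((a1.add a2).mono (by norm_num)).of_le ((two_mul_le ((PLe.of_eq ?_).trans
    (h4.mul (PLe.refl ((1 + 2 * X) * ser 1 4))))).trans
    (PLe.add (PLe.trans (PLe.of_eq ?_) ((PLe.refl _).mul h5)) (PLe.trans ?_ h5)))⟩
  · ring
  · simp only [oddS, prod_mul_distrib, prod_pow, zero_add, mul_add, add_assoc, add_comm,
      add_left_comm]
    ring_nf
  · have := (one_le_prod (range (2 + N)) (j := fun i => 2 * (2 * (0 + 1 + i) + 1))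
      fun _ => by omega).mul (PLe.refl ((∏ i ∈ range (2 + N), ser 1 (2 * (2 * (0 + 1 + i) + 2))) *
        ser 1 4))
    rw [one_mul] at this
    refine ((this.mul this).mul (PLe.refl _)).trans (PLe.of_eq ?_)
    simp only [prod_mul_distrib]
    ring_nf

end Ob

end CfsgH8
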