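import Cfsg.Agent.H8.TDesc
import Cfsg.Agent.H8.Disc

set_option autoImplicit false
set_option linter.unusedSectionVars false

namespace CfsgH8

open Module LinearMap QuadraticMap
open LinearMap (BilinForm)

universe u

/-- a space with a bilinear form, an endomorphism and a quadratic form -/
structure Ob (F : Type u) [Field F] where
  V : Type u
  [i1 : AddCommGroup V]
  [i2 : Module F V]
  [i3 : FiniteDimensional F V]
  B : BilinForm F V
  g : End F V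
  Q : QuadraticForm F V

attribute [instance] Ob.i1 Ob.i2 Ob.i3

namespace Ob

variable {F : Type u} [Field F] {o o' o₁ o₁' : Ob F}

/-- isomorphism of objects -/
def Eqv (o o' : Ob F) : Prop := ∃ e : o.V ≃ₗ[F] o'.V, (∀ x y, o'.B (e x) (e y) = o.B x y) ∧
  (∀ x, e (o.g x) = o'.g (e x)) ∧ ∀ x, o'.Q (e x) = o.Q x

lemma eqv_equiv : Equivalence (Eqv (F := F)) where
  refl _ := ⟨LinearEquiv.refl _ _, fun _ _ => rfl, fun _ => rfl, fun _ => rfl⟩
  symm := by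
    rintro _ _ ⟨e, h1, h2, h3⟩
    exact ⟨e.symm, fun x y => by simp [← h1], fun x => e.injective (by simp [h2]),
      fun x => by simp [← h3]⟩
  trans := by
    rintro _ _ _ ⟨e, h1, h2, h3⟩ ⟨e', h1', h2', h3'⟩
    exact ⟨e.trans e', fun x y => by simp [h1, h1'], fun x => by simp [h2, h2'],
      fun x => by simp [h3, h3']⟩

/-- the class of an object -/
def cl (o : Ob F) : Quotient (⟨Eqv, eqv_equiv⟩ : Setoid (Ob F)) := Quotient.mk _ o

lemma cl_eq : cl o = cl o' ↔ Eqv o o' := Quotient.eq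

noncomputable def dim (o : Ob F) : ℕ := finrank F o.V

noncomputable def fx (o : Ob F) : ℕ := finrank F (ker (o.g - 1))

abbrev W (o : Ob F) : Submodule F o.V := range (o.g - 1)

lemma finrank_W (o : Ob F) : finrank F o.W + o.fx = o.dim := finrank_range_add_finrank_ker _

lemma Eqv.dim_eq (h : Eqv o o') : o.dim = o'.dim := h.choose.finrank_eq

lemma Eqv.fx_eq (h : Eqv o o') : o.fx = o'.fx := by
  obtain ⟨e, -, h2, -⟩ := h
  refine (LinearEquiv.ofSubmodules e _ _ (Submodule.ext fun x => ?_)).finrank_eq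
  obtain ⟨x, rfl⟩ := e.surjective x
  simp [sub_eq_zero, ← h2]

lemma Eqv.iso (h : Eqv o o') : Iso o.Q o'.Q := ⟨h.choose, h.choose_spec.2.2⟩

structure Gd (o : Ob F) : Prop where
  symm : ∀ x y, o.B x y = o.B y x
  nd : ∀ x, (∀ y, o.B x y = 0) → x = 0
  isom : ∀ x y, o.B (o.g x) (o.g y) = o.B x y

structure IsO (o : Ob F) : Prop where
  nd : ND o.Q
  B_eq : o.B = polarBilin o.Q
  isom : ∀ x, o.Q (o.g x) = o.Q x

structure IsS (o : Ob F) : Prop extends Gd o where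
  alt : o.B.IsAlt
  Q_eq : o.Q = 0

def Unip (o : Ob F) : Prop := IsNilpotent (o.g - 1)

lemma IsO.gd (h : IsO o) : Gd o where
  symm x y := by rw [h.B_eq]; exact pcomm x y
  nd x hx := h.nd.eq_zero fun y => by simpa [h.B_eq] using hx y
  isom x y := by rw [h.B_eq]; exact polar_map _ h.isom x y

lemma Gd.bij (h : Gd o) : Function.Bijective o.g :=
  have := CfsgH1.isom_injective h.nd h.isom
  ⟨this, injective_iff_surjective.1 this⟩

/-- the isometry as an element of the orthogonal group -/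
noncomputable def IsO.og (h : IsO o) : OG o.Q := ⟨LinearEquiv.ofBijective _ h.gd.bij, h.isom⟩

lemma exists_sec (o : Ob F) : ∃ σ : o.W →ₗ[F] o.V, ∀ a, o.g (σ a) - σ a = a := by
  obtain ⟨s, hs⟩ := (o.g - 1).rangeRestrict.exists_rightInverse_of_surjective (range_rangeRestrict _)
  exact ⟨s, fun a => congrArg Subtype.val (LinearMap.congr_fun hs a)⟩

/-- the Wall form -/
noncomputable def θ (o : Ob F) : BilinForm F o.W := -o.B.compl₁₂ o.exists_sec.choose o.W.subtype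

lemma Gd.fix (h : Gd o) {x : o.V} (hx : o.g x = x) (b : o.W) : o.B x b = 0 := by
  obtain ⟨_, y, rfl⟩ := b
  simp only [LinearMap.sub_apply, End.one_apply, map_sub]
  rw [← h.isom x y, hx, sub_self]

lemma Gd.fix_of (h : Gd o) {x : o.V} (hx : ∀ b : o.W, o.B x b = 0) : o.g x = x :=
  sub_eq_zero.1 (h.nd _ fun y => by
    obtain ⟨y, rfl⟩ := h.bij.2 y
    have := hx ⟨_, y, rfl⟩
    simp only [LinearMap.sub_apply, End.one_apply, map_sub, h.isom] at this ⊢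
    linear_combination -this)

lemma Gd.θ_apply (h : Gd o) (a b : o.W) {y : o.V} (hy : o.g y - y = a) : o.θ a b = -o.B y b := by
  have := h.fix (x := o.exists_sec.choose a - y) (by
    rw [map_sub]; linear_combination (norm := module) o.exists_sec.choose_spec a - hy) b
  rw [map_sub, LinearMap.sub_apply, sub_eq_zero] at this
  exact congrArg Neg.neg this

lemma Gd.θ_add (h : Gd o) (a b : o.W) : o.θ a b + o.θ b a = o.B a b := by
  obtain ⟨_, y, rfl⟩ := a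
  obtain ⟨_, z, rfl⟩ := b
  rw [h.θ_apply _ _ (y := y) rfl, h.θ_apply _ _ (y := z) rfl]
  simp only [LinearMap.sub_apply, End.one_apply, map_sub, h.isom, h.symm z]
  ring

lemma Gd.θ_nd (h : Gd o) (b : o.W) (hb : ∀ a, o.θ a b = 0) : b = 0 :=
  Subtype.ext (h.nd _ fun y => by
    rw [h.symm, ← neg_eq_zero, ← h.θ_apply ⟨_, y, rfl⟩ b rfl, hb])

lemma IsO.θ_self (h : IsO o) (a : o.W) : o.θ a a = o.Q a := by
  obtain ⟨_, y, rfl⟩ := a
  rw [h.gd.θ_apply _ _ (y := y) rfl, h.B_eq]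
  simp only [LinearMap.sub_apply, End.one_apply, polarBilin_apply_apply, Q_sub, h.isom,
    polar_sub_right, polar_self', pcomm y (o.g y)]
  ring

/-- the restriction to `W` -/
def gW (o : Ob F) : End F o.W := o.g.restrict (p := o.W) (q := o.W) (by
  rintro _ ⟨y, rfl⟩; exact ⟨o.g y, by simp⟩)

lemma Gd.θ_gW (h : Gd o) (a b : o.W) : o.θ (o.gW a) (o.gW b) = o.θ a b := by
  obtain ⟨_, y, rfl⟩ := a
  rw [h.θ_apply _ _ (y := o.g y) (by simp [gW]), h.θ_apply _ _ (y := y) rfl]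
  exact congrArg Neg.neg (h.isom _ _)

lemma Gd.exists_TD (h : Gd o) (hu : Unip o) : ∃ o₁ : Ob F, Gd o₁ ∧ Unip o₁ ∧ o₁.Q = 0 ∧
    ∃ D : TD o₁.B o₁.g o.θ, ∀ x, o₁.g (D.π x) = D.π (o.gW x) := by
  let K : Submodule F o.W := (ker (o.g - 1)).comap o.W.subtype
  have hK : ∀ {x : o.W}, K.mkQ x = 0 ↔ o.g x = x := fun {x} => by simp [K, sub_eq_zero]
  obtain ⟨σ, hσ⟩ := K.mkQ.exists_rightInverse_of_surjective K.range_mkQ
  have h1 : ∀ x, o.g (σ (K.mkQ x) - x : o.W) = (σ (K.mkQ x) - x : o.W) := fun x => hK.1 (by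
    rw [map_sub, sub_eq_zero]; exact LinearMap.congr_fun hσ _)
  have h2 : ∀ x (b : o.W), o.B (σ (K.mkQ x)) b = o.B x b := fun x b => by
    simpa [sub_eq_zero] using h.fix (h1 x) b
  have h3 : ∀ x, σ (K.mkQ x) - o.gW (σ (K.mkQ x)) = x - o.gW x := fun x => Subtype.ext (by
    have := h1 x
    simp only [Submodule.coe_sub, map_sub, gW, coe_restrict_apply] at this ⊢
    linear_combination (norm := module) -this)
  have h4 : ∀ x, K.mkQ (o.gW (σ (K.mkQ x))) = K.mkQ (o.gW x) := fun x => by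
    have := congrArg K.mkQ (h3 x)
    rw [map_sub, map_sub, show K.mkQ (σ (K.mkQ x)) = K.mkQ x from LinearMap.congr_fun hσ _] at this
    exact sub_right_injective this
  let s : BilinForm F (o.W ⧸ K) := o.B.compl₁₂ (o.W.subtype ∘ₗ σ) (o.W.subtype ∘ₗ σ)
  have h5 : ∀ x y, s (K.mkQ x) (K.mkQ y) = o.B x y := fun x y =>
    (h2 _ _).trans ((h.symm _ _).trans ((h2 _ _).trans (h.symm _ _)))
  have h6 : Gd ⟨o.W ⧸ K, s, K.mkQ ∘ₗ o.gW ∘ₗ σ, 0⟩ := ⟨fun x y => h.symm _ _, fun x hx => by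
      obtain ⟨x, rfl⟩ := K.mkQ_surjective x
      exact hK.2 (h.fix_of fun b => (h5 _ _).symm.trans (hx _)), fun x y => by
      obtain ⟨x, rfl⟩ := K.mkQ_surjective x
      obtain ⟨y, rfl⟩ := K.mkQ_surjective y
      simp only [LinearMap.comp_apply, h4, h5]
      exact h.isom _ _⟩
  refine ⟨_, h6, ?_, rfl, ⟨K.mkQ, (1 - o.gW) ∘ₗ σ, K.mkQ_surjective,
    fun x y => by rw [h.θ_add]; exact h5 x y, fun v x => ?_, fun v => ?_, h.θ_nd, h6.nd, h6.bij.2⟩, h4⟩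
  · obtain ⟨n, hn⟩ := hu
    refine ⟨n, LinearMap.ext fun x => ?_⟩
    obtain ⟨x, rfl⟩ := K.mkQ_surjective x
    have : ∀ k : ℕ, ∃ y : o.W, (y : o.V) = ((o.g - 1) ^ k) x ∧
        ((K.mkQ ∘ₗ o.gW ∘ₗ σ - 1) ^ k) (K.mkQ x) = K.mkQ y := fun k => by
      induction k with
      | zero => exact ⟨x, rfl, rfl⟩
      | succ k ih =>
        obtain ⟨y, e1, e2⟩ := ih
        refine ⟨o.gW y - y, by simp [pow_succ', ← e1, gW], ?_⟩
        rw [pow_succ', End.mul_apply, e2, map_sub, ← h4]; rfl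
    obtain ⟨y, e1, e2⟩ := this n
    rw [hn] at e1
    rw [e2, show y = 0 from Subtype.ext e1, map_zero]; rfl
  · obtain ⟨v, rfl⟩ := K.mkQ_surjective v
    rw [h.θ_apply _ _ (y := -σ (K.mkQ v)) (by simp [gW, neg_add_eq_sub]), h5]
    simpa using h2 v x
  · obtain ⟨v, rfl⟩ := K.mkQ_surjective v
    simp only [LinearMap.comp_apply, LinearMap.sub_apply, End.one_apply, h3, h4, map_sub K.mkQ v]

/-- descent to a quadratic space -/
def DsA (o o₁ : Ob F) : Prop := IsO o₁ ∧ ∃ D : TD o₁.B o₁.g o.θ, ∀ x, o₁.Q (D.π x) = o.θ x x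

/-- descent to a symplectic space -/
def DsN (o o₁ : Ob F) : Prop :=
  IsS o₁ ∧ ∃ D : TD o₁.B o₁.g o.θ, ∃ e, D.π e = 0 ∧ o.θ e e ≠ 0

lemma Gd.exists_ds (h : Gd o) (hu : Unip o) :
    ∃ o₁ : Ob F, Unip o₁ ∧ (DsA o o₁ ∨ ((2 : F) = 0 ∧ DsN o o₁)) := by
  obtain ⟨o₁, h1, h2, h3, D, h4⟩ := h.exists_TD hu
  by_cases h5 : ∀ e, D.π e = 0 → o.θ e e = 0
  · obtain ⟨σ, hσ⟩ := D.π.exists_rightInverse_of_surjective (range_eq_top.2 D.surj)
    let Q : QuadraticForm F o₁.V := (BilinMap.toQuadraticMap o.θ).comp σ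
    have hQ : ∀ x, Q (D.π x) = o.θ x x := fun x => by
      have e1 : D.π (σ (D.π x) - x) = 0 := by
        rw [map_sub, sub_eq_zero]; exact LinearMap.congr_fun hσ _
      have e2 := h5 _ e1
      have e3 := D.skew e1 x
      simp only [map_sub, LinearMap.sub_apply] at e2 e3
      show o.θ (σ (D.π x)) (σ (D.π x)) = _
      linear_combination e2 + e3
    have hB : o₁.B = polarBilin Q := LinearMap.ext₂ fun x y => by
      obtain ⟨x, rfl⟩ := D.surj x
      obtain ⟨y, rfl⟩ := D.surj y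
      simp only [polarBilin_apply_apply, QuadraticMap.polar, ← map_add D.π, hQ, D.h1, map_add o.θ,
        LinearMap.add_apply, map_add (o.θ _)]
      ring
    refine ⟨{ o₁ with Q := Q }, h2, Or.inl ⟨⟨ND.of_forall fun x hx => h1.nd x fun y => ?_, hB,
      fun x => ?_⟩, D, hQ⟩⟩
    · rw [hB]; exact hx y
    · obtain ⟨x, rfl⟩ := D.surj x
      exact (congrArg Q (h4 x)).trans (by rw [hQ, hQ, h.θ_gW])
  · push Not at h5
    have h6 : (2 : F) = 0 := by
      obtain ⟨e, e1, e2⟩ := h5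
      have := D.skew e1 e
      exact (mul_eq_zero.1 (show 2 * o.θ e e = 0 by linear_combination this)).resolve_right e2
    refine ⟨o₁, h2, Or.inr ⟨h6, ⟨h1, fun x => ?_, h3⟩, D, h5⟩⟩
    obtain ⟨x, rfl⟩ := D.surj x
    rw [D.h1, ← two_mul, h6, zero_mul]

lemma Gd.fix_ker (h : Gd o) (D : TD o₁.B o₁.g o.θ) {x : o.W} (hx : D.π x = 0) : o.g x = x :=
  h.fix_of fun b => by rw [← h.θ_add, ← D.h1, hx, map_zero, LinearMap.zero_apply]

lemma Gd.dim_le (h : Gd o) (D : TD o₁.B o₁.g o.θ) :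
    finrank F (ker D.π) + o.fx + o₁.dim = o.dim ∧
      (ker D.π).map o.W.subtype ≤ ker (o.g - 1) := by
  have h1 := D.π.finrank_range_add_finrank_ker
  rw [range_eq_top.2 D.surj, finrank_top] at h1
  refine ⟨by have := o.finrank_W; unfold dim at *; omega, ?_⟩
  rintro _ ⟨x, hx, rfl⟩
  exact sub_eq_zero.2 (h.fix_ker D hx)

lemma Gd.dim_le' (h : Gd o) (D : TD o₁.B o₁.g o.θ) : o.dim ≤ 2 * o.fx + o₁.dim := by
  obtain ⟨h1, h2⟩ := h.dim_le D
  have := Submodule.finrank_mono h2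
  rw [Submodule.finrank_map_subtype_eq] at this
  unfold fx at *; omega

lemma DsA.dims (h : Gd o) (d : DsA o o₁) :
    ∃ m m', o.dim = o.fx + o₁.dim + o₁.fx + 2 * m ∧ o.fx = o₁.fx + 2 * m + m' := by
  obtain ⟨-, D, hD⟩ := d
  obtain ⟨m, hm⟩ := D.dim_alt fun x hx => by rw [← hD, hx, map_zero]
  have h1 := h.dim_le' D
  have h2 := o.finrank_W
  exact ⟨m, o.fx - (o₁.fx + 2 * m), by unfold dim fx at *; omega⟩

lemma DsN.dims (h : Gd o) (d : DsN o o₁) :
    ∃ m m', o.dim = o.fx + o₁.dim + o₁.fx + (m + 1) ∧ o.fx = o₁.fx + (m + 1) + m' := by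
  obtain ⟨-, D, e, e1, e2⟩ := d
  obtain ⟨m, hm⟩ := D.dim_nonalt e1 e2
  have h1 := h.dim_le' D
  have h2 := o.finrank_W
  exact ⟨m, o.fx - (o₁.fx + (m + 1)), by unfold dim fx at *; omega⟩

/-- transport of descent data -/
def _root_.CfsgH8.TD.congr {W : Type*} [AddCommGroup W] [Module F W] {θ : BilinForm F W}
    (D : TD o'.B o'.g θ) (e : o.V ≃ₗ[F] o'.V) (h1 : ∀ x y, o'.B (e x) (e y) = o.B x y)
    (h2 : ∀ x, e (o.g x) = o'.g (e x)) : TD o.B o.g θ where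
  π := e.symm.toLinearMap ∘ₗ D.π
  κ := D.κ ∘ₗ e.toLinearMap
  surj := e.symm.surjective.comp D.surj
  h1 x y := by simp [← h1, D.h1]
  h2 v x := by simp [← h1, D.h2]
  h3 v := by simp [D.h3, ← h2]
  nd := D.nd
  nds v hv := e.map_eq_zero_iff.1 (D.nds _ fun w => by rw [← e.apply_symm_apply w, h1, hv])
  gs v := by
    obtain ⟨w, hw⟩ := D.gs (e v)
    exact ⟨e.symm w, e.injective (by simp [h2, hw])⟩

/-- the Wall forms are equivalent -/
def WEq (o o' : Ob F) : Prop := ∃ ψ : o.W ≃ₗ[F] o'.W, ∀ x y, o'.θ (ψ x) (ψ y) = o.θ x y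

lemma DsA.wEq (d : DsA o o₁) (d' : DsA o' o₁') (h : Eqv o₁ o₁') (h1 : o.dim = o'.dim)
    (h2 : o.fx = o'.fx) : WEq o o' := by
  obtain ⟨-, D, hD⟩ := d
  obtain ⟨-, D', hD'⟩ := d'
  obtain ⟨e, e1, e2, e3⟩ := h
  refine D.equiv_alt (D'.congr e e1 e2) (by have := o.finrank_W; have := o'.finrank_W; omega)
    fun x x' hx => ?_
  rw [← hD, ← hD', ← hx, ← e3]
  simp [TD.congr]

lemma DsN.wEq [Finite F] [CharP F 2] (d : DsN o o₁) (d' : DsN o' o₁') (h : Eqv o₁ o₁')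
    (h1 : o.dim = o'.dim) (h2 : o.fx = o'.fx) : WEq o o' := by
  obtain ⟨-, D, x, x1, x2⟩ := d
  obtain ⟨-, D', x', x1', x2'⟩ := d'
  obtain ⟨e, e1, e2, -⟩ := h
  exact D.equiv_nonalt (D'.congr e e1 e2) (by have := o.finrank_W; have := o'.finrank_W; omega)
    x1 x2 (by simp [TD.congr, x1']) x2'

lemma conj_of_wall (h : Gd o) (h' : Gd o') (ψ : o.W ≃ₗ[F] o'.W)
    (hψ : ∀ x y, o'.θ (ψ x) (ψ y) = o.θ x y) (e : o.V →ₗ[F] o'.V)
    (h1 : ∀ x y, o'.B (e x) (e y) = o.B x y) (h2 : ∀ x : o.W, e x = ψ x) (y : o.V) :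
    e (o.g y) = o'.g (e y) := by
  have h3 : ψ ⟨_, y, rfl⟩ - ⟨_, e y, rfl⟩ = 0 :=
    (BilinForm.Nondegenerate.ofSeparatingRight h'.θ_nd).1 _ fun b => by
      obtain ⟨b, rfl⟩ := ψ.surjective b
      rw [map_sub, LinearMap.sub_apply, hψ, h.θ_apply _ _ (y := y) rfl,
        h'.θ_apply _ _ (y := e y) rfl, ← h2, h1, sub_self]
  have := congrArg Subtype.val (sub_eq_zero.1 h3)
  rw [← h2] at this
  simpa using this

lemma WEq.eqv_O (h : IsO o) (h' : IsO o') (hI : Iso o.Q o'.Q) (w : WEq o o') : Eqv o o' := by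
  obtain ⟨ψ, hψ⟩ := w
  obtain ⟨e, he⟩ := hI
  obtain ⟨k, hk⟩ := witt h'.nd (e.toLinearMap ∘ₗ o.W.subtype) (o'.W.subtype ∘ₗ ψ.toLinearMap)
    (e.injective.comp Subtype.val_injective) (Subtype.val_injective.comp ψ.injective) fun w =>
      (he w).trans (by rw [← h.θ_self, ← hψ, h'.θ_self]; rfl)
  have h1 : ∀ x, o'.Q ((e ≪≫ₗ k.1) x) = o.Q x := fun x => by simp [he]
  have h2 : ∀ x y, o'.B ((e ≪≫ₗ k.1) x) ((e ≪≫ₗ k.1) y) = o.B x y := fun x y => by
    rw [h.B_eq, h'.B_eq]; exact polar_map (e ≪≫ₗ k.1).toLinearMap h1 x y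
  exact ⟨_, h2, conj_of_wall h.gd h'.gd ψ hψ (e ≪≫ₗ k.1).toLinearMap h2 hk, h1⟩

lemma WEq.eqv_S (h : IsS o) (h' : IsS o') (hd : o.dim = o'.dim) (w : WEq o o') : Eqv o o' := by
  obtain ⟨ψ, hψ⟩ := w
  obtain ⟨e, he⟩ := CfsgH1.exists_alt_equiv h.alt h.nd h'.alt h'.nd hd
  obtain ⟨k, hk, hk'⟩ := CfsgH1.alt_witt h'.alt h'.nd (e.toLinearMap ∘ₗ o.W.subtype)
    (o'.W.subtype ∘ₗ ψ.toLinearMap) (e.injective.comp Subtype.val_injective)
    (Subtype.val_injective.comp ψ.injective) fun w w' => (he w w').trans (by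
      rw [← h.toGd.θ_add, ← hψ, ← hψ, h'.toGd.θ_add]; rfl)
  have hi := CfsgH1.isom_injective h'.nd hk
  let k' := LinearEquiv.ofBijective k ⟨hi, injective_iff_surjective.1 hi⟩
  have h2 : ∀ x y, o'.B ((e ≪≫ₗ k') x) ((e ≪≫ₗ k') y) = o.B x y := fun x y =>
    (hk _ _).trans (he x y)
  exact ⟨_, h2, conj_of_wall h.toGd h'.toGd ψ hψ (e ≪≫ₗ k').toLinearMap h2 hk',
    fun x => by simp [h.Q_eq, h'.Q_eq]⟩

lemma DsA.hyp (h : IsO o) (d : DsA o o₁) (hd : o.dim = 2 * o.fx + o₁.dim) :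
    Nonempty (ODec (QP o.fx F) o₁.Q o.Q) := by
  obtain ⟨h₁, D, hD⟩ := d
  obtain ⟨h1, h2⟩ := h.gd.dim_le D
  have h3 := Submodule.eq_of_le_of_finrank_eq h2 (by
    rw [Submodule.finrank_map_subtype_eq]; unfold fx at *; omega)
  have h4 : TS o.Q (ker (o.g - 1)) := by
    rw [← h3]
    rintro _ ⟨x, hx, rfl⟩
    rw [Submodule.subtype_apply, ← h.θ_self, ← hD, mem_ker.1 hx, map_zero]
  obtain ⟨U, E, -, -, h5⟩ := h4.exists_hypDec h.nd rfl
  have h6 : U ≤ o.W := by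
    rw [show o.W = perp o.Q (ker (o.g - 1)) from (perp_fixS h.nd h.og).symm, h5]
    exact le_sup_right
  have h7 : ∀ x, o₁.Q ((D.π ∘ₗ Submodule.inclusion h6) x) = res o.Q U x := fun x =>
    (hD _).trans (h.θ_self _)
  have h8 := E.finrank_eq
  simp only [finrank_fintype_fun_eq_card, Fintype.card_sum, Fintype.card_fin] at h8
  let e := LinearEquiv.ofInjectiveOfFinrankEq _ (inj_of_nd _ h7 (E.nd_right h.nd))
    (by unfold dim fx at *; omega)
  exact ⟨E.congr (LinearEquiv.refl _ _) (fun _ => rfl) e.symm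
    (fun x => by rw [← h7]; exact congrArg _ (e.apply_symm_apply x)) (LinearEquiv.refl _ _)
    fun _ => rfl⟩

lemma DsA.iso_iff (h : IsO o) (h' : IsO o') (d : DsA o o₁) (d' : DsA o' o₁')
    (hd : o.dim = 2 * o.fx + o₁.dim) (hd' : o'.dim = 2 * o'.fx + o₁'.dim) (hf : o.fx = o'.fx) :
    Iso o.Q o'.Q ↔ Iso o₁.Q o₁'.Q := by
  obtain ⟨E⟩ := d.hyp h hd
  obtain ⟨E'⟩ := d'.hyp h' hd'
  have : Iso (QP o.fx F) (QP o'.fx F) := hf ▸ Iso.refl _
  exact ⟨fun h1 => witt_cancel' h.nd E E' h1 this, E.iso E' this⟩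

lemma exists_typ [Finite F] : ∃ τ : Ob F → Prop, ∀ o o', IsO o → IsO o' → o.dim = o'.dim →
    (τ o ↔ τ o') → Iso o.Q o'.Q := by
  by_cases h2 : (2 : F) = 0
  · obtain ⟨ζ, hζ⟩ := exists_aniso (F := F)
    refine ⟨fun o => Iso (QP (o.dim / 2) F) o.Q, fun o o' h h' hd hτ => ?_⟩
    obtain ⟨m, hm⟩ := CfsgH1.even_finrank_of_alt (B := o.B)
      (fun x => by simp [h.B_eq, polar_self', h2]) h.gd.nd
    have e1 : o.dim / 2 = m := by unfold dim; omega
    replace hτ : Iso (QP (o.dim / 2) F) o.Q ↔ Iso (QP (o'.dim / 2) F) o'.Q := hτ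
    rw [← hd, e1] at hτ
    by_cases h3 : Iso (QP m F) o.Q
    · exact h3.symm.trans (hτ.1 h3)
    · exact ((h.nd.classify_even (by omega) hζ).resolve_left h3).2.symm.trans
        ((h'.nd.classify_even (by unfold dim at hd; omega) hζ).resolve_left (hτ.not.1 h3)).2
  · refine ⟨fun o => discC o.Q = 1, fun o o' h h' hd hτ => iso_of_discC h2 h.nd h'.nd hd ?_⟩
    revert hτ
    exact (by decide : ∀ a b : ℤˣ, (a = 1 ↔ b = 1) → a = b) _ _

lemma Unip.dim_eq (h : Unip o) (h0 : o.fx = 0) : o.dim = 0 := by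
  obtain ⟨n, hn⟩ := h
  have h1 := ker_eq_bot.1 (Submodule.finrank_eq_zero.1 h0)
  refine finrank_zero_iff_forall_zero.2 fun x => End.iterate_injective h1 n ?_
  rw [hn]; rfl

lemma eqv_of_dim_zero (h : o.dim = 0) (h' : o'.dim = 0) : Eqv o o' := by
  have := finrank_zero_iff.1 h
  have := finrank_zero_iff.1 h'
  refine ⟨LinearEquiv.ofSubsingleton _ _, fun x y => ?_, fun _ => Subsingleton.elim _ _, fun x => ?_⟩
  · rw [Subsingleton.elim x 0, map_zero, map_zero, map_zero]; rfl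
  · rw [Subsingleton.elim x 0, map_zero, map_zero, map_zero]

end Ob

end CfsgH8
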