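import Cfsg.Agent.H7.Sim
import Cfsg.Agent.H8.Gf

set_option autoImplicit false
set_option linter.unusedSectionVars false

namespace CfsgH8

open Module Polynomial UniqueFactorizationMonoid
open scoped DirectSum

lemma card_tors {R : Type*} [CommRing R] [IsDomain R] {a b m r : R} (hm : m ≠ 0) (ha : a = b * m)
    (h : ∀ x, a ∣ r * x ↔ m ∣ x) :
    Nat.card {x : R ⧸ R ∙ a // r • x = 0} = Nat.card (R ⧸ R ∙ b) := by
  have h0 : ∀ c x : R, (R ∙ c).mkQ x = 0 ↔ c ∣ x := fun c x => by
    rw [Submodule.mkQ_apply, Submodule.Quotient.mk_eq_zero]; exact Ideal.mem_span_singleton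
  let φ : (R ⧸ R ∙ b) →ₗ[R] R ⧸ R ∙ a := (R ∙ b).liftQ ((R ∙ a).mkQ ∘ₗ LinearMap.mulRight R m)
    fun x hx => (h0 a _).2 (ha ▸ mul_dvd_mul_right (Ideal.mem_span_singleton.1 hx) m)
  have h1 : ∀ x, φ ((R ∙ b).mkQ x) = (R ∙ a).mkQ (x * m) := fun x => rfl
  have h2 : ∀ x, r • φ x = 0 := fun x => by
    obtain ⟨x, rfl⟩ := (R ∙ b).mkQ_surjective x
    rw [h1, ← map_smul, h0]
    exact (h _).2 (dvd_mul_left _ _)
  refine (Nat.card_congr (Equiv.ofBijective (fun x => ⟨φ x, h2 x⟩) ⟨fun x y e => ?_, ?_⟩)).symm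
  · obtain ⟨x, rfl⟩ := (R ∙ b).mkQ_surjective x
    obtain ⟨y, rfl⟩ := (R ∙ b).mkQ_surjective y
    have := congrArg Subtype.val e
    simp only [h1] at this
    rw [← sub_eq_zero, ← map_sub, h0] at this ⊢
    rwa [← sub_mul, ha, mul_dvd_mul_iff_right hm] at this
  · rintro ⟨x, hx⟩
    obtain ⟨x, rfl⟩ := (R ∙ a).mkQ_surjective x
    rw [← map_smul, h0] at hx
    obtain ⟨y, rfl⟩ := (h _).1 hx
    exact ⟨(R ∙ b).mkQ y, Subtype.ext ((h1 y).trans (by rw [mul_comm]))⟩

variable {F V : Type*} [Field F] [Finite F] [AddCommGroup V] [Module F V] [FiniteDimensional F V]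

lemma card_quot {a : F[X]} (ha : a ≠ 0) :
    Nat.card (F[X] ⧸ F[X] ∙ a) = Nat.card F ^ a.natDegree := by
  have : Module.Finite F (F[X] ⧸ Ideal.span {a}) := (AdjoinRoot.powerBasis ha).finite
  rw [← finrank_quotient_span_eq_natDegree]
  exact Module.natCard_eq_pow_finrank (K := F) (V := F[X] ⧸ Ideal.span {a})

open Classical in
lemma card_tors_pow {p p' : F[X]} (hp : Irreducible p) (hp' : Irreducible p') (k e : ℕ) :
    Nat.card {x : F[X] ⧸ F[X] ∙ p' ^ e // p ^ k • x = 0} =
      Nat.card F ^ (p.natDegree * if normalize p' = normalize p then min k e else 0) := by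
  split_ifs with h
  · have h1 : Associated p' p := normalize_eq_normalize_iff_associated.1 h
    rw [card_tors (b := p' ^ min k e) (m := p' ^ (e - min k e)) (pow_ne_zero _ hp'.ne_zero)
      (by rw [← pow_add]; congr 1; omega) fun x => ?_, card_quot (pow_ne_zero _ hp'.ne_zero),
      natDegree_pow, mul_comm, natDegree_eq_of_degree_eq (degree_eq_degree_of_associated h1)]
    rw [← ((h1.pow_pow (n := k)).mul_right x).dvd_iff_dvd_right]
    rcases le_total k e with h2 | h2
    · obtain ⟨d, rfl⟩ := Nat.exists_eq_add_of_le h2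
      rw [min_eq_left h2, pow_add, mul_dvd_mul_iff_left (pow_ne_zero _ hp'.ne_zero),
        Nat.add_sub_cancel_left]
    · rw [min_eq_right h2, Nat.sub_self, pow_zero]
      exact iff_of_true ((pow_dvd_pow _ h2).mul_right _) (one_dvd _)
  · have h1 : IsCoprime (p' ^ e) (p ^ k) := (hp'.coprime_iff_not_dvd.2 fun h1 =>
      h (normalize_eq_normalize_iff_associated.2 (hp'.associated_of_dvd hp h1))).pow
    rw [card_tors (b := 1) (pow_ne_zero _ hp'.ne_zero) (one_mul _).symm
      fun x => ⟨h1.dvd_of_dvd_mul_left, fun h => h.mul_left _⟩, card_quot one_ne_zero]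
    simp

/-- dimension of the kernel of a polynomial in `g` -/
noncomputable def kd (g : End F V) (r : F[X]) : ℕ := finrank F (LinearMap.ker (aeval g r))

open Classical in
lemma exists_blocks (g : End F V) : ∃ (ι : Type) (_ : Fintype ι) (p : ι → F[X]) (e : ι → ℕ),
    (∀ i, Irreducible (p i) ∧ (p i).Monic) ∧ finrank F V = ∑ i, e i * (p i).natDegree ∧
    ∀ r : F[X], Irreducible r → r.Monic → ∀ k,
      kd g (r ^ k) = r.natDegree * ∑ i, if p i = r then min k (e i) else 0 := by
  obtain ⟨ι, _, p, hp, e, ⟨φ⟩⟩ := equiv_directSum_of_isTorsion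
    (AEval.isTorsion_of_finiteDimensional F V g)
  have hq : 1 < Nat.card F := Finite.one_lt_card
  let ψ := φ.trans (DirectSum.linearEquivFunOnFintype _ _ _)
  let σ := (Fintype.equivFin ι).symm
  refine ⟨Fin _, inferInstance, fun i => normalize (p (σ i)), fun i => e (σ i), fun i =>
    ⟨(associated_normalize _).irreducible (hp _), monic_normalize (hp _).ne_zero⟩, ?_,
    fun r h1 h2 k => ?_⟩
  · refine Nat.pow_right_injective hq ?_
    simp only
    rw [← Module.natCard_eq_pow_finrank, Nat.card_congr (AEval'.of g).toEquiv,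
      Nat.card_congr ψ.toEquiv, Nat.card_pi, ← Finset.prod_pow_eq_pow_sum, ← σ.prod_comp]
    refine Finset.prod_congr rfl fun i _ => ?_
    rw [card_quot (pow_ne_zero _ (hp _).ne_zero), natDegree_pow,
      natDegree_eq_of_degree_eq (degree_normalize)]
  · refine Nat.pow_right_injective hq ?_
    simp only
    rw [kd, ← Module.natCard_eq_pow_finrank, Finset.mul_sum, ← Finset.prod_pow_eq_pow_sum]
    have h3 : Nat.card (LinearMap.ker (aeval g (r ^ k))) =
        Nat.card (∀ i, {x : F[X] ⧸ F[X] ∙ p i ^ e i // r ^ k • x = 0}) :=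
      Nat.card_congr ((ψ.toEquiv.subtypeEquiv (p := fun x => r ^ k • x = 0) fun x => by
        rw [← ψ.map_eq_zero_iff, map_smul, funext_iff]; rfl).trans Equiv.subtypePiEquivPi)
    rw [h3, Nat.card_pi, ← σ.prod_comp]
    refine Finset.prod_congr rfl fun i _ => ?_
    rw [card_tors_pow h1 (hp _), h2.normalize_eq_self]

open Classical in
/-- multiplicity of an irreducible factor -/
noncomputable def mlt (r f : F[X]) : ℕ := (normalizedFactors f).count r

/-- the polynomials `f j` describe the blocks of size `j + 1` of `g` -/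
structure Blk (g : End F V) (J : ℕ) (f : ℕ → F[X]) : Prop where
  monic : ∀ j, (f j).Monic
  dim : finrank F V = ∑ j ∈ Finset.range J, (j + 1) * (f j).natDegree
  kd : ∀ r : F[X], Irreducible r → r.Monic → ∀ k,
    kd g (r ^ k) = r.natDegree * ∑ j ∈ Finset.range J, min k (j + 1) * mlt r (f j)
  one : ∀ j, J ≤ j → f j = 1

lemma sum_fiber {ι : Type*} [Fintype ι] {e : ι → ℕ} {J : ℕ} (he : ∀ i, e i ≤ J) (φ : ι → ℕ → ℕ)
    (h0 : ∀ i, φ i 0 = 0) : ∑ i, φ i (e i) =
      ∑ j ∈ Finset.range J, ∑ i ∈ Finset.univ.filter (fun i => e i = j + 1), φ i (j + 1) := by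
  simp only [Finset.sum_filter]
  rw [Finset.sum_comm]
  refine Finset.sum_congr rfl fun i _ => ?_
  rcases h : e i with _ | j
  · simp [h0]
  · rw [Finset.sum_eq_single j (fun _ _ h => if_neg (by omega))
      fun h' => absurd (Finset.mem_range.2 (by have := he i; omega)) h', if_pos rfl]

lemma exists_blk (g : End F V) {J : ℕ} (hJ : finrank F V ≤ J) : ∃ f, Blk g J f := by
  classical
  obtain ⟨ι, _, p, e, h1, h2, h3⟩ := exists_blocks g
  have he : ∀ i, e i ≤ J := fun i => by
    have := Finset.single_le_sum (f := fun i => e i * (p i).natDegree) (fun _ _ => Nat.zero_le _)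
      (Finset.mem_univ i)
    have := Nat.mul_le_mul_left (e i) (show 1 ≤ _ from (h1 i).1.natDegree_pos)
    omega
  refine ⟨fun j => ∏ i ∈ Finset.univ.filter (fun i => e i = j + 1), p i,
    fun j => monic_prod_of_monic _ _ fun i _ => (h1 i).2, ?_, fun r r1 r2 k => ?_, fun j hj => ?_⟩
  · rw [h2, sum_fiber he (fun i k => k * (p i).natDegree) fun _ => zero_mul _]
    refine Finset.sum_congr rfl fun j _ => ?_
    rw [natDegree_prod_of_monic _ _ fun i _ => (h1 i).2, Finset.mul_sum]
  · rw [h3 r r1 r2, sum_fiber he (fun i j => if p i = r then min k j else 0) fun _ => by simp]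
    congr 1
    refine Finset.sum_congr rfl fun j _ => ?_
    rw [mlt, Finset.prod_eq_multiset_prod, normalizedFactors_prod_eq _ (by simp [h1]),
      Multiset.map_map, Multiset.map_congr (f := normalize ∘ p) (g := p) rfl
        fun i _ => (h1 i).2.normalize_eq_self,
      Multiset.count_map, ← Finset.sum_filter, Finset.sum_const, smul_eq_mul, mul_comm]
    congr 1
    simp only [eq_comm (a := r)]
    rfl
  · rw [Finset.filter_false_of_mem fun i _ => by have := he i; omega, Finset.prod_empty]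

lemma second_diff (J k : ℕ) (hk : k < J) (c : ℕ → ℕ) :
    ∑ j ∈ Finset.range J, min (k + 2) (j + 1) * c j + ∑ j ∈ Finset.range J, min k (j + 1) * c j +
      c k = 2 * ∑ j ∈ Finset.range J, min (k + 1) (j + 1) * c j := by
  rw [show c k = ∑ j ∈ Finset.range J, (if j = k then 1 else 0) * c j by simp [hk],
    ← Finset.sum_add_distrib, ← Finset.sum_add_distrib, Finset.mul_sum]
  refine Finset.sum_congr rfl fun j _ => ?_
  rw [← add_mul, ← add_mul, ← mul_assoc]
  congr 1
  split_ifs <;> omega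

variable {g : End F V} {J : ℕ} {f : ℕ → F[X]}

lemma Blk.diff (h : Blk g J f) {r : F[X]} (r1 : Irreducible r) (r2 : r.Monic) {k : ℕ} (hk : k < J) :
    CfsgH8.kd g (r ^ (k + 2)) + CfsgH8.kd g (r ^ k) + r.natDegree * mlt r (f k) =
      2 * CfsgH8.kd g (r ^ (k + 1)) := by
  rw [h.kd r r1 r2, h.kd r r1 r2, h.kd r r1 r2, ← mul_add, ← mul_add,
    second_diff J k hk fun j => mlt r (f j), mul_left_comm]

lemma kd_congr {a b : F[X]} (h : Associated a b) : kd g a = kd g b := by
  obtain ⟨u, rfl⟩ := h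
  rw [kd, kd, mul_comm, map_mul, End.mul_eq_comp, LinearMap.ker_comp_of_ker_eq_bot _
    ((LinearMap.isUnit_iff_ker_eq_bot _).1 (u.isUnit.map (aeval g)))]

lemma Blk.conj {W : Type*} [AddCommGroup W] [Module F W] [FiniteDimensional F W] {g' : End F W}
    {f' : ℕ → F[X]} (h : Blk g J f) (h' : Blk g' J f') (e : ∀ j < J, f j = f' j) :
    ∃ φ : V ≃ₗ[F] W, ∀ v, φ (g v) = g' (φ v) := by
  classical
  refine CfsgH7.exists_equiv_of_finrank_ker g g' (h.dim.trans (Eq.trans
    (Finset.sum_congr rfl fun j hj => by rw [e j (Finset.mem_range.1 hj)]) h'.dim.symm))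
    fun p hp k => ?_
  have h1 := (associated_normalize p).pow_pow (n := k)
  have h2 := (associated_normalize p).irreducible hp
  have h3 := monic_normalize hp.ne_zero
  refine (kd_congr h1).trans (Eq.trans ?_ (kd_congr h1).symm)
  rw [h.kd _ h2 h3, h'.kd _ h2 h3,
    Finset.sum_congr rfl fun j hj => by rw [e j (Finset.mem_range.1 hj)]]

lemma mlt_pos {r f : F[X]} (r1 : Irreducible r) (r2 : r.Monic) (hf : f ≠ 0) :
    0 < mlt r f ↔ r ∣ f := by
  classical
  rw [mlt, Multiset.count_pos, Polynomial.mem_normalizedFactors_iff hf]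
  tauto

lemma Blk.eval_ne (h : Blk g J f) {c : F} (hc : ∀ x, g x = c • x → x = 0) (j : ℕ) :
    (f j).eval c ≠ 0 := fun h0 => by
  rcases lt_or_ge j J with hj | hj
  · have h1 := h.kd _ (irreducible_X_sub_C c) (monic_X_sub_C c) 1
    have h2 : CfsgH8.kd g ((X - C c) ^ 1) = 0 := Submodule.finrank_eq_zero.2
      (LinearMap.ker_eq_bot'.2 fun x hx => hc x (by simpa [sub_eq_zero] using hx))
    rw [h2, natDegree_X_sub_C, one_mul, eq_comm, Finset.sum_eq_zero_iff] at h1
    have := h1 j (Finset.mem_range.2 hj)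
    have := (mlt_pos (irreducible_X_sub_C c) (monic_X_sub_C c) (h.monic j).ne_zero).2
      (dvd_iff_isRoot.2 h0)
    simp_all
  · simp [h.one j hj] at h0

/-- mirror as a multiplicative equivalence -/
noncomputable def mirE : F[X] ≃* F[X] where
  toFun := mirror
  invFun := mirror
  left_inv := mirror_mirror
  right_inv := mirror_mirror
  map_mul' p q := mirror_mul_of_domain p q

open Classical in
/-- the monic reciprocal polynomial -/
noncomputable def rcp (p : F[X]) : F[X] := normalize p.mirror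

lemma rcp_assoc (p : F[X]) : Associated p.mirror (rcp p) := by
  classical exact associated_normalize _

lemma rcp_irred {p : F[X]} (h : Irreducible p) : Irreducible (rcp p) :=
  (rcp_assoc p).irreducible ((MulEquiv.irreducible_iff mirE).2 h)

lemma rcp_monic {p : F[X]} (h : Irreducible p) : (rcp p).Monic := by
  classical exact monic_normalize (mirror_eq_zero.not.2 h.ne_zero)

lemma rcp_rcp {p : F[X]} (h : p.Monic) : rcp (rcp p) = p := by
  classical
  rw [← h.normalize_eq_self]
  refine normalize_eq_normalize_iff_associated.2 ?_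
  rw [h.normalize_eq_self]
  simpa [mirE, mirror_mirror] using ((rcp_assoc p).map mirE).symm

lemma natDegree_rcp (p : F[X]) : (rcp p).natDegree = p.natDegree :=
  (natDegree_eq_of_degree_eq (degree_eq_degree_of_associated (rcp_assoc p))).symm.trans
    (mirror_natDegree p)

lemma mirror_eq_self {f : F[X]} (hf : f.Monic) (h1 : f.eval 1 ≠ 0)
    (h : ∀ r, Irreducible r → r.Monic → mlt (rcp r) f = mlt r f) : f.mirror = f := by
  classical
  have h2 : ∀ r ∈ normalizedFactors f, Irreducible r ∧ r.Monic := fun r hr =>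
    have := (Polynomial.mem_normalizedFactors_iff hf.ne_zero).1 hr
    ⟨this.1, this.2.1⟩
  have h3 : (normalizedFactors f).map rcp = normalizedFactors f := by
    refine Multiset.eq_of_le_of_card_le (Multiset.le_iff_count.2 fun r => ?_) (by simp)
    by_cases h4 : r ∈ (normalizedFactors f).map rcp
    · obtain ⟨r, hr, rfl⟩ := Multiset.mem_map.1 h4
      rw [Multiset.count_map_eq_count rcp _ (fun x hx y hy e => by
        rw [← rcp_rcp (h2 x hx).2, e, rcp_rcp (h2 y hy).2]) r hr]
      exact (h r (h2 r hr).1 (h2 r hr).2).ge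
    · simp [h4]
  have h4 := prod_normalizedFactors hf.ne_zero
  have h5 : Associated f.mirror f := by
    refine ((h4.map mirE).symm.trans ?_).trans h4
    rw [map_multiset_prod]
    conv_rhs => rw [← h3]
    induction normalizedFactors f using Multiset.induction_on with
    | empty => rfl
    | cons r s ih => simp only [Multiset.map_cons, Multiset.prod_cons]; exact (rcp_assoc r).mul_mul ih
  obtain ⟨u, hu⟩ := h5
  obtain ⟨c, -, hc⟩ := isUnit_iff.1 u.isUnit
  have h6 := congrArg (eval 1) hu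
  rw [← hc, eval_mul, mirror_eval_one, eval_C, mul_eq_left₀ h1] at h6
  rwa [← hc, h6, C_1, mul_one] at hu

lemma aeval_reflect {a b : End F V} (h : a * b = 1) (N : ℕ) (p : F[X]) (hp : p.natDegree ≤ N) :
    aeval a (reflect N p) = a ^ N * aeval b p := by
  refine induction_with_natDegree_le (fun p => aeval a (reflect N p) = a ^ N * aeval b p) N
    (by simp) (fun n r _ hn => ?_) (fun _ _ _ _ h1 h2 => by simp [h1, h2, mul_add]) p hp
  obtain ⟨d, rfl⟩ := Nat.exists_eq_add_of_le' hn
  have : Commute a b := h.trans (mul_eq_one_comm.1 h).symm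
  simp only [reflect_C_mul_X_pow, revAt_le hn, map_mul, aeval_C, map_pow, aeval_X,
    ← Algebra.smul_def, mul_smul_comm, Nat.add_sub_cancel]
  rw [pow_add, mul_assoc, ← this.mul_pow, h, one_pow, mul_one]

lemma ker_aeval_mirror {a b : End F V} (h : a * b = 1) (p : F[X]) :
    LinearMap.ker (aeval a p.mirror) = LinearMap.ker (aeval b p) := by
  rw [show p.mirror = reflect (p.natDegree + p.natTrailingDegree) p from
    Polynomial.ext fun n => by rw [coeff_mirror, coeff_reflect], aeval_reflect h _ _ (by omega),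
    End.mul_eq_comp, LinearMap.ker_comp_of_ker_eq_bot _
      ((LinearMap.isUnit_iff_ker_eq_bot _).1 ((IsUnit.of_mul_eq_one _ h).pow _))]

/-- palindromic polynomials of even degree -/
def Pal (F : Type*) [Field F] : Set F[X] := {f | f.Monic ∧ f.reverse = f ∧ Even f.natDegree}

lemma even_of_pal {f : F[X]} (h : f.reverse = f) (h1 : f.eval (-1) ≠ 0) : Even f.natDegree := by
  by_contra h2
  obtain ⟨d, hd⟩ := Nat.not_even_iff_odd.1 h2
  refine h1 ?_
  rw [eval_eq_sum_range]
  refine Finset.sum_involution (fun i _ => f.natDegree - i) (fun i hi => ?_)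
    (fun i hi _ => by have := Finset.mem_range.1 hi; omega)
    (fun i hi => Finset.mem_range.2 (by omega)) fun i hi => by have := Finset.mem_range.1 hi; omega
  have h3 : i ≤ f.natDegree := by have := Finset.mem_range.1 hi; omega
  rw [← revAt_le h3, ← coeff_reverse, h, revAt_le h3, ← mul_add]
  obtain ⟨k, hk⟩ := Nat.exists_eq_add_of_le h3
  have h4 : (-1 : F) ^ i * (-1) ^ k = -1 := by rw [← pow_add, ← hk, hd]; simp [pow_succ]
  have h5 : (-1 : F) ^ k * (-1) ^ k = 1 := by rw [← mul_pow]; simp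
  rw [show f.natDegree - i = k by omega]
  linear_combination f.coeff i * ((-1) ^ k * h4 - (-1) ^ i * h5)

lemma Blk.pal (h : Blk g J f) (h1 : ∀ x, g (g x) = x → x = 0) (h0 : ∀ x, g x = 0 → x = 0)
    (h2 : ∀ p : F[X], CfsgH8.kd g p.mirror = CfsgH8.kd g p) (j : ℕ) :
    (f j ∈ Pal F ∧ (f j).eval (-1) ≠ 0) ∧ (f j).eval 1 ≠ 0 := by
  have e1 := h.eval_ne (c := 1) (fun x hx => h1 x (by simp [hx])) j
  have e2 := h.eval_ne (c := -1) (fun x hx => h1 x (by simp [hx])) j
  have e3 := h.eval_ne (c := 0) (fun x hx => h0 x (by simp [hx])) j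
  have e4 : (f j).mirror = f j := by
    rcases lt_or_ge j J with hj | hj
    · refine mirror_eq_self (h.monic j) e1 fun r r1 r2 => ?_
      have h3 := h.diff r1 r2 hj
      have h4 := h.diff (rcp_irred r1) (rcp_monic r1) hj
      have h5 : ∀ k, CfsgH8.kd g (rcp r ^ k) = CfsgH8.kd g (r ^ k) := fun k => by
        rw [← kd_congr (rcp_assoc r).pow_pow, ← h2 (r ^ k)]
        exact congrArg _ (map_pow mirE r k).symm
      rw [h5, h5, h5, natDegree_rcp] at h4
      exact Nat.eq_of_mul_eq_mul_left r1.natDegree_pos (by omega)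
    · rw [h.one j hj]; exact mirror_C 1
  rw [mirror, natTrailingDegree_eq_zero_of_constantCoeff_ne_zero
    (by rwa [constantCoeff_apply, coeff_zero_eq_eval_zero]), pow_zero, mul_one] at e4
  exact ⟨⟨⟨h.monic j, e4, even_of_pal e4 e2⟩, e2⟩, e1⟩

open PowerSeries in
/-- generating function of a set of polynomials -/
noncomputable def gfP (m : ℕ) (S : Set F[X]) : ℕ⟦X⟧ :=
  PowerSeries.mk fun n => {f | f ∈ S ∧ m * f.natDegree = n}.ncard

lemma finite_deg {m : ℕ} (hm : 0 < m) (S : Set F[X]) (n : ℕ) :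
    {f | f ∈ S ∧ m * f.natDegree = n}.Finite := by
  refine Set.Finite.of_finite_image (f := fun f (i : Fin (n + 1)) => f.coeff i) (Set.toFinite _)
    fun f hf f' hf' e => Polynomial.ext fun i => ?_
  have := Nat.le_mul_of_pos_left f.natDegree hm
  have := Nat.le_mul_of_pos_left f'.natDegree hm
  rcases lt_or_ge i (n + 1) with h | h
  · exact congrFun e ⟨i, h⟩
  · rw [coeff_eq_zero_of_natDegree_lt (by have := hf.2; omega),
      coeff_eq_zero_of_natDegree_lt (by have := hf'.2; omega)]

lemma leC_gfP {m : ℕ} (hm : 0 < m) (S : Set F[X]) (N : ℕ) :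
    LeC id S (fun f => m * f.natDegree) N (gfP m S) := LeC.ncard _ _ (finite_deg hm S)

lemma gfP_pal {m : ℕ} (hm : 0 < m) : PLe (gfP m (Pal F)) (ser (Nat.card F) (2 * m)) := fun n => by
  rw [gfP, ser, PowerSeries.coeff_mk, PowerSeries.coeff_mk]
  split_ifs with h
  · obtain ⟨d, rfl⟩ := h
    rw [Nat.mul_div_cancel_left _ (by omega)]
    refine (Set.ncard_le_ncard_of_injOn (t := Set.univ) (fun f (i : Fin d) => f.coeff (i + 1))
      (fun _ _ => trivial) (fun f hf f' hf' e => ?_) (Set.toFinite _)).trans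
        (by rw [Set.ncard_univ, Nat.card_fun]; simp)
    have h1 : ∀ f : F[X], m * f.natDegree = 2 * m * d → f.natDegree = 2 * d := fun f h =>
      Nat.eq_of_mul_eq_mul_left hm (by rw [h]; ring)
    have h2 : ∀ i ≤ d, f.coeff i = f'.coeff i := fun i hi => by
      rcases i with _ | i
      · rw [← hf.1.2.1, ← hf'.1.2.1, coeff_zero_reverse, coeff_zero_reverse, hf.1.1, hf'.1.1]
      · exact congrFun e ⟨i, hi⟩
    refine Polynomial.ext fun i => ?_
    rcases le_or_gt i d with h | h
    · exact h2 i h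
    rcases le_or_gt i (2 * d) with h' | h'
    · rw [← hf.1.2.1, ← hf'.1.2.1, coeff_reverse, coeff_reverse, h1 f hf.2, h1 f' hf'.2,
        revAt_le h', h2 _ (by omega)]
    · rw [coeff_eq_zero_of_natDegree_lt (by rw [h1 f hf.2]; exact h'),
        coeff_eq_zero_of_natDegree_lt (by rw [h1 f' hf'.2]; exact h')]
  · rw [Nat.le_zero, Set.ncard_eq_zero (finite_deg hm _ _), Set.eq_empty_iff_forall_notMem]
    rintro f ⟨⟨-, -, d, hd⟩, rfl⟩
    exact h ⟨d, by rw [hd]; ring⟩

lemma gfP_step {m : ℕ} (hm : 0 < m) {S : Set F[X]} (h0 : ∀ f ∈ S, f.Monic) (c : F)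
    (h : ∀ f ∈ S, (X - C c) ^ 2 * f ∈ S) :
    PLe (ser 1 (2 * m) * gfP m {f | f ∈ S ∧ f.eval c ≠ 0}) (gfP m S) := by
  refine PLe.geo_mul (by omega) fun n => ?_
  rw [map_add, PowerSeries.coeff_X_pow_mul']
  simp only [gfP, PowerSeries.coeff_mk]
  split_ifs with h1
  · rw [← Set.ncard_image_of_injective {f | f ∈ S ∧ m * f.natDegree = n - 2 * m}
      (mul_right_injective₀ (pow_ne_zero 2 (X_sub_C_ne_zero c))), ← Set.ncard_union_eq _
        (finite_deg hm _ _) ((finite_deg hm _ _).image _)]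
    · refine Set.ncard_le_ncard ?_ (finite_deg hm _ _)
      rintro f (hf | ⟨f, hf, rfl⟩)
      · exact ⟨hf.1.1, hf.2⟩
      · refine ⟨h f hf.1, ?_⟩
        rw [((monic_X_sub_C c).pow 2).natDegree_mul (h0 f hf.1), natDegree_pow, natDegree_X_sub_C,
          mul_add, hf.2]
        omega
    · rw [Set.disjoint_left]
      rintro _ hf ⟨f, -, rfl⟩
      exact hf.1.2 (by simp)
  · exact Set.ncard_le_ncard (fun f hf => ⟨hf.1.1, hf.2⟩) (finite_deg hm _ _)

lemma pal_mul {c : F} (hc : c * c = 1) {f : F[X]} (hf : f ∈ Pal F) : (X - C c) ^ 2 * f ∈ Pal F := by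
  refine ⟨((monic_X_sub_C c).pow 2).mul hf.1, ?_, ?_⟩
  · have h1 : (X - C c).reverse = -C c * (X - C c) := by
      rw [sub_eq_add_neg, ← C_neg, reverse_add_C, ← one_mul X, reverse_mul_X, ← C_1, reverse_C]
      have := congrArg C hc
      simp only [map_mul, map_one, map_neg, one_mul, natDegree_X, pow_one] at this ⊢
      linear_combination -this
    have := congrArg C hc
    rw [map_mul, map_one] at this
    rw [reverse_mul_of_domain, hf.2.1, pow_two, reverse_mul_of_domain, h1]
    linear_combination (X - C c) ^ 2 * f * this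
  · rw [((monic_X_sub_C c).pow 2).natDegree_mul hf.1, natDegree_pow]
    exact (even_two_mul _).add hf.2.2

/-- the palindromic polynomials without roots `± 1` -/
def Pal₀ (F : Type*) [Field F] : Set F[X] :=
  {f | (f ∈ Pal F ∧ f.eval (-1) ≠ 0) ∧ f.eval 1 ≠ 0}

lemma gfP_one {m : ℕ} (hm : 0 < m) : PLe (ser 1 (2 * m) *
    gfP m {f | f ∈ Pal F ∧ f.eval (-1) ≠ 0}) (ser (Nat.card F) (2 * m)) :=
  (gfP_step hm (fun _ h => h.1) _ fun _ => pal_mul (by simp)).trans (gfP_pal hm)

lemma gfP_two {m : ℕ} (hm : 0 < m) :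
    PLe (ser 1 (2 * m) * gfP m (Pal₀ F)) (ser (Nat.card F) (2 * m)) :=
  ((PLe.refl _).mul fun n => by
    simp only [gfP, PowerSeries.coeff_mk]
    exact Set.ncard_le_ncard (fun f hf => ⟨hf.1.1, hf.2⟩) (finite_deg hm _ _)).trans (gfP_one hm)

lemma gfP_odd (h2 : (2 : F) ≠ 0) {m : ℕ} (hm : 0 < m) :
    PLe (ser 1 (2 * m) ^ 2 * gfP m (Pal₀ F)) (ser (Nat.card F) (2 * m)) := by
  rw [pow_two, mul_assoc]
  refine ((PLe.refl _).mul (gfP_step (S := {f | f ∈ Pal F ∧ f.eval (-1) ≠ 0}) hm
    (fun _ h => h.1.1) 1 fun f hf => ⟨pal_mul (by simp) hf.1, ?_⟩)).trans (gfP_one hm)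
  rw [eval_mul, eval_pow, eval_sub, eval_X, eval_C]
  exact mul_ne_zero (pow_ne_zero _ fun h => h2 (by linear_combination -h)) hf.2

end CfsgH8
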