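import Cfsg.Agent.H8.UniRec
import Cfsg.Agent.H8.PalA
import Cfsg.Agent.H8.Semi1

set_option autoImplicit false
set_option linter.unusedSectionVars false

namespace CfsgH8

open Module QuadraticMap PowerSeries

universe u

namespace Ob

variable {F : Type u} [Field F] {o o' o₁ o₁' o₂ o₂' : Ob F} {N : ℕ} {a b c h G : ℕ⟦X⟧}

/-- orthogonal sum decomposition -/
def Sum (o o₁ o₂ : Ob F) : Prop := ∃ D : ODec o₁.Q o₂.Q o.Q,
  (∀ x y x' y', o.B (D.e (x, y)) (D.e (x', y')) = o₁.B x x' + o₂.B y y') ∧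
  ∀ x y, o.g (D.e (x, y)) = D.e (o₁.g x, o₂.g y)

lemma Sum.swap (h : Sum o o₁ o₂) : Sum o o₂ o₁ := by
  obtain ⟨D, h1, h2⟩ := h
  exact ⟨D.swap, fun _ _ _ _ => (h1 _ _ _ _).trans (add_comm _ _), fun _ _ => h2 _ _⟩

lemma Sum.dim (h : Sum o o₁ o₂) : o.dim = o₁.dim + o₂.dim := h.choose.finrank_eq

lemma Sum.eqv (h : Sum o o₁ o₂) (h' : Sum o' o₁' o₂') (e₁ : Eqv o₁ o₁') (e₂ : Eqv o₂ o₂') :
    Eqv o o' := by
  obtain ⟨D, h1, h2⟩ := h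
  obtain ⟨D', h1', h2'⟩ := h'
  obtain ⟨e₁, a1, a2, a3⟩ := e₁
  obtain ⟨e₂, b1, b2, b3⟩ := e₂
  refine ⟨D.e.symm ≪≫ₗ e₁.prodCongr e₂ ≪≫ₗ D'.e, fun v w => ?_, fun v => ?_, fun v => ?_⟩
  · obtain ⟨x, y, rfl⟩ := D.surj v
    obtain ⟨x', y', rfl⟩ := D.surj w
    simp [h1, h1', a1, b1]
  · obtain ⟨x, y, rfl⟩ := D.surj v
    simp [h2, h2', a2, b2]
  · obtain ⟨x, y, rfl⟩ := D.surj v
    simp [D.he, D'.he, a3, b3]

lemma Sum.gd (h : Sum o o₁ o₂) (H : Gd o) : Gd o₁ := by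
  obtain ⟨D, h1, h2⟩ := h
  have h3 : ∀ x x', o₁.B x x' = o.B (D.e (x, 0)) (D.e (x', 0)) := fun x x' => by simp [h1]
  refine ⟨fun x y => by rw [h3, h3, H.symm], fun x hx => ?_, fun x y => ?_⟩
  · refine (Prod.mk_eq_zero.1 (D.e.map_eq_zero_iff.1 (H.nd (D.e (x, 0)) fun v => ?_))).1
    obtain ⟨x', y', rfl⟩ := D.surj v
    simp [h1, hx]
  · rw [h3, h3, ← H.isom (D.e (x, 0)), h2, h2, map_zero]

lemma Sum.isO (h : Sum o o₁ o₂) (H : IsO o) : IsO o₁ := by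
  obtain ⟨D, h1, h2⟩ := h
  refine ⟨D.nd_left H.nd, LinearMap.ext₂ fun x y => ?_, fun x => ?_⟩
  · simpa [H.B_eq, D.polar_e] using (h1 x 0 y 0).symm
  · rw [← D.Q_left, ← D.Q_left, ← H.isom (D.e (x, 0)), h2, map_zero]

lemma Sum.isS (h : Sum o o₁ o₂) (H : IsS o) : IsS o₁ := by
  refine ⟨h.gd H.toGd, ?_, ?_⟩ <;> obtain ⟨D, h1, h2⟩ := h
  · exact fun x => by simpa [H.alt.self_eq_zero] using (h1 x 0 x 0).symm
  · exact QuadraticMap.ext fun x => (D.Q_left x).symm.trans (DFunLike.congr_fun H.Q_eq _)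

lemma Sum.cancel (h : Sum o o₁ o₂) (h' : Sum o' o₁' o₂') (H : IsO o) (e : Iso o.Q o'.Q)
    (e₂ : Iso o₂.Q o₂'.Q) : Iso o₁.Q o₁'.Q :=
  witt_cancel' H.nd h.choose.swap h'.choose.swap e e₂

lemma Sum.inj (h : Sum o o₁ o₂) {c : F} (H : ∀ x, o.g x = c • x → x = 0) (x : o₁.V)
    (hx : o₁.g x = c • x) : x = 0 := by
  obtain ⟨D, -, h2⟩ := h
  exact (Prod.mk_eq_zero.1 (D.e.map_eq_zero_iff.1 (H (D.e (x, 0))
    (by rw [h2, hx, ← map_smul]; simp)))).1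

/-- the negative of an isometry -/
abbrev neg (o : Ob F) : Ob F := { o with g := -o.g }

lemma neg_neg (o : Ob F) : neg (neg o) = o :=
  congrArg (fun g => ({ o with g := g } : Ob F)) (_root_.neg_neg o.g)

lemma IsO.neg (h : IsO o) : IsO (neg o) := ⟨h.nd, h.B_eq, fun x => (Q_neg _).trans (h.isom x)⟩

lemma Eqv.neg (h : Eqv o o') : Eqv (neg o) (neg o') := by
  obtain ⟨e, h1, h2, h3⟩ := h
  exact ⟨e, h1, fun x => (map_neg e _).trans (congrArg Neg.neg (h2 x)), h3⟩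

/-- restriction to an invariant subspace -/
abbrev sub (o : Ob F) (U : Submodule F o.V) (hU : ∀ x ∈ U, o.g x ∈ U) : Ob F :=
  ⟨U, o.B.compl₁₂ U.subtype U.subtype, o.g.restrict hU, res o.Q U⟩

lemma sub_pow {U : Submodule F o.V} (hU : ∀ x ∈ U, o.g x ∈ U) (n : ℕ) (x : U) :
    U.subtype ((((o.sub U hU).g - 1) ^ n) x) = ((o.g - 1) ^ n) x := by
  induction n with
  | zero => rfl
  | succ n ih => rw [pow_succ', pow_succ', End.mul_apply, End.mul_apply, ← ih]; rfl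

lemma Gd.fitting (h : Gd o) (hQ : ∀ x y, o.B x y = 0 → o.Q (x + y) = o.Q x + o.Q y) :
    ∃ o₁ o₂, Sum o o₁ o₂ ∧ Unip o₁ ∧ ∀ x, o₂.g x = (1 : F) • x → x = 0 := by
  obtain ⟨n, h1, h2⟩ := ((o.g - 1).eventually_isCompl_ker_pow_range_pow.and
    (Filter.eventually_ge_atTop 1)).exists
  have hc : ∀ (n : ℕ) x, o.g (((o.g - 1) ^ n) x) = ((o.g - 1) ^ n) (o.g x) := fun n =>
    LinearMap.congr_fun (((Commute.refl o.g).sub_right (Commute.one_right _)).pow_right n).eq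
  have h3 : ∀ (n : ℕ) x y, ((o.g - 1) ^ n) x = 0 → o.B x (((o.g - 1) ^ n) y) = 0 := fun n => by
    induction n with
    | zero => exact fun x y hx => by rw [show x = 0 from hx, map_zero, LinearMap.zero_apply]
    | succ n ih =>
      intro x y hx
      have := ih ((o.g - 1) x) (o.g y) (by rwa [pow_succ] at hx)
      rw [← hc] at this
      simp only [pow_succ', End.mul_apply, LinearMap.sub_apply, End.one_apply, map_sub,
        h.isom] at this ⊢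
      linear_combination -this
  have h4 : ∀ (x : LinearMap.ker ((o.g - 1) ^ n)) (y : LinearMap.range ((o.g - 1) ^ n)),
      o.B x y = 0 := by
    rintro x ⟨_, y, rfl⟩; exact h3 n x y x.2
  refine ⟨o.sub (LinearMap.ker ((o.g - 1) ^ n)) fun x hx => ?_,
    o.sub (LinearMap.range ((o.g - 1) ^ n)) ?_, ⟨⟨Submodule.prodEquivOfIsCompl _ _ h1,
      fun x y => hQ _ _ (h4 x y)⟩, fun x y x' y' => ?_, fun x y => map_add o.g _ _⟩,
        ⟨n, LinearMap.ext fun x => Subtype.ext ?_⟩, fun x hx => Subtype.ext ?_⟩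
  · rw [LinearMap.mem_ker, ← hc, LinearMap.mem_ker.1 hx, map_zero]
  · rintro _ ⟨x, rfl⟩; exact ⟨_, (hc n x).symm⟩
  · show o.B (x.1 + y.1) (x'.1 + y'.1) = o.B x.1 x'.1 + o.B y.1 y'.1
    simp [h4 x y', h.symm y.1 x'.1, h4 x' y]
  · exact (sub_pow _ n x).trans x.2
  · refine (Submodule.mem_bot F).1 (h1.inf_eq_bot ▸ ⟨?_, x.2⟩)
    obtain ⟨n, rfl⟩ := Nat.exists_eq_add_of_le' h2
    have : o.g x.1 = (1 : F) • x.1 := congrArg Subtype.val hx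
    simp [pow_succ, this]

lemma IsO.fitting (h : IsO o) :
    ∃ o₁ o₂, Sum o o₁ o₂ ∧ Unip o₁ ∧ ∀ x, o₂.g x = (1 : F) • x → x = 0 :=
  h.gd.fitting fun x y e => by rw [Q_add, ← polarBilin_apply_apply, ← h.B_eq, e, add_zero]

lemma sum_fib {S : Set (Ob F × Ob F × Ob F)} {T : Set (Ob F)} (h₂ : LeC cl T dim N b)
    (hS : ∀ t ∈ S, Sum t.1 t.2.1 t.2.2 ∧ t.2.2 ∈ T)
    (h₁ : ∀ y, LeC cl ((fun t => t.2.1) '' {t | t ∈ S ∧ cl t.2.2 = y}) dim N a) :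
    LeC (fun t => cl t.1) S (fun t => dim t.1) N (a * b) :=
  h₂.fib (fun t => t.2.2) (fun t => dim t.2.1) (fun t ht => ⟨(hS t ht).2, (hS t ht).1.dim⟩)
    fun y => (h₁ y).of_map (fun t => t.2.1) (fun t ht => ⟨Set.mem_image_of_mem _ ht, rfl⟩)
      fun t ht t' ht' _ e => cl_eq.2 ((hS t ht.1).1.eqv (hS t' ht'.1).1 (cl_eq.1 e)
        (cl_eq.1 (ht.2.trans ht'.2.symm)))

/-- counting orthogonal sums -/
lemma sum_count {S T : Set (Ob F)} (P : Ob F → Ob F → Ob F → Prop) (h₂ : LeC cl T dim N b)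
    (hS : ∀ o ∈ S, ∃ o₁ o₂, Sum o o₁ o₂ ∧ o₂ ∈ T ∧ P o o₁ o₂)
    (h₁ : ∀ y, LeC cl {o₁ | ∃ o ∈ S, ∃ o₂, Sum o o₁ o₂ ∧ P o o₁ o₂ ∧ cl o₂ = y} dim N a) :
    LeC cl S dim N (a * b) :=
  LeC.lift (fun o (p : Ob F × Ob F) => Sum o p.1 p.2 ∧ p.2 ∈ T ∧ P o p.1 p.2)
    (fun o ho => have ⟨o₁, o₂, h⟩ := hS o ho; ⟨(o₁, o₂), h⟩)
    (sum_fib h₂ (fun _ ht => ⟨ht.2.1, ht.2.2.1⟩) fun y => (h₁ y).subset (by
      rintro _ ⟨t, ht, rfl⟩; exact ⟨_, ht.1.1, _, ht.1.2.1, ht.1.2.2.2, ht.2⟩))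

lemma neg_count {S : Set (Ob F)} (h : LeC cl S dim N a) : LeC cl {o | neg o ∈ S} dim N a :=
  h.of_map neg (fun _ ho => ⟨ho, rfl⟩) fun _ _ _ _ _ e => by
    simpa only [neg_neg, cl_eq] using (cl_eq.1 e).neg

/-- isometries without eigenvalues `± 1` -/
def BO (F : Type u) [Field F] : Set (Ob F) := {o | IsO o ∧ ∀ x, o.g (o.g x) = x → x = 0}

lemma mem_BO (h : IsO o) (h1 : ∀ x, o.g x = (1 : F) • x → x = 0)
    (h2 : ∀ x, o.g x = (-1 : F) • x → x = 0) : o ∈ BO F :=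
  ⟨h, fun x hx => h2 x (by
    have := h1 (o.g x + x) (by rw [map_add, hx, add_comm, one_smul])
    rw [neg_one_smul]; exact eq_neg_of_add_eq_zero_left this)⟩

variable [Finite F]

lemma IsO.kd_mirror (h : IsO o) (p : Polynomial F) : kd o.g p.mirror = kd o.g p := by
  have h1 : LinearMap.ker (adj h.nd (Polynomial.aeval o.g p)) =
      perp o.Q (LinearMap.range (Polynomial.aeval o.g p)) := Submodule.ext fun x =>
    ⟨by
      rintro hx _ ⟨y, rfl⟩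
      exact (polar_adj' h.nd _ y x).symm.trans (by rw [LinearMap.mem_ker.1 hx, polar_zero_right]),
      fun hx => h.nd.eq_zero fun y => by rw [polar_adj, pcomm]; exact hx _ ⟨y, rfl⟩⟩
  have h2 := h.nd.finrank_perp (LinearMap.range (Polynomial.aeval o.g p))
  have h3 := (Polynomial.aeval o.g p).finrank_range_add_finrank_ker
  rw [kd, kd, ker_aeval_mirror (mul_eq_one_comm.1 (adj_mul_self h.nd h.isom)), ← adj_aeval, h1]
  omega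

lemma eqv_of_conj (h : o ∈ BO F) (h' : IsO o') (φ : o.V ≃ₗ[F] o'.V)
    (hφ : ∀ v, φ (o.g v) = o'.g (φ v)) : Eqv o o' := by
  obtain ⟨y, h1, h2⟩ := exists_comm_isom (Q := o'.Q.comp φ.toLinearMap)
    (Iso.nd (Iso.symm ⟨φ, fun _ => rfl⟩) h'.nd) h.1.nd
    (fun x => (congrArg o'.Q (hφ x)).trans (h'.isom _)) h.1.isom h.2
  exact ⟨y ≪≫ₗ φ, fun v w => by
    rw [h.1.B_eq, h'.B_eq]; exact polar_map (y ≪≫ₗ φ).toLinearMap h2 v w,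
    fun x => by simp [h1, hφ], h2⟩

lemma blk_pal (h : o ∈ BO F) {f : ℕ → Polynomial F} (hf : Blk o.g N f) (j : ℕ) : f j ∈ Pal₀ F :=
  hf.pal h.2 (fun x hx => h.1.gd.bij.1 (hx.trans (map_zero _).symm)) h.1.kd_mirror j

lemma base_count {J : ℕ} (hJ : N ≤ J) {S : Set (Ob F)} (hS : S ⊆ BO F) {P : ℕ → Set (Polynomial F)}
    (hP : ∀ o ∈ S, ∀ f, Blk o.g J f → ∀ j, f j ∈ P j) {a : ℕ → ℕ⟦X⟧}
    (ha : ∀ j, LeC id (P j) (fun f => (j + 1) * f.natDegree) N (a j)) :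
    LeC cl S dim N (∏ j ∈ Finset.range J, a j) := by
  refine (LeC.pi ha J).of_rel (fun o f => Blk o.g J f) (fun o ho h => ?_)
    fun o ho o' ho' f f' _ h h' e => ?_
  · obtain ⟨f, hf⟩ := exists_blk o.g (h.trans hJ)
    exact ⟨f, hP o ho f hf, hf, hf.dim.symm⟩
  · obtain ⟨φ, hφ⟩ := h.conj h' fun j hj => congrFun e ⟨j, hj⟩
    exact cl_eq.2 (eqv_of_conj (hS ho) (hS ho').1 φ hφ)

lemma base_all {J : ℕ} (hJ : N ≤ J) :
    LeC cl (BO F) dim N (∏ j ∈ Finset.range J, gfP (j + 1) (Pal₀ F)) :=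
  base_count hJ subset_rfl (fun _ ho _ hf => blk_pal ho hf) fun _ => leC_gfP (by omega) _ _

/-- the count of the classes in an orthogonal group in odd characteristic -/
theorem odd_total {V : Type*} [AddCommGroup V] [Module F V] (Q : QuadraticForm F V)
    (P : Ob F → Prop) (h1 : ∀ o o₁ o₂, IsO o → Sum o o₁ o₂ → P o → P o₁)
    (h2 : ∀ o, IsO o → P o → P (neg o))
    (hh : ∀ T ⊆ {o | o ∈ {o | o ∈ UO F ∧ P o} ∧ ¬ Ev o}, Mono T → LeC cl T dim N h)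
    (hc : LeC cl {o | o ∈ UO F ∧ Ev o} dim N c) (hG : LeC cl {o | o ∈ BO F ∧ P o} dim N G) :
    LeC cl {o | IsO o ∧ Iso o.Q Q ∧ P o} dim N
      (c * G * c + h * G * c + h * ((c + 2 * h) * G)) := by
  let M : Set (Ob F) := {o | IsO o ∧ P o ∧ ∀ x, o.g x = (-1 : F) • x → x = 0}
  have d1 : ∀ o, IsO o → P o → ∃ o₁ o₂, Sum o o₁ o₂ ∧ (o₁ ∈ UO F ∧ P o₁) ∧ IsO o₂ ∧ P o₂ ∧
      ∀ x, o₂.g x = (1 : F) • x → x = 0 := fun o ho hP => by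
    obtain ⟨o₁, o₂, e, e1, e2⟩ := ho.fitting
    exact ⟨o₁, o₂, e, ⟨⟨e.isO ho, e1⟩, h1 _ _ _ ho e hP⟩, e.swap.isO ho,
      h1 _ _ _ ho e.swap hP, e2⟩
  have d2 : ∀ o ∈ M, ∃ o₁ o₂, Sum o o₁ o₂ ∧ o₂ ∈ {o | o ∈ BO F ∧ P o} ∧ o₁ ∈ UO F ∧ P o₁ :=
    fun o ho => by
      obtain ⟨o₁, o₂, e, e1, e2, e3, e4⟩ := d1 o ho.1 ho.2.1
      exact ⟨o₁, o₂, e, ⟨mem_BO e2 e4 (e.swap.inj ho.2.2), e3⟩, e1⟩
  have d3 : ∀ o, IsO o → P o → ∃ o₁ o₂, Sum o o₁ o₂ ∧ neg o₂ ∈ M ∧ o₁ ∈ UO F ∧ P o₁ :=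
    fun o ho hP => by
      obtain ⟨o₁, o₂, e, e1, e2, e3, e4⟩ := d1 o ho hP
      exact ⟨o₁, o₂, e, ⟨e2.neg, h2 _ e2 e3, fun x hx => e4 x
        (neg_injective (hx.trans (neg_smul _ _)))⟩, e1⟩
  have c1 : LeC cl M dim N ((c + 2 * h) * G) :=
    sum_count (fun _ o₁ _ => o₁ ∈ UO F ∧ P o₁) hG d2 fun _ =>
      (total (fun _ ho => ho.1) hh hc).subset (by rintro _ ⟨_, -, _, -, h, -⟩; exact h)
  have c2 : ∀ T ⊆ M, (∀ o ∈ T, ∀ o' ∈ T, Iso o.Q o'.Q) → LeC cl T dim N (c * G + h * G) :=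
    fun T hT hI => LeC.split (fun o => ∃ o₁ o₂, Sum o o₁ o₂ ∧ o₂ ∈ {o | o ∈ BO F ∧ P o} ∧
      o₁ ∈ UO F ∧ Ev o₁) (sum_count (fun _ o₁ _ => o₁ ∈ UO F ∧ Ev o₁) hG (fun _ ho => ho.2)
        fun _ => hc.subset (by rintro _ ⟨_, -, _, -, h, -⟩; exact h))
      (sum_count (fun _ o₁ _ => (o₁ ∈ UO F ∧ P o₁) ∧ ¬ Ev o₁) hG (fun o ho => by
        obtain ⟨o₁, o₂, e, e1, e2⟩ := d2 o (hT ho.1)
        exact ⟨o₁, o₂, e, e1, e2, fun h => ho.2 ⟨o₁, o₂, e, e1, e2.1, h⟩⟩) fun _ => hh _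
          (by rintro _ ⟨_, -, _, -, h, -⟩; exact h) (by
            rintro _ ⟨o, ho, _, e, -, rfl⟩ _ ⟨o', ho', _, e', -, e1⟩ - -
            exact e.cancel e' (hT ho.1).1 (hI o ho.1 o' ho'.1) (cl_eq.1 e1.symm).iso))
  rw [← add_mul]
  refine LeC.split (fun o => ∃ o₁ o₂, Sum o o₁ o₂ ∧ o₂ ∈ {o | o ∈ UO F ∧ Ev o} ∧ neg o₁ ∈ M)
    (sum_count (fun _ o₁ _ => neg o₁ ∈ M) hc (fun _ ho => ho.2) fun y =>
      (neg_count (c2 (neg '' _) ?_ ?_)).subset fun o ho => Set.mem_image_of_mem _ ho)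
    (sum_count (fun _ o₁ _ => (o₁ ∈ UO F ∧ P o₁) ∧ ¬ Ev o₁) (neg_count c1) (fun o ho => ?_)
      fun _ => hh _ (by rintro _ ⟨_, -, _, -, h, -⟩; exact h) ?_)
  · rintro _ ⟨_, ⟨_, -, _, -, h, -⟩, rfl⟩; exact h
  · rintro _ ⟨_, ⟨o, ho, _, e, -, rfl⟩, rfl⟩ _ ⟨_, ⟨o', ho', _, e', -, e1⟩, rfl⟩
    have := e.cancel e' ho.1.1 (ho.1.2.1.trans ho'.1.2.1.symm) (cl_eq.1 e1.symm).iso
    exact this
  · obtain ⟨o₁, o₂, e, e1, e2⟩ := d3 o ho.1.1 ho.1.2.2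
    exact ⟨o₁, o₂, e, e1, e2, fun h => ho.2 ⟨o₂, o₁, e.swap, ⟨e2.1, h⟩, e1⟩⟩
  · rintro _ ⟨o, ho, _, e, -, rfl⟩ _ ⟨o', ho', _, e', -, e1⟩ - -
    exact e.cancel e' ho.1.1 (ho.1.2.1.trans ho'.1.2.1.symm) (cl_eq.1 e1.symm).iso

/-- forget the quadratic form -/
abbrev fgt (o : Ob F) : Ob F := { o with Q := 0 }

lemma IsO.fgt [CharP F 2] (h : IsO o) : IsS (fgt o) :=
  ⟨⟨h.gd.symm, h.gd.nd, h.gd.isom⟩, fun x => by
    simp [h.B_eq, polar_self', CharTwo.two_eq_zero], rfl⟩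

lemma Gd.exists_Q (h : Gd o) (h1 : ∀ x, o.g x = (1 : F) • x → x = 0) :
    ∃ Q, IsO { o with Q := Q } := by
  have h2 : ∀ x, x ∈ o.W := LinearMap.injective_iff_surjective.1
    (LinearMap.ker_eq_bot.1 (LinearMap.ker_eq_bot'.2 fun x hx =>
      h1 x (by simpa [sub_eq_zero] using hx)))
  let φ : o.V →ₗ[F] o.W := LinearMap.codRestrict _ LinearMap.id h2
  let Q : QuadraticForm F o.V := (LinearMap.BilinMap.toQuadraticMap o.θ).comp φ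
  have hB : o.B = polarBilin Q := LinearMap.ext₂ fun x y => by
    rw [polarBilin_apply_apply, ← polar_map (Q₁ := Q) (Q := LinearMap.BilinMap.toQuadraticMap o.θ) φ
      (fun _ => rfl), LinearMap.BilinMap.polar_toQuadraticMap]
    exact (h.θ_add (φ x) (φ y)).symm
  exact ⟨Q, ND.of_forall fun x hx => h.nd x fun y => hB ▸ hx y, hB,
    fun x => h.θ_gW (φ x) (φ x)⟩

lemma Eqv.fgt (h : Eqv o o') : Eqv (fgt o) (fgt o') := by
  obtain ⟨e, h1, h2, -⟩ := h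
  exact ⟨e, h1, h2, fun _ => rfl⟩

lemma IsS.fgt_eq (h : IsS o) (Q : QuadraticForm F o.V) : fgt { o with Q := Q } = o := by
  rw [fgt, ← h.Q_eq]

/-- the count of the classes in a symplectic group in characteristic two -/
theorem sp_total [CharP F 2] (ha : LeC cl (US F) dim N a) (hG : LeC cl (BO F) dim N G) :
    LeC cl {o : Ob F | IsS o} dim N (a * G) := by
  refine sum_count (T := {o | IsS o ∧ ∀ x, o.g x = (1 : F) • x → x = 0}) (fun _ o₁ _ => o₁ ∈ US F)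
    (hG.of_rel (fun o o' => ∃ Q, o' = { o with Q := Q }) (fun o ho _ => ?_) ?_) (fun o ho => ?_)
    fun _ => ha.subset (by rintro _ ⟨_, -, _, -, h, -⟩; exact h)
  · obtain ⟨Q, hQ⟩ := ho.1.toGd.exists_Q ho.2
    exact ⟨_, mem_BO hQ ho.2 (by rw [CharTwo.neg_eq]; exact ho.2), ⟨Q, rfl⟩, rfl⟩
  · rintro o ho o' ho' _ _ - ⟨Q, rfl⟩ ⟨Q', rfl⟩ e
    simpa only [ho.1.fgt_eq, ho'.1.fgt_eq, cl_eq] using (cl_eq.1 e).fgt
  · obtain ⟨o₁, o₂, e, e1, e2⟩ := ho.toGd.fitting fun x y _ => by simp [ho.Q_eq]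
    exact ⟨o₁, o₂, e, ⟨e.swap.isS ho, e2⟩, e.isS ho, e1⟩

lemma eqv_of_fgt (h : IsO o) (h' : IsO o') (e : Eqv (fgt o) (fgt o'))
    (hI : Iso o.Q o'.Q ∨ ∀ x, x ∈ o.W) : Eqv o o' := by
  obtain ⟨e, h1, h2, -⟩ := e
  have h3 : o.W.map e.toLinearMap = o'.W := Submodule.ext fun x => ⟨by
    rintro ⟨_, ⟨y, rfl⟩, rfl⟩
    exact ⟨e y, ((map_sub e _ _).trans (congrArg (· - e y) (h2 y))).symm⟩, by
    rintro ⟨y, rfl⟩
    obtain ⟨y, rfl⟩ := e.surjective y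
    exact ⟨_, ⟨y, rfl⟩, (map_sub e _ _).trans (congrArg (· - e y) (h2 y))⟩⟩
  have h4 : ∀ x y, o'.θ (e.ofSubmodules _ _ h3 x) (e.ofSubmodules _ _ h3 y) = o.θ x y := by
    rintro ⟨_, x, rfl⟩ y
    rw [h.gd.θ_apply _ _ (y := x) rfl, h'.gd.θ_apply _ _ (y := e x)
      ((map_sub e _ _).trans (congrArg (· - e x) (h2 x))).symm]
    exact congrArg Neg.neg (h1 x y)
  refine WEq.eqv_O h h' (hI.elim id fun hI => ⟨e, fun x => ?_⟩) ⟨_, h4⟩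
  exact (h'.θ_self (e.ofSubmodules _ _ h3 ⟨x, hI x⟩)).symm.trans ((h4 _ _).trans (h.θ_self _))

end Ob

end CfsgH8
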