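import Cfsg.Agent.H8.Quot

set_option autoImplicit false

namespace CfsgH8

open QuadraticMap Module DihedralGroup

variable {F V : Type*} [Field F] [AddCommGroup V] [Module F V] {Q : QuadraticForm F V}

lemma hs_GO {T : Gam Q} (h : ∀ σ : F ≃+* F, ∃ k : ℕ, σ = T.σ ^ k) (γ : Gam Q) :
    ∃ i : ℕ, γ * (T ^ i)⁻¹ ∈ GO Q := by
  obtain ⟨k, hk⟩ := h γ.σ
  exact ⟨k, by rw [mem_GO, Gam.mul_σ, Gam.inv_σ, Gam.pow_σ, ← hk, mul_inv_cancel]⟩

lemma hi_GO {T : Gam Q} {i : ℕ} (h : T ^ i ∈ GO Q) : orderOf T.σ ∣ i := by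
  rw [mem_GO, Gam.pow_σ] at h
  exact orderOf_dvd_of_pow_eq_one h

lemma Pres.conj_two {K : Subgroup (Gam Q)} [hK : K.Normal] {C : Type*} [Group C] {π : K →* C}
    (h : Pres π (ZS (Om Q))) (hC : ∀ x y : C, (x = 1 ↔ y = 1) → x = y) (T : Gam Q) (γ : K) :
    ∃ h : T * γ * T⁻¹ ∈ K, π ⟨_, h⟩ = π γ :=
  ⟨hK.conj_mem _ γ.2 T, hC _ _ (by
    rw [h.2, h.2]
    exact ⟨fun h => by simpa [mul_assoc] using ZOm_normal.conj_mem' _ h T, fun h => ZOm_normal.conj_mem _ h T⟩)⟩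

lemma units_int_equiv : Nonempty (ℤˣ ≃* Multiplicative (ZMod 2)) :=
  ⟨mulEquivOfPrimeCardEq (p := 2) (by simp) (by simp)⟩

theorem out_sign {π : GO Q →* ℤˣ} (hπ : Pres π (ZS (Om Q))) {T : Gam Q} {f : ℕ} (hf : f ≠ 0)
    (h1 : orderOf T.σ = f) (h2 : ∀ σ : F ≃+* F, ∃ k : ℕ, σ = T.σ ^ k) (h3 : T ^ f = 1) :
    Nonempty (Gam Q ⧸ ZS (Om Q) ≃* Multiplicative (ZMod 2 × ZMod f)) := by
  obtain ⟨e⟩ := hπ.prod (ZS_le_GO _) T f hf (hπ.conj_two (by decide) T) (hs_GO h2)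
    (h3 ▸ one_mem _) (fun i hi => h1 ▸ hi_GO hi)
  obtain ⟨e'⟩ := units_int_equiv
  exact ⟨e.trans ((e'.prodCongr (MulEquiv.refl _)).trans (MulEquiv.prodMultiplicative _ _).symm)⟩

section big
variable [Finite F] [FiniteDimensional F V] [hB : Big Q]

omit [Finite F] in
lemma delta_pow_ofOG (hn : Even (finrank F V)) (r : OG Q) (hr : dickF r = -1) (j : ℕ) :
    delta (ofOG Q r ^ j) = (-1) ^ j := by
  rw [← map_pow, delta_ofOG hB.nd hn]
  exact (map_pow (dick hB.nd Big.good) r j).trans (congrArg (· ^ j) hr)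

lemma hs_GOp (hn : Even (finrank F V)) {T : Gam Q} {f : ℕ}
    (h2 : ∀ σ : F ≃+* F, ∃ k : ℕ, σ = T.σ ^ k) {r : OG Q} (h3 : T ^ f = ofOG Q r)
    (hr : dickF r = -1) (γ : Gam Q) : ∃ i : ℕ, γ * (T ^ i)⁻¹ ∈ GOp hB.nd Big.good hn := by
  obtain ⟨i, hi⟩ := hs_GO h2 γ
  rcases Int.units_eq_one_or (delta (γ * (T ^ i)⁻¹)) with h | h
  · exact ⟨i, hi, h⟩
  · refine ⟨f + i, ?_⟩
    rw [pow_add, mul_inv_rev, ← mul_assoc, h3]
    refine ⟨(GO Q).mul_mem hi ((GO Q).inv_mem rfl), ?_⟩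
    rw [delta_mul hB.nd Big.good hn hi rfl, h, delta_inv hB.nd Big.good hn rfl,
      delta_ofOG hB.nd hn, hr]; rfl

lemma hi_GOp (hn : Even (finrank F V)) {T : Gam Q} {f : ℕ} (h1 : orderOf T.σ = f) {r : OG Q}
    (h3 : T ^ f = ofOG Q r) (hr : dickF r = -1) {i : ℕ} (hi : T ^ i ∈ GOp hB.nd Big.good hn) :
    2 * f ∣ i := by
  obtain ⟨j, rfl⟩ := h1 ▸ hi_GO hi.1
  have := hi.2
  rw [pow_mul, h3, delta_pow_ofOG hn r hr] at this
  rcases Nat.even_or_odd j with ⟨l, rfl⟩ | h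
  · exact ⟨l, by ring⟩
  · rw [h.neg_one_pow] at this; exact absurd this (by decide)

theorem out_two_minus (h2 : (2 : F) = 0) (hn : Even (finrank F V)) {T : Gam Q} {f : ℕ} (hf : f ≠ 0)
    (h1 : orderOf T.σ = f) (hT : ∀ σ : F ≃+* F, ∃ k : ℕ, σ = T.σ ^ k) {r : OG Q}
    (h3 : T ^ f = ofOG Q r) (hr : dickF r = -1) (hr2 : r * r = 1) :
    Nonempty (Gam Q ⧸ ZS (Om Q) ≃* Multiplicative (ZMod (2 * f))) := by
  have hπ : Pres (1 : GOp hB.nd Big.good hn →* PUnit.{1}) (ZS (Om Q)) :=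
    ⟨fun _ => ⟨1, rfl⟩, fun γ => iff_of_true rfl (GOp_eq_two (Q := Q) h2 hn ▸ γ.2)⟩
  obtain ⟨e⟩ := hπ.prod (ZOm_le_GOp hn) T (2 * f) (by omega) (hπ.conj_two (fun _ _ _ => rfl) T)
    (hs_GOp hn hT h3 hr) (by rw [mul_comm, pow_mul, h3, pow_two, ← _root_.map_mul, hr2]; simp [one_mem])
    (fun i hi => hi_GOp hn h1 h3 hr hi)
  exact ⟨e.trans MulEquiv.uniqueProd⟩

theorem out_odd_minus (h2 : (2 : F) ≠ 0) (hn : Even (finrank F V)) (hd : discC Q = -1) {T : Gam Q}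
    {f : ℕ} (hf : f ≠ 0) (h1 : orderOf T.σ = f) (hT : ∀ σ : F ≃+* F, ∃ k : ℕ, σ = T.σ ^ k)
    {r : OG Q} (h3 : T ^ f = ofOG Q r) (hr : dickF r = -1) (hr2 : r * r = 1) :
    Nonempty (Gam Q ⧸ ZS (Om Q) ≃* Multiplicative (ZMod 2 × ZMod (2 * f))) := by
  obtain ⟨π, hπ, -⟩ := pres_GOp_two h2 hn hd
  obtain ⟨e⟩ := hπ.prod (ZOm_le_GOp hn) T (2 * f) (by omega) (hπ.conj_two (by decide) T)
    (hs_GOp hn hT h3 hr) (by rw [mul_comm, pow_mul, h3, pow_two, ← _root_.map_mul, hr2]; simp [one_mem])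
    (fun i hi => hi_GOp hn h1 h3 hr hi)
  exact ⟨e.trans (MulEquiv.prodMultiplicative _ _).symm⟩

theorem out_klein (h2 : (2 : F) ≠ 0) (hn : Even (finrank F V)) (hd : discC Q = -1) {T : Gam Q}
    {f : ℕ} (hf : f ≠ 0) (h1 : orderOf T.σ = f) (hT : ∀ σ : F ≃+* F, ∃ k : ℕ, σ = T.σ ^ k)
    (h3 : T ^ f = 1) :
    Nonempty (Gam Q ⧸ ZS (Om Q) ≃* Multiplicative (ZMod 2 × ZMod 2 × ZMod f)) := by
  have hπ := pres_dm (Q := Q) h2 hn
  rw [ZS_dick_eq h2 hn hd] at hπ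
  obtain ⟨e⟩ := hπ.prod (ZS_le_GO _) T f hf (fun γ => ⟨conj_mem_GO T γ,
    Prod.ext (delta_conj hB.nd hn T γ.2) (muH_conj T γ)⟩) (hs_GO hT)
    (h3 ▸ one_mem _) (fun i hi => h1 ▸ hi_GO hi)
  obtain ⟨e'⟩ := units_int_equiv
  exact ⟨e.trans ((((e'.prodCongr e').prodCongr (MulEquiv.refl _)).trans MulEquiv.prodAssoc).trans
    (((MulEquiv.refl _).prodCongr (MulEquiv.prodMultiplicative _ _).symm).trans
      (MulEquiv.prodMultiplicative _ _).symm))⟩

/-- the data of the dihedral quotient -/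
structure IsD8 (π : GO Q →* DihedralGroup 4) (e : ℤˣ) : Prop where
  pres : Pres π (ZS (Om Q))
  val : ∀ a g, π ⟨scal Q a * ofOG Q g, rfl⟩ = dsp (dickF g) (spinF g)
  del : ∀ γ, delta γ.1 = ddel e (π γ)
  mu : ∀ γ, muH Q γ = dmu (π γ)

lemma exists_isD8 (h2 : (2 : F) ≠ 0) {k : ℕ} (hn : finrank F V = 2 * k) (hd : discC Q = 1) :
    ∃ π : GO Q →* DihedralGroup 4, IsD8 π (-(-1) ^ k) := by
  obtain ⟨π, h1, h3, h4, h5⟩ := pres_D8 h2 hn hd
  exact ⟨π, h1, h3, h4, h5⟩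

lemma IsD8.conj {π : GO Q →* DihedralGroup 4} {e : ℤˣ} (h : IsD8 π e) (hn : Even (finrank F V))
    {T : Gam Q} (hT : chi (T.c : F) = 1) :
    (∀ γ, π ⟨_, conj_mem_GO T γ⟩ = π γ) ∨
      ∀ γ, π ⟨_, conj_mem_GO T γ⟩ = sr 0 * π γ * (sr 0)⁻¹ := by
  have h1 : ∀ γ : GO Q, muH Q γ = 1 → π ⟨_, conj_mem_GO T γ⟩ = π γ := by
    rintro ⟨γ, hγ⟩ h1
    obtain ⟨a, g, -, e1⟩ := (muH_eq_one_iff _).1 h1
    obtain rfl : γ = _ := e1
    have e2 : T * (scal Q a * ofOG Q g) * T⁻¹ =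
        scal Q (Units.map T.σ.toMonoidHom a) * ofOG Q (T.og g) := by
      rw [← conj_scal, ← conj_ofOG]; group
    simp only [e2]
    rw [h.val, h.val, SIso.dickF_og, SIso.spinF_og T hB.nd Big.good, hT, ite_self, mul_one]
  obtain ⟨g0, hg0⟩ := h.pres.1 (r 1)
  have h2 : ∀ γ : GO Q, muH Q γ = -1 →
      π ⟨_, conj_mem_GO T γ⟩ = π γ * (r 1)⁻¹ * π ⟨_, conj_mem_GO T g0⟩ := fun γ hγ => by
    rw [← hg0, ← map_inv, ← _root_.map_mul, ← h1 (γ * g0⁻¹) (by
      rw [_root_.map_mul, map_inv, hγ, h.mu, hg0]; decide), ← _root_.map_mul]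
    congr 1
    apply Subtype.ext
    simp only [Subgroup.coe_mul, Subgroup.coe_inv]
    group
  have h3 := h.del ⟨_, conj_mem_GO T g0⟩
  have h4 := h.mu ⟨_, conj_mem_GO T g0⟩
  rw [delta_conj hB.nd hn T g0.2, h.del, hg0] at h3
  rw [muH_conj, h.mu, hg0] at h4
  have h5 : π ⟨_, conj_mem_GO T g0⟩ = r 1 ∨ π ⟨_, conj_mem_GO T g0⟩ = r 3 := by
    revert h3 h4
    generalize π _ = x
    clear h h1 h2 hg0
    revert x e; decide
  refine h5.imp (fun h5 γ => ?_) (fun h5 γ => ?_)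
  · rcases Int.units_eq_one_or (muH Q γ) with h6 | h6
    · exact h1 γ h6
    · rw [h2 γ h6, h5, inv_mul_cancel_right]
  · rcases Int.units_eq_one_or (muH Q γ) with h6 | h6
    · rw [h1 γ h6]
      rw [h.mu] at h6
      revert h6
      generalize π _ = x
      revert x; decide
    · rw [h2 γ h6, h5]
      rw [h.mu] at h6
      revert h6
      generalize π _ = x
      revert x; decide

lemma IsD8.conj_sq {π : GO Q →* DihedralGroup 4} {e : ℤˣ} (h : IsD8 π e) (hn : Even (finrank F V))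
    {T : Gam Q} (hT : chi (T.c : F) = 1) (γ : GO Q) : π ⟨_, conj_mem_GO (T ^ 2) γ⟩ = π γ := by
  have e1 : (⟨_, conj_mem_GO (T ^ 2) γ⟩ : GO Q) = ⟨_, conj_mem_GO T ⟨_, conj_mem_GO T γ⟩⟩ :=
    Subtype.ext (by simp only [pow_two]; group)
  rw [e1]
  rcases h.conj hn hT with h1 | h1
  · rw [h1, h1]
  · rw [h1, h1]
    generalize π _ = x
    revert x; decide

theorem out_D8_odd (h2 : (2 : F) ≠ 0) {k : ℕ} (hk : finrank F V = 2 * k) (hd : discC Q = 1)
    {T : Gam Q} {f : ℕ} (hf : Odd f) (h1 : orderOf T.σ = f)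
    (hT : ∀ σ : F ≃+* F, ∃ k : ℕ, σ = T.σ ^ k) (hc : T.c = 1) (h3 : T ^ (2 * f) = 1) :
    Nonempty (Gam Q ⧸ ZS (Om Q) ≃* DihedralGroup 4 × Multiplicative (ZMod f)) := by
  obtain ⟨π, hπ⟩ := exists_isD8 h2 hk hd
  refine hπ.pres.prod (ZS_le_GO _) (T ^ 2) f hf.pos.ne'
    (fun γ => ⟨_, hπ.conj_sq ⟨k, by omega⟩ (by simp [hc]) γ⟩) (hs_GO fun σ => ?_)
    (by rw [← pow_mul, h3]; exact one_mem _) fun i hi => ?_
  · obtain ⟨j, rfl⟩ := hT σ
    obtain ⟨l, hl⟩ := hf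
    refine ⟨(l + 1) * j, ?_⟩
    rw [Gam.pow_σ, ← pow_mul, show 2 * ((l + 1) * j) = f * j + j by rw [hl]; ring, pow_add,
      pow_mul, ← h1, pow_orderOf_eq_one, one_pow, one_mul]
  · rw [← pow_mul] at hi
    exact (Nat.coprime_two_right.2 hf).dvd_of_dvd_mul_left (h1 ▸ hi_GO hi)

theorem out_D8 (h2 : (2 : F) ≠ 0) {k : ℕ} (hk : finrank F V = 2 * k) (hd : discC Q = 1)
    {T : Gam Q} {f : ℕ} (hf : f ≠ 0) (h1 : orderOf T.σ = f)
    (hT : ∀ σ : F ≃+* F, ∃ k : ℕ, σ = T.σ ^ k) (hc : T.c = 1) (h3 : T ^ f = 1)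
    {v : V} (hv : Q v = 1) (hTv : T.T v = v) :
    Nonempty (Gam Q ⧸ ZS (Om Q) ≃* DihedralGroup 4 × Multiplicative (ZMod f)) := by
  rcases Nat.even_or_odd f with hf' | hf'
  swap
  · exact out_D8_odd h2 hk hd hf' h1 hT hc (by rw [mul_comm, pow_mul, h3, one_pow])
  obtain ⟨π, hπ⟩ := exists_isD8 h2 hk hd
  rcases hπ.conj ⟨k, by omega⟩ (T := T) (by simp [hc]) with h | h
  · exact hπ.pres.prod (ZS_le_GO _) T f hf (fun γ => ⟨_, h γ⟩) (hs_GO hT) (h3 ▸ one_mem _)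
      fun i hi => h1 ▸ hi_GO hi
  · have hv0 : Q v ≠ 0 := by rw [hv]; exact one_ne_zero
    have hr : π ⟨ofOG Q (refl Q v), rfl⟩ = sr 0 := by
      have := hπ.val 1 (refl Q v)
      simp only [_root_.map_one, one_mul] at this
      rw [this, dickF_refl hB.nd hv0, spinF_refl hB.nd hv0, hv, chi_one]; decide
    have hcomm : Commute (ofOG Q (refl Q v)) T := by
      have := conj_ofOG T (refl Q v)
      rw [T.og_refl, hTv, mul_inv_eq_iff_eq_mul] at this
      exact this.symm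
    refine hπ.pres.prod (ZS_le_GO _) (ofOG Q (refl Q v) * T) f hf (fun γ => ⟨conj_mem_GO _ γ, ?_⟩)
      (hs_GO (by simpa using hT)) ?_ fun i hi => by simpa [h1] using hi_GO hi
    · have e1 : (⟨_, conj_mem_GO (ofOG Q (refl Q v) * T) γ⟩ : GO Q) =
          ⟨ofOG Q (refl Q v), rfl⟩ * ⟨_, conj_mem_GO T γ⟩ * (⟨ofOG Q (refl Q v), rfl⟩ : GO Q)⁻¹ :=
        Subtype.ext (by simp only [Subgroup.coe_mul, Subgroup.coe_inv]; group)
      rw [e1, _root_.map_mul, _root_.map_mul, map_inv, hr, h]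
      generalize π _ = x
      revert x; decide
    · obtain ⟨l, rfl⟩ := hf'
      rw [hcomm.mul_pow, h3, mul_one, ← two_mul, pow_mul, pow_two, ← _root_.map_mul, refl_mul_self]
      simp [one_mem]

end big

lemma fldG_pow {ι : Type*} (σ : F ≃+* F) {Q : QuadraticForm F (ι → F)}
    (h : ∀ v, Q (σ ∘ v) = σ (Q v)) {f : ℕ} (hf : σ ^ f = 1) : fldG σ h ^ f = 1 := by
  have : ∀ k v i, (fldG σ h ^ k).T v i = (σ ^ k) (v i) := fun k => by
    induction k with
    | zero => intro v i; rfl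
    | succ k ih => intro v i; rw [pow_succ', Gam.mul_T, fldG_T, ih, pow_succ']; rfl
  refine SIso.ext' (fun v => funext fun i => by rw [this, hf]; rfl)
    (by rw [Gam.pow_σ, fldG_σ, hf]; rfl) (Units.ext (by rw [Gam.pow_c]; simp))

lemma ODec.gam_pow_T {V₁ V₂ : Type*} [AddCommGroup V₁] [Module F V₁] [AddCommGroup V₂]
    [Module F V₂] {Q₁ : QuadraticForm F V₁} {Q₂ : QuadraticForm F V₂} (D : ODec Q₁ Q₂ Q)
    (γ₁ : Gam Q₁) (γ₂ : Gam Q₂) (h1 : γ₂.σ = γ₁.σ) (h2 : γ₂.c = γ₁.c) (k : ℕ) (x : V₁) (y : V₂) :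
    (D.gam γ₁ γ₂ h1 h2 ^ k).T (D.e (x, y)) = D.e ((γ₁ ^ k).T x, (γ₂ ^ k).T y) := by
  induction k with
  | zero => rfl
  | succ k ih => simp only [pow_succ', Gam.mul_T, ih, ODec.gam_T]

/-- The Frobenius map on an anisotropic plane. -/
theorem exists_frob_plane [Fintype F] {p f : ℕ} [Fact p.Prime] (hF : Fintype.card F = p ^ f)
    {τ : F ≃+* F} (hτ : ∀ x, τ x = x ^ p) {a b : F} (hab : Aniso a b) :
    ∃ (T : Gam (QB a b)) (r : OG (QB a b)), T.σ = τ ∧ T.c = 1 ∧ T ^ f = ofOG _ r ∧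
      dickF r = -1 ∧ r * r = 1 := by
  obtain ⟨K, _, _, hK⟩ := exists_quad_ext F
  have : Module.Finite F K := Module.finite_of_finrank_pos (by omega)
  have : Finite K := Module.finite_of_finite F
  have := Fintype.ofFinite K
  have : CharP F p := charP_of_card_eq_prime_pow hF
  have : CharP K p := charP_of_injective_algebraMap (algebraMap F K).injective p
  have hKc : Fintype.card K = (p ^ f) ^ 2 := by
    rw [Module.card_eq_pow_finrank (K := F), hK, hF]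
  have hq : 1 < p ^ f := hF ▸ Fintype.one_lt_card
  let s := iterateFrobenius K p f
  have hs : ∀ x, s x = x ^ p ^ f := fun _ => rfl
  have hss : ∀ x, s (s x) = x := fun x => by
    rw [hs, hs, ← pow_mul, ← pow_two, ← hKc, FiniteField.pow_card]
  have hsa : ∀ c : F, s (algebraMap F K c) = algebraMap F K c := fun c => by
    rw [hs, ← map_pow, ← hF, FiniteField.pow_card]
  have hN : ∀ x : K, algebraMap F K (Algebra.norm F x) = x * s x := fun x => by
    rw [FiniteField.algebraMap_norm_eq_pow_sum, hK, Finset.sum_range_succ, Finset.sum_range_one,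
      Nat.card_eq_fintype_card, hF, pow_zero, pow_one, pow_add, pow_one, hs]
  have hp : ∀ x y : K, algebraMap F K (polar (fun x : K => Algebra.norm F x) x y) =
      x * s y + y * s x := fun x y => by
    simp only [polar, map_sub, hN, map_add]; ring
  let QN : QuadraticForm F K := QuadraticMap.ofPolar (fun x : K => Algebra.norm F x)
    (fun c x => (algebraMap F K).injective (by
      simp only [hN, Algebra.smul_def, _root_.map_mul, hsa, Algebra.algebraMap_self,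
        RingHom.id_apply]))
    (fun x x' y => (algebraMap F K).injective (by simp only [map_add, hp]; ring))
    (fun c x y => (algebraMap F K).injective (by
      simp only [hp, Algebra.smul_def, _root_.map_mul, hsa, Algebra.algebraMap_self,
        RingHom.id_apply]; ring))
  have hQN : ∀ x, algebraMap F K (QN x) = x * s x := hN
  have hpN : ∀ x y, algebraMap F K (polar QN x y) = x * s y + y * s x := hp
  obtain ⟨y, hy⟩ : ∃ y, s y ≠ y := by
    by_contra hc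
    push Not at hc
    obtain ⟨g, hg⟩ := IsCyclic.exists_ofOrder_eq_natCard (α := Kˣ)
    have h1 : g ^ (p ^ f - 1) = 1 := Units.ext (by
      have := hc g
      rw [hs] at this
      apply mul_right_cancel₀ g.ne_zero
      rw [Units.val_pow_eq_pow_val, ← pow_succ, Nat.sub_add_cancel hq.le, this]; simp)
    have h2 := Nat.le_of_dvd (by omega) (orderOf_dvd_of_pow_eq_one h1)
    rw [hg, Nat.card_units, Nat.card_eq_fintype_card, hKc] at h2
    have : p ^ f < (p ^ f) ^ 2 := by nlinarith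
    omega
  have hnd : ND QN := ND.of_forall fun x hx => by
    have h1 := hpN x 1
    have h2 := hpN x y
    rw [hx, map_zero] at h1 h2
    rw [_root_.map_one] at h1
    have : x * (s y - y) = 0 := by linear_combination -h2 + y * h1
    exact (mul_eq_zero.1 this).resolve_right (sub_ne_zero.2 hy)
  obtain ⟨e, he⟩ := iso_QB_of_anis hnd hK (fun x hx => by
    have := hQN x
    rw [hx, map_zero, eq_comm, mul_eq_zero] at this
    exact this.elim id fun h => by simpa using h) hab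
  let E : SIso (QB a b) QN := SIso.ofSim e one_ne_zero (by simpa using he)
  let T : Gam QN :=
    { T := (frobeniusEquiv K p).toAddEquiv
      σ := τ
      c := 1
      smul := fun c x => by
        change frobenius K p (c • x) = τ c • frobenius K p x
        rw [Algebra.smul_def, Algebra.smul_def, _root_.map_mul, hτ, map_pow, frobenius_def]
      mapQ := fun x => by
        change Algebra.norm F (x ^ p) = _ * τ (Algebra.norm F x)
        rw [hτ, map_pow]; simp }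
  let sl : K →ₗ[F] K :=
    { toFun := s
      map_add' := s.map_add
      map_smul' := fun c x => by simp only [Algebra.smul_def, _root_.map_mul, hsa, RingHom.id_apply] }
  let r : OG QN := ⟨LinearEquiv.ofInvolutive sl hss, fun x => (algebraMap F K).injective (by
    rw [hQN, hQN]
    change s x * s (s x) = _
    rw [hss, mul_comm])⟩
  have hTr : T ^ f = ofOG _ r := Gam.ext hnd fun x => by
    rw [Gam.pow_T]
    exact iterate_frobenius p f x
  have hr : dickF r = -1 := by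
    have h1 := finrank_movS_add r
    have h2 : fixS r ≠ ⊥ := fun h => one_ne_zero (α := K) (by
      rw [← Submodule.mem_bot F, ← h, mem_fixS]; exact s.map_one)
    have h3 : fixS r < ⊤ := lt_top_iff_ne_top.2 fun h => hy (mem_fixS.1 (h ▸ trivial : y ∈ fixS r))
    have h4 := Submodule.finrank_lt_finrank_of_lt h3
    rw [finrank_top] at h4
    have h5 : finrank F (fixS r) ≠ 0 := fun h => h2 (Submodule.finrank_eq_zero.1 h)
    rw [dickF, show finrank F (movS r) = 1 by omega, pow_one]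
  refine ⟨E.symm.gam T, E.symm.og r, rfl, Units.ext ?_, by rw [← map_pow, hTr, SIso.gam_ofOG],
    by rw [SIso.dickF_og, hr], ?_⟩
  · simp [SIso.gam, SIso.trans_c, SIso.symm_c, E, SIso.ofSim, T]
  · rw [← _root_.map_mul, show r * r = 1 from OG.ext' hss, _root_.map_one]

theorem exists_frob_QM [Fintype F] {p f : ℕ} [Fact p.Prime] (hF : Fintype.card F = p ^ f)
    {τ : F ≃+* F} (hτ : ∀ x, τ x = x ^ p) (hf : τ ^ f = 1) (m : ℕ) {a b : F} (hab : Aniso a b) :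
    ∃ (T : Gam (QM m F a b)) (r : OG (QM m F a b)), T.σ = τ ∧ T.c = 1 ∧ T ^ f = ofOG _ r ∧
      dickF r = -1 ∧ r * r = 1 := by
  obtain ⟨T, r, h1, h2, h3, h4, h5⟩ := exists_frob_plane hF hτ hab
  let D : ODec (QP m F) (QB a b) (QM m F a b) := sumDec _ _
  have hc : ∀ v, QP m F (τ ∘ v) = τ (QP m F v) := fun v => QH_comp (τ : F →+* F) v
  refine ⟨D.gam (fldG τ hc) T h1 h2, D.hom (1, r), rfl, rfl,
    Gam.ext (ND_QM hab) fun v => ?_, by rw [D.dickF_hom, h4, dickF_one, one_mul],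
    by rw [← _root_.map_mul, Prod.mk_mul_mk, h5, mul_one]; exact D.hom.map_one⟩
  obtain ⟨x, y, rfl⟩ := D.surj v
  refine (D.gam_pow_T (fldG τ hc) T h1 h2 f x y).trans ?_
  rw [fldG_pow _ _ hf, h3, ofOG_T, ofOG_T, D.hom_apply]
  rfl

end CfsgH8
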