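import Cfsg.Agent.H8.Cnt

set_option autoImplicit false
set_option linter.unusedSectionVars false

namespace CfsgH8

open QuadraticMap Module

universe u

variable {F V : Type*} [Field F] [Fintype F] [AddCommGroup V] [Module F V] [FiniteDimensional F V]
  {Q : QuadraticForm F V}

/-- the pointwise stabiliser of a subspace -/
def ptw (Q : QuadraticForm F V) (U : Submodule F V) : Subgroup (OG Q) where
  carrier := {g | ∀ u ∈ U, g.1 u = u}
  one_mem' _ _ := rfl
  mul_mem' {g h} hg hh u hu := by rw [OG.mul_apply, hh u hu, hg u hu]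
  inv_mem' {g} hg u hu := OG.inj g (by rw [OG.apply_inv_self, hg u hu])

lemma mem_ptw {U : Submodule F V} {g : OG Q} : g ∈ ptw Q U ↔ ∀ u ∈ U, g.1 u = u := Iff.rfl

lemma ptw_bot : ptw Q ⊥ = ⊤ := eq_top_iff.2 fun g _ u hu => by
  rw [(Submodule.mem_bot F).1 hu, map_zero]

lemma mem_ptw_sup {U : Submodule F V} {x : V} {g : OG Q} :
    g ∈ ptw Q (U ⊔ F ∙ x) ↔ g ∈ ptw Q U ∧ g.1 x = x := by
  refine ⟨fun h => ⟨fun u hu => h u (Submodule.mem_sup_left hu),
    h x (Submodule.mem_sup_right (Submodule.mem_span_singleton_self x))⟩, fun h u hu => ?_⟩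
  obtain ⟨y, hy, z, hz, rfl⟩ := Submodule.mem_sup.1 hu
  obtain ⟨c, rfl⟩ := Submodule.mem_span_singleton.1 hz
  rw [map_add, map_smul, h.1 y hy, h.2]

lemma card_ptw_step (hQ : ND Q) (U : Submodule F V) {x : V} (hx : x ∉ U) :
    Nat.card (ptw Q U) = Nat.card {y // y ∉ U ∧ Q y = Q x ∧ ∀ u ∈ U, polar Q u y = polar Q u x} *
      Nat.card (ptw Q (U ⊔ F ∙ x)) := by
  rw [CfsgH1.card_group_eq_orbit (fun (g : ptw Q U) (v : V) => g.1.1 v) (fun _ => rfl)
    (fun _ _ _ => rfl) x (fun y => y ∉ U ∧ Q y = Q x ∧ ∀ u ∈ U, polar Q u y = polar Q u x)]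
  · congr 1
    exact Nat.card_congr ⟨fun g => ⟨g.1.1, mem_ptw_sup.2 ⟨g.1.2, g.2⟩⟩,
      fun g => ⟨⟨g.1, (mem_ptw_sup.1 g.2).1⟩, (mem_ptw_sup.1 g.2).2⟩, fun _ => rfl, fun _ => rfl⟩
  · intro y
    constructor
    · rintro ⟨h1, h2, h3⟩
      obtain ⟨g, g1, g2⟩ := witt_aux hQ U hx h1 h2.symm fun u hu => (h3 u hu).symm
      exact ⟨⟨g, g1⟩, g2⟩
    · rintro ⟨g, rfl⟩
      refine ⟨fun h => hx ?_, OG.map_Q _ _, fun u hu => by rw [← g.2 u hu, OG.map_polar, g.2 u hu]⟩
      rwa [← OG.inj g.1 (g.2 _ h)]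

lemma iso_of_hypDec {V₂ : Type*} [AddCommGroup V₂] [Module F V₂] {Q₂ : QuadraticForm F V₂} {k n : ℕ}
    (D : ODec (QP k F) Q₂ Q) (h : Iso (QP (k + n) F) Q) : Iso (QP n F) Q₂ :=
  witt_cancel' ND_QH (QH_sumDec (Fin k) (Fin n) F) D ((iso_QH_congr finSumFinEquiv).trans h)
    (Iso.refl _)

lemma card_perp_value (hQ : ND Q) {U : Submodule F V} (hU : TS Q U) {k n : ℕ}
    (hk : finrank F U = k) (h : Iso (QP (k + n) F) Q) (c : F) :
    Nat.card {y // y ∈ perp Q U ∧ Q y = c} = Fintype.card F ^ k * cnt (QP n F) c := by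
  obtain ⟨W, D, d1, d2, d3⟩ := hU.exists_hypDec hQ hk
  rw [(iso_of_hypDec D h).cnt_eq, cnt, ← Nat.card_eq_fintype_card, ← hk,
    ← Module.natCard_eq_pow_finrank, ← Nat.card_prod]
  have hq : ∀ u ∈ U, ∀ w : W, Q (u + w) = Q w := fun u hu w => by
    rw [Q_add, hU u hu, zero_add, mem_perp.1 (d3 ▸ Submodule.mem_sup_right w.2) u hu, add_zero]
  refine (Nat.card_eq_of_bijective (fun p : U × {w : W // res Q W w = c} =>
    (⟨p.1 + p.2.1, d3 ▸ Submodule.add_mem_sup p.1.2 p.2.1.2, (hq _ p.1.2 _).trans p.2.2⟩ :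
      {y // y ∈ perp Q U ∧ Q y = c})) ⟨?_, ?_⟩).symm
  · rintro ⟨⟨u, hu⟩, ⟨w, hw⟩⟩ ⟨⟨u', hu'⟩, ⟨w', hw'⟩⟩ e
    obtain ⟨v, rfl⟩ := (d2 u).1 hu
    obtain ⟨v', rfl⟩ := (d2 u').1 hu'
    have e : D.e (Sum.elim v 0, 0) + w = D.e (Sum.elim v' 0, 0) + w' := congrArg Subtype.val e
    rw [← d1, ← d1, ← map_add, ← map_add] at e
    have e := D.e.injective e
    simp only [Prod.mk_add_mk, add_zero, zero_add, Prod.mk.injEq] at e
    simp only [e.1, e.2]
  · rintro ⟨y, hy, rfl⟩
    obtain ⟨u, hu, w, hw, rfl⟩ := Submodule.mem_sup.1 (d3 ▸ hy)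
    exact ⟨⟨⟨u, hu⟩, ⟨w, hw⟩, (hq u hu ⟨w, hw⟩).symm⟩, rfl⟩

lemma card_ptw_red (hQ : ND Q) {U : Submodule F V} (hU : TS Q U) {k : ℕ}
    (hk : finrank F U = k + 1) : ∃ (W : Submodule F V) (_ : ODec (QP 1 F) (res Q W) Q)
      (U' : Submodule F W), TS (res Q W) U' ∧ finrank F U' = k ∧
        Nat.card (ptw Q U) = Fintype.card F ^ (finrank F W - k) * Nat.card (ptw (res Q W) U') := by
  obtain ⟨e, he, he0⟩ := Submodule.exists_mem_ne_zero_of_ne_bot (p := U) (by
    rintro rfl; simp at hk)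
  obtain ⟨W, D, d1, d2, d3⟩ := (TS.span_singleton (hU e he)).exists_hypDec hQ
    (finrank_span_singleton he0)
  have hW := D.nd_right hQ
  let U' := U.comap W.subtype
  have hE : ∀ v : Fin 1 → F, D.e (Sum.elim v 0, 0) ∈ U := fun v =>
    (Submodule.span_singleton_le_iff_mem _ _).2 he ((d2 _).2 ⟨v, rfl⟩)
  have hsplit : ∀ (v : Fin 1 → F) (w : W), D.e (Sum.elim v 0, w) = D.e (Sum.elim v 0, 0) + w :=
    fun v w => by rw [← d1, ← map_add]; simp
  have hmem : ∀ x w, D.e (x, w) ∈ U ↔ x (Sum.inr 0) = 0 ∧ w ∈ U' := fun x w => by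
    have h1 : x (Sum.inr 0) = 0 → (D.e (x, w) ∈ U ↔ w ∈ U') := fun h => by
      have e0 : Sum.elim (x ∘ Sum.inl) 0 = x := funext fun i => by
        rcases i with i | i
        · rfl
        · rw [Subsingleton.elim i 0, h]; rfl
      rw [← e0, hsplit, U.add_mem_iff_right (hE _)]; rfl
    refine ⟨fun h => ?_, fun h => (h1 h.1).2 h.2⟩
    have h2 := hU.polar (hE 1) h
    rw [D.polar_e, polar_QH] at h2
    have h2 : x (Sum.inr 0) = 0 := by simpa using h2
    exact ⟨h2, (h1 h2).1 h⟩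
  have hU' : TS (res Q W) U' := fun u hu => hU _ hu
  have hk' : finrank F U' = k := by
    let φ : ((Fin 1 → F) × U') ≃ₗ[F] U := LinearEquiv.ofBijective
      (LinearMap.codRestrict U (D.e.toLinearMap ∘ₗ LinearMap.prodMap
        (LinearMap.pi (Sum.elim LinearMap.proj 0)) U'.subtype) fun p => (hmem _ _).2 ⟨rfl, p.2.2⟩)
      ⟨fun p p' h => by
        have := D.e.injective (congrArg Subtype.val h)
        exact Prod.ext (funext fun i => congrFun (congrArg Prod.fst this) (Sum.inl i))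
          (Subtype.ext (congrArg Prod.snd this)), fun u => by
        obtain ⟨u, hu⟩ := u
        obtain ⟨x, w, rfl⟩ := D.surj u
        obtain ⟨h1, h2⟩ := (hmem x w).1 hu
        refine ⟨(x ∘ Sum.inl, ⟨w, h2⟩), Subtype.ext (congrArg D.e (Prod.ext (funext fun i => ?_) rfl))⟩
        rcases i with i | i
        · rfl
        · rw [Subsingleton.elim i 0]; exact h1.symm⟩
    have := φ.finrank_eq
    simp only [finrank_prod, finrank_fintype_fun_eq_card, Fintype.card_fin] at this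
    omega
  let f := D.e (Sum.elim 0 1, 0)
  refine ⟨W, D, U', hU', hk', ?_⟩
  rw [card_ptw_step hQ U (x := f) fun h => by simpa using ((hmem _ _).1 h).1]
  congr 1
  · rw [← Nat.card_eq_fintype_card, show finrank F W - k = finrank F (perp (res Q W) U') by
      have := hW.finrank_perp U'; omega, ← Module.natCard_eq_pow_finrank]
    have hQf : Q f = 0 := by rw [D.he, QH_apply]; simp
    refine (Nat.card_eq_of_bijective (fun w : perp (res Q W) U' =>
      (⟨D.e (Sum.elim (fun _ => -res Q W w) 1, w), fun h => by simpa using ((hmem _ _).1 h).1,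
        by rw [hQf, D.he, QH_apply]; simp, fun u hu => by
          obtain ⟨x, w', rfl⟩ := D.surj u
          obtain ⟨h1, h2⟩ := (hmem x w').1 hu
          rw [D.polar_e, D.polar_e, polar_QH, polar_QH, mem_perp.1 w.2 w' h2]
          simp [h1]⟩ : {y // y ∉ U ∧ Q y = Q f ∧ ∀ u ∈ U, polar Q u y = polar Q u f})) ⟨?_, ?_⟩).symm
    · intro w w' h
      exact Subtype.ext (congrArg Prod.snd (D.e.injective (congrArg Subtype.val h)))
    · rintro ⟨y, -, h2, h3⟩
      obtain ⟨x, w, rfl⟩ := D.surj y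
      have h4 := h3 _ (hE 1)
      rw [D.polar_e, D.polar_e, polar_QH, polar_QH] at h4
      have h4 : x (Sum.inr 0) = 1 := by simpa using h4
      rw [hQf, D.he, QH_apply] at h2
      refine ⟨⟨w, mem_perp.2 fun u hu => ?_⟩,
        Subtype.ext (congrArg D.e (Prod.ext (funext fun i => ?_) rfl))⟩
      · simpa [f, D.polar_e] using h3 _ ((hmem 0 u).2 ⟨rfl, hu⟩)
      · rcases i with i | i <;> rw [Subsingleton.elim i 0]
        · simp only [Finset.univ_unique, Fin.default_eq_zero, Finset.sum_singleton, h4] at h2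
          simp only [Sum.elim_inl]
          linear_combination -h2
        · exact h4.symm
  · refine (Nat.card_eq_of_bijective (fun g : ptw (res Q W) U' =>
      (⟨D.hom (1, g.1), mem_ptw_sup.2 ⟨fun u hu => by
        obtain ⟨x, w, rfl⟩ := D.surj u
        rw [D.hom_apply, g.2 w ((hmem x w).1 hu).2]; rfl, by simp [f]⟩⟩ : ptw Q (U ⊔ F ∙ f)))
      ⟨?_, ?_⟩).symm
    · intro g g' h
      exact Subtype.ext (congrArg Prod.snd (D.hom_injective (congrArg Subtype.val h)))
    · rintro ⟨g, hg⟩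
      obtain ⟨g1, g2⟩ := mem_ptw_sup.1 hg
      have g3 : ∀ x, g.1 (D.e (x, 0)) = D.e (x, 0) := fun x => by
        have : D.e (x, 0) = D.e (Sum.elim (x ∘ Sum.inl) 0, 0) + x (Sum.inr 0) • f := by
          rw [← map_smul, ← map_add]
          congr 1
          ext i
          · rcases i with i | i
            · simp
            · simp [Subsingleton.elim i 0]
          · simp
        rw [this, map_add, map_smul, g2, g1 _ (hE _)]
      obtain ⟨⟨a, b⟩, rfl⟩ := D.exists_hom hQ g fun x => ⟨x, g3 x⟩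
      obtain rfl : a = 1 := OG.ext' fun x => by
        have := g3 x
        rw [D.hom_apply] at this
        exact congrArg Prod.fst (D.e.injective this)
      refine ⟨⟨b, fun w hw => ?_⟩, rfl⟩
      have := g1 _ ((hmem 0 w).2 ⟨rfl, hw⟩)
      rw [D.hom_apply] at this
      exact congrArg Prod.snd (D.e.injective this)

theorem card_ptw_TS (k n : ℕ) : ∀ {V : Type u} [AddCommGroup V] [Module F V]
    [FiniteDimensional F V] {Q : QuadraticForm F V} {U : Submodule F V}, TS Q U →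
    finrank F U = k → Iso (QP (k + n) F) Q →
    Nat.card (ptw Q U) =
      Fintype.card F ^ (2 * n * k + k * (k - 1) / 2) * Nat.card (OG (QP n F)) := by
  induction k with
  | zero =>
    intro V _ _ _ Q U _ hk h
    rw [Nat.zero_add] at h
    obtain ⟨e⟩ := h.og
    rw [Submodule.finrank_eq_zero.1 hk, ptw_bot, Subgroup.card_top, Nat.card_congr e.toEquiv]
    simp
  | succ k ih =>
    intro V _ _ _ Q U hU hk h
    obtain ⟨W, D, U', h1, h2, h3⟩ := card_ptw_red (h.nd ND_QH) hU hk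
    have h4 := iso_of_hypDec D (n := k + n) (by rwa [show 1 + (k + n) = k + 1 + n by omega])
    have h5 := h4.finrank_eq
    simp only [finrank_fintype_fun_eq_card, Fintype.card_sum, Fintype.card_fin] at h5
    rw [h3, ih h1 h2 h4, ← mul_assoc, ← pow_add, Nat.triangle_succ, ← h5]
    congr 2
    rw [mul_add (2 * n)]
    omega

lemma cnt_QP_zero (n : ℕ) : cnt (QP (n + 1) F) 0 =
    (Fintype.card F ^ (n + 1) - 1) * (Fintype.card F ^ n + 1) + 1 := by
  classical
  have h := cnt_QH (F := F) (Fin (n + 1)) 0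
  rw [if_pos rfl, Fintype.card_fin] at h
  refine Nat.eq_of_mul_eq_mul_left (Fintype.card_pos (α := F)) (h.trans ?_)
  have := Nat.one_le_pow (n + 1) _ (Fintype.card_pos (α := F))
  zify [this]
  ring

lemma cnt_QP_one' (n : ℕ) :
    cnt (QP (n + 1) F) 1 = Fintype.card F ^ n * (Fintype.card F ^ (n + 1) - 1) := by
  have h := cnt_QP_one (F := F) (n + 1)
  refine Nat.eq_of_mul_eq_mul_left (Fintype.card_pos (α := F)) ?_
  have := Nat.one_le_pow (n + 1) _ (Fintype.card_pos (α := F))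
  zify [this] at h ⊢
  linear_combination h

lemma card_OG_sing (hQ : ND Q) {x : V} (hx : x ≠ 0) (hx0 : Q x = 0) :
    Nat.card (OG Q) = (cnt Q 0 - 1) * Nat.card (ptw Q (F ∙ x)) := by
  classical
  have : Finite V := Module.finite_of_finite F
  have := Fintype.ofFinite V
  have h := card_ptw_step hQ ⊥ (x := x) (by simpa using hx)
  rw [ptw_bot, Subgroup.card_top, bot_sup_eq, hx0] at h
  rw [h]
  congr 1
  rw [cnt, Nat.card_eq_fintype_card, Nat.card_eq_fintype_card, Fintype.card_subtype,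
    Fintype.card_subtype, ← Finset.card_erase_of_mem (a := 0) (by simp)]
  congr 1
  ext y
  simp

lemma card_OG_QP_succ (n : ℕ) : Nat.card (OG (QP (n + 1) F)) =
    (Fintype.card F ^ (n + 1) - 1) * (Fintype.card F ^ n + 1) * Fintype.card F ^ (2 * n) *
      Nat.card (OG (QP n F)) := by
  have hx : (Pi.single (Sum.inl 0) 1 : Fin (n + 1) ⊕ Fin (n + 1) → F) ≠ 0 := by simp
  have h0 : QP (n + 1) F (Pi.single (Sum.inl 0) 1) = 0 := QH_inl _ _
  rw [card_OG_sing ND_QH hx h0, card_ptw_TS 1 n (TS.span_singleton h0)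
    (finrank_span_singleton hx) (iso_QH_congr (finCongr (add_comm 1 n))), cnt_QP_zero]
  simp [mul_assoc]

lemma card_OG_QP_zero : Nat.card (OG (QP 0 F)) = 1 := by
  have : Unique (OG (QP 0 F)) := ⟨⟨1⟩, fun g => OG.ext' fun x => Subsingleton.elim _ _⟩
  exact Nat.card_unique

theorem card_OG_QP (n : ℕ) : Nat.card (OG (QP (n + 1) F)) =
    cnt (QP (n + 1) F) 1 * (2 * CfsgH1.ordSp (Fintype.card F) n) := by
  rw [cnt_QP_one']
  induction n with
  | zero => rw [card_OG_QP_succ, card_OG_QP_zero]; simp [CfsgH1.ordSp]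
  | succ n ih =>
    rw [card_OG_QP_succ, ih, CfsgH1.ordSp_succ]
    have h1 := Nat.one_le_pow (n + 1) _ (Fintype.card_pos (α := F))
    have h2 := Nat.one_le_pow (2 * n + 2) _ (Fintype.card_pos (α := F))
    zify [h1, h2]
    ring

theorem card_ptw_nonsing {U : Submodule F V} (hU : TS Q U) {k n : ℕ} (hk : finrank F U = k)
    (h : Iso (QP (k + (n + 1)) F) Q) {w : V} (hw : w ∈ perp Q U) (hw1 : Q w = 1) :
    Nat.card (ptw Q (U ⊔ F ∙ w)) * Fintype.card F ^ k =
      Fintype.card F ^ (2 * (n + 1) * k + k * (k - 1) / 2) *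
        (2 * CfsgH1.ordSp (Fintype.card F) n) := by
  have hQ := h.nd ND_QH
  have h1 := card_ptw_step hQ U (x := w) fun h => one_ne_zero (hw1.symm.trans (hU w h))
  have h2 : Nat.card {y // y ∉ U ∧ Q y = Q w ∧ ∀ u ∈ U, polar Q u y = polar Q u w} =
      Nat.card {y // y ∈ perp Q U ∧ Q y = 1} := Nat.card_congr (Equiv.subtypeEquivRight fun y =>
    ⟨fun h => ⟨mem_perp.2 fun u hu => (h.2.2 u hu).trans (mem_perp.1 hw u hu), h.2.1.trans hw1⟩,
      fun h => ⟨fun h' => one_ne_zero (h.2.symm.trans (hU y h')), h.2.trans hw1.symm,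
        fun u hu => (mem_perp.1 h.1 u hu).trans (mem_perp.1 hw u hu).symm⟩⟩)
  rw [h2, card_perp_value hQ hU hk h, card_ptw_TS k (n + 1) hU hk h, card_OG_QP] at h1
  have h3 : 0 < cnt (QP (n + 1) F) 1 := by
    rw [cnt_QP_one']
    exact Nat.mul_pos (pow_pos Fintype.card_pos _)
      (Nat.sub_pos_of_lt (Nat.one_lt_pow (by omega) Fintype.one_lt_card))
  refine Nat.eq_of_mul_eq_mul_left h3 ?_
  linarith

end CfsgH8
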