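import Cfsg.Agent.H8.MatAut2

set_option autoImplicit false

namespace CfsgH8

open QuadraticMap Module DihedralGroup

/-! ### abstract group theory -/

section abstract

lemma exists_extend {G D : Type*} [Group G] [Group D] (K N : Subgroup G) (f₀ : G → D)
    (hf₀ : ∀ x ∈ N, ∀ y ∈ N, f₀ (x * y) = f₀ x * f₀ y) (g : G) (hg : g ∉ N)
    (hK : ∀ x ∈ K, x ∈ N ∨ x * g⁻¹ ∈ N) (d : D)
    (hc : ∀ n ∈ N, g * n * g⁻¹ ∈ N ∧ f₀ (g * n * g⁻¹) = d * f₀ n * d⁻¹)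
    (hs : g * g ∈ N ∧ f₀ (g * g) = d * d) :
    ∃ π : K →* D, (∀ x : K, x.1 ∈ N → π x = f₀ x) ∧
      ∀ x : K, x.1 * g⁻¹ ∈ N → π x = f₀ (x * g⁻¹) * d := by
  classical
  have h1 : ∀ x, x * g⁻¹ ∈ N → x ∉ N := fun x hx hx' => hg (by
    simpa using N.mul_mem (N.inv_mem hx) hx')
  refine ⟨MonoidHom.mk' (fun x => if x.1 ∈ N then f₀ x else f₀ (x * g⁻¹) * d) ?_,
    fun x hx => if_pos hx, fun x hx => if_neg (h1 _ hx)⟩
  rintro ⟨x, hx⟩ ⟨y, hy⟩
  simp only [Subgroup.coe_mul]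
  rcases hK x hx with hx | hx <;> rcases hK y hy with hy | hy
  · rw [if_pos hx, if_pos hy, if_pos (N.mul_mem hx hy), hf₀ x hx y hy]
  · have := N.mul_mem hx hy
    rw [if_pos hx, if_neg (h1 _ hy), if_neg (h1 _ (by rwa [mul_assoc])), mul_assoc, hf₀ _ hx _ hy,
      mul_assoc]
  · have e : x * y * g⁻¹ = (x * g⁻¹) * (g * y * g⁻¹) := by group
    rw [if_neg (h1 _ hx), if_pos hy, if_neg (h1 _ (e ▸ N.mul_mem hx (hc y hy).1)), e,
      hf₀ _ hx _ (hc y hy).1, (hc y hy).2]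
    group
  · have e : x * y = (x * g⁻¹) * ((g * (y * g⁻¹) * g⁻¹) * (g * g)) := by group
    have h2 := N.mul_mem (hc _ hy).1 hs.1
    rw [if_neg (h1 _ hx), if_neg (h1 _ hy), if_pos (e ▸ N.mul_mem hx h2), e, hf₀ _ hx _ h2,
      hf₀ _ (hc _ hy).1 _ hs.1, (hc _ hy).2, hs.2]
    group

lemma abstract_prod {R : Type*} [Group R] (D : Subgroup R) (t : R) (N : ℕ)
    (hc : ∀ d ∈ D, d * t = t * d) (hs : ∀ x, ∃ i : ℕ, x * (t ^ i)⁻¹ ∈ D) (hN : t ^ N = 1)
    (hi : ∀ i : ℕ, t ^ i ∈ D → N ∣ i) (hN0 : N ≠ 0) :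
    Nonempty (R ≃* D × Multiplicative (ZMod N)) := by
  have : NeZero N := ⟨hN0⟩
  have key : ∀ i : ℕ, t ^ ((i : ZMod N).val) = t ^ i := fun i => by
    rw [ZMod.val_natCast]
    conv_rhs => rw [← Nat.mod_add_div i N, pow_add, pow_mul, hN, one_pow, mul_one]
  have hc' : ∀ d : D, ∀ i : ℕ, t ^ i * d = d * t ^ i := fun d i =>
    ((show Commute (d : R) t from hc d d.2).pow_right i).eq.symm
  let φ : D × Multiplicative (ZMod N) →* R := MonoidHom.mk'
    (fun x => x.1 * t ^ (Multiplicative.toAdd x.2).val) (by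
      rintro ⟨d, i⟩ ⟨e, j⟩
      obtain ⟨i, rfl⟩ := Multiplicative.ofAdd.surjective i
      obtain ⟨j, rfl⟩ := Multiplicative.ofAdd.surjective j
      obtain ⟨i, rfl⟩ := ZMod.natCast_zmod_surjective i
      obtain ⟨j, rfl⟩ := ZMod.natCast_zmod_surjective j
      simp only [Prod.mk_mul_mk, toAdd_mul, toAdd_ofAdd, Subgroup.coe_mul]
      rw [← Nat.cast_add, key, key, key, pow_add, mul_assoc, mul_assoc, ← mul_assoc (t ^ i), hc',
        mul_assoc])
  refine ⟨(MulEquiv.ofBijective φ ⟨?_, fun x => ?_⟩).symm⟩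
  · rw [injective_iff_map_eq_one]
    rintro ⟨d, i⟩ h
    change (d : R) * t ^ (Multiplicative.toAdd i).val = 1 at h
    have h1 : t ^ (Multiplicative.toAdd i).val ∈ D := by
      rw [eq_inv_of_mul_eq_one_right h]; exact D.inv_mem d.2
    have h2 : Multiplicative.toAdd i = 0 := by
      rw [← ZMod.val_eq_zero]
      exact Nat.eq_zero_of_dvd_of_lt (hi _ h1) (ZMod.val_lt _)
    rw [h2, ZMod.val_zero, pow_zero, mul_one] at h
    exact Prod.ext (Subtype.ext h) h2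
  · obtain ⟨i, hi⟩ := hs x
    refine ⟨(⟨_, hi⟩, Multiplicative.ofAdd (i : ZMod N)), ?_⟩
    change x * (t ^ i)⁻¹ * t ^ ((i : ZMod N).val) = x
    rw [key, inv_mul_cancel_right]

/-- signs as `ZMod 2` -/
def sgnZ (a : ℤˣ) : ZMod 2 := if a = 1 then 0 else 1

end abstract

variable {F V : Type*} [Field F] [AddCommGroup V] [Module F V] {Q : QuadraticForm F V}

/-- `π` presents the quotient of `K` by the subgroup `L`. -/
def Pres {K : Subgroup (Gam Q)} {C : Type*} [Group C] (π : K →* C) (L : Subgroup (Gam Q)) : Prop :=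
  Function.Surjective π ∧ ∀ γ : K, π γ = 1 ↔ γ.1 ∈ L

lemma Pres.restrict {K K' L : Subgroup (Gam Q)} {C C' : Type*} [Group C] [Group C'] {π : K →* C}
    (h : Pres π L) (hK : K' ≤ K) (P : C → Prop) (hP : ∀ γ : K, γ.1 ∈ K' ↔ P (π γ)) (f : C → C')
    (hf : ∀ x y, P x → P y → f (x * y) = f x * f y) (hs : ∀ c, ∃ x, P x ∧ f x = c)
    (hk : ∀ x, P x → (f x = 1 ↔ x = 1)) :
    ∃ π' : K' →* C', Pres π' L ∧ ∀ γ : K', π' γ = f (π ⟨γ, hK γ.2⟩) := by
  refine ⟨MonoidHom.mk' (fun γ => f (π ⟨γ, hK γ.2⟩)) fun x y => ?_, ⟨fun c => ?_, fun γ => ?_⟩,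
    fun _ => rfl⟩
  · rw [← hf _ _ ((hP ⟨x, _⟩).1 x.2) ((hP ⟨y, _⟩).1 y.2), ← _root_.map_mul]; rfl
  · obtain ⟨x, hx, rfl⟩ := hs c
    obtain ⟨γ, rfl⟩ := h.1 x
    exact ⟨⟨γ, (hP γ).2 hx⟩, rfl⟩
  · exact (hk _ ((hP ⟨γ, _⟩).1 γ.2)).trans (h.2 _)

lemma Pres.equiv {K : Subgroup (Gam Q)} {C : Type*} [Group C] {π : K →* C}
    (h : Pres π (ZS (Om Q))) : Nonempty (K.map (rho Q) ≃* C) := by
  obtain ⟨φ, h1, h2⟩ := exists_hom_map (rho Q) K π h.1 ⊥ fun γ => by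
    rw [h.2, Subgroup.mem_bot]; exact (QuotientGroup.eq_one_iff _).symm
  exact ⟨MulEquiv.ofBijective φ ⟨by rw [← MonoidHom.ker_eq_bot_iff, h2]; simp, h1⟩⟩

lemma Pres.rho_eq {K : Subgroup (Gam Q)} {C : Type*} [Group C] {π : K →* C}
    (h : Pres π (ZS (Om Q))) {γ δ : K} (e : π γ = π δ) : rho Q γ = rho Q δ :=
  QuotientGroup.eq.2 ((h.2 (γ⁻¹ * δ)).1 (by simp [e]))

lemma Pres.prod {K : Subgroup (Gam Q)} {C : Type*} [Group C] {π : K →* C}
    (h : Pres π (ZS (Om Q))) (hK : ZS (Om Q) ≤ K) (T : Gam Q) (N : ℕ) (hN0 : N ≠ 0)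
    (hc : ∀ γ : K, ∃ h : T * γ * T⁻¹ ∈ K, π ⟨_, h⟩ = π γ) (hs : ∀ γ, ∃ i : ℕ, γ * (T ^ i)⁻¹ ∈ K)
    (hN : T ^ N ∈ ZS (Om Q)) (hi : ∀ i : ℕ, T ^ i ∈ K → N ∣ i) :
    Nonempty (Gam Q ⧸ ZS (Om Q) ≃* C × Multiplicative (ZMod N)) := by
  obtain ⟨e⟩ := h.equiv
  obtain ⟨e'⟩ := abstract_prod (K.map (rho Q)) (rho Q T) N (by
      rintro _ ⟨γ, hγ, rfl⟩
      obtain ⟨h1, h2⟩ := hc ⟨γ, hγ⟩
      have := h.rho_eq h2
      simp only [_root_.map_mul, map_inv] at this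
      exact (mul_inv_eq_iff_eq_mul.1 this).symm)
    (fun x => by
      obtain ⟨γ, rfl⟩ := QuotientGroup.mk'_surjective _ x
      obtain ⟨i, hi⟩ := hs γ
      exact ⟨i, _, hi, by simp⟩)
    (by rw [← map_pow]; exact (QuotientGroup.eq_one_iff _).2 hN)
    (by
      rintro i ⟨γ, hγ, e⟩
      rw [← map_pow] at e
      have := K.mul_mem hγ (hK (QuotientGroup.eq.1 e))
      exact hi i (by simpa using this)) hN0
  exact ⟨e'.trans (e.prodCongr (MulEquiv.refl _))⟩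

section mat
variable {ι : Type} [Fintype ι] [DecidableEq ι] {Q : QuadraticForm F (ι → F)} {q : (ι → F) → F}
  [Finite F] [Big Q]

lemma Pres.hom (h : ⇑Q = q) {K L : Subgroup (Gam Q)} {C : Type*} [Group C] {π : K →* C}
    (hπ : Pres π L) (hL : ∀ a, scal Q a ∈ L) :
    ∃ φ : K.map (PhiM h) →* C, Function.Surjective φ ∧
      φ.ker = (L.map (PhiM h)).subgroupOf (K.map (PhiM h)) :=
  exists_hom_map _ K π hπ.1 _ fun γ => by rw [PhiM_mem_map_iff h hL, hπ.2]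

lemma Pres.relIndex (h : ⇑Q = q) {K L : Subgroup (Gam Q)} {C : Type*} [Group C] {π : K →* C}
    (hπ : Pres π L) (hL : ∀ a, scal Q a ∈ L) :
    (L.map (PhiM h)).relIndex (K.map (PhiM h)) = Nat.card C := by
  obtain ⟨φ, h1, h2⟩ := hπ.hom h hL
  rw [Subgroup.relIndex, ← h2, Subgroup.index_ker, MonoidHom.range_eq_top.2 h1, Subgroup.card_top]

lemma Pres.split (h : ⇑Q = q) {K : Subgroup (Gam Q)} {C : Type*} [Group C] {π : K →* C}
    (hπ : Pres π (ZS (Om Q))) (hK : ZS (Om Q) ≤ K) (x : MulAut (Cfsg.POmega F q)) (M : Subgroup C)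
    (hM : ∀ c, c ∈ M ↔ ∃ γ : K, PhiM h γ * x = x * PhiM h γ ∧ π γ = c) :
    Cfsg.splitClassCount (K.map (PhiM h)) (Cfsg.Inn (Cfsg.POmega F q)) x = M.index := by
  have e1 : K.map (PhiM h) = ((PhiM h).comp K.subtype).range := by
    rw [MonoidHom.range_comp, Subgroup.range_subtype]
  rw [e1, CfsgH7.split_abstract ((PhiM h).comp K.subtype) π hπ.1 _
    (by rw [← e1, Inn_eq h]; exact Subgroup.map_mono hK) ⊥
    (fun γ => by rw [Subgroup.mem_bot, hπ.2, ← PhiM_mem_Inn_iff h]; rfl)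
    ((Subgroup.centralizer {x}).comap ((PhiM h).comp K.subtype)) x
    (by rw [Subgroup.map_comap_eq]), bot_sup_eq]
  congr 1
  ext c
  rw [hM]
  simp only [Subgroup.mem_map, Subgroup.mem_comap, Subgroup.mem_centralizer_singleton_iff]
  rfl

end mat

/-! ### the invariants -/

/-- the square class of the multiplier -/
noncomputable def muH [Finite F] (Q : QuadraticForm F V) : GO Q →* ℤˣ where
  toFun γ := chi (γ.1.c : F)
  map_one' := by simp
  map_mul' γ δ := by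
    rw [Subgroup.coe_mul, Gam.mul_c_of_lin γ.2, Units.val_mul, chi_mul γ.1.c.ne_zero δ.1.c.ne_zero]

lemma muH_apply [Finite F] (γ : GO Q) : muH Q γ = chi (γ.1.c : F) := rfl

lemma muH_eq_one_iff [Finite F] (γ : GO Q) : muH Q γ = 1 ↔ γ.1 ∈ ZS (⊤ : Subgroup (OG Q)) := by
  rw [mem_ZS_top_iff, muH_apply, chi_eq_one_iff]
  exact (and_iff_right γ.2).symm

lemma conj_c (T : Gam Q) {γ : Gam Q} (h : γ.σ = 1) : ((T * γ * T⁻¹).c : F) = T.σ γ.c := by
  rw [← gam_eq_conj, SIso.gam_c T h]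

lemma conj_mem_GO (T : Gam Q) (γ : GO Q) : T * γ * T⁻¹ ∈ GO Q := GO_normal.conj_mem _ γ.2 T

lemma muH_conj [Finite F] (T : Gam Q) (γ : GO Q) : muH Q ⟨_, conj_mem_GO T γ⟩ = muH Q γ := by
  rw [muH_apply, conj_c T γ.2, chi_map, muH_apply]

lemma scal_mul_mem_ZS_iff {S : Subgroup (OG Q)} (a : Fˣ) {γ : Gam Q} :
    scal Q a * γ ∈ ZS S ↔ γ ∈ ZS S := (ZS S).mul_mem_cancel_left (scal_mem_ZS S a)

section big
variable [Finite F] [FiniteDimensional F V] [hB : Big Q]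

lemma exists_refl_chi (ε : ℤˣ) (h2 : (2 : F) ≠ 0) : ∃ v, Q v ≠ 0 ∧ chi (Q v) = ε := by
  have hn := hB.five
  rcases Int.units_eq_one_or ε with rfl | rfl
  · obtain ⟨v, hv⟩ := hB.nd.represents (by omega) 1
    exact ⟨v, by simp [hv], by simp [hv]⟩
  · obtain ⟨a, ha0, ha⟩ := exists_nonsq h2
    obtain ⟨v, hv⟩ := hB.nd.represents (by omega) a
    exact ⟨v, by simp [hv, ha0], by simp [hv, ha]⟩

lemma exists_dick_spin (h2 : (2 : F) ≠ 0) (d s : ℤˣ) : ∃ g : OG Q, dickF g = d ∧ spinF g = s := by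
  obtain ⟨v, hv, hv'⟩ := exists_refl_chi (Q := Q) s h2
  rcases Int.units_eq_one_or d with rfl | rfl
  · obtain ⟨w, hw, hw'⟩ := exists_refl_chi (Q := Q) 1 h2
    exact ⟨refl Q w * refl Q v, by rw [dickF_refl_mul hB.nd _ hw, dickF_refl hB.nd hv, neg_neg],
      by rw [spinF_mul hB.nd Big.good, spinF_refl hB.nd hv, spinF_refl hB.nd hw, hv', hw', one_mul]⟩
  · exact ⟨refl Q v, dickF_refl hB.nd hv, by rw [spinF_refl hB.nd hv, hv']⟩

lemma exists_g0 {k : ℕ} (hn : finrank F V = 2 * k) (l : Fˣ) :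
    ∃ g : Gam Q, g.σ = 1 ∧ g.c = l ∧ delta g = 1 ∧ ∃ h : OG Q, g * g = scal Q l * ofOG Q h ∧
      dickF h = 1 ∧ spinF h = chi (l : F) ^ k := by
  have h5 := hB.five
  have hev : Even (finrank F V) := ⟨k, by omega⟩
  obtain ⟨k, rfl⟩ : ∃ j, k = j + 1 := ⟨k - 1, by omega⟩
  obtain ⟨g, h1, h2, h3, vs, h4, h5, h6, h7⟩ := exists_basic l k hB.nd hn
  by_cases h : (2 : F) = 0
  · obtain ⟨a, ha⟩ := isSquare_of_two_eq_zero h (l : F)
    have ha0 : a ≠ 0 := by rintro rfl; exact l.ne_zero (by rw [ha, mul_zero])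
    have e : l = Units.mk0 a ha0 * Units.mk0 a ha0 := Units.ext ha
    refine ⟨scal Q (Units.mk0 a ha0), rfl, by rw [scal_c, pow_two, ← e], delta_scal hB.nd hev _, 1,
      by rw [← _root_.map_mul, ← e]; simp, dickF_one, ?_⟩
    rw [chi_eq_one_iff.2 ⟨a, ha⟩, one_pow, spinF_one]
  · refine ⟨g, h1, h2, delta_eq_of_gdet hB.nd h hn h1 (by simp [h3, h2]), _, h7, ?_, ?_⟩
    · rw [dickF_eq_one_iff, even_movS_list hB.nd _ h4]; exact h5
    · rw [spinF_list hB.nd _ h4, h6, chi_pow l.ne_zero]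

lemma mem_ZS_dick_iff (hn : Even (finrank F V)) (γ : GO Q) :
    γ.1 ∈ ZS (dick hB.nd Big.good).ker ↔ delta γ.1 = 1 ∧ muH Q γ = 1 := by
  rw [muH_eq_one_iff]
  constructor
  · rintro ⟨a, g, hg, e⟩
    exact ⟨by rw [e, delta_scal_mul_ofOG hB.nd hn]; exact hg, a, g, trivial, e⟩
  · rintro ⟨h1, a, g, -, e⟩
    exact ⟨a, g, by rwa [e, delta_scal_mul_ofOG hB.nd hn] at h1, e⟩

/-- the quotient of the similarity group by `Z SO`. -/
theorem pres_dm (h2 : (2 : F) ≠ 0) (hn : Even (finrank F V)) :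
    Pres ((deltaH hB.nd Big.good hn).prod (muH Q)) (ZS (dick hB.nd Big.good).ker) := by
  refine ⟨fun ⟨d, m⟩ => ?_, fun γ => ?_⟩
  · obtain ⟨k, hk⟩ := hn
    obtain ⟨a, ha0, ha⟩ : ∃ a : F, a ≠ 0 ∧ chi a = m := by
      obtain ⟨v, hv, hv'⟩ := exists_refl_chi (Q := Q) m h2
      exact ⟨_, hv, hv'⟩
    obtain ⟨g, g1, g2, g3, -⟩ := exists_g0 (Q := Q) (k := k) (by omega) (Units.mk0 a ha0)
    obtain ⟨h, h1, -⟩ := exists_dick_spin (Q := Q) h2 d 1
    refine ⟨⟨g, g1⟩ * ⟨ofOG Q h, rfl⟩, ?_⟩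
    rw [_root_.map_mul]
    refine Prod.ext ?_ ?_
    · change delta g * delta (ofOG Q h) = d
      rw [g3, delta_ofOG hB.nd ⟨k, hk⟩, h1, one_mul]
    · change chi (g.c : F) * chi ((ofOG Q h).c : F) = m
      simp [g2, ha]
  · rw [mem_ZS_dick_iff hn, Prod.ext_iff]; rfl

lemma ZS_dick_eq (h2 : (2 : F) ≠ 0) (hn : Even (finrank F V)) (hd : discC Q = -1) :
    ZS (dick hB.nd Big.good).ker = ZS (Om Q) := by
  refine le_antisymm ?_ (ZS_mono fun g hg => ((mem_commutator_iff hB.nd Big.good g).1 hg).1)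
  rintro _ ⟨a, g, hg, rfl⟩
  rw [scal_mul_mem_ZS_iff, ofOG_mem_ZS_iff, mem_commutator_iff hB.nd Big.good,
    mem_commutator_iff hB.nd Big.good, dickF_mul hB.nd Big.good, spinF_mul hB.nd Big.good,
    dickF_negOne h2, spinF_negOne hB.nd h2, hd, show dickF g = 1 from hg, hn.neg_one_pow]
  obtain ⟨k, hk⟩ := hn
  rw [hk, pow_add, Int.units_mul_self]
  rcases Int.units_eq_one_or (spinF g) with h | h <;> simp [h]

/-- the quotient of the similarity group in characteristic two. -/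
theorem pres_two (h2 : (2 : F) = 0) (hn : Even (finrank F V)) :
    Pres (deltaH hB.nd Big.good hn) (ZS (Om Q)) := by
  refine ⟨fun d => ?_, fun ⟨γ, hγ⟩ => ?_⟩
  · rcases Int.units_eq_one_or d with rfl | rfl
    · exact ⟨1, _root_.map_one _⟩
    · have := Big.nontrivial Q
      obtain ⟨v, hv⟩ := hB.nd.exists_nonsing
      exact ⟨⟨ofOG Q (refl Q v), rfl⟩, (delta_ofOG hB.nd hn _).trans (dickF_refl hB.nd hv)⟩
  · obtain ⟨a, g, rfl⟩ := exists_scal_mul_ofOG hγ (isSquare_of_two_eq_zero h2 _)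
    change delta (scal Q a * ofOG Q g) = 1 ↔ _
    rw [delta_scal_mul_ofOG hB.nd hn, scal_mul_mem_ZS_iff, ofOG_mem_ZS_iff, negOne_eq_one h2,
      one_mul, or_self, mem_commutator_iff_two hB.nd Big.good h2]

lemma GOp_eq_two (h2 : (2 : F) = 0) (hn : Even (finrank F V)) :
    GOp hB.nd Big.good hn = ZS (Om Q) := by
  ext γ
  constructor
  · rintro ⟨h1, h3⟩
    exact ((pres_two h2 hn).2 ⟨γ, h1⟩).1 h3
  · intro h
    exact ⟨ZS_le_GO _ h, ((pres_two h2 hn).2 ⟨γ, ZS_le_GO _ h⟩).2 h⟩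

lemma ZOm_le_GOp (hn : Even (finrank F V)) : ZS (Om Q) ≤ GOp hB.nd Big.good hn := by
  rintro _ ⟨a, g, hg, rfl⟩
  exact ⟨rfl, by
    rw [delta_scal_mul_ofOG hB.nd hn]; exact ((mem_commutator_iff hB.nd Big.good g).1 hg).1⟩

omit hB in
lemma exists_SO_of_odd (hQ : ND Q) (h2 : (2 : F) ≠ 0) (hn : Odd (finrank F V)) {γ : Gam Q}
    (h : γ.σ = 1) : ∃ a g, dickF g = 1 ∧ γ = scal Q a * ofOG Q g := by
  have h1 := congrArg chi (gdet_sq hQ h)
  rw [chi_sq, chi_pow γ.c.ne_zero] at h1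
  have h3 : chi (γ.c : F) = 1 := by
    rcases Int.units_eq_one_or (chi (γ.c : F)) with h | h
    · exact h
    · rw [h, hn.neg_one_pow] at h1; exact absurd h1 (by decide)
  obtain ⟨a, g, rfl⟩ := exists_scal_mul_ofOG h (chi_eq_one_iff.1 h3)
  rcases Int.units_eq_one_or (dickF g) with hg | hg
  · exact ⟨a, g, hg, rfl⟩
  · refine ⟨a * -1, negOne Q * g, ?_, ?_⟩
    · rw [dickF_mul hQ (good_of_two_ne h2), dickF_negOne h2, hg, hn.neg_one_pow]; rfl
    · rw [_root_.map_mul, ← ofOG_negOne, mul_assoc, ← _root_.map_mul, ← mul_assoc, negOne_mul_self,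
        one_mul]

/-- the quotient of the similarity group in odd dimension. -/
theorem pres_odd (h2 : (2 : F) ≠ 0) (hn : Odd (finrank F V)) :
    ∃ π : GO Q →* ℤˣ, Pres π (ZS (Om Q)) ∧
      ∀ a g, dickF g = 1 → π ⟨scal Q a * ofOG Q g, rfl⟩ = spinF g := by
  choose a g h1 h3 using fun γ : GO Q => exists_SO_of_odd hB.nd h2 hn γ.2
  have key : ∀ (γ : GO Q) a' g', dickF g' = 1 → γ.1 = scal Q a' * ofOG Q g' → g γ = g' := by
    intro γ a' g' h4 h5
    rcases scal_mul_ofOG_eq ((h3 γ).symm.trans h5) with h | h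
    · exact h
    · have := h1 γ
      rw [h, dickF_mul hB.nd Big.good, dickF_negOne h2, h4, hn.neg_one_pow] at this
      exact absurd this (by decide)
  refine ⟨MonoidHom.mk' (fun γ => spinF (g γ)) fun γ δ => ?_, ⟨fun s => ?_, fun γ => ?_⟩,
    fun a' g' h => congrArg spinF (key _ a' g' h rfl)⟩
  · rw [key (γ * δ) (a γ * a δ) (g γ * g δ) (by rw [dickF_mul hB.nd Big.good, h1, h1, one_mul]),
      spinF_mul hB.nd Big.good]
    rw [Subgroup.coe_mul, h3 γ, h3 δ, _root_.map_mul, _root_.map_mul, mul_assoc,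
      ← mul_assoc (ofOG Q _), scal_comm rfl]
    simp only [mul_assoc]
  · obtain ⟨h, e1, e2⟩ := exists_dick_spin (Q := Q) h2 1 s
    exact ⟨⟨ofOG Q h, rfl⟩, (congrArg spinF (key _ 1 h e1 (by simp))).trans e2⟩
  · change spinF (g γ) = 1 ↔ _
    conv_rhs => rw [h3 γ]
    rw [scal_mul_mem_ZS_iff, ofOG_mem_ZS_iff, mem_commutator_iff hB.nd Big.good,
      mem_commutator_iff hB.nd Big.good, dickF_mul hB.nd Big.good, dickF_negOne h2, h1,
      hn.neg_one_pow]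
    simp

/-- the element of the dihedral group attached to a pair of invariants -/
def dsp (d s : ℤˣ) : DihedralGroup 4 :=
  (if d = 1 then 1 else sr 0) * (if s = 1 then 1 else r 2)

/-- the multiplier sign on the dihedral group -/
def dmu : DihedralGroup 4 → ℤˣ
  | r i => if i = 0 ∨ i = 2 then 1 else -1
  | sr i => if i = 0 ∨ i = 2 then 1 else -1

/-- the class sign on the dihedral group -/
def ddel (e : ℤˣ) : DihedralGroup 4 → ℤˣ
  | r i => if i = 0 ∨ i = 2 then 1 else e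
  | sr i => if i = 0 ∨ i = 2 then -1 else -e

/-- the quotient of the similarity group when `-1 ∈ Ω`. -/
theorem pres_D8 (h2 : (2 : F) ≠ 0) {k : ℕ} (hn : finrank F V = 2 * k) (hd : discC Q = 1) :
    ∃ π : GO Q →* DihedralGroup 4, Pres π (ZS (Om Q)) ∧
      (∀ a g, π ⟨scal Q a * ofOG Q g, rfl⟩ = dsp (dickF g) (spinF g)) ∧
      (∀ γ, delta γ.1 = ddel (-(-1) ^ k) (π γ)) ∧ ∀ γ, muH Q γ = dmu (π γ) := by
  classical
  have hev : Even (finrank F V) := ⟨k, by omega⟩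
  have hQ := hB.nd
  have hG : Good Q := Big.good
  obtain ⟨l, hl0, hl⟩ := exists_nonsq h2
  obtain ⟨g0, g1, g2, g3, h0, g4, g5, g6⟩ := exists_g0 (Q := Q) hn (Units.mk0 l hl0)
  let f₀ : Gam Q → DihedralGroup 4 := fun γ =>
    if h : γ ∈ ZS (⊤ : Subgroup (OG Q)) then
      dsp (dickF h.choose_spec.choose) (spinF h.choose_spec.choose) else 1
  have hneg := (mem_commutator_iff hQ hG _).1 ((negOne_mem_commutator_iff hQ h2).2 ⟨hev, hd⟩)
  have hf₀ : ∀ a g, f₀ (scal Q a * ofOG Q g) = dsp (dickF g) (spinF g) := fun a g => by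
    have h : scal Q a * ofOG Q g ∈ ZS (⊤ : Subgroup (OG Q)) := ⟨a, g, trivial, rfl⟩
    simp only [f₀, dif_pos h]
    rcases scal_mul_ofOG_eq h.choose_spec.choose_spec.2 with e | e
    · rw [← e]
    · conv_rhs => rw [e, dickF_mul hQ hG, spinF_mul hQ hG, hneg.1, hneg.2, one_mul, one_mul]
  have dsp_mul : ∀ a b c d, dsp (a * c) (b * d) = dsp a b * dsp c d := by decide
  let d0 : DihedralGroup 4 := if (-1 : ℤˣ) ^ k = 1 then sr 1 else r 1
  have hg0 : chi (g0.c : F) = -1 := by rw [g2]; exact hl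
  have hmem : ∀ γ : GO Q, γ.1 ∈ ZS (⊤ : Subgroup (OG Q)) ∨
      γ.1 * g0⁻¹ ∈ ZS (⊤ : Subgroup (OG Q)) := fun γ => by
    rw [← muH_eq_one_iff]
    refine (Int.units_eq_one_or _).imp_right fun h => ?_
    exact (muH_eq_one_iff (γ * (⟨g0, g1⟩ : GO Q)⁻¹)).1 (by
      rw [_root_.map_mul, map_inv, h, muH_apply, hg0]; rfl)
  obtain ⟨π, π1, π2⟩ := exists_extend (GO Q) (ZS ⊤) f₀ (by
      rintro _ ⟨a, g, -, rfl⟩ _ ⟨b, h, -, rfl⟩
      rw [hf₀, hf₀, ← dsp_mul, ← dickF_mul hQ hG, ← spinF_mul hQ hG, ← hf₀ (a * b),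
        _root_.map_mul, _root_.map_mul, mul_assoc, ← mul_assoc (ofOG Q g), scal_comm rfl]
      simp only [mul_assoc]) g0
    (fun h => by rw [← muH_eq_one_iff ⟨g0, g1⟩, muH_apply, hg0] at h; exact absurd h (by decide))
    (fun x hx => hmem ⟨x, hx⟩) d0
    (by
      rintro _ ⟨a, g, -, rfl⟩
      have e : g0 * (scal Q a * ofOG Q g) * g0⁻¹ = scal Q a * ofOG Q (g0.og g) := by
        rw [← conj_ofOG, ← mul_assoc, scal_comm g1]; group
      rw [e, hf₀, hf₀, SIso.dickF_og, SIso.spinF_og g0 hQ hG, hg0]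
      refine ⟨⟨a, _, trivial, rfl⟩, ?_⟩
      simp only [d0]
      generalize dickF g = x, spinF g = y, (-1 : ℤˣ) ^ k = z
      revert x y z; decide)
    (by
      rw [g4, hf₀, g5, g6]
      refine ⟨⟨_, _, trivial, rfl⟩, ?_⟩
      simp only [d0, Units.val_mk0, hl]
      generalize (-1 : ℤˣ) ^ k = z
      revert z; decide)
  have π3 : ∀ a g, π ⟨scal Q a * ofOG Q g, rfl⟩ = dsp (dickF g) (spinF g) := fun a g => by
    rw [π1 _ ⟨a, g, trivial, rfl⟩, hf₀]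
  have cases : ∀ γ : GO Q, ∃ a g, (γ.1 = scal Q a * ofOG Q g ∧ π γ = dsp (dickF g) (spinF g)) ∨
      (γ.1 = scal Q a * ofOG Q g * g0 ∧ π γ = dsp (dickF g) (spinF g) * d0) := fun γ => by
    rcases hmem γ with h | h
    · obtain ⟨a, g, -, e⟩ := id h
      exact ⟨a, g, Or.inl ⟨e, by rw [π1 γ h, e, hf₀]⟩⟩
    · obtain ⟨a, g, -, e⟩ := id h
      exact ⟨a, g, Or.inr ⟨by rw [← e]; group, by rw [π2 γ h, e, hf₀]⟩⟩
  have hmu : ∀ γ, muH Q γ = dmu (π γ) := fun γ => by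
    obtain ⟨a, g, ⟨e1, e2⟩ | ⟨e1, e2⟩⟩ := cases γ
    · rw [e2, (muH_eq_one_iff γ).2 ⟨a, g, trivial, e1⟩]
      generalize dickF g = x, spinF g = y
      revert x y; decide
    · rw [e2, muH_apply, e1, Gam.mul_c_of_lin rfl, Gam.mul_c_of_lin rfl]
      simp only [scal_c, ofOG_c, mul_one, Units.val_mul, Units.val_pow_eq_pow_val,
        chi_sq_mul a.ne_zero, hg0, d0]
      generalize dickF g = x, spinF g = y, (-1 : ℤˣ) ^ k = z
      revert x y z; decide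
  refine ⟨π, ⟨fun x => ?_, fun γ => ?_⟩, π3, fun γ => ?_, hmu⟩
  · have : ∃ d s, x = dsp d s ∨ x = dsp d s * d0 := by
      simp only [d0]
      generalize (-1 : ℤˣ) ^ k = z
      revert x z; decide
    obtain ⟨d, s, h⟩ := this
    obtain ⟨g, rfl, rfl⟩ := exists_dick_spin (Q := Q) h2 d s
    rcases h with rfl | rfl
    · exact ⟨_, π3 1 g⟩
    · refine ⟨⟨scal Q 1 * ofOG Q g, rfl⟩ * ⟨g0, g1⟩, ?_⟩
      rw [_root_.map_mul, π3, π2 _ (by simp [one_mem])]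
      have := hf₀ 1 1
      simp only [_root_.map_one, mul_one, dickF_one, spinF_one] at this
      simp [this, dsp]
  · obtain ⟨a, g, ⟨e1, e2⟩ | ⟨e1, e2⟩⟩ := cases γ
    · rw [e1, e2, scal_mul_mem_ZS_iff, ofOG_mem_ZS_iff, mem_commutator_iff hQ hG,
        mem_commutator_iff hQ hG, dickF_mul hQ hG, spinF_mul hQ hG, hneg.1, hneg.2]
      generalize dickF g = x, spinF g = y
      revert x y; decide
    · refine iff_of_false ?_ fun h => ?_
      · rw [e2]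
        simp only [d0]
        generalize dickF g = x, spinF g = y, (-1 : ℤˣ) ^ k = z
        revert x y z; decide
      · have := (muH_eq_one_iff γ).2 (ZS_mono le_top h)
        rw [hmu, e2] at this
        revert this
        simp only [d0]
        generalize dickF g = x, spinF g = y, (-1 : ℤˣ) ^ k = z
        revert x y z; decide
  · obtain ⟨a, g, ⟨e1, e2⟩ | ⟨e1, e2⟩⟩ := cases γ
    · rw [e1, e2, delta_scal_mul_ofOG hQ hev]
      generalize dickF g = x, spinF g = y, (-1 : ℤˣ) ^ k = z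
      revert x y z; decide
    · rw [e1, e2, delta_mul hQ hG hev rfl g1, delta_scal_mul_ofOG hQ hev, g3]
      simp only [d0]
      generalize dickF g = x, spinF g = y, (-1 : ℤˣ) ^ k = z
      revert x y z; decide

lemma mem_GOp' (hn : Even (finrank F V)) (γ : GO Q) :
    γ.1 ∈ GOp hB.nd Big.good hn ↔ delta γ.1 = 1 := and_iff_right γ.2

lemma GOp_le_GO (hn : Even (finrank F V)) : GOp hB.nd Big.good hn ≤ GO Q := fun _ h => h.1

/-- `GO / Z SO` is a four-group. -/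
theorem pres_GO_SO (h2 : (2 : F) ≠ 0) (hn : Even (finrank F V)) :
    ∃ π : GO Q →* Multiplicative (ZMod 2 × ZMod 2), Pres π (ZS (dick hB.nd Big.good).ker) := by
  obtain ⟨π, h, -⟩ := (pres_dm (Q := Q) h2 hn).restrict le_rfl (fun _ => True) (fun γ => by simp)
    (fun x => Multiplicative.ofAdd (sgnZ x.1, sgnZ x.2)) (by decide) (by decide) (by decide)
  exact ⟨π, h⟩

theorem pres_SO_two (h2 : (2 : F) ≠ 0) (hn : Even (finrank F V)) (hd : discC Q = 1) :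
    ∃ π : ZS (dick hB.nd Big.good).ker →* Multiplicative (ZMod 2), Pres π (ZS (Om Q)) := by
  obtain ⟨k, hk⟩ := id hn
  obtain ⟨π, h, -, h3, h4⟩ := pres_D8 (k := k) h2 (by omega) hd
  obtain ⟨π', h', -⟩ := h.restrict (ZS_le_GO (dick hB.nd Big.good).ker) (fun x => x = 1 ∨ x = r 2)
    (fun γ => by
      rw [mem_ZS_dick_iff hn, h3, h4]
      generalize π γ = x, (-1 : ℤˣ) ^ k = z
      revert x z; decide)
    (fun x => if x = 1 then 1 else Multiplicative.ofAdd (1 : ZMod 2)) (by decide) (by decide)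
    (by decide)
  exact ⟨π', h'⟩

theorem pres_GOp_two (h2 : (2 : F) ≠ 0) (hn : Even (finrank F V)) (hd : discC Q = -1) :
    ∃ π : GOp hB.nd Big.good hn →* Multiplicative (ZMod 2), Pres π (ZS (Om Q)) ∧
      ∀ γ, π γ = Multiplicative.ofAdd (sgnZ (chi (γ.1.c : F))) := by
  have := pres_dm (Q := Q) h2 hn
  rw [ZS_dick_eq h2 hn hd] at this
  obtain ⟨π', h', h''⟩ := this.restrict (GOp_le_GO hn) (fun x => x.1 = 1) (mem_GOp' hn)
    (fun x => Multiplicative.ofAdd (sgnZ x.2)) (by decide) (by decide) (by decide)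
  exact ⟨π', h', h''⟩

theorem pres_GOp_four (h2 : (2 : F) ≠ 0) {k : ℕ} (hk : finrank F V = 2 * k) (ho : Odd k)
    (hn : Even (finrank F V)) (hd : discC Q = 1) :
    ∃ π : GOp hB.nd Big.good hn →* Multiplicative (ZMod 4), Pres π (ZS (Om Q)) := by
  obtain ⟨π, h, -, h3, -⟩ := pres_D8 h2 hk hd
  obtain ⟨π', h', -⟩ := h.restrict (GOp_le_GO hn) (fun x => ddel 1 x = 1)
    (fun γ => by rw [mem_GOp', h3, ho.neg_one_pow, neg_neg])
    (fun x => match x with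
      | r i => Multiplicative.ofAdd i
      | sr _ => 1) (by decide) (by decide) (by decide)
  exact ⟨π', h'⟩

theorem pres_GOp_klein (h2 : (2 : F) ≠ 0) {k : ℕ} (hk : finrank F V = 2 * k) (ho : Even k)
    (hn : Even (finrank F V)) (hd : discC Q = 1) :
    ∃ π : GOp hB.nd Big.good hn →* Multiplicative (ZMod 2 × ZMod 2), Pres π (ZS (Om Q)) := by
  obtain ⟨π, h, -, h3, -⟩ := pres_D8 h2 hk hd
  obtain ⟨π', h', -⟩ := h.restrict (GOp_le_GO hn) (fun x => ddel (-1) x = 1)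
    (fun γ => by rw [mem_GOp', h3, ho.neg_one_pow])
    (fun x => Multiplicative.ofAdd ((if x = 1 ∨ x = sr 1 then 0 else 1 : ZMod 2), sgnZ (dmu x)))
    (by decide) (by decide) (by decide)
  exact ⟨π', h'⟩

end big

lemma discC_QP_iff [Fintype F] (h2 : (2 : F) ≠ 0) (m : ℕ) :
    discC (QP m F) = 1 ↔ ¬ (Odd m ∧ Fintype.card F % 4 = 3) := by
  rw [discC_QH, Fintype.card_fin, chi_neg_one_pow_eq_one_iff h2]

lemma discC_QP_neg [Fintype F] (h2 : (2 : F) ≠ 0) {m : ℕ} (h : Odd m ∧ Fintype.card F % 4 = 3) :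
    discC (QP m F) = -1 :=
  (Int.units_eq_one_or _).resolve_left (by rw [discC_QP_iff h2]; exact not_not.2 h)

lemma discC_QM_iff [Fintype F] (h2 : (2 : F) ≠ 0) (m : ℕ) {a b : F} (hab : Aniso a b) :
    discC (QM m F a b) = 1 ↔ (Even m ∧ Fintype.card F % 4 = 3) := by
  rw [discC_QM h2 hab, ← Nat.not_odd_iff_even, ← Nat.odd_add_one, ← not_iff_not,
    ← chi_neg_one_pow_eq_one_iff h2]
  generalize chi (-1 : F) ^ (m + 1) = z
  revert z; decide

lemma discC_QM_neg [Fintype F] (h2 : (2 : F) ≠ 0) {m : ℕ} {a b : F} (hab : Aniso a b)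
    (h : ¬ (Even m ∧ Fintype.card F % 4 = 3)) : discC (QM m F a b) = -1 :=
  (Int.units_eq_one_or _).resolve_left (by rwa [discC_QM_iff h2 m hab])

end CfsgH8
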