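import Cfsg.Agent.H8.Semi2
import Cfsg.Agent.H8.Out

set_option autoImplicit false
set_option linter.unusedSectionVars false

namespace CfsgH8

open QuadraticMap Module

lemma isConjUnder_iff {Γ X : Type*} [Group Γ] [Group X] (Φ : Γ →* X) {K L : Subgroup Γ}
    (hKL : L ≤ K) {x : X} (h : ∀ γ ∈ K, ∃ δ, Φ δ * x = x * Φ δ ∧ γ * δ⁻¹ ∈ L) (y : X) :
    Cfsg.IsConjUnder (L.map Φ) x y ↔ Cfsg.IsConjUnder (K.map Φ) x y := by
  constructor
  · rintro ⟨_, ⟨γ, hγ, rfl⟩, rfl⟩
    exact ⟨_, ⟨γ, hKL hγ, rfl⟩, rfl⟩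
  · rintro ⟨_, ⟨γ, hγ, rfl⟩, rfl⟩
    obtain ⟨δ, h1, h2⟩ := h γ hγ
    refine ⟨_, ⟨_, h2, rfl⟩, ?_⟩
    have : (Φ δ)⁻¹ * x * Φ δ = x := by rw [mul_assoc, ← h1, inv_mul_cancel_left]
    rw [_root_.map_mul, _root_.map_inv, mul_inv_rev, inv_inv]
    conv_lhs => rw [← this]
    simp only [mul_assoc]

variable {F : Type*} [Field F] [Finite F] {ι : Type} [Fintype ι] [DecidableEq ι]
  {Q : QuadraticForm F (ι → F)} {q : (ι → F) → F} [hB : Big Q]

lemma exists_odd_rep (h : ⇑Q = q) {γ : Gam Q} (hγ : γ ∈ GO Q) {r : ℕ} (hro : Odd r)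
    (hr : PhiM h γ ^ r = 1) : ∃ A : OG Q, A ^ r = 1 ∧ PhiM h γ = PhiM h (ofOG Q A) := by
  rw [← map_pow, PhiM_eq_one_iff] at hr
  obtain ⟨a, ha⟩ := hr
  have h1 : ∀ k : ℕ, (γ ^ k).c = γ.c ^ k := fun k => by
    induction k with
    | zero => simp
    | succ k ih => rw [pow_succ', Gam.mul_c_of_lin hγ, ih, pow_succ']
  have h2 : γ.c ^ r = a ^ 2 := by rw [← h1, ha, scal_c]
  obtain ⟨k, hk⟩ := hro
  have h3 : IsSquare (γ.c : F) := ⟨a * (γ.c ^ k)⁻¹, by
    have := congrArg Units.val h2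
    rw [hk] at this
    have h0 := γ.c.ne_zero
    push_cast at this ⊢
    field_simp
    linear_combination this⟩
  obtain ⟨b, g, rfl⟩ := exists_scal_mul_ofOG hγ h3
  have h4 : scal Q (b ^ r) * ofOG Q (g ^ r) = scal Q a * ofOG Q 1 := by
    rw [_root_.map_one, mul_one, ← ha, map_pow, map_pow,
      Commute.mul_pow (scal_comm (ofOG_mem_GO g) b).symm]
  rcases scal_mul_ofOG_eq h4 with h5 | h5
  · exact ⟨g, h5, by rw [_root_.map_mul, PhiM_scal, one_mul]⟩
  · refine ⟨negOne Q * g, ?_, by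
      rw [_root_.map_mul, _root_.map_mul, _root_.map_mul, ofOG_negOne, PhiM_scal, PhiM_scal]⟩
    rw [Commute.mul_pow (negOne_comm g), h5, hk, pow_succ, pow_mul, pow_two, negOne_mul_self]
    simp [negOne_mul_self]

theorem semisimple_fusion (h : ⇑Q = q) (h2 : (2 : F) ≠ 0) (hn : Even (finrank F (ι → F)))
    {x : MulAut (Cfsg.POmega F q)} (hx : x ∈ Cfsg.pgoAut F q) {r : ℕ} (hr : r.Prime) (hro : Odd r)
    (hrF : (r : F) ≠ 0) (hxr : orderOf x = r) :
    (∀ y, (Cfsg.IsConjUnder (Cfsg.Inn (Cfsg.POmega F q)) x y ↔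
        Cfsg.IsConjUnder ((GOp hB.nd Big.good hn).map (PhiM h)) x y) ∧
      (Cfsg.IsConjUnder (Cfsg.psoAut F q) x y ↔
        Cfsg.IsConjUnder ((GOp hB.nd Big.good hn).map (PhiM h)) x y)) ∧
      ∀ y, Cfsg.IsConjUnder (Cfsg.poAut F q) x y ↔ Cfsg.IsConjUnder (Cfsg.pgoAut F q) x y := by
  rw [pgoAut_eq h] at hx ⊢
  rw [Inn_eq h, psoAut_eq h hB.nd Big.good h2, poAut_eq h]
  obtain ⟨γ, hγ, rfl⟩ := hx
  obtain ⟨A, hA, e⟩ := exists_odd_rep h hγ hro (hxr ▸ pow_orderOf_eq_one _)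
  rw [e] at hxr ⊢
  have hA1 : A ≠ 1 := by
    rintro rfl
    simp only [_root_.map_one, orderOf_one] at hxr
    exact hr.one_lt.ne hxr
  have k1 : ∀ γ ∈ GO Q, ∃ δ : Gam Q, δ.σ = 1 ∧ delta δ = 1 ∧ δ * ofOG Q A = ofOG Q A * δ ∧
      (γ * δ⁻¹).c = 1 := fun γ hγ => by
    obtain ⟨δ, d1, d2, d3, d4⟩ := exists_comm_sim hB.nd h2 hn hA hro hrF γ.c
    exact ⟨δ, d1, d3, d4, by rw [Gam.mul_c_of_lin hγ, Gam.inv_c_of_lin d1, d2, mul_inv_cancel]⟩
  have k2 : ∀ γ ∈ GOp hB.nd Big.good hn, ∃ (δ : Gam Q) (g : OG Q),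
      δ * ofOG Q A = ofOG Q A * δ ∧ γ * δ⁻¹ = ofOG Q g ∧ dickF g = 1 := fun γ hγ => by
    obtain ⟨δ, d1, d2, d3, d4⟩ := k1 γ hγ.1
    have hm : γ * δ⁻¹ ∈ GOp hB.nd Big.good hn := Subgroup.mul_mem _ hγ (Subgroup.inv_mem _ ⟨d1, d2⟩)
    obtain ⟨g, hg⟩ := exists_ofOG hm.1 d4
    exact ⟨δ, g, d3, hg.symm, by rw [← delta_ofOG hB.nd hn, hg]; exact hm.2⟩
  have cm : ∀ δ : Gam Q, δ * ofOG Q A = ofOG Q A * δ →
      PhiM h δ * PhiM h (ofOG Q A) = PhiM h (ofOG Q A) * PhiM h δ := fun δ hδ => by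
    rw [← _root_.map_mul, hδ, _root_.map_mul]
  refine ⟨fun y => ⟨isConjUnder_iff _ (ZOm_le_GOp hn) (fun γ hγ => ?_) y,
    isConjUnder_iff _ (fun γ hγ => ?_) (fun γ hγ => ?_) y⟩,
    isConjUnder_iff _ (ZS_le_GO _) fun γ hγ => ?_⟩
  · obtain ⟨δ, g, d1, d2, d3⟩ := k2 γ hγ
    rcases Int.units_eq_one_or (spinF g) with hs | hs
    · exact ⟨δ, cm δ d1, d2 ▸ ofOG_mem_ZS ((mem_commutator_iff hB.nd Big.good g).2 ⟨d3, hs⟩)⟩
    · obtain ⟨s, s1, s2, s3⟩ := exists_comm_spin hB.nd h2 hA hro hrF hA1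
      refine ⟨ofOG Q s * δ, cm _ ?_, ?_⟩
      · rw [mul_assoc, d1, ← mul_assoc, ← _root_.map_mul, s1, _root_.map_mul, mul_assoc]
      · rw [mul_inv_rev, ← mul_assoc, d2, ← _root_.map_inv, ← _root_.map_mul]
        refine ofOG_mem_ZS ((mem_commutator_iff hB.nd Big.good _).2 ⟨?_, ?_⟩)
        · rw [dickF_mul hB.nd Big.good, dickF_inv hB.nd Big.good, d3, s2, mul_one]
        · rw [spinF_mul hB.nd Big.good, spinF_inv hB.nd Big.good, hs, s3]; decide
  · exact ⟨ZS_le_GO _ hγ, ((mem_ZS_dick_iff hn ⟨γ, ZS_le_GO _ hγ⟩).1 hγ).1⟩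
  · obtain ⟨δ, g, d1, d2, d3⟩ := k2 γ hγ
    exact ⟨δ, cm δ d1, d2 ▸ ofOG_mem_ZS d3⟩
  · obtain ⟨δ, d1, -, d3, d4⟩ := k1 γ hγ
    exact ⟨δ, cm δ d3, mem_ZS_top_iff.2 ⟨(GO Q).mul_mem hγ ((GO Q).inv_mem d1), by
      rw [d4]; exact IsSquare.one⟩⟩

lemma two_ne_zero_of_charP {F : Type*} [Field F] {p : ℕ} [Fact p.Prime] [CharP F p] (hp : p ≠ 2) :
    (2 : F) ≠ 0 := fun h =>
  hp ((Nat.prime_dvd_prime_iff_eq Fact.out Nat.prime_two).1
    ((CharP.cast_eq_zero_iff F p 2).1 (by exact_mod_cast h)))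

lemma prime_cast_ne_zero {F : Type*} [Field F] {p r : ℕ} [Fact p.Prime] [CharP F p] (hr : r.Prime)
    (hrp : r ≠ p) : (r : F) ≠ 0 := fun h =>
  hrp ((Nat.prime_dvd_prime_iff_eq Fact.out hr).1 ((CharP.cast_eq_zero_iff F p r).1 h)).symm

section graph

open Polynomial DihedralGroup

variable {F V : Type*} [Field F] [AddCommGroup V] [Module F V] [FiniteDimensional F V]
  {Q : QuadraticForm F V}

lemma det_sq_nonsq {g : End F V} {c : F} (hc : ¬ IsSquare c) (hg : g * g = c • 1) {k : ℕ}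
    (hk : finrank F V = 2 * k) : LinearMap.det g = (-c) ^ k := by
  let b := finBasis F V
  let M := LinearMap.toMatrix b b g
  have hM : M * M = c • 1 := by
    rw [← LinearMap.toMatrix_mul, hg, map_smul, LinearMap.toMatrix_one]
  have hirr : Irreducible (X ^ 2 - C c) :=
    X_pow_sub_C_irreducible_of_prime Nat.prime_two fun x hx => hc ⟨x, by rw [← hx, pow_two]⟩
  have hmon : (X ^ 2 - C c).Monic := monic_X_pow_sub_C c two_ne_zero
  have h1 : M.charpoly * (-M).charpoly = (X ^ 2 - C c) ^ (2 * k) := by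
    rw [Matrix.charpoly, Matrix.charpoly, ← Matrix.det_mul, Matrix.charmatrix, Matrix.charmatrix,
      map_neg, sub_neg_eq_add, sub_mul, mul_add, mul_add, ← _root_.map_mul, ← _root_.map_mul, hM,
      (Matrix.scalar_commute X (fun _ => Commute.all _ _) _).eq]
    have : C.mapMatrix (c • (1 : Matrix (Fin (finrank F V)) (Fin (finrank F V)) F)) =
        Matrix.scalar _ (C c) := by
      ext i j : 2
      by_cases h : i = j <;> simp [h]
    rw [this, add_comm (C.mapMatrix M * _), add_sub_add_right_eq_sub, ← map_sub, Matrix.scalar_apply, Matrix.det_diagonal,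
      ← pow_two]
    simp [hk]
  obtain ⟨i, -, hi⟩ := (dvd_prime_pow hirr.prime _).1 (Dvd.intro _ h1)
  have h2 := eq_of_monic_of_associated M.charpoly_monic (hmon.pow i) hi
  have h3 := congrArg natDegree h2
  rw [Matrix.charpoly_natDegree_eq_dim, hmon.natDegree_pow, natDegree_X_pow_sub_C,
    Fintype.card_fin, hk] at h3
  obtain rfl : i = k := by omega
  rw [← LinearMap.det_toMatrix b, Matrix.det_eq_sign_charpoly_coeff, h2, Fintype.card_fin, hk,
    coeff_zero_eq_eval_zero]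
  simp

lemma graph_c (hQ : ND Q) (h2 : (2 : F) ≠ 0) {k : ℕ} (hk : finrank F V = 2 * k) [Nontrivial V]
    {g : Gam Q} (hg : g.σ = 1) (hd : delta g = -1) {a : Fˣ} (ha : g * g = scal Q a) : g.c = a := by
  have h1 : g.c * g.c = a * a := by rw [← Gam.mul_c_of_lin hg, ha, scal_c, pow_two]
  have h1' : (g.c : F) * g.c = a * a := congrArg Units.val h1
  refine Units.ext ((mul_self_eq_mul_self_iff.1 h1').resolve_right fun h => ?_)
  have hgg : ∀ x, g.T (g.T x) = (a : F) • x := fun x => congrArg (fun γ : Gam Q => γ.T x) ha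
  have hp := polar_congr (g.lin hg).toLinearMap (Gam.mapQ_of_lin hg)
  have hs : adj hQ (g.lin hg).toLinearMap = -(g.lin hg).toLinearMap := adj_eq hQ fun x y => by
    have := hp x (g.T y)
    simp only [LinearEquiv.coe_coe, Gam.lin_apply, hgg, h, polar_sr, Units.val_neg] at this
    simp only [LinearMap.neg_apply, LinearEquiv.coe_coe, Gam.lin_apply, polar_neg_left]
    exact mul_left_cancel₀ a.ne_zero (by linear_combination -this)
  have hu : IsUnit (g.lin hg).toLinearMap := (End.isUnit_iff _).2 (g.lin hg).bijective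
  have := det_alt_sim (skew_alt hQ h2 hs) (skew_nd hQ hu) hk g.c.ne_zero
    (g := (g.lin hg).toLinearMap) fun x y => hp x _
  have h3 := delta_eq_of_gdet hQ h2 hk hg (ε := 1) (by
    rw [gdet_eq hg (g := (g.lin hg).toLinearMap) fun _ => rfl, this]; simp)
  rw [hd] at h3
  exact absurd h3 (by decide)

lemma graph_inv (hQ : ND Q) (hn : Even (finrank F V)) [Nontrivial V] {g : Gam Q} (hg : g.σ = 1)
    (hd : delta g = -1) (ha : g * g = scal Q g.c) (hc : IsSquare (g.c : F)) :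
    ∃ (a : Fˣ) (t : OG Q), g = scal Q a * ofOG Q t ∧ t ^ 2 = 1 ∧ dickF t = -1 := by
  obtain ⟨a, t, rfl⟩ := exists_scal_mul_ofOG hg hc
  refine ⟨a, t, rfl, ofOG_injective ?_, by rwa [delta_scal_mul_ofOG hQ hn] at hd⟩
  rw [Gam.mul_c_of_lin rfl, scal_c, ofOG_c, mul_one, ← pow_two,
    Commute.mul_pow (scal_comm (ofOG_mem_GO t) a).symm, ← map_pow, ← map_pow] at ha
  rw [_root_.map_one]
  exact mul_left_cancel (ha.trans (mul_one _).symm)

lemma refl_comm {g : Gam Q} {v w : V} (h1 : g.og (refl Q v) = refl Q w)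
    (h2 : g.og (refl Q w) = refl Q v) (h : refl Q v * refl Q w = refl Q w * refl Q v) :
    g * ofOG Q (refl Q v * refl Q w) = ofOG Q (refl Q v * refl Q w) * g := by
  rw [← mul_inv_eq_iff_eq_mul, conj_ofOG, _root_.map_mul, h1, h2, h]

lemma graph_spin [Finite F] (hQ : ND Q) (h2 : (2 : F) ≠ 0) (hn : Even (finrank F V))
    (h7 : 7 ≤ finrank F V) {g : Gam Q} (hg : g.σ = 1) (hd : delta g = -1)
    (ha : g * g = scal Q g.c) :
    ∃ s : OG Q, g * ofOG Q s = ofOG Q s * g ∧ dickF s = 1 ∧ spinF s = -1 := by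
  have hG : Good Q := good_of_two_ne h2
  have : Nontrivial V := Module.nontrivial_of_finrank_pos (R := F) (by omega)
  have key : ∀ v w, Q v ≠ 0 → Q w ≠ 0 → chi (Q v * Q w) = -1 →
      dickF (refl Q v * refl Q w) = 1 ∧ spinF (refl Q v * refl Q w) = -1 := fun v w hv hw h =>
    ⟨by rw [dickF_refl_mul hQ _ hv, dickF_refl hQ hw, neg_neg], by
      rw [spinF_mul hQ hG, spinF_refl hQ hv, spinF_refl hQ hw, ← chi_mul hv hw, h]⟩
  by_cases hc : IsSquare (g.c : F)
  · obtain ⟨a, t, rfl, ht, -⟩ := graph_inv hQ hn hg hd ha hc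
    have h0 := mov_inf_fix ht (by exact_mod_cast h2)
    obtain ⟨U, hU, hU2, hUt⟩ : ∃ U : Submodule F V, U ⊓ perp Q U = ⊥ ∧ 2 ≤ finrank F U ∧
        ∀ v ∈ U, refl Q (t.1 v) = refl Q v := by
      have := finrank_movS_add t
      by_cases h : 2 ≤ finrank F (movS t)
      · refine ⟨movS t, by rwa [perp_movS hQ], h, fun v hv => ?_⟩
        obtain ⟨y, rfl⟩ := mem_movS.1 hv
        rw [map_sub, ← OG.mul_apply, ← pow_two, ht, OG.one_apply, ← neg_sub, refl_neg]
      · exact ⟨fixS t, by rwa [perp_fixS hQ, inf_comm], by omega, fun v hv => by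
          rw [mem_fixS.1 hv]⟩
    obtain ⟨c, hc0, hc⟩ := exists_nonsq h2
    obtain ⟨v, hv⟩ := (nd_res_iff.2 hU).represents hU2 1
    obtain ⟨w, hw⟩ := (nd_res_iff.2 hU).represents hU2 c
    rw [res_apply] at hv hw
    refine ⟨refl Q v * refl Q w, ?_, key _ _ (by simp [hv]) (by simp [hw, hc0]) (by
      rw [hv, hw, one_mul, hc])⟩
    have : t * (refl Q v * refl Q w) = refl Q v * refl Q w * t := by
      rw [← mul_inv_eq_iff_eq_mul]
      conv_rhs => rw [← hUt v v.2, ← hUt w w.2, ← refl_conj, ← refl_conj]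
      group
    rw [mul_assoc, ← _root_.map_mul, this, _root_.map_mul, ← mul_assoc, ← mul_assoc,
      scal_comm (ofOG_mem_GO _)]
  · let G := (g.lin hg).toLinearMap
    have hgg : ∀ x, G (G x) = (g.c : F) • x := fun x => congrArg (fun γ : Gam Q => γ.T x) ha
    have hq : ∀ x, Q (G x) = g.c * Q x := Gam.mapQ_of_lin hg
    have hp := polar_congr G hq
    have hs : ∀ x y, polar Q (G x) y = polar Q x (G y) := fun x y => by
      have := hp x (G y)
      rw [hgg, polar_sr] at this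
      exact mul_left_cancel₀ g.c.ne_zero this
    let P : QuadraticForm F V := LinearMap.BilinMap.toQuadraticMap
      (LinearMap.BilinForm.compRight (polarBilin Q) G)
    have hP : ∀ x, P x = polar Q x (G x) := fun _ => rfl
    obtain ⟨w, hw, hw'⟩ : ∃ w, Q w ≠ 0 ∧ polar Q w (G w) = 0 := by
      by_contra! H
      obtain ⟨u, hu0, hu⟩ := exists_sing (Q := P) (by omega)
      have hGu : G u ∉ F ∙ u := fun h => by
        obtain ⟨l, hl⟩ := Submodule.mem_span_singleton.1 h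
        have := hgg u
        rw [← hl, map_smul, ← hl, smul_smul] at this
        exact hc ⟨l, (smul_left_injective F hu0 this).symm⟩
      obtain ⟨x, x1, x2⟩ := hQ.exists_perp_one hGu
      have x1 := x1 u (Submodule.mem_span_singleton_self u)
      obtain ⟨x, x1, x2, x3⟩ : ∃ x, polar Q u x = 0 ∧ polar Q (G u) x = 1 ∧ Q x ≠ 0 := by
        by_cases hx : Q x = 0
        · obtain ⟨y, y1, y2⟩ := exists_nonsing_perp hQ (U := Submodule.span F (Set.range ![u, G u, x]))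
            (by have := finrank_range_le_card (R := F) ![u, G u, x]
                simp only [Fintype.card_fin, Set.finrank] at this
                omega)
          rw [mem_perp_span] at y1
          have y3 := y1 _ ⟨0, rfl⟩
          have y4 := y1 _ ⟨1, rfl⟩
          have y5 := y1 _ ⟨2, rfl⟩
          simp only [Matrix.cons_val] at y3 y4 y5
          exact ⟨x + y, by simp [x1, y3], by simp [x2, y4], by rwa [Q_add, hx, y5, zero_add, add_zero]⟩
        · exact ⟨x, x1, x2, hx⟩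
      have hQu : Q u = 0 := by
        by_contra h
        exact H u h hu
      refine H (x - (P x / 2) • u) (by
        rwa [Q_sub, Q_smul, hQu, polar_sr, pcomm, x1, mul_zero, mul_zero, add_zero, sub_zero]) ?_
      rw [hP] at hu
      have x4 : polar Q x (G u) = 1 := by rw [pcomm, x2]
      have x5 : polar Q u (G x) = 1 := by rw [← hs, x2]
      simp only [map_sub, map_smul, polar_sub_left, polar_sub_right, polar_sl, polar_sr, hu, x4, x5,
        hP]
      field_simp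
      ring
    refine ⟨refl Q w * refl Q (G w), refl_comm (SIso.og_refl _ _) ?_ ?_,
      key _ _ hw (by rw [hq]; exact mul_ne_zero g.c.ne_zero hw) (by
        rw [hq, mul_left_comm, mul_comm, ← pow_two, chi_sq_mul hw, chi_eq_neg_one_iff.2 hc])⟩
    · rw [SIso.og_refl]
      exact (congrArg _ (hgg w)).trans (refl_smul g.c.ne_zero w)
    · rw [← mul_inv_eq_iff_eq_mul, refl_conj, refl_of_perp hw']

lemma graph_mult [Finite F] (hQ : ND Q) (h2 : (2 : F) ≠ 0) {k : ℕ} (hk : finrank F V = 2 * k)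
    (he : Even k) [Nontrivial V] {g : Gam Q} (hg : g.σ = 1) (hd : delta g = -1)
    (ha : g * g = scal Q g.c) {γ : Gam Q} (hγ : γ.σ = 1) {b : Fˣ}
    (hb : γ * g = scal Q b * (g * γ)) : chi (γ.c : F) = 1 := by
  have hc : IsSquare (g.c : F) := by
    by_contra hc
    have := det_sq_nonsq hc (g := (g.lin hg).toLinearMap)
      (LinearMap.ext fun x => congrArg (fun γ : Gam Q => γ.T x) ha) hk
    have h3 := delta_eq_of_gdet hQ h2 hk hg (ε := 1) (by
      rw [gdet_eq hg (g := (g.lin hg).toLinearMap) fun _ => rfl, this, he.neg_pow]; simp)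
    rw [hd] at h3
    exact absurd h3 (by decide)
  obtain ⟨a, t, rfl, ht, hdt⟩ := graph_inv hQ ⟨k, by omega⟩ hg hd ha hc
  have h0 := mov_inf_fix ht (by exact_mod_cast h2)
  have h1 : scal Q 1 * ofOG Q (γ.og t) = scal Q b * ofOG Q t := by
    rw [← conj_ofOG, _root_.map_one, one_mul, mul_inv_eq_iff_eq_mul]
    apply mul_left_cancel (a := scal Q a)
    rw [← mul_assoc, ← scal_comm hγ, mul_assoc, hb]
    simp only [← mul_assoc, ← _root_.map_mul, mul_comm a b]
  have hodd : ¬ Even (finrank F (movS t)) := by rw [← dickF_eq_one_iff, hdt]; decide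
  have hm := SIso.movS_og γ t
  rcases scal_mul_ofOG_eq h1 with h | h
  · rw [h] at hm
    let e : movS t ≃ₗ[F] movS t := (γ.lin hγ).ofSubmodules _ _ (by
      refine le_antisymm ?_ fun x hx => ⟨γ⁻¹.T x, ?_, by simp⟩
      · rintro _ ⟨x, hx, rfl⟩
        rw [hm]; exact γ.T_mem_mapS.2 hx
      · rw [hm] at hx; exact hx)
    have := discC_sim (nd_res_iff.2 (by rwa [perp_movS hQ])) e γ.c.ne_zero
      (Q₂ := res Q (movS t)) fun x => Gam.mapQ_of_lin hγ _
    rw [right_eq_mul] at this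
    rcases Int.units_eq_one_or (chi (γ.c : F)) with h | h
    · exact h
    · rw [h, (Nat.not_even_iff_odd.1 hodd).neg_one_pow] at this
      exact absurd this (by decide)
  · exfalso
    have h3 : movS (negOne Q * t) = fixS t := by
      ext x
      rw [mem_movS, mem_fixS]
      constructor
      · rintro ⟨y, rfl⟩
        have : t.1 (t.1 y) = y := by rw [← OG.mul_apply, ← pow_two, ht, OG.one_apply]
        simp only [OG.mul_apply, negOne_apply, map_sub, map_neg, this]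
        abel
      · intro hx
        refine ⟨(-(2 : F)⁻¹) • x, ?_⟩
        simp only [OG.mul_apply, negOne_apply, map_smul, hx]
        rw [smul_neg, ← neg_smul, ← sub_smul, show - -(2 : F)⁻¹ - -2⁻¹ = 1 by field_simp; ring, one_smul]
    have h4 := γ.finrank_mapS (movS t)
    rw [← hm, h, h3] at h4
    have h5 := finrank_movS_add t
    exact hodd (by rwa [show finrank F (movS t) = k by omega])

end graph

open DihedralGroup in
theorem graph_split (h : ⇑Q = q) (h2 : (2 : F) ≠ 0) (hn : Even (finrank F (ι → F))) {k : ℕ}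
    (hk : finrank F (ι → F) = 2 * k) (hk4 : 4 ≤ k) {g : Gam Q} (hg : g.σ = 1) (hd : delta g = -1)
    (hg2 : PhiM h g ^ 2 = 1) :
    (Cfsg.splitClassCount ((GOp hB.nd Big.good hn).map (PhiM h)) (Cfsg.Inn (Cfsg.POmega F q))
        (PhiM h g) = 1 ∨
      Cfsg.splitClassCount ((GOp hB.nd Big.good hn).map (PhiM h)) (Cfsg.Inn (Cfsg.POmega F q))
        (PhiM h g) = 2) ∧ (discC Q = 1 ∨ Even k →
      Cfsg.splitClassCount ((GOp hB.nd Big.good hn).map (PhiM h)) (Cfsg.Inn (Cfsg.POmega F q))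
        (PhiM h g) = 2) := by
  have := Big.nontrivial Q
  rw [← map_pow, PhiM_eq_one_iff, pow_two] at hg2
  obtain ⟨a, ha⟩ := hg2
  rw [← graph_c hB.nd h2 hk hg hd ha] at ha
  rcases Int.units_eq_one_or (discC Q) with hdisc | hdisc
  · suffices H : _ = 2 from ⟨Or.inr H, fun _ => H⟩
    obtain ⟨π, hπ⟩ := exists_isD8 h2 hk hdisc
    generalize -(-1 : ℤˣ) ^ k = e at hπ
    let π₀ := π.comp (Subgroup.inclusion (GOp_le_GO hn))
    have hr : ∀ x, x ∈ π₀.range ↔ ddel e x = 1 := fun x => by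
      constructor
      · rintro ⟨γ, rfl⟩
        exact (hπ.del _).symm.trans γ.2.2
      · intro hx
        obtain ⟨γ, rfl⟩ := hπ.pres.1 x
        exact ⟨⟨γ, γ.2, (hπ.del γ).trans hx⟩, rfl⟩
    have hp : Pres π₀.rangeRestrict (ZS (Om Q)) :=
      ⟨π₀.rangeRestrict_surjective, fun γ => Subtype.ext_iff.trans (hπ.pres.2 _)⟩
    let Z : Subgroup (DihedralGroup 4) :=
      ⟨⟨⟨{x | x = 1 ∨ x = r 2}, by
        rintro _ _ (rfl | rfl) (rfl | rfl) <;> simp only [Set.mem_ofPred_eq] <;> decide⟩,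
        Or.inl rfl⟩, by rintro _ (rfl | rfl) <;> simp only [Set.mem_ofPred_eq] <;> decide⟩
    have hZ : ∀ x, x ∈ Z ↔ x = 1 ∨ x = r 2 := fun _ => Iff.rfl
    rw [hp.split h (ZOm_le_GOp hn) _ (Z.subgroupOf π₀.range)]
    · obtain ⟨x, hx, hx'⟩ : ∃ x, ddel e x = 1 ∧ ∀ y, ddel e y = 1 →
          Xor (y * x = 1 ∨ y * x = r 2) (y = 1 ∨ y = r 2) := by
        exact (by decide : ∀ e : ℤˣ, ∃ x, ddel e x = 1 ∧ ∀ y, ddel e y = 1 →
          Xor (y * x = 1 ∨ y * x = r 2) (y = 1 ∨ y = r 2)) e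
      exact Subgroup.index_eq_two_iff.2 ⟨⟨x, (hr x).2 hx⟩, fun y => hx' y ((hr y).1 y.2)⟩
    · rintro ⟨c, hc⟩
      rw [Subgroup.mem_subgroupOf, hZ]
      constructor
      · rintro (rfl | rfl)
        · exact ⟨1, by simp, _root_.map_one _⟩
        · obtain ⟨s, s1, s2, s3⟩ := graph_spin hB.nd h2 hn (by omega) hg hd ha
          refine ⟨⟨ofOG Q s, rfl, by rw [delta_ofOG hB.nd hn, s2]⟩, by
            rw [← _root_.map_mul, ← s1, _root_.map_mul], Subtype.ext ?_⟩
          have := hπ.val 1 s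
          simp only [_root_.map_one, one_mul, s2, s3] at this
          exact this
      · rintro ⟨γ, h1, h3⟩
        obtain rfl : π₀ γ = c := congrArg Subtype.val h3
        rw [← _root_.map_mul, ← _root_.map_mul, PhiM_eq_iff] at h1
        obtain ⟨b, hb⟩ := h1
        have h4 : π₀ γ * π ⟨g, hg⟩ = π ⟨scal Q b, rfl⟩ * (π ⟨g, hg⟩ * π₀ γ) := by
          simp only [π₀, MonoidHom.comp_apply, ← _root_.map_mul]
          exact congrArg π (Subtype.ext hb)
        rw [(hπ.pres.2 ⟨scal Q b, rfl⟩).2 (scal_mem_ZS _ b), one_mul] at h4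
        have h5 := (hr _).1 hc
        have h6 := (hπ.del ⟨g, hg⟩).symm.trans hd
        revert h4 h5 h6
        show _ → _ → _ → π₀ γ = 1 ∨ π₀ γ = r 2
        generalize π₀ γ = x, π ⟨g, hg⟩ = y
        exact (by decide : ∀ (e : ℤˣ) (x y : DihedralGroup 4), x * y = y * x → ddel e x = 1 →
          ddel e y = -1 → x = 1 ∨ x = r 2) e x y
  · obtain ⟨π, hπ, hπ'⟩ := pres_GOp_two h2 hn hdisc
    let M := ((Subgroup.centralizer {PhiM h g}).comap
      ((PhiM h).comp (GOp hB.nd Big.good hn).subtype)).map π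
    rw [hπ.split h (ZOm_le_GOp hn) _ M fun c => by
      simp only [M, Subgroup.mem_map, Subgroup.mem_comap, Subgroup.mem_centralizer_singleton_iff]
      rfl]
    have hc : Nat.card (Multiplicative (ZMod 2)) = 2 := by simp
    refine ⟨(Nat.dvd_prime Nat.prime_two).1 (M.index_dvd_card.trans hc.dvd), fun H => ?_⟩
    have he := H.resolve_left (by rw [hdisc]; decide)
    have : M = ⊥ := by
      rw [eq_bot_iff]
      rintro _ ⟨γ, h1, rfl⟩
      have h1 : PhiM h γ * PhiM h g = PhiM h g * PhiM h γ :=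
        Subgroup.mem_centralizer_singleton_iff.1 h1
      rw [← _root_.map_mul, ← _root_.map_mul, PhiM_eq_iff] at h1
      obtain ⟨b, hb⟩ := h1
      rw [Subgroup.mem_bot, hπ', graph_mult hB.nd h2 hk he hg hd ha γ.2.1 hb]
      rfl
    rw [this, Subgroup.index_bot, hc]

end CfsgH8
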