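import Cfsg.Agent.H8.Low
import Cfsg.Agent.H8.Inv3

set_option autoImplicit false
set_option linter.unusedSectionVars false

namespace CfsgH8

open Module QuadraticMap Polynomial

universe u

section lin

variable {F V : Type*} [Field F] [Finite F] [AddCommGroup V] [Module F V] [FiniteDimensional F V]
  {Q : QuadraticForm F V}

lemma aeval_restrict {a : End F V} {W : Submodule F V} (hW : ∀ x ∈ W, a x ∈ W) (p : F[X]) (x : W) :
    (aeval (a.restrict hW) p x : V) = aeval a p x := by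
  induction p using Polynomial.induction_on' with
  | add p q hp hq => simp [hp, hq]
  | monomial n c =>
    simp only [aeval_monomial, ← Algebra.smul_def, LinearMap.smul_apply, Submodule.coe_smul]
    rw [End.pow_restrict, LinearMap.coe_restrict_apply]

lemma irred_sub {a : End F V} {W : Submodule F V} {b : End F W} (h : ∀ x : W, (b x : V) = a x)
    (ha : ∀ U ≤ W, (∀ x ∈ U, a x ∈ U) → U = ⊥ ∨ U = W) (U : Submodule F W)
    (hU : ∀ x ∈ U, b x ∈ U) : U = ⊥ ∨ U = ⊤ :=
  (ha (U.map W.subtype) (Submodule.map_subtype_le W U) (by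
    rintro _ ⟨x, hx, rfl⟩
    exact ⟨_, hU x hx, h x⟩)).imp (fun h => Submodule.map_injective_of_injective W.injective_subtype
      (by rw [h, Submodule.map_bot])) fun h => Submodule.map_injective_of_injective
        W.injective_subtype (by rw [h, Submodule.map_subtype_top])

lemma spin_split (hQ : ND Q) (h2 : (2 : F) ≠ 0) {A : OG Q} {W W' : Submodule F V}
    (hW : ∀ x ∈ W, A.1 x ∈ W) (hW' : ∀ x ∈ W', A.1 x ∈ W') (i1 : W ≤ perp Q W)
    (i2 : W' ≤ perp Q W') (hs : W ⊔ W' = ⊤) (h0 : W ≠ ⊥)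
    (ha : ∀ U ≤ W, (∀ x ∈ U, A.1 x ∈ U) → U = ⊥ ∨ U = W) :
    ∃ h : OG Q, h * A = A * h ∧ dickF h = 1 ∧ spinF h = -1 := by
  set a := A.1.toLinearMap with hadef
  have k1 : ∀ x ∈ perp Q W, x ∈ perp Q W' → x = 0 := fun x h h' => hQ.eq_zero fun y =>
    mem_perp'.1 (mem_perp_sup.2 ⟨h, h'⟩) y (hs ▸ Submodule.mem_top)
  have hc : IsCompl W W' := ⟨Submodule.disjoint_def.2 fun x h h' => k1 x (i1 h) (i2 h'),
    codisjoint_iff.2 hs⟩
  let e := W.projection W' hc
  have m1 : ∀ x, e x ∈ W := Submodule.projection_apply_mem hc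
  have m2 : ∀ x ∈ W, e x = x := fun x => Submodule.projection_apply_of_mem_left hc
  have m3 : ∀ x, e x = 0 ↔ x ∈ W' := fun x => Submodule.projection_apply_eq_zero_iff hc
  have c1 : Commute a e := LinearMap.ext fun x => by
    have := (m3 _).2 (hW' _ (Submodule.sub_projection_mem hc x))
    rw [map_sub, map_sub, m2 _ (hW _ (m1 x)), sub_eq_zero] at this
    exact this.symm
  have : Nontrivial W := Submodule.nontrivial_iff_ne_bot.2 h0
  obtain ⟨p, hp⟩ := exists_det_nonsq h2 (a.restrict hW) (irred_sub (fun _ => rfl) ha)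
  set t := aeval a p with ht
  have ct : Commute a t := commute_aeval _ rfl p
  have htW : ∀ x ∈ W, t x ∈ W := fun x hx => aeval_restrict hW p ⟨x, hx⟩ ▸ Subtype.prop _
  rw [show aeval (a.restrict hW) p = t.restrict htW from
    LinearMap.ext fun x => Subtype.ext (aeval_restrict hW p x)] at hp
  let n := (t - 1) * e
  have n1 : ∀ x, n x ∈ W := fun x => W.sub_mem (htW _ (m1 x)) (m1 x)
  have n2 : ∀ x ∈ W', n x = 0 := fun x hx => by simp [n, (m3 x).2 hx]
  have n3 : ∀ x, adj hQ n x ∈ W' := fun x => (m3 _).1 (k1 _ (i1 (m1 _)) (by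
    have h1 : adj hQ n x ∈ perp Q W' := fun y hy => by
      show polar Q y _ = 0
      rw [polar_adj', n2 y hy, polar_zero_left]
    simpa only [sub_sub_cancel] using
      (perp Q W').sub_mem h1 (i2 (Submodule.sub_projection_mem hc (adj hQ n x)))))
  have n4 : n * adj hQ n = 0 := LinearMap.ext fun x => n2 _ (n3 x)
  have n5 : adj hQ n * n = 0 := LinearMap.ext fun x => hQ.eq_zero fun y => by
    rw [End.mul_apply, polar_adj]; exact i1 (n1 y) _ (n1 x)
  have n6 : ∀ x ∈ W, t x = x → x = 0 := fun x hx h => by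
    rcases ha (W ⊓ LinearMap.ker (t - 1)) inf_le_left (fun y hy => ⟨hW y hy.1, by
      have := LinearMap.congr_fun (ct.sub_right (Commute.one_right a)).eq y
      rw [End.mul_apply, LinearMap.mem_ker.1 hy.2, map_zero] at this
      exact this.symm⟩) with h1 | h1
    · exact (Submodule.mem_bot F).1 (h1 ▸ ⟨hx, sub_eq_zero.2 h⟩)
    · rw [show t.restrict htW = 1 from LinearMap.ext fun y => Subtype.ext
        (sub_eq_zero.1 (inf_eq_left.1 h1 y.2)), _root_.map_one, chi_eq_neg_one_iff] at hp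
      exact absurd IsSquare.one hp
  have n7 : Function.Surjective (t.restrict htW - 1 : End F W) := LinearMap.injective_iff_surjective.1
    (LinearMap.ker_eq_bot.1 (LinearMap.ker_eq_bot'.2 fun x hx =>
      Subtype.ext (n6 x x.2 (sub_eq_zero.1 (congrArg Subtype.val hx)))))
  have hds : chi (LinearMap.det (1 + n)) = -1 := by
    have hsW : ∀ x ∈ W, (1 + n) x = t x := fun x hx => by simp [n, m2 x hx]
    have hsW' : W ≤ W.comap (1 + n) := fun x hx => by
      rw [Submodule.mem_comap, hsW x hx]; exact htW x hx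
    rw [LinearMap.det_eq_det_mul_det W _ hsW']
    have e1 : (1 + n).restrict hsW' = t.restrict htW :=
      LinearMap.ext fun x => Subtype.ext (hsW x x.2)
    have e2 : W.mapQ W (1 + n) hsW' = LinearMap.id := by
      refine LinearMap.ext fun x => ?_
      obtain ⟨x, rfl⟩ := W.mkQ_surjective x
      rw [Submodule.mkQ_apply, Submodule.mapQ_apply, LinearMap.id_apply, Submodule.Quotient.eq]
      simpa using n1 x
    rw [e1, e2, LinearMap.det_id, mul_one, hp]
  have hsu : IsUnit (1 + n) := (LinearMap.isUnit_iff_isUnit_det _).2 (chi_ne_zero hds).isUnit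
  have cs : Commute a (1 + n) := (Commute.one_right _).add_right ((ct.sub_right
    (Commute.one_right _)).mul_right c1)
  obtain ⟨g, g1, g2, g3⟩ := exists_spin_det hQ h2 hsu
    (by simp [adj_one, mul_add, add_mul, n4, n5, add_comm, add_left_comm, add_assoc])
    (isUnit_end_iff.2 fun x hx => by
      have e1 : adj hQ n x = n x := by simpa [adj_one, sub_eq_zero] using hx
      have e2 : n x = 0 := k1 _ (i1 (n1 x)) (i2 (e1 ▸ n3 x))
      refine k1 x (fun y hy => ?_) (i2 ((m3 x).1 (n6 _ (m1 x) (sub_eq_zero.1 e2))))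
      obtain ⟨z, hz⟩ := n7 ⟨y, hy⟩
      have e3 : n z = y := by simpa [n, m2 z z.2] using congrArg Subtype.val hz
      show polar Q y x = 0
      rw [← e3, ← polar_adj' hQ, e1, e2, polar_zero_right])
  exact ⟨g, comm_of_spin_det hQ hsu g1 cs (commute_adj hQ cs), g2, g3.trans hds⟩

/-- the cyclic subspace -/
noncomputable def cyc (a : End F V) (u : V) : Submodule F V :=
  LinearMap.range (LinearMap.applyₗ u ∘ₗ (aeval a).toLinearMap)

lemma mem_cyc {a : End F V} {u x : V} : x ∈ cyc a u ↔ ∃ p : F[X], aeval a p u = x := Iff.rfl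

lemma self_mem_cyc (a : End F V) (u : V) : u ∈ cyc a u := mem_cyc.2 ⟨1, by simp⟩

lemma cyc_inv {a : End F V} {u : V} : ∀ x ∈ cyc a u, a x ∈ cyc a u := by
  rintro _ ⟨p, rfl⟩
  exact ⟨X * p, by simp⟩

lemma cyc_le {a : End F V} {u : V} {U : Submodule F V} (hU : ∀ x ∈ U, a x ∈ U) (hu : u ∈ U) :
    cyc a u ≤ U := by
  rintro _ ⟨p, rfl⟩
  exact aeval_restrict hU p ⟨u, hu⟩ ▸ Subtype.prop _

lemma ker_inv (a : End F V) (r : F[X]) :
    ∀ x ∈ LinearMap.ker (aeval a r), a x ∈ LinearMap.ker (aeval a r) := fun x hx => by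
  rw [LinearMap.mem_ker, ← End.mul_apply, ← (commute_aeval a rfl r).eq, End.mul_apply,
    LinearMap.mem_ker.1 hx, map_zero]

lemma cyc_irred {a : End F V} {u : V} {r : F[X]} (hr : Irreducible r) (hu : aeval a r u = 0) :
    ∀ U ≤ cyc a u, (∀ x ∈ U, a x ∈ U) → U = ⊥ ∨ U = cyc a u := fun U h1 h2 => by
  refine or_iff_not_imp_left.2 fun h => le_antisymm h1 (cyc_le h2 ?_)
  obtain ⟨x, hx, h0⟩ := Submodule.exists_mem_ne_zero_of_ne_bot h
  obtain ⟨p, rfl⟩ := mem_cyc.1 (h1 hx)
  obtain ⟨s, t, e⟩ := hr.coprime_iff_not_dvd.2 (show ¬ r ∣ p by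
    rintro ⟨p, rfl⟩
    exact h0 (by rw [mul_comm, _root_.map_mul, End.mul_apply, hu, map_zero]))
  have := congrArg (aeval a · u) e
  simp only [map_add, _root_.map_mul, LinearMap.add_apply, End.mul_apply, hu, map_zero, zero_add,
    _root_.map_one, End.one_apply] at this
  exact this ▸ cyc_le h2 hx (mem_cyc.2 ⟨t, rfl⟩)

lemma perp_inv (A : OG Q) {W : Submodule F V} (hW : ∀ x ∈ W, A.1 x ∈ W) :
    ∀ x ∈ perp Q W, A.1 x ∈ perp Q W := fun x hx => by
  rw [← map_eq_self_of_le A hW, perp_map]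
  exact ⟨x, hx, rfl⟩

lemma kd_sq {a : End F V} (h : LinearMap.ker a ≤ LinearMap.range a) :
    finrank F (LinearMap.ker (a * a)) = 2 * finrank F (LinearMap.ker a) := by
  have h1 := (a.domRestrict (LinearMap.ker (a * a))).finrank_range_add_finrank_ker
  rw [LinearMap.range_domRestrict, LinearMap.ker_domRestrict, End.mul_eq_comp, LinearMap.ker_comp,
    Submodule.map_comap_eq_self h, (Submodule.comapSubtypeEquivOfLe
      (fun x hx => by simp [LinearMap.mem_ker.1 hx])).finrank_eq] at h1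
  rw [End.mul_eq_comp, LinearMap.ker_comp]
  omega

lemma ker_mirror (hQ : ND Q) (A : OG Q) (p : F[X]) : LinearMap.ker (aeval A.1.toLinearMap p.mirror) =
    perp Q (LinearMap.range (aeval A.1.toLinearMap p)) := by
  rw [ker_aeval_mirror (mul_eq_one_comm.1 (adj_mul_self hQ (a := A.1.toLinearMap) A.2)),
    ← adj_aeval]
  exact Submodule.ext fun x => ⟨by
    rintro hx _ ⟨y, rfl⟩
    exact (polar_adj' hQ _ y x).symm.trans (by rw [LinearMap.mem_ker.1 hx, polar_zero_right]),
    fun hx => hQ.eq_zero fun y => by rw [polar_adj, pcomm]; exact hx _ ⟨y, rfl⟩⟩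

lemma ker_isotropic (hQ : ND Q) (A : OG Q) {p : F[X]} (h : IsCoprime p.mirror p) :
    LinearMap.ker (aeval A.1.toLinearMap p.mirror) ≤
      perp Q (LinearMap.ker (aeval A.1.toLinearMap p.mirror)) := by
  conv_lhs => rw [ker_mirror hQ]
  refine perp_anti fun x hx => ?_
  obtain ⟨s, t, e⟩ := h
  have := congrArg (aeval A.1.toLinearMap · x) e
  simp only [map_add, LinearMap.add_apply, _root_.map_one, End.one_apply, mul_comm t,
    _root_.map_mul, End.mul_apply, LinearMap.mem_ker.1 hx, map_zero, zero_add] at this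
  exact ⟨_, this⟩

theorem spin_of_block (hQ : ND Q) (h2 : (2 : F) ≠ 0) {A : OG Q}
    (hA : ∀ x, A.1 (A.1 x) = x → x = 0) {r : F[X]} (hr : Irreducible r)
    (h : ¬ LinearMap.ker (aeval A.1.toLinearMap r) ≤ LinearMap.range (aeval A.1.toLinearMap r)) :
    ∃ h : OG Q, h * A = A * h ∧ dickF h = 1 ∧ spinF h = -1 := by
  set a := A.1.toLinearMap with ha
  obtain ⟨v, hv, h⟩ := SetLike.not_le_iff_exists.1 h
  rw [← hQ.perp_perp (LinearMap.range _), ← ker_mirror hQ, mem_perp] at h
  push Not at h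
  obtain ⟨w, hw, h⟩ := h
  have hr' : Irreducible r.mirror := (MulEquiv.irreducible_iff mirE).2 hr
  by_cases h1 : r ∣ r.mirror
  · obtain ⟨s, hs⟩ := (hr.associated_of_dvd hr' h1).symm.dvd
    replace hw : w ∈ LinearMap.ker (aeval a r) := by
      rw [LinearMap.mem_ker, hs, mul_comm, _root_.map_mul, End.mul_apply, LinearMap.mem_ker.1 hw,
        map_zero]
    obtain ⟨u, hu, h3⟩ : ∃ u ∈ LinearMap.ker (aeval a r), Q u ≠ 0 := by
      by_contra! h3
      exact h (TS.polar h3 hw hv)
    have h4 := cyc_irred hr hu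
    have h0 := (h4 _ inf_le_left fun x hx => ⟨cyc_inv x hx.1, perp_inv A cyc_inv x hx.2⟩).resolve_right
      fun h0 => mul_ne_zero h2 h3 ((polar_self' u).symm.trans
        (inf_eq_left.1 h0 (self_mem_cyc a u) u (self_mem_cyc a u)))
    obtain ⟨B₁, B₂, f, f1, -⟩ := exists_res hQ h0 A cyc_inv
    have : Nontrivial (cyc a u) := ⟨⟨⟨u, self_mem_cyc a u⟩, 0, fun e =>
      h3 (by rw [show u = 0 from congrArg Subtype.val e, map_zero])⟩⟩
    exact f ▸ (perpDec h0).spin_homL hQ h2 B₂ (spin_irred (nd_res_iff.2 h0) h2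
      (fun x hx => Subtype.ext (hA x (by rw [← f1, ← f1, hx]))) (irred_sub f1 h4))
  · have h3 := hr.coprime_iff_not_dvd.2 h1
    have l1 := cyc_le (ker_inv a _) hv
    have l2 := cyc_le (ker_inv a _) hw
    have i1 : cyc a v ≤ perp Q (cyc a v) := l1.trans (le_trans (by
      simpa only [mirror_mirror] using ker_isotropic hQ A (p := r.mirror)
        (by rwa [mirror_mirror])) (perp_anti l1))
    have i2 : cyc a w ≤ perp Q (cyc a w) :=
      l2.trans ((ker_isotropic hQ A h3.symm).trans (perp_anti l2))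
    have j1 := (cyc_irred hr hv _ inf_le_left fun x hx =>
      ⟨cyc_inv x hx.1, perp_inv A (cyc_inv (u := w)) x hx.2⟩).resolve_right fun h0 =>
        h (inf_eq_left.1 h0 (self_mem_cyc a v) w (self_mem_cyc a w))
    have j2 := (cyc_irred hr' hw _ inf_le_left fun x hx =>
      ⟨cyc_inv x hx.1, perp_inv A (cyc_inv (u := v)) x hx.2⟩).resolve_right fun h0 =>
        h ((pcomm _ _).trans (inf_eq_left.1 h0 (self_mem_cyc a w) v (self_mem_cyc a v)))
    have h0 : (cyc a v ⊔ cyc a w) ⊓ perp Q (cyc a v ⊔ cyc a w) = ⊥ := by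
      rw [eq_bot_iff]
      rintro _ ⟨hx', hz⟩
      obtain ⟨x, hx, y, hy, rfl⟩ := Submodule.mem_sup.1 hx'
      obtain ⟨z1, z2⟩ := mem_perp_sup.1 hz
      have e1 : x ∈ (⊥ : Submodule F V) := j1 ▸ ⟨hx, by simpa using Submodule.sub_mem _ z2 (i2 hy)⟩
      have e2 : y ∈ (⊥ : Submodule F V) := j2 ▸ ⟨hy, by simpa using Submodule.sub_mem _ z1 (i1 hx)⟩
      exact Submodule.add_mem _ e1 e2
    obtain ⟨B₁, B₂, f, f1, -⟩ := exists_res hQ h0 A fun x hx' => by
      obtain ⟨x, hx, y, hy, rfl⟩ := Submodule.mem_sup.1 hx'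
      rw [map_add]
      exact Submodule.add_mem_sup (cyc_inv x hx) (cyc_inv y hy)
    refine f ▸ (perpDec h0).spin_homL hQ h2 B₂ (spin_split (nd_res_iff.2 h0) h2
      (W := (cyc a v).comap (Submodule.subtype _)) (W' := (cyc a w).comap (Submodule.subtype _))
      (fun x hx => show (B₁.1 x : V) ∈ cyc a v from (f1 x).symm ▸ cyc_inv _ hx)
      (fun x hx => show (B₁.1 x : V) ∈ cyc a w from (f1 x).symm ▸ cyc_inv _ hx)
      (fun x hx y hy => i1 hx _ hy) (fun x hx y hy => i2 hx _ hy) ?_ (fun e => ?_) fun U h4 h5 => ?_)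
    · refine Submodule.map_injective_of_injective (Submodule.injective_subtype _) ?_
      rw [Submodule.map_sup, Submodule.map_comap_subtype, Submodule.map_comap_subtype,
        inf_eq_right.2 le_sup_left, inf_eq_right.2 le_sup_right, Submodule.map_subtype_top]
    · have : (⟨v, Submodule.mem_sup_left (self_mem_cyc a v)⟩ : ↥(cyc a v ⊔ cyc a w)) ∈
        (⊥ : Submodule F _) := e ▸ self_mem_cyc a v
      exact h (by rw [show v = 0 from congrArg Subtype.val this, polar_zero_right])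
    · refine (cyc_irred hr hv (U.map (Submodule.subtype _)) (Submodule.map_le_iff_le_comap.2 h4)
        (by rintro _ ⟨x, hx, rfl⟩; exact ⟨_, h5 x hx, f1 x⟩)).imp (fun e => ?_) fun e => ?_
      · exact Submodule.map_injective_of_injective (Submodule.injective_subtype _)
          (by rw [e, Submodule.map_bot])
      · exact (Submodule.comap_map_eq_of_injective (Submodule.injective_subtype _) U).symm.trans
          (congrArg _ e)

end lin

section cls

variable {G : Type*} [Group G] [Finite G]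

lemma card_cent_mul (x : G) : Nat.card (Subgroup.centralizer {x}) *
    (ConjClasses.mk x).carrier.ncard = Nat.card G := by
  rw [Subgroup.nat_card_centralizer_nat_card_stabilizer, ← ConjAct.orbit_eq_carrier_conjClasses,
    ← MulAction.index_stabilizer, Subgroup.card_mul_index]
  rfl

lemma sum_cent_le (A : Finset G) : ∑ x ∈ A, Nat.card (Subgroup.centralizer {x}) ≤
    (ConjClasses.mk '' (A : Set G)).ncard * Nat.card G := by
  classical
  rw [← Finset.coe_image, Set.ncard_coe_finset, ← Finset.sum_fiberwise_of_maps_to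
    (g := ConjClasses.mk) fun x hx => Finset.mem_image_of_mem _ hx, ← smul_eq_mul]
  refine Finset.sum_le_card_nsmul _ _ _ fun k hk => ?_
  obtain ⟨x, -, rfl⟩ := Finset.mem_image.1 hk
  have h0 : 0 < (ConjClasses.mk x).carrier.ncard :=
    (Set.ncard_pos (Set.toFinite _)).2 ⟨x, ConjClasses.mem_carrier_mk⟩
  rw [Finset.sum_congr rfl (g := fun _ => Nat.card (Subgroup.centralizer {x})) fun y hy =>
    Nat.eq_of_mul_eq_mul_right h0 (by
      rw [card_cent_mul, ← (Finset.mem_filter.1 hy).2, card_cent_mul]), Finset.sum_const,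
    smul_eq_mul, ← card_cent_mul x, mul_comm, ← Set.ncard_coe_finset]
  exact Nat.mul_le_mul_left _ (Set.ncard_le_ncard fun y hy =>
    ConjClasses.mem_carrier_iff_mk_eq.2 (Finset.mem_filter.1 hy).2)

lemma sum_cent (G : Type*) [Group G] [Fintype G] : ∑ x : G, Nat.card (Subgroup.centralizer {x}) =
    Nat.card (ConjClasses G) * Nat.card G := by
  rw [← card_comm_eq_card_conjClasses_mul_card, Nat.card_congr
    (Equiv.subtypeProdEquivSigmaSubtype Commute), Nat.card_sigma]
  exact Finset.sum_congr rfl fun x _ => Nat.card_congr (Equiv.subtypeEquivRight fun y => by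
    rw [Subgroup.mem_centralizer_singleton_iff, eq_comm]; rfl)

/-- class numbers of subgroups of index two -/
theorem card_conj_ker (φ : G →* ℤˣ) {g : G} (hg : φ g = -1) :
    Nat.card (ConjClasses G) ≤ 2 * Nat.card (ConjClasses φ.ker) ∧
    2 * Nat.card (ConjClasses φ.ker) ≤ Nat.card (ConjClasses G) +
      3 * (ConjClasses.mk '' {x | ∀ y, y * x = x * y → φ y = 1}).ncard := by
  classical
  have := Fintype.ofFinite G
  let c : G → ℕ := fun x => Nat.card (Subgroup.centralizer {x})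
  let p : G → ℕ := fun x => Nat.card {y : φ.ker // y.1 ∈ Subgroup.centralizer {x}}
  let A : Finset G := Finset.univ.filter fun x => ∀ y, y * x = x * y → φ y = 1
  have h1 : ∀ x, 2 * p x = c x + if x ∈ A then c x else 0 := fun x => by
    split_ifs with h
    · rw [two_mul, show p x = c x from Nat.card_congr ⟨fun y => ⟨y.1, y.2⟩, fun y =>
        ⟨⟨y.1, (Finset.mem_filter.1 h).2 _ (Subgroup.mem_centralizer_singleton_iff.1 y.2)⟩, y.2⟩,
        fun _ => rfl, fun _ => rfl⟩]
    · simp only [A, Finset.mem_filter, Finset.mem_univ, true_and, not_forall] at h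
      obtain ⟨y, h1, h2⟩ := h
      exact card_ker_inf φ _ (Subgroup.mem_centralizer_singleton_iff.2 h1)
        ((Int.units_eq_one_or _).resolve_left h2)
  have h2 : ∑ x, p x = ∑ y : φ.ker, c y := by
    rw [← Nat.card_sigma, ← Nat.card_sigma]
    exact Nat.card_congr ⟨fun z => ⟨z.2.1, z.1, Subgroup.mem_centralizer_singleton_iff.2
      (Subgroup.mem_centralizer_singleton_iff.1 z.2.2).symm⟩, fun z => ⟨z.2.1, z.1,
        Subgroup.mem_centralizer_singleton_iff.2
          (Subgroup.mem_centralizer_singleton_iff.1 z.2.2).symm⟩, fun _ => rfl, fun _ => rfl⟩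
  have h3 : ∑ y : φ.ker, p y = Nat.card (ConjClasses φ.ker) * Nat.card φ.ker := by
    rw [← sum_cent]
    exact Finset.sum_congr rfl fun x _ => Nat.card_congr (Equiv.subtypeEquivRight fun y => by
      simp only [Subgroup.mem_centralizer_singleton_iff, Subtype.ext_iff, Subgroup.coe_mul])
  have h4 : 2 * ∑ x, p x = ∑ x, c x + ∑ x ∈ A, c x := by
    rw [Finset.mul_sum, Finset.sum_congr rfl fun x _ => h1 x, Finset.sum_add_distrib,
      Finset.sum_ite_mem, Finset.univ_inter]
  have h5 : 2 * ∑ y : φ.ker, p y = ∑ y : φ.ker, c y + ∑ x ∈ A, c x := by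
    rw [Finset.mul_sum, Finset.sum_congr rfl fun (x : φ.ker) _ => h1 x, Finset.sum_add_distrib,
      ← Finset.sum_subtype (Finset.univ.filter (· ∈ φ.ker)) (by simp)
        fun x => if x ∈ A then c x else 0, Finset.sum_ite_mem, Finset.inter_eq_right.2]
    exact fun x hx => Finset.mem_filter.2 ⟨Finset.mem_univ _, (Finset.mem_filter.1 hx).2 x rfl⟩
  have h6 := sum_cent_le A
  have h7 : ∑ x, c x = _ := sum_cent G
  have h8 : 2 * Nat.card φ.ker = Nat.card G := by
    simpa using card_ker_inf φ ⊤ (Subgroup.mem_top g) hg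
  have h9 : 0 < Nat.card G := Nat.card_pos
  rw [show (A : Set G) = {x | ∀ y, y * x = x * y → φ y = 1} by simp [A]] at h6
  have h10 : 2 * Nat.card (ConjClasses φ.ker) * Nat.card G =
      Nat.card (ConjClasses G) * Nat.card G + 3 * ∑ x ∈ A, c x := by
    nth_rewrite 1 [← h8]
    linarith
  exact ⟨Nat.le_of_mul_le_mul_right (by omega) h9,
    Nat.le_of_mul_le_mul_right (by rw [h10, add_mul, mul_assoc]; gcongr) h9⟩

end cls

namespace Ob

variable {F : Type u} [Field F] [Finite F] {o o₁ o₂ : Ob F}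

/-- the centraliser has trivial spinor norm -/
def NS (o : Ob F) : Prop :=
  ∀ h : OG o.Q, (∀ x, h.1 (o.g x) = o.g (h.1 x)) → dickF h = 1 → spinF h = 1

lemma NS.sum (h2 : (2 : F) ≠ 0) (H : IsO o) (e : Sum o o₁ o₂) (h : NS o) : NS o₁ := by
  obtain ⟨D, -, h1⟩ := e
  intro k k1 k2
  rw [← D.spinF_homL H.nd (good_of_two_ne h2)]
  refine h _ (fun v => ?_) (by rwa [D.dickF_homL])
  obtain ⟨x, y, rfl⟩ := D.surj v
  simp [h1, k1]

lemma NS.neg (h : NS o) : NS (neg o) := fun k k1 =>
  h k fun x => neg_injective ((map_neg k.1 _).symm.trans (k1 x))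

lemma NS.mb_le (h2 : (2 : F) ≠ 0) (H : IsO o) (h : NS o) (d : DsA o o₁) : mb (o, o₁) ≤ 1 := by
  obtain ⟨-, D, -⟩ := d
  obtain ⟨h1, h3⟩ := H.gd.dim_le D
  obtain ⟨C, c1, c2⟩ := IsModularLattice.exists_inf_eq_and_sup_eq bot_le h3
  have h4 := Submodule.finrank_sup_add_finrank_inf_eq ((LinearMap.ker D.π).map o.W.subtype) C
  rw [c1, c2, finrank_bot, Submodule.finrank_map_subtype_eq] at h4
  have h5 : ∀ x ∈ C, o.g x = x := fun x hx => sub_eq_zero.1 (c2 ▸ Submodule.mem_sup_right hx :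
    x ∈ LinearMap.ker (o.g - 1))
  have h6 : ND (res o.Q C) := nd_res_iff.2 (eq_bot_iff.2 fun x hx => by
    have e1 : x ∈ o.W := by
      rw [show o.W = perp o.Q (LinearMap.ker (o.g - 1)) from (perp_fixS H.nd H.og).symm, ← c2]
      refine mem_perp_sup.2 ⟨mem_perp'.2 ?_, hx.2⟩
      rintro _ ⟨y, -, rfl⟩
      simpa [H.B_eq] using H.gd.fix (h5 x hx.1) y
    refine c1 ▸ ⟨⟨⟨x, e1⟩, D.nds _ fun w => ?_, rfl⟩, hx.1⟩
    obtain ⟨w, rfl⟩ := D.surj w
    rw [D.h1, H.gd.θ_add]
    exact H.gd.fix (h5 x hx.1) w)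
  by_contra h7
  have h8 : 2 ≤ finrank F C := by simp only [mb, fx] at *; omega
  obtain ⟨c, c0, hc⟩ := exists_nonsq h2
  obtain ⟨v, hv⟩ := h6.represents h8 1
  obtain ⟨w, hw⟩ := h6.represents h8 c
  replace hv : o.Q v = 1 := hv
  replace hw : o.Q w = c := hw
  have h9 : ∀ v : C, ∀ x, (refl o.Q v).1 (o.g x) = o.g ((refl o.Q v).1 x) := fun v x => by
    have := polar_map o.g H.isom v x
    rw [h5 v v.2] at this
    simp [refl_apply, this, h5 v v.2]
  have := h (refl o.Q v * refl o.Q w) (fun x => by simp [h9]) (by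
    rw [dickF_refl_mul H.nd _ (by simp [hv]), dickF_refl H.nd (by simpa [hw]), _root_.neg_neg])
  rw [spinF_mul H.nd (good_of_two_ne h2), spinF_refl H.nd (by simp [hv]),
    spinF_refl H.nd (by simpa [hw]), hv, hw, hc, chi_eq_one_iff.2 IsSquare.one] at this
  exact absurd this (by decide)

lemma NS.blk (h2 : (2 : F) ≠ 0) (H : o ∈ BO F) (h : NS o) {J : ℕ} {f : ℕ → F[X]}
    (hf : Blk o.g J f) : f 0 = 1 := by
  by_contra h0
  obtain ⟨r, r1, r2, r3⟩ := exists_monic_irreducible_factor (f 0)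
    ((hf.monic 0).isUnit_iff.not.2 h0)
  have h1 := hf.diff r2 r1 (Nat.pos_of_ne_zero fun h => h0 (hf.one 0 h.le))
  have h3 := Nat.mul_pos r2.natDegree_pos ((mlt_pos r2 r1 (hf.monic 0).ne_zero).2 r3)
  obtain ⟨k, k1, k2, k3⟩ := spin_of_block H.1.nd h2 (A := H.1.og) H.2 r2 fun h4 => by
    have : kd o.g (r ^ (0 + 2)) = 2 * kd o.g (r ^ (0 + 1)) := by
      rw [kd, kd, zero_add, zero_add, pow_two, pow_one, _root_.map_mul]
      exact kd_sq h4
    omega
  rw [h k (fun x => congrArg (·.1 x) k1) k2] at k3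
  exact absurd k3 (by decide)

variable {V : Type u} [AddCommGroup V] [Module F V] [FiniteDimensional F V]
  {Q : QuadraticForm F V}

theorem omega_bounds (h2 : (2 : F) ≠ 0) (hQ : ND Q) {n : ℕ} (h1 : 1 ≤ n)
    (hn : finrank F V = 2 * n + 1) :
    Nat.card F ^ n ≤ 2 * Nat.card (ConjClasses (commutator (OG Q))) ∧
      10 * Nat.card (ConjClasses (commutator (OG Q))) ≤ 73 * Nat.card F ^ n := by
  have := finite_OG Q
  have hG : Good Q := good_of_two_ne h2
  have d1 : dick hQ hG (negOne Q) = -1 := by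
    show dickF _ = _
    rw [dickF_negOne h2, hn, pow_succ, pow_mul]; simp
  obtain ⟨a1, a2⟩ := card_conj_ker (dick hQ hG) d1
  rw [Set.eq_empty_of_forall_notMem (s := {x | ∀ y, y * x = x * y → dick hQ hG y = 1})
    fun x hx => absurd ((hx _ (negOne_comm x)).symm.trans d1) (by decide), Set.image_empty,
    Set.ncard_empty] at a2
  obtain ⟨c, c0, hc⟩ := exists_nonsq h2
  obtain ⟨v, hv⟩ := hQ.represents (by omega) 1
  obtain ⟨w, hw⟩ := hQ.represents (by omega) c
  let ψ := (spin hQ hG).comp (dick hQ hG).ker.subtype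
  obtain ⟨b1, b2⟩ := card_conj_ker ψ (g := ⟨refl Q v * refl Q w, show dickF _ = 1 by
    rw [dickF_refl_mul hQ _ (by simp [hv]), dickF_refl hQ (by simpa [hw]), _root_.neg_neg]⟩)
    (show spinF (refl Q v * refl Q w) = _ by
      rw [spinF_mul hQ hG, spinF_refl hQ (by simp [hv]), spinF_refl hQ (by simpa [hw]), hv, hw, hc,
        chi_eq_one_iff.2 IsSquare.one, one_mul])
  have e : ψ.ker ≃* commutator (OG Q) :=
    ⟨⟨fun g => ⟨g.1.1, (mem_commutator_iff hQ hG _).2 ⟨g.1.2, g.2⟩⟩,
      fun g => ⟨⟨g.1, ((mem_commutator_iff hQ hG _).1 g.2).1⟩,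
        ((mem_commutator_iff hQ hG _).1 g.2).2⟩, fun _ => rfl, fun _ => rfl⟩, fun _ _ => rfl⟩
  rw [card_conj_congr e] at b1 b2
  have c1 := low_odd_dim h2 hQ hn
  have c2 := up_odd_dim h2 hQ hn
  obtain ⟨T, t1, t2⟩ := split_bound h2 Q (2 * n + 1) NS (fun _ _ _ => NS.sum h2)
    (fun _ _ => NS.neg) (fun _ _ => NS.mb_le h2) fun _ H h _ _ => h.blk h2 H
  set A : Set (dick hQ hG).ker := {x | ∀ y, y * x = x * y → ψ y = 1} with hA
  have hz : ∀ s : Bool, ∀ x, x * cond s (negOne Q) 1 = cond s (negOne Q) 1 * x := by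
    rintro (_ | _) x <;> simp [negOne_comm]
  have c3 := t1.le_real (j := 2) (n := n) (k := (ConjClasses.mk '' A).ncard * 2) t2 le_rfl (by
    have e1 := encard_image_le' (A := A ×ˢ (Set.univ : Set Bool))
      (f := fun p => (ConjClasses.mk p.1, p.2))
      (f' := fun p => ConjClasses.mk (cond p.2 (negOne Q) 1 * p.1.1)) fun p _ p' _ e => by
        obtain ⟨k, hk⟩ := isConj_iff.1 (ConjClasses.mk_eq_mk_iff_isConj.1 e)
        have e2 : p.2 = p'.2 := by
          have := congrArg (dick hQ hG) hk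
          rw [_root_.map_mul, _root_.map_mul, _root_.map_inv, mul_inv_cancel_comm, _root_.map_mul,
            _root_.map_mul, p.1.2, p'.1.2] at this
          revert this
          cases p.2 <;> cases p'.2 <;> simp [d1]
        rw [e2, ← mul_assoc, hz, mul_assoc, mul_assoc, mul_right_inj, ← mul_assoc] at hk
        refine Prod.ext (ConjClasses.mk_eq_mk_iff_isConj.2 (isConj_iff.2 ?_)) e2
        rcases Int.units_eq_one_or (dick hQ hG k) with h | h
        · exact ⟨⟨k, h⟩, Subtype.ext hk⟩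
        · refine ⟨⟨k * negOne Q, by simp [MonoidHom.mem_ker, h, d1]⟩, Subtype.ext ?_⟩
          show k * negOne Q * p.1.1 * (k * negOne Q)⁻¹ = _
          rw [mul_assoc k, negOne_comm, ← hk]
          group
    rw [show (fun p : (dick hQ hG).ker × Bool => (ConjClasses.mk p.1, p.2)) =
      Prod.map ConjClasses.mk id from rfl, Set.prodMap_image_prod, Set.encard_prod, Set.image_id,
      Set.encard_univ, ← Set.image_image (ConjClasses.mk (α := OG Q)), (modO Q).encard,
      ← (Set.toFinite _).cast_ncard_eq] at e1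
    refine le_trans (by simp) (e1.trans (Set.encard_le_encard ?_))
    rintro _ ⟨_, ⟨p, hp, rfl⟩, rfl⟩
    refine ⟨_, ⟨⟨isO_ob hQ _, Iso.refl _, fun k k1 k2 => hp.1 ⟨k, k2⟩ (Subtype.ext ?_)⟩, hn⟩, rfl⟩
    have : k * (cond p.2 (negOne Q) 1 * p.1.1) = cond p.2 (negOne Q) 1 * p.1.1 * k := OG.ext' k1
    rwa [← mul_assoc, hz, mul_assoc, mul_assoc, mul_right_inj] at this)
  constructor
  · omega
  · rify at a2 b2 c2 ⊢
    push_cast at c3
    linarith

end Ob

end CfsgH8
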