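import Cfsg.Agent.H1.Sp1
import Cfsg.Agent.S2622

set_option autoImplicit false
set_option linter.unusedSectionVars false

namespace CfsgH8

open Module LinearMap
open LinearMap (BilinForm)

variable {F V W W' : Type*} [Field F] [AddCommGroup V] [Module F V] [AddCommGroup W] [Module F W]
  [AddCommGroup W'] [Module F W']

lemma exists_half_form [FiniteDimensional F V] (δ : BilinForm F V) (h : ∀ x, δ x x = 0) :
    ∃ μ : BilinForm F V, ∀ x y, δ x y = μ x y - μ y x := by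
  let b := finBasis F V
  let μ : BilinForm F V := b.constr F fun i => b.constr F fun j => if i < j then δ (b i) (b j) else 0
  have : δ = μ - μ.flip := by
    refine LinearMap.ext_basis b b fun i j => ?_
    simp only [μ, LinearMap.sub_apply, BilinForm.flip_apply, Basis.constr_basis]
    rcases lt_trichotomy i j with h1 | rfl | h1
    · simp [h1, h1.not_gt]
    · simp [h]
    · simp [h1, h1.not_gt, BilinForm.IsAlt.neg_eq h]
  exact ⟨μ, fun x y => by rw [this]; rfl⟩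

lemma exists_sqrt_form [Finite F] [CharP F 2] (δ : BilinForm F V) (h : ∀ x y, δ x y + δ y x = 0) :
    ∃ l : V →ₗ[F] F, ∀ x, l x * l x = δ x x := by
  have hs : ∀ a : F, ∃ r, r * r = a := fun a => by
    obtain ⟨r, hr⟩ := FiniteField.isSquare_of_char_two (ringChar.eq F 2) a
    exact ⟨r, hr.symm⟩
  choose r hr using hs
  have hi : ∀ {a b : F}, a * a = b * b → a = b := fun h => by
    rcases mul_self_eq_mul_self_iff.1 h with h | h
    · exact h
    · rw [h, CharTwo.neg_eq]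
  have h2 : (2 : F) = 0 := CharTwo.two_eq_zero
  refine ⟨⟨⟨fun x => r (δ x x), fun x y => hi ?_⟩, fun c x => hi ?_⟩, fun x => hr _⟩
  · simp only [hr, map_add, LinearMap.add_apply]
    linear_combination h x y - hr (δ x x) - hr (δ y y) - r (δ x x) * r (δ y y) * h2
  · simp only [hr, map_smul, LinearMap.smul_apply, smul_eq_mul, RingHom.id_apply]
    linear_combination (-c * c) * hr (δ x x)

/-- a non-degenerate bilinear form lying over its symmetrisation -/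
structure TD (s : BilinForm F V) (g : End F V) (θ : BilinForm F W) where
  π : W →ₗ[F] V
  κ : V →ₗ[F] W
  surj : Function.Surjective π
  h1 : ∀ x y, s (π x) (π y) = θ x y + θ y x
  h2 : ∀ v x, θ (κ v) x = s v (π x)
  h3 : ∀ v, π (κ v) = v - g v
  nd : ∀ y, (∀ x, θ x y = 0) → y = 0
  nds : ∀ v, (∀ w, s v w = 0) → v = 0
  gs : Function.Surjective g

namespace TD

variable {s : BilinForm F V} {g : End F V} {θ : BilinForm F W} {θ' : BilinForm F W'}
  (D : TD s g θ) {C : Submodule F V}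

include D in
lemma symm (v w : V) : s v w = s w v := by
  obtain ⟨x, rfl⟩ := D.surj v
  obtain ⟨y, rfl⟩ := D.surj w
  rw [D.h1, D.h1, add_comm]

lemma h2' (v : V) (x : W) : θ x (D.κ v) = s (D.π x) (D.π (D.κ v)) - s v (D.π x) := by
  rw [D.h1, D.h2]; ring

/-- the complement -/
def R (γ : C →ₗ[F] W) : Submodule F W := ker (θ.compl₁₂ (D.κ.coprod γ) LinearMap.id).flip

lemma mem_R {γ : C →ₗ[F] W} {w : W} : w ∈ D.R γ ↔ ∀ x, θ (D.κ.coprod γ x) w = 0 :=
  LinearMap.ext_iff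

lemma π_R {γ : C →ₗ[F] W} (w : D.R γ) : D.π w = 0 := D.nds _ fun v => by
  simpa [D.h2, D.symm v] using D.mem_R.1 w.2 (v, 0)

lemma skew {x : W} (hx : D.π x = 0) (y : W) : θ x y = -θ y x := by
  have := D.h1 x y
  rw [hx, map_zero, LinearMap.zero_apply] at this
  linear_combination -this

lemma decomp (hC : IsCompl C (range (g - 1))) {γ : C →ₗ[F] W} (hγ : ∀ c, D.π (γ c) = c) {v : V}
    {c : C} (h : D.π (D.κ.coprod γ (v, c)) = 0) : c = 0 ∧ D.π (D.κ v) = 0 := by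
  rw [coprod_apply, map_add, hγ, D.h3] at h
  have : c = 0 := Subtype.ext ((Submodule.mem_bot F).1 (hC.inf_eq_bot ▸
    ⟨c.2, v, by
      rw [LinearMap.sub_apply, End.one_apply]; linear_combination (norm := module) -h⟩))
  exact ⟨this, by simpa [this, D.h3] using h⟩

lemma nd_j (hC : IsCompl C (range (g - 1))) {γ : C →ₗ[F] W} (hγ : ∀ c, D.π (γ c) = c)
    (x : V × C) (h : ∀ x', θ (D.κ.coprod γ x') (D.κ.coprod γ x) = 0) : x = 0 := by
  obtain ⟨v, c⟩ := x
  obtain ⟨rfl, h1⟩ := D.decomp hC hγ (D.nds _ fun w => by simpa [D.h2, D.symm w] using h (w, 0))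
  have : v = 0 := D.nds _ fun w => by
    obtain ⟨c, hc, _, ⟨u, rfl⟩, rfl⟩ := Submodule.mem_sup.1 (hC.sup_eq_top.ge (Submodule.mem_top (x := w)))
    have e1 := h (0, ⟨c, hc⟩)
    have e2 := D.h2' u (D.κ v)
    simp only [coprod_apply, map_zero, zero_add, add_zero, D.h2', h1, hγ] at e1
    rw [D.h2, h1, D.h3] at e2
    simp only [map_zero, LinearMap.zero_apply, sub_self, map_sub] at e2
    simp only [map_add, LinearMap.sub_apply, End.one_apply, map_sub]
    linear_combination -e1 - e2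
  simp [this]

variable [FiniteDimensional F W] [FiniteDimensional F W'] [FiniteDimensional F V]

lemma bij (hC : IsCompl C (range (g - 1))) {γ : C →ₗ[F] W} (hγ : ∀ c, D.π (γ c) = c) :
    Function.Bijective ((D.κ.coprod γ).coprod (D.R γ).subtype) := by
  refine ⟨(injective_iff_map_eq_zero _).2 ?_, fun w => ?_⟩
  · rintro ⟨x, r⟩ h
    have h : D.κ.coprod γ x + r = 0 := h
    obtain rfl : x = 0 := D.nd_j hC hγ x fun x' => by
      rw [eq_neg_of_add_eq_zero_left h, map_neg, D.mem_R.1 r.2, neg_zero]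
    simpa using h
  · let B : BilinForm F (V × C) := (θ.compl₁₂ (D.κ.coprod γ) (D.κ.coprod γ)).flip
    obtain ⟨x, hx⟩ := (BilinForm.toDual B (BilinForm.Nondegenerate.ofSeparatingLeft
      (D.nd_j hC hγ))).surjective (θ.flip w ∘ₗ D.κ.coprod γ)
    exact ⟨(x, ⟨w - D.κ.coprod γ x, D.mem_R.2 fun x' => by
      rw [map_sub, sub_eq_zero]; exact (LinearMap.congr_fun hx x').symm⟩), add_sub_cancel _ _⟩

lemma form {γ : C →ₗ[F] W} (x x' : V × C) (r r' : D.R γ) :
    θ (D.κ.coprod γ x + r) (D.κ.coprod γ x' + r') =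
      θ (D.κ.coprod γ x) (D.κ.coprod γ x') + θ r r' := by
  rw [map_add, map_add, LinearMap.add_apply, LinearMap.add_apply, D.mem_R.1 r'.2,
    D.skew (D.π_R r) (D.κ.coprod γ x'), D.mem_R.1 r.2]
  ring

lemma nd_R (hC : IsCompl C (range (g - 1))) {γ : C →ₗ[F] W} (hγ : ∀ c, D.π (γ c) = c)
    (r : D.R γ) (h : ∀ r', θ.restrict (D.R γ) r r' = 0) : r = 0 := Subtype.ext (D.nd _ fun w => by
  obtain ⟨⟨x, r'⟩, rfl⟩ := (D.bij hC hγ).2 w
  have : θ r r' = 0 := h r'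
  rw [coprod_apply, map_add, LinearMap.add_apply, D.mem_R.1 r.2, Submodule.subtype_apply,
    D.skew (D.π_R r'), this, neg_zero, add_zero])

lemma finrank_eq (hC : IsCompl C (range (g - 1))) {γ : C →ₗ[F] W} (hγ : ∀ c, D.π (γ c) = c) :
    finrank F W = finrank F V + finrank F (ker (g - 1)) + finrank F (D.R γ) := by
  have h1 := Submodule.finrank_add_eq_of_isCompl hC
  have h2 := (g - 1).finrank_range_add_finrank_ker
  rw [← (LinearEquiv.ofBijective _ (D.bij hC hγ)).finrank_eq, finrank_prod, finrank_prod]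
  omega

lemma nonalt_R (hC : IsCompl C (range (g - 1))) {γ : C →ₗ[F] W} (hγ : ∀ c, D.π (γ c) = c) {e : W}
    (h1 : D.π e = 0) (h2 : θ e e ≠ 0) : ∃ r, θ.restrict (D.R γ) r r ≠ 0 := by
  obtain ⟨⟨⟨v, c⟩, r⟩, rfl⟩ := (D.bij hC hγ).2 e
  refine ⟨r, fun h => h2 ?_⟩
  rw [coprod_apply, map_add, Submodule.subtype_apply, D.π_R, add_zero] at h1
  obtain ⟨rfl, h3⟩ := D.decomp hC hγ h1
  rw [coprod_apply, Submodule.subtype_apply, D.form, show θ r r = 0 from h]
  simp [D.h2, h3]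

lemma exists_lift (C : Submodule F V) : ∃ γ : C →ₗ[F] W, ∀ c, D.π (γ c) = c := by
  obtain ⟨σ, hσ⟩ := D.π.exists_rightInverse_of_surjective (range_eq_top.2 D.surj)
  exact ⟨σ ∘ₗ C.subtype, fun c => LinearMap.congr_fun hσ c⟩

lemma adjust (hC : IsCompl C (range (g - 1))) {γ : C →ₗ[F] W} (hγ : ∀ c, D.π (γ c) = c)
    (β : BilinForm F C) (hβ : ∀ c, β c c = θ (γ c) (γ c)) :
    ∃ γ' : C →ₗ[F] W, (∀ c, D.π (γ' c) = c) ∧ ∀ c d, θ (γ' c) (γ' d) = β c d := by
  obtain ⟨μ, hμ⟩ := exists_half_form (β - θ.compl₁₂ γ γ) fun c => by simp [hβ]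
  have hs : s.Nondegenerate := BilinForm.Nondegenerate.ofSeparatingLeft D.nds
  let ρ : C →ₗ[F] V := (BilinForm.toDual s hs).symm.toLinearMap ∘ₗ
    μ.compl₁₂ LinearMap.id (C.projectionOnto _ hC)
  have h1 : ∀ c v, s (ρ c) v = μ c (C.projectionOnto _ hC v) := fun c v =>
    BilinForm.apply_toDual_symm_apply (hB := hs) _ _
  have h2 : ∀ c v, s (ρ c) (D.π (D.κ v)) = 0 := fun c v => by
    rw [h1, D.h3, ← neg_sub (g v), map_neg, Submodule.projectionOnto_apply_of_mem_right hC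
      (x := g v - v) ⟨v, rfl⟩, neg_zero, map_zero]
  have h3 : ∀ c, D.π (D.κ (ρ c)) = 0 := fun c => D.nds _ fun w => by
    obtain ⟨w, rfl⟩ := D.gs w
    have := D.h2' w (D.κ (ρ c))
    rw [D.h2, h2, D.h3 w, map_sub, D.symm w] at this
    linear_combination this
  refine ⟨γ + D.κ ∘ₗ ρ, fun c => by simp [hγ, h3], fun c d => ?_⟩
  have := hμ c d
  simp only [LinearMap.add_apply, comp_apply, map_add, D.h2, D.h2' (ρ d) (γ c), h3, hγ, h1,
    map_zero, Submodule.projectionOnto_apply_left, LinearMap.sub_apply, compl₁₂_apply] at this ⊢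
  linear_combination -this

lemma core (D' : TD s g θ') (hC : IsCompl C (range (g - 1))) {γ : C →ₗ[F] W}
    (hγ : ∀ c, D.π (γ c) = c) {γ' : C →ₗ[F] W'} (hγ' : ∀ c, D'.π (γ' c) = c)
    (h : ∀ c d, θ' (γ' c) (γ' d) = θ (γ c) (γ d)) (ρ : D.R γ ≃ₗ[F] D'.R γ')
    (hρ : ∀ r r', θ' (ρ r) (ρ r') = θ r r') :
    ∃ ψ : W ≃ₗ[F] W', ∀ x y, θ' (ψ x) (ψ y) = θ x y := by
  let e := LinearEquiv.ofBijective _ (D.bij hC hγ)
  refine ⟨e.symm ≪≫ₗ (LinearEquiv.refl F _).prodCongr ρ ≪≫ₗ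
    LinearEquiv.ofBijective _ (D'.bij hC hγ'), fun x y => ?_⟩
  obtain ⟨⟨⟨v, c⟩, r⟩, rfl⟩ := e.surjective x
  obtain ⟨⟨⟨v', c'⟩, r'⟩, rfl⟩ := e.surjective y
  simp only [LinearEquiv.trans_apply, LinearEquiv.symm_apply_apply]
  refine (D'.form _ _ _ _).trans (Eq.trans ?_ (D.form _ _ _ _).symm)
  simp [hρ, h, D.h2, D'.h2, D.h2' v' (γ c), D'.h2' v' (γ' c), D.h3, D'.h3, hγ, hγ']

lemma dim_alt (h : ∀ x, D.π x = 0 → θ x x = 0) :
    ∃ m, finrank F W = finrank F V + finrank F (ker (g - 1)) + 2 * m := by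
  obtain ⟨C, hC⟩ := (range (g - 1)).exists_isCompl
  obtain ⟨γ, hγ⟩ := D.exists_lift C
  obtain ⟨m, hm⟩ := CfsgH1.even_finrank_of_alt (B := θ.restrict (D.R γ))
    (fun r => h _ (D.π_R r)) (D.nd_R hC.symm hγ)
  exact ⟨m, by rw [D.finrank_eq hC.symm hγ, hm, two_mul]⟩

lemma dim_nonalt {e : W} (h1 : D.π e = 0) (h2 : θ e e ≠ 0) :
    ∃ m, finrank F W = finrank F V + finrank F (ker (g - 1)) + (m + 1) := by
  obtain ⟨C, hC⟩ := (range (g - 1)).exists_isCompl
  obtain ⟨γ, hγ⟩ := D.exists_lift C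
  obtain ⟨r, hr⟩ := D.nonalt_R hC.symm hγ h1 h2
  have : Nontrivial (D.R γ) := ⟨r, 0, by rintro rfl; simp at hr⟩
  have := finrank_pos (R := F) (M := D.R γ)
  exact ⟨finrank F (D.R γ) - 1, by rw [D.finrank_eq hC.symm hγ]; omega⟩

theorem equiv_alt (D' : TD s g θ') (hd : finrank F W = finrank F W')
    (hq : ∀ x x', D'.π x' = D.π x → θ' x' x' = θ x x) :
    ∃ ψ : W ≃ₗ[F] W', ∀ x y, θ' (ψ x) (ψ y) = θ x y := by
  obtain ⟨C, hC⟩ := (range (g - 1)).exists_isCompl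
  obtain ⟨γ, hγ⟩ := D.exists_lift C
  obtain ⟨γ₀, hγ₀⟩ := D'.exists_lift C
  obtain ⟨γ', h1, h2⟩ := D'.adjust hC.symm hγ₀ (θ.compl₁₂ γ γ)
    fun c => (hq _ _ (by rw [hγ, hγ₀])).symm
  obtain ⟨ρ, hρ⟩ := CfsgH1.exists_alt_equiv (B := θ.restrict (D.R γ)) (B' := θ'.restrict (D'.R γ'))
    (fun r => (hq r 0 (by simp [D.π_R])).symm.trans (by simp)) (D.nd_R hC.symm hγ)
    (fun r => (hq 0 r (by simp [D'.π_R])).trans (by simp)) (D'.nd_R hC.symm h1) (by
      have := D.finrank_eq hC.symm hγ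
      have := D'.finrank_eq hC.symm h1
      omega)
  exact D.core D' hC.symm hγ h1 h2 ρ hρ

lemma orthon [Finite F] [CharP F 2] (hC : IsCompl C (range (g - 1))) {γ : C →ₗ[F] W}
    (hγ : ∀ c, D.π (γ c) = c) {e : W} (h1 : D.π e = 0) (h2 : θ e e ≠ 0) {n : ℕ}
    (hn : finrank F (D.R γ) = n) :
    ∃ b : Basis (Fin n) F (D.R γ), ∀ i j, θ (b i) (b j) = if i = j then 1 else 0 :=
  Cfsg.Agent.S2622.result hn (BilinForm.restrict _ _)
    ⟨fun x y => (D.skew (D.π_R x) y).trans (CharTwo.neg_eq _)⟩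
    (BilinForm.Nondegenerate.ofSeparatingLeft (D.nd_R hC hγ)) (D.nonalt_R hC hγ h1 h2)

theorem equiv_nonalt [Finite F] [CharP F 2] (D' : TD s g θ') (hd : finrank F W = finrank F W')
    {e : W} (h1 : D.π e = 0) (h2 : θ e e ≠ 0) {e' : W'} (h1' : D'.π e' = 0) (h2' : θ' e' e' ≠ 0) :
    ∃ ψ : W ≃ₗ[F] W', ∀ x y, θ' (ψ x) (ψ y) = θ x y := by
  obtain ⟨C, hC⟩ := (range (g - 1)).exists_isCompl
  obtain ⟨γ, hγ⟩ := D.exists_lift C
  obtain ⟨γ₀, hγ₀⟩ := D'.exists_lift C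
  obtain ⟨l, hl⟩ := exists_sqrt_form ((θ' e' e')⁻¹ • (θ.compl₁₂ γ γ - θ'.compl₁₂ γ₀ γ₀))
    fun c d => by
      have e1 := D.h1 (γ c) (γ d)
      have e2 := D'.h1 (γ₀ c) (γ₀ d)
      simp only [hγ, hγ₀, LinearMap.smul_apply, LinearMap.sub_apply, compl₁₂_apply,
        smul_eq_mul] at e1 e2 ⊢
      linear_combination (θ' e' e')⁻¹ * (e2 - e1)
  obtain ⟨γ', h3, h4⟩ := D'.adjust hC.symm (γ := γ₀ + l.smulRight e') (fun c => by simp [hγ₀, h1'])
    (θ.compl₁₂ γ γ) fun c => by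
      have := hl c
      simp only [LinearMap.smul_apply, LinearMap.sub_apply, compl₁₂_apply, smul_eq_mul,
        LinearMap.add_apply, smulRight_apply, map_add, map_smul, D'.skew h1' (γ₀ c)] at this ⊢
      field_simp at this
      linear_combination -this
  obtain ⟨b, hb⟩ := D.orthon hC.symm hγ h1 h2 rfl
  obtain ⟨b', hb'⟩ := D'.orthon hC.symm h3 h1' h2' (show finrank F (D'.R γ') = finrank F (D.R γ) by
    have := D.finrank_eq hC.symm hγ
    have := D'.finrank_eq hC.symm h3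
    omega)
  refine D.core D' hC.symm hγ h3 h4 (b.equiv b' (Equiv.refl _)) fun r r' => ?_
  have : (θ'.restrict (D'.R γ')).compl₁₂ (b.equiv b' (Equiv.refl _)).toLinearMap
      (b.equiv b' (Equiv.refl _)).toLinearMap = θ.restrict (D.R γ) :=
    LinearMap.ext_basis b b fun i j => by simpa [hb'] using (hb i j).symm
  exact LinearMap.congr_fun₂ this r r'

end TD

end CfsgH8
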