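import Cfsg.Agent.H8.Chev4
import Cfsg.Prelude.Def_ChevB2

set_option autoImplicit false
set_option maxRecDepth 100000

namespace CfsgH8

noncomputable def tabB2 : Tab where
  l := 2
  n := 8
  W := 26
  Wm := 67108863
  P := [
    0xe05000481000000000000000000000000000000000000400c001403,
    0x9033820000000000301a407205000000000140300000000000000004810001004,
    0x703c824000c070000000000000701c810000000000300c0000000003814001405,
    0x120800000000000000000000000e0400000000000000005018000c06,
    0x482400000000000000000000003814000000000301c001407,
    0x140a0000001c14e0900000000000000005019c0ce040004820000c08,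
    0x30280000009053820001407000000240f2050003824001009,
    0xe0900048200000000004028000c0a]
  RT := 0x9a99899878877776
  CT := 0xa76a
  NP := [
    0x381c000e090003814000e0a000380c000e080003810000e069014804000e01,
    0x4828000e080004824000e06000381c0012040003814001203000380a805201]
  WT := 0x7050603040102000406020700050103
  ET := 0x5aff
  DEP := 0x101000001010202
  REP := 3
  SI := 0x405
  FW := [16, 1]
  CM := [
    [(1, 1, 1, 1), (3, -1, 2, 1)],
    [(3, -2, 1, 1)],
    [],
    [],
    [(6, 1, 1, 1), (7, -1, 2, 1)],
    [],
    [(7, -2, 1, 1)],
    [],
    [],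
    [(2, 1, 1, 1), (0, -1, 1, 2)],
    [],
    [],
    [],
    [(6, -1, 1, 1), (7, 1, 1, 2)],
    [],
    []]

end CfsgH8
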