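import Cfsg.Agent.H8.Chev4
import Cfsg.Prelude.Def_ChevD4

set_option autoImplicit false
set_option maxRecDepth 100000

namespace CfsgH8

noncomputable def tabD4 : Tab where
  l := 4
  n := 24
  W := 13
  Wm := 8191
  P := [
    0x383a41b20c7058002412e08703c818000000000000000000000000000000000000000000000802c01640b005,
    0x7098001c20e0f000382e4140000000002411207000000240a000000000000000000000000000009034819c0d206,
    0x90a3844000000707b83000120a00000024120009030000000e0500000000000000000000000000703c81e00f207,
    0x90ab848000000708383400000090500000012090004818000000702800000000000000000000009043822011208,
    0x70b0001c24e1100038380000000004828000000904481c00000000048140000000000000000000704b826413209,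
    0x3859c2ae14709800000000000000000000000000002413208903c81800000000000000000008054029c1540a,
    0x90c485c0000000000000000e10707800241b20c00000000000000000001c0ce050000000000000905c82e016e0b,
    0x70c800242e0000000001c22000000383e41c00090580000000000000001c0e00090280000000007064832418e0c,
    0x70d00000012170000001c24000000384000120e000482c0000000000001c100000004814000000906b83641ae0d,
    0x90d800000000090b8000000e127088000000000906c8300000000000001c120000000001c0a000707383a81ce0e,
    0x4866430000000000242921300000000000000000001c18e0b0000000000e077030000000000807d03dc1f00f,
    0x4868001218000000242a00090980000000000000001c1a0007058000000e080003818000000a084041c21010,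
    0x243600090c800000121600048500000000000000000e0e00038300000007048001c0e000608c046423011,
    0x121b90d000000000090b4854000000000000000000070738340000000003825c10000809304a425012,
    0x487000000000048600000000000001c2ae1400000000012109078000000e0a0000000000e06909c84d827213,
    0x1c3800000048640000000000001c2c0007098002422000000483c000000705000000120770a4851c29214,
    0xe1c00048680000000000000000e16000384e4240000004840000000000382800120890ab855c2b215,
    0x90e486c000000000000000000070ab85000121290880000000000000001c14e0970b385a02d216,
    0x1c36e1a70cb8600000000000000000000000000000120e906c83241600080bc05e42ec17,
    0x1c380000000001c34e190000001c2e0000000002426000908483c00120b90c4861c30e18,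
    0x121c0000001c3600070c0000000e170000002429211000000241ee0c70cc866032e19,
    0x90e0000000e1b000386000000070b800242b2120000002420e0d90d386a034e1a,
    0x387000000070d3864000000000385e42c000909484400120e70db86e436e1b,
    0x1c3721a90cb86000121670ab85242600080e4071c3901c]
  RT := 0x99a999998999989988998889999889989898889889889888788887888878787887787778888788777877877777777767
  CT := 0xa8788a7877a7887a
  NP := [
    0x48700012160004854001214000484c000e0a000386c000e1a0003864000e180004848001211000484000120f0003824000e08000381c000e06000385c00120e000483400120c000482c00120500048100012039014804000e01,
    0x386c00121c0004868001219000385c00121800048580012120004844000e0e0003854000e140003834000e0c000384c001210000483c00120b0004824000e0a00048200012070004814000e06902480a407202000380a405201,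
    0x4870000e19000386000121b00048680012170003850000e130004858001215000383c0012110004840000e12000483000120b0003838000e0d00048280012070004818000e0900038200012050004810000e03901c808001201,
    0x4870000e1a000486c000e1800048640012170003854001216000384c0012140004848000e10000384400120f0004834000e0e000482c000e0c00048280012080003824001206000381c00120500038100012039024808001201]
  WT := 0x17151613141210110e0f0d0b0c0a080906070503040102001714131615120f0e11100a0c0b0d07060908050201040300161715141213110d0c09100f08070e0b0a060405030200011711100f0e05161514130d0c0b0a04030201120908070600
  ET := 0x52994a6324c6887e1107c3e0
  DEP := 0x40302020100040303020404050503040405010203030405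
  REP := 1
  SI := 0xc0d0e12
  FW := [4096, 256, 16, 1]
  CM := [
    [],
    [(6, -1, 1, 1)],
    [(7, -1, 1, 1)],
    [(8, -1, 1, 1)],
    [(9, -1, 1, 1)],
    [],
    [],
    [],
    [],
    [],
    [],
    [],
    [],
    [],
    [(19, 1, 1, 1)],
    [(20, 1, 1, 1)],
    [(21, 1, 1, 1)],
    [(22, 1, 1, 1)],
    [],
    [],
    [],
    [],
    [],
    []]

end CfsgH8
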