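import Cfsg.Agent.H8.Chev4
import Cfsg.Prelude.Def_ChevG2

set_option autoImplicit false
set_option maxRecDepth 100000

namespace CfsgH8

noncomputable def tabG2 : Tab where
  l := 2
  n := 12
  W := 39
  Wm := 549755813887
  P := [
    0xe080000001c0c00000048140000000000000001204000000000000000000000000000000000000000000000000000000000000000009018000001003,
    0x70480000000000000001c0e00000000000000009028000000000000000240600000000000000000000000000000000000000000000000000000007020000001604,
    0x1c08e07705c80e40ce0a0000000000000b02501c000a03603000000000000000000000000005810000000b018000000000000000000000000000000000008028000001205,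
    0x1c1120a906000000000000028228140000000000000000504480dc0b2070000000000000b01b0140000000000000000a03000000000000000000000000009030000000e06,
    0x4825c1720c000582581600000028240000000000000000000702481640c0000000000000a04a028000000a04000000000000000000000000007038000001407,
    0x90680000000000000000000000000482800000000000000000000000000000000000381800000000000000000000000001c060000000000000000a040000000a08,
    0x120e000000000000000000000000009058000000000000000000000000000000000007038000000000000000000000000038100000006048000001609,
    0x2c1a000506b0300000000004836418e0b00000000000000000000000000b040002c114067043819c0a00000000000000009050000000c0a,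
    0x2c1c000000000000160ea0600000000007073831c1400000058240000000000001412c070000000001209903b814000000705800000120b,
    0x283800000050680000000000000000000000507502c00160d6050000000000707482e40f20d70548180000008060000000e0c,
    0xe0e00000000000000003830000000000000000120a000000000000000048200000009068000000a0d,
    0x1c1a0000000000000000706000000120b00000024120000000000000000707000000100e]
  RT := 0xab9b9a998998788777767565
  CT := 0xa75a
  NP := [
    0x4838000e09000382c00120c000381c00120d0004810000e0a0004814000e0600038200012039014804000e01,
    0x383400120e0004830000e0a000482c000e080003824001206000381c001205000480c000e04000380ac05201]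
  WT := 0xa0b090708050603040200010b060809040a010702030500
  ET := 0x969696
  DEP := 0x20102010000010102030203
  REP := 3
  SI := 0x607
  FW := [16, 1]
  CM := [
    [],
    [(2, 1, 1, 1), (3, -1, 2, 1), (5, 1, 3, 1), (0, 1, 3, 2)],
    [(3, -2, 1, 1), (0, 3, 1, 2), (5, 3, 2, 1)],
    [(5, -3, 1, 1)],
    [],
    [],
    [(8, 1, 1, 1), (9, 1, 2, 1), (10, -1, 3, 1), (11, -1, 3, 2)],
    [],
    [(9, 2, 1, 1), (11, -3, 1, 2), (10, -3, 2, 1)],
    [(10, -3, 1, 1)],
    [],
    [],
    [(1, 1, 1, 1)],
    [],
    [],
    [(4, 1, 1, 1), (2, 1, 1, 2), (0, 1, 1, 3), (1, 2, 2, 3)],
    [],
    [],
    [],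
    [(8, -1, 1, 1), (9, -1, 1, 2), (10, 1, 1, 3), (11, -2, 2, 3)],
    [],
    [],
    [(11, -1, 1, 1)],
    []]

end CfsgH8
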