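import Cfsg.Agent.H8.Basic

set_option autoImplicit false
set_option linter.unusedSimpArgs false
set_option linter.unusedSectionVars false

namespace CfsgH8

open QuadraticMap hiding map_add map_sub map_smul map_zero map_neg sq

/-- cyclic compositions -/
structure CC (F V : Type*) [Field F] [AddCommGroup V] [Module F V] where
  n : QuadraticForm F V
  ρ : F ≃+* F
  m : V → V → V
  ρ3 : ∀ s, ρ (ρ (ρ s)) = s
  nd : ND n
  al : ∀ x y z, m (x + y) z = m x z + m y z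
  ar : ∀ x y z, m x (y + z) = m x y + m x z
  sl : ∀ (s : F) x y, m (s • x) y = ρ s • m x y
  sr : ∀ (s : F) x y, m x (s • y) = ρ (ρ s) • m x y
  nm : ∀ x y, n (m x y) = ρ (n x) * ρ (ρ (n y))
  cyc : ∀ x y z, polar n (m x y) z = ρ (polar n (m y z) x)

namespace CC

variable {F V : Type*} [Field F] [AddCommGroup V] [Module F V] (C : CC F V)

local infixl:70 " ⋆ " => C.m
local notation "B" => polar C.n

theorem zl (y : V) : 0 ⋆ y = 0 := by simpa using C.sl 0 0 y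

theorem zr (y : V) : y ⋆ 0 = 0 := by simpa using C.sr 0 y 0

theorem nl (x y : V) : (-x) ⋆ y = -(x ⋆ y) := by simpa using C.sl (-1) x y

theorem nr (x y : V) : x ⋆ (-y) = -(x ⋆ y) := by simpa using C.sr (-1) x y

theorem bl (x y z : V) : (x - y) ⋆ z = x ⋆ z - y ⋆ z := by
  rw [sub_eq_add_neg, C.al, C.nl, sub_eq_add_neg]

theorem br (x y z : V) : x ⋆ (y - z) = x ⋆ y - x ⋆ z := by
  rw [sub_eq_add_neg, C.ar, C.nr, sub_eq_add_neg]

theorem cyc2 (x y z : V) : B (x ⋆ y) z = C.ρ (C.ρ (B (z ⋆ x) y)) := by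
  rw [C.cyc z x y, C.ρ3]

theorem pl (x y z : V) : B (x ⋆ y) (x ⋆ z) = C.ρ (C.n x) * C.ρ (C.ρ (B y z)) := by
  have := C.nm x (y + z)
  rw [C.ar, Q_add, Q_add, C.nm, C.nm, map_add, map_add, map_add, map_add] at this
  linear_combination this

theorem pr (x y z : V) : B (x ⋆ z) (y ⋆ z) = C.ρ (B x y) * C.ρ (C.ρ (C.n z)) := by
  have := C.nm (x + y) z
  rw [C.al, Q_add, Q_add, C.nm, C.nm, map_add, map_add] at this
  linear_combination this

theorem p4 (x y z w : V) :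
    B (x ⋆ y) (z ⋆ w) + B (x ⋆ w) (z ⋆ y) = C.ρ (B x z) * C.ρ (C.ρ (B y w)) := by
  have := C.pl (x + z) y w
  rw [C.al, C.al, Q_add, polar_add_left, polar_add_right, polar_add_right, C.pl, C.pl, map_add,
    map_add, pcomm (z ⋆ y)] at this
  linear_combination this

theorem fl (x y : V) : (x ⋆ y) ⋆ x = C.ρ (C.ρ (C.n x)) • y :=
  C.nd.ext fun z => by rw [C.cyc, C.pl, map_mul, C.ρ3, polar_sl, pcomm]

theorem fr (x y : V) : x ⋆ (y ⋆ x) = C.ρ (C.n x) • y :=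
  C.nd.ext fun z => by
    rw [C.cyc2, C.pr, map_mul, map_mul, C.ρ3, C.ρ3, polar_sl, pcomm, mul_comm]

theorem fl2 (x y z : V) : (x ⋆ y) ⋆ z = C.ρ (C.ρ (B x z)) • y - (z ⋆ y) ⋆ x := by
  have := C.fl (x + z) y
  rw [C.al, C.al, C.ar, C.ar, C.fl, C.fl, Q_add, map_add, map_add, map_add, map_add] at this
  linear_combination (norm := module) this

theorem fr2 (x y z : V) : x ⋆ (y ⋆ z) = C.ρ (B x z) • y - z ⋆ (y ⋆ x) := by
  have := C.fr (x + z) y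
  rw [C.ar, C.al, C.ar, C.ar, C.fr, C.fr, Q_add, map_add, map_add] at this
  linear_combination (norm := module) this

variable {C}

theorem sing {a : V} (h : a ⋆ a = 0) : C.n a = 0 := by
  have := C.nm a a
  rw [h, map_zero, eq_comm, mul_eq_zero] at this
  simpa using this

theorem baa {a : V} (h : a ⋆ a = 0) : B a a = 0 := by rw [polar_self', sing h, mul_zero]

theorem kerL {a x y : V} (h : a ≠ 0) (hx : a ⋆ x = 0) (hy : a ⋆ y = 0) : B x y = 0 := by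
  have := C.fr2 x a y
  rw [hx, hy, C.zr, C.zr, sub_zero, eq_comm, smul_eq_zero] at this
  simpa [h] using this

theorem kerR {a x y : V} (h : a ≠ 0) (hx : x ⋆ a = 0) (hy : y ⋆ a = 0) : B x y = 0 := by
  have := C.fl2 x a y
  rw [hx, hy, C.zl, C.zl, sub_zero, eq_comm, smul_eq_zero] at this
  simpa [h] using this

theorem singL {a x : V} (h : a ≠ 0) (hx : a ⋆ x = 0) : C.n x = 0 := by
  have := C.fr x a
  rw [hx, C.zr, eq_comm, smul_eq_zero] at this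
  simpa [h] using this

theorem sq_sq {x : V} (h : C.n x = 0) : (x ⋆ x) ⋆ (x ⋆ x) = B (x ⋆ x) x • x := by
  rw [C.fr2, C.fr, h, map_zero, zero_smul, C.zr, sub_zero, ← C.cyc]

variable (C) in
/-- the plane at an absolute point -/
def J (a v : V) : Prop := a ⋆ v = 0 ∧ v ⋆ a = 0

theorem J_l {a z : V} (h : a ⋆ a = 0) (hz : B a z = 0) : C.J a (a ⋆ z) :=
  ⟨by rw [C.fr2, hz, h, C.zr]; simp, by rw [C.fl, sing h]; simp⟩

theorem J_r {a z : V} (h : a ⋆ a = 0) (hz : B a z = 0) : C.J a (z ⋆ a) :=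
  ⟨by rw [C.fr, sing h]; simp, by rw [C.fl2, pcomm, hz, h, C.zl]; simp⟩

theorem J.add_smul {a v : V} (h : a ⋆ a = 0) (hv : C.J a v) (s : F) : C.J a (v + s • a) :=
  ⟨by rw [C.ar, C.sr, h, hv.1]; simp, by rw [C.al, C.sl, h, hv.2]; simp⟩

theorem eq_smul {a c x : V} (h : B a c = 1) (hx : ∀ t, B a t = 0 → B x t = 0) :
    x = B x c • a :=
  C.nd.ext fun y => by
    have := hx (y - B a y • c) (by rw [polar_sub_right, polar_sr, h, mul_one, sub_self])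
    rw [polar_sub_right, polar_sr] at this
    rw [polar_sl]
    linear_combination this

theorem ne_zero_of {a c : V} (h : B a c = 1) : a ≠ 0 := by
  rintro rfl
  simp at h

theorem JJ {a c x y : V} (h : B a c = 1) (hx : a ⋆ x = 0) (hy : y ⋆ a = 0) :
    x ⋆ y = B (x ⋆ y) c • a :=
  eq_smul h fun t ht => by
    rw [C.cyc2, kerR (ne_zero_of h) _ hy, map_zero, map_zero]
    rw [C.fl2, pcomm, ht, hx, C.zl]
    simp

variable (C) in
/-- a pair of opposite absolute points -/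
structure Fr (a c : V) : Prop where
  aa : a ⋆ a = 0
  cc : c ⋆ c = 0
  ac : B a c = 1

variable (C) in
/-- the part of the plane at `a` perpendicular to `c` -/
structure Vv (a c v : V) : Prop where
  l : a ⋆ v = 0
  r : v ⋆ a = 0
  o : B v c = 0

theorem Vv.zero {a c : V} : C.Vv a c 0 := ⟨C.zr _, C.zl _, by simp⟩

theorem Vv.add {a c v w : V} (h : C.Vv a c v) (h' : C.Vv a c w) : C.Vv a c (v + w) :=
  ⟨by rw [C.ar, h.l, h'.l, add_zero], by rw [C.al, h.r, h'.r, add_zero],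
    by rw [polar_add_left, h.o, h'.o, add_zero]⟩

theorem Vv.smul {a c v : V} (h : C.Vv a c v) (s : F) : C.Vv a c (s • v) :=
  ⟨by rw [C.sr, h.l, smul_zero], by rw [C.sl, h.r, smul_zero], by rw [polar_sl, h.o, mul_zero]⟩

namespace Fr

variable {a c v w : V} (h : C.Fr a c)
include h

theorem symm : C.Fr c a := ⟨h.cc, h.aa, (pcomm _ _).trans h.ac⟩

theorem ca : B c a = 1 := h.symm.ac

theorem ne : a ≠ 0 := ne_zero_of h.ac

theorem na : C.n a = 0 := sing h.aa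

theorem baa : B a a = 0 := CC.baa h.aa

theorem ap : a ⋆ (a ⋆ c) = a := by rw [C.fr2, h.ac, h.aa, C.zr]; simp

theorem aq : a ⋆ (c ⋆ a) = 0 := by rw [C.fr, h.na]; simp

theorem pa : (a ⋆ c) ⋆ a = 0 := by rw [C.fl, h.na]; simp

theorem qa : (c ⋆ a) ⋆ a = a := by rw [C.fl2, h.ca, h.aa, C.zl]; simp

theorem bpa : B (a ⋆ c) a = 0 := by rw [C.cyc2, h.aa]; simp

theorem bpc : B (a ⋆ c) c = 0 := by rw [C.cyc, h.cc]; simp

theorem np : C.n (a ⋆ c) = 0 := by rw [C.nm, h.na]; simp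

theorem bpp : B (a ⋆ c) (a ⋆ c) = 0 := by rw [polar_self', h.np, mul_zero]

theorem bpq : B (a ⋆ c) (c ⋆ a) = 1 := by
  have := C.p4 a c c a
  rw [h.aa, h.ac, h.ca] at this
  simpa using this

theorem pp : (a ⋆ c) ⋆ (a ⋆ c) = -(c ⋆ a) := by rw [C.fr2, h.bpc, h.ap]; simp

theorem pq : (a ⋆ c) ⋆ (c ⋆ a) = 0 := by rw [C.fr2, h.bpa, h.symm.aq, C.zr]; simp

theorem bva (hv : C.Vv a c v) : B v a = 0 := kerL h.ne hv.l h.aa

theorem bpv (hv : C.Vv a c v) : B (a ⋆ c) v = 0 := by rw [C.cyc2, hv.r]; simp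

theorem bqv (hv : C.Vv a c v) : B (c ⋆ a) v = 0 := by rw [C.cyc, hv.l]; simp

theorem nv (hv : C.Vv a c v) : C.n v = 0 := singL h.ne hv.l

theorem bvw (hv : C.Vv a c v) (hw : C.Vv a c w) : B v w = 0 := kerL h.ne hv.l hw.l

theorem cv (hv : C.Vv a c v) : C.Vv c a (c ⋆ v) :=
  have := J_l h.cc ((pcomm _ _).trans hv.o)
  ⟨this.1, this.2, by rw [C.cyc, hv.r]; simp⟩

theorem vc (hv : C.Vv a c v) : C.Vv c a (v ⋆ c) :=
  have := J_r h.cc ((pcomm _ _).trans hv.o)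
  ⟨this.1, this.2, by rw [C.cyc2, hv.l]; simp⟩

theorem cva (hv : C.Vv a c v) : (c ⋆ v) ⋆ a = v := by rw [C.fl2, h.ca, hv.l, C.zl]; simp

theorem avc (hv : C.Vv a c v) : a ⋆ (v ⋆ c) = v := by rw [C.fr2, h.ac, hv.r, C.zr]; simp

theorem vp (hv : C.Vv a c v) : v ⋆ (a ⋆ c) = 0 := by rw [C.fr2, hv.o, hv.l, C.zr]; simp

theorem qv (hv : C.Vv a c v) : (c ⋆ a) ⋆ v = 0 := by
  rw [C.fl2, pcomm, hv.o, hv.r, C.zl]; simp

theorem vq (hv : C.Vv a c v) : v ⋆ (c ⋆ a) = -(a ⋆ (c ⋆ v)) := by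
  rw [C.fr2, h.bva hv]; simp

theorem vw (hv : C.Vv a c v) (hw : C.Vv a c w) : v ⋆ w = B (v ⋆ w) c • a := JJ h.ac hv.l hw.r

theorem of_J (hv : C.J a v) : C.Vv a c (v - B v c • a) := by
  have := hv.add_smul h.aa (-B v c)
  rw [neg_smul, ← sub_eq_add_neg] at this
  exact ⟨this.1, this.2, by rw [polar_sub_left, polar_sl, h.ac, mul_one, sub_self]⟩

end Fr

variable (C) in
/-- coordinates with respect to a frame -/
def fm (a c : V) (s1 s2 s3 s4 : F) (v w : V) : V :=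
  s1 • a + s2 • c + s3 • (a ⋆ c) + s4 • (c ⋆ a) + v + c ⋆ w

namespace Fr

variable {a c v w : V} (h : C.Fr a c)
include h

theorem decomp (y : V) :
    ∃ s1 s2 s3 s4 v w, C.Vv a c v ∧ C.Vv a c w ∧ y = C.fm a c s1 s2 s3 s4 v w := by
  obtain ⟨z, hz⟩ : ∃ z, z = y - B c y • a - B a y • c - B (c ⋆ a) y • (a ⋆ c) -
    B (a ⋆ c) y • (c ⋆ a) := ⟨_, rfl⟩
  have h1 : B a z = 0 := by
    simp only [hz, polar_sub_right, polar_sr, h.baa, h.ac, pcomm a (a ⋆ c), pcomm a (c ⋆ a), h.bpa,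
      h.symm.bpc]
    ring
  have h2 : B c z = 0 := by
    simp only [hz, polar_sub_right, polar_sr, h.symm.baa, h.ca, pcomm c (a ⋆ c), pcomm c (c ⋆ a),
      h.bpc, h.symm.bpa]
    ring
  have h3 : B (a ⋆ c) z = 0 := by
    simp only [hz, polar_sub_right, polar_sr, h.bpa, h.bpc, h.bpp, h.bpq]
    ring
  have h4 : B (c ⋆ a) z = 0 := by
    simp only [hz, polar_sub_right, polar_sr, h.symm.bpa, h.symm.bpc, h.symm.bpp, h.symm.bpq]
    ring
  have h5 := J_r h.aa h1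
  have h6 := J_l h.aa (z := z ⋆ c) (by rw [pcomm, C.cyc, h4, map_zero])
  refine ⟨B c y, B a y, B (c ⋆ a) y, B (a ⋆ c) y, a ⋆ (z ⋆ c), z ⋆ a, ⟨h6.1, h6.2, ?_⟩,
    ⟨h5.1, h5.2, by rw [C.cyc, h3, map_zero]⟩, ?_⟩
  · rw [C.cyc, (J_r h.cc h2).2]; simp
  · rw [fm, C.fr2 c z a, h.ca, map_one, one_smul, hz]
    abel

variable (hv : C.Vv a c v) (hw : C.Vv a c w) (s1 s2 s3 s4 : F)
include hv hw

theorem n_fm : C.n (C.fm a c s1 s2 s3 s4 v w) = s1 * s2 + s3 * s4 + C.ρ (B (w ⋆ v) c) := by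
  have hw' := h.cv hw
  simp only [fm, Q_add, Q_smul, polar_add_left, polar_sl, polar_sr, h.na, h.symm.na, h.np,
    h.symm.np, h.nv hv, h.symm.nv hw', h.ac, pcomm a (a ⋆ c), pcomm a (c ⋆ a), pcomm c (a ⋆ c),
    pcomm c (c ⋆ a), h.bpa, h.bpc, h.symm.bpa, h.symm.bpc, h.bpq, pcomm a v, pcomm c v, h.bva hv,
    hv.o, h.bpv hv, h.bqv hv, pcomm a (c ⋆ w), pcomm c (c ⋆ w), hw'.o, h.symm.bva hw',
    h.symm.bpv hw', h.symm.bqv hw', pcomm v (c ⋆ w), C.cyc c w v]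
  ring

omit hw in
theorem row_a : a ⋆ C.fm a c s1 s2 s3 s4 v w =
    C.fm a c (C.ρ (C.ρ s3)) 0 (C.ρ (C.ρ s2)) 0 (a ⋆ (c ⋆ w)) 0 := by
  simp only [fm, C.ar, C.sr, h.aa, h.ap, h.aq, hv.l, C.zr]
  module

omit hv in
theorem row_c : c ⋆ C.fm a c s1 s2 s3 s4 v w =
    C.fm a c 0 (C.ρ (C.ρ s4)) 0 (C.ρ (C.ρ s1)) 0 v := by
  simp only [fm, C.ar, C.sr, h.cc, h.symm.ap, h.symm.aq, (h.cv hw).l]
  module

end Fr

end CC

end CfsgH8
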