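import Cfsg.Agent.H8.Tri1

set_option autoImplicit false
set_option linter.unusedSimpArgs false
set_option linter.unusedSectionVars false

namespace CfsgH8

open QuadraticMap hiding map_add map_sub map_smul map_zero map_neg sq

namespace CC

variable {F V : Type*} [Field F] [AddCommGroup V] [Module F V] {C : CC F V}

local infixl:70 " ⋆ " => C.m
local notation "B" => polar C.n

variable (C) in
/-- the linear map `y ↦ a ⋆ (y ⋆ c)` -/
def L1 (a c : V) : V →ₗ[F] V where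
  toFun y := a ⋆ (y ⋆ c)
  map_add' x y := by rw [C.al, C.ar]
  map_smul' s x := by rw [C.sl, C.sr, C.ρ3]; rfl

variable (C) in
/-- the linear map `y ↦ c ⋆ G (y ⋆ a)` -/
def L2 (a c : V) (G : V →ₗ[F] V) : V →ₗ[F] V where
  toFun y := c ⋆ G (y ⋆ a)
  map_add' x y := by rw [C.al, map_add, C.ar]
  map_smul' s x := by rw [C.sl, map_smul, C.sr, C.ρ3]; rfl

variable (C) in
/-- the transition map on the middle part -/
noncomputable def G0 (a c d : V) : V →ₗ[F] V :=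
  LinearMap.id + (polarBilin C.n (c ⋆ a)).smulRight (a ⋆ d - a ⋆ c + B d (a ⋆ c) • a) +
    (polarBilin C.n (a ⋆ c)).smulRight (d ⋆ a - c ⋆ a + B d (c ⋆ a) • a) +
    (polarBilin C.n (c - d)).smulRight a

theorem G0_apply (a c d z : V) : C.G0 a c d z = z + B (c ⋆ a) z • (a ⋆ d - a ⋆ c + B d (a ⋆ c) • a) +
    B (a ⋆ c) z • (d ⋆ a - c ⋆ a + B d (c ⋆ a) • a) + (B c z - B d z) • a := by
  simp [G0, polar_sub_left]

variable (C) in
/-- the transition map between two frames -/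
noncomputable def tr (a c d : V) : V →ₗ[F] V := C.G0 a c d ∘ₗ C.L1 a c + C.L2 a d (C.G0 a c d)

theorem tr_apply (a c d y : V) :
    C.tr a c d y = C.G0 a c d (a ⋆ (y ⋆ c)) + d ⋆ C.G0 a c d (y ⋆ a) := rfl

theorem polar_of_iso {g : V →ₗ[F] V} (h : ∀ x, C.n (g x) = C.n x) (x y : V) :
    B (g x) (g y) = B x y := by
  simp only [polar, ← map_add, h]

theorem mul_comm_of {g : V →ₗ[F] V} (h : ∀ x, C.n (g x) = C.n x) (hs : Function.Surjective g)
    {x : V} (hx : ∀ y, g (x ⋆ y) = g x ⋆ g y) (z : V) : g (z ⋆ x) = g z ⋆ g x :=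
  C.nd.ext fun y => by
    obtain ⟨y, rfl⟩ := hs y
    rw [polar_of_iso h, C.cyc, C.cyc (g z), ← hx, polar_of_iso h]

theorem mul_mul_of {g : V →ₗ[F] V} (h : ∀ x, C.n (g x) = C.n x) (hs : Function.Surjective g)
    {x z : V} (hx : ∀ y, g (x ⋆ y) = g x ⋆ g y) (hz : ∀ y, g (z ⋆ y) = g z ⋆ g y) (y : V) :
    g ((x ⋆ z) ⋆ y) = g (x ⋆ z) ⋆ g y := by
  rw [C.fl2 x, hx, C.fl2 (g x), map_sub, map_smul, mul_comm_of h hs hx, mul_comm_of h hs hz,
    polar_of_iso h]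

namespace Fr

variable {a c d v w : V} (h : C.Fr a c) (h' : C.Fr a d)
include h h'

theorem G0_a : C.G0 a c d a = a := by
  rw [G0_apply, h.symm.bpc, h.bpa, h.ca, h'.ca]; module

theorem G0_p : C.G0 a c d (a ⋆ c) = a ⋆ d := by
  rw [G0_apply, h.symm.bpq, h.bpp, pcomm c, h.bpc]; module

theorem G0_q : C.G0 a c d (c ⋆ a) = d ⋆ a := by
  rw [G0_apply, h.bpq, h.symm.bpp, pcomm c, h.symm.bpa]; module

theorem G0_v (hv : C.Vv a c v) : C.G0 a c d v = v - B v d • a := by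
  rw [G0_apply, h.bqv hv, h.bpv hv, pcomm c, hv.o, pcomm d v]; module

theorem eta (hv : C.Vv a c v) : C.Vv a d (C.G0 a c d v) := by
  rw [h.G0_v h' hv]
  exact h'.of_J ⟨hv.l, hv.r⟩

theorem eta_mul (hv : C.Vv a c v) (hw : C.Vv a c w) : C.G0 a c d v ⋆ C.G0 a c d w = v ⋆ w := by
  rw [h.G0_v h' hv, h.G0_v h' hw, C.bl, C.br, C.br, C.sl, C.sl, C.sr, C.sr, hv.r, hw.l, h.aa]
  simp

theorem tr_fm (hv : C.Vv a c v) (hw : C.Vv a c w) (s1 s2 s3 s4 : F) :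
    C.tr a c d (C.fm a c s1 s2 s3 s4 v w) =
      C.fm a d s1 s2 s3 s4 (C.G0 a c d v) (C.G0 a c d w) := by
  simp only [fm, map_add, map_smul]
  simp only [tr_apply, h.ap, h.aa, h.cc, C.zr, map_zero, h.G0_a h', h.G0_p h', h.G0_q h',
    h'.symm.ap, h.symm.qa, h.pa, h.symm.pa, h.qa, h.avc hv, hv.r, (h.cv hw).r, h.cva hw, add_zero,
    zero_add]

theorem tr_a : C.tr a c d a = a := by
  simpa [fm, C.zr] using h.tr_fm h' Vv.zero Vv.zero 1 0 0 0

theorem tr_c : C.tr a c d c = d := by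
  simpa [fm, C.zr] using h.tr_fm h' Vv.zero Vv.zero 0 1 0 0

theorem tr_v (hv : C.Vv a c v) : C.tr a c d v = C.G0 a c d v := by
  simpa [fm, C.zr] using h.tr_fm h' hv Vv.zero 0 0 0 0

theorem tr_n (y : V) : C.n (C.tr a c d y) = C.n y := by
  obtain ⟨s1, s2, s3, s4, v, w, hv, hw, rfl⟩ := h.decomp y
  rw [h.tr_fm h' hv hw, h.n_fm hv hw, h'.n_fm (h.eta h' hv) (h.eta h' hw), h.eta_mul h' hw hv,
    h.vw hw hv, polar_sl, polar_sl, h.ac, h'.ac]

theorem eta_phi (hw : C.Vv a c w) :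
    C.G0 a c d (a ⋆ (c ⋆ w)) = a ⋆ (d ⋆ C.G0 a c d w) := by
  have h1 := h.symm.cv (h.cv hw)
  have h2 := h'.symm.cv (h'.cv (h.eta h' hw))
  have h3 : a ⋆ (d ⋆ C.G0 a c d w) = a ⋆ (c ⋆ w) + a ⋆ ((d - c) ⋆ w) := by
    rw [h.G0_v h' hw, C.br, C.sr, C.br, C.sr, h'.aq, C.bl, C.br]
    module
  have h4 := JJ h'.ac h.aa (y := (d - c) ⋆ w) (by
    rw [C.fl2, polar_sub_left, h.ca, h'.ca, hw.l, C.zl]; simp)
  have h5 := h2.o
  rw [h3, polar_add_left] at h5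
  rw [h3, h.G0_v h' h1, h4, eq_neg_iff_add_eq_zero.2 h5]
  module

theorem tr_row_a (y : V) : C.tr a c d (a ⋆ y) = C.tr a c d a ⋆ C.tr a c d y := by
  obtain ⟨s1, s2, s3, s4, v, w, hv, hw, rfl⟩ := h.decomp y
  rw [h.tr_a h', h.tr_fm h' hv hw, h.row_a hv, h'.row_a (h.eta h' hv),
    h.tr_fm h' (h.symm.cv (h.cv hw)) Vv.zero, h.eta_phi h' hw, map_zero]

theorem tr_row_c (y : V) : C.tr a c d (c ⋆ y) = C.tr a c d c ⋆ C.tr a c d y := by
  obtain ⟨s1, s2, s3, s4, v, w, hv, hw, rfl⟩ := h.decomp y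
  rw [h.tr_c h', h.tr_fm h' hv hw, h.row_c hw, h'.row_c (h.eta h' hw),
    h.tr_fm h' Vv.zero hv, map_zero]

variable [FiniteDimensional F V]

theorem tr_inj : Function.Injective (C.tr a c d) :=
  (injective_iff_map_eq_zero _).2 fun x hx => C.nd.eq_zero fun y => by
    rw [← polar_of_iso (h.tr_n h'), hx, polar_zero_left]

theorem tr_mul (x y : V) : C.tr a c d (x ⋆ y) = C.tr a c d x ⋆ C.tr a c d y := by
  have hs := LinearMap.injective_iff_surjective.1 (h.tr_inj h')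
  have hn := h.tr_n h'
  have ha := h.tr_row_a h'
  have hc := h.tr_row_c h'
  have hp := mul_mul_of hn hs ha hc
  have hq := mul_mul_of hn hs hc ha
  have h1 : ∀ v w, C.Vv a c v → C.Vv a c w →
      C.tr a c d (v ⋆ w) = C.tr a c d v ⋆ C.tr a c d w := fun v w hv hw => by
    rw [h.tr_v h' hv, h.tr_v h' hw, h.eta_mul h' hv hw, h.vw hv hw, map_smul, h.tr_a h']
  have hv : ∀ v, C.Vv a c v → ∀ y, C.tr a c d (v ⋆ y) = C.tr a c d v ⋆ C.tr a c d y := by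
    intro v hv y
    obtain ⟨s1, s2, s3, s4, u, w, hu, hw, rfl⟩ := h.decomp y
    have h2 := h.symm.cv (h.cv hw)
    have h3 : C.tr a c d (v ⋆ (c ⋆ w)) = C.tr a c d v ⋆ C.tr a c d (c ⋆ w) := by
      rw [← h.symm.cva (h.cv hw), mul_comm_of hn hs hc, C.fr2 v, C.fr2 (C.tr a c d v),
        polar_of_iso hn, map_sub, map_smul, hc, h1 _ _ h2 hv]
    simp only [fm, C.ar, C.sr, map_add, map_smul, mul_comm_of hn hs ha, mul_comm_of hn hs hc,
      mul_comm_of hn hs hp, mul_comm_of hn hs hq, h1 v u hv hu, h3]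
  obtain ⟨s1, s2, s3, s4, u, w, hu, hw, rfl⟩ := h.decomp x
  simp only [fm, C.al, C.sl, map_add, map_smul, ha, hc, hp, hq, hv u hu,
    mul_mul_of hn hs hc (hv w hw)]

end Fr

variable (C) in
/-- the root group at an absolute point -/
def R (a : V) : Subgroup (V ≃ₗ[F] V) where
  carrier := {g | (∀ x, C.n (g x) = C.n x) ∧ (∀ x y, g (x ⋆ y) = g x ⋆ g y) ∧ g a = a ∧
    ∀ j, C.J a j → ∃ s : F, g j = j + s • a}
  one_mem' := ⟨fun _ => rfl, fun _ _ => rfl, rfl, fun j _ => ⟨0, by simp⟩⟩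
  mul_mem' := by
    rintro g k ⟨g1, g2, g3, g4⟩ ⟨k1, k2, k3, k4⟩
    refine ⟨fun x => by rw [LinearEquiv.mul_apply, g1, k1], fun x y => by
      simp only [LinearEquiv.mul_apply, k2, g2], by rw [LinearEquiv.mul_apply, k3, g3],
      fun j hj => ?_⟩
    obtain ⟨s, hs⟩ := g4 j hj
    obtain ⟨t, ht⟩ := k4 j hj
    exact ⟨s + t, by rw [LinearEquiv.mul_apply, ht, map_add, map_smul, hs, g3]; module⟩
  inv_mem' := by
    rintro g ⟨g1, g2, g3, g4⟩
    have e : ∀ x, g (g⁻¹ x) = x := fun x => g.apply_symm_apply x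
    refine ⟨fun x => by rw [← g1, e], fun x y => g.injective (by rw [g2, e, e, e]),
      g.injective (by rw [e, g3]), fun j hj => ?_⟩
    obtain ⟨s, hs⟩ := g4 j hj
    exact ⟨-s, g.injective (by rw [e, map_add, map_smul, hs, g3]; module)⟩

theorem Fr.exists_root [FiniteDimensional F V] {a c d : V} (h : C.Fr a c) (h' : C.Fr a d) :
    ∃ g ∈ C.R a, g c = d ∧ ∀ j, C.J a j → g j = j + (B j c - B j d) • a := by
  have key : ∀ j, C.J a j → C.tr a c d j = j + (B j c - B j d) • a := fun j hj => by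
    have := h.tr_v h' (h.of_J hj)
    rw [h.G0_v h' (h.of_J hj), map_sub, map_smul, h.tr_a h', polar_sub_left, polar_sl, h'.ac]
      at this
    linear_combination (norm := module) this
  exact ⟨LinearEquiv.ofInjectiveEndo _ (h.tr_inj h'),
    ⟨h.tr_n h', h.tr_mul h', h.tr_a h', fun j hj => ⟨_, key j hj⟩⟩, h.tr_c h', key⟩

theorem R_polar {a : V} {g : V ≃ₗ[F] V} (hg : g ∈ C.R a) (x y : V) : B (g x) (g y) = B x y :=
  polar_of_iso (g := g.toLinearMap) hg.1 x y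

theorem R_smul {a : V} {s : F} (hs : s ≠ 0) : C.R (s • a) ≤ C.R a := by
  rintro g ⟨g1, g2, g3, g4⟩
  refine ⟨g1, g2, by simpa [hs] using g3, fun j hj => ?_⟩
  obtain ⟨t, ht⟩ := g4 j ⟨by rw [C.sl, hj.1, smul_zero], by rw [C.sr, hj.2, smul_zero]⟩
  exact ⟨t * s, by rw [ht, smul_smul]⟩

theorem R_d1 {a : V} {g : V ≃ₗ[F] V} (hg : g ∈ C.R a) (y : V) : B a (g y - y) = 0 := by
  rw [polar_sub_right, ← R_polar hg a y, hg.2.2.1, sub_self]

theorem R_d2 {a : V} {g : V ≃ₗ[F] V} (hg : g ∈ C.R a) {y : V} (hy : B a y = 0) (j : V)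
    (hj : C.J a j) : B j (g y - y) = 0 := by
  obtain ⟨s, hs⟩ := hg.2.2.2 j hj
  have h1 := R_d1 hg y
  rw [polar_sub_right, hy, sub_zero] at h1
  rw [polar_sub_right, ← R_polar hg j y, hs, polar_add_left, polar_sl, h1]
  ring

theorem R_d3 {a c : V} (h : C.Fr a c) {g : V ≃ₗ[F] V} (hg : g ∈ C.R a) {y : V}
    (hy : ∀ j, C.J a j → B j y = 0) : C.J a (g y - y) := by
  have h1 := eq_smul h.ac (x := a ⋆ y) fun t ht => by rw [C.cyc2, hy _ (J_r h.aa ht)]; simp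
  have h2 := eq_smul h.ac (x := y ⋆ a) fun t ht => by rw [C.cyc, hy _ (J_l h.aa ht)]; simp
  constructor
  · rw [C.br, ← hg.2.2.1, ← hg.2.1, hg.2.2.1, h1, map_smul, hg.2.2.1, sub_self]
  · rw [C.bl, ← hg.2.2.1, ← hg.2.1, hg.2.2.1, h2, map_smul, hg.2.2.1, sub_self]

theorem R_pow {a c : V} (h : C.Fr a c) {g : V ≃ₗ[F] V} (hg : g ∈ C.R a) (r : ℕ) [hr : Fact r.Prime]
    [CharP F r] : g ^ r ^ 3 = 1 := by
  haveI : Nontrivial V := nontrivial_of_ne _ _ h.ne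
  haveI : CharP (Module.End F V) r := charP_of_injective_algebraMap (R := F) (by
    exact FaithfulSMul.algebraMap_injective F _) r
  have h1 : (g.toLinearMap - 1) ^ 5 = 0 := LinearMap.ext fun y => by
    obtain ⟨s, hs⟩ := hg.2.2.2 _ (R_d3 h hg (R_d2 hg (R_d1 hg y)))
    simp only [pow_succ, pow_zero, Module.End.mul_apply, LinearMap.sub_apply, LinearEquiv.coe_coe,
      Module.End.one_apply, LinearMap.zero_apply] at hs ⊢
    rw [hs, add_sub_cancel_left, map_smul, hg.2.2.1, sub_self]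
  have h2 : 5 ≤ r ^ 3 := (by norm_num : 5 ≤ 2 ^ 3).trans (Nat.pow_le_pow_left hr.out.two_le 3)
  have h3 := sub_pow_char_pow_of_commute (p := r) 3 (Commute.one_right g.toLinearMap)
  rw [pow_eq_zero_of_le h2 h1, one_pow, eq_comm, sub_eq_zero] at h3
  refine LinearEquiv.ext fun y => ?_
  have := LinearMap.congr_fun h3 y
  rw [Module.End.pow_apply] at this
  rw [LinearEquiv.pow_apply]
  exact this

variable (C) in
/-- semilinear automorphisms up to a scalar -/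
structure SA (T : V ≃+ V) (σ : F ≃+* F) (κ l : F) : Prop where
  κ0 : κ ≠ 0
  l0 : l ≠ 0
  smul : ∀ s x, T (s • x) = σ s • T x
  mapn : ∀ x, C.n (T x) = κ * σ (C.n x)
  mul : ∀ x y, T (x ⋆ y) = l • (T x ⋆ T y)

theorem SA.abs {T : V ≃+ V} {σ : F ≃+* F} {κ l : F} (hT : C.SA T σ κ l) {x y : V} :
    T x ⋆ T y = 0 ↔ x ⋆ y = 0 := by
  rw [← T.map_eq_zero_iff (x := x ⋆ y), hT.mul, smul_eq_zero, or_iff_right hT.l0]

theorem SA.conj {T : V ≃+ V} {σ : F ≃+* F} {κ l : F} (hT : C.SA T σ κ l) {a : V}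
    {g g' : V ≃ₗ[F] V} (h : ∀ x, g' (T x) = T (g x)) (hg : g' ∈ C.R (T a)) : g ∈ C.R a := by
  obtain ⟨g1, g2, g3, g4⟩ := hg
  refine ⟨fun x => ?_, fun x y => T.injective ?_, T.injective (by rw [← h, g3]), fun j hj => ?_⟩
  · have := g1 (T x)
    rw [h, hT.mapn, hT.mapn] at this
    exact σ.injective (mul_left_cancel₀ hT.κ0 this)
  · rw [← h, hT.mul, map_smul, g2, h, h, hT.mul]
  · obtain ⟨s, hs⟩ := g4 (T j) ⟨hT.abs.2 hj.1, hT.abs.2 hj.2⟩
    exact ⟨σ.symm s, T.injective (by rw [← h, hs, map_add, hT.smul, σ.apply_symm_apply])⟩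

theorem R_SA {a : V} {g : V ≃ₗ[F] V} (hg : g ∈ C.R a) : C.SA g.toAddEquiv 1 1 1 :=
  ⟨one_ne_zero, one_ne_zero, fun s x => g.map_smul s x, fun x => (hg.1 x).trans (one_mul _).symm,
    fun x y => (hg.2.1 x y).trans (one_smul _ _).symm⟩

end CC

end CfsgH8
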