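import Cfsg.Agent.H8.Tri2

set_option autoImplicit false
set_option linter.unusedSimpArgs false
set_option linter.unusedSectionVars false

namespace CfsgH8

open QuadraticMap hiding map_add map_sub map_smul map_zero map_neg sq

namespace CC

variable {F V : Type*} [Field F] [AddCommGroup V] [Module F V] {C : CC F V}

local infixl:70 " ⋆ " => C.m
local notation "B" => polar C.n

theorem f_add_J {a w j : V} (hj : C.J a j) : B ((w + j) ⋆ (w + j)) a = B (w ⋆ w) a := by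
  rw [C.al, C.ar, C.ar, polar_add_left, polar_add_left, polar_add_left, C.cyc w j, C.cyc2 j w,
    C.cyc j j, hj.1, hj.2]
  simp

theorem J_smul {a : V} (h : a ⋆ a = 0) (s : F) : C.J a (s • a) :=
  ⟨by rw [C.sr, h, smul_zero], by rw [C.sl, h, smul_zero]⟩

theorem exists_abs_sq (h3 : (3 : F) ≠ 0) {a w : V} (h : a ⋆ a = 0) (hw : B a w = 0)
    (hn : C.n w = 0) (hf : B (w ⋆ w) a ≠ 0) :
    ∃ s : F, ((w + s • a) ⋆ (w + s • a)) ⋆ ((w + s • a) ⋆ (w + s • a)) = 0 := by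
  obtain ⟨s, hs⟩ : ∃ s, s * B (w ⋆ w) a = -B (w ⋆ w) w / 3 := ⟨_, div_mul_cancel₀ _ hf⟩
  have h1 : C.ρ (-B (w ⋆ w) w / 3) = -B (w ⋆ w) w / 3 := by
    rw [map_div₀, map_neg, ← C.cyc, map_ofNat]
  refine ⟨s, ?_⟩
  rw [sq_sq (by rw [Q_add, Q_smul, polar_sr, hn, sing h, pcomm, hw]; ring), polar_add_right,
    polar_sr, f_add_J (J_smul h s), C.al, C.ar, C.ar, C.sl, C.sl, C.sr, C.sr, h, polar_add_left,
    polar_add_left, polar_add_left, polar_sl, polar_sl, C.cyc2 w a, C.cyc a w, ← map_mul,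
    ← map_mul, hs, h1, h1]
  simp only [smul_zero, polar_zero_left]
  convert zero_smul F _
  field_simp
  ring

theorem exists_frame (h3 : (3 : F) ≠ 0) {a : V} (h : a ⋆ a = 0) (h0 : a ≠ 0) : ∃ c, C.Fr a c := by
  by_cases hw : ∃ w, B a w = 0 ∧ B (w ⋆ w) a ≠ 0
  · obtain ⟨w, hw, hf⟩ := hw
    have hj := J_r h hw
    have h1 : B w (w ⋆ a) ≠ 0 := by rw [pcomm, C.cyc2]; simpa using hf
    obtain ⟨s, hs⟩ : ∃ s, s * B w (w ⋆ a) = -C.n w := ⟨_, div_mul_cancel₀ _ h1⟩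
    have hj' : C.J a (s • (w ⋆ a)) :=
      ⟨by rw [C.sr, hj.1, smul_zero], by rw [C.sl, hj.2, smul_zero]⟩
    have h2 := f_add_J (w := w) hj'
    obtain ⟨t, ht⟩ := exists_abs_sq h3 h (w := w + s • (w ⋆ a))
      (by rw [polar_add_right, hw, kerL h0 h hj'.1, add_zero])
      (by rw [Q_add, singL h0 hj'.1, polar_sr, hs]; ring) (h2 ▸ hf)
    have h4 := (f_add_J (w := w + s • (w ⋆ a)) (J_smul h t)).trans h2
    generalize (w + s • (w ⋆ a) + t • a) ⋆ (w + s • (w ⋆ a) + t • a) = d at ht h4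
    exact ⟨(B (w ⋆ w) a)⁻¹ • d, h, by rw [C.sl, C.sr, ht, smul_zero, smul_zero], by
      rw [polar_sr, pcomm a, h4, inv_mul_cancel₀ hf]⟩
  push Not at hw
  obtain ⟨c, hc, hn, hf⟩ : ∃ c, B a c = 1 ∧ C.n c = 0 ∧ B (c ⋆ c) a = 0 := by
    obtain ⟨c, hc⟩ := C.nd.exists_one h0
    have h1 : a ⋆ (a ⋆ c) = a := by rw [C.fr2, hc, h, C.zr]; simp
    have h2 : (a ⋆ c) ⋆ a = 0 := by rw [C.fl, sing h]; simp
    obtain ⟨d, hd⟩ : ∃ d, d = c + (-C.ρ (C.ρ (B (c ⋆ c) a))) • (a ⋆ c) := ⟨_, rfl⟩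
    have h4 : B a d = 1 := by
      rw [hd, polar_add_right, polar_sr, pcomm a (a ⋆ c), C.cyc2 a c a, h, hc]; simp
    refine ⟨d + (-C.n d) • a, by rw [polar_add_right, polar_sr, h4, baa h]; ring, by
      rw [Q_add, Q_smul, polar_sr, sing h, pcomm, h4]; ring, ?_⟩
    have h5 : B (d ⋆ d) a = 0 := by
      rw [hd, C.al, C.ar, C.ar, C.sl, C.sl, C.sr, C.sr, polar_add_left, polar_add_left,
        polar_add_left, polar_sl, polar_sl, polar_sl, polar_sl, C.cyc c (a ⋆ c), C.cyc2 (a ⋆ c) c,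
        C.cyc (a ⋆ c) (a ⋆ c), h1, h2, hc]
      simp [C.ρ3]
    rw [f_add_J (J_smul h _), h5]
  have hw2 : ∀ x y, B a x = 0 → B a y = 0 → B (x ⋆ y) a + B (y ⋆ x) a = 0 := fun x y hx hy => by
    have := hw (x + y) (by rw [polar_add_right, hx, hy, add_zero])
    rw [C.al, C.ar, C.ar, polar_add_left, polar_add_left, polar_add_left, hw x hx, hw y hy] at this
    linear_combination this
  have had : B a (c ⋆ c) = 0 := (pcomm _ _).trans hf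
  have key : ∀ v, C.J a v → B v c = 0 → B v (c ⋆ c) = 0 := by
    intro v hv hvc
    have e1 : a ⋆ (v ⋆ c) = v := by rw [C.fr2, hc, hv.2, C.zr]; simp
    have e2 : (c ⋆ v) ⋆ a = v := by rw [C.fl2, pcomm, hc, hv.1, C.zl]; simp
    have e3 : B a (v ⋆ c) = 0 := by rw [pcomm, C.cyc2, hv.1]; simp
    have e4 : B a (c ⋆ v) = 0 := by rw [pcomm, C.cyc, hv.2]; simp
    by_cases hρ : ∀ s, C.ρ s = s
    · have e5 := hw2 _ _ e4 had
      have e6 := hw2 _ _ e3 had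
      rw [C.cyc2, C.cyc (c ⋆ c), e2] at e5
      rw [C.cyc2, C.cyc (c ⋆ c), e1] at e6
      have hva : B v a = 0 := kerL h0 hv.1 h
      have e7 : a ⋆ (c ⋆ v) = -(v ⋆ (c ⋆ a)) := by rw [C.fr2, pcomm, hva]; simp
      have e8 := C.p4 (c ⋆ c) v c a
      have e9 := C.p4 (a ⋆ c) c c v
      have e10 : (a ⋆ c) ⋆ v = -((v ⋆ c) ⋆ a) := by rw [C.fl2, pcomm, hva]; simp
      rw [C.fl2 c c a, pcomm c a, hc, hva, polar_sub_left, polar_sl, pcomm c (c ⋆ v),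
        C.cyc2 c v c, C.cyc] at e8
      rw [e10, polar_neg_left, pcomm c v, hvc] at e9
      rw [e7, polar_neg_left] at e5
      simp only [hρ, pcomm (c ⋆ c) v] at e5 e6 e8 e9
      exact (mul_eq_zero.1 (show 3 * B v (c ⋆ c) = 0 by
        linear_combination e5 + e6 + e8 + e9)).resolve_left h3
    · push Not at hρ
      obtain ⟨s, hs⟩ := hρ
      have e5 := hw2 _ _ e3 had
      have e6 := hw2 (s • (v ⋆ c)) _ (by rw [polar_sr, e3, mul_zero]) had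
      rw [C.sl, C.sr, polar_sl, polar_sl, ← neg_eq_iff_add_eq_zero.2 e5, C.cyc2, e1] at e6
      have e7 : C.ρ s - C.ρ (C.ρ s) ≠ 0 := by
        rw [← map_sub]
        simpa [sub_eq_zero] using Ne.symm hs
      simpa using (mul_eq_zero.1 (show (C.ρ s - C.ρ (C.ρ s)) * C.ρ (C.ρ (B v (c ⋆ c))) = 0 by
        linear_combination e6)).resolve_left e7
  refine ⟨c, h, ?_, hc⟩
  have h1 : (c ⋆ c) ⋆ a = 0 := C.nd.eq_zero fun y => by
    have e1 := J_l h (z := y - B a y • c) (by rw [polar_sub_right, polar_sr, hc]; ring)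
    have e2 := key _ (e1.add_smul h (-B (a ⋆ (y - B a y • c)) c)) (by
      rw [polar_add_left, polar_sl, hc]; ring)
    rw [polar_add_left, polar_sl, had, C.br, C.sr, polar_sub_left, polar_sl, C.pr, hn] at e2
    rw [C.cyc]
    simpa using e2
  have h2 := C.fr2 c (c ⋆ c) a
  rw [h1, C.fl, hn, pcomm, hc, C.zr] at h2
  simpa [C.zr] using h2.symm

namespace Fr

variable {a c v : V} (h : C.Fr a c)
include h

theorem conic (t : F) :
    C.Fr a (c + t • (a ⋆ c) - C.ρ (C.ρ t) • (c ⋆ a) + (t * C.ρ (C.ρ t)) • a) := by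
  refine ⟨h.aa, ?_, ?_⟩
  · simp only [C.al, C.ar, C.bl, C.br, C.sl, C.sr, h.aa, h.cc, h.ap, h.aq, h.pa, h.qa, h.symm.ap,
      h.symm.aq, h.symm.pa, h.symm.qa, h.pp, h.pq, h.symm.pp, h.symm.pq, C.ρ3, map_mul]
    module
  · simp [polar_add_right, polar_sub_right, polar_sr, h.ac, h.baa, pcomm a (a ⋆ c),
      pcomm a (c ⋆ a), h.bpa, h.symm.bpc]

theorem exists_dual (hv : C.Vv a c v) (h0 : v ≠ 0) : ∃ w, C.Vv c a w ∧ B v w = 1 := by
  obtain ⟨y, hy⟩ := C.nd.exists_one h0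
  obtain ⟨s1, s2, s3, s4, u, w, hu, hw, rfl⟩ := h.decomp y
  refine ⟨_, h.cv hw, ?_⟩
  simpa [fm, polar_add_right, polar_sr, h.bva hv, hv.o, pcomm v (a ⋆ c), pcomm v (c ⋆ a),
    h.bpv hv, h.bqv hv, h.bvw hv hu] using hy

theorem eigen (hv : C.Vv a c v) (h0 : v ≠ 0) (hvv : v ⋆ v = 0) :
    ∃ k : F, k ≠ 0 ∧ v = k • (v ⋆ (c ⋆ a)) := by
  obtain ⟨w, hw, h1⟩ := h.exists_dual hv h0
  have h2 := h.symm.cv hw
  have h3 : v ⋆ w = -C.ρ (C.ρ (B ((a ⋆ w) ⋆ v) c)) • (c ⋆ a) := by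
    conv_lhs => rw [← h.symm.cva hw, C.fr2, hv.o, h.vw h2 hv, C.sr]
    simp
  have h4 := C.fr2 v v w
  rw [h1, hvv, C.zr, h3, C.sr, map_one, one_smul, sub_zero] at h4
  refine ⟨_, fun e => h0 ?_, h4.symm⟩
  rw [← h4, e, zero_smul]

theorem exists_abs_dual (h3 : (3 : F) ≠ 0) (hv : C.Vv a c v) (h0 : v ≠ 0) (hvv : v ⋆ v = 0) :
    ∃ w, C.Vv c a w ∧ w ⋆ w = 0 ∧ B v w = 1 := by
  obtain ⟨w, hw, h1⟩ := h.exists_dual hv h0
  obtain ⟨k, hk, h2⟩ := h.eigen hv h0 hvv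
  have h4 : (a ⋆ c) ⋆ v = C.ρ (C.ρ k) • v := by
    conv_lhs => rw [h2, C.sr, C.fr2, h.bpq, h.vp hv, C.zr]
    simp
  have h5 : ∀ y, B v (k⁻¹ • (y ⋆ (a ⋆ c))) = C.ρ (B v y) := fun y => by
    rw [polar_sr, pcomm, C.cyc, h4, polar_sl, map_mul, C.ρ3, inv_mul_cancel_left₀ hk]
  have h6 : ∀ y, C.Vv c a y → C.Vv c a (k⁻¹ • (y ⋆ (a ⋆ c))) := fun y hy => by
    rw [h.symm.vq hy, smul_neg, ← neg_smul]
    exact (h.cv (h.symm.cv hy)).smul _
  have h7 : ((w ⋆ (a ⋆ c)) ⋆ (a ⋆ c)) ⋆ (a ⋆ c) = w := by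
    rw [C.fl2 w, pcomm, h.symm.bqv hw, h.pp, C.nl, map_zero, map_zero, zero_smul, zero_sub, neg_neg,
      C.fl2, h.symm.bpq, h.symm.qv hw, C.zl]
    simp
  obtain ⟨w1, e1⟩ : ∃ w1, w1 = k⁻¹ • (w ⋆ (a ⋆ c)) := ⟨_, rfl⟩
  obtain ⟨w2, e2⟩ : ∃ w2, w2 = k⁻¹ • (w1 ⋆ (a ⋆ c)) := ⟨_, rfl⟩
  have b1 : B v w1 = 1 := by rw [e1, h5, h1, map_one]
  have b2 : B v w2 = 1 := by rw [e2, h5, b1, map_one]
  have e3 : k⁻¹ • (w2 ⋆ (a ⋆ c)) = w := by
    have b3 := h5 w2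
    rw [b2, map_one] at b3
    rw [e2, e1, C.sl, C.sl, C.sl, h7, smul_smul, smul_smul] at b3 ⊢
    rw [polar_sr, h1, mul_one] at b3
    rw [b3, one_smul]
  have h8 : k⁻¹ • ((w + w1 + w2) ⋆ (a ⋆ c)) = w + w1 + w2 := by
    rw [C.al, C.al, smul_add, smul_add, ← e1, ← e2, e3]; abel
  have h9 : (w + w1 + w2) ⋆ (w + w1 + w2) = 0 := by
    nth_rewrite 1 [← h8]
    rw [C.sl, C.fl, h.symm.nv ((hw.add (e1 ▸ h6 w hw)).add (e2 ▸ h6 w1 (e1 ▸ h6 w hw)))]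
    simp
  refine ⟨(3 : F)⁻¹ • (w + w1 + w2), ((hw.add (e1 ▸ h6 w hw)).add
    (e2 ▸ h6 w1 (e1 ▸ h6 w hw))).smul _, by rw [C.sl, C.sr, h9, smul_zero, smul_zero], ?_⟩
  rw [polar_sr, polar_add_right, polar_add_right, h1, b1, b2]
  field_simp
  norm_num

theorem shift {w : V} (hw : C.Vv c a w) (hww : w ⋆ w = 0) (s : F) : C.Fr a (c - s • w) :=
  ⟨h.aa, by rw [C.bl, C.br, C.br, C.sl, C.sl, C.sr, C.sr, h.cc, hw.l, hw.r, hww]; simp, by
    rw [polar_sub_right, polar_sr, h.ac, pcomm, hw.o, mul_zero, sub_zero]⟩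

theorem exists_abs_J (h3 : (3 : F) ≠ 0) {b : V} (hb : C.J a b) (hbb : b ⋆ b = 0)
    (h0 : ∀ s : F, b ≠ s • a) : ∃ w, C.Vv c a w ∧ w ⋆ w = 0 ∧ B b w = 1 := by
  obtain ⟨w, h1, h2, h4⟩ := h.exists_abs_dual h3 (h.of_J hb) (sub_ne_zero.2 (h0 _)) (by
    rw [C.bl, C.br, C.br, C.sl, C.sl, C.sr, C.sr, hbb, hb.1, hb.2, h.aa]; simp)
  rw [polar_sub_left, polar_sl, pcomm a, h1.o, mul_zero, sub_zero] at h4
  exact ⟨w, h1, h2, h4⟩

end Fr

/-- an element permuting three points cyclically -/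
def Cyc (g : V ≃ₗ[F] V) : Prop :=
  ∃ (y : V) (e : F), g (g (g y)) = e • y ∧ (∀ s : F, g y ≠ s • y) ∧ ∀ s : F, g (g y) ≠ s • y

theorem Cyc.dvd {g : V ≃ₗ[F] V} (h : Cyc g) {k : ℕ} {s : F} (hk : ∀ y, (g ^ k) y = s • y) :
    3 ∣ k := by
  obtain ⟨y, e, h1, h2, h3⟩ := h
  have h0 : e ≠ 0 := by
    rintro rfl
    simp only [zero_smul, LinearEquiv.map_eq_zero_iff] at h1
    exact h2 0 (by simp [h1])
  have h4 : ∀ j, (g ^ (3 * j)) y = e ^ j • y := fun j => by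
    induction j with
    | zero => simp
    | succ j ih =>
      rw [mul_add, pow_add, mul_one, LinearEquiv.mul_apply, pow_three, LinearEquiv.mul_apply,
        LinearEquiv.mul_apply, h1, map_smul, ih, smul_smul, pow_succ']
  have h5 := hk y
  rw [← Nat.mod_add_div k 3, pow_add, LinearEquiv.mul_apply, h4, map_smul,
    ← eq_inv_smul_iff₀ (pow_ne_zero _ h0), smul_smul] at h5
  have h6 : k % 3 = 0 ∨ k % 3 = 1 ∨ k % 3 = 2 := by omega
  rcases h6 with h6 | h6 | h6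
  · omega
  · rw [h6, pow_one] at h5
    exact absurd h5 (h2 _)
  · rw [h6, sq] at h5
    exact absurd h5 (h3 _)

variable [FiniteDimensional F V]

theorem Fr.cyc {a c : V} (h : C.Fr a c) : ∃ g ∈ C.R a ⊔ C.R c, Cyc g := by
  obtain ⟨u, hu, h1, -⟩ := h.exists_root (h.conic 1)
  obtain ⟨u', hu', h2, -⟩ := h.symm.exists_root (h.symm.conic 1)
  simp only [map_one, one_smul, mul_one] at h1 h2
  have h3 : u (u' a) = c := by
    simp only [h2, map_add, map_sub, hu.2.1, h1, hu.2.2.1, C.al, C.ar, C.bl, C.br, h.aa, h.ap, h.aq,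
      h.pa, h.qa]
    abel
  have h4 : u (u' (u c)) = a := by
    refine (congrArg u ?_).trans hu.2.2.1
    simp only [h1, map_add, map_sub, hu'.2.1, h2, hu'.2.2.1, C.al, C.ar, C.bl, C.br, h.cc,
      h.symm.ap, h.symm.aq, h.symm.pa, h.symm.qa]
    abel
  refine ⟨u * u', Subgroup.mul_mem_sup hu hu', a, 1, ?_, fun s e => ?_, fun s e => ?_⟩
  · simp only [LinearEquiv.mul_apply, h3, hu'.2.2.1, h4, one_smul]
  · have := congrArg (B a) e
    simp [LinearEquiv.mul_apply, h3, polar_sr, h.ac, h.baa] at this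
  · have := congrArg (B a) e
    rw [LinearEquiv.mul_apply, LinearEquiv.mul_apply, h3, hu'.2.2.1, ← hu.2.2.1, R_polar hu,
      hu.2.2.1, polar_sr, h.ac, h.baa] at this
    simp at this

theorem exists_move (h3 : (3 : F) ≠ 0) {a b : V} (h : a ⋆ a = 0) (ha : a ≠ 0) (hb : C.J a b)
    (hbb : b ⋆ b = 0) (h0 : ∀ s : F, b ≠ s • a) (s : F) : ∃ u ∈ C.R a, u b = b + s • a := by
  obtain ⟨c, hc⟩ := exists_frame h3 h ha
  obtain ⟨w, h1, h2, h4⟩ := hc.exists_abs_J h3 hb hbb h0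
  obtain ⟨u, hu, -, h5⟩ := hc.exists_root (hc.shift h1 h2 s)
  exact ⟨u, hu, by rw [h5 b hb, polar_sub_right, polar_sr, h4]; module⟩

theorem cyc_of_opp {a b : V} (h : a ⋆ a = 0) (hb : b ⋆ b = 0) (hab : B a b ≠ 0) :
    ∃ g ∈ C.R a ⊔ C.R b, Cyc g := by
  obtain ⟨g, h1, h2⟩ := Fr.cyc (C := C) (a := a) (c := (B a b)⁻¹ • b) ⟨h, by
    rw [C.sl, C.sr, hb, smul_zero, smul_zero], by rw [polar_sr, inv_mul_cancel₀ hab]⟩
  exact ⟨g, sup_le_sup_left (R_smul (inv_ne_zero hab)) _ h1, h2⟩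

theorem exists_cyc (h3 : (3 : F) ≠ 0) {a b : V} (h : a ⋆ a = 0) (ha : a ≠ 0) (hb : b ⋆ b = 0)
    (hb0 : b ≠ 0) (h0 : ∀ s : F, b ≠ s • a) : ∃ g ∈ C.R a ⊔ C.R b, Cyc g := by
  by_cases hab : B a b = 0
  swap
  · exact cyc_of_opp h hb hab
  by_cases hJ : C.J a b
  · obtain ⟨u, hu, h1⟩ := exists_move h3 h ha hJ hb h0 1
    obtain ⟨u', hu', h2⟩ := exists_move h3 hb hb0 ⟨hJ.2, hJ.1⟩ h (fun s e => h0 s⁻¹ (by
      rw [e, smul_smul, inv_mul_cancel₀, one_smul]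
      rintro rfl
      exact ha (by rw [e, zero_smul]))) (-1)
    refine ⟨u * u', Subgroup.mul_mem_sup hu hu', a, -1, ?_, fun s e => h0 (-s) ?_,
      fun s e => h0 (-s - 1) ?_⟩
    · simp [h1, h2, hu.2.2.1, hu'.2.2.1]
    · simp only [LinearEquiv.mul_apply, h1, h2, hu.2.2.1, map_add, map_smul] at e
      linear_combination (norm := module) -e
    · simp only [LinearEquiv.mul_apply, h1, h2, hu.2.2.1, hu'.2.2.1, map_add, map_smul] at e
      linear_combination (norm := module) -e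
  obtain ⟨c, hc⟩ := exists_frame h3 h ha
  have j1 := J_l h hab
  have j2 := J_r h hab
  have e1 : (a ⋆ b) ⋆ b = 0 := by rw [C.fl2, hab, hb, C.zl]; simp
  have e2 : b ⋆ (b ⋆ a) = 0 := by rw [C.fr2, pcomm, hab, hb, C.zr]; simp
  have k1 : ∀ s : F, a ⋆ b = s • a → a ⋆ b = 0 := fun s e => by
    rw [e, C.sl, e, smul_smul, smul_eq_zero, or_iff_left ha, mul_eq_zero] at e1
    rw [e, show s = 0 by simpa using e1, zero_smul]
  have k2 : ∀ s : F, b ⋆ a = s • a → b ⋆ a = 0 := fun s e => by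
    rw [e, C.sr, e, smul_smul, smul_eq_zero, or_iff_left ha, mul_eq_zero] at e2
    rw [e, show s = 0 by simpa using e2, zero_smul]
  have k3 : a ⋆ b = 0 → b ⋆ a = 0 := fun e => k2 _ (eq_smul hc.ac fun t ht => by
    rw [C.cyc, kerL ha (J_l h ht).1 e, map_zero])
  have k4 : b ⋆ a = 0 → a ⋆ b = 0 := fun e => k1 _ (eq_smul hc.ac fun t ht => by
    rw [C.cyc2, kerR ha (J_r h ht).2 e, map_zero, map_zero])
  have n1 : ∀ s : F, a ⋆ b ≠ s • a := fun s e => hJ ⟨k1 s e, k3 (k1 s e)⟩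
  have n2 : ∀ s : F, b ⋆ a ≠ s • a := fun s e => hJ ⟨k4 (k2 s e), k2 s e⟩
  have e3 : (b ⋆ a) ⋆ (b ⋆ a) = 0 := by
    rw [C.fr2, e2, C.zr, kerL ha j2.1 h]; simp
  obtain ⟨w, h1, h2, h4⟩ := hc.exists_abs_J h3 j2 e3 n2
  have hv := hc.of_J j2
  obtain ⟨k, hk, h5⟩ := hc.eigen hv (sub_ne_zero.2 (n2 _)) (by
    rw [C.bl, C.br, C.br, C.sl, C.sl, C.sr, C.sr, e3, j2.1, j2.2, h]; simp)
  have h6 : B (a ⋆ b) w ≠ 0 := fun e => by
    have := congrArg (B · w) h5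
    rw [hc.vq hv, C.br, C.sr, C.br, C.sr, hc.aq, C.fr2 c b a, C.br, C.sr, C.fr2 a a, h, C.zr] at this
    simp [polar_sub_left, polar_sl, e, h4, pcomm a w, h1.o] at this
  obtain ⟨u, hu, -, h7⟩ := hc.exists_root (hc.shift h1 h2 1)
  have h8 : a ⋆ (u b - b) = B (a ⋆ b) w • a := by
    rw [C.br, ← hu.2.2.1, ← hu.2.1, hu.2.2.1, h7 _ j1, polar_sub_right, polar_sr]; module
  have h9 : (u b - b) ⋆ a = a := by
    rw [C.bl, ← hu.2.2.1, ← hu.2.1, hu.2.2.1, h7 _ j2, polar_sub_right, polar_sr, h4]; module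
  have h10 := C.fl (u b - b) a
  rw [h9, h8, Q_sub, hu.1, sing hb] at h10
  obtain ⟨g, h11, h12⟩ := cyc_of_opp (C := C) (a := u b) (b := b) (by rw [← hu.2.1, hb, map_zero]) hb
    fun e => h6 (by simpa [e, ha] using h10)
  refine ⟨g, (sup_le (fun x hx => ?_) le_sup_right : C.R (u b) ⊔ C.R b ≤ C.R a ⊔ C.R b) h11, h12⟩
  have h13 := (R_SA hu).conj (g := u⁻¹ * x * u) (fun y => (u.apply_symm_apply _).symm) hx
  have := mul_mem (mul_mem (Subgroup.mem_sup_left (T := C.R b) hu) (Subgroup.mem_sup_right h13))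
    (inv_mem (Subgroup.mem_sup_left hu))
  simpa [mul_assoc] using this

end CC

end CfsgH8
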