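import Cfsg.Agent.H8.Tri3
import Cfsg.Agent.H7.FldAut

set_option autoImplicit false
set_option linter.unusedSimpArgs false
set_option linter.unusedSectionVars false

namespace CfsgH8

open QuadraticMap hiding map_add map_sub map_smul map_zero map_neg sq

namespace CC

variable {F V : Type*} [Field F] [AddCommGroup V] [Module F V] {C : CC F V}

local infixl:70 " ⋆ " => C.m
local notation "B" => polar C.n

theorem SA.polar {T : V ≃+ V} {σ : F ≃+* F} {κ l : F} (hT : C.SA T σ κ l) (x y : V) :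
    B (T x) (T y) = κ * σ (B x y) := by
  simp only [QuadraticMap.polar, ← map_add, hT.mapn, map_sub]
  ring

theorem SA.rigid (h3 : (3 : F) ≠ 0) {T : V ≃+ V} {σ : F ≃+* F} {κ l : F} (hT : C.SA T σ κ l)
    {a : V} (ha : a ⋆ a = 0) (h0 : a ≠ 0) (hfix : ∀ b, b ⋆ b = 0 → ∃ s : F, T b = s • b) :
    ∃ s : F, ∀ y, T y = s • y := by
  obtain ⟨c, h⟩ := exists_frame h3 ha h0
  obtain ⟨α, h1⟩ := hfix a ha
  obtain ⟨β, h2⟩ := hfix c h.cc
  have h4 : ∀ t, σ t * (l * (C.ρ α * C.ρ (C.ρ β))) = β * t ∧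
      σ (t * C.ρ (C.ρ t)) * α = β * (t * C.ρ (C.ρ t)) := fun t => by
    obtain ⟨μ, e⟩ := hfix _ (h.conic t).cc
    simp only [map_add, map_sub, hT.smul, hT.mul, h1, h2, C.sl, C.sr] at e
    have e1 := congrArg (B · a) e
    have e2 := congrArg (B · c) e
    have e3 := congrArg (B · (c ⋆ a)) e
    simp only [polar_add_left, polar_sub_left, polar_sl, h.ca, h.ac, h.baa, h.symm.baa, h.bpa, h.bpc,
      h.symm.bpa, h.symm.bpc, h.bpq, h.symm.bpp, pcomm a (c ⋆ a), pcomm c (c ⋆ a)] at e1 e2 e3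
    exact ⟨by linear_combination e3 - t * e1, by linear_combination e2 - t * C.ρ (C.ρ t) * e1⟩
  obtain ⟨h5, rfl⟩ : l * (C.ρ α * C.ρ (C.ρ β)) = β ∧ α = β := by simpa using h4 1
  have h6 := hT.polar a c
  rw [h1, h2, polar_sl, polar_sr, h.ac, map_one] at h6
  have hα : α ≠ 0 := by
    rintro rfl
    exact hT.κ0 (by simpa using h6.symm)
  have hσ : ∀ t, σ t = t := fun t => mul_right_cancel₀ hα (by rw [← h5, (h4 t).1, h5, mul_comm])
  have hm : ∀ x y, T x = α • x → T y = α • y → T (x ⋆ y) = α • (x ⋆ y) := fun x y hx hy => by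
    rw [hT.mul, hx, hy, C.sl, C.sr, smul_smul, smul_smul, mul_assoc, h5]
  have hs : ∀ (s : F) x, T x = α • x → T (s • x) = α • s • x := fun s x hx => by
    rw [hT.smul, hσ, hx, smul_comm]
  have hd : ∀ d e, d ⋆ d = 0 → T e = α • e → B d e ≠ 0 → T d = α • d := fun d e hd he hde => by
    obtain ⟨μ, h7⟩ := hfix d hd
    have := hT.polar d e
    rw [h7, he, polar_sl, polar_sr, hσ, ← mul_assoc] at this
    rw [h7, mul_right_cancel₀ hα ((mul_right_cancel₀ hde this).trans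
      (show κ = α * α by linear_combination -h6))]
  have hv : ∀ v, C.Vv a c v → T v = α • v := fun v hv => by
    by_cases hvv : v ⋆ v = 0
    · have := hd (a + v) c (by rw [C.al, C.ar, C.ar, ha, hv.l, hv.r, hvv]; simp) h2
        (by rw [polar_add_left, h.ac, hv.o]; simp)
      rwa [map_add, h1, smul_add, add_right_inj] at this
    have e1 : (c ⋆ v + a ⋆ c) ⋆ a = v := by rw [C.al, h.cva hv, h.pa, add_zero]
    have e2 : B ((c ⋆ v + a ⋆ c) ⋆ (c ⋆ v + a ⋆ c)) a ≠ 0 := fun e => hvv (by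
      rw [C.cyc, e1, polar_add_right, pcomm v (a ⋆ c), h.bpv hv, add_zero, pcomm, C.cyc] at e
      rw [h.vw hv hv, show B (v ⋆ v) c = 0 by simpa using e, zero_smul])
    obtain ⟨s, e3⟩ := exists_abs_sq h3 ha (w := c ⋆ v + a ⋆ c)
      (by rw [pcomm, polar_add_left, (h.cv hv).o, h.bpa, add_zero])
      (by rw [Q_add, h.symm.nv (h.cv hv), h.np, pcomm, h.symm.bqv (h.cv hv)]; simp) e2
    have e4 := hm _ _ h1 (hd _ a e3 h1 (by rwa [f_add_J (J_smul ha s)]))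
    have e5 : a ⋆ ((c ⋆ v + a ⋆ c + s • a) ⋆ (c ⋆ v + a ⋆ c + s • a)) =
        (v ⋆ v) ⋆ c - (a ⋆ c) ⋆ v := by
      rw [C.fr2, C.al _ (s • a) a, e1, C.sl, ha, smul_zero, add_zero, C.al, C.al, C.sl, hv.l,
        C.fl2 c v v, pcomm c v, hv.o, pcomm a, polar_add_left, polar_add_left, polar_sl,
        (h.cv hv).o, h.bpa, h.baa]
      simp only [map_zero, zero_smul, smul_zero, add_zero, mul_zero]
      abel
    have e6 := hm (v ⋆ v) c (by rw [h.vw hv hv]; exact hs _ _ h1) h2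
    rw [e5, map_sub, e6, smul_sub, sub_right_inj] at e4
    have e7 := hm _ _ e4 (hm _ _ h2 h1)
    rwa [C.fl2, h.bpq, h.qv hv, C.zl, map_one, map_one, one_smul, sub_zero] at e7
  refine ⟨α, fun y => ?_⟩
  obtain ⟨s1, s2, s3, s4, v, w, h7, h8, rfl⟩ := h.decomp y
  simp only [fm, map_add, smul_add, hs _ _ h1, hs _ _ h2, hs _ _ (hm _ _ h1 h2), hs _ _ (hm _ _ h2 h1),
    hv v h7, hm _ _ h2 (hv w h8)]

theorem m_sum_l {ι : Type*} (s : Finset ι) (f : ι → V) (y : V) :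
    (∑ i ∈ s, f i) ⋆ y = ∑ i ∈ s, f i ⋆ y :=
  map_sum (⟨⟨fun x => x ⋆ y, C.zl y⟩, fun a b => C.al a b y⟩ : V →+ V) f s

theorem m_sum_r {ι : Type*} (s : Finset ι) (f : ι → V) (y : V) :
    y ⋆ (∑ i ∈ s, f i) = ∑ i ∈ s, y ⋆ f i :=
  map_sum (⟨⟨fun x => y ⋆ x, C.zr y⟩, fun a b => C.ar y a b⟩ : V →+ V) f s

open MvPolynomial in
theorem exists_abs [Finite F] (h3 : (3 : F) ≠ 0) (e : Fin 4 → V) (he : LinearIndependent F e)
    (hn : ∀ s : Fin 4 → F, C.n (∑ i, s i • e i) = 0) : ∃ a, a ⋆ a = 0 ∧ a ≠ 0 := by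
  classical
  obtain ⟨r, hF⟩ := CharP.exists (CfsgH7.fixF C.ρ)
  have hr := CharP.char_is_prime (CfsgH7.fixF C.ρ) r
  haveI := Fintype.ofFinite (CfsgH7.fixF C.ρ)
  let t : Fin 4 → Fin 4 → Fin 4 → CfsgH7.fixF C.ρ := fun i j k =>
    ⟨B (e i ⋆ e j) (e k) + C.ρ (B (e i ⋆ e j) (e k)) + C.ρ (C.ρ (B (e i ⋆ e j) (e k))),
      CfsgH7.mem_fixF.2 (by rw [map_add, map_add, C.ρ3]; ring)⟩
  let f : MvPolynomial (Fin 4) (CfsgH7.fixF C.ρ) :=
    ∑ i, ∑ j, ∑ k, MvPolynomial.C (t i j k) * (X i * X j * X k)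
  have h1 : f.totalDegree < Fintype.card (Fin 4) := by
    refine Nat.lt_succ_of_le (totalDegree_finsetSum_le fun i _ => totalDegree_finsetSum_le
      fun j _ => totalDegree_finsetSum_le fun k _ => (totalDegree_mul _ _).trans ?_)
    rw [totalDegree_C, zero_add]
    refine (totalDegree_mul _ _).trans (add_le_add ((totalDegree_mul _ _).trans ?_) ?_ :
      _ ≤ 2 + 1) <;> simp
  have h2 := char_dvd_card_solutions r h1
  obtain ⟨⟨s, hs⟩, hs0⟩ : ∃ s : {x : Fin 4 → CfsgH7.fixF C.ρ // eval x f = 0},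
      s ≠ ⟨0, by simp [f]⟩ := by
    by_contra! h
    rw [Fintype.card_eq_one_iff.2 ⟨_, h⟩] at h2
    exact hr.one_lt.ne' (Nat.dvd_one.1 h2)
  obtain ⟨x, hx⟩ : ∃ x, x = ∑ i, (s i : F) • e i := ⟨_, rfl⟩
  have hx0 : x ≠ 0 := fun h => hs0 (Subtype.ext (funext fun i => Subtype.ext
    (Fintype.linearIndependent_iff.1 he _ (hx ▸ h) i)))
  have hρ : ∀ i, C.ρ (s i) = s i := fun i => CfsgH7.mem_fixF.1 (s i).2
  have h4 : B (x ⋆ x) x = ∑ i, ∑ j, ∑ k, B (e i ⋆ e j) (e k) * (s i * s j * s k) := by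
    rw [hx, m_sum_l, ← polarBilin_apply_apply, map_sum (polarBilin C.n), LinearMap.sum_apply]
    refine Finset.sum_congr rfl fun i _ => ?_
    rw [m_sum_r, map_sum (polarBilin C.n), LinearMap.sum_apply]
    refine Finset.sum_congr rfl fun j _ => ?_
    rw [map_sum]
    refine Finset.sum_congr rfl fun k _ => ?_
    rw [polarBilin_apply_apply, C.sl, C.sr, hρ, hρ, hρ, polar_sl, polar_sl, polar_sr]
    ring
  have h5 : B (x ⋆ x) x = 0 := by
    have e1 := congrArg Subtype.val hs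
    have e2 := congrArg C.ρ h4
    have e3 := congrArg C.ρ e2
    simp only [← C.cyc x x x, map_sum, map_mul, hρ] at e2 e3
    simp only [f, t, map_sum, map_mul, eval_C, eval_X, AddSubmonoidClass.coe_finsetSum,
      Subfield.coe_mul, Subfield.coe_zero, add_mul, Finset.sum_add_distrib] at e1
    refine (mul_eq_zero.1 ?_).resolve_left h3
    linear_combination h4 + e2 + e3 + e1
  by_cases h6 : x ⋆ x = 0
  · exact ⟨x, h6, hx0⟩
  · exact ⟨_, by rw [sq_sq (hx ▸ hn _), h5, zero_smul], h6⟩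

end CC

end CfsgH8
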