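import Cfsg.Agent.H8.Tri4
import Cfsg.Agent.H7.Bal11
import Cfsg.Agent.H7.Triality

set_option autoImplicit false
set_option linter.unusedSimpArgs false
set_option linter.unusedSectionVars false

namespace CfsgH8

open QuadraticMap hiding map_add map_sub map_smul map_zero map_neg sq
open Module Subgroup CfsgH7

namespace CC

variable {F V : Type*} [Field F] [AddCommGroup V] [Module F V] {C : CC F V}
  {Q : QuadraticForm F V} [Finite F] [hB : Big Q] (r : ℕ) [hr : Fact r.Prime] [CharP F r]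
  {m : F} (hm : m ≠ 0) (hn : ∀ x, C.n x = m * Q x)

local infixl:70 " ⋆ " => C.m

include hn in
theorem polar_n (x y : V) : polar C.n x y = m * polar Q x y := by
  simp only [polar, hn]; ring

include hm hn r in
theorem Fr.exists_Om {a c : V} (h : C.Fr a c) {g : V ≃ₗ[F] V} (hg : g ∈ C.R a) :
    ∃ k : Om Q, k.1.1 = g := by
  haveI := Big.fd Q
  let k : OG Q := ⟨g, fun x => mul_left_cancel₀ hm (by rw [← hn, ← hn, hg.1])⟩
  let E : Submodule F V :=
    { carrier := {x | a ⋆ x = 0}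
      add_mem' := fun {x y} hx hy => by
        change a ⋆ (x + y) = 0
        rw [C.ar, hx, hy, add_zero]
      zero_mem' := C.zr a
      smul_mem' := fun s x hx => by
        change a ⋆ (s • x) = 0
        rw [C.sr, hx, smul_zero] }
  have h1 : TS Q E := fun x hx => by simpa [hn, hm] using singL h.ne hx
  have h2 : perp Q E ≤ E := fun x hx => C.nd.eq_zero fun y => by
    have := mem_perp.1 hx (y ⋆ a) (by
      change a ⋆ (y ⋆ a) = 0
      rw [C.fr, h.na, _root_.map_zero, zero_smul])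
    rw [C.cyc2, polar_n hn, this]
    simp
  have hE : MTS Q E := ⟨h1, by
    have := hB.nd.finrank_perp E
    rw [le_antisymm h2 h1.le_perp] at this
    omega⟩
  refine ⟨⟨k, mem_Om_iff.2 ⟨?_, ?_⟩⟩, rfl⟩
  · rw [← cls_ofOG hE]
    refine cls_of_fix hE hE fun x hx => ?_
    change a ⋆ g x = 0
    rw [← hg.2.2.1, ← hg.2.1, hx, _root_.map_zero]
  · by_cases h3 : r = 2
    · subst h3
      exact spinF_of_two_eq_zero hB.nd Big.good (CharP.cast_eq_zero F 2) _
    · have h4 : k ^ r ^ 3 = 1 := Subtype.ext (R_pow h hg r)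
      have := congrArg (spin hB.nd Big.good) h4
      rwa [map_pow, _root_.map_one, Int.units_pow_eq_pow_mod_two,
        Nat.odd_iff.1 (hr.out.odd_of_ne_two h3).pow, pow_one] at this

omit hr in
theorem Cyc.dvd_of {k : OG Q} (h : Cyc k.1) {j : ℕ} (hj : Phi Q (ofOG Q k) ^ j = 1) : 3 ∣ j := by
  rw [← map_pow, ← map_pow, Phi_eq_one_iff] at hj
  obtain ⟨s, hs⟩ := hj
  exact h.dvd (s := s) fun y => congrArg (fun γ : Gam Q => γ.T y) hs

include hm hn in
theorem balG (hr3 : 3 ≠ r) {x : MulAut (POm Q)}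
    (H1 : ∀ g : Om Q, (∀ a b, g.1.1 (a ⋆ b) = g.1.1 a ⋆ g.1.1 b) → x (pmk Q g) = pmk Q g)
    (H2 : ∀ y, y * x = x * y → (orderOf y).Coprime 3 → ∃ γ : Gam Q, y = Phi Q γ ∧
      ∃ l : F, l ≠ 0 ∧ ∀ a b, γ.T (a ⋆ b) = l • (γ.T a ⋆ γ.T b))
    {a : V} (ha : a ⋆ a = 0) (h0 : a ≠ 0) : BalG 3 x ∧ 3 ∣ Nat.card (POm Q) := by
  haveI := Big.fd Q
  haveI := Big.nontrivial Q
  haveI := finite_POm (Q := Q)
  have h3 : (3 : F) ≠ 0 := fun h => hr3 ((Nat.prime_dvd_prime_iff_eq hr.out Nat.prime_three).1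
    ((CharP.cast_eq_zero_iff F r 3).1 h)).symm
  have h1 : ∀ b, b ⋆ b = 0 → b ≠ 0 → ∀ g ∈ C.R b, ∃ k : Om Q, x (pmk Q k) = pmk Q k ∧ k.1.1 = g :=
    fun b hb hb0 g hg => by
      obtain ⟨c, hc⟩ := exists_frame h3 hb hb0
      obtain ⟨k, rfl⟩ := hc.exists_Om r hm hn hg
      exact ⟨k, H1 k hg.2.1, rfl⟩
  obtain ⟨k, hk, hk'⟩ : ∃ k : Om Q, x (pmk Q k) = pmk Q k ∧ Cyc k.1.1 := by
    obtain ⟨c, hc⟩ := exists_frame h3 ha h0
    obtain ⟨g, hg, hg'⟩ := hc.cyc
    obtain ⟨k, h2, rfl⟩ := (show C.R a ⊔ C.R c ≤ ((x.toMonoidHom.eqLocus (MonoidHom.id _)).comap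
      (pmk Q)).map ((OG Q).subtype.comp (Om Q).subtype) from
      sup_le (h1 a ha h0) (h1 c hc.cc hc.symm.ne)) hg
    exact ⟨k, h2, hg'⟩
  refine ⟨⟨⟨pmk Q k, fun e => ?_, hk⟩, fun _ N hN hc hnorm => ?_⟩,
    hk'.dvd_of (by rw [← conj_pmk, ← map_pow, pow_card_eq_one', _root_.map_one])⟩
  · exact absurd (hk'.dvd_of (j := 1) (by rw [← conj_pmk, e]; simp)) (by norm_num)
  rw [eq_bot_iff]
  intro y hy
  obtain ⟨γ, rfl, l, hl, h2⟩ := H2 y (mem_centralizer_singleton_iff.1 (hN hy))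
    (hc.coprime_dvd_left (orderOf_dvd_natCard N hy))
  have hT : C.SA γ.T γ.σ (m * γ.c / γ.σ m) l :=
    ⟨div_ne_zero (mul_ne_zero hm γ.c.ne_zero) (by simpa using hm), hl, γ.smul, fun v => by
      have : γ.σ m ≠ 0 := by simpa using hm
      rw [hn, hn, γ.mapQ, _root_.map_mul]
      field_simp, h2⟩
  obtain ⟨s, hs⟩ := hT.rigid h3 ha h0 fun b hb => by
    by_contra! hb'
    have hb0 : b ≠ 0 := fun e => hb' 0 (by simp [e])
    obtain ⟨g, hg, hg'⟩ := exists_cyc h3 hb hb0 (hT.abs.2 hb) (by simpa using hb0) hb'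
    let P := ((C.R b).comap (OG Q).subtype).map ((Phi Q).comp (ofOG Q))
    have h4 : P ≤ normalizer (N : Set (MulAut (POm Q))) := by
      rintro _ ⟨g, hg, rfl⟩
      obtain ⟨k, h5, h6⟩ := h1 b hb hb0 _ hg
      obtain rfl : k.1 = g := Subtype.ext h6
      exact conj_pmk k ▸ hnorm _ h5
    have h5 : (Nat.card P).Coprime 3 := by
      obtain ⟨c, hc⟩ := exists_frame h3 hb hb0
      obtain ⟨j, hj⟩ := IsPGroup.iff_card.1 (show IsPGroup r P by
        rintro ⟨_, g, hg, rfl⟩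
        refine ⟨3, Subtype.ext ?_⟩
        rw [coe_pow, ← map_pow, show g ^ r ^ 3 = 1 from Subtype.ext (R_pow hc hg r), _root_.map_one]
        rfl)
      rw [hj]
      exact ((Nat.coprime_primes hr.out Nat.prime_three).2 hr3.symm).pow_left _
    obtain ⟨k, h6, rfl⟩ := (show C.R b ⊔ C.R (γ.T b) ≤
        ((P ⊔ N).comap ((Phi Q).comp (ofOG Q))).map (OG Q).subtype from sup_le
      (fun g hg => by
        obtain ⟨k, -, rfl⟩ := h1 b hb hb0 _ hg
        exact ⟨k, mem_sup_left ⟨k, hg, rfl⟩, rfl⟩)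
      fun g hg => by
        obtain ⟨k, -, rfl⟩ := h1 _ (hT.abs.2 hb) (by simpa using hb0) _ hg
        obtain ⟨k', hk'⟩ := (SIso.og γ).surjective k
        refine ⟨k, ?_, rfl⟩
        rw [SetLike.mem_coe, mem_comap, MonoidHom.comp_apply, ← hk', ← conj_ofOG, _root_.map_mul,
          _root_.map_mul, map_inv]
        refine mul_mem (mul_mem (mem_sup_right hy) (mem_sup_left ⟨k', hT.conj (fun v => ?_) hg, rfl⟩))
          (inv_mem (mem_sup_right hy))
        rw [← hk', SIso.og_T]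
        rfl) hg
    have h7 := (Cyc.dvd_of hg' (j := Nat.card ↥(P ⊔ N)) (congrArg Subtype.val
      (pow_card_eq_one' (G := ↥(P ⊔ N)) (x := ⟨_, h6⟩)))).trans
      (CfsgL0.card_sup_dvd_of_le_normalizer h4)
    exact absurd ((h5.mul_left hc).symm.eq_one_of_dvd h7) (by norm_num)
  exact mem_bot.2 (Phi_eq_one_iff.2 (eq_scal_of_T hB.nd hs))

end CC

end CfsgH8
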