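import Cfsg.Agent.H8.Tri5
import Cfsg.Agent.H8.Semi3
import Cfsg.Agent.H7.S4Lift

set_option autoImplicit false
set_option linter.unusedSimpArgs false
set_option linter.unusedSectionVars false

namespace CfsgH8

open QuadraticMap hiding map_add map_sub map_smul map_zero map_neg sq
open Module Subgroup CfsgH7

theorem exists_CC {F V : Type*} [Field F] [AddCommGroup V] [Module F V] {Q : QuadraticForm F V}
    (hQ : ND Q) (τ : F ≃+* F) (hτ : ∀ s, τ (τ (τ s)) = s) (p : V → V → V)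
    (al : ∀ x y z, p (x + y) z = p x z + p y z) (ar : ∀ x y z, p x (y + z) = p x y + p x z)
    (sl : ∀ (s : F) x y, p (s • x) y = τ s • p x y) (sr : ∀ (s : F) x y, p x (s • y) = τ (τ s) • p x y)
    {m μ : F} (hm : m ≠ 0) (nm : ∀ x y, Q (p x y) = m * (τ (Q x) * τ (τ (Q y))))
    (cyc : ∀ x y z, polar Q (p x y) z = μ * τ (polar Q (p y z) x)) {e : V} (he : Q e ≠ 0) :
    ∃ (C : CC F V) (ν : F), ν ≠ 0 ∧ (∀ x, C.n x = m * Q x) ∧ ∀ x y, C.m x y = ν • p x y := by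
  have h0 : Q (p e e) ≠ 0 := by simp [nm, hm, he]
  have h1 : μ * τ μ * τ (τ μ) = 1 := by
    obtain ⟨z, hz⟩ := hQ.exists_one (x := p e e) (fun h => h0 (by rw [h, map_zero]))
    have := cyc e e z
    rw [cyc e z e, cyc z e e, hz] at this
    simpa [mul_assoc] using this.symm
  have h2 : p (p e e) e = (μ * τ m * τ (τ (Q e))) • e := hQ.ext fun z => by
    have := nm e (z + e)
    rw [ar, Q_add, Q_add, nm, nm, map_add, map_add, map_add, map_add] at this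
    rw [cyc, show polar Q (p e z) (p e e) = m * (τ (Q e) * τ (τ (polar Q z e))) by
      linear_combination this, polar_sl, pcomm e z]
    simp only [_root_.map_mul, hτ]
    ring
  have hμ : μ ≠ 0 := by rintro rfl; simp at h1
  have hμ' : τ μ ≠ 0 := by simpa using hμ
  have h3 : τ m = m / μ ^ 2 := by
    have := congrArg Q h2
    rw [Q_smul, nm, nm] at this
    simp only [_root_.map_mul, hτ] at this
    have h4 : τ m * τ (τ (Q e)) ^ 2 * Q e ≠ 0 := by simp [hm, he]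
    rw [eq_div_iff (pow_ne_zero 2 hμ)]
    exact mul_left_cancel₀ h4 (by linear_combination -this)
  have h4 : τ (τ μ) = (μ * τ μ)⁻¹ := eq_inv_of_mul_eq_one_right h1
  have h5 : ∀ x y, polar (m • Q) x y = m * polar Q x y := fun x y => by
    simp only [polar, smul_apply, smul_eq_mul]; ring
  refine ⟨⟨m • Q, τ, fun x y => (τ (τ μ) / μ) • p x y, hτ, ND.of_forall fun x hx =>
    hQ.eq_zero fun y => (mul_eq_zero.1 ((h5 x y).symm.trans (hx y))).resolve_left hm,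
    fun x y z => by rw [al, smul_add], fun x y z => by rw [ar, smul_add],
    fun s x y => by rw [sl, smul_comm], fun s x y => by rw [sr, smul_comm], fun x y => ?_,
    fun x y z => ?_⟩, _, div_ne_zero (by simpa using hμ) hμ, fun _ => rfl, fun _ _ => rfl⟩
  · simp only [smul_apply, smul_eq_mul, Q_smul, nm, _root_.map_mul, h3, map_div₀,
      map_pow, h4]
    field_simp
  · rw [h5, h5, polar_sl, polar_sl, cyc, _root_.map_mul, _root_.map_mul, map_div₀, hτ, h3, h4]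
    field_simp

theorem exists_S3_abs {G : Type*} [Group G] (D : Subgroup G) [D.Normal] {t r : G} (ht : t * t = 1)
    (hr : r * r = 1) (hb : (t * r) ^ 3 = 1) (hne : r⁻¹ * t ∉ D)
    (hall : ∀ P : Subgroup G, D ≤ P → t ∈ P → r ∈ P → ∀ x, x ∈ P) :
    ∃ π : G →* Equiv.Perm (Fin 3), π t = Equiv.swap 0 1 ∧ π r = Equiv.swap 1 2 ∧
      ∀ α, π α = 1 ↔ α ∈ D := by
  obtain ⟨ψ, h1, h2⟩ := exists_hom_S3 (QuotientGroup.mk' D t) (QuotientGroup.mk' D r)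
    (congrArg (QuotientGroup.mk' D) ht) (congrArg (QuotientGroup.mk' D) hr)
    (congrArg (QuotientGroup.mk' D) hb)
  have h3 := S3_injective ψ fun h => hne (QuotientGroup.eq.1 (h2.symm.trans (h.symm.trans h1)))
  have h5 : Function.Surjective ψ := fun x => by
    obtain ⟨α, rfl⟩ := QuotientGroup.mk'_surjective D x
    exact hall (ψ.range.comap (QuotientGroup.mk' D))
      (fun y hy => ⟨1, ψ.map_one.trans ((QuotientGroup.eq_one_iff _).2 hy).symm⟩) ⟨_, h1⟩ ⟨_, h2⟩ α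
  let e := MulEquiv.ofBijective ψ ⟨h3, h5⟩
  refine ⟨e.symm.toMonoidHom.comp (QuotientGroup.mk' D), e.symm_apply_eq.2 h1.symm,
    e.symm_apply_eq.2 h2.symm, fun α => ?_⟩
  rw [MonoidHom.comp_apply, MulEquiv.coe_toMonoidHom, EmbeddingLike.map_eq_one_iff,
    QuotientGroup.mk'_apply, QuotientGroup.eq_one_iff]

section

variable {F : Type*} [Field F]

/-- the para-octonion product -/
def ci (x y : V8 F) : V8 F := ob (om x y)

theorem ci_cyc (x y z : V8 F) : polar (QP 4 F) (ci x y) z = polar (QP 4 F) (ci y z) x := by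
  simp only [ci, om, oe, otr, ob, polar8, Sum.elim_inl, Sum.elim_inr,
    Matrix.cons_val, Pi.sub_apply, Pi.smul_apply, smul_eq_mul]; ring

theorem Q_ci (x y : V8 F) : QP 4 F (ci x y) = QP 4 F x * QP 4 F y := by rw [ci, Q_ob, Q_om]

theorem ob_add (x y : V8 F) : ob (x + y) = ob x + ob y := by
  simp only [ob, otr, Pi.add_apply]; module

theorem ob_smul (s : F) (x : V8 F) : ob (s • x) = s • ob x := by
  simp only [ob, otr, Pi.smul_apply, smul_eq_mul]; module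

theorem ci_al (x y z : V8 F) : ci (x + y) z = ci x z + ci y z := by rw [ci, add_om, ob_add]; rfl

theorem ci_ar (x y z : V8 F) : ci x (y + z) = ci x y + ci x z := by rw [ci, om_add, ob_add]; rfl

theorem ci_sl (s : F) (x y : V8 F) : ci (s • x) y = s • ci x y := by rw [ci, smul_om, ob_smul]; rfl

theorem ci_sr (s : F) (x y : V8 F) : ci x (s • y) = s • ci x y := by rw [ci, om_smul, ob_smul]; rfl

/-- related triples -/
def Tr (γ δ ε : Gam (QP 4 F)) : Prop := ∀ x y, γ.T (ci x y) = ci (δ.T x) (ε.T y)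

theorem Tr.mul {γ δ ε γ' δ' ε' : Gam (QP 4 F)} (h : Tr γ δ ε) (h' : Tr γ' δ' ε') :
    Tr (γ * γ') (δ * δ') (ε * ε') := fun x y => by rw [Gam.mul_T, h', h]; rfl

theorem Tr.inv {γ δ ε : Gam (QP 4 F)} (h : Tr γ δ ε) : Tr γ⁻¹ δ⁻¹ ε⁻¹ :=
  fun x y => γ.T.injective (by rw [h]; simp)

theorem Tr.σ {γ δ ε : Gam (QP 4 F)} (h : Tr γ δ ε) : δ.σ = γ.σ := RingEquiv.ext fun s => by
  have h1 := h (s • oe) oe
  rw [ci_sl, γ.smul, δ.smul, ci_sl, ← h] at h1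
  refine (smul_left_injective F (fun e => ?_) h1).symm
  have := Q_ci (oe : V8 F) oe
  rw [γ.T_eq_zero.1 e, Q_oe] at this
  simp at this

theorem Tr.cyc {γ δ ε : Gam (QP 4 F)} (h : Tr γ δ ε) : ∃ s, Tr δ ε (scal _ s * γ) :=
  ⟨δ.c / γ.c, fun y z => ND_QH.ext fun x => by
    obtain ⟨x, rfl⟩ := δ.T.surjective x
    rw [Gam.mul_T, scal_T, ci_sr, polar_sl, ← ci_cyc, ← h, δ.polar, γ.polar, ci_cyc x, h.σ,
      Units.val_div_eq_div_val, ← mul_assoc, div_mul_cancel₀ _ γ.c.ne_zero]⟩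

theorem Tr.scal {δ ε : Gam (QP 4 F)} (h : Tr 1 δ ε) : ∃ s, δ = scal _ s := by
  obtain ⟨s, h1⟩ := h.cyc
  obtain ⟨t, h2⟩ := h1.cyc
  obtain ⟨a, ha⟩ := TR.scal (δ := oρ F * ε * oρ F) (c := s) ⟨(CfsgH8.scal _ t * δ).T, fun x y => by
    have := congrArg ob (h2 x y)
    rw [mul_one] at this
    rw [Gam.mul_T, Gam.mul_T, oρ_T, oρ_T, map_neg, ob_neg, neg_neg]
    exact this.trans (ob_ob _)⟩
  have h3 : ε.T oe = (a : F) • oe := by
    have := congrArg (fun γ : Gam (QP 4 F) => ob (γ.T (ob oe))) ha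
    simp only [Gam.mul_T, oρ_T, map_neg, ob_neg, neg_neg, ob_ob, scal_T, ob_smul] at this
    exact this
  refine ⟨a⁻¹, Gam.ext ND_QH fun x => ?_⟩
  have := congrArg ob (h x oe)
  rw [h3, ci_sr, ob_smul, Gam.one_T, ci, ci, ob_ob, ob_ob, om_oe, om_oe] at this
  rw [scal_T, Units.val_inv_eq_inv_val, eq_inv_smul_iff₀ a.ne_zero, ← this]

end

universe u

variable {F : Type u} [Field F] [Finite F]

variable (F) in
/-- the standard triality -/
noncomputable def th : MulAut (POm (QP 4 F)) := tri F * Phi _ (oρ F)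

omit [Finite F] in
theorem Phi_oρ_inv : (Phi _ (oρ F))⁻¹ = Phi _ (oρ F) := by rw [← map_inv, oρ_inv]

theorem exists_Tr {γ : Gam (QP 4 F)} (h : cls MTS_stdE γ = 1) :
    ∃ δ ε, Tr γ δ ε ∧ cls MTS_stdE δ = 1 ∧ cls MTS_stdE ε = 1 ∧
      th F * Phi _ γ * (th F)⁻¹ = Phi _ δ := by
  have h1 : cls MTS_stdE (oρ F * γ * oρ F) = 1 := by simp [h, cls_oρ]
  obtain ⟨δ, h2⟩ := exists_TT h1
  obtain ⟨g, h3⟩ := h2.2.2.2.1
  have h4 : QP 4 F (δ⁻¹.T oe) ≠ 0 := by rw [Ne, SIso.Q_eq_zero, Q_oe]; exact one_ne_zero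
  refine ⟨δ, oρ F * γ * oρ F * oL _ h4, fun x y => ?_, h2.2.2.1, by rw [_root_.map_mul, h1, cls_oL]; rfl,
    ?_⟩
  · rw [Gam.mul_T, oL_T, h3, Gam.T_inv_T, oe_om, ci, ci, ← h3, Gam.mul_T, Gam.mul_T, oρ_T, oρ_T,
      map_neg, ob_neg (γ.T _), neg_neg, ob_ob]
  · rw [← tri_conj h2, th, _root_.map_mul, _root_.map_mul, mul_inv_rev, Phi_oρ_inv]
    simp only [mul_assoc]

theorem Tr.th {γ δ ε : Gam (QP 4 F)} (h : Tr γ δ ε) (hγ : cls MTS_stdE γ = 1) :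
    th F * Phi _ γ * (th F)⁻¹ = Phi _ δ := by
  obtain ⟨δ', ε', h1, -, -, h2⟩ := exists_Tr hγ
  have h3 := h1.inv.mul h
  rw [inv_mul_cancel] at h3
  obtain ⟨s, hs⟩ := h3.scal
  rw [h2, inv_mul_eq_iff_eq_mul.1 hs, _root_.map_mul, Phi_scal, mul_one]

theorem exists_S3 : ∃ π : MulAut (POm (QP 4 F)) →* Equiv.Perm (Fin 3),
    π (tri F) = Equiv.swap 0 1 ∧ π (Phi _ (oρ F)) = Equiv.swap 1 2 ∧
      ∀ α, π α = 1 ↔ ∃ γ, cls MTS_stdE γ = 1 ∧ Phi _ γ = α := by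
  let D : Subgroup (MulAut (POm (QP 4 F))) := (cls MTS_stdE).ker.map (Phi _)
  haveI : D.Normal := by
    have h1 : ∀ γ, ∀ x ∈ D, Phi _ γ * x * (Phi _ γ)⁻¹ ∈ D := by
      rintro γ _ ⟨g, hg, rfl⟩
      exact ⟨_, (MonoidHom.normal_ker _).conj_mem g hg γ, by simp⟩
    have h2 : ∀ x ∈ D, tri F * x * (tri F)⁻¹ ∈ D := by
      rintro _ ⟨g, hg, rfl⟩
      obtain ⟨δ, h1, -, h2⟩ := tri_conj_ker hg
      exact ⟨δ, h1, h2.symm⟩
    refine ⟨fun x hx α => ?_⟩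
    rcases aut_O8 α with ⟨γ, rfl⟩ | ⟨γ, δ, rfl⟩
    · exact h1 γ x hx
    · convert h1 γ _ (h2 _ (h1 δ x hx)) using 1
      group
  refine exists_S3_abs D tri_mul_self (inv_eq_iff_mul_eq_one.1 Phi_oρ_inv) tri_braid ?_ ?_
  · rintro ⟨γ, -, e⟩
    exact tri_not_mem ⟨oρ F * γ, by rw [_root_.map_mul, e, mul_inv_cancel_left]⟩
  · intro P h1 h2 h3 α
    have h4 : ∀ γ, Phi _ γ ∈ P := fun γ => by
      rcases Int.units_eq_one_or (cls MTS_stdE γ) with h | h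
      · exact h1 ⟨γ, h, rfl⟩
      · rw [← mul_mem_cancel_left h3, ← _root_.map_mul]
        exact h1 ⟨_, by simp [MonoidHom.mem_ker, h, cls_oρ], rfl⟩
    rcases aut_O8 α with ⟨γ, rfl⟩ | ⟨γ, δ, rfl⟩
    · exact h4 γ
    · exact mul_mem (mul_mem (h4 γ) h2) (h4 δ)

theorem Phi_eq_iff {γ δ : Gam (QP 4 F)} (h : Phi _ γ = Phi _ δ) : ∃ a, γ = scal _ a * δ := by
  rw [← mul_inv_eq_one, ← map_inv, ← _root_.map_mul, Phi_eq_one_iff] at h
  simpa only [mul_inv_eq_iff_eq_mul] using h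

theorem cube_aux {G : Type*} [Group G] {a b c t : G} (h1 : t * a * t⁻¹ = b) (h2 : t * b * t⁻¹ = c)
    (h3 : t ^ 3 = 1) (h : (a * t) ^ 3 = 1) : a * b * c = 1 := by
  rw [← h, ← h2, ← h1, ← mul_one (_ * _), ← h3]
  simp only [pow_three]
  group

theorem conj_aux {G : Type*} [Group G] {a b t y d e : G} (h1 : t * a * t⁻¹ = b)
    (h2 : t * y * t⁻¹ = d) (h3 : t * d * t⁻¹ = e) (h : y * (a * t) = a * t * y) :
    a * d * a⁻¹ = y ∧ a * b * e * (a * b)⁻¹ = y := by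
  have h4 : a * (t * y * t⁻¹) * a⁻¹ = y := by
    rw [← mul_assoc, ← mul_assoc, ← h]; group
  refine ⟨h2 ▸ h4, ?_⟩
  rw [← h4, ← h4, h2, ← h3, ← h1]
  group

theorem conj_aux' {G H : Type*} [Group G] [Group H] (f : H →* G) {a y : H} {t : G}
    (h : t * f y * t⁻¹ = f (a⁻¹ * y * a)) : f a * t * f y * (f a * t)⁻¹ = f y := by
  rw [mul_inv_rev, mul_assoc (f a), mul_assoc (f a), ← mul_assoc _ t⁻¹, h, _root_.map_mul,
    _root_.map_mul, map_inv]
  group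

theorem S3_aux {G : Type*} [Group G] (π : G →* Equiv.Perm (Fin 3)) {t r g y : G}
    (p1 : π t = Equiv.swap 0 1) (p2 : π r = Equiv.swap 1 2) (hg : π g = 1)
    (hy : y * (g * (t * r)) = g * (t * r) * y) (ho : (orderOf y).Coprime 3) : π y = 1 := by
  have h4 := congrArg π hy
  simp only [_root_.map_mul, hg, p1, p2] at h4
  refine eq_one_of_pow_coprime (ho.coprime_dvd_left (orderOf_map_dvd π y)) ?_
  revert h4
  generalize π y = u
  decide +revert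

theorem balG_tri (r : ℕ) [Fact r.Prime] [CharP F r] (hr : 3 ≠ r) {g : Gam (QP 4 F)}
    (hg : cls MTS_stdE g = 1) (h : (Phi _ g * th F) ^ 3 = 1) :
    BalG 3 (Phi _ g * th F) ∧ 3 ∣ Nat.card (POm (QP 4 F)) := by
  obtain ⟨g1, g2, h0, c1, c2, t0⟩ := exists_Tr hg
  obtain ⟨s1, h1⟩ := h0.cyc
  obtain ⟨s2, h2⟩ := h1.cyc
  have σ1 := h0.σ
  have σ2 := h1.σ.trans σ1
  obtain ⟨s, hs⟩ := Phi_eq_one_iff.1 (show Phi _ (g * g1 * g2) = 1 by
    rw [_root_.map_mul, _root_.map_mul]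
    exact cube_aux t0 (h1.th c1) tri_braid h)
  have hτ : ∀ a, g.σ⁻¹ (g.σ⁻¹ (g.σ⁻¹ a)) = a := fun a => by
    have := congrArg (fun γ : Gam (QP 4 F) => γ⁻¹.σ a) hs
    simpa [σ1, σ2] using this
  obtain ⟨k, hk⟩ : ∃ k : F, ∀ x y, ci (g⁻¹.T x) ((g * g1)⁻¹.T y) =
      k • g2⁻¹.T (ci x (g⁻¹.T y)) := ⟨g.σ⁻¹ s1 * g.σ⁻¹ s2, fun x y => by
    rw [h2.inv, mul_inv_rev (scal _ s1), mul_inv_rev (scal _ s2), ← map_inv, ← map_inv, mul_inv_rev]
    simp only [Gam.mul_T, scal_T, SIso.smul, ci_sl, ci_sr, smul_smul, Gam.inv_σ, σ1,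
      Units.val_inv_eq_inv_val, map_inv₀]
    have e1 : g.σ⁻¹ s1 ≠ 0 := by simp
    have e2 : g.σ⁻¹ s2 ≠ 0 := by simp
    match_scalars
    field_simp⟩
  obtain ⟨C, ν, hν, hn, hC⟩ := exists_CC (Q := QP 4 F) ND_QH g.σ⁻¹ hτ
    (fun x y => ci (g⁻¹.T x) ((g * g1)⁻¹.T y)) (fun x y z => by rw [map_add, ci_al])
    (fun x y z => by rw [map_add, ci_ar]) (fun a x y => by rw [SIso.smul, ci_sl]; rfl)
    (fun a x y => by rw [SIso.smul, ci_sr]; simp [σ1])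
    (m := g⁻¹.c * (g * g1)⁻¹.c) (μ := k * g2⁻¹.c * s) (by simp)
    (fun x y => by rw [Q_ci, SIso.mapQ, SIso.mapQ]; simp [σ1]; ring)
    (fun x y z => by
      have e : g2.T z = g.σ s • (g * g1)⁻¹.T z := by
        rw [eq_inv_mul_iff_mul_eq.2 hs, Gam.mul_T, scal_T, SIso.smul]
        congr 1
        rw [← hτ (g.σ s)]
        simp [σ1]
      rw [hk, ← Gam.inv_T_T g2 z, polar_sl, SIso.polar, Gam.inv_T_T, e, polar_sr, ci_cyc]
      simp [σ2, mul_assoc]) (e := oe) (by rw [Q_oe]; exact one_ne_zero)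
  have h3 : (3 : F) ≠ 0 := fun h => hr ((Nat.prime_dvd_prime_iff_eq Fact.out Nat.prime_three).1
    ((CharP.cast_eq_zero_iff F r 3).1 h)).symm
  obtain ⟨a, ha, ha0⟩ := CC.exists_abs (C := C) h3 (fun i => Pi.single (.inl i) 1)
    ((Pi.linearIndependent_single_one _ F).comp _ Sum.inl_injective) fun s => by
      simp [hn, Q8, Fin.sum_univ_four]
  refine CC.balG r (by simp) hn hr (fun k hk => ?_) (fun y hy ho => ?_) ha ha0
  · have h4 : Tr (ofOG _ k) (g⁻¹ * ofOG _ k * g) ((g * g1)⁻¹ * ofOG _ k * (g * g1)) := fun x y => by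
      have := hk (g.T x) ((g * g1).T y)
      rw [hC, hC, map_smul, Gam.inv_T_T, Gam.inv_T_T] at this
      exact smul_right_injective _ hν this
    have h5 := h4.th ((mem_Dg_QH rfl).1 (sc_Om_le_Dg (ofOG_mem_sc k.2)))
    refine conj_POm_injective ?_
    rw [← aut_conj_conj, conj_pmk]
    exact conj_aux' _ h5
  obtain ⟨π, p1, p2, p3⟩ := exists_S3 (F := F)
  obtain ⟨γ, hγ, rfl⟩ := (p3 y).1 (S3_aux π p1 p2 ((p3 _).2 ⟨g, hg, rfl⟩) hy ho)
  obtain ⟨δ, ε, h4, c3, -, t1⟩ := exists_Tr hγ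
  obtain ⟨s3, h5⟩ := h4.cyc
  obtain ⟨h6, h7⟩ := conj_aux t0 t1 (h5.th c3) hy
  obtain ⟨u, hu⟩ := Phi_eq_iff (γ := g * δ * g⁻¹) (by
    simpa only [_root_.map_mul, map_inv] using h6)
  obtain ⟨w, hw⟩ := Phi_eq_iff (γ := g * g1 * ε * (g * g1)⁻¹) (by
    simpa only [_root_.map_mul, map_inv] using h7)
  refine ⟨γ, rfl, γ.σ ν * g⁻¹.σ u * (g * g1)⁻¹.σ w / ν, by simp [hν], fun x y => ?_⟩
  have h8 := congrArg (fun γ : Gam (QP 4 F) => g⁻¹.T (γ.T x)) hu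
  have h9 := congrArg (fun γ : Gam (QP 4 F) => (g * g1)⁻¹.T (γ.T y)) hw
  simp only [Gam.mul_T (_ * _), Gam.mul_T _ δ, Gam.mul_T _ ε, Gam.inv_T_T, Gam.mul_T _ γ, scal_T,
    SIso.smul] at h8 h9
  rw [hC, hC, γ.smul, h4, h8, h9, ci_sl, ci_sr, smul_smul, smul_smul, smul_smul,
    div_mul_cancel₀ _ hν]

end CfsgH8
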