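import Cfsg.Agent.H8.ObDesc
import Cfsg.Agent.H8.Gf

set_option autoImplicit false
set_option linter.unusedSectionVars false

namespace CfsgH8

open Module PowerSeries

universe u

lemma LeC.lift {α β γ : Type*} {c : α → β} {S : Set α} {w : α → ℕ} {N : ℕ} {a : ℕ⟦X⟧}
    (R : α → γ → Prop) (h : ∀ x ∈ S, ∃ y, R x y)
    (h' : LeC (fun p : α × γ => c p.1) {p | p.1 ∈ S ∧ R p.1 p.2} (fun p => w p.1) N a) :
    LeC c S w N a :=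
  h'.of_rel (fun x p => p.1 = x) (fun x hx _ => (h x hx).elim fun y hy => ⟨(x, y), ⟨hx, hy⟩, rfl, rfl⟩)
    (by rintro _ - _ - p p' - rfl rfl e; exact e)

lemma LeC.two {α β : Type*} {c : α → β} {S : Set α} {w : α → ℕ} {N : ℕ} {a : ℕ⟦X⟧} (τ : α → Prop)
    (h : ∀ T ⊆ S, (∀ x ∈ T, ∀ y ∈ T, τ x ↔ τ y) → LeC c T w N a) : LeC c S w N (2 * a) := by
  rw [two_mul]
  exact LeC.split τ (h _ (fun _ hx => hx.1) fun _ hx _ hy => iff_of_true hx.2 hy.2)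
    (h _ (fun _ hx => hx.1) fun _ hx _ hy => iff_of_false hx.2 hy.2)

lemma PLe.one_add_two {j : ℕ} (hj : 0 < j) :
    PLe (1 + 2 * (ser 1 j * X ^ j)) ((1 + X ^ j) ^ 2 * ser 1 (2 * j)) := by
  refine ((PLe.refl 1).add ((PLe.refl 2).mul ((PLe.geo_two hj).mul (PLe.refl _)))).trans
    (PLe.of_eq ?_)
  have := geo_eq (show 0 < 2 * j by omega)
  rw [show (1 + X ^ j) ^ 2 * ser 1 (2 * j) = ser 1 (2 * j) + (2 * X ^ j + X ^ (2 * j)) *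
    ser 1 (2 * j) by ring]
  conv_rhs => enter [1]; rw [this]
  ring

namespace Ob

variable {F : Type u} [Field F] {o o' o₁ o₁' : Ob F} {N k : ℕ} {a c h : ℕ⟦X⟧}

noncomputable def wt (k : ℕ) (o : Ob F) : ℕ := o.dim + 2 * k * o.fx

noncomputable def ma (p : Ob F × Ob F) : ℕ := p.1.dim - p.1.fx - p.2.dim - p.2.fx

noncomputable def mb (p : Ob F × Ob F) : ℕ := 2 * p.1.fx + p.2.dim - p.1.dim

def Dm (p : Ob F × Ob F) : Prop :=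
  p.1.dim = p.1.fx + p.2.dim + p.2.fx + ma p ∧ p.1.fx = p.2.fx + ma p + mb p

lemma DsA.dm {p : Ob F × Ob F} (h : Gd p.1) (d : DsA p.1 p.2) : Dm p ∧ 2 * (ma p / 2) = ma p := by
  obtain ⟨m, m', h1, h2⟩ := d.dims h
  simp only [Dm, ma, mb]; omega

lemma DsN.dm {p : Ob F × Ob F} (h : Gd p.1) (d : DsN p.1 p.2) : Dm p ∧ ma p - 1 + 1 = ma p := by
  obtain ⟨m, m', h1, h2⟩ := d.dims h
  simp only [Dm, ma, mb]; omega

lemma Dm.wt_eq {p : Ob F × Ob F} (h : Dm p) (k : ℕ) :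
    wt k p.1 = wt (k + 1) p.2 + (2 * k + 2) * ma p + (2 * k + 1) * mb p := by
  rw [wt, wt, h.1, h.2]; ring

lemma Dm.eq {p p' : Ob F × Ob F} (h : Dm p) (h' : Dm p') (h1 : ma p = ma p') (h2 : mb p = mb p')
    (e : Eqv p.2 p'.2) : p.1.dim = p'.1.dim ∧ p.1.fx = p'.1.fx := by
  have := e.dim_eq
  have := e.fx_eq
  unfold Dm at *; omega

lemma Dm.mb_zero {p : Ob F × Ob F} (h : Dm p) : mb p = 0 ↔ p.1.dim = 2 * p.1.fx + p.2.dim := by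
  unfold Dm at *; omega

lemma base {S : Set (Ob F)} (hS : ∀ o ∈ S, Unip o) (hN : N < 2 * k) {o : Ob F} (ho : o ∈ S)
    (h : wt k o ≤ N) : o.dim = 0 ∧ wt k o = 0 := by
  have h1 : o.fx = 0 := by
    by_contra h1
    have : 2 * k * 1 ≤ 2 * k * o.fx := Nat.mul_le_mul_left _ (by omega)
    unfold wt at h; omega
  have := (hS o ho).dim_eq h1
  simp [wt, this, h1]

lemma base_one {S : Set (Ob F)} (hS : ∀ o ∈ S, Unip o) (hN : N < 2 * k) :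
    LeC cl S (wt k) N 1 := by
  rw [← pow_zero X]
  exact LeC.pow (fun o ho h => (base hS hN ho h).2) fun o _ o' _ h h' =>
    cl_eq.2 (eqv_of_dim_zero (by unfold wt at h; omega) (by unfold wt at h'; omega))

/-- unipotent isometries of quadratic spaces -/
def UO (F : Type u) [Field F] : Set (Ob F) := {o | IsO o ∧ Unip o}

/-- unipotent isometries of symplectic spaces -/
def US (F : Type u) [Field F] : Set (Ob F) := {o | IsS o ∧ Unip o}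

/-- all odd Jordan blocks are absent -/
inductive Ev : Ob F → Prop
  | zero (o : Ob F) (h : o.dim = 0) : Ev o
  | step (o o₁ : Ob F) (h1 : Unip o₁) (h2 : DsA o o₁) (h3 : mb (o, o₁) = 0) (h4 : Ev o₁) : Ev o

/-- the forms are determined by the numerical invariants -/
def Mono (S : Set (Ob F)) : Prop :=
  ∀ o ∈ S, ∀ o' ∈ S, o.dim = o'.dim → o.fx = o'.fx → Iso o.Q o'.Q

/-- fibres of the descent map -/
lemma fibA {S : Set (Ob F × Ob F)} {T : Set (Ob F)} (h : LeC cl T (wt k) N a) (h1 : ∀ p ∈ S, IsO p.1 ∧ DsA p.1 p.2 ∧ p.2 ∈ T)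
    (h2 : ∀ p ∈ S, ∀ p' ∈ S, ma p / 2 = ma p' / 2 ∧ mb p = mb p' ∧
      (mb p ≠ 0 → p.1.dim = p'.1.dim → p.1.fx = p'.1.fx → Iso p.1.Q p'.1.Q)) :
    LeC (fun p => cl p.1) S (fun p => wt k p.2) N a := by
  refine h.of_map Prod.snd (fun p hp => ⟨(h1 p hp).2.2, rfl⟩) fun p hp p' hp' _ e => ?_
  obtain ⟨a1, a2, -⟩ := h1 p hp
  obtain ⟨b1, b2, -⟩ := h1 p' hp'
  obtain ⟨c1, c2, c3⟩ := h2 p hp p' hp'
  obtain ⟨d1, d2⟩ := a2.dm a1.gd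
  obtain ⟨e1, e2⟩ := b2.dm b1.gd
  have e := cl_eq.1 e
  obtain ⟨f1, f2⟩ := d1.eq e1 (by omega) c2 e
  refine cl_eq.2 ((a2.wEq b2 e f1 f2).eqv_O a1 b1 ?_)
  by_cases h0 : mb p = 0
  · exact (a2.iso_iff a1 b1 b2 (d1.mb_zero.1 h0) (e1.mb_zero.1 (c2 ▸ h0)) f2).2 e.iso
  · exact c3 h0 f1 f2

section odd

variable (h2 : (2 : F) ≠ 0)
include h2

lemma exists_dsA (h : o ∈ UO F) : ∃ o₁, Unip o₁ ∧ DsA o o₁ := by
  obtain ⟨o₁, h1, h3 | h3⟩ := h.1.gd.exists_ds h.2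
  · exact ⟨o₁, h1, h3⟩
  · exact absurd h3.1 h2

lemma ev_step (h : LeC cl {o | o ∈ UO F ∧ Ev o} (wt (k + 1)) N c) :
    LeC cl {o | o ∈ UO F ∧ Ev o} (wt k) N (c * ser 1 (2 * (2 * k + 2))) := by
  refine LeC.lift (fun o o₁ => Unip o₁ ∧ DsA o o₁ ∧ mb (o, o₁) = 0 ∧ Ev o₁) ?_
    (LeC.geo (by omega) (fun p => ma p / 2) (fun p => wt (k + 1) p.2) (fun p hp => ?_) fun i =>
      fibA h (fun p hp => ⟨hp.1.1.1.1, hp.1.2.2.1, ⟨hp.1.2.2.1.1, hp.1.2.1⟩, hp.1.2.2.2.2⟩)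
        fun p hp p' hp' => ⟨hp.2.trans hp'.2.symm, hp.1.2.2.2.1.trans hp'.1.2.2.2.1.symm,
          fun h => absurd hp.1.2.2.2.1 h⟩)
  · rintro o ⟨ho, _ | ⟨_, o₁, h1, h3, h4, h5⟩⟩
    · obtain ⟨o₁, h1, h3⟩ := exists_dsA h2 ho
      obtain ⟨m, m', e1, e2⟩ := h3.dims ho.1.gd
      exact ⟨o₁, h1, h3, by simp only [mb]; omega, Ev.zero _ (by omega)⟩
    · exact ⟨o₁, h1, h3, h4, h5⟩
  · obtain ⟨d1, d2⟩ := hp.2.2.1.dm hp.1.1.1.gd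
    rw [d1.wt_eq k, hp.2.2.2.1, mul_comm 2 (2 * k + 2), mul_assoc, d2]; rfl

/-- bound for families of fixed type -/
def HB (F : Type u) [Field F] (k N : ℕ) (h : ℕ⟦X⟧) : Prop :=
  ∀ S ⊆ {o | o ∈ UO F ∧ ¬ Ev o}, Mono S → LeC cl S (wt k) N h

lemma hb_step (hh : HB F (k + 1) N h) (ha : LeC cl (UO F) (wt (k + 1)) N a) {S : Set (Ob F)}
    (hS : S ⊆ {o | o ∈ UO F ∧ ¬ Ev o}) (hm : Mono S) {b : ℕ⟦X⟧}
    (hb : ∀ T : Set (Ob F × Ob F), (∀ p ∈ T, p.1 ∈ S ∧ DsA p.1 p.2 ∧ mb p ≠ 0) →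
      (∀ i, LeC (fun p => cl p.1) {p | p ∈ T ∧ mb p - 1 = i} (fun p => wt (k + 1) p.2) N a) →
      LeC (fun p => cl p.1) T (fun p => wt (k + 1) p.2 + (2 * k + 1) * (mb p - 1)) N b) :
    LeC cl S (wt k) N ((h + b * X ^ (2 * k + 1)) * ser 1 (2 * (2 * k + 2))) := by
  refine LeC.lift (fun o o₁ => Unip o₁ ∧ DsA o o₁) (fun o ho => exists_dsA h2 (hS ho).1)
    (LeC.geo (by omega) (fun p => ma p / 2) (fun p => wt (k + 1) p.2 + (2 * k + 1) * mb p)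
      (fun p hp => ?_) fun i => LeC.split (fun p => mb p = 0) ?_ ?_)
  · obtain ⟨d1, d2⟩ := hp.2.2.dm (hS hp.1).1.1.gd
    rw [d1.wt_eq k, mul_comm 2 (2 * k + 2), mul_assoc, d2]; ring
  · refine LeC.congr_wt (fibA (hh (Prod.snd '' _) ?_ ?_)
      (fun p hp => ⟨(hS hp.1.1.1).1.1, hp.1.1.2.2, Set.mem_image_of_mem _ hp⟩)
        fun p hp p' hp' => ⟨hp.1.2.trans hp'.1.2.symm, hp.2.trans hp'.2.symm,
          fun h => absurd hp.2 h⟩) fun p hp => by simp [hp.2]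
    · rintro _ ⟨p, hp, rfl⟩
      exact ⟨⟨hp.1.1.2.2.1, hp.1.1.2.1⟩, fun h =>
        (hS hp.1.1.1).2 (Ev.step _ _ hp.1.1.2.1 hp.1.1.2.2 hp.2 h)⟩
    · rintro _ ⟨p, hp, rfl⟩ _ ⟨p', hp', rfl⟩ e1 e2
      have a1 := (hS hp.1.1.1).1.1
      have b1 := (hS hp'.1.1.1).1.1
      obtain ⟨d1, d2⟩ := hp.1.1.2.2.dm a1.gd
      obtain ⟨d3, d4⟩ := hp'.1.1.2.2.dm b1.gd
      have f1 := hp.1.2
      have f2 := hp'.1.2
      have f3 := hp.2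
      have f4 := hp'.2
      have f5 : p.1.dim = p'.1.dim ∧ p.1.fx = p'.1.fx := by
        simp only [Dm] at *; omega
      exact (hp.1.1.2.2.iso_iff a1 b1 hp'.1.1.2.2 (d1.mb_zero.1 f3) (d3.mb_zero.1 f4) f5.2).1
        (hm _ hp.1.1.1 _ hp'.1.1.1 f5.1 f5.2)
  · refine LeC.shift _ _ (fun p hp => ?_) (hb _ (fun p hp => ⟨hp.1.1.1, hp.1.1.2.2, hp.2⟩) fun j =>
      fibA ha (fun p hp => ⟨(hS hp.1.1.1.1).1.1, hp.1.1.1.2.2, hp.1.1.1.2.2.1, hp.1.1.1.2.1⟩)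
        fun p hp p' hp' => ⟨hp.1.1.2.trans hp'.1.1.2.symm, ?_,
          fun _ => hm _ hp.1.1.1.1 _ hp'.1.1.1.1⟩)
    · rw [add_assoc _ _ (2 * k + 1), ← mul_add_one (2 * k + 1),
        Nat.sub_add_cancel (Nat.one_le_iff_ne_zero.2 hp.2)]
    · have := hp.1.2; have := hp'.1.2; have := hp.2; have := hp'.2; omega

omit h2 in
lemma total [Finite F] {S : Set (Ob F)} (hS : S ⊆ UO F) {w : Ob F → ℕ}
    (hh : ∀ T ⊆ {o | o ∈ S ∧ ¬ Ev o}, Mono T → LeC cl T w N h)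
    (hc : LeC cl {o | o ∈ UO F ∧ Ev o} w N c) : LeC cl S w N (c + 2 * h) := by
  obtain ⟨τ, hτ⟩ := exists_typ (F := F)
  exact LeC.split Ev (hc.subset fun o ho => ⟨hS ho.1, ho.2⟩) (LeC.two τ fun T hT h => hh T hT
    fun o ho o' ho' e _ => hτ o o' (hS (hT ho).1).1 (hS (hT ho').1).1 e (h o ho o' ho'))

theorem odd_rec [Finite F] (d k : ℕ) (hN : N < 2 * (k + d)) : ∃ h, HB F k N h ∧
    LeC cl {o | o ∈ UO F ∧ Ev o} (wt k) N (∏ i ∈ Finset.range d, ser 1 (2 * (2 * (k + i) + 2))) ∧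
    PLe (∏ i ∈ Finset.range d, ser 1 (2 * (2 * (k + i) + 2)) + 2 * h)
      (∏ i ∈ Finset.range d, ((1 + X ^ (2 * (k + i) + 1)) ^ 2 * ser 1 (2 * (2 * (k + i) + 1)) *
        ser 1 (2 * (2 * (k + i) + 2)))) := by
  induction d generalizing k with
  | zero =>
    exact ⟨0, fun S hS _ => LeC.zero fun o ho => lt_of_not_ge fun h => (hS ho).2
      (Ev.zero _ (base (fun o ho => (hS ho).1.2) hN ho h).1),
      base_one (fun o ho => ho.1.2) hN, PLe.of_eq (by simp)⟩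
  | succ d ih =>
    obtain ⟨h, h1, h3, h4⟩ := ih (k + 1) (by omega)
    simp only [Finset.prod_range_succ', add_zero, ← add_assoc, add_right_comm k _ 1]
    refine ⟨_, fun S hS hm => hb_step h2 h1 (total subset_rfl h1 h3) hS hm fun T _ h =>
      LeC.geo (by omega) (fun p => mb p - 1) _ (fun _ _ => rfl) h, ev_step h2 h3, ?_⟩
    refine PLe.trans (PLe.of_eq ?_)
      (h4.mul ((PLe.one_add_two (show 0 < 2 * k + 1 by omega)).mul (PLe.refl _)))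
    ring

end odd

section two

variable [Finite F] [CharP F 2]

lemma even_dim (h : Gd o) (h' : IsO o ∨ IsS o) : Even o.dim :=
  CfsgH1.even_finrank_of_alt (B := o.B) (h'.elim (fun h x => by
    simp [h.B_eq, polar_self', CharTwo.two_eq_zero]) fun h => h.alt) h.nd

lemma mb_even {p : Ob F × Ob F} (h : Dm p) (h1 : Even p.1.dim) (h2 : Even p.2.dim) :
    2 * (mb p / 2) = mb p := by
  rw [Nat.even_iff] at h1 h2
  unfold Dm at h; omega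

lemma two_split {S : Set (Ob F)} (hS : ∀ o ∈ S, Gd o ∧ Unip o ∧ Even o.dim) {b : ℕ⟦X⟧}
    (ha : ∀ i, LeC (fun p : Ob F × Ob F => cl p.1)
      {p | p ∈ {p | p.1 ∈ S ∧ Unip p.2 ∧ DsA p.1 p.2} ∧ ma p / 2 = i}
      (fun p => wt (k + 1) p.2 + 2 * (2 * k + 1) * (mb p / 2)) N a)
    (hb : ∀ i j, LeC (fun p : Ob F × Ob F => cl p.1)
      {p | p ∈ {p | p ∈ {p | p.1 ∈ S ∧ Unip p.2 ∧ DsN p.1 p.2} ∧ ma p - 1 = i} ∧ mb p / 2 = j}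
      (fun p => wt (k + 1) p.2) N b) :
    LeC cl S (wt k) N (a * ser 1 (2 * (2 * k + 2)) +
      b * ser 1 (2 * (2 * k + 1)) * ser 1 (2 * k + 2) * X ^ (2 * k + 2)) := by
  refine LeC.lift (fun o o₁ => Unip o₁ ∧ (DsA o o₁ ∨ DsN o o₁)) (fun o ho => ?_)
    (LeC.split (fun p => DsA p.1 p.2) (LeC.subset
      (LeC.geo (by omega) (fun p => ma p / 2) _ (fun p hp => ?_) ha)
        fun p hp => ⟨hp.1.1, hp.1.2.1, hp.2⟩)
      (LeC.subset (S' := {p | p.1 ∈ S ∧ Unip p.2 ∧ DsN p.1 p.2})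
        (LeC.shift _ (fun p => wt (k + 1) p.2 + 2 * (2 * k + 1) * (mb p / 2) +
          (2 * k + 2) * (ma p - 1)) (fun p hp => ?_) (LeC.geo (by omega) (fun p => ma p - 1) _
            (fun _ _ => rfl) fun i => LeC.geo (by omega) (fun p => mb p / 2) _ (fun _ _ => rfl)
              (hb i))) fun p hp => ⟨hp.1.1, hp.1.2.1, hp.1.2.2.resolve_left hp.2⟩))
  · obtain ⟨o₁, h1, h2⟩ := (hS o ho).1.exists_ds (hS o ho).2.1
    exact ⟨o₁, h1, h2.imp id fun h => h.2⟩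
  · obtain ⟨d1, d2⟩ := hp.2.2.dm (hS _ hp.1).1
    have d3 := mb_even d1 (hS _ hp.1).2.2 (even_dim hp.2.2.1.gd (Or.inl hp.2.2.1))
    rw [d1.wt_eq k, mul_comm 2 (2 * k + 2), mul_assoc (2 * k + 2), d2, mul_comm 2 (2 * k + 1),
      mul_assoc (2 * k + 1), d3]
    ring
  · obtain ⟨d1, d2⟩ := hp.2.2.dm (hS _ hp.1).1
    have d3 := mb_even d1 (hS _ hp.1).2.2 (even_dim hp.2.2.1.toGd (Or.inr hp.2.2.1))
    rw [d1.wt_eq k, add_assoc _ _ (2 * k + 2), ← mul_add_one (2 * k + 2), d2,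
      mul_comm 2 (2 * k + 1), mul_assoc (2 * k + 1), d3]
    ring

lemma dims_eq {p p' : Ob F × Ob F} (h : Dm p) (h' : Dm p') (e1 : Even p.1.dim) (e2 : Even p.2.dim)
    (e3 : Even p'.1.dim) (h1 : ma p = ma p') (h2 : mb p / 2 = mb p' / 2) (e : Eqv p.2 p'.2) :
    p.1.dim = p'.1.dim ∧ p.1.fx = p'.1.fx := by
  have := mb_even h e1 e2
  have := mb_even h' e3 (e.dim_eq ▸ e2)
  exact h.eq h' h1 (by omega) e

lemma s_step {s : ℕ⟦X⟧} (ha : LeC cl (UO F) (wt (k + 1)) N a) (hs : LeC cl (US F) (wt (k + 1)) N s) :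
    LeC cl (US F) (wt k) N (a * ser 1 (2 * (2 * k + 1)) * ser 1 (2 * (2 * k + 2)) +
      s * ser 1 (2 * (2 * k + 1)) * ser 1 (2 * k + 2) * X ^ (2 * k + 2)) := by
  have he : ∀ o ∈ US F, Even o.dim := fun o ho => even_dim ho.1.toGd (Or.inr ho.1)
  refine two_split (fun o ho => ⟨ho.1.toGd, ho.2, he o ho⟩)
    (fun i => LeC.geo (by omega) (fun p => mb p / 2) _ (fun _ _ => rfl) fun j =>
      ha.of_map Prod.snd (fun p hp => ⟨⟨hp.1.1.2.2.1, hp.1.1.2.1⟩, rfl⟩)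
        fun p hp p' hp' _ e => ?_)
    fun i j => hs.of_map Prod.snd (fun p hp => ⟨⟨hp.1.1.2.2.1, hp.1.1.2.1⟩, rfl⟩)
      fun p hp p' hp' _ e => ?_
  · obtain ⟨⟨⟨a1, -, a2⟩, a3⟩, a4⟩ := hp
    obtain ⟨⟨⟨b1, -, b2⟩, b3⟩, b4⟩ := hp'
    obtain ⟨d1, d2⟩ := a2.dm a1.1.toGd
    obtain ⟨e1, e2⟩ := b2.dm b1.1.toGd
    obtain ⟨f1, f2⟩ := dims_eq d1 e1 (he _ a1) (even_dim a2.1.gd (Or.inl a2.1)) (he _ b1)
      (by omega) (a4.trans b4.symm) (cl_eq.1 e)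
    exact cl_eq.2 ((a2.wEq b2 (cl_eq.1 e) f1 f2).eqv_S a1.1 b1.1 f1)
  · obtain ⟨⟨⟨a1, -, a2⟩, a3⟩, a4⟩ := hp
    obtain ⟨⟨⟨b1, -, b2⟩, b3⟩, b4⟩ := hp'
    obtain ⟨d1, d2⟩ := a2.dm a1.1.toGd
    obtain ⟨e1, e2⟩ := b2.dm b1.1.toGd
    obtain ⟨f1, f2⟩ := dims_eq d1 e1 (he _ a1) (even_dim a2.1.toGd (Or.inr a2.1)) (he _ b1)
      (by omega) (a4.trans b4.symm) (cl_eq.1 e)
    exact cl_eq.2 ((a2.wEq b2 (cl_eq.1 e) f1 f2).eqv_S a1.1 b1.1 f1)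

lemma o_step {s : ℕ⟦X⟧} (ha : LeC cl (UO F) (wt (k + 1)) N a) (hs : LeC cl (US F) (wt (k + 1)) N s) :
    LeC cl (UO F) (wt k) N ((a + 2 * a * ser 1 (2 * (2 * k + 1)) * X ^ (2 * (2 * k + 1))) *
      ser 1 (2 * (2 * k + 2)) +
      2 * s * ser 1 (2 * (2 * k + 1)) * ser 1 (2 * k + 2) * X ^ (2 * k + 2)) := by
  obtain ⟨τ, hτ⟩ := exists_typ (F := F)
  have he : ∀ o ∈ UO F, Even o.dim := fun o ho => even_dim ho.1.gd (Or.inl ho.1)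
  have hb : ∀ p : Ob F × Ob F, p.1 ∈ UO F → DsA p.1 p.2 → 2 * (mb p / 2) = mb p := fun p h1 h2 =>
    mb_even (h2.dm h1.1.gd).1 (he _ h1) (even_dim h2.1.gd (Or.inl h2.1))
  refine two_split (fun o ho => ⟨ho.1.gd, ho.2, he o ho⟩)
    (fun i => LeC.split (fun p => mb p = 0) (LeC.congr_wt
      (fibA ha (fun p hp => ⟨hp.1.1.1.1, hp.1.1.2.2, hp.1.1.2.2.1, hp.1.1.2.1⟩)
        fun p hp p' hp' => ⟨hp.1.2.trans hp'.1.2.symm, hp.2.trans hp'.2.symm,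
          fun h => absurd hp.2 h⟩) fun p hp => by simp [hp.2])
      (LeC.shift _ (fun p => wt (k + 1) p.2 + 2 * (2 * k + 1) * (mb p / 2 - 1)) (fun p hp => ?_)
        (LeC.geo (by omega) (fun p => mb p / 2 - 1) _ (fun _ _ => rfl) fun j =>
          LeC.two (fun p => τ p.1) fun T hT h => fibA ha
            (fun p hp => ⟨(hT hp).1.1.1.1.1, (hT hp).1.1.1.2.2, (hT hp).1.1.1.2.2.1,
              (hT hp).1.1.1.2.1⟩) fun p hp p' hp' => ?_)))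
    fun i j => LeC.two (fun p => τ p.1) fun T hT h => hs.of_map Prod.snd
      (fun p hp => ⟨⟨(hT hp).1.1.2.2.1, (hT hp).1.1.2.1⟩, rfl⟩) fun p hp p' hp' _ e => ?_
  · have := hb p hp.1.1.1 hp.1.1.2.2
    have := hp.2
    rw [add_assoc _ _ (2 * (2 * k + 1)), ← mul_add_one (2 * (2 * k + 1)),
      Nat.sub_add_cancel (by omega)]
  · obtain ⟨⟨⟨⟨a1, -, a2⟩, a3⟩, a4⟩, a5⟩ := hT hp
    obtain ⟨⟨⟨⟨b1, -, b2⟩, b3⟩, b4⟩, b5⟩ := hT hp'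
    have := hb p a1 a2
    have := hb p' b1 b2
    exact ⟨a3.trans b3.symm, by omega, fun _ e _ => hτ _ _ a1.1 b1.1 e (h p hp p' hp')⟩
  · obtain ⟨⟨⟨a1, -, a2⟩, a3⟩, a4⟩ := hT hp
    obtain ⟨⟨⟨b1, -, b2⟩, b3⟩, b4⟩ := hT hp'
    obtain ⟨d1, d2⟩ := a2.dm a1.1.gd
    obtain ⟨e1, e2⟩ := b2.dm b1.1.gd
    obtain ⟨f1, f2⟩ := dims_eq d1 e1 (he _ a1) (even_dim a2.1.toGd (Or.inr a2.1)) (he _ b1)
      (by omega) (a4.trans b4.symm) (cl_eq.1 e)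
    exact cl_eq.2 ((a2.wEq b2 (cl_eq.1 e) f1 f2).eqv_O a1.1 b1.1
      (hτ _ _ a1.1 b1.1 f1 (h p hp p' hp')))

end two

end Ob

end CfsgH8
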